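import Mathlib
import Cfsg.Agent.Lib.Helper16.ZQDef

/-!
# D-QUAT (helper73, for helper16's Zassenhaus project)

Quaternion coordinates `q4 I J α β γ δ = α + β I + γ J + δ (I J)` over the centralizer of
`I, J` (with `I² = J² = -1`, `J I = -I J`, `2` invertible): uniqueness, existence,
multiplication.
-/

set_option autoImplicit false
set_option linter.unusedSimpArgs false

namespace Cfsg.Agent.Lib.Helper73.Quat4

open Cfsg.Agent.Lib.Helper16.Zas

variable {R : Type*} [Ring R] {I J h : R}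

/-- The averaging operator `Y ↦ Y - I Y I - J Y J - K Y K`. -/
def T4 (I J Y : R) : R := Y - I * Y * I - J * Y * J - (I * J) * Y * (I * J)

theorem T4_cen (hI : I * I = -1) (hJ : J * J = -1) (hJI : J * I = -(I * J)) (Y : R) :
    Cen I J (T4 I J Y) := by
  have hI' : ∀ r : R, I * (I * r) = -r := fun r => by rw [← mul_assoc, hI, neg_mul, one_mul]
  have hJ' : ∀ r : R, J * (J * r) = -r := fun r => by rw [← mul_assoc, hJ, neg_mul, one_mul]
  have hJI' : ∀ r : R, J * (I * r) = -(I * (J * r)) := fun r => by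
    rw [← mul_assoc, hJI, neg_mul, mul_assoc]
  constructor
  · simp only [T4, mul_assoc, mul_sub, sub_mul, hI, hI', hJ, hJ', hJI, hJI',
      mul_neg, neg_mul, neg_neg, mul_one, one_mul]
    abel
  · simp only [T4, mul_assoc, mul_sub, sub_mul, hI, hI', hJ, hJ', hJI, hJI',
      mul_neg, neg_mul, neg_neg, mul_one, one_mul]
    abel

theorem T4_q4 (hI : I * I = -1) (hJ : J * J = -1) (hJI : J * I = -(I * J)) {α β γ δ : R}
    (cα : Cen I J α) (cβ : Cen I J β) (cγ : Cen I J γ) (cδ : Cen I J δ) :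
    T4 I J (q4 I J α β γ δ) = α + α + α + α := by
  have hI' : ∀ r : R, I * (I * r) = -r := fun r => by rw [← mul_assoc, hI, neg_mul, one_mul]
  have hJ' : ∀ r : R, J * (J * r) = -r := fun r => by rw [← mul_assoc, hJ, neg_mul, one_mul]
  have hJI' : ∀ r : R, J * (I * r) = -(I * (J * r)) := fun r => by
    rw [← mul_assoc, hJI, neg_mul, mul_assoc]
  have a1 : I * α = α * I := cα.1.symm
  have a1' : ∀ r : R, I * (α * r) = α * (I * r) := fun r => by rw [← mul_assoc, a1, mul_assoc]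
  have a2 : J * α = α * J := cα.2.symm
  have a2' : ∀ r : R, J * (α * r) = α * (J * r) := fun r => by rw [← mul_assoc, a2, mul_assoc]
  have b1 : I * β = β * I := cβ.1.symm
  have b1' : ∀ r : R, I * (β * r) = β * (I * r) := fun r => by rw [← mul_assoc, b1, mul_assoc]
  have b2 : J * β = β * J := cβ.2.symm
  have b2' : ∀ r : R, J * (β * r) = β * (J * r) := fun r => by rw [← mul_assoc, b2, mul_assoc]
  have g1 : I * γ = γ * I := cγ.1.symm
  have g1' : ∀ r : R, I * (γ * r) = γ * (I * r) := fun r => by rw [← mul_assoc, g1, mul_assoc]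
  have g2 : J * γ = γ * J := cγ.2.symm
  have g2' : ∀ r : R, J * (γ * r) = γ * (J * r) := fun r => by rw [← mul_assoc, g2, mul_assoc]
  have d1 : I * δ = δ * I := cδ.1.symm
  have d1' : ∀ r : R, I * (δ * r) = δ * (I * r) := fun r => by rw [← mul_assoc, d1, mul_assoc]
  have d2 : J * δ = δ * J := cδ.2.symm
  have d2' : ∀ r : R, J * (δ * r) = δ * (J * r) := fun r => by rw [← mul_assoc, d2, mul_assoc]
  simp only [T4, q4, mul_assoc, mul_add, add_mul, mul_sub, sub_mul,
    a1, a1', a2, a2', b1, b1', b2, b2', g1, g1', g2, g2', d1, d1', d2, d2',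
    hI, hI', hJ, hJ', hJI, hJI', mul_neg, neg_mul, neg_neg, mul_one, one_mul]
  abel

theorem q4_mulI (hI : I * I = -1) (hJI : J * I = -(I * J)) (α β γ δ : R) :
    -(q4 I J α β γ δ * I) = q4 I J β (-α) (-δ) γ := by
  have hI' : ∀ r : R, I * (I * r) = -r := fun r => by rw [← mul_assoc, hI, neg_mul, one_mul]
  have hJI' : ∀ r : R, J * (I * r) = -(I * (J * r)) := fun r => by
    rw [← mul_assoc, hJI, neg_mul, mul_assoc]
  simp only [q4, mul_assoc, mul_add, add_mul, hI, hI', hJI, hJI',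
    mul_neg, neg_mul, neg_neg, mul_one, one_mul]
  abel

theorem q4_mulJ (hJ : J * J = -1) (α β γ δ : R) :
    -(q4 I J α β γ δ * J) = q4 I J γ δ (-α) (-β) := by
  simp only [q4, mul_assoc, mul_add, add_mul, hJ,
    mul_neg, neg_mul, neg_neg, mul_one, one_mul]
  abel

theorem q4_mulK (hI : I * I = -1) (hJ : J * J = -1) (hJI : J * I = -(I * J)) (α β γ δ : R) :
    -(q4 I J α β γ δ * (I * J)) = q4 I J δ (-γ) β (-α) := by
  have hI' : ∀ r : R, I * (I * r) = -r := fun r => by rw [← mul_assoc, hI, neg_mul, one_mul]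
  have hJ' : ∀ r : R, J * (J * r) = -r := fun r => by rw [← mul_assoc, hJ, neg_mul, one_mul]
  have hJI' : ∀ r : R, J * (I * r) = -(I * (J * r)) := fun r => by
    rw [← mul_assoc, hJI, neg_mul, mul_assoc]
  simp only [q4, mul_assoc, mul_add, add_mul, hI, hI', hJ, hJ', hJI, hJI',
    mul_neg, neg_mul, neg_neg, mul_one, one_mul]
  abel

theorem quarter (h2 : 2 * h = 1) (x : R) : h * (h * (x + x + x + x)) = x := by
  have hh : h + h = 1 := by rw [← two_mul]; exact h2
  calc h * (h * (x + x + x + x)) = (h + h) * ((h + h) * x) := by noncomm_ring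
    _ = x := by rw [hh, one_mul, one_mul]

theorem half_comm (h2 : 2 * h = 1) (x : R) : h * x = x * h := by
  have hh : h + h = 1 := by rw [← two_mul]; exact h2
  calc h * x = h * x * (h + h) := by rw [hh, mul_one]
    _ = (h + h) * x * h := by noncomm_ring
    _ = x * h := by rw [hh, one_mul]

theorem half_cen (h2 : 2 * h = 1) : Cen I J h := ⟨half_comm h2 I, half_comm h2 J⟩

theorem first_zero (hI : I * I = -1) (hJ : J * J = -1) (hJI : J * I = -(I * J))
    (h2 : 2 * h = 1) {α β γ δ : R} (cα : Cen I J α) (cβ : Cen I J β) (cγ : Cen I J γ)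
    (cδ : Cen I J δ) (h0 : q4 I J α β γ δ = 0) : α = 0 := by
  have e := T4_q4 hI hJ hJI cα cβ cγ cδ
  rw [h0] at e
  have e0 : T4 I J (0 : R) = 0 := by simp [T4]
  rw [e0] at e
  rw [← quarter h2 α, ← e, mul_zero, mul_zero]

theorem q4_uniq (hI : I * I = -1) (hJ : J * J = -1) (hJI : J * I = -(I * J)) (h2 : 2 * h = 1)
    {α β γ δ : R} (cα : Cen I J α) (cβ : Cen I J β) (cγ : Cen I J γ) (cδ : Cen I J δ)
    (h0 : q4 I J α β γ δ = 0) : α = 0 ∧ β = 0 ∧ γ = 0 ∧ δ = 0 := by
  refine ⟨first_zero hI hJ hJI h2 cα cβ cγ cδ h0, ?_, ?_, ?_⟩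
  · refine first_zero hI hJ hJI h2 cβ cα.neg cδ.neg cγ ?_
    rw [← q4_mulI hI hJI, h0, zero_mul, neg_zero]
  · refine first_zero hI hJ hJI h2 cγ cδ cα.neg cβ.neg ?_
    rw [← q4_mulJ hJ, h0, zero_mul, neg_zero]
  · refine first_zero hI hJ hJI h2 cδ cγ.neg cβ cα.neg ?_
    rw [← q4_mulK hI hJ hJI, h0, zero_mul, neg_zero]

theorem T4_sum (hI : I * I = -1) (hJ : J * J = -1) (hJI : J * I = -(I * J)) (X : R) :
    T4 I J X + T4 I J (-(X * I)) * I + T4 I J (-(X * J)) * J
      + T4 I J (-(X * (I * J))) * (I * J) = X + X + X + X := by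
  have hI' : ∀ r : R, I * (I * r) = -r := fun r => by rw [← mul_assoc, hI, neg_mul, one_mul]
  have hJ' : ∀ r : R, J * (J * r) = -r := fun r => by rw [← mul_assoc, hJ, neg_mul, one_mul]
  have hJI' : ∀ r : R, J * (I * r) = -(I * (J * r)) := fun r => by
    rw [← mul_assoc, hJI, neg_mul, mul_assoc]
  simp only [T4, mul_assoc, mul_add, add_mul, mul_sub, sub_mul, hI, hI', hJ, hJ', hJI, hJI',
    mul_neg, neg_mul, neg_neg, mul_one, one_mul]
  abel

theorem q4_exists (hI : I * I = -1) (hJ : J * J = -1) (hJI : J * I = -(I * J)) (h2 : 2 * h = 1)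
    (X : R) : ∃ α β γ δ : R, Cen I J α ∧ Cen I J β ∧ Cen I J γ ∧ Cen I J δ ∧
      X = q4 I J α β γ δ := by
  have ch : Cen I J h := half_cen h2
  refine ⟨h * (h * T4 I J X), h * (h * T4 I J (-(X * I))), h * (h * T4 I J (-(X * J))),
    h * (h * T4 I J (-(X * (I * J)))), ch.mul (ch.mul (T4_cen hI hJ hJI _)),
    ch.mul (ch.mul (T4_cen hI hJ hJI _)), ch.mul (ch.mul (T4_cen hI hJ hJI _)),
    ch.mul (ch.mul (T4_cen hI hJ hJI _)), ?_⟩
  have e := T4_sum hI hJ hJI X
  have e2 : q4 I J (h * (h * T4 I J X)) (h * (h * T4 I J (-(X * I))))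
      (h * (h * T4 I J (-(X * J)))) (h * (h * T4 I J (-(X * (I * J))))) =
      h * (h * (T4 I J X + T4 I J (-(X * I)) * I + T4 I J (-(X * J)) * J
      + T4 I J (-(X * (I * J))) * (I * J))) := by
    simp only [q4, mul_add, mul_assoc]
  rw [e2, e, quarter h2]

theorem q4_mul (hI : I * I = -1) (hJ : J * J = -1) (hJI : J * I = -(I * J)) (α β γ δ : R)
    {α' β' γ' δ' : R} (cα : Cen I J α') (cβ : Cen I J β') (cγ : Cen I J γ') (cδ : Cen I J δ') :
    q4 I J α β γ δ * q4 I J α' β' γ' δ' =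
      q4 I J (α * α' - β * β' - γ * γ' - δ * δ') (α * β' + β * α' + γ * δ' - δ * γ')
        (α * γ' - β * δ' + γ * α' + δ * β') (α * δ' + β * γ' - γ * β' + δ * α') := by
  have hI' : ∀ r : R, I * (I * r) = -r := fun r => by rw [← mul_assoc, hI, neg_mul, one_mul]
  have hJ' : ∀ r : R, J * (J * r) = -r := fun r => by rw [← mul_assoc, hJ, neg_mul, one_mul]
  have hJI' : ∀ r : R, J * (I * r) = -(I * (J * r)) := fun r => by
    rw [← mul_assoc, hJI, neg_mul, mul_assoc]
  have a1 : I * α' = α' * I := cα.1.symm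
  have a1' : ∀ r : R, I * (α' * r) = α' * (I * r) := fun r => by rw [← mul_assoc, a1, mul_assoc]
  have a2 : J * α' = α' * J := cα.2.symm
  have a2' : ∀ r : R, J * (α' * r) = α' * (J * r) := fun r => by rw [← mul_assoc, a2, mul_assoc]
  have b1 : I * β' = β' * I := cβ.1.symm
  have b1' : ∀ r : R, I * (β' * r) = β' * (I * r) := fun r => by rw [← mul_assoc, b1, mul_assoc]
  have b2 : J * β' = β' * J := cβ.2.symm
  have b2' : ∀ r : R, J * (β' * r) = β' * (J * r) := fun r => by rw [← mul_assoc, b2, mul_assoc]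
  have g1 : I * γ' = γ' * I := cγ.1.symm
  have g1' : ∀ r : R, I * (γ' * r) = γ' * (I * r) := fun r => by rw [← mul_assoc, g1, mul_assoc]
  have g2 : J * γ' = γ' * J := cγ.2.symm
  have g2' : ∀ r : R, J * (γ' * r) = γ' * (J * r) := fun r => by rw [← mul_assoc, g2, mul_assoc]
  have d1 : I * δ' = δ' * I := cδ.1.symm
  have d1' : ∀ r : R, I * (δ' * r) = δ' * (I * r) := fun r => by rw [← mul_assoc, d1, mul_assoc]
  have d2 : J * δ' = δ' * J := cδ.2.symm
  have d2' : ∀ r : R, J * (δ' * r) = δ' * (J * r) := fun r => by rw [← mul_assoc, d2, mul_assoc]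
  simp only [q4, mul_assoc, mul_add, add_mul, mul_sub, sub_mul,
    a1, a1', a2, a2', b1, b1', b2, b2', g1, g1', g2, g2', d1, d1', d2, d2',
    hI, hI', hJ, hJ', hJI, hJI', mul_neg, neg_mul, neg_neg, mul_one, one_mul]
  abel

end Cfsg.Agent.Lib.Helper73.Quat4
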