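import Mathlib
import Cfsg.Agent.Lib.Helper16.ZKind

/-!
# D-GOLD (helper73, for helper16's Zassenhaus project)

Three commuting "traces" `t₁ t₂ t₃` of kinds `0, -1, 1, golden±` with
`t₁ + t₂ + t₃ = -2` and `t₁ t₂ + t₂ t₃ + t₃ t₁ = 0` (and `2`, `3` invertible):
one of them is `-1`.
-/

set_option autoImplicit false

namespace Cfsg.Agent.Lib.Helper73.Gold

open Cfsg.Agent.Lib.Helper16.Zas

/-- Golden kinds. -/
def Gd {S : Type*} [CommRing S] (t : S) : Prop := t * t + t - 1 = 0 ∨ t * t - t - 1 = 0

/-- Rational kinds other than `-1`. -/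
def Rt {S : Type*} [CommRing S] (t : S) : Prop := t = 0 ∨ t = 1

/-- The ring has small characteristic. -/
def Bad (S : Type*) [CommRing S] (P5 : Prop) : Prop :=
  (16 : S) = 0 ∨ (3 : S) = 0 ∨ (P5 ∧ (5 : S) = 0)

section comm

variable {S : Type*} [CommRing S] {P5 : Prop}

theorem r00 {a b c : S} (hs : a + b + c = -2) (ha : a = 0) (hb : b = 0)
    (kc : Rt c ∨ (P5 ∧ Gd c)) : Bad S P5 := by
  subst ha hb
  obtain rfl : c = -2 := by linear_combination hs
  rcases kc with (h | h) | ⟨h5, h | h⟩
  · left; linear_combination (-8 : S) * h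
  · right; left; linear_combination (-1 : S) * h
  · left; linear_combination (16 : S) * h
  · right; right; exact ⟨h5, by linear_combination h⟩

theorem r01 {a b c : S} (hs : a + b + c = -2) (he : a * b + b * c + c * a = 0)
    (ha : a = 0) (hb : b = 1) : Bad S P5 := by
  subst ha hb
  right; left; linear_combination hs - he

theorem r11 {a b c : S} (hs : a + b + c = -2) (he : a * b + b * c + c * a = 0)
    (ha : a = 1) (hb : b = 1) (kc : Rt c ∨ (P5 ∧ Gd c)) : Bad S P5 := by
  subst ha hb
  obtain rfl : c = -4 := by linear_combination hs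
  left
  rcases kc with (h | h) | ⟨h5, h | h⟩
  · linear_combination (-4 : S) * h
  · linear_combination (8 : S) * h - 8 * he
  · linear_combination (32 : S) * h + 48 * he
  · linear_combination (48 : S) * h + 128 * he

theorem rr {a b c : S} (hs : a + b + c = -2) (he : a * b + b * c + c * a = 0)
    (ha : Rt a) (hb : Rt b) (kc : Rt c ∨ (P5 ∧ Gd c)) : Bad S P5 := by
  rcases ha with ha | ha <;> rcases hb with hb | hb
  · exact r00 hs ha hb kc
  · exact r01 hs he ha hb
  · exact r01 (a := b) (b := a) (c := c) (by linear_combination hs) (by linear_combination he) hb ha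
  · exact r11 hs he ha hb kc

theorem r0g {a b c : S} (hs : a + b + c = -2) (he : a * b + b * c + c * a = 0)
    (ha : a = 0) (h5 : P5) (hb : Gd b) : Bad S P5 := by
  subst ha
  have q : b * b + 2 * b = 0 := by linear_combination b * hs - he
  rcases hb with h | h
  · have hb1 : b + 1 = 0 := by linear_combination q - h
    left; linear_combination 16 * b * hb1 - 16 * h
  · have h3 : 3 * b + 1 = 0 := by linear_combination q - h
    right; right
    exact ⟨h5, by linear_combination (3 * b + 5) * h3 - 9 * q⟩

theorem r1g {a b c : S} (hs : a + b + c = -2) (he : a * b + b * c + c * a = 0)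
    (ha : a = 1) (hb : Gd b) : Bad S P5 := by
  subst ha
  have q : b * b + 3 * b + 3 = 0 := by linear_combination (b + 1) * hs - he
  left
  rcases hb with h | h
  · have h2 : 2 * b + 4 = 0 := by linear_combination q - h
    linear_combination 16 * h - 4 * (2 * b - 2) * h2
  · have h4 : 4 * b + 4 = 0 := by linear_combination q - h
    linear_combination 16 * h - (4 * b - 8) * h4

theorem rg {a b c : S} (hs : a + b + c = -2) (he : a * b + b * c + c * a = 0)
    (ha : Rt a) (h5 : P5) (hb : Gd b) : Bad S P5 := by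
  rcases ha with ha | ha
  · exact r0g hs he ha h5 hb
  · exact r1g hs he ha hb

theorem gsq {a b c : S} (hs : a + b + c = -2) (he : a * b + b * c + c * a = 0) :
    a * a + b * b + c * c = 4 := by
  linear_combination (a + b + c - 2) * hs - 2 * he

/-- two `+`, one `-`. -/
theorem gppm {a b c : S} (hs : a + b + c = -2) (he : a * b + b * c + c * a = 0)
    (ha : a * a + a - 1 = 0) (hb : b * b + b - 1 = 0) (hc : c * c - c - 1 = 0) :
    (16 : S) = 0 := by
  have sq := gsq hs he
  have h2c : 2 * c + 1 = 0 := by linear_combination sq - ha - hb - hc + hs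
  linear_combination 16 * (2 * c - 3) * h2c - 64 * hc

/-- one `+`, two `-`. -/
theorem gpmm {a b c : S} (hs : a + b + c = -2) (he : a * b + b * c + c * a = 0)
    (ha : a * a + a - 1 = 0) (hb : b * b - b - 1 = 0) (hc : c * c - c - 1 = 0) :
    (16 : S) = 0 := by
  have sq := gsq hs he
  have h2a : 2 * a + 3 = 0 := by linear_combination hs - (sq - ha - hb - hc)
  linear_combination 16 * (2 * a - 1) * h2a - 64 * ha

theorem ggg {a b c : S} (hs : a + b + c = -2) (he : a * b + b * c + c * a = 0)
    (ha : Gd a) (hb : Gd b) (hc : Gd c) : Bad S P5 := by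
  have sq := gsq hs he
  have hs1 : b + c + a = -2 := by linear_combination hs
  have he1 : b * c + c * a + a * b = 0 := by linear_combination he
  have hs2 : c + a + b = -2 := by linear_combination hs
  have he2 : c * a + a * b + b * c = 0 := by linear_combination he
  rcases ha with ha | ha <;> rcases hb with hb | hb <;> rcases hc with hc | hc
  · left; linear_combination 16 * (sq - ha - hb - hc + hs)
  · left; exact gppm hs he ha hb hc
  · left; exact gppm hs2 he2 hc ha hb
  · left; exact gpmm hs he ha hb hc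
  · left; exact gppm hs1 he1 hb hc ha
  · left; exact gpmm hs1 he1 hb hc ha
  · left; exact gpmm hs2 he2 hc ha hb
  · right; left; linear_combination hs - (sq - ha - hb - hc)

/-- A kind other than `-1`, split into rational and golden. -/
theorem core {a b c : S} (hs : a + b + c = -2) (he : a * b + b * c + c * a = 0)
    (ka : Rt a ∨ (P5 ∧ Gd a)) (kb : Rt b ∨ (P5 ∧ Gd b)) (kc : Rt c ∨ (P5 ∧ Gd c)) :
    Bad S P5 := by
  have hs1 : b + c + a = -2 := by linear_combination hs
  have he1 : b * c + c * a + a * b = 0 := by linear_combination he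
  have hs2 : c + a + b = -2 := by linear_combination hs
  have he2 : c * a + a * b + b * c = 0 := by linear_combination he
  have hs3 : b + a + c = -2 := by linear_combination hs
  have he3 : b * a + a * c + c * b = 0 := by linear_combination he
  rcases ka with ka | ⟨h5, ka⟩
  · rcases kb with kb | ⟨h5, kb⟩
    · exact rr hs he ka kb kc
    · rcases kc with kc | ⟨-, kc⟩
      · exact rr hs2 he2 kc ka (Or.inr ⟨h5, kb⟩)
      · exact rg hs he ka h5 kb
  · rcases kb with kb | ⟨-, kb⟩
    · rcases kc with kc | ⟨-, kc⟩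
      · exact rr hs1 he1 kb kc (Or.inr ⟨h5, ka⟩)
      · exact rg hs3 he3 kb h5 ka
    · rcases kc with kc | ⟨-, kc⟩
      · exact rg hs2 he2 kc h5 ka
      · exact ggg hs he ka kb kc

end comm

/-- The same for a ring in which everything commutes. -/
theorem core' {S : Type*} [Ring S] (hc : ∀ a b : S, a * b = b * a) {P5 : Prop} {a b c : S}
    (hs : a + b + c = -2) (he : a * b + b * c + c * a = 0)
    (ka : (a = 0 ∨ a = 1) ∨ (P5 ∧ (a * a + a - 1 = 0 ∨ a * a - a - 1 = 0)))
    (kb : (b = 0 ∨ b = 1) ∨ (P5 ∧ (b * b + b - 1 = 0 ∨ b * b - b - 1 = 0)))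
    (kc : (c = 0 ∨ c = 1) ∨ (P5 ∧ (c * c + c - 1 = 0 ∨ c * c - c - 1 = 0))) :
    (16 : S) = 0 ∨ (3 : S) = 0 ∨ (P5 ∧ (5 : S) = 0) := by
  letI : CommRing S := { ‹Ring S› with mul_comm := hc }
  exact core (S := S) (P5 := P5) hs he ka kb kc

theorem kind_split {R : Type*} [Ring R] {t : R} (k : TKind t) (hne : t ≠ -1) :
    (t = 0 ∨ t = 1) ∨ (IsUnit (5 : R) ∧ (t * t + t - 1 = 0 ∨ t * t - t - 1 = 0)) := by
  rcases k with h | h | h | ⟨h5, h⟩ | ⟨h5, h⟩
  · exact Or.inl (Or.inl h)
  · exact absurd h hne
  · exact Or.inl (Or.inr h)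
  · exact Or.inr ⟨h5, Or.inl h⟩
  · exact Or.inr ⟨h5, Or.inr h⟩

theorem gold_nc {R : Type*} [Ring R] (h2 : IsUnit (2 : R)) (h3 : IsUnit (3 : R)) (t₁ t₂ t₃ : R)
    (c12 : t₁ * t₂ = t₂ * t₁) (c13 : t₁ * t₃ = t₃ * t₁) (c23 : t₂ * t₃ = t₃ * t₂)
    (hs : t₁ + t₂ + t₃ = -2) (he : t₁ * t₂ + t₂ * t₃ + t₃ * t₁ = 0)
    (k₁ : TKind t₁) (k₂ : TKind t₂) (k₃ : TKind t₃) : t₁ = -1 ∨ t₂ = -1 ∨ t₃ = -1 := by
  by_contra hcon
  push Not at hcon
  obtain ⟨n1, n2, n3⟩ := hcon
  have q1 := kind_split k₁ n1
  have q2 := kind_split k₂ n2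
  have q3 := kind_split k₃ n3
  set s : Set R := {t₁, t₂, t₃} with hsdef
  have hcomm : ∀ a ∈ s, ∀ b ∈ s, a * b = b * a := by
    intro a ha b hb
    simp only [hsdef, Set.mem_insert_iff, Set.mem_singleton_iff] at ha hb
    rcases ha with rfl | rfl | rfl <;> rcases hb with rfl | rfl | rfl <;>
      first | rfl | assumption | (symm; assumption)
  have hcomm' : ∀ a b : Subring.closure s, a * b = b * a := by
    intro a b
    exact (Subring.isMulCommutative_closure hcomm).is_comm.comm a b
  have m1 : t₁ ∈ Subring.closure s := Subring.subset_closure (by simp [hsdef])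
  have m2 : t₂ ∈ Subring.closure s := Subring.subset_closure (by simp [hsdef])
  have m3 : t₃ ∈ Subring.closure s := Subring.subset_closure (by simp [hsdef])
  have ext : ∀ {x y : Subring.closure s}, (x : R) = y → x = y := fun h => Subtype.ext h
  have key := core' (S := Subring.closure s) hcomm' (P5 := IsUnit (5 : R))
    (a := ⟨t₁, m1⟩) (b := ⟨t₂, m2⟩) (c := ⟨t₃, m3⟩)
    (ext (by push_cast; exact hs)) (ext (by push_cast; exact he))
    (by
      rcases q1 with (h | h) | ⟨h5, h | h⟩
      · exact Or.inl (Or.inl (ext (by push_cast; exact h)))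
      · exact Or.inl (Or.inr (ext (by push_cast; exact h)))
      · exact Or.inr ⟨h5, Or.inl (ext (by push_cast; exact h))⟩
      · exact Or.inr ⟨h5, Or.inr (ext (by push_cast; exact h))⟩)
    (by
      rcases q2 with (h | h) | ⟨h5, h | h⟩
      · exact Or.inl (Or.inl (ext (by push_cast; exact h)))
      · exact Or.inl (Or.inr (ext (by push_cast; exact h)))
      · exact Or.inr ⟨h5, Or.inl (ext (by push_cast; exact h))⟩
      · exact Or.inr ⟨h5, Or.inr (ext (by push_cast; exact h))⟩)
    (by
      rcases q3 with (h | h) | ⟨h5, h | h⟩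
      · exact Or.inl (Or.inl (ext (by push_cast; exact h)))
      · exact Or.inl (Or.inr (ext (by push_cast; exact h)))
      · exact Or.inr ⟨h5, Or.inl (ext (by push_cast; exact h))⟩
      · exact Or.inr ⟨h5, Or.inr (ext (by push_cast; exact h))⟩)
  have one0 : (0 : R) = 1 := by
    rcases key with h | h | ⟨h5, h⟩
    · have h16 : (16 : R) = 0 := by
        have := congrArg (Subtype.val) h
        push_cast at this
        exact this
      have hu : IsUnit (16 : R) := by
        have e : (16 : R) = 2 * 2 * 2 * 2 := by norm_num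
        rw [e]; exact ((h2.mul h2).mul h2).mul h2
      rw [h16] at hu
      exact isUnit_zero_iff.mp hu
    · have h30 : (3 : R) = 0 := by
        have := congrArg (Subtype.val) h
        push_cast at this
        exact this
      rw [h30] at h3
      exact isUnit_zero_iff.mp h3
    · have h50 : (5 : R) = 0 := by
        have := congrArg (Subtype.val) h
        push_cast at this
        exact this
      rw [h50] at h5
      exact isUnit_zero_iff.mp h5
  haveI := subsingleton_of_zero_eq_one one0
  exact n1 (Subsingleton.elim _ _)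

end Cfsg.Agent.Lib.Helper73.Gold
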