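import Mathlib
import Cfsg.Prelude.Def_Classical
import Cfsg.Agent.Lib.Helper18.UEDefs
import Cfsg.Agent.Lib.Helper18.UODefs
import Cfsg.Agent.Lib.Helper77.UEHOM

/-!
# Project UO (helper18, S2334), piece HOMG (proved by helper73)

The group `GJg σ J` of determinant-one matrices preserving a form matrix `J` embeds into
`SU n F q` by conjugation with a change of basis `P` with `Pᵀ * σ(P) = J`.
Generalisation of `model_hom` (Helper77/UEHOM) to an arbitrary index type and form matrix.
-/

set_option autoImplicit false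

namespace Cfsg.Agent.Lib.Helper18.UE

open Matrix

universe u

variable {F : Type u} [Field F] {m : ℕ}

-- piece HOMG
theorem model_hom_g [Fintype F] {q : ℕ} (hF : Fintype.card F = q ^ 2) (σ : F →+* F)
    (hσ : ∀ x, σ x = x ^ q) {ι : Type} [Fintype ι] [DecidableEq ι] (n : ℕ) (J : Matrix ι ι F)
    (P : Matrix (Fin n) ι F) (P' : Matrix ι (Fin n) F) (h1 : P * P' = 1) (h2 : P' * P = 1)
    (h3 : Pᵀ * P.map σ = J) :
    ∃ φ : ↥(GJg σ J) →* ↥(Cfsg.SU n F q), Function.Injective φ := by
  classical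
  have hAA : ∀ B : Matrix ι ι F, B ∈ GJg σ J →
      (P * B * P')ᵀ * (P * B * P').map σ = 1 := by
    intro B hB
    have hB1 : Bᵀ * J * B.map σ = J := hB.1
    rw [Matrix.transpose_mul, Matrix.transpose_mul, Matrix.map_mul, Matrix.map_mul]
    calc P'ᵀ * (Bᵀ * Pᵀ) * (P.map σ * B.map σ * P'.map σ)
        = P'ᵀ * (Bᵀ * (Pᵀ * P.map σ) * B.map σ) * P'.map σ := by
          simp only [Matrix.mul_assoc]
      _ = P'ᵀ * (Pᵀ * P.map σ) * P'.map σ := by rw [h3, hB1]
      _ = (P * P')ᵀ * (P * P').map σ := by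
          rw [Matrix.transpose_mul, Matrix.map_mul]
          simp only [Matrix.mul_assoc]
      _ = 1 := by
          rw [h1, Matrix.transpose_one, Matrix.map_one σ (map_zero σ) (map_one σ),
            Matrix.one_mul]
  have hdet : ∀ B : Matrix ι ι F, B.det = 1 → (P * B * P').det = 1 := by
    intro B hB
    rw [Matrix.det_conj_of_mul_eq_one h1 h2, hB]
  have hmem : ∀ B : ↥(GJg σ J),
      (⟨P * B.1 * P', hdet B.1 B.2.2⟩ : SpecialLinearGroup (Fin n) F) ∈
        Cfsg.SU n F q := by
    intro B u v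
    exact uehom_preserve σ hσ n _ (hAA B.1 B.2) u v
  refine ⟨{ toFun := fun B => ⟨⟨P * B.1 * P', hdet B.1 B.2.2⟩, hmem B⟩,
            map_one' := ?_, map_mul' := ?_ }, ?_⟩
  · apply Subtype.ext
    apply Subtype.ext
    show P * (1 : Matrix ι ι F) * P' = 1
    rw [Matrix.mul_one, h1]
  · intro B C
    apply Subtype.ext
    apply Subtype.ext
    show P * (B.1 * C.1) * P' = (P * B.1 * P') * (P * C.1 * P')
    calc P * (B.1 * C.1) * P' = P * (B.1 * (P' * P) * C.1) * P' := by
          rw [h2, Matrix.mul_one]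
      _ = (P * B.1 * P') * (P * C.1 * P') := by simp only [Matrix.mul_assoc]
  · intro B C hBC
    have h4 : P * B.1 * P' = P * C.1 * P' := congrArg (fun x => (x.1.1 : Matrix _ _ F)) hBC
    apply Subtype.ext
    calc B.1 = (P' * P) * B.1 * (P' * P) := by rw [h2, Matrix.one_mul, Matrix.mul_one]
      _ = P' * (P * B.1 * P') * P := by simp only [Matrix.mul_assoc]
      _ = P' * (P * C.1 * P') * P := by rw [h4]
      _ = (P' * P) * C.1 * (P' * P) := by simp only [Matrix.mul_assoc]
      _ = C.1 := by rw [h2, Matrix.one_mul, Matrix.mul_one]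

end Cfsg.Agent.Lib.Helper18.UE
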