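import Cfsg.Agent.Lib.Helper36.E8Facts
import Cfsg.Agent.Lib.Helper25.ChevLevi
import Cfsg.Agent.Lib.Helper24.CommFAll

/-!
# S5751 piece LB1 (helper85, for helper36): the level subgroups `Qm m` (`m ≥ 1`) of `E₈(2)` are
normalised by the maximal parabolic `Pm`.
-/

set_option autoImplicit false

namespace Cfsg.Agent.Lib.Helper36.E8C

open Cfsg.Lie Cfsg.Agent.Lib.Helper24 Cfsg.Agent.Lib.Helper25

private theorem LB1_conj_gen (m : ℤ) (hm : 1 ≤ m) (s : ℕ) (hs : s < chevE8.nroots)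
    (hs' : chevE8.IsPosRoot s ∨ chevE8.InRootSub Jn s) (u : K2)
    (h : GL chevE8.Idx K2) (hh : (h : Matrix chevE8.Idx chevE8.Idx K2) = chevE8.x K2 s u)
    (r : ℕ) (t : K2) (hr : r < 240) (hrm : m ≤ lev r) (a : GL chevE8.Idx K2)
    (ha : (a : Matrix chevE8.Idx chevE8.Idx K2) = chevE8.x K2 r t) :
    h⁻¹ * a * h ∈ Qm m := by
  show h⁻¹ * a * h ∈ Subgroup.closure {g : GL chevE8.Idx K2 | ∃ (r : ℕ) (t : K2),
    (r < 240 ∧ m ≤ lev r) ∧ (g : Matrix chevE8.Idx chevE8.Idx K2) = chevE8.x K2 r t}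
  have hw : AddGraded chevE8 lev := addGraded_coW [c0] chevE8 hE8' 0
  have hs0 : 0 ≤ lev s := lev_nonneg s hs'
  have hr' : r < chevE8.nroots := by rw [nroots_eq]; exact hr
  have hinv : ((h⁻¹ : GL chevE8.Idx K2) : Matrix chevE8.Idx chevE8.Idx K2) * chevE8.x K2 s u
      = 1 := by
    rw [← hh, ← Units.val_mul, inv_mul_cancel, Units.val_one]
  by_cases hsr : s = r
  · have e : h⁻¹ * a * h = a := by
      apply Units.ext
      rw [Units.val_mul, Units.val_mul,
        Cfsg.Agent.Lib.Helper25.xGL_inv chevE8 hE8 s hs u h hh, ha, hh, hsr,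
        x_add chevE8 hE8' r hr', x_add chevE8 hE8' r hr']
      congr 1
      ring
    rw [e]
    exact Subgroup.subset_closure ⟨r, t, ⟨hr, hrm⟩, ha⟩
  · have hneg : r ≠ chevE8.neg s := by
      intro e
      have h1 := hw.neg s hs
      rw [← e] at h1
      omega
    have key := comm_formula (F := K2) chevE8 hE8' s r hs hr' (fun e => hsr e.symm) hneg u t
    have hval : ((h⁻¹ * a * h : GL chevE8.Idx K2) : Matrix chevE8.Idx chevE8.Idx K2) =
        chevE8.wordMat K2 ((r, t) :: chevE8.commWord K2 s r u t) := by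
      rw [Units.val_mul, Units.val_mul, ha, hh, Matrix.mul_assoc, key, wordMat_cons',
        Matrix.mul_assoc (chevE8.x K2 s u), ← Matrix.mul_assoc, hinv, Matrix.one_mul]
    refine word_mem_closure chevE8 hE8 (fun r => r < 240 ∧ m ≤ lev r) _ ?_ _ hval
    intro e he
    rcases List.mem_cons.1 he with rfl | he
    · exact ⟨⟨hr, hrm⟩, hr'⟩
    · unfold ChevalleyDatum.commWord at he
      rw [List.mem_map] at he
      obtain ⟨c, hc, rfl⟩ := he
      obtain ⟨h1, h2, h3, h4⟩ := commTerms_graded chevE8 hE8' lev hw s r hs hr' c hc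
      have h1' : c.1 < 240 := by rw [← nroots_eq]; exact h1
      have h5 : m ≤ lev c.1 := by
        rw [h4]
        have h2' : (1 : ℤ) ≤ (c.2.2.1 : ℤ) := by exact_mod_cast h2
        have h3' : (1 : ℤ) ≤ (c.2.2.2 : ℤ) := by exact_mod_cast h3
        have h6 : 0 ≤ (c.2.2.1 : ℤ) * lev s := mul_nonneg (by linarith) hs0
        have h7 : 1 * lev r ≤ (c.2.2.2 : ℤ) * lev r :=
          mul_le_mul_of_nonneg_right h3' (by linarith)
        linarith
      exact ⟨⟨h1', h5⟩, h1⟩

/-- the level subgroups `Qm m`, `m ≥ 1`, are normalised by the parabolic `Pm` -/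
theorem Qm_normal (m : ℤ) (hm : 1 ≤ m) (p : GL chevE8.Idx K2) (hp : p ∈ Pm)
    (q : GL chevE8.Idx K2) (hq : q ∈ Qm m) : p * q * p⁻¹ ∈ Qm m := by
  have hle : Pm ≤ Subgroup.normalizer (Qm m : Set (GL chevE8.Idx K2)) := by
    unfold Pm
    rw [parabolic_eq chevE8 hE8 Jn]
    apply sup_le
    · exact diagonal_le_normalizer_rootGen chevE8 hE8' _
        (fun r h => by rw [nroots_eq]; exact h.1)
    · rw [Subgroup.closure_le]
      rintro h ⟨s, u, hs', hh⟩
      have hs : s < chevE8.nroots := by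
        rcases hs' with hp | hJ
        · exact hp.1
        · exact hJ.1
      show h ∈ Subgroup.normalizer (Qm m : Set (GL chevE8.Idx K2))
      unfold Qm rootGen
      apply mem_normalizer_closure
      · rintro a ⟨r, t, ⟨hr, hrm⟩, ha⟩
        have h1 := LB1_conj_gen m hm s hs hs' (-u) h⁻¹
          (Cfsg.Agent.Lib.Helper25.xGL_inv chevE8 hE8 s hs u h hh) r t hr hrm a ha
        rw [inv_inv] at h1
        exact h1
      · rintro a ⟨r, t, ⟨hr, hrm⟩, ha⟩
        exact LB1_conj_gen m hm s hs hs' u h hh r t hr hrm a ha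
  have h2 := hle hp
  rw [Subgroup.mem_set_normalizer_iff] at h2
  exact (h2 q).mp hq

end Cfsg.Agent.Lib.Helper36.E8C
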