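import Cfsg.Agent.Lib.Helper36.E8Facts
import Cfsg.Agent.Lib.Helper25.ChevNConjAll
import Cfsg.Agent.Lib.Helper25.ChevW0
import Cfsg.Agent.Lib.Helper25.ChevBN

/-!
# Iterated cores in `E₈(2)` (S5751): piece LB2

The level subgroups `Qm m` decrease, `Qm 1` is inside the parabolic, conjugation by `n_{p_3}`
lowers the level by at most one, and the highest root element is a non-trivial element of `Qm 6`.
-/

set_option autoImplicit false

namespace Cfsg.Agent.Lib.Helper36.E8C

open Cfsg.Lie Cfsg.Agent.Lib.Helper24 Cfsg.Agent.Lib.Helper25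

theorem Qm_anti (m : ℤ) : Qm (m + 1) ≤ Qm m := by
  unfold Qm rootGen
  apply Subgroup.closure_mono
  rintro g ⟨r, t, ⟨hr, hl⟩, hg⟩
  exact ⟨r, t, ⟨hr, by omega⟩, hg⟩

theorem Qm_one_le : Qm 1 ≤ Pm := by
  unfold Qm rootGen Pm ChevalleyDatum.parabolicSubgroup ChevalleyDatum.borelSubgroup
  refine le_trans ?_ le_sup_left
  refine le_trans ?_ le_sup_left
  unfold ChevalleyDatum.posUnipotent
  apply Subgroup.closure_mono
  rintro g ⟨r, t, ⟨hr, hl⟩, hg⟩
  exact ⟨r, t, pos_of_lev_pos r hr (by omega), hg⟩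

theorem lb2_nG_sq : nG (chevE8.simple 3) * nG (chevE8.simple 3) = 1 := by
  apply Units.ext
  rw [Units.val_mul, nG_val, Units.val_one]
  have h := nMat_mul_neg_one (F := K2) chevE8 hE8 (chevE8.simple 3) (by decide)
  have e : (-1 : K2) = 1 := by decide
  rw [e] at h
  exact h

theorem lb2_nG_inv : (nG (chevE8.simple 3))⁻¹ = nG (chevE8.simple 3) :=
  inv_eq_of_mul_eq_one_left lb2_nG_sq

/-- `n_{p_3}⁻¹ Q_{m+1} n_{p_3} ≤ Q_m` for `m ≥ 1` -/
theorem Qm_conj_n (m : ℤ) (hm : 1 ≤ m) (q : GL chevE8.Idx K2) (hq : q ∈ Qm (m + 1)) :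
    (nG (chevE8.simple 3))⁻¹ * q * nG (chevE8.simple 3) ∈ Qm m := by
  unfold Qm rootGen at hq
  induction hq using Subgroup.closure_induction with
  | mem x hx =>
    obtain ⟨r, t, ⟨hr, hl⟩, hx⟩ := hx
    rw [lb2_nG_inv]
    have hc := n_simple_conj (F := K2) chevE8 hE8 3 (by decide) r hr t
    have key : nG (chevE8.simple 3) * x * nG (chevE8.simple 3) =
        xGL chevE8 hE8' (chevE8.reflectRoot 3 r) (((nEta chevE8 3 r : ℤ) : K2) * t) := by
      apply Units.ext
      rw [Units.val_mul, Units.val_mul, nG_val, hx, xGL_val, hc, mul_assoc]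
      have h2 : chevE8.nMat K2 (chevE8.simple 3) 1 * chevE8.nMat K2 (chevE8.simple 3) 1 = 1 := by
        have := congrArg Units.val lb2_nG_sq
        rw [Units.val_mul, nG_val, Units.val_one] at this
        exact this
      rw [h2, mul_one]
    rw [key]
    unfold Qm rootGen
    apply Subgroup.subset_closure
    refine ⟨chevE8.reflectRoot 3 r, ((nEta chevE8 3 r : ℤ) : K2) * t, ⟨reflect3_lt r hr, ?_⟩,
      xGL_val _ _ _ _⟩
    have := lev_reflect3 r hr (by omega)
    omega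
  | one =>
    rw [mul_one, inv_mul_cancel]
    exact one_mem _
  | mul x y _ _ hx hy =>
    have e : (nG (chevE8.simple 3))⁻¹ * (x * y) * nG (chevE8.simple 3) =
        ((nG (chevE8.simple 3))⁻¹ * x * nG (chevE8.simple 3)) *
          ((nG (chevE8.simple 3))⁻¹ * y * nG (chevE8.simple 3)) := by group
    rw [e]
    exact mul_mem hx hy
  | inv x _ hx =>
    have e : (nG (chevE8.simple 3))⁻¹ * x⁻¹ * nG (chevE8.simple 3) =
        ((nG (chevE8.simple 3))⁻¹ * x * nG (chevE8.simple 3))⁻¹ := by group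
    rw [e]
    exact inv_mem hx

theorem xe_top_mem : ((xe 239 : E8G) : GL chevE8.Idx K2) ∈ Qm 6 := by
  unfold Qm rootGen
  apply Subgroup.subset_closure
  exact ⟨239, 1, ⟨by decide, by rw [lev_top]⟩, xe_val 239⟩

theorem xe_top_ne : xe 239 ≠ 1 := by
  intro h
  have h1 := xe_val 239
  rw [h] at h1
  have h2 := x_ne_one (F := K2) chevE8 hE8 239 (by decide) 1 one_ne_zero
  apply h2
  rw [← h1]
  rfl

end Cfsg.Agent.Lib.Helper36.E8C
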