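import Mathlib
import Cfsg.Agent.Lib.Helper6.PM3Defs

/-!
Piece PE1 for S2930 (helper6's PM3 project): 3-cycles inside a part stabilise a partition; a
non-subsingleton block of a group containing the stabiliser of the partition that meets a part
of size at least 3 contains that part.
-/

set_option autoImplicit false

namespace Cfsg.Agent.Lib.Helper6.PM3

open scoped Pointwise
open MulAction

theorem pe1_smul_set_eq (n : ℕ) (g : alternatingGroup (Fin n)) (Q : Set (Fin n))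
    (h : ∀ w ∈ Q, g • w ∈ Q) : g • Q = Q :=
  mem_stabilizer_iff.mp ((mem_stabilizer_set' (Set.toFinite Q)).mpr (fun w hw => h w hw))

theorem exists_three_cycle (n : ℕ) (𝔓 : Set (Set (Fin n))) (hP : IsPartition 𝔓)
    (P : Set (Fin n)) (hPm : P ∈ 𝔓) (x y z : Fin n) (hx : x ∈ P) (hy : y ∈ P) (hz : z ∈ P)
    (hxy : x ≠ y) (hxz : x ≠ z) (hyz : y ≠ z) :
    ∃ g ∈ stabilizer (alternatingGroup (Fin n)) 𝔓, (g : Equiv.Perm (Fin n)).IsThreeCycle ∧
      g • x = y ∧ g • y = z ∧ g • z = x ∧ ∀ w : Fin n, w ≠ x → w ≠ y → w ≠ z → g • w = w := by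
  have h3 : (Equiv.swap x y * Equiv.swap y z).IsThreeCycle := by
    rw [Equiv.swap_comm x y]
    exact Equiv.Perm.isThreeCycle_swap_mul_swap_same hxy.symm hyz hxz
  have hgx : (Equiv.swap x y * Equiv.swap y z) x = y := by
    rw [Equiv.Perm.mul_apply, Equiv.swap_apply_of_ne_of_ne hxy hxz, Equiv.swap_apply_left]
  have hgy : (Equiv.swap x y * Equiv.swap y z) y = z := by
    rw [Equiv.Perm.mul_apply, Equiv.swap_apply_left,
      Equiv.swap_apply_of_ne_of_ne hxz.symm hyz.symm]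
  have hgz : (Equiv.swap x y * Equiv.swap y z) z = x := by
    rw [Equiv.Perm.mul_apply, Equiv.swap_apply_right, Equiv.swap_apply_right]
  have hgw : ∀ w : Fin n, w ≠ x → w ≠ y → w ≠ z →
      (Equiv.swap x y * Equiv.swap y z) w = w := by
    intro w h1 h2 h3
    rw [Equiv.Perm.mul_apply, Equiv.swap_apply_of_ne_of_ne h2 h3,
      Equiv.swap_apply_of_ne_of_ne h1 h2]
  refine ⟨⟨Equiv.swap x y * Equiv.swap y z, h3.mem_alternatingGroup⟩, ?_, h3, hgx, hgy, hgz,
    hgw⟩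
  rw [mem_stabilizer_set' (Set.toFinite 𝔓)]
  intro Q hQ
  have hQQ : (⟨Equiv.swap x y * Equiv.swap y z, h3.mem_alternatingGroup⟩ :
      alternatingGroup (Fin n)) • Q = Q := by
    apply pe1_smul_set_eq
    intro w hw
    show (Equiv.swap x y * Equiv.swap y z) w ∈ Q
    by_cases hQP : Q = P
    · rw [hQP] at hw
      rw [hQP]
      by_cases h1 : w = x
      · rw [h1, hgx]
        exact hy
      by_cases h2 : w = y
      · rw [h2, hgy]
        exact hz
      by_cases h3' : w = z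
      · rw [h3', hgz]
        exact hx
      rw [hgw w h1 h2 h3']
      exact hw
    · have hd := hP.1 Q hQ P hPm hQP
      have hwP : w ∉ P := fun h => Set.disjoint_left.mp hd hw h
      rw [hgw w (fun h => hwP (h ▸ hx)) (fun h => hwP (h ▸ hy)) (fun h => hwP (h ▸ hz))]
      exact hw
  rw [hQQ]
  exact hQ

theorem part_subset_block (n : ℕ) (𝔓 : Set (Set (Fin n))) (hP : IsPartition 𝔓)
    (K : Subgroup (alternatingGroup (Fin n)))
    (hK : stabilizer (alternatingGroup (Fin n)) 𝔓 ≤ K)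
    (𝔹 : Set (Fin n)) (hblk : IsBlock K 𝔹) (hns : ¬ 𝔹.Subsingleton)
    (P : Set (Fin n)) (hPm : P ∈ 𝔓) (h3 : 3 ≤ P.ncard) (hmeet : (𝔹 ∩ P).Nonempty) : P ⊆ 𝔹 := by
  obtain ⟨x, hxB, hxP⟩ := hmeet
  obtain ⟨y, hyB, hyx⟩ : ∃ y ∈ 𝔹, y ≠ x := by
    rw [Set.not_subsingleton_iff] at hns
    obtain ⟨a, ha, b, hb, hab⟩ := hns
    by_cases h : a = x
    · exact ⟨b, hb, fun hbx => hab (h.trans hbx.symm)⟩
    · exact ⟨a, ha, h⟩
  have key : ∀ g ∈ stabilizer (alternatingGroup (Fin n)) 𝔓, ∀ u ∈ 𝔹, g • u ∈ 𝔹 →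
      ∀ v ∈ 𝔹, g • v ∈ 𝔹 := by
    intro g hg u hu hgu v hv
    have hu' : (⟨g, hK hg⟩ : K) • u ∈ (⟨g, hK hg⟩ : K) • 𝔹 := Set.smul_mem_smul_set hu
    have hv' : (⟨g, hK hg⟩ : K) • v ∈ (⟨g, hK hg⟩ : K) • 𝔹 := Set.smul_mem_smul_set hv
    rcases hblk.smul_eq_or_disjoint (⟨g, hK hg⟩ : K) with h1 | h1
    · rw [h1] at hv'
      exact hv'
    · exact absurd hgu (Set.disjoint_left.mp h1 hu')
  intro z hzP
  by_cases hzx : z = x
  · rw [hzx]
    exact hxB
  by_cases hyP : y ∈ P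
  · by_cases hzy : z = y
    · rw [hzy]
      exact hyB
    obtain ⟨g, hg, -, hgx, hgy, -, -⟩ := exists_three_cycle n 𝔓 hP P hPm x y z hxP hyP hzP
      hyx.symm (Ne.symm hzx) (Ne.symm hzy)
    have h4 := key g hg x hxB (by rw [hgx]; exact hyB) y hyB
    rwa [hgy] at h4
  · obtain ⟨w, hwP, hw⟩ := Set.exists_mem_notMem_of_ncard_lt_ncard
      (s := ({x, z} : Set (Fin n))) (t := P) (by
        rw [Set.ncard_pair (Ne.symm hzx)]
        omega)
    have hwx : w ≠ x := fun h => hw (by rw [h]; simp)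
    have hwz : w ≠ z := fun h => hw (by rw [h]; simp)
    obtain ⟨g, hg, -, hgx, -, -, hgfix⟩ := exists_three_cycle n 𝔓 hP P hPm x z w hxP hzP hwP
      (Ne.symm hzx) hwx.symm hwz.symm
    have hy' : g • y = y := hgfix y hyx (fun h => hyP (h ▸ hzP)) (fun h => hyP (h ▸ hwP))
    have h4 := key g hg y hyB (by rw [hy']; exact hyB) x hxB
    rwa [hgx] at h4

end Cfsg.Agent.Lib.Helper6.PM3
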