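import Mathlib
import Cfsg.Agent.S4127

/-!
Job 98 (helper66, S4130 piece SQ-MCD): the `q'`-part of an abelian commutator subgroup, and
abelian groups of squarefree order are cyclic.
-/

set_option autoImplicit false

namespace Cfsg.Agent.Lib.Helper73.SqfMCD

theorem exists_qprime_part {G : Type*} [Group G] [Finite G] (q : ℕ) [Fact q.Prime]
    (hab : ∀ a ∈ commutator G, ∀ b ∈ commutator G, a * b = b * a) :
    ∃ (T : Subgroup G) (_ : T.Normal), T ≤ commutator G ∧ (Nat.card T).Coprime q ∧
      IsPGroup q (commutator (G ⧸ T)) := by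
  have hq : q.Prime := Fact.out
  let T : Subgroup G :=
    { carrier := {x | x ∈ commutator G ∧ (orderOf x).Coprime q}
      mul_mem' := by
        rintro x y ⟨hx, hxq⟩ ⟨hy, hyq⟩
        refine ⟨mul_mem hx hy, ?_⟩
        have hc : Commute x y := hab x hx y hy
        exact Nat.Coprime.coprime_dvd_left (hc.orderOf_mul_dvd_lcm.trans (Nat.lcm_dvd_mul _ _))
          (Nat.Coprime.mul_left hxq hyq)
      one_mem' := ⟨one_mem _, by simp⟩
      inv_mem' := by
        rintro x ⟨hx, hxq⟩
        exact ⟨inv_mem hx, by rwa [orderOf_inv]⟩ }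
  have hT : ∀ x, x ∈ T ↔ x ∈ commutator G ∧ (orderOf x).Coprime q := fun x => Iff.rfl
  have hTn : T.Normal := by
    constructor
    intro x hx g
    rw [hT] at hx ⊢
    refine ⟨(inferInstance : (commutator G).Normal).conj_mem x hx.1 g, ?_⟩
    rw [Cfsg.Agent.S4127.orderOf_conj']
    exact hx.2
  refine ⟨T, hTn, fun x hx => ((hT x).mp hx).1, ?_, ?_⟩
  · -- card coprime
    rw [Nat.coprime_comm, Nat.Prime.coprime_iff_not_dvd hq]
    intro hdvd
    obtain ⟨t, ht⟩ := exists_prime_orderOf_dvd_card' q hdvd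
    have h1 : orderOf (t : G) = q := by rw [Subgroup.orderOf_coe]; exact ht
    have h2 := ((hT t).mp t.2).2
    rw [h1] at h2
    exact hq.one_lt.ne' ((Nat.coprime_self q).mp h2)
  · -- quotient commutator is a q-group
    have hmap : (commutator G).map (QuotientGroup.mk' T) = commutator (G ⧸ T) := by
      rw [commutator_def, commutator_def, Subgroup.map_commutator,
        Subgroup.map_top_of_surjective _ (QuotientGroup.mk'_surjective T)]
    intro g
    have hg : (g : G ⧸ T) ∈ (commutator G).map (QuotientGroup.mk' T) := by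
      rw [hmap]; exact g.2
    obtain ⟨x, hx, hxg⟩ := hg
    obtain ⟨i, j, a, hdec, hu, hy⟩ := Cfsg.Agent.S4127.exists_decomp q hq x
    have hjT : x ^ j ∈ T :=
      (hT _).mpr ⟨zpow_mem hx j, ((Nat.Prime.coprime_iff_not_dvd hq).mpr hy).symm⟩
    refine ⟨a, ?_⟩
    apply Subtype.ext
    rw [Subgroup.coe_pow, Subgroup.coe_one, ← hxg]
    have h1 : (QuotientGroup.mk' T) x = (QuotientGroup.mk' T) (x ^ i) := by
      conv_lhs => rw [hdec]
      rw [map_mul, show (QuotientGroup.mk' T) (x ^ j) = 1 from
        (QuotientGroup.eq_one_iff _).mpr hjT, mul_one]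
    rw [h1, ← map_pow, hu, map_one]

theorem isCyclic_of_comm_squarefree {A : Type*} [Group A] [Finite A]
    (hab : ∀ a b : A, a * b = b * a) (hs : Squarefree (Nat.card A)) : IsCyclic A := by
  haveI : IsZGroup A := IsZGroup.of_squarefree hs
  letI : CommGroup A := { (inferInstance : Group A) with mul_comm := hab }
  haveI : Group.IsNilpotent A := CommGroup.isNilpotent
  infer_instance

end Cfsg.Agent.Lib.Helper73.SqfMCD
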