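import Mathlib
import Cfsg.Agent.S5112
import Cfsg.Agent.S3742
import Cfsg.Agent.Lib.Helper1.Coprime

/-!
# Coprime automorphisms of cyclic and generalized quaternion groups commute (helper73)

* `sl25_not_solvable` : `SL(2,5)` is not solvable.
* `exists_perfect_of_not_solvable` : a finite non-solvable group has a nontrivial perfect subgroup.
* `autcomm` : a group of automorphisms of a cyclic or generalized quaternion group `P`, of order
  prime to `|P|`, is commutative.
* `comm_centralizes` : the conjugation version.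
* `solvable_sup` : `O ⊔ H` is solvable if `O` is normal and `O`, `H` are solvable.
-/

set_option autoImplicit false

namespace Cfsg.Agent.Lib.Helper73.AutComm

/-- `SL(2,5)` is not solvable. -/
theorem sl25_not_solvable : ¬ Group.IsSolvable (Matrix.SpecialLinearGroup (Fin 2) (ZMod 5)) := by
  have h20 : (2 : ZMod 5) ≠ 0 := by decide
  have h21 : (2 : ZMod 5) ^ 2 ≠ 1 := by decide
  haveI : Fact (Nat.Prime 5) := ⟨by norm_num⟩
  have h : commutator (Matrix.SpecialLinearGroup (Fin 2) (ZMod 5)) = ⊤ :=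
    Matrix.SL2.commutator_eq_top (a := (2 : ZMod 5)) h20 h21
  haveI : Group.IsPerfect (Matrix.SpecialLinearGroup (Fin 2) (ZMod 5)) := ⟨h⟩
  haveI : Nontrivial (Matrix.SpecialLinearGroup (Fin 2) (ZMod 5)) := by
    refine ⟨⟨1, -1, ?_⟩⟩
    intro h
    have h2 := congrArg (fun A : Matrix.SpecialLinearGroup (Fin 2) (ZMod 5) => A.1 0 0) h
    simp at h2
    revert h2
    decide
  exact Group.IsPerfect.not_isSolvable _

/-- A finite non-solvable group has a nontrivial perfect subgroup. -/
theorem exists_perfect_of_not_solvable {X : Type*} [Group X] [Finite X] (h : ¬ Group.IsSolvable X) :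
    ∃ P : Subgroup X, P ≠ ⊥ ∧ ⁅P, P⁆ = P := by
  have hne : ∀ n, derivedSeries X n ≠ ⊥ := fun n hn => h ((Group.isSolvable_def X).mpr ⟨n, hn⟩)
  by_contra hcon
  push Not at hcon
  have hlt : ∀ n, Nat.card (derivedSeries X (n + 1)) < Nat.card (derivedSeries X n) := by
    intro n
    have hle : derivedSeries X (n + 1) ≤ derivedSeries X n := derivedSeries_antitone X (Nat.le_succ n)
    by_contra hge
    push Not at hge
    have heq := Subgroup.eq_of_le_of_card_ge hle hge
    rw [derivedSeries_succ] at heq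
    exact hcon _ (hne n) heq
  have hbound : ∀ n, Nat.card (derivedSeries X n) + n ≤ Nat.card (derivedSeries X 0) := by
    intro n
    induction n with
    | zero => simp
    | succ n ih => have := hlt n; omega
  have := hbound (Nat.card (derivedSeries X 0) + 1)
  omega

/-- A group of automorphisms of a cyclic or generalized quaternion group `P`, of order prime to
`|P|`, is commutative. -/
theorem autcomm {P : Type*} [Group P] [Finite P]
    (hP : IsCyclic P ∨ ∃ n : ℕ, Nonempty (P ≃* QuaternionGroup (2 ^ n)))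
    (A : Subgroup (MulAut P)) (hA : (Nat.card A).Coprime (Nat.card P)) :
    ∀ α ∈ A, ∀ β ∈ A, α * β = β * α := by
  have cyc : IsCyclic P → ∀ α β : MulAut P, α * β = β * α := by
    intro hc α β
    apply (IsCyclic.mulAutMulEquiv P).injective
    rw [map_mul, map_mul, mul_comm]
  rcases hP with hc | ⟨n, ⟨e⟩⟩
  · intro α _ β _; exact cyc hc α β
  · have hcard : Nat.card P = 4 * 2 ^ n := by
      rw [Nat.card_congr e.toEquiv, Nat.card_eq_fintype_card, QuaternionGroup.card]
    have hodd : (Nat.card A).Coprime 2 := by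
      apply Nat.Coprime.coprime_dvd_right _ hA
      rw [hcard]
      exact Dvd.dvd.mul_right (by norm_num) _
    rcases Nat.lt_or_ge n 2 with hn | hn
    · interval_cases n
      · haveI : IsCyclic (QuaternionGroup (2 ^ 0)) := QuaternionGroup.quaternionGroup_one_isCyclic
        have hc : IsCyclic P := isCyclic_of_surjective e.symm e.symm.surjective
        intro α _ β _; exact cyc hc α β
      · obtain ⟨f⟩ := Cfsg.Agent.S3742.result
        have e' : P ≃* QuaternionGroup 2 := e
        let g : MulAut P ≃* Equiv.Perm (Fin 4) := (MulAut.congr e').trans f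
        haveI : Finite (MulAut P) := Finite.of_equiv _ g.symm.toEquiv
        have h24 : Nat.card (MulAut P) = 24 := by
          rw [Nat.card_congr g.toEquiv, Nat.card_eq_fintype_card, Fintype.card_perm,
            Fintype.card_fin]
          rfl
        have hdvd : Nat.card A ∣ 8 * 3 := by
          have := Subgroup.card_subgroup_dvd_card A
          rw [h24] at this
          exact this
        have h3 : Nat.card A ∣ 3 :=
          (Nat.Coprime.pow_right 3 hodd).dvd_of_dvd_mul_left hdvd
        have h13 : Nat.card A = 1 ∨ Nat.card A = 3 := (Nat.dvd_prime Nat.prime_three).mp h3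
        have hAc : ∀ a b : A, a * b = b * a := by
          rcases h13 with h1 | h3'
          · haveI : Subsingleton A := (Nat.card_eq_one_iff_unique.mp h1).1
            intro a b; exact Subsingleton.elim _ _
          · haveI : Fact (Nat.Prime 3) := ⟨Nat.prime_three⟩
            have hc : IsCyclic A := isCyclic_of_prime_card h3'
            intro a b
            exact hc.isMulCommutative.is_comm.comm a b
        intro α hα β hβ
        exact congrArg Subtype.val (hAc ⟨α, hα⟩ ⟨β, hβ⟩)
    · have htriv : ∀ α ∈ A, α = 1 := by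
        intro α hα
        have h1 : (⟨α, hα⟩ : A) ^ Nat.card A = 1 := pow_card_eq_one'
        have h2 : α ^ Nat.card A = 1 := by
          have := congrArg Subtype.val h1
          simpa only [Subgroup.coe_pow, Subgroup.coe_one] using this
        have h3 : (MulAut.congr e α) ^ Nat.card A = 1 := by rw [← map_pow, h2, map_one]
        have h4 := Cfsg.Agent.S5112.quaternion_aut n hn (MulAut.congr e α) (Nat.card A) hodd h3
        exact (MulAut.congr e).injective (h4.trans (map_one _).symm)
      intro α hα β hβ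
      rw [htriv α hα, htriv β hβ]

open Cfsg.Agent.Lib.Helper1 in
/-- If `Q` normalizes the cyclic or generalized quaternion group `P` and has order prime to
`|P|`, then commutators of elements of `Q` centralize `P`. -/
theorem comm_centralizes {G : Type*} [Group G] (P Q : Subgroup G) [Finite P] [Finite Q]
    (hP : IsCyclic P ∨ ∃ n : ℕ, Nonempty (P ≃* QuaternionGroup (2 ^ n)))
    (hQP : Q ≤ Subgroup.normalizer (P : Set G)) (hcop : (Nat.card Q).Coprime (Nat.card P))
    (q₁ q₂ : G) (h1 : q₁ ∈ Q) (h2 : q₂ ∈ Q) (x : G) (hx : x ∈ P) :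
    (q₁ * q₂ * q₁⁻¹ * q₂⁻¹) * x = x * (q₁ * q₂ * q₁⁻¹ * q₂⁻¹) := by
  let ρ : Q →* MulAut P :=
    { toFun := fun q => conjNormalizer P q (hQP q.2)
      map_one' := by
        ext k
        simp [conjNormalizer]
      map_mul' := by
        intro a b
        ext k
        simp [conjNormalizer, mul_assoc] }
  have hρ : ∀ (q : Q) (k : P), ((ρ q k : P) : G) = (q : G) * k * (q : G)⁻¹ := fun _ _ => rfl
  have hcomm := autcomm hP ρ.range
    (Nat.Coprime.coprime_dvd_left (Subgroup.card_range_dvd ρ) hcop)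
    (ρ ⟨q₁, h1⟩) ⟨_, rfl⟩ (ρ ⟨q₂, h2⟩) ⟨_, rfl⟩
  have hc : ρ (⟨q₁, h1⟩ * ⟨q₂, h2⟩ * ⟨q₁, h1⟩⁻¹ * ⟨q₂, h2⟩⁻¹) = 1 := by
    rw [map_mul, map_mul, map_mul, map_inv, map_inv, hcomm]
    group
  have h3 := hρ (⟨q₁, h1⟩ * ⟨q₂, h2⟩ * ⟨q₁, h1⟩⁻¹ * ⟨q₂, h2⟩⁻¹) ⟨x, hx⟩
  rw [hc] at h3
  have h4 : x = (q₁ * q₂ * q₁⁻¹ * q₂⁻¹) * x * (q₁ * q₂ * q₁⁻¹ * q₂⁻¹)⁻¹ := by
    simpa using h3
  calc (q₁ * q₂ * q₁⁻¹ * q₂⁻¹) * x
      = ((q₁ * q₂ * q₁⁻¹ * q₂⁻¹) * x * (q₁ * q₂ * q₁⁻¹ * q₂⁻¹)⁻¹) * (q₁ * q₂ * q₁⁻¹ * q₂⁻¹) := by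
        group
    _ = x * (q₁ * q₂ * q₁⁻¹ * q₂⁻¹) := by rw [← h4]

/-- `O ⊔ H` is solvable if `O` is normal and `O`, `H` are solvable. -/
theorem solvable_sup {G : Type*} [Group G] (O H : Subgroup G) [hOn : O.Normal]
    (hO : Group.IsSolvable O) (hH : Group.IsSolvable H) : Group.IsSolvable ↥(O ⊔ H) := by
  haveI := hO
  haveI := hH
  let φ : G →* G ⧸ O := QuotientGroup.mk' O
  have hmem : ∀ x : ↥(O ⊔ H), φ (x : G) ∈ H.map φ := by
    intro x
    have hx : (x : G) ∈ ((O ⊔ H : Subgroup G) : Set G) := x.2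
    rw [Subgroup.normal_mul] at hx
    obtain ⟨o, ho, h, hh, hoh⟩ := Set.mem_mul.mp hx
    refine ⟨h, hh, ?_⟩
    rw [← hoh, map_mul]
    have : φ o = 1 := (QuotientGroup.eq_one_iff o).mpr ho
    rw [this, one_mul]
  let g : ↥(O ⊔ H) →* ↥(H.map φ) := (φ.comp (O ⊔ H).subtype).codRestrict (H.map φ) hmem
  let f : ↥O →* ↥(O ⊔ H) := Subgroup.inclusion le_sup_left
  haveI : Group.IsSolvable ↥(H.map φ) :=
    Group.isSolvable_of_surjective (φ.subgroupMap_surjective H)
  refine Group.isSolvable_of_ker_le_range f g ?_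
  intro x hx
  rw [MonoidHom.mem_ker] at hx
  have hx' : φ (x : G) = 1 := congrArg Subtype.val hx
  have hxO : (x : G) ∈ O := (QuotientGroup.eq_one_iff _).mp hx'
  exact ⟨⟨x, hxO⟩, Subtype.ext rfl⟩

end Cfsg.Agent.Lib.Helper73.AutComm
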