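import Cfsg.Agent.Lib.Helper41.BG11Kit
import Cfsg.Agent.Lib.Helper41.BG11Aux
import Cfsg.Agent.Lib.Helper72.ZGNf
import Cfsg.Agent.Lib.Helper72.HHFit
import Cfsg.Agent.Lib.Helper34.Nilp
import Cfsg.Agent.Lib.Helper87.U95J3
import Cfsg.Agent.Lib.Helper32.BnR
import Cfsg.Agent.Lib.Helper32.BG12KITB

/-!
# B&G Section 11, piece FIT (for helper41): `[L, A] ≤ F(M)` for normal `p'`-subgroups `L` of `M`
-/

set_option autoImplicit false

open Cfsg Cfsg.Agent.Lib.Helper32 Cfsg.Agent.Lib.Helper32.BG10 Cfsg.Agent.Lib.Helper3.BG12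
open Cfsg.Agent.Lib.Helper41.BG11
open scoped commutatorElement

namespace Cfsg.Agent.Lib.Helper73.BG11

universe u

variable {G : Type u} [Group G] [Finite G]

/-- a subgroup normalizes its commutator subgroup -/
theorem fit_le_normalizer_comm (M : Subgroup G) :
    M ≤ Subgroup.normalizer ((⁅M, M⁆ : Subgroup G) : Set G) := by
  intro m hm
  apply Cfsg.Agent.Lib.Helper41.BG11.mem_normalizer_of_conj_mem
  intro x hx
  have hmap : Subgroup.map (MulAut.conj m).toMonoidHom ⁅M, M⁆ ≤ ⁅M, M⁆ := by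
    rw [Subgroup.map_commutator]
    apply Subgroup.commutator_mono <;>
    · rintro _ ⟨y, hy, rfl⟩
      exact M.mul_mem (M.mul_mem hm hy) (M.inv_mem hm)
  exact hmap ⟨x, hx, rfl⟩

omit [Finite G] in
/-- commutators with a join, into a subgroup normalized by the two factors -/
theorem fit_commutator_sup_le {K A₁ A₂ T : Subgroup G}
    (h1 : ⁅K, A₁⁆ ≤ T) (h2 : ⁅K, A₂⁆ ≤ T)
    (hn1 : A₁ ≤ Subgroup.normalizer (T : Set G)) (hn2 : A₂ ≤ Subgroup.normalizer (T : Set G)) :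
    ⁅K, A₁ ⊔ A₂⁆ ≤ T := by
  let S : Subgroup G :=
    { carrier := {a | a ∈ Subgroup.normalizer (T : Set G) ∧ ∀ k ∈ K, ⁅k, a⁆ ∈ T}
      one_mem' := ⟨Subgroup.one_mem _, fun k _ => by
        rw [commutatorElement_one_right]; exact T.one_mem⟩
      mul_mem' := by
        rintro a b ⟨ha, hka⟩ ⟨hb, hkb⟩
        refine ⟨Subgroup.mul_mem _ ha hb, fun k hk => ?_⟩
        have e : ⁅k, a * b⁆ = ⁅k, a⁆ * (a * ⁅k, b⁆ * a⁻¹) := by
          simp only [commutatorElement_def]; group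
        rw [e]
        exact T.mul_mem (hka k hk) ((Subgroup.mem_normalizer_iff.mp ha _).mp (hkb k hk))
      inv_mem' := by
        rintro a ⟨ha, hka⟩
        refine ⟨Subgroup.inv_mem _ ha, fun k hk => ?_⟩
        have e : ⁅k, a⁻¹⁆ = a⁻¹ * (⁅k, a⁆)⁻¹ * a⁻¹⁻¹ := by
          simp only [commutatorElement_def]; group
        rw [e]
        exact (Subgroup.mem_normalizer_iff.mp (Subgroup.inv_mem _ ha) _).mp
          (T.inv_mem (hka k hk)) }
  have hS : A₁ ⊔ A₂ ≤ S := by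
    apply sup_le
    · intro a ha
      exact ⟨hn1 ha, fun k hk => h1 (Subgroup.commutator_mem_commutator hk ha)⟩
    · intro a ha
      exact ⟨hn2 ha, fun k hk => h2 (Subgroup.commutator_mem_commutator hk ha)⟩
  rw [Subgroup.commutator_le]
  intro k hk a ha
  exact (hS ha).2 k hk

/-- FIT (B&G, before 11.7): `[L, A] ≤ F(M)` for normal `p'`-subgroups `L` of `M`. -/
theorem fit (hG : IsMinSimpleOddOrder G) (hNil : PNil G) (hFpf : PFpf G) (hCyc : PCyc G)
    (hZ : PZ G) : PFit G := by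
  intro M p A A₀ hE L hLM hML hLcop
  have hE' := hE
  obtain ⟨hM, hp, hσ, hAM, hAmax, hAc, -, -, -, -⟩ := hE
  haveI : Fact p.Prime := ⟨hp⟩
  obtain ⟨-, -, A₁, A₂, hA₁A, hA₂A, hA₁c, hA₂c, hA12, hS1, hS2⟩ := hFpf M p A A₀ hE'
  have hMD : M ≤ Subgroup.normalizer ((⁅M, M⁆ : Subgroup G) : Set G) := fit_le_normalizer_comm M
  -- `Kd := L ∩ M'`
  obtain ⟨Kd, hKd⟩ : ∃ Kd : Subgroup G, Kd = L ⊓ ⁅M, M⁆ := ⟨_, rfl⟩
  have hKdL : Kd ≤ L := hKd ▸ inf_le_left
  have hKdD : Kd ≤ ⁅M, M⁆ := hKd ▸ inf_le_right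
  have hKdM : Kd ≤ M := hKdL.trans hLM
  have hMKd : M ≤ Subgroup.normalizer (Kd : Set G) := by
    rw [hKd]; exact Cfsg.Agent.Lib.Helper29.le_normalizer_inf' hML hMD
  have hKdcop : (Nat.card Kd).Coprime p :=
    Nat.Coprime.coprime_dvd_left (Subgroup.card_dvd_of_le hKdL) hLcop
  -- `Z := Z(Kd)`
  obtain ⟨Z, hZdef⟩ : ∃ Z : Subgroup G, Z = Kd ⊓ Subgroup.centralizer (Kd : Set G) := ⟨_, rfl⟩
  have hZK : Z ≤ Kd := hZdef ▸ inf_le_left
  have hKZ : Kd ≤ Subgroup.centralizer (Z : Set G) := by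
    intro k hk
    rw [Subgroup.mem_centralizer_iff]
    intro z hz
    rw [hZdef] at hz
    exact (Subgroup.mem_centralizer_iff.mp hz.2 k hk).symm
  have hMZ : M ≤ Subgroup.normalizer (Z : Set G) := by
    rw [hZdef]
    exact Cfsg.Agent.Lib.Helper29.le_normalizer_inf' hMKd
      (hMKd.trans (Cfsg.Agent.Lib.Helper32.normalizer_le_normalizer_centralizer Kd))
  have hMsol : Group.IsSolvable ↥M := minSimple_solvable hG hM.1
  -- the subgroups of order `p` acting without fixed points on `M_σ`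
  have key : ∀ Ai : Subgroup G, Ai ≤ A → Nat.card Ai = p →
      sigmaCore M ⊓ Subgroup.centralizer (Ai : Set G) = ⊥ → ⁅Kd, Ai⁆ ≤ fittingOf M := by
    intro Ai hAiA hAic hSi
    have hAiM : Ai ≤ M := hAiA.trans hAM
    have hsup : Kd ⊔ Ai ≤ M := sup_le hKdM hAiM
    have hsol : Group.IsSolvable ↥(Kd ⊔ Ai) := by
      haveI := hMsol
      exact Group.isSolvable_of_isSolvable_injective (Subgroup.inclusion_injective hsup)
    have hFZ : fittingOf Kd ⊓ Subgroup.centralizer (Ai : Set G) ≤ Z := by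
      rintro x ⟨hxF, hxC⟩
      rw [hZdef]
      refine ⟨fittingOf_le Kd hxF, ?_⟩
      apply Cfsg.Agent.Lib.Helper34.mem_of_prime_pow_mem' _ x
      rintro c hc ⟨r, k, hr, hck⟩
      haveI : Fact r.Prime := ⟨hr⟩
      have hcF : c ∈ fittingOf Kd := (Subgroup.zpowers_le.mpr hxF) hc
      have hcC : c ∈ Subgroup.centralizer (Ai : Set G) := (Subgroup.zpowers_le.mpr hxC) hc
      by_cases hrσ : r ∈ sigma M
      · have hcp : IsPGroup r (Subgroup.zpowers c) :=
          IsPGroup.of_card (n := k) (by rw [Nat.card_zpowers, hck])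
        have hcM : Subgroup.zpowers c ≤ M := by
          rw [Subgroup.zpowers_le]; exact hKdM (fittingOf_le Kd hcF)
        have hcS : c ∈ sigmaCore M :=
          Cfsg.Agent.Lib.Helper32.BG12.pgroup_le_sigmaCore hG hM hrσ hcp hcM
            (Subgroup.mem_zpowers c)
        have hmem : c ∈ sigmaCore M ⊓ Subgroup.centralizer (Ai : Set G) := ⟨hcS, hcC⟩
        rw [hSi, Subgroup.mem_bot] at hmem
        rw [hmem]; exact Subgroup.one_mem _
      · have hcY : c ∈ pCoreOf r Kd := mem_pCoreOf_of_mem_fittingOf r hcF hck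
        have hYM : pCoreOf r Kd ≤ M := (pCoreOf_le r Kd).trans hKdM
        have hMY : M ≤ Subgroup.normalizer (pCoreOf r Kd : Set G) :=
          hMKd.trans (Cfsg.Agent.Lib.Helper32.Bn.normalizer_le_normalizer_pCoreOf r Kd)
        have hYc : IsCyclic ↥(pCoreOf r Kd) :=
          hCyc M r hM hr hrσ (pCoreOf r Kd) hYM hMY (isPGroup_pCoreOf r Kd)
        have hDC := Cfsg.Agent.Lib.Helper87.U95.comm_le_centralizer_of_cyclic hYc hMY
        rw [Subgroup.mem_centralizer_iff]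
        intro k' hk'
        exact (Subgroup.mem_centralizer_iff.mp (hDC (hKdD hk')) c hcY).symm
    have h1 := hZ Kd Ai Z p hp (hAiM.trans hMKd) hsol (minSimple_odd_sub hG _) hAic hKdcop hZK hKZ
      (hAiM.trans hMZ) hFZ
    exact h1.trans (Cfsg.Agent.Lib.Helper72.HH.fittingOf_le_fittingOf hKdM hMKd)
  have hT1 := key A₁ hA₁A hA₁c hS1
  have hT2 := key A₂ hA₂A hA₂c hS2
  have hMT : M ≤ Subgroup.normalizer (fittingOf M : Set G) := le_normalizer_fittingOf M
  have hsupA : A₁ ⊔ A₂ = A :=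
    Cfsg.Agent.Lib.Helper41.BG11.sup_eq_of_card hp hAc hA₁A hA₂A hA₁c hA₂c
      (Cfsg.Agent.Lib.Helper41.BG11.inf_eq_bot_of_card_prime hp hA₁c hA₂c hA12)
  have hKdA : ⁅Kd, A⁆ ≤ fittingOf M := by
    rw [← hsupA]
    exact fit_commutator_sup_le hT1 hT2 ((hA₁A.trans hAM).trans hMT) ((hA₂A.trans hAM).trans hMT)
  -- `[L, A] = [L, A, A] ≤ [Kd, A]`
  have hAL : A ≤ Subgroup.normalizer (L : Set G) := hAM.trans hML
  have hLA_L : ⁅L, A⁆ ≤ L := Cfsg.Agent.Lib.Helper72.HH.commutator_le_left_of_normalizer hAL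
  have hLA_D : ⁅L, A⁆ ≤ ⁅M, M⁆ := Subgroup.commutator_mono hLM hAM
  have hLAKd : ⁅L, A⁆ ≤ Kd := by rw [hKd]; exact le_inf hLA_L hLA_D
  have hAsol : Group.IsSolvable ↥A := by
    haveI := hMsol
    exact Group.isSolvable_of_isSolvable_injective (Subgroup.inclusion_injective hAM)
  have hcop : (Nat.card A).Coprime (Nat.card L) := by
    rw [hAc]; exact (Nat.Coprime.pow_right 2 hLcop).symm
  have hF4 : ⁅⁅L, A⁆, A⁆ = ⁅L, A⁆ :=
    Cfsg.Agent.Lib.Helper72.ZG.commutator_commutator_eq hAL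
      (Cfsg.Agent.Lib.Helper72.ZG.le_cent_mul_commutator hAL hcop (Or.inl hAsol))
  rw [← hF4]
  exact (Subgroup.commutator_mono hLAKd le_rfl).trans hKdA

end Cfsg.Agent.Lib.Helper73.BG11
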