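import Cfsg.Agent.Lib.Helper15.BG12Defs3

/-!
Piece N3 of B&G Section 12 (for S1420): normalizers of noncyclic `p`-subgroups of `M`,
`p ∈ σ(M)`, lie in `M`, from `H1` and `H16`.
-/

set_option autoImplicit false

open Cfsg Cfsg.Agent.Lib.Helper32 Cfsg.Agent.Lib.Helper32.BG10 Cfsg.Agent.Lib.Helper3.BG12
  Cfsg.Agent.Lib.Helper15.BG12

namespace Cfsg.Agent.Lib.Helper73.BG12x

universe u

variable {G : Type u} [Group G] [Finite G]

theorem normNC_of_h16 (hG : IsMinSimpleOddOrder G) (h16 : H16 G) : NormNC G := by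
  intro M hM p P hp hPp hPM hnc
  haveI : Fact p.Prime := ⟨hp.1⟩
  have hp2 : p ≠ 2 := by
    intro h2
    have hodd : Odd (Nat.card G) := hG.1
    have hdvd : 2 ∣ Nat.card G := by
      rw [← h2]
      exact hp.2.1.trans (Subgroup.card_subgroup_dvd_card M)
    exact (Nat.not_even_iff_odd.mpr hodd) (even_iff_two_dvd.mpr hdvd)
  have hP1 : P ≠ ⊥ := by
    intro hP
    apply hnc
    rw [hP]
    exact isCyclic_of_subsingleton
  obtain ⟨A', _, hA'e, hA'c⟩ := Cfsg.Agent.S0126.result hp2 hPp hnc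
  have hAP : A'.map P.subtype ≤ P := Subgroup.map_subtype_le A'
  have hAe : IsElementaryAbelian p (A'.map P.subtype) := by
    refine ⟨?_, ?_⟩
    · haveI := hA'e.1
      infer_instance
    · rintro _ ⟨a', ha', rfl⟩
      rw [← map_pow, hA'e.2 a' ha', map_one]
  have hAc : Nat.card (A'.map P.subtype) = p ^ 2 := by
    rw [Subgroup.card_map_of_injective P.subtype_injective, hA'c]
  have hCA : Subgroup.centralizer ((A'.map P.subtype : Subgroup G) : Set G) ≤ M :=
    (h16 M hM p (A'.map P.subtype) ⟨hAP.trans hPM, hAe, hAc⟩).1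
  have hCP : Subgroup.centralizer (P : Set G) ≤ M :=
    (Subgroup.centralizer_le hAP).trans hCA
  have h1 := (h1_of hG M hM p hp P hPp hP1 hPM).2
  rw [h1]
  exact sup_le inf_le_left hCP

end Cfsg.Agent.Lib.Helper73.BG12x
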