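import Mathlib
import Cfsg.Agent.Lib.Helper4.FCDefs

set_option autoImplicit false

namespace Cfsg.Agent.Lib.Helper4.FC

universe u

/-- abstract averaging: in a finite commutative group, if the `k`-fold norm of `u` under `φ`
is trivial and `k` is prime to the order, then `u = φ a / a` for some `a`. -/
theorem conjh_helper73_abs {A : Type u} [CommGroup A] [Finite A] (φ : A →* A) (u : A) (k : ℕ)
    (hk : (Nat.card A).Coprime k)
    (hN : ∏ i ∈ Finset.range k, (φ^[i]) u = 1) : ∃ a : A, φ a = a * u := by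
  classical
  -- partial norms
  have hU : ∀ i : ℕ, φ (∏ j ∈ Finset.range i, (φ^[j]) u) * u
      = ∏ j ∈ Finset.range (i + 1), (φ^[j]) u := by
    intro i
    rw [map_prod, Finset.prod_range_succ']
    simp only [Function.iterate_succ_apply', Function.iterate_zero, id_eq]
  have hU' : ∀ i : ℕ, φ (∏ j ∈ Finset.range i, (φ^[j]) u)
      = (∏ j ∈ Finset.range (i + 1), (φ^[j]) u) * u⁻¹ := by
    intro i
    rw [← hU i, mul_inv_cancel_right]
  have hc : φ (∏ i ∈ Finset.range k, ∏ j ∈ Finset.range i, (φ^[j]) u)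
      = (∏ i ∈ Finset.range k, ∏ j ∈ Finset.range i, (φ^[j]) u) * (u ^ k)⁻¹ := by
    rw [map_prod]
    have h1 : ∏ i ∈ Finset.range k, φ (∏ j ∈ Finset.range i, (φ^[j]) u)
        = ∏ i ∈ Finset.range k, ((∏ j ∈ Finset.range (i + 1), (φ^[j]) u) * u⁻¹) :=
      Finset.prod_congr rfl (fun i _ => hU' i)
    rw [h1, Finset.prod_mul_distrib, Finset.prod_const, Finset.card_range, inv_pow]
    congr 1
    have h2 := Finset.prod_range_succ' (fun i => ∏ j ∈ Finset.range i, (φ^[j]) u) k
    have h3 := Finset.prod_range_succ (fun i => ∏ j ∈ Finset.range i, (φ^[j]) u) k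
    simp only [Finset.range_zero, Finset.prod_empty, mul_one] at h2
    rw [hN, mul_one] at h3
    rw [← h2, h3]
  obtain ⟨a, ha⟩ := (Nat.Coprime.pow_left_bijective hk).2
    ((∏ i ∈ Finset.range k, ∏ j ∈ Finset.range i, (φ^[j]) u)⁻¹)
  simp only at ha
  refine ⟨a, (Nat.Coprime.pow_left_bijective hk).1 ?_⟩
  simp only
  rw [← map_pow, ha, map_inv, hc, mul_pow, ha, mul_inv, inv_inv]

theorem fc_conjh : ConjHStmt.{u} := by
  intro G _ _ A H g hAn hAc hAH hAH' hcop
  classical
  haveI := hAn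
  letI instC : CommGroup A :=
    { (inferInstance : Group A) with
      mul_comm := fun a b => Subtype.ext (hAc a a.2 b b.2) }
  -- decompose g = u * x
  have hg : g ∈ ((A ⊔ H : Subgroup G) : Set G) := by rw [hAH']; trivial
  rw [Subgroup.normal_mul] at hg
  obtain ⟨u, hu, x, hx, rfl⟩ := Set.mem_mul.1 hg
  -- conjugation by x on A
  let φ : A →* A := (MulAut.conjNormal x : MulAut A).toMonoidHom
  have hφ : ∀ v : A, ((φ v : A) : G) = x * v * x⁻¹ := fun v => rfl
  have hit : ∀ (i : ℕ) (v : A), (((φ^[i]) v : A) : G) = x ^ i * v * (x ^ i)⁻¹ := by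
    intro i
    induction i with
    | zero => intro v; simp
    | succ i ih =>
      intro v
      rw [Function.iterate_succ_apply', hφ, ih, pow_succ']
      group
  have hpow : ∀ i : ℕ, (u * x) ^ i
      = ((∏ j ∈ Finset.range i, (φ^[j]) (⟨u, hu⟩ : A) : A) : G) * x ^ i := by
    intro i
    induction i with
    | zero => simp
    | succ i ih =>
      rw [pow_succ, ih, Finset.prod_range_succ, Subgroup.coe_mul, hit]
      simp only
      rw [pow_succ]
      group
  have h1 : (u * x) ^ orderOf (u * x) = 1 := pow_orderOf_eq_one _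
  rw [hpow] at h1
  have hxk : x ^ orderOf (u * x) ∈ A ⊓ H := by
    refine ⟨?_, H.pow_mem hx _⟩
    have : x ^ orderOf (u * x)
        = ((∏ j ∈ Finset.range (orderOf (u * x)), (φ^[j]) (⟨u, hu⟩ : A) : A) : G)⁻¹ :=
      (inv_eq_of_mul_eq_one_right h1).symm ▸ rfl
    rw [this]
    exact A.inv_mem (SetLike.coe_mem _)
  rw [hAH, Subgroup.mem_bot] at hxk
  rw [hxk, mul_one] at h1
  have hN : ∏ j ∈ Finset.range (orderOf (u * x)), (φ^[j]) (⟨u, hu⟩ : A) = 1 :=
    Subtype.ext h1
  obtain ⟨a, ha⟩ := conjh_helper73_abs φ (⟨u, hu⟩ : A) (orderOf (u * x)) hcop.symm hN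
  have ha' : x * (a : G) * x⁻¹ = (a : G) * u := by
    have := congrArg (fun z : A => (z : G)) ha
    simpa [hφ] using this
  refine ⟨a, a.2, ?_⟩
  have : (a : G) * (u * x) * (a : G)⁻¹ = x := by
    calc (a : G) * (u * x) * (a : G)⁻¹ = ((a : G) * u) * x * (a : G)⁻¹ := by group
      _ = (x * (a : G) * x⁻¹) * x * (a : G)⁻¹ := by rw [ha']
      _ = x := by group
  rw [this]
  exact hx

end Cfsg.Agent.Lib.Helper4.FC
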