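import Mathlib
import Cfsg.Agent.Lib.Helper4.FCDefs
import Cfsg.Agent.S4134

set_option autoImplicit false

namespace Cfsg.Agent.Lib.Helper4.FC

universe u

theorem itonil_helper73_aux {G : Type u} [Group G] (K Q : Subgroup G) (h : K ⊔ Q = ⊤)
    (hc : ∀ x ∈ Q, ∀ u ∈ K, x * u = u * x) (hK : Group.IsNilpotent K) (hQ : Group.IsNilpotent Q) :
    Group.IsNilpotent G := by
  have comm : ∀ (u : K) (x : Q), Commute (K.subtype u) (Q.subtype x) := fun u x =>
    (hc x x.2 u u.2).symm
  let f : K × Q →* G := MonoidHom.noncommCoprod K.subtype Q.subtype comm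
  have hf : Function.Surjective f := by
    rw [← MonoidHom.range_eq_top, MonoidHom.noncommCoprod_range, Subgroup.range_subtype,
      Subgroup.range_subtype]
    exact h
  exact Group.nilpotent_of_surjective f hf

theorem fc_itonil : ItoNilStmt.{u} := by
  intro K _ _ n hn h hex
  obtain ⟨p, hp, a, hna, hP⟩ := Cfsg.Agent.S4134.result (G := K) n hn h hex
  have ha : 0 < a := by
    rcases Nat.eq_zero_or_pos a with h0 | h0
    · rw [h0, pow_zero] at hna; omega
    · exact h0
  refine ⟨?_, ⟨p, a, hp.out.prime, ha, hna.symm⟩⟩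
  obtain ⟨P⟩ : Nonempty (Sylow p K) := inferInstance
  obtain ⟨hPn, ⟨N, hNn, hcompl, hNc, hcomm⟩, _⟩ := hP P
  have hsup : N ⊔ (P : Subgroup K) = ⊤ := hcompl.sup_eq_top
  have hPnil : Group.IsNilpotent (P : Subgroup K) := IsPGroup.isNilpotent P.2
  have hNnil : Group.IsNilpotent N := by
    letI : CommGroup N :=
      { (inferInstance : Group N) with
        mul_comm := fun a b => hNc.is_comm.comm a b }
    exact CommGroup.isNilpotent
  exact itonil_helper73_aux N (P : Subgroup K) hsup (fun x hx u hu => (hcomm u hu x hx).symm)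
    hNnil hPnil

end Cfsg.Agent.Lib.Helper4.FC
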