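import Mathlib
import Cfsg.Agent.Lib.Helper4.FCDefs

set_option autoImplicit false

namespace Cfsg.Agent.Lib.Helper4.FC

universe u

theorem fc_kq : KQStmt.{u} := by
  intro G _ _ q K Q hq hKn hKq hKi
  haveI : Fact q.Prime := ⟨hq⟩
  haveI := hKn
  obtain ⟨e, he⟩ := hKi
  have hQcard : ∃ k : ℕ, Nat.card (Q : Subgroup G) = q ^ k := IsPGroup.iff_card.1 Q.2
  obtain ⟨k, hk⟩ := hQcard
  have h1 : K ⊓ (Q : Subgroup G) = ⊥ := by
    apply Subgroup.inf_eq_bot_of_coprime
    rw [hk]
    exact Nat.Coprime.pow_right k hKq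
  refine ⟨h1, ?_, ?_⟩
  · rw [← Subgroup.index_eq_one]
    have hd1 : (K ⊔ (Q : Subgroup G)).index ∣ q ^ e := by
      rw [← he]; exact Subgroup.index_dvd_of_le le_sup_left
    have hd2 : (K ⊔ (Q : Subgroup G)).index ∣ (Q : Subgroup G).index :=
      Subgroup.index_dvd_of_le le_sup_right
    obtain ⟨j, _, hj⟩ := (Nat.dvd_prime_pow hq).1 hd1
    rcases Nat.eq_zero_or_pos j with h0 | hpos
    · rw [hj, h0, pow_zero]
    · exfalso
      have : q ∣ (Q : Subgroup G).index := by
        refine dvd_trans ?_ hd2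
        rw [hj]
        exact dvd_pow_self q (by omega)
      exact Q.not_dvd_index this
  · intro x hx
    have ho1 : orderOf (QuotientGroup.mk' K x) ∣ orderOf x := orderOf_map_dvd _ x
    have ho2 : orderOf (QuotientGroup.mk' K x) ∣ q ^ e := by
      rw [← he, Subgroup.index_eq_card]
      exact orderOf_dvd_natCard _
    have hc : (orderOf x).Coprime (q ^ e) := Nat.Coprime.pow_right e hx
    have h1' : orderOf (QuotientGroup.mk' K x) = 1 :=
      Nat.eq_one_of_dvd_coprimes hc ho1 ho2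
    rw [orderOf_eq_one_iff] at h1'
    exact (QuotientGroup.eq_one_iff x).1 h1'

end Cfsg.Agent.Lib.Helper4.FC
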