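import Mathlib
import Cfsg.Agent.Lib.Helper4.FCDefs

set_option autoImplicit false

namespace Cfsg.Agent.Lib.Helper4.FC

universe u

theorem nilprod_helper73_aux {G : Type u} [Group G] (K Q : Subgroup G) (h : K ⊔ Q = ⊤)
    (hc : ∀ x ∈ Q, ∀ u ∈ K, x * u = u * x) (hK : Group.IsNilpotent K) (hQ : Group.IsNilpotent Q) :
    Group.IsNilpotent G := by
  have comm : ∀ (u : K) (x : Q), Commute (K.subtype u) (Q.subtype x) := fun u x =>
    (hc x x.2 u u.2).symm
  let f : K × Q →* G := MonoidHom.noncommCoprod K.subtype Q.subtype comm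
  have hf : Function.Surjective f := by
    rw [← MonoidHom.range_eq_top, MonoidHom.noncommCoprod_range, Subgroup.range_subtype,
      Subgroup.range_subtype]
    exact h
  exact Group.nilpotent_of_surjective f hf

theorem fc_nilprod : NilProdStmt.{u} := by
  intro G _ _ K Q h hc hK hQ
  exact nilprod_helper73_aux K Q h hc hK hQ

end Cfsg.Agent.Lib.Helper4.FC
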