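import Mathlib

/-!
# A Wielandt-type fixed point inequality, abelian case (helper73)

For commuting automorphisms `α, ζ` of `p`-power order of a finite abelian `p'`-group `W` with
`ζ ^ p = 1`:
`|Fix ζ| * ∏_{i < p} |Fix (α ζ^i)| ≤ |W| * |Fix α ∩ Fix ζ| ^ p`.
-/

set_option autoImplicit false

namespace Cfsg.Agent.Lib.Helper73.FixProd

section fixdef
variable {W : Type*} [Group W]

/-- fixed points of an automorphism. -/
def fix (σ : MulAut W) : Subgroup W where
  carrier := {w | σ w = w}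
  mul_mem' := by
    intro a b ha hb
    simp only [Set.mem_ofPred_eq] at *
    rw [map_mul, ha, hb]
  one_mem' := map_one σ
  inv_mem' := by
    intro a ha
    simp only [Set.mem_ofPred_eq] at *
    rw [map_inv, ha]

theorem mem_fix {σ : MulAut W} {w : W} : w ∈ fix σ ↔ σ w = w := Iff.rfl

theorem pow_fix {σ : MulAut W} {w : W} (h : σ w = w) (j : ℕ) : (σ ^ j : MulAut W) w = w := by
  induction j with
  | zero => simp
  | succ j ih => rw [pow_succ, MulAut.mul_apply, h, ih]

end fixdef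

section abelian
variable {W : Type*} [CommGroup W]

/-- the norm map `w ↦ ∏_{j < o} σ^j w`. -/
def nrm (σ : MulAut W) (o : ℕ) : W →* W :=
  ∏ j ∈ Finset.range o, (σ ^ j : MulAut W).toMonoidHom

theorem nrm_apply (σ : MulAut W) (o : ℕ) (w : W) :
    nrm σ o w = ∏ j ∈ Finset.range o, (σ ^ j : MulAut W) w := by
  unfold nrm
  rw [MonoidHom.finsetProd_apply]
  rfl

theorem nrm_fixed (σ : MulAut W) (o : ℕ) (ho : σ ^ o = 1) (w : W) :
    σ (nrm σ o w) = nrm σ o w := by
  rw [nrm_apply, map_prod]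
  have h1 : ∀ j, σ ((σ ^ j : MulAut W) w) = (σ ^ (j + 1) : MulAut W) w := by
    intro j
    rw [pow_succ', MulAut.mul_apply]
  simp only [h1]
  have h2 := Finset.prod_range_succ' (fun j => (σ ^ j : MulAut W) w) o
  have h3 := Finset.prod_range_succ (fun j => (σ ^ j : MulAut W) w) o
  rw [h3] at h2
  simp only [ho, pow_zero, MulAut.one_apply] at h2
  exact (mul_right_cancel h2).symm

theorem nrm_of_fix (σ : MulAut W) (o : ℕ) {w : W} (h : σ w = w) : nrm σ o w = w ^ o := by
  rw [nrm_apply]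
  simp only [pow_fix h]
  rw [Finset.prod_const, Finset.card_range]

theorem nrm_comm (σ τ : MulAut W) (hc : Commute τ σ) (o : ℕ) (w : W) :
    τ (nrm σ o w) = nrm σ o (τ w) := by
  rw [nrm_apply, nrm_apply, map_prod]
  apply Finset.prod_congr rfl
  intro j _
  have h := (hc.pow_right j).eq
  rw [← MulAut.mul_apply, h, MulAut.mul_apply]

theorem card_mul_card (H C : Subgroup W) :
    Nat.card H * Nat.card C = Nat.card ↥(H ⊔ C) * Nat.card ↥(H ⊓ C) := by
  have h1 : C.relIndex (H ⊔ C) = C.relIndex H := Subgroup.relIndex_sup_right H C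
  have h2 : C.relIndex (H ⊔ C) * Nat.card C = Nat.card ↥(H ⊔ C) := by
    have e1 : (C.subgroupOf (H ⊔ C)).index * Nat.card (C.subgroupOf (H ⊔ C)) = Nat.card ↥(H ⊔ C) :=
      Subgroup.index_mul_card _
    rw [Subgroup.relIndex]
    rw [← e1]
    congr 1
    exact (Nat.card_congr (Subgroup.subgroupOfEquivOfLe le_sup_right).toEquiv).symm
  have h3 : C.relIndex H * Nat.card ↥(H ⊓ C) = Nat.card H := by
    have e1 : ((H ⊓ C).subgroupOf H).index * Nat.card ((H ⊓ C).subgroupOf H) = Nat.card H :=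
      Subgroup.index_mul_card _
    have e2 : (H ⊓ C).relIndex H = C.relIndex H := by
      rw [inf_comm]; exact Subgroup.inf_relIndex_right C H
    rw [← e2, Subgroup.relIndex, ← e1]
    congr 1
    exact (Nat.card_congr (Subgroup.subgroupOfEquivOfLe inf_le_left).toEquiv).symm
  rw [← h2, ← h3, h1]
  ring

theorem fix_of_pow_fix (p : ℕ) [hp : Fact p.Prime] (ζ : MulAut W) (hζ : ζ ^ p = 1) (d : ℕ)
    (hd0 : 0 < d) (hdp : d < p) (v : W) (h : (ζ ^ d : MulAut W) v = v) : ζ v = v := by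
  have hcop : Nat.Coprime d p :=
    Nat.Coprime.symm ((Nat.Prime.coprime_iff_not_dvd hp.out).mpr
      (Nat.not_dvd_of_pos_of_lt hd0 hdp))
  obtain ⟨a, -, ha⟩ := Nat.exists_mul_mod_eq_one_of_coprime hcop hp.out.one_lt
  have h1 : d * a = p * (d * a / p) + 1 := by
    have := Nat.div_add_mod (d * a) p
    omega
  have h2 : (ζ ^ (d * a) : MulAut W) = ζ := by
    rw [h1, pow_succ, pow_mul, hζ, one_pow, one_mul]
  have h3 : ((ζ ^ d) ^ a : MulAut W) v = v := pow_fix h a
  rw [← pow_mul, h2] at h3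
  exact h3

theorem abelian_fix_prod [Finite W] (p : ℕ) [hp : Fact p.Prime] (hW : (Nat.card W).Coprime p)
    (α ζ : MulAut W) (hc : Commute α ζ) (hζ : ζ ^ p = 1) (m : ℕ) (hα : α ^ (p ^ m) = 1) :
    Nat.card (fix ζ) * ∏ i ∈ Finset.range p, Nat.card (fix (α * ζ ^ i)) ≤
      Nat.card W * Nat.card ↥(fix α ⊓ fix ζ) ^ p := by
  obtain ⟨D, hD⟩ : ∃ D : Subgroup W, D = fix α ⊓ fix ζ := ⟨_, rfl⟩
  obtain ⟨o, ho⟩ : ∃ o : ℕ, o = p ^ (m + 1) := ⟨_, rfl⟩
  rw [← hD]
  have hσo : ∀ k : ℕ, (α * ζ ^ k) ^ o = 1 := by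
    intro k
    have e1 : α ^ o = 1 := by rw [ho, pow_succ, pow_mul, hα, one_pow]
    have e2 : (ζ ^ k) ^ o = 1 := by
      rw [← pow_mul, ho, pow_succ, mul_comm k, mul_comm (p ^ m) p, mul_assoc, pow_mul, hζ, one_pow]
    rw [(hc.pow_right k).mul_pow, e1, e2, one_mul]
  have hcζ : ∀ k, Commute ζ (α * ζ ^ k) := fun k =>
    (hc.symm).mul_right (Commute.pow_right (Commute.refl ζ) k)
  have hcσ : ∀ i k, Commute (α * ζ ^ i) (α * ζ ^ k) := by
    intro i k
    have h1 : Commute α (α * ζ ^ k) := (Commute.refl α).mul_right (hc.pow_right k)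
    have h2 : Commute (ζ ^ i) (α * ζ ^ k) := (hcζ k).pow_left i
    exact h1.mul_left h2
  have hD1 : ∀ (k : ℕ) (v : W), (α * ζ ^ k) v = v → ζ v = v → v ∈ D := by
    intro k v h1 h2
    rw [hD]
    refine ⟨?_, h2⟩
    rw [MulAut.mul_apply, pow_fix h2] at h1
    exact h1
  have key1 : ∀ k, fix ζ ≤ D.comap (nrm (α * ζ ^ k) o) := by
    intro k c hc'
    rw [Subgroup.mem_comap]
    apply hD1 k
    · exact nrm_fixed _ o (hσo k) c
    · rw [nrm_comm _ ζ (hcζ k) o c, mem_fix.mp hc']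
  have key2 : ∀ i k, i < p → k < p → i ≠ k →
      fix (α * ζ ^ i) ≤ D.comap (nrm (α * ζ ^ k) o) := by
    intro i k hi hk hik c hc'
    rw [Subgroup.mem_comap]
    obtain ⟨v, hv⟩ : ∃ v : W, v = nrm (α * ζ ^ k) o c := ⟨_, rfl⟩
    rw [← hv]
    have hvk : (α * ζ ^ k) v = v := by rw [hv]; exact nrm_fixed _ o (hσo k) c
    have hvi : (α * ζ ^ i) v = v := by
      rw [hv, nrm_comm _ _ (hcσ i k) o c, mem_fix.mp hc']
    have h3 : (ζ ^ i : MulAut W) v = (ζ ^ k : MulAut W) v := by
      apply α.injective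
      have a1 := hvi
      have a2 := hvk
      rw [MulAut.mul_apply] at a1 a2
      rw [a1, a2]
    have hζv : ζ v = v := by
      rcases lt_or_gt_of_ne hik with h | h
      · apply fix_of_pow_fix p ζ hζ (k - i) (by omega) (by omega) v
        apply (ζ ^ i : MulAut W).injective
        rw [← MulAut.mul_apply, ← pow_add, show i + (k - i) = k by omega, h3]
      · apply fix_of_pow_fix p ζ hζ (i - k) (by omega) (by omega) v
        apply (ζ ^ k : MulAut W).injective
        rw [← MulAut.mul_apply, ← pow_add, show k + (i - k) = i by omega, h3]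
    exact hD1 k v hvk hζv
  have key3 : ∀ k, D.comap (nrm (α * ζ ^ k) o) ⊓ fix (α * ζ ^ k) ≤ D := by
    intro k w hw
    have h1 : w ∈ D.comap (nrm (α * ζ ^ k) o) := hw.1
    have h2 : w ∈ fix (α * ζ ^ k) := hw.2
    rw [Subgroup.mem_comap, nrm_of_fix _ o (mem_fix.mp h2)] at h1
    have hcop : o.Coprime (orderOf w) := by
      rw [ho]
      apply Nat.Coprime.pow_left
      exact (Nat.Coprime.coprime_dvd_left (orderOf_dvd_natCard w) hW).symm
    obtain ⟨a, ha⟩ := exists_pow_eq_self_of_coprime hcop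
    rw [← ha]
    exact D.pow_mem h1 a
  have main : ∀ k, k ≤ p → ∃ H : Subgroup W,
      (∀ j, k ≤ j → j < p → H ≤ D.comap (nrm (α * ζ ^ j) o)) ∧
      Nat.card (fix ζ) * ∏ i ∈ Finset.range k, Nat.card (fix (α * ζ ^ i)) ≤
        Nat.card H * Nat.card D ^ k := by
    intro k
    induction k with
    | zero =>
      intro _
      exact ⟨fix ζ, fun j _ _ => key1 j, by simp⟩
    | succ k ih =>
      intro hk
      obtain ⟨H, hH1, hH2⟩ := ih (by omega)
      refine ⟨H ⊔ fix (α * ζ ^ k), ?_, ?_⟩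
      · intro j hj hjp
        exact sup_le (hH1 j (by omega) hjp) (key2 k j (by omega) hjp (by omega))
      · rw [Finset.prod_range_succ, ← mul_assoc]
        have h1 := card_mul_card H (fix (α * ζ ^ k))
        have h2 : Nat.card ↥(H ⊓ fix (α * ζ ^ k)) ≤ Nat.card D :=
          Subgroup.card_le_of_le ((inf_le_inf_right _ (hH1 k le_rfl (by omega))).trans (key3 k))
        calc (Nat.card (fix ζ) * ∏ i ∈ Finset.range k, Nat.card (fix (α * ζ ^ i))) *
              Nat.card (fix (α * ζ ^ k))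
            ≤ Nat.card H * Nat.card D ^ k * Nat.card (fix (α * ζ ^ k)) :=
              Nat.mul_le_mul_right _ hH2
          _ = (Nat.card H * Nat.card (fix (α * ζ ^ k))) * Nat.card D ^ k := by ring
          _ = Nat.card ↥(H ⊔ fix (α * ζ ^ k)) * Nat.card ↥(H ⊓ fix (α * ζ ^ k)) *
              Nat.card D ^ k := by rw [h1]
          _ ≤ Nat.card ↥(H ⊔ fix (α * ζ ^ k)) * Nat.card D * Nat.card D ^ k := by gcongr
          _ = Nat.card ↥(H ⊔ fix (α * ζ ^ k)) * Nat.card D ^ (k + 1) := by ring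
  obtain ⟨H, -, hH⟩ := main p le_rfl
  calc Nat.card (fix ζ) * ∏ i ∈ Finset.range p, Nat.card (fix (α * ζ ^ i))
      ≤ Nat.card H * Nat.card D ^ p := hH
    _ ≤ Nat.card W * Nat.card D ^ p := Nat.mul_le_mul_right _ (Subgroup.card_le_card_group H)

end abelian

section ambient
variable {Γ : Type*} [Group Γ]

/-- conjugation action of the normalizer of `W` on `W`. -/
def conjHom (W : Subgroup Γ) : ↥(Subgroup.normalizer (W : Set Γ)) →* MulAut ↥W where
  toFun n :=
    { toFun := fun w => ⟨n * w * n⁻¹, (Subgroup.mem_normalizer_iff.mp n.2 w).mp w.2⟩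
      invFun := fun w => ⟨n⁻¹ * w * n, (Subgroup.mem_normalizer_iff''.mp n.2 w).mp w.2⟩
      left_inv := fun w => by apply Subtype.ext; simp [mul_assoc]
      right_inv := fun w => by apply Subtype.ext; simp [mul_assoc]
      map_mul' := fun a b => by apply Subtype.ext; simp [mul_assoc] }
  map_one' := by ext w; simp
  map_mul' := fun a b => by ext w; simp [mul_assoc]

theorem conjHom_apply (W : Subgroup Γ) (n : ↥(Subgroup.normalizer (W : Set Γ))) (w : ↥W) :
    ((conjHom W n w : ↥W) : Γ) = n * w * (n : Γ)⁻¹ := rfl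

theorem map_fix_conjHom (W : Subgroup Γ) (n : ↥(Subgroup.normalizer (W : Set Γ))) :
    (fix (conjHom W n)).map W.subtype = W ⊓ Subgroup.centralizer {(n : Γ)} := by
  ext g
  rw [Subgroup.mem_map, Subgroup.mem_inf, Subgroup.mem_centralizer_iff]
  constructor
  · rintro ⟨w, hw, rfl⟩
    refine ⟨w.2, ?_⟩
    intro h hh
    rw [Set.mem_singleton_iff] at hh
    subst hh
    have h1 := congrArg (Subtype.val) (mem_fix.mp hw)
    rw [conjHom_apply] at h1
    simp only [Subgroup.coe_subtype]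
    calc (n : Γ) * w = (n * w * (n : Γ)⁻¹) * n := by group
      _ = w * n := by rw [h1]
  · rintro ⟨hg, hc⟩
    refine ⟨⟨g, hg⟩, ?_, rfl⟩
    rw [mem_fix]
    apply Subtype.ext
    rw [conjHom_apply]
    have := hc n (Set.mem_singleton _)
    simp only
    rw [this]
    group

theorem card_fix_conjHom (W : Subgroup Γ) (n : ↥(Subgroup.normalizer (W : Set Γ))) :
    Nat.card (fix (conjHom W n)) = Nat.card ↥(W ⊓ Subgroup.centralizer {(n : Γ)}) := by
  rw [← map_fix_conjHom, Subgroup.card_map_of_injective W.subtype_injective]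

theorem card_fix_conjHom_inf (W : Subgroup Γ) (n n' : ↥(Subgroup.normalizer (W : Set Γ))) :
    Nat.card ↥(fix (conjHom W n) ⊓ fix (conjHom W n')) =
      Nat.card ↥(W ⊓ Subgroup.centralizer {(n : Γ), (n' : Γ)}) := by
  have h : (fix (conjHom W n) ⊓ fix (conjHom W n')).map W.subtype =
      W ⊓ Subgroup.centralizer {(n : Γ), (n' : Γ)} := by
    rw [Subgroup.map_inf_eq _ _ _ W.subtype_injective, map_fix_conjHom, map_fix_conjHom]
    ext g
    simp only [Subgroup.mem_inf, Subgroup.mem_centralizer_iff, Set.mem_singleton_iff,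
      Set.mem_insert_iff]
    constructor
    · rintro ⟨⟨hg, h1⟩, -, h2⟩
      refine ⟨hg, ?_⟩
      rintro h (rfl | rfl)
      · exact h1 _ rfl
      · exact h2 _ rfl
    · rintro ⟨hg, h1⟩
      exact ⟨⟨hg, fun h hh => h1 h (Or.inl hh)⟩, hg, fun h hh => h1 h (Or.inr hh)⟩
  rw [← h, Subgroup.card_map_of_injective W.subtype_injective]

/-- the fixed point inequality for an abelian `p'`-subgroup `W` normalised by a `p`-group `P`,
for `y, z ∈ P` whose actions on `W` commute and with `z ^ p` acting trivially. -/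
theorem ambient_abelian [Finite Γ] (p : ℕ) [Fact p.Prime] (W P : Subgroup Γ)
    (hWab : ∀ a ∈ W, ∀ b ∈ W, a * b = b * a) (hWp : (Nat.card W).Coprime p)
    (hP : IsPGroup p P) (hPW : P ≤ Subgroup.normalizer (W : Set Γ))
    (y z : Γ) (hy : y ∈ P) (hz : z ∈ P)
    (hyz : ∀ w ∈ W, (y * z) * w * (y * z)⁻¹ = (z * y) * w * (z * y)⁻¹)
    (hzp : ∀ w ∈ W, z ^ p * w * (z ^ p)⁻¹ = w) :
    Nat.card ↥(W ⊓ Subgroup.centralizer {z}) *
        ∏ i ∈ Finset.range p, Nat.card ↥(W ⊓ Subgroup.centralizer {y * z ^ i}) ≤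
      Nat.card W * Nat.card ↥(W ⊓ Subgroup.centralizer {y, z}) ^ p := by
  letI : CommGroup ↥W :=
    { (inferInstance : Group ↥W) with
      mul_comm := fun a b => Subtype.ext (hWab a a.2 b b.2) }
  obtain ⟨yN, hyN⟩ : ∃ yN : ↥(Subgroup.normalizer (W : Set Γ)), (yN : Γ) = y := ⟨⟨y, hPW hy⟩, rfl⟩
  obtain ⟨zN, hzN⟩ : ∃ zN : ↥(Subgroup.normalizer (W : Set Γ)), (zN : Γ) = z := ⟨⟨z, hPW hz⟩, rfl⟩
  have hc : Commute (conjHom W yN) (conjHom W zN) := by
    show conjHom W yN * conjHom W zN = conjHom W zN * conjHom W yN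
    rw [← map_mul, ← map_mul]
    ext w
    rw [conjHom_apply, conjHom_apply]
    simp only [Subgroup.coe_mul, hyN, hzN]
    exact hyz w w.2
  have hζ : conjHom W zN ^ p = 1 := by
    rw [← map_pow]
    ext w
    rw [conjHom_apply]
    simp only [Subgroup.coe_pow, hzN, MulAut.one_apply]
    exact hzp w w.2
  obtain ⟨m, hm⟩ := hP ⟨y, hy⟩
  have hm' : y ^ p ^ m = 1 := by
    have := congrArg Subtype.val hm
    simpa using this
  have hα : conjHom W yN ^ (p ^ m) = 1 := by
    rw [← map_pow]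
    have : yN ^ p ^ m = 1 := by
      apply Subtype.ext
      simp only [Subgroup.coe_pow, hyN, hm', Subgroup.coe_one]
    rw [this, map_one]
  have key := abelian_fix_prod p hWp (conjHom W yN) (conjHom W zN) hc hζ m hα
  have e1 : ∀ i : ℕ, conjHom W yN * conjHom W zN ^ i = conjHom W (yN * zN ^ i) := by
    intro i
    rw [map_mul, map_pow]
  simp only [e1] at key
  rw [card_fix_conjHom, card_fix_conjHom_inf] at key
  simp only [card_fix_conjHom, Subgroup.coe_mul, Subgroup.coe_pow, hyN, hzN] at key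
  exact key

end ambient

end Cfsg.Agent.Lib.Helper73.FixProd
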