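import Cfsg.Agent.Lib.Helper73.FixProd
import Cfsg.Agent.Lib.Helper1.Coprime2

/-!
# A Wielandt-type fixed point inequality (helper73)

`fix_prod_hom`: for a `p`-group `P₀` acting (through `φ : P₀ →* Γ`, by conjugation) on a
`p'`-subgroup `W` of a finite group `Γ`,
`∏_{x ∈ P₀} |C_W(x)| ^ p ≤ |W| ^ |P₀| * |C_W(P₀)| ^ (|P₀| (p - 1))`.
-/

set_option autoImplicit false
set_option linter.style.haveILetI false
open Pointwise

namespace Cfsg.Agent.Lib.Helper73.FixProd

universe u

section general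
variable {Γ : Type u} [Group Γ]

theorem centralizer_closure_eq (S : Set Γ) :
    Subgroup.centralizer ((Subgroup.closure S : Subgroup Γ) : Set Γ) = Subgroup.centralizer S := by
  apply le_antisymm
  · exact Subgroup.centralizer_le Subgroup.subset_closure
  · intro g hg
    have hS : S ⊆ ((Subgroup.centralizer {g} : Subgroup Γ) : Set Γ) := by
      intro s hs
      rw [SetLike.mem_coe, Subgroup.mem_centralizer_iff]
      intro h hh
      rw [Set.mem_singleton_iff] at hh
      subst hh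
      exact (Subgroup.mem_centralizer_iff.mp hg s hs).symm
    rw [Subgroup.mem_centralizer_iff]
    intro h hh
    have h1 := (Subgroup.closure_le _).mpr hS hh
    exact (Subgroup.mem_centralizer_iff.mp h1 g rfl).symm

theorem card_eq_card_map_mul {G G' : Type*} [Group G] [Group G'] (f : G →* G') (H : Subgroup G) :
    Nat.card H = Nat.card (H.map f) * Nat.card ↥(H ⊓ f.ker) := by
  rw [← Subgroup.relIndex_ker, Subgroup.relIndex, ← Subgroup.index_mul_card (f.ker.subgroupOf H)]
  congr 1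
  rw [← Subgroup.inf_subgroupOf_left]
  exact Nat.card_congr (Subgroup.subgroupOfEquivOfLe inf_le_left).toEquiv

theorem le_normalizer_of_normal (Z B : Subgroup Γ) [Z.Normal] :
    B ≤ Subgroup.normalizer (Z : Set Γ) := by
  rw [Subgroup.normalizer_eq_top]
  exact le_top

theorem isSolvable_of_isPGroup [Finite Γ] (p : ℕ) [Fact p.Prime] {B : Subgroup Γ}
    (hB : IsPGroup p B) : Group.IsSolvable B := by
  haveI := hB.isNilpotent
  infer_instance

theorem coprime_of_le_pgroup [Finite Γ] (p : ℕ) [Fact p.Prime] {B P Z : Subgroup Γ}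
    (hP : IsPGroup p P) (hBP : B ≤ P) (hZp : (Nat.card Z).Coprime p) :
    (Nat.card B).Coprime (Nat.card Z) := by
  obtain ⟨k, hk⟩ := IsPGroup.iff_card.mp hP
  apply Nat.Coprime.coprime_dvd_left (Subgroup.card_dvd_of_le hBP)
  rw [hk]
  exact Nat.Coprime.pow_left k hZp.symm

/-- coprime action: fixed points in a quotient. -/
theorem card_cent_quot [Finite Γ] (p : ℕ) [Fact p.Prime] (Z R P : Subgroup Γ) [Z.Normal]
    (hZR : Z ≤ R) (hP : IsPGroup p P) (hZp : (Nat.card Z).Coprime p) (S : Set Γ)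
    (hS : S ⊆ (P : Set Γ)) :
    Nat.card ↥(R ⊓ Subgroup.centralizer S) =
      Nat.card ↥(Z ⊓ Subgroup.centralizer S) *
        Nat.card ↥(R.map (QuotientGroup.mk' Z) ⊓
          Subgroup.centralizer ((QuotientGroup.mk' Z) '' S)) := by
  obtain ⟨π, hπ⟩ : ∃ π : Γ →* Γ ⧸ Z, π = QuotientGroup.mk' Z := ⟨_, rfl⟩
  rw [← hπ]
  have hker : π.ker = Z := by rw [hπ]; exact QuotientGroup.ker_mk' Z
  obtain ⟨B, hB⟩ : ∃ B : Subgroup Γ, B = Subgroup.closure S := ⟨_, rfl⟩
  have hBP : B ≤ P := by rw [hB]; exact (Subgroup.closure_le P).mpr hS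
  have hcB : Subgroup.centralizer (B : Set Γ) = Subgroup.centralizer S := by
    rw [hB]; exact centralizer_closure_eq S
  have hmap : (R ⊓ Subgroup.centralizer S).map π = R.map π ⊓ Subgroup.centralizer (π '' S) := by
    apply le_antisymm
    · rintro _ ⟨h, hh, rfl⟩
      have hh' := Subgroup.mem_inf.mp hh
      refine Subgroup.mem_inf.mpr ⟨⟨h, hh'.1, rfl⟩, ?_⟩
      rw [Subgroup.mem_centralizer_iff]
      rintro _ ⟨s, hs, rfl⟩
      rw [← map_mul, ← map_mul, Subgroup.mem_centralizer_iff.mp hh'.2 s hs]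
    · intro x hx
      obtain ⟨⟨v, hv, rfl⟩, hC⟩ := Subgroup.mem_inf.mp hx
      have hS' : S ⊆ (((Subgroup.centralizer {π v}).comap π : Subgroup Γ) : Set Γ) := by
        intro s hs
        rw [SetLike.mem_coe, Subgroup.mem_comap, Subgroup.mem_centralizer_iff]
        intro h hh
        rw [Set.mem_singleton_iff] at hh
        subst hh
        exact (Subgroup.mem_centralizer_iff.mp hC (π s) ⟨s, hs, rfl⟩).symm
      have hBZ : ∀ a ∈ B, v⁻¹ * (a * v * a⁻¹) ∈ Z := by
        intro a ha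
        have ha' : a ∈ (Subgroup.centralizer {π v}).comap π := by
          rw [hB] at ha
          exact (Subgroup.closure_le _).mpr hS' ha
        rw [Subgroup.mem_comap, Subgroup.mem_centralizer_iff] at ha'
        have h1 := ha' (π v) rfl
        rw [← hker, MonoidHom.mem_ker]
        rw [map_mul, map_mul, map_mul, map_inv, map_inv, ← h1]
        group
      obtain ⟨d, hd, hvd⟩ := Helper1.coprime_coset_fixed (A := B) (D := Z)
        (le_normalizer_of_normal Z B) (coprime_of_le_pgroup p hP hBP hZp)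
        (Or.inl (isSolvable_of_isPGroup p (hP.to_le hBP))) v hBZ
      refine ⟨v * d, Subgroup.mem_inf.mpr ⟨R.mul_mem hv (hZR hd), ?_⟩, ?_⟩
      · rw [← hcB]; exact hvd
      · have hd1 : π d = 1 := by rw [← MonoidHom.mem_ker, hker]; exact hd
        rw [map_mul, hd1, mul_one]
  have h1 := card_eq_card_map_mul π (R ⊓ Subgroup.centralizer S)
  rw [hmap, hker] at h1
  have h2 : R ⊓ Subgroup.centralizer S ⊓ Z = Z ⊓ Subgroup.centralizer S := by
    ext g
    simp only [Subgroup.mem_inf]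
    exact ⟨fun h => ⟨h.2, h.1.2⟩, fun h => ⟨⟨hZR h.1, h.2⟩, h.1⟩⟩
  rw [h2] at h1
  rw [h1, mul_comm]

/-- fixed points computed in a subgroup `N` containing `R`. -/
theorem card_cent_subgroupOf (N R : Subgroup Γ) (hRN : R ≤ N) (S₁ : Set ↥N) :
    Nat.card ↥(R.subgroupOf N ⊓ Subgroup.centralizer S₁) =
      Nat.card ↥(R ⊓ Subgroup.centralizer (N.subtype '' S₁)) := by
  have h : (R.subgroupOf N ⊓ Subgroup.centralizer S₁).map N.subtype =
      R ⊓ Subgroup.centralizer (N.subtype '' S₁) := by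
    ext g
    constructor
    · rintro ⟨n, hn, rfl⟩
      have hn' := Subgroup.mem_inf.mp hn
      refine Subgroup.mem_inf.mpr ⟨hn'.1, ?_⟩
      rw [Subgroup.mem_centralizer_iff]
      rintro _ ⟨s, hs, rfl⟩
      have := Subgroup.mem_centralizer_iff.mp hn'.2 s hs
      exact congrArg Subtype.val this
    · intro hg'
      obtain ⟨hg, hc⟩ := Subgroup.mem_inf.mp hg'
      refine ⟨⟨g, hRN hg⟩, Subgroup.mem_inf.mpr ⟨hg, ?_⟩, rfl⟩
      rw [Subgroup.mem_centralizer_iff]
      intro s hs
      apply Subtype.ext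
      exact Subgroup.mem_centralizer_iff.mp hc s ⟨s, hs, rfl⟩
  rw [← h, Subgroup.card_map_of_injective N.subtype_injective]

/-- the fixed point inequality for a normal `r`-subgroup `R`, by induction on `|R|` through the
centre. -/
theorem rgroup_normal (p r : ℕ) [Fact p.Prime] [Fact r.Prime] :
    ∀ (n : ℕ) (Γ : Type u) [Group Γ] [Finite Γ] (R P : Subgroup Γ) [R.Normal],
      Nat.card R = n → IsPGroup r R → (Nat.card R).Coprime p → IsPGroup p P →
      ∀ (y z : Γ), y ∈ P → z ∈ P →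
      (∀ w ∈ R, (y * z) * w * (y * z)⁻¹ = (z * y) * w * (z * y)⁻¹) →
      (∀ w ∈ R, z ^ p * w * (z ^ p)⁻¹ = w) →
      Nat.card ↥(R ⊓ Subgroup.centralizer {z}) *
          ∏ i ∈ Finset.range p, Nat.card ↥(R ⊓ Subgroup.centralizer {y * z ^ i}) ≤
        Nat.card R * Nat.card ↥(R ⊓ Subgroup.centralizer {y, z}) ^ p := by
  intro n
  induction n using Nat.strong_induction_on with
  | _ n ih =>
  intro Γ _ _ R P _ hn hR hRp hP y z hy hz hyz hzp
  by_cases hbot : R = ⊥
  · subst hbot
    simp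
  obtain ⟨Z, hZ⟩ : ∃ Z : Subgroup Γ, Z = (Subgroup.center ↥R).map R.subtype := ⟨_, rfl⟩
  have hZR : Z ≤ R := by rw [hZ]; exact Subgroup.map_subtype_le _
  haveI hZn : Z.Normal := by
    rw [← Subgroup.normalizer_eq_top_iff, eq_top_iff]
    have := Helper1.normalizer_le_normalizer_map_of_characteristic (K := R) (Subgroup.center ↥R)
    rw [Subgroup.normalizer_eq_top] at this
    rw [hZ]
    exact this
  haveI : Nontrivial ↥R := (Subgroup.nontrivial_iff_ne_bot R).mpr hbot
  have hZbot : Z ≠ ⊥ := by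
    haveI := hR.center_nontrivial
    rw [hZ]
    intro h
    rw [Subgroup.map_eq_bot_iff_of_injective _ R.subtype_injective] at h
    exact ((Subgroup.nontrivial_iff_ne_bot _).mp inferInstance) h
  have hZab : ∀ a ∈ Z, ∀ b ∈ Z, a * b = b * a := by
    rw [hZ]
    rintro _ ⟨a, ha, rfl⟩ _ ⟨b, hb, rfl⟩
    have := Subgroup.mem_center_iff.mp ha b
    simp only [Subgroup.coe_subtype]
    rw [← Subgroup.coe_mul, ← Subgroup.coe_mul, this]
  have hZp : (Nat.card Z).Coprime p :=
    Nat.Coprime.coprime_dvd_left (Subgroup.card_dvd_of_le hZR) hRp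
  have hA := ambient_abelian p Z P hZab hZp hP (le_normalizer_of_normal Z P) y z hy hz
    (fun w hw => hyz w (hZR hw)) (fun w hw => hzp w (hZR hw))
  obtain ⟨π, hπ⟩ : ∃ π : Γ →* Γ ⧸ Z, π = QuotientGroup.mk' Z := ⟨_, rfl⟩
  have hker : π.ker = Z := by rw [hπ]; exact QuotientGroup.ker_mk' Z
  have hπs : Function.Surjective π := by rw [hπ]; exact QuotientGroup.mk'_surjective Z
  haveI : (R.map π).Normal := Subgroup.Normal.map inferInstance π hπs
  have hcardR : Nat.card R = Nat.card (R.map π) * Nat.card Z := by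
    have := card_eq_card_map_mul π R
    rw [hker, inf_eq_right.mpr hZR] at this
    exact this
  have hZ1 : 1 < Nat.card Z := (Subgroup.one_lt_card_iff_ne_bot Z).mpr hZbot
  have hlt : Nat.card (R.map π) < n := by
    rw [← hn, hcardR]
    have : 0 < Nat.card (R.map π) := Nat.card_pos
    nlinarith
  have hB := ih _ hlt (Γ ⧸ Z) (R.map π) (P.map π) rfl (hR.map π)
    (Nat.Coprime.coprime_dvd_left (Subgroup.card_map_dvd R π) hRp) (hP.map π) (π y) (π z)
    (Subgroup.mem_map_of_mem π hy) (Subgroup.mem_map_of_mem π hz)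
    (by
      rintro _ ⟨w, hw, rfl⟩
      have := congrArg π (hyz w hw)
      simp only [map_mul, map_inv] at this
      exact this)
    (by
      rintro _ ⟨w, hw, rfl⟩
      have := congrArg π (hzp w hw)
      simp only [map_mul, map_inv, map_pow] at this
      exact this)
  have hS1 : ({z} : Set Γ) ⊆ (P : Set Γ) := by simpa using hz
  have hS2 : ∀ i : ℕ, ({y * z ^ i} : Set Γ) ⊆ (P : Set Γ) := fun i => by
    simpa using P.mul_mem hy (P.pow_mem hz i)
  have hS3 : ({y, z} : Set Γ) ⊆ (P : Set Γ) := by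
    intro s hs
    rcases hs with rfl | rfl
    · exact hy
    · exact hz
  have q1 := card_cent_quot p Z R P hZR hP hZp {z} hS1
  have q2 := fun i => card_cent_quot p Z R P hZR hP hZp {y * z ^ i} (hS2 i)
  have q3 := card_cent_quot p Z R P hZR hP hZp {y, z} hS3
  rw [← hπ] at q1 q3
  simp only [← hπ] at q2
  rw [Set.image_singleton] at q1
  simp only [Set.image_singleton, map_mul, map_pow] at q2
  rw [Set.image_pair] at q3
  rw [q1, q3, hcardR]
  simp only [q2]
  rw [Finset.prod_mul_distrib]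
  refine le_trans (le_of_eq ?_) (le_trans (Nat.mul_le_mul hA hB) (le_of_eq ?_))
  · ring
  · ring

/-- the fixed point inequality for an `r`-subgroup `R` normalised by the `p`-group `P`. -/
theorem rgroup [Finite Γ] (p r : ℕ) [Fact p.Prime] [Fact r.Prime] (R P : Subgroup Γ)
    (hR : IsPGroup r R) (hRp : (Nat.card R).Coprime p) (hP : IsPGroup p P)
    (hPR : P ≤ Subgroup.normalizer (R : Set Γ)) (y z : Γ) (hy : y ∈ P) (hz : z ∈ P)
    (hyz : ∀ w ∈ R, (y * z) * w * (y * z)⁻¹ = (z * y) * w * (z * y)⁻¹)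
    (hzp : ∀ w ∈ R, z ^ p * w * (z ^ p)⁻¹ = w) :
    Nat.card ↥(R ⊓ Subgroup.centralizer {z}) *
        ∏ i ∈ Finset.range p, Nat.card ↥(R ⊓ Subgroup.centralizer {y * z ^ i}) ≤
      Nat.card R * Nat.card ↥(R ⊓ Subgroup.centralizer {y, z}) ^ p := by
  obtain ⟨N, hN⟩ : ∃ N : Subgroup Γ, N = Subgroup.normalizer (R : Set Γ) := ⟨_, rfl⟩
  have hRN : R ≤ N := hN ▸ Subgroup.le_normalizer
  have hPN : P ≤ N := hN ▸ hPR
  haveI : (R.subgroupOf N).Normal := by rw [hN]; exact Subgroup.normal_in_normalizer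
  have hcard : Nat.card (R.subgroupOf N) = Nat.card R :=
    Nat.card_congr (Subgroup.subgroupOfEquivOfLe hRN).toEquiv
  have key := rgroup_normal p r _ ↥N (R.subgroupOf N) (P.subgroupOf N) rfl hR.comap_subtype
    (by rw [hcard]; exact hRp) hP.comap_subtype ⟨y, hPN hy⟩ ⟨z, hPN hz⟩
    (by rw [Subgroup.mem_subgroupOf]; exact hy) (by rw [Subgroup.mem_subgroupOf]; exact hz)
    (by
      intro w hw
      apply Subtype.ext
      simp only [Subgroup.coe_mul, Subgroup.coe_inv]
      exact hyz w (Subgroup.mem_subgroupOf.mp hw))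
    (by
      intro w hw
      apply Subtype.ext
      simp only [Subgroup.coe_mul, Subgroup.coe_inv, Subgroup.coe_pow]
      exact hzp w (Subgroup.mem_subgroupOf.mp hw))
  rw [hcard] at key
  simp only [card_cent_subgroupOf N R hRN, Set.image_singleton, Set.image_pair,
    Subgroup.coe_subtype, Subgroup.coe_mul, Subgroup.coe_pow] at key
  exact key

/-- coprime action: the fixed points of `S ⊆ P` in a `P`-invariant Sylow `r`-subgroup of `W`
form a Sylow `r`-subgroup of the fixed points of `S` in `W`. -/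
theorem card_cent_sylow [Finite Γ] (p r : ℕ) [Fact p.Prime] [hr : Fact r.Prime]
    (W P : Subgroup Γ) (hP : IsPGroup p P) (hPW : P ≤ Subgroup.normalizer (W : Set Γ))
    (hWp : (Nat.card W).Coprime p) (Q : Sylow r W)
    (hQ : P ≤ Subgroup.normalizer (((Q : Subgroup W).map W.subtype : Subgroup Γ) : Set Γ))
    (S : Set Γ) (hS : S ⊆ (P : Set Γ)) :
    Nat.card ↥((Q : Subgroup W).map W.subtype ⊓ Subgroup.centralizer S) =
      r ^ (Nat.card ↥(W ⊓ Subgroup.centralizer S)).factorization r := by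
  obtain ⟨B, hB⟩ : ∃ B : Subgroup Γ, B = Subgroup.closure S := ⟨_, rfl⟩
  have hBP : B ≤ P := by rw [hB]; exact (Subgroup.closure_le P).mpr hS
  have hcB : Subgroup.centralizer (B : Set Γ) = Subgroup.centralizer S := by
    rw [hB]; exact centralizer_closure_eq S
  have hQ0 := hQ
  obtain ⟨R, hR⟩ : ∃ R : Subgroup Γ, R = (Q : Subgroup W).map W.subtype := ⟨_, rfl⟩
  rw [← hR] at hQ ⊢
  have hRW : R ≤ W := hR ▸ Subgroup.map_subtype_le _
  have hRr : IsPGroup r R := hR ▸ Q.isPGroup'.map _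
  obtain ⟨CB, hCB⟩ : ∃ CB : Subgroup Γ, CB = W ⊓ Subgroup.centralizer S := ⟨_, rfl⟩
  rw [← hCB]
  obtain ⟨T, hT⟩ : ∃ T : Subgroup Γ,
      T = ((default : Sylow r ↥CB) : Subgroup ↥CB).map CB.subtype := ⟨_, rfl⟩
  have hTcard : Nat.card T = r ^ (Nat.card CB).factorization r := by
    rw [hT, Subgroup.card_map_of_injective CB.subtype_injective]
    exact (default : Sylow r ↥CB).card_eq_multiplicity
  have hTCB : T ≤ CB := hT ▸ Subgroup.map_subtype_le _
  have hTW : T ≤ W := hTCB.trans (hCB ▸ inf_le_left)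
  have hTC : T ≤ Subgroup.centralizer S := hTCB.trans (hCB ▸ inf_le_right)
  have hTr : IsPGroup r T := hT ▸ (default : Sylow r ↥CB).isPGroup'.map _
  have hcomm : ∀ b ∈ B, ∀ t ∈ T, b * t = t * b := by
    intro b hb t ht
    have : t ∈ Subgroup.centralizer (B : Set Γ) := by rw [hcB]; exact hTC ht
    exact Subgroup.mem_centralizer_iff.mp this b hb
  have hBT : B ≤ Subgroup.normalizer (T : Set Γ) := by
    intro b hb
    rw [Subgroup.mem_normalizer_iff]
    intro h
    constructor
    · intro hh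
      have : b * h * b⁻¹ = h := by rw [hcomm b hb h hh]; group
      rw [this]; exact hh
    · intro hh
      have e := hcomm b⁻¹ (B.inv_mem hb) _ hh
      have e' : h * b⁻¹ = b * h * b⁻¹ * b⁻¹ := by rw [← e]; group
      have : h = b * h * b⁻¹ := mul_right_cancel e'
      rw [this]; exact hh
  have hcop := coprime_of_le_pgroup p hP hBP hWp
  have hsolv : Group.IsSolvable B ∨ Group.IsSolvable W :=
    Or.inl (isSolvable_of_isPGroup p (hP.to_le hBP))
  obtain ⟨Q', hTQ', hBQ'⟩ := Helper1.invariant_pgroup_le_invariant_sylow (hBP.trans hPW) hcop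
    hsolv r T hTW hTr hBT
  obtain ⟨c, hc, hcQ⟩ := Helper1.invariant_sylow_conj (hBP.trans hPW) hcop hsolv r Q Q'
    (hBP.trans hQ0) hBQ'
  have h1 : (Q' : Subgroup W).map W.subtype = MulAut.conj (c : Γ) • R := by
    rw [← hcQ, Sylow.pointwise_smul_def, Helper1.map_subtype_conj_smul, hR]
  rw [h1] at hTQ'
  have hcS : (c : Γ) ∈ Subgroup.centralizer S := hcB ▸ hc
  have hle1 : MulAut.conj (c : Γ)⁻¹ • T ≤ R ⊓ Subgroup.centralizer S := by
    intro x hx
    rw [Helper1.mem_conj_smul_iff, inv_inv] at hx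
    have hx1 := hTQ' hx
    rw [Helper1.mem_conj_smul_iff] at hx1
    have e : (c : Γ)⁻¹ * (c * x * (c : Γ)⁻¹) * c = x := by group
    refine Subgroup.mem_inf.mpr ⟨?_, ?_⟩
    · rw [e] at hx1; exact hx1
    · rw [← e]
      exact Subgroup.mul_mem _ (Subgroup.mul_mem _ (Subgroup.inv_mem _ hcS) (hTC hx)) hcS
  have hge : Nat.card T ≤ Nat.card ↥(R ⊓ Subgroup.centralizer S) := by
    rw [← Helper1.card_conj_smul (c : Γ)⁻¹ T]
    exact Subgroup.card_le_of_le hle1
  have hle : Nat.card ↥(R ⊓ Subgroup.centralizer S) ≤ Nat.card T := by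
    have h2 : R ⊓ Subgroup.centralizer S ≤ CB := by rw [hCB]; exact inf_le_inf_right _ hRW
    have h3 : IsPGroup r ↥(R ⊓ Subgroup.centralizer S) := hRr.to_le inf_le_left
    obtain ⟨j, hj⟩ := IsPGroup.iff_card.mp h3
    rw [hj, hTcard]
    apply Nat.pow_le_pow_right hr.out.pos
    rw [← hr.out.pow_dvd_iff_le_factorization Nat.card_pos.ne', ← hj]
    exact Subgroup.card_dvd_of_le h2
  rw [← hTcard]
  exact le_antisymm hle hge

/-- the fixed point inequality for a `p'`-subgroup `W` normalised by the `p`-group `P`,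
for `y, z ∈ P` whose actions on `W` commute and with `z ^ p` acting trivially. -/
theorem pprime [Finite Γ] (p : ℕ) [Fact p.Prime] (W P : Subgroup Γ)
    (hWp : (Nat.card W).Coprime p) (hP : IsPGroup p P)
    (hPW : P ≤ Subgroup.normalizer (W : Set Γ)) (y z : Γ) (hy : y ∈ P) (hz : z ∈ P)
    (hyz : ∀ w ∈ W, (y * z) * w * (y * z)⁻¹ = (z * y) * w * (z * y)⁻¹)
    (hzp : ∀ w ∈ W, z ^ p * w * (z ^ p)⁻¹ = w) :
    Nat.card ↥(W ⊓ Subgroup.centralizer {z}) *
        ∏ i ∈ Finset.range p, Nat.card ↥(W ⊓ Subgroup.centralizer {y * z ^ i}) ≤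
      Nat.card W * Nat.card ↥(W ⊓ Subgroup.centralizer {y, z}) ^ p := by
  have hpos1 : Nat.card ↥(W ⊓ Subgroup.centralizer {z}) *
      ∏ i ∈ Finset.range p, Nat.card ↥(W ⊓ Subgroup.centralizer {y * z ^ i}) ≠ 0 := by
    apply mul_ne_zero Nat.card_pos.ne'
    exact Finset.prod_ne_zero_iff.mpr (fun i _ => Nat.card_pos.ne')
  have hpos2 : Nat.card W * Nat.card ↥(W ⊓ Subgroup.centralizer {y, z}) ^ p ≠ 0 :=
    mul_ne_zero Nat.card_pos.ne' (pow_ne_zero _ Nat.card_pos.ne')
  apply Nat.le_of_dvd (Nat.pos_of_ne_zero hpos2)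
  rw [← Nat.factorization_le_iff_dvd hpos1 hpos2]
  intro r
  by_cases hr : r.Prime
  · haveI : Fact r.Prime := ⟨hr⟩
    obtain ⟨Q, hQ⟩ := Helper1.exists_invariant_sylow hPW (coprime_of_le_pgroup p hP le_rfl hWp)
      (Or.inl (isSolvable_of_isPGroup p hP)) r
    have hRr : IsPGroup r ↥((Q : Subgroup W).map W.subtype) := Q.isPGroup'.map W.subtype
    have hRW : (Q : Subgroup W).map W.subtype ≤ W := Subgroup.map_subtype_le _
    have hRp : (Nat.card ↥((Q : Subgroup W).map W.subtype)).Coprime p :=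
      Nat.Coprime.coprime_dvd_left (Subgroup.card_dvd_of_le hRW) hWp
    have key := rgroup p r ((Q : Subgroup W).map W.subtype) P hRr hRp hP hQ y z hy hz
      (fun w hw => hyz w (hRW hw)) (fun w hw => hzp w (hRW hw))
    have hS1 : ({z} : Set Γ) ⊆ (P : Set Γ) := by simpa using hz
    have hS2 : ∀ i : ℕ, ({y * z ^ i} : Set Γ) ⊆ (P : Set Γ) := fun i => by
      simpa using P.mul_mem hy (P.pow_mem hz i)
    have hS3 : ({y, z} : Set Γ) ⊆ (P : Set Γ) := by
      intro s hs
      rcases hs with rfl | rfl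
      · exact hy
      · exact hz
    have c1 := card_cent_sylow p r W P hP hPW hWp Q hQ {z} hS1
    have c2 := fun i => card_cent_sylow p r W P hP hPW hWp Q hQ {y * z ^ i} (hS2 i)
    have c3 := card_cent_sylow p r W P hP hPW hWp Q hQ {y, z} hS3
    have c0 : Nat.card ↥((Q : Subgroup W).map W.subtype) = r ^ (Nat.card W).factorization r := by
      rw [Subgroup.card_map_of_injective W.subtype_injective]
      exact Q.card_eq_multiplicity
    rw [c1, c3, c0] at key
    simp only [c2] at key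
    rw [Finset.prod_pow_eq_pow_sum, ← pow_add, ← pow_mul, ← pow_add] at key
    have key' := (Nat.pow_le_pow_iff_right hr.one_lt).mp key
    rw [Nat.factorization_mul Nat.card_pos.ne'
      (Finset.prod_ne_zero_iff.mpr (fun i _ => Nat.card_pos.ne')),
      Nat.factorization_prod (fun i _ => Nat.card_pos.ne'),
      Nat.factorization_mul Nat.card_pos.ne' (pow_ne_zero _ Nat.card_pos.ne'),
      Nat.factorization_pow]
    simp only [Finsupp.coe_add, Finsupp.coe_finsetSum, Finsupp.coe_smul, Pi.add_apply,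
      Finset.sum_apply, Pi.smul_apply, smul_eq_mul]
    rw [mul_comm p]
    exact key'
  · rw [Nat.factorization_eq_zero_of_not_prime _ hr, Nat.factorization_eq_zero_of_not_prime _ hr]

end general

section hom

/-- **Wielandt-type fixed point inequality**: for a `p`-group `P₀` acting through `φ : P₀ →* Γ`
by conjugation on a `p'`-subgroup `W`,
`∏_{x ∈ P₀} |C_W(x)| ^ p ≤ |W| ^ |P₀| * |C_W(P₀)| ^ (|P₀| (p - 1))`. -/
theorem fix_prod_hom (p : ℕ) [hp : Fact p.Prime] {Γ : Type u} [Group Γ] [Finite Γ]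
    {P₀ : Type*} [Group P₀] [Fintype P₀] (hP₀ : IsPGroup p P₀) (φ : P₀ →* Γ) :
    ∀ (n : ℕ) (W : Subgroup Γ), Nat.card W = n → (Nat.card W).Coprime p →
      φ.range ≤ Subgroup.normalizer (W : Set Γ) →
      ∏ x : P₀, Nat.card ↥(W ⊓ Subgroup.centralizer {φ x}) ^ p ≤
        Nat.card W ^ Fintype.card P₀ *
          Nat.card ↥(W ⊓ Subgroup.centralizer (φ.range : Set Γ)) ^ (Fintype.card P₀ * (p - 1)) := by
  intro n
  induction n using Nat.strong_induction_on with
  | _ n ih =>
  intro W hn hWp hφW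
  by_cases hcent : φ.range ≤ Subgroup.centralizer (W : Set Γ)
  · have h1 : ∀ x : P₀, W ⊓ Subgroup.centralizer {φ x} = W := by
      intro x
      apply inf_eq_left.mpr
      intro w hw
      rw [Subgroup.mem_centralizer_iff]
      intro h hh
      rw [Set.mem_singleton_iff] at hh
      subst hh
      exact (Subgroup.mem_centralizer_iff.mp (hcent ⟨x, rfl⟩) w hw).symm
    have h2 : W ⊓ Subgroup.centralizer (φ.range : Set Γ) = W := by
      apply inf_eq_left.mpr
      intro w hw
      rw [Subgroup.mem_centralizer_iff]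
      rintro _ ⟨x, rfl⟩
      exact (Subgroup.mem_centralizer_iff.mp (hcent ⟨x, rfl⟩) w hw).symm
    simp only [h1, h2]
    rw [Finset.prod_const, Finset.card_univ, ← pow_mul, ← pow_add]
    apply le_of_eq
    congr 1
    obtain ⟨q, rfl⟩ : ∃ q, p = q + 1 := ⟨p - 1, by have := hp.out.pos; omega⟩
    simp only [Nat.add_sub_cancel]
    ring
  · obtain ⟨K, hK⟩ : ∃ K : Subgroup P₀, K = (Subgroup.centralizer (W : Set Γ)).comap φ :=
      ⟨_, rfl⟩
    haveI hKn : K.Normal := by
      rw [hK]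
      constructor
      intro k hk g
      rw [Subgroup.mem_comap] at hk ⊢
      rw [map_mul, map_mul, map_inv]
      rw [Subgroup.mem_centralizer_iff] at hk ⊢
      intro w hw
      have hgn : φ g ∈ Subgroup.normalizer (W : Set Γ) := hφW ⟨g, rfl⟩
      have hw' : (φ g)⁻¹ * w * φ g ∈ W := (Subgroup.mem_normalizer_iff''.mp hgn w).mp hw
      have := hk _ hw'
      calc w * (φ g * φ k * (φ g)⁻¹) = φ g * (((φ g)⁻¹ * w * φ g) * φ k) * (φ g)⁻¹ := by group
        _ = φ g * (φ k * ((φ g)⁻¹ * w * φ g)) * (φ g)⁻¹ := by rw [this]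
        _ = φ g * φ k * (φ g)⁻¹ * w := by group
    have hKtop : K ≠ ⊤ := by
      intro h
      apply hcent
      rintro _ ⟨x, rfl⟩
      have hx : x ∈ K := h ▸ Subgroup.mem_top x
      rw [hK] at hx
      exact hx
    haveI : Nontrivial (P₀ ⧸ K) := QuotientGroup.nontrivial_iff.mpr hKtop
    have hQ : IsPGroup p (P₀ ⧸ K) := hP₀.to_quotient K
    haveI := hQ.center_nontrivial
    obtain ⟨c, hc⟩ : ∃ c : Subgroup.center (P₀ ⧸ K), orderOf c = p := by
      apply exists_prime_orderOf_dvd_card' p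
      have hZ : IsPGroup p (Subgroup.center (P₀ ⧸ K)) := hQ.to_subgroup _
      obtain ⟨k, hk0, hk⟩ := hZ.nontrivial_iff_card.mp inferInstance
      rw [hk]
      exact dvd_pow_self p hk0.ne'
    obtain ⟨z, hz⟩ := QuotientGroup.mk_surjective (c : P₀ ⧸ K)
    have hc1 : (c : P₀ ⧸ K) ≠ 1 := by
      intro h
      have : c = 1 := Subtype.ext h
      rw [this, orderOf_one] at hc
      exact hp.out.one_lt.ne hc
    have hcp : (c : P₀ ⧸ K) ^ p = 1 := by
      have := pow_orderOf_eq_one c
      rw [hc] at this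
      have h2 := congrArg Subtype.val this
      simpa using h2
    have hzK : z ∉ K := by
      intro h
      apply hc1
      rw [← hz]
      exact (QuotientGroup.eq_one_iff z).mpr h
    have hzpK : z ^ p ∈ K := by
      rw [← QuotientGroup.eq_one_iff, QuotientGroup.mk_pow, hz]
      exact hcp
    have hxz : ∀ x : P₀, (x * z)⁻¹ * (z * x) ∈ K := by
      intro x
      rw [← QuotientGroup.eq]
      rw [QuotientGroup.mk_mul, QuotientGroup.mk_mul, hz]
      exact (Subgroup.mem_center_iff.mp c.2 (x : P₀ ⧸ K))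
    -- translate to `Γ`
    have Z1 : ∃ w ∈ W, ¬ (w * φ z = φ z * w) := by
      by_contra hne
      push Not at hne
      apply hzK
      rw [hK, Subgroup.mem_comap, Subgroup.mem_centralizer_iff]
      exact hne
    have Z2 : ∀ w ∈ W, φ z ^ p * w * (φ z ^ p)⁻¹ = w := by
      intro w hw
      rw [hK, Subgroup.mem_comap, Subgroup.mem_centralizer_iff, map_pow] at hzpK
      rw [← hzpK w hw]
      group
    have Z3 : ∀ x : P₀, ∀ w ∈ W,
        (φ x * φ z) * w * (φ x * φ z)⁻¹ = (φ z * φ x) * w * (φ z * φ x)⁻¹ := by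
      intro x w hw
      have h := hxz x
      rw [hK, Subgroup.mem_comap, Subgroup.mem_centralizer_iff] at h
      have h1 := h w hw
      rw [map_mul, map_inv, map_mul, map_mul] at h1
      have e : φ z * φ x = (φ x * φ z) * ((φ x * φ z)⁻¹ * (φ z * φ x)) := by group
      rw [e]
      have e2 : (φ x * φ z) * ((φ x * φ z)⁻¹ * (φ z * φ x)) * w *
          ((φ x * φ z) * ((φ x * φ z)⁻¹ * (φ z * φ x)))⁻¹ =
          (φ x * φ z) * (((φ x * φ z)⁻¹ * (φ z * φ x)) * w) *
          ((φ x * φ z)⁻¹ * (φ z * φ x))⁻¹ * (φ x * φ z)⁻¹ := by group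
      rw [e2, ← h1]
      group
    obtain ⟨V, hV⟩ : ∃ V : Subgroup Γ, V = W ⊓ Subgroup.centralizer {φ z} := ⟨_, rfl⟩
    have hVW : V ≤ W := hV ▸ inf_le_left
    have hVz : ∀ v ∈ V, φ z * v = v * φ z := by
      intro v hv
      rw [hV] at hv
      exact Subgroup.mem_centralizer_iff.mp (Subgroup.mem_inf.mp hv).2 (φ z) rfl
    have hVlt : Nat.card V < n := by
      rw [← hn]
      by_contra hge
      push Not at hge
      have hVeq : V = W := Subgroup.eq_of_le_of_card_ge hVW hge
      obtain ⟨w, hw, hne⟩ := Z1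
      exact hne (hVz w (hVeq ▸ hw)).symm
    have hfwd : ∀ x : P₀, ∀ v ∈ V, φ x * v * (φ x)⁻¹ ∈ V := by
      intro x v hv
      have hxn : φ x ∈ Subgroup.normalizer (W : Set Γ) := hφW ⟨x, rfl⟩
      have h1 : φ x * v * (φ x)⁻¹ ∈ W := (Subgroup.mem_normalizer_iff.mp hxn v).mp (hVW hv)
      rw [hV]
      refine Subgroup.mem_inf.mpr ⟨h1, ?_⟩
      rw [Subgroup.mem_centralizer_iff]
      intro h hh
      rw [Set.mem_singleton_iff] at hh
      subst hh
      have h3 := Z3 x v (hVW hv)
      have h4 : φ x * φ z * v * (φ x * φ z)⁻¹ = φ x * v * (φ x)⁻¹ := by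
        have : φ x * φ z * v * (φ x * φ z)⁻¹ = φ x * (φ z * v) * (φ z)⁻¹ * (φ x)⁻¹ := by group
        rw [this, hVz v hv]
        group
      rw [h4] at h3
      have h5 : φ z * φ x * v * (φ z * φ x)⁻¹ = φ z * (φ x * v * (φ x)⁻¹) * (φ z)⁻¹ := by group
      rw [h5] at h3
      calc φ z * (φ x * v * (φ x)⁻¹) = (φ z * (φ x * v * (φ x)⁻¹) * (φ z)⁻¹) * φ z := by group
        _ = φ x * v * (φ x)⁻¹ * φ z := by rw [← h3]
    have hφV : φ.range ≤ Subgroup.normalizer (V : Set Γ) := by
      rintro _ ⟨x, rfl⟩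
      rw [Subgroup.mem_normalizer_iff]
      intro h
      constructor
      · exact hfwd x h
      · intro hh
        have := hfwd x⁻¹ _ hh
        rw [map_inv] at this
        have e : (φ x)⁻¹ * (φ x * h * (φ x)⁻¹) * (φ x)⁻¹⁻¹ = h := by group
        rw [e] at this
        exact this
    have hVp : (Nat.card V).Coprime p :=
      Nat.Coprime.coprime_dvd_left (Subgroup.card_dvd_of_le hVW) hWp
    have IH := ih _ hVlt V rfl hVp hφV
    have e1 : V ⊓ Subgroup.centralizer (φ.range : Set Γ) =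
        W ⊓ Subgroup.centralizer (φ.range : Set Γ) := by
      rw [hV, inf_assoc]
      congr 1
      apply inf_eq_right.mpr
      apply Subgroup.centralizer_le
      intro g hg
      rw [Set.mem_singleton_iff] at hg
      subst hg
      exact ⟨z, rfl⟩
    have e2 : ∀ x : P₀, V ⊓ Subgroup.centralizer {φ x} =
        W ⊓ Subgroup.centralizer {φ x, φ z} := by
      intro x
      rw [hV]
      ext g
      simp only [Subgroup.mem_inf, Subgroup.mem_centralizer_iff, Set.mem_singleton_iff,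
        Set.mem_insert_iff]
      constructor
      · rintro ⟨⟨hg, h1⟩, h2⟩
        refine ⟨hg, ?_⟩
        rintro h (rfl | rfl)
        · exact h2 _ rfl
        · exact h1 _ rfl
      · rintro ⟨hg, h1⟩
        exact ⟨⟨hg, fun h hh => h1 h (Or.inr hh)⟩, fun h hh => h1 h (Or.inl hh)⟩
    rw [e1] at IH
    simp only [e2] at IH
    have hPr : IsPGroup p φ.range := hP₀.of_surjective φ.rangeRestrict φ.rangeRestrict_surjective
    have LB : ∀ x : P₀, Nat.card V * ∏ i ∈ Finset.range p,
        Nat.card ↥(W ⊓ Subgroup.centralizer {φ (x * z ^ i)}) ≤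
        Nat.card W * Nat.card ↥(W ⊓ Subgroup.centralizer {φ x, φ z}) ^ p := by
      intro x
      have := pprime p W φ.range hWp hPr hφW (φ x) (φ z) ⟨x, rfl⟩ ⟨z, rfl⟩ (Z3 x) Z2
      rw [← hV] at this
      simpa only [map_mul, map_pow] using this
    have hprod := Finset.prod_le_prod' (s := (Finset.univ : Finset P₀)) (fun x _ => LB x)
    rw [Finset.prod_mul_distrib, Finset.prod_mul_distrib, Finset.prod_const, Finset.prod_const,
      Finset.card_univ, Finset.prod_comm] at hprod
    have hre : ∀ i : ℕ, ∏ x : P₀, Nat.card ↥(W ⊓ Subgroup.centralizer {φ (x * z ^ i)}) =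
        ∏ x : P₀, Nat.card ↥(W ⊓ Subgroup.centralizer {φ x}) := by
      intro i
      exact Fintype.prod_equiv (Equiv.mulRight (z ^ i)) _ _ (fun x => rfl)
    simp only [hre] at hprod
    rw [Finset.prod_const, Finset.card_range] at hprod
    rw [Finset.prod_pow]
    have hVpos : 0 < Nat.card V ^ Fintype.card P₀ := pow_pos Nat.card_pos _
    apply Nat.le_of_mul_le_mul_left _ hVpos
    calc Nat.card V ^ Fintype.card P₀ * (∏ x : P₀, Nat.card ↥(W ⊓ Subgroup.centralizer {φ x})) ^ p
        ≤ Nat.card W ^ Fintype.card P₀ *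
          ∏ x : P₀, Nat.card ↥(W ⊓ Subgroup.centralizer {φ x, φ z}) ^ p := hprod
      _ ≤ Nat.card W ^ Fintype.card P₀ * (Nat.card V ^ Fintype.card P₀ *
          Nat.card ↥(W ⊓ Subgroup.centralizer (φ.range : Set Γ)) ^ (Fintype.card P₀ * (p - 1))) :=
        Nat.mul_le_mul_left _ IH
      _ = Nat.card V ^ Fintype.card P₀ * (Nat.card W ^ Fintype.card P₀ *
          Nat.card ↥(W ⊓ Subgroup.centralizer (φ.range : Set Γ)) ^ (Fintype.card P₀ * (p - 1))) := by
        ring

end hom

end Cfsg.Agent.Lib.Helper73.FixProd
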