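import Mathlib

/-!
# Project GM (S4414): shared definitions

Weight spaces of a representation with respect to a normal subgroup, the conjugation action on
its characters, abstract "weight data", and the scalar extension of an `𝔽₂`-representation to a
finite field `F` of characteristic 2, realised as `Hom_{𝔽₂}(F, E)`.
-/

set_option autoImplicit false

namespace Cfsg.Agent.Lib.Helper73.GM

/-- `wt ρ N χ` : the weight space of the character `χ` of the subgroup `N` in the
representation `ρ` -/
def wt {F : Type*} [Field F] {G : Type*} [Group G] {W : Type*} [AddCommGroup W] [Module F W]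
    (ρ : Representation F G W) (N : Subgroup G) (χ : ↥N →* Fˣ) : Submodule F W where
  carrier := {z | ∀ n : ↥N, ρ (n : G) z = ((χ n : Fˣ) : F) • z}
  add_mem' := by
    intro a b ha hb n
    rw [map_add, ha n, hb n, smul_add]
  zero_mem' := by
    intro n
    rw [map_zero, smul_zero]
  smul_mem' := by
    intro c a ha n
    rw [map_smul, ha n, smul_comm]

theorem mem_wt {F : Type*} [Field F] {G : Type*} [Group G] {W : Type*} [AddCommGroup W]
    [Module F W] (ρ : Representation F G W) (N : Subgroup G) (χ : ↥N →* Fˣ) (z : W) :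
    z ∈ wt ρ N χ ↔ ∀ n : ↥N, ρ (n : G) z = ((χ n : Fˣ) : F) • z := Iff.rfl

/-- conjugation action on the characters of a normal subgroup:
`(conjChar N g χ) n = χ (g⁻¹ * n * g)` -/
def conjChar {F : Type*} [Field F] {G : Type*} [Group G] (N : Subgroup G) [N.Normal] (g : G)
    (χ : ↥N →* Fˣ) : ↥N →* Fˣ :=
  χ.comp (MulAut.conjNormal (g⁻¹) : ↥N ≃* ↥N).toMonoidHom

theorem conjChar_apply {F : Type*} [Field F] {G : Type*} [Group G] (N : Subgroup G) [N.Normal]
    (g : G) (χ : ↥N →* Fˣ) (n : ↥N) :
    conjChar N g χ n = χ (MulAut.conjNormal (g⁻¹) n) := rfl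

theorem conjChar_coe {G : Type*} [Group G] (N : Subgroup G) [N.Normal]
    (g : G) (n : ↥N) : ((MulAut.conjNormal (g⁻¹) n : ↥N) : G) = g⁻¹ * n * g := by
  rw [MulAut.conjNormal_apply, inv_inv]

theorem conjChar_one {F : Type*} [Field F] {G : Type*} [Group G] (N : Subgroup G) [N.Normal]
    (χ : ↥N →* Fˣ) : conjChar N (1 : G) χ = χ := by
  ext n
  rw [conjChar_apply]
  have : (MulAut.conjNormal ((1 : G)⁻¹) n : ↥N) = n := by
    apply Subtype.ext
    rw [conjChar_coe]
    simp
  rw [this]

theorem conjChar_mul {F : Type*} [Field F] {G : Type*} [Group G] (N : Subgroup G) [N.Normal]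
    (g h : G) (χ : ↥N →* Fˣ) : conjChar N (g * h) χ = conjChar N g (conjChar N h χ) := by
  ext n
  rw [conjChar_apply, conjChar_apply, conjChar_apply]
  have : (MulAut.conjNormal ((g * h)⁻¹) n : ↥N) =
      MulAut.conjNormal (h⁻¹) (MulAut.conjNormal (g⁻¹) n) := by
    apply Subtype.ext
    rw [conjChar_coe, conjChar_coe, conjChar_coe]
    simp [mul_assoc]
  rw [this]

/-- the conjugation action of `G` on the characters of the normal subgroup `N`
(a definition, not an instance: use `letI := charAction F N`) -/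
@[reducible] def charAction (F : Type*) [Field F] {G : Type*} [Group G] (N : Subgroup G)
    [N.Normal] : MulAction G (↥N →* Fˣ) where
  smul g χ := conjChar N g χ
  one_smul χ := conjChar_one N χ
  mul_smul g h χ := conjChar_mul N g h χ

/-- abstract weight data: a representation `ρ` of `S` on `W` and a complete system of orthogonal
projections `π χ`, indexed by a set `X` with an `S`-action, which `S` permutes -/
structure WData (F : Type*) [Field F] (S : Type*) [Group S] (W : Type*) [AddCommGroup W]
    [Module F W] (X : Type*) [MulAction S X] where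
  /-- the representation -/
  ρ : Representation F S W
  /-- the projections -/
  π : X → (W →ₗ[F] W)
  sum : ∀ z : W, ∑ᶠ χ : X, π χ z = z
  idem : ∀ (χ : X) (z : W), π χ (π χ z) = π χ z
  orth : ∀ (χ ψ : X) (z : W), χ ≠ ψ → π χ (π ψ z) = 0
  equiv : ∀ (g : S) (χ : X) (z : W), ρ g (π χ z) = π (g • χ) (ρ g z)

/-- scalar extension of an `𝔽₂`-module `E` to `F`, realised as `Hom_{𝔽₂}(F, E)` -/
def Ext (F : Type*) [Field F] [Algebra (ZMod 2) F] (E : Type*) [AddCommGroup E]
    [Module (ZMod 2) E] : Type _ := F →ₗ[ZMod 2] E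

section Ext

variable {F : Type*} [Field F] [Algebra (ZMod 2) F] {E : Type*} [AddCommGroup E]
  [Module (ZMod 2) E]

instance : AddCommGroup (Ext F E) := inferInstanceAs (AddCommGroup (F →ₗ[ZMod 2] E))

/-- the underlying linear map -/
def Ext.toLin (φ : Ext F E) : F →ₗ[ZMod 2] E := φ

/-- the element of `Ext F E` given by a linear map -/
def Ext.ofLin (φ : F →ₗ[ZMod 2] E) : Ext F E := φ

instance : CoeFun (Ext F E) (fun _ => F → E) := ⟨fun φ => ⇑(Ext.toLin φ)⟩

@[ext] theorem Ext.ext {φ ψ : Ext F E} (h : ∀ t : F, φ t = ψ t) : φ = ψ :=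
  LinearMap.ext h

@[simp] theorem Ext.ofLin_apply (φ : F →ₗ[ZMod 2] E) (t : F) : Ext.ofLin φ t = φ t := rfl

@[simp] theorem Ext.toLin_apply (φ : Ext F E) (t : F) : Ext.toLin φ t = φ t := rfl

@[simp] theorem Ext.add_apply (φ ψ : Ext F E) (t : F) : (φ + ψ) t = φ t + ψ t := rfl

@[simp] theorem Ext.zero_apply (t : F) : (0 : Ext F E) t = 0 := rfl

@[simp] theorem Ext.neg_apply (φ : Ext F E) (t : F) : (-φ) t = -φ t := rfl

@[simp] theorem Ext.sub_apply (φ ψ : Ext F E) (t : F) : (φ - ψ) t = φ t - ψ t := rfl

theorem Ext.map_add' (φ : Ext F E) (s t : F) : φ (s + t) = φ s + φ t := (Ext.toLin φ).map_add s t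

theorem Ext.map_zero' (φ : Ext F E) : φ (0 : F) = 0 := (Ext.toLin φ).map_zero

instance : Module F (Ext F E) where
  smul c φ := Ext.ofLin ((Ext.toLin φ).comp (LinearMap.mulLeft (ZMod 2) c))
  one_smul φ := by
    apply Ext.ext; intro t
    show φ (1 * t) = φ t
    rw [one_mul]
  mul_smul c d φ := by
    apply Ext.ext; intro t
    show φ (c * d * t) = φ (d * (c * t))
    rw [mul_comm c d, mul_assoc]
  smul_zero c := by
    apply Ext.ext; intro t
    rfl
  smul_add c φ ψ := by
    apply Ext.ext; intro t
    rfl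
  add_smul c d φ := by
    apply Ext.ext; intro t
    show φ ((c + d) * t) = φ (c * t) + φ (d * t)
    rw [add_mul, Ext.map_add']
  zero_smul φ := by
    apply Ext.ext; intro t
    show φ (0 * t) = 0
    rw [zero_mul, Ext.map_zero']

@[simp] theorem Ext.smul_apply (c : F) (φ : Ext F E) (t : F) : (c • φ) t = φ (c * t) := rfl

/-- the extended representation: `s` acts on `Hom_{𝔽₂}(F, E)` by post-composition with `ρ s` -/
def extRep (F : Type*) [Field F] [Algebra (ZMod 2) F] {E : Type*} [AddCommGroup E]
    [Module (ZMod 2) E] {S : Type*} [Group S] (ρ : Representation (ZMod 2) S E) :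
    Representation F S (Ext F E) where
  toFun s :=
    { toFun := fun φ => Ext.ofLin ((ρ s).comp (Ext.toLin φ))
      map_add' := by
        intro φ ψ
        apply Ext.ext; intro t
        show ρ s (φ t + ψ t) = ρ s (φ t) + ρ s (ψ t)
        rw [map_add]
      map_smul' := by
        intro c φ
        apply Ext.ext; intro t
        rfl }
  map_one' := by
    apply LinearMap.ext; intro φ
    apply Ext.ext; intro t
    show ρ 1 (φ t) = φ t
    rw [map_one]; rfl
  map_mul' := by
    intro a b
    apply LinearMap.ext; intro φ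
    apply Ext.ext; intro t
    show ρ (a * b) (φ t) = ρ a (ρ b (φ t))
    rw [map_mul]; rfl

@[simp] theorem extRep_apply {S : Type*} [Group S] (ρ : Representation (ZMod 2) S E) (s : S)
    (φ : Ext F E) (t : F) : (extRep F ρ s φ) t = ρ s (φ t) := rfl

theorem ext_fixed_iff {S : Type*} [Group S] (ρ : Representation (ZMod 2) S E) (T : Subgroup S)
    (φ : Ext F E) :
    (∀ s ∈ T, extRep F ρ s φ = φ) ↔ ∀ t : F, ∀ s ∈ T, ρ s (φ t) = φ t := by
  constructor
  · intro h t s hs
    have := h s hs
    rw [← extRep_apply (F := F) ρ s φ t, this]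
  · intro h s hs
    apply Ext.ext; intro t
    rw [extRep_apply]
    exact h t s hs

end Ext

end Cfsg.Agent.Lib.Helper73.GM
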