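import Mathlib
import Cfsg.Agent.Lib.Helper73.GMDefs

/-! Project GM (S4414, architect helper73), piece BC (proofs: helper29).
Six small facts on `Ext F E = Hom_{F_2}(F, E)`; auxiliary lemmas have the prefix `bc_`. -/

set_option autoImplicit false

namespace Cfsg.Agent.Lib.Helper73.GM

/-- the fixed points of `T` as a submodule -/
def bc_fixedSub {E : Type*} [AddCommGroup E] [Module (ZMod 2) E] {S : Type*} [Group S]
    (ρ : Representation (ZMod 2) S E) (T : Subgroup S) : Submodule (ZMod 2) E where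
  carrier := {v | ∀ s ∈ T, ρ s v = v}
  add_mem' := by
    intro a b ha hb s hs
    rw [map_add, ha s hs, hb s hs]
  zero_mem' := by
    intro s _
    rw [map_zero]
  smul_mem' := by
    intro c v hv s hs
    rw [map_smul, hv s hs]

theorem bc_mem_fixedSub {E : Type*} [AddCommGroup E] [Module (ZMod 2) E] {S : Type*} [Group S]
    (ρ : Representation (ZMod 2) S E) (T : Subgroup S) (v : E) :
    v ∈ bc_fixedSub ρ T ↔ ∀ s ∈ T, ρ s v = v := Iff.rfl

theorem bc_card_fixedSub {E : Type*} [AddCommGroup E] [Module (ZMod 2) E] {S : Type*} [Group S]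
    (ρ : Representation (ZMod 2) S E) (T : Subgroup S) :
    Nat.card {v : E // ∀ s ∈ T, ρ s v = v} = Nat.card ↥(bc_fixedSub ρ T) :=
  Nat.card_congr (Equiv.subtypeEquivRight (fun _ => Iff.rfl))

/-- fixed elements of `Ext F E` are the linear maps into the fixed submodule -/
def bc_fixedEquiv (F : Type*) [Field F] [Algebra (ZMod 2) F] {E : Type*}
    [AddCommGroup E] [Module (ZMod 2) E] {S : Type*} [Group S]
    (ρ : Representation (ZMod 2) S E) (T : Subgroup S) :
    {φ : Ext F E // ∀ s ∈ T, extRep F ρ s φ = φ} ≃ (F →ₗ[ZMod 2] ↥(bc_fixedSub ρ T)) where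
  toFun φ := LinearMap.codRestrict (bc_fixedSub ρ T) (Ext.toLin φ.1)
    (fun t => fun s hs => (ext_fixed_iff ρ T φ.1).1 φ.2 t s hs)
  invFun ψ := ⟨Ext.ofLin ((bc_fixedSub ρ T).subtype.comp ψ),
    (ext_fixed_iff ρ T _).2 (fun t s hs => (ψ t).2 s hs)⟩
  left_inv φ := Subtype.ext (Ext.ext fun _ => rfl)
  right_inv ψ := LinearMap.ext fun _ => Subtype.ext rfl

theorem bc_card_module {V : Type*} [AddCommGroup V] [Module (ZMod 2) V] [Finite V] :
    Nat.card V = 2 ^ Module.finrank (ZMod 2) V := by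
  haveI := Fintype.ofFinite V
  have h := Module.card_eq_pow_finrank (K := ZMod 2) (V := V)
  rw [ZMod.card] at h
  rw [Nat.card_eq_fintype_card, h]

theorem ext_finite (F : Type*) [Field F] [Algebra (ZMod 2) F] [Finite F] (E : Type*)
    [AddCommGroup E] [Module (ZMod 2) E] [Finite E] : Finite (Ext F E) := by
  exact Finite.of_injective (fun φ : Ext F E => (fun t : F => φ t))
    (fun a b h => Ext.ext (fun t => congrFun h t))

theorem ext_nontrivial (F : Type*) [Field F] [Algebra (ZMod 2) F] (E : Type*)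
    [AddCommGroup E] [Module (ZMod 2) E] [Nontrivial E] : Nontrivial (Ext F E) := by
  classical
  obtain ⟨e, he⟩ := exists_ne (0 : E)
  let b := Module.Basis.ofVectorSpace (ZMod 2) F
  haveI : Nonempty (Module.Basis.ofVectorSpaceIndex (ZMod 2) F) := b.index_nonempty
  obtain ⟨i⟩ := this
  refine ⟨⟨Ext.ofLin (b.constr (ZMod 2) (fun _ => e)), 0, fun h => he ?_⟩⟩
  have h1 := congrArg (fun φ : Ext F E => φ (b i)) h
  simp only [Ext.ofLin_apply, Ext.zero_apply] at h1
  rw [Module.Basis.constr_basis] at h1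
  exact h1

theorem card_field (F : Type*) [Field F] [Algebra (ZMod 2) F] [Finite F] :
    Nat.card F = 2 ^ Module.finrank (ZMod 2) F := by
  exact bc_card_module

theorem finrank_pos (F : Type*) [Field F] [Algebra (ZMod 2) F] [Finite F] :
    0 < Module.finrank (ZMod 2) F := by
  have h := card_field F
  have h1 : 1 < Nat.card F := Finite.one_lt_card
  rcases Nat.eq_zero_or_pos (Module.finrank (ZMod 2) F) with h0 | h0
  · rw [h0, pow_zero] at h
    omega
  · exact h0

/-- the fixed points of `T` in the scalar extension: `|C_{Ext F E}(T)| = |C_E(T)| ^ [F : 𝔽₂]` -/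
theorem card_ext_fixed (F : Type*) [Field F] [Algebra (ZMod 2) F] [Finite F] {E : Type*}
    [AddCommGroup E] [Module (ZMod 2) E] [Finite E] {S : Type*} [Group S]
    (ρ : Representation (ZMod 2) S E) (T : Subgroup S) :
    Nat.card {φ : Ext F E // ∀ s ∈ T, extRep F ρ s φ = φ} =
      Nat.card {v : E // ∀ s ∈ T, ρ s v = v} ^ Module.finrank (ZMod 2) F := by
  classical
  rw [bc_card_fixedSub ρ T, Nat.card_congr (bc_fixedEquiv F ρ T)]
  have e := ((Module.finBasis (ZMod 2) F).constr (ZMod 2)
    (M' := ↥(bc_fixedSub ρ T))).toEquiv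
  rw [← Nat.card_congr e, Nat.card_fun, Nat.card_fin]

theorem card_fixed_pow {E : Type*} [AddCommGroup E] [Module (ZMod 2) E] [Finite E] {S : Type*}
    [Group S] (ρ : Representation (ZMod 2) S E) (T : Subgroup S) :
    ∃ k : ℕ, Nat.card {v : E // ∀ s ∈ T, ρ s v = v} = 2 ^ k := by
  refine ⟨Module.finrank (ZMod 2) ↥(bc_fixedSub ρ T), ?_⟩
  rw [bc_card_fixedSub ρ T]
  exact bc_card_module

end Cfsg.Agent.Lib.Helper73.GM
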