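import Mathlib
import Cfsg.Agent.Lib.Helper73.GMDefs

/-! Project GM (S4414, architect helper73), piece CNT (proved by helper77).
Auxiliary lemmas start with the prefix `cnt_`.
Paper proofs: team note (topic "GM S4414"). -/

set_option autoImplicit false

namespace Cfsg.Agent.Lib.Helper73.GM

theorem card_ge_of_indep3 {F : Type*} [Field F] [Finite F] {W : Type*} [AddCommGroup W]
    [Module F W] [Finite W] (C : Submodule F W) (f₁ f₂ f₃ : W) (h₁ : f₁ ∈ C) (h₂ : f₂ ∈ C)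
    (h₃ : f₃ ∈ C)
    (hind : ∀ c₁ c₂ c₃ : F, c₁ • f₁ + c₂ • f₂ + c₃ • f₃ = 0 → c₁ = 0 ∧ c₂ = 0 ∧ c₃ = 0) :
    Nat.card F ^ 3 ≤ Nat.card ↥C := by
  let g : F × F × F → ↥C := fun x =>
    ⟨x.1 • f₁ + x.2.1 • f₂ + x.2.2 • f₃,
      C.add_mem (C.add_mem (C.smul_mem _ h₁) (C.smul_mem _ h₂)) (C.smul_mem _ h₃)⟩
  have hg : Function.Injective g := by
    rintro ⟨a, b, c⟩ ⟨a', b', c'⟩ h
    have h' : a • f₁ + b • f₂ + c • f₃ = a' • f₁ + b' • f₂ + c' • f₃ := congrArg Subtype.val h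
    have h0 : (a - a') • f₁ + (b - b') • f₂ + (c - c') • f₃ = 0 := by
      rw [sub_smul, sub_smul, sub_smul]
      have : a • f₁ - a' • f₁ + (b • f₂ - b' • f₂) + (c • f₃ - c' • f₃) =
          (a • f₁ + b • f₂ + c • f₃) - (a' • f₁ + b' • f₂ + c' • f₃) := by abel
      rw [this, h', sub_self]
    obtain ⟨e1, e2, e3⟩ := hind _ _ _ h0
    rw [sub_eq_zero.mp e1, sub_eq_zero.mp e2, sub_eq_zero.mp e3]
  have hcard : Nat.card (F × F × F) = Nat.card F ^ 3 := by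
    rw [Nat.card_prod, Nat.card_prod]
    ring
  rw [← hcard]
  exact Nat.card_le_card_of_injective g hg

theorem card_ge_of_indep2 {F : Type*} [Field F] [Finite F] {W : Type*} [AddCommGroup W]
    [Module F W] [Finite W] (C : Submodule F W) (f₁ f₂ : W) (h₁ : f₁ ∈ C) (h₂ : f₂ ∈ C)
    (hind : ∀ c₁ c₂ : F, c₁ • f₁ + c₂ • f₂ = 0 → c₁ = 0 ∧ c₂ = 0) :
    Nat.card F ^ 2 ≤ Nat.card ↥C ∧
      (Nat.card ↥C = Nat.card F ^ 2 → ∀ z ∈ C, ∃ c₁ c₂ : F, z = c₁ • f₁ + c₂ • f₂) := by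
  let g : F × F → ↥C := fun x =>
    ⟨x.1 • f₁ + x.2 • f₂, C.add_mem (C.smul_mem _ h₁) (C.smul_mem _ h₂)⟩
  have hg : Function.Injective g := by
    rintro ⟨a, b⟩ ⟨a', b'⟩ h
    have h' : a • f₁ + b • f₂ = a' • f₁ + b' • f₂ := congrArg Subtype.val h
    have h0 : (a - a') • f₁ + (b - b') • f₂ = 0 := by
      rw [sub_smul, sub_smul]
      have : a • f₁ - a' • f₁ + (b • f₂ - b' • f₂) =
          (a • f₁ + b • f₂) - (a' • f₁ + b' • f₂) := by abel
      rw [this, h', sub_self]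
    obtain ⟨e1, e2⟩ := hind _ _ h0
    rw [sub_eq_zero.mp e1, sub_eq_zero.mp e2]
  have hcard : Nat.card (F × F) = Nat.card F ^ 2 := by
    rw [Nat.card_prod]
    ring
  refine ⟨?_, ?_⟩
  · rw [← hcard]
    exact Nat.card_le_card_of_injective g hg
  · intro hC z hz
    have hbij : Function.Bijective g :=
      hg.bijective_of_nat_card_le (by rw [hC, hcard])
    obtain ⟨⟨a, b⟩, hab⟩ := hbij.2 ⟨z, hz⟩
    exact ⟨a, b, (congrArg Subtype.val hab).symm⟩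

end Cfsg.Agent.Lib.Helper73.GM
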