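import Mathlib
import Cfsg.Agent.Lib.Helper73.GMDefs

/-! Project GM (S4414, architect helper73), piece QDIV (filled in by helper20).
Auxiliary lemmas start with the prefix `qdiv_`.
Paper proofs: team note (topic "GM S4414"). -/

set_option autoImplicit false

namespace Cfsg.Agent.Lib.Helper73.GM

/-- a finite set invariant under an element `x` of prime order `q`, on which the powers of `x`
act freely, has cardinality divisible by `q` -/
theorem dvd_ncard_of_free {S : Type*} [Group S] {X : Type*} [MulAction S X] (x : S) (q : ℕ)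
    (hq : q.Prime) (hx : orderOf x = q) (T : Set X) (hT : T.Finite)
    (hinv : ∀ χ ∈ T, x • χ ∈ T)
    (hfree : ∀ χ ∈ T, ∀ k : ℕ, x ^ k • χ = χ → x ^ k = 1) : q ∣ T.ncard := by
  classical
  have hfact : Fact q.Prime := ⟨hq⟩
  have hfin : Fintype ↥T := hT.fintype
  let f : Function.End ↥T := fun χ => ⟨x • χ.1, hinv χ.1 χ.2⟩
  have hpow : ∀ (k : ℕ) (χ : ↥T), (((f ^ k) χ : ↥T) : X) = x ^ k • (χ : X) := by
    intro k
    induction k with
    | zero =>
      intro χ
      rw [pow_zero, pow_zero, one_smul]
      rfl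
    | succ k ih =>
      intro χ
      rw [pow_succ', pow_succ', mul_smul, ← ih χ]
      rfl
  have hf : f ^ q ^ 1 = 1 := by
    funext χ
    apply Subtype.ext
    rw [pow_one, hpow q χ, ← hx, pow_orderOf_eq_one, one_smul]
    rfl
  have h := Equiv.Perm.card_fixedPoints_modEq (f := f) (p := q) (n := 1) hf
  have hempty : IsEmpty (Function.fixedPoints f) := by
    constructor
    rintro ⟨χ, hχ⟩
    have h1 : x • (χ : X) = χ := congrArg Subtype.val hχ
    have h2 := hfree χ.1 χ.2 1 (by rw [pow_one]; exact h1)
    rw [pow_one] at h2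
    rw [h2, orderOf_one] at hx
    exact hq.one_lt.ne hx
  have h0 : Fintype.card ↥(Function.fixedPoints f) = 0 := Fintype.card_eq_zero
  rw [h0] at h
  have h3 : q ∣ Fintype.card ↥T := (Nat.modEq_zero_iff_dvd).mp h
  rw [← Nat.card_eq_fintype_card, Nat.card_coe_set_eq] at h3
  exact h3

end Cfsg.Agent.Lib.Helper73.GM
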