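import Mathlib
import Cfsg.Agent.Lib.Helper73.GMDefs

/-! Project GM (S4414, architect helper73), piece FIX.
Proved by helper88. Paper proofs: team note (topic "GM S4414"). -/

set_option autoImplicit false

namespace Cfsg.Agent.Lib.Helper73.GM

/-- a 2-group acting linearly on a finite elementary abelian 2-group `W` has a nonzero fixed
vector in every nonzero invariant subspace -/
theorem exists_fixed {F : Type*} [Field F] {S : Type*} [Group S] {W : Type*} [AddCommGroup W]
    [Module F W] [Finite W] (h2 : ∀ z : W, z + z = 0) (ρ : Representation F S W)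
    (P : Subgroup S) (hP : IsPGroup 2 ↥P) (U : Submodule F W) (hU : U ≠ ⊥)
    (hinv : ∀ s ∈ P, ∀ z ∈ U, ρ s z ∈ U) :
    ∃ z ∈ U, z ≠ 0 ∧ ∀ s ∈ P, ρ s z = z := by
  classical
  have : Fact (Nat.Prime 2) := ⟨Nat.prime_two⟩
  letI act : MulAction ↥P ↥U :=
    { smul := fun s z => ⟨ρ (s : S) (z : W), hinv s s.2 z z.2⟩
      one_smul := fun z => by
        apply Subtype.ext
        show ρ ((1 : ↥P) : S) (z : W) = z
        simp
      mul_smul := fun s t z => by
        apply Subtype.ext
        show ρ ((s * t : ↥P) : S) (z : W) = ρ (s : S) (ρ (t : S) (z : W))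
        simp [map_mul] }
  have hsmul : ∀ (s : ↥P) (z : ↥U), ((s • z : ↥U) : W) = ρ (s : S) (z : W) := fun s z => rfl
  have hdvd : 2 ∣ Nat.card ↥U := by
    obtain ⟨z, hz, hz0⟩ := (Submodule.ne_bot_iff U).1 hU
    have hord : addOrderOf (⟨z, hz⟩ : ↥U) = 2 := by
      apply addOrderOf_eq_prime
      · apply Subtype.ext
        simp [two_nsmul, h2 z]
      · intro h
        exact hz0 (congrArg Subtype.val h)
    rw [← hord]
    exact addOrderOf_dvd_natCard _
  have h0 : (0 : ↥U) ∈ MulAction.fixedPoints ↥P ↥U := by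
    intro s
    apply Subtype.ext
    rw [hsmul]
    simp
  obtain ⟨b, hb, hb0⟩ :=
    hP.exists_fixed_point_of_prime_dvd_card_of_fixed_point (α := ↥U) hdvd h0
  refine ⟨b, b.2, ?_, ?_⟩
  · intro h
    exact hb0 (Subtype.ext h.symm)
  · intro s hs
    have h := hb ⟨s, hs⟩
    exact congrArg Subtype.val h

end Cfsg.Agent.Lib.Helper73.GM
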