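import Mathlib
import Cfsg.Agent.Lib.Helper73.GMDefs
import Cfsg.Agent.Lib.Helper73.GMFix
/-! Project GM (S4414, architect helper73), piece SUPP.
PLACEHOLDER: replace the `sorry`(s) in THIS file; keep theorem names and statements byte-identical;
keep the namespace; auxiliary lemmas go ABOVE the theorems and MUST start with the prefix `supp_`.
Paper proofs: team note (topic "GM S4414"). -/

set_option autoImplicit false

namespace Cfsg.Agent.Lib.Helper73.GM

/-- the vectors whose projections outside a set `O` of indices vanish -/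
def supp_sub {F : Type*} [Field F] {S : Type*} [Group S] {W : Type*}
    [AddCommGroup W] [Module F W] {X : Type*} [MulAction S X]
    (D : WData F S W X) (O : Set X) : Submodule F W where
  carrier := {z | ∀ χ : X, χ ∉ O → D.π χ z = 0}
  add_mem' := by
    intro a b ha hb χ hχ
    rw [map_add, ha χ hχ, hb χ hχ, add_zero]
  zero_mem' := by
    intro χ _
    rw [map_zero]
  smul_mem' := by
    intro c a ha χ hχ
    rw [map_smul, ha χ hχ, smul_zero]

theorem supp_mem_sub {F : Type*} [Field F] {S : Type*} [Group S] {W : Type*}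
    [AddCommGroup W] [Module F W] {X : Type*} [MulAction S X]
    (D : WData F S W X) (O : Set X) (z : W) :
    z ∈ supp_sub D O ↔ ∀ χ : X, χ ∉ O → D.π χ z = 0 := Iff.rfl

theorem supp_rho_inj {F : Type*} [Field F] {S : Type*} [Group S] {W : Type*}
    [AddCommGroup W] [Module F W] {X : Type*} [MulAction S X]
    (D : WData F S W X) (s : S) (x : W) (h : D.ρ s x = 0) : x = 0 := by
  have h1 : D.ρ s⁻¹ (D.ρ s x) = x := by
    rw [← Module.End.mul_apply, ← map_mul, inv_mul_cancel, map_one, Module.End.one_apply]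
  rw [← h1, h, map_zero]

/-- for a 2-subgroup `P` and an index `χ₀` with `π χ₀ ≠ 0` there is a nonzero `P`-fixed vector
whose support is exactly the `P`-orbit of `χ₀` -/
theorem exists_fixed_supp {F : Type*} [Field F] {S : Type*} [Group S] {W : Type*}
    [AddCommGroup W] [Module F W] [Finite W] {X : Type*} [Finite X] [MulAction S X]
    (D : WData F S W X) (h2 : ∀ z : W, z + z = 0) (P : Subgroup S) (hP : IsPGroup 2 ↥P)
    (χ₀ : X) (hχ₀ : D.π χ₀ ≠ 0) :
    ∃ f : W, f ≠ 0 ∧ (∀ s ∈ P, D.ρ s f = f) ∧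
      ∀ χ : X, D.π χ f ≠ 0 ↔ ∃ s ∈ P, s • χ₀ = χ := by
  classical
  set O : Set X := {χ | ∃ s ∈ P, s • χ₀ = χ} with hO
  have hχ₀O : χ₀ ∈ O := ⟨1, P.one_mem, one_smul S χ₀⟩
  -- a vector with nonzero `χ₀`-projection
  have hex : ∃ z₀ : W, D.π χ₀ z₀ ≠ 0 := by
    by_contra hcon
    push Not at hcon
    exact hχ₀ (LinearMap.ext fun z => by rw [hcon z, LinearMap.zero_apply])
  obtain ⟨z₀, hz₀⟩ := hex
  have hU : supp_sub D O ≠ ⊥ := by
    intro hbot
    have hmem : D.π χ₀ z₀ ∈ supp_sub D O := by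
      intro χ hχ
      have hne : χ ≠ χ₀ := fun h => hχ (h ▸ hχ₀O)
      exact D.orth χ χ₀ z₀ hne
    rw [hbot, Submodule.mem_bot] at hmem
    exact hz₀ hmem
  have hinv : ∀ s ∈ P, ∀ z ∈ supp_sub D O, D.ρ s z ∈ supp_sub D O := by
    intro s hs z hz χ hχ
    have hχ' : s⁻¹ • χ ∉ O := by
      rintro ⟨s', hs', h⟩
      apply hχ
      refine ⟨s * s', P.mul_mem hs hs', ?_⟩
      rw [mul_smul, h, smul_inv_smul]
    have h1 := D.equiv s (s⁻¹ • χ) z
    rw [smul_inv_smul] at h1
    rw [← h1, hz _ hχ', map_zero]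
  obtain ⟨f, hfU, hf0, hfix⟩ := exists_fixed h2 D.ρ P hP (supp_sub D O) hU hinv
  refine ⟨f, hf0, hfix, ?_⟩
  -- the support is nonempty
  have hne : ∃ χ₁ : X, D.π χ₁ f ≠ 0 := by
    by_contra hcon
    push Not at hcon
    have h1 := D.sum f
    rw [finsum_eq_zero_of_forall_eq_zero hcon] at h1
    exact hf0 h1.symm
  obtain ⟨χ₁, hχ₁⟩ := hne
  -- the support is `P`-invariant
  have hTinv : ∀ s ∈ P, ∀ χ : X, D.π χ f ≠ 0 → D.π (s • χ) f ≠ 0 := by
    intro s hs χ hχ h0
    have h1 := D.equiv s χ f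
    rw [hfix s hs, h0] at h1
    exact hχ (supp_rho_inj D s _ h1)
  have hχ₁O : χ₁ ∈ O := by
    by_contra hcon
    exact hχ₁ (hfU χ₁ hcon)
  obtain ⟨s₁, hs₁, hs₁χ⟩ := hχ₁O
  intro χ
  constructor
  · intro hχ
    by_contra hcon
    exact hχ (hfU χ hcon)
  · rintro ⟨s, hs, rfl⟩
    have h1 := hTinv (s * s₁⁻¹) (P.mul_mem hs (P.inv_mem hs₁)) χ₁ hχ₁
    rw [← hs₁χ, mul_smul, inv_smul_smul] at h1
    exact h1

end Cfsg.Agent.Lib.Helper73.GM
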