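import Mathlib
import Cfsg.Agent.Lib.Helper73.GMDefs
import Cfsg.Agent.Lib.Helper73.GMSupp
import Cfsg.Agent.Lib.Helper73.GMQDiv
import Cfsg.Agent.Lib.Helper73.GMCnt
/-! Project GM (S4414, architect helper73), piece CORE.
PLACEHOLDER: replace the `sorry`(s) in THIS file; keep theorem names and statements byte-identical;
keep the namespace; auxiliary lemmas go ABOVE the theorems and MUST start with the prefix `core_`.
Paper proofs: team note (topic "GM S4414"). -/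

set_option autoImplicit false

namespace Cfsg.Agent.Lib.Helper73.GM

theorem core_rho_inj {F : Type*} [Field F] {S : Type*} [Group S] {W : Type*}
    [AddCommGroup W] [Module F W] {X : Type*} [MulAction S X] (D : WData F S W X) (g : S) :
    Function.Injective (D.ρ g) := by
  intro a b h
  have h1 : ∀ c : W, D.ρ g⁻¹ (D.ρ g c) = c := by
    intro c
    have : D.ρ g⁻¹ * D.ρ g = 1 := by rw [← map_mul, inv_mul_cancel, map_one]
    calc D.ρ g⁻¹ (D.ρ g c) = (D.ρ g⁻¹ * D.ρ g) c := rfl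
      _ = c := by rw [this]; rfl
  rw [← h1 a, ← h1 b, h]

theorem core_supp_smul {F : Type*} [Field F] {S : Type*} [Group S] {W : Type*}
    [AddCommGroup W] [Module F W] {X : Type*} [MulAction S X] (D : WData F S W X) (g : S)
    (χ : X) (z : W) : D.π (g • χ) (D.ρ g z) ≠ 0 ↔ D.π χ z ≠ 0 := by
  rw [← D.equiv g χ z]
  constructor
  · intro h h0
    apply h
    rw [h0, map_zero]
  · intro h h0
    apply h
    apply core_rho_inj D g
    rw [h0, map_zero]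

theorem core_pi_smul_ne {F : Type*} [Field F] {S : Type*} [Group S] {W : Type*}
    [AddCommGroup W] [Module F W] {X : Type*} [MulAction S X] (D : WData F S W X) (g : S)
    (χ : X) (h : D.π χ ≠ 0) : D.π (g • χ) ≠ 0 := by
  intro h0
  have hz : ∃ z : W, D.π χ z ≠ 0 := by
    by_contra hall
    push Not at hall
    exact h (LinearMap.ext hall)
  obtain ⟨z, hz⟩ := hz
  have := (core_supp_smul D g χ z).mpr hz
  apply this
  rw [h0]
  rfl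

theorem core_exists {F : Type*} [Field F] {S : Type*} [Group S] {W : Type*}
    [AddCommGroup W] [Module F W] [Nontrivial W] {X : Type*} [MulAction S X]
    (D : WData F S W X) : ∃ χ : X, D.π χ ≠ 0 := by
  by_contra hcon
  push Not at hcon
  obtain ⟨z, hz⟩ := exists_ne (0 : W)
  apply hz
  rw [← D.sum z]
  apply finsum_eq_zero_of_forall_eq_zero
  intro χ
  rw [hcon χ]
  rfl

theorem core_mem_orbit {S : Type*} [Group S] {X : Type*} [MulAction S X] (P : Subgroup S)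
    (χ₀ χ : X) : (∃ s ∈ P, s • χ₀ = χ) ↔ χ ∈ MulAction.orbit ↥P χ₀ := by
  rw [MulAction.mem_orbit_iff]
  constructor
  · rintro ⟨s, hs, h⟩
    exact ⟨⟨s, hs⟩, h⟩
  · rintro ⟨⟨s, hs⟩, h⟩
    exact ⟨s, hs, h⟩

theorem core_not_pow {F : Type*} [Field F] {S : Type*} [Group S] {W : Type*}
    [AddCommGroup W] [Module F W] {X : Type*} [Finite X] [MulAction S X] (D : WData F S W X)
    (x : S) (q : ℕ) (hq : q.Prime) (hq2 : q ≠ 2) (hx : orderOf x = q)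
    (hfree : ∀ χ : X, D.π χ ≠ 0 → ∀ k : ℕ, x ^ k • χ = χ → x ^ k = 1)
    (T : Set X) (hTΛ : ∀ χ ∈ T, D.π χ ≠ 0) (hinv : ∀ χ ∈ T, x • χ ∈ T) (n : ℕ)
    (hn : T.ncard = 2 ^ n) : False := by
  have h := dvd_ncard_of_free x q hq hx T (Set.toFinite T) hinv
    (fun χ hχ => hfree χ (hTΛ χ hχ))
  rw [hn] at h
  have h' := hq.dvd_of_dvd_pow h
  exact hq2 ((Nat.prime_dvd_prime_iff_eq hq Nat.prime_two).mp h')

/-- the fixed space of `P` as a submodule -/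
def core_C {F : Type*} [Field F] {S : Type*} [Group S] {W : Type*}
    [AddCommGroup W] [Module F W] {X : Type*} [MulAction S X] (D : WData F S W X)
    (P : Subgroup S) : Submodule F W where
  carrier := {z | ∀ s ∈ P, D.ρ s z = z}
  add_mem' := by
    intro a b ha hb s hs
    rw [map_add, ha s hs, hb s hs]
  zero_mem' := by
    intro s _
    rw [map_zero]
  smul_mem' := by
    intro c a ha s hs
    rw [map_smul, ha s hs]

theorem core_mem_C {F : Type*} [Field F] {S : Type*} [Group S] {W : Type*}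
    [AddCommGroup W] [Module F W] {X : Type*} [MulAction S X] (D : WData F S W X)
    (P : Subgroup S) (z : W) : z ∈ core_C D P ↔ ∀ s ∈ P, D.ρ s z = z := Iff.rfl

theorem core_caseB {F : Type*} [Field F] {S : Type*} [Group S] {W : Type*}
    [AddCommGroup W] [Module F W] {X : Type*} [Finite X] [MulAction S X] (D : WData F S W X)
    (x : S) (q : ℕ) (hq : q.Prime) (hq2 : q ≠ 2) (hx : orderOf x = q)
    (hfree : ∀ χ : X, D.π χ ≠ 0 → ∀ k : ℕ, x ^ k • χ = χ → x ^ k = 1)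
    (O₁ O₂ : Set X) (f₁ f₂ : W) (c₁ c₂ : F)
    (hs₁ : ∀ χ : X, D.π χ f₁ ≠ 0 ↔ χ ∈ O₁) (hs₂ : ∀ χ : X, D.π χ f₂ ≠ 0 ↔ χ ∈ O₂)
    (hdisj : Disjoint O₁ O₂) (hΛ : ∀ χ : X, D.π χ ≠ 0 ↔ χ ∈ O₁ ∪ O₂)
    (k₁ : ℕ) (hk₁ : O₁.ncard = 2 ^ k₁) (hne₁ : O₁.Nonempty) (hne₂ : O₂.Nonempty)
    (hxf : D.ρ x f₁ = c₁ • f₁ + c₂ • f₂) : False := by
  classical
  have hT : ∀ ψ : X, x⁻¹ • ψ ∈ O₁ ↔ (ψ ∈ O₁ ∧ c₁ ≠ 0) ∨ (ψ ∈ O₂ ∧ c₂ ≠ 0) := by
    intro ψ
    rw [← hs₁ (x⁻¹ • ψ), ← core_supp_smul D x (x⁻¹ • ψ) f₁, smul_inv_smul, hxf, map_add,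
      map_smul, map_smul]
    by_cases h1 : ψ ∈ O₁
    · have h2 : ψ ∉ O₂ := fun h2 => Set.disjoint_left.mp hdisj h1 h2
      have e2 : D.π ψ f₂ = 0 := not_not.mp (mt (hs₂ ψ).mp h2)
      have e1 : D.π ψ f₁ ≠ 0 := (hs₁ ψ).mpr h1
      rw [e2, smul_zero, add_zero]
      simp [h1, h2, e1]
    · have e1 : D.π ψ f₁ = 0 := not_not.mp (mt (hs₁ ψ).mp h1)
      rw [e1, smul_zero, zero_add]
      by_cases h2 : ψ ∈ O₂
      · have e2 : D.π ψ f₂ ≠ 0 := (hs₂ ψ).mpr h2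
        simp [h1, h2, e2]
      · have e2 : D.π ψ f₂ = 0 := not_not.mp (mt (hs₂ ψ).mp h2)
        simp [h1, h2, e2]
  have hTim : (fun χ : X => x • χ) '' O₁ = {ψ | (ψ ∈ O₁ ∧ c₁ ≠ 0) ∨ (ψ ∈ O₂ ∧ c₂ ≠ 0)} := by
    ext ψ
    rw [Set.mem_setOf_eq, ← hT ψ]
    constructor
    · rintro ⟨χ, hχ, rfl⟩
      rwa [inv_smul_smul]
    · intro h
      exact ⟨x⁻¹ • ψ, h, smul_inv_smul x ψ⟩
  have hTcard : ((fun χ : X => x • χ) '' O₁).ncard = O₁.ncard :=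
    Set.ncard_image_of_injective O₁ (MulAction.injective x)
  have hΛinv : ∀ χ ∈ O₁ ∪ O₂, x • χ ∈ O₁ ∪ O₂ := by
    intro χ hχ
    exact (hΛ _).mp (core_pi_smul_ne D x χ ((hΛ χ).mpr hχ))
  have hkey := core_not_pow D x q hq hq2 hx hfree
  by_cases hc1 : c₁ = 0
  · by_cases hc2 : c₂ = 0
    · obtain ⟨χ, hχ⟩ := hne₁
      have hmem : x • χ ∈ (fun χ : X => x • χ) '' O₁ := ⟨χ, hχ, rfl⟩
      rw [hTim] at hmem
      rcases hmem with ⟨-, h⟩ | ⟨-, h⟩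
      · exact h hc1
      · exact h hc2
    · have hT2 : (fun χ : X => x • χ) '' O₁ = O₂ := by
        rw [hTim]; ext ψ; simp [hc1, hc2]
      have h2 : O₂.ncard = 2 ^ k₁ := by rw [← hT2, hTcard, hk₁]
      apply hkey (O₁ ∪ O₂) (fun χ hχ => (hΛ χ).mpr hχ) hΛinv (k₁ + 1)
      rw [Set.ncard_union_eq hdisj (Set.toFinite O₁) (Set.toFinite O₂), hk₁, h2, pow_succ]
      ring
  · by_cases hc2 : c₂ = 0
    · have hT1 : (fun χ : X => x • χ) '' O₁ = O₁ := by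
        rw [hTim]; ext ψ; simp [hc1, hc2]
      apply hkey O₁ (fun χ hχ => (hΛ χ).mpr (Or.inl hχ)) _ k₁ hk₁
      intro χ hχ
      rw [← hT1]
      exact ⟨χ, hχ, rfl⟩
    · have hT12 : (fun χ : X => x • χ) '' O₁ = O₁ ∪ O₂ := by
        rw [hTim]; ext ψ; simp [hc1, hc2]
      have h := Set.ncard_union_eq hdisj (Set.toFinite O₁) (Set.toFinite O₂)
      rw [← hT12, hTcard] at h
      have h0 : O₂.ncard = 0 := by omega
      rw [Set.ncard_eq_zero (Set.toFinite O₂)] at h0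
      rw [h0] at hne₂
      exact Set.not_nonempty_empty hne₂

/-- the abstract core of S4414: weight data for `S` on a finite `F`-space `W` of characteristic 2,
a 2-subgroup `P`, an element `x` of odd prime order `q` acting freely on the occurring indices.
Then `C_W(P)` has at least `|F|³` elements, or exactly... at least `|F|²` elements and, if
exactly `|F|²`, it is not `x`-invariant. -/
theorem core {F : Type*} [Field F] [Finite F] {S : Type*} [Group S] {W : Type*}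
    [AddCommGroup W] [Module F W] [Finite W] [Nontrivial W] {X : Type*} [Finite X]
    [MulAction S X] (D : WData F S W X) (h2 : ∀ z : W, z + z = 0) (P : Subgroup S)
    (hP : IsPGroup 2 ↥P) (x : S) (q : ℕ) (hq : q.Prime) (hq2 : q ≠ 2) (hx : orderOf x = q)
    (hfree : ∀ χ : X, D.π χ ≠ 0 → ∀ k : ℕ, x ^ k • χ = χ → x ^ k = 1) :
    Nat.card F ^ 3 ≤ Nat.card {z : W // ∀ s ∈ P, D.ρ s z = z} ∨
      (Nat.card F ^ 2 ≤ Nat.card {z : W // ∀ s ∈ P, D.ρ s z = z} ∧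
        (Nat.card {z : W // ∀ s ∈ P, D.ρ s z = z} = Nat.card F ^ 2 →
          ∃ z : W, (∀ s ∈ P, D.ρ s z = z) ∧ ¬ ∀ s ∈ P, D.ρ s (D.ρ x z) = D.ρ x z)) := by
  classical
  have hcard : Nat.card {z : W // ∀ s ∈ P, D.ρ s z = z} = Nat.card ↥(core_C D P) := rfl
  rw [hcard]
  obtain ⟨χ₁, hχ₁⟩ := core_exists D
  have hkey := core_not_pow D x q hq hq2 hx hfree
  have hΛinv : ∀ (g : S) (χ : X), D.π χ ≠ 0 → D.π (g • χ) ≠ 0 :=
    fun g χ h => core_pi_smul_ne D g χ h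
  have horbΛ : ∀ χ : X, D.π χ ≠ 0 → ∀ ψ ∈ MulAction.orbit ↥P χ, D.π ψ ≠ 0 := by
    intro χ hχ ψ hψ
    obtain ⟨s, rfl⟩ := MulAction.mem_orbit_iff.mp hψ
    exact hΛinv (s : S) χ hχ
  have hpow : ∀ χ : X, ∃ n, (MulAction.orbit ↥P χ).ncard = 2 ^ n := by
    intro χ
    obtain ⟨n, hn⟩ := hP.card_orbit χ
    exact ⟨n, by rw [← hn, Nat.card_coe_set_eq]⟩
  have hex2 : ∃ χ₂, D.π χ₂ ≠ 0 ∧ χ₂ ∉ MulAction.orbit ↥P χ₁ := by
    by_contra hcon
    push Not at hcon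
    obtain ⟨n, hn⟩ := hpow χ₁
    apply hkey (MulAction.orbit ↥P χ₁) (horbΛ χ₁ hχ₁) _ n hn
    intro χ hχ
    exact hcon (x • χ) (hΛinv x χ (horbΛ χ₁ hχ₁ χ hχ))
  obtain ⟨χ₂, hχ₂, hχ₂1⟩ := hex2
  obtain ⟨f₁, hf₁, hfix₁, hsupp₁⟩ := exists_fixed_supp D h2 P hP χ₁ hχ₁
  obtain ⟨f₂, hf₂, hfix₂, hsupp₂⟩ := exists_fixed_supp D h2 P hP χ₂ hχ₂
  have hs₁ : ∀ χ : X, D.π χ f₁ ≠ 0 ↔ χ ∈ MulAction.orbit ↥P χ₁ :=
    fun χ => (hsupp₁ χ).trans (core_mem_orbit P χ₁ χ)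
  have hs₂ : ∀ χ : X, D.π χ f₂ ≠ 0 ↔ χ ∈ MulAction.orbit ↥P χ₂ :=
    fun χ => (hsupp₂ χ).trans (core_mem_orbit P χ₂ χ)
  have hχ₁2 : χ₁ ∉ MulAction.orbit ↥P χ₂ := fun h => hχ₂1 (MulAction.mem_orbit_symm.mp h)
  have hdisj : Disjoint (MulAction.orbit ↥P χ₁) (MulAction.orbit ↥P χ₂) := by
    rw [Set.disjoint_left]
    intro ψ h1 h2'
    apply hχ₂1
    rw [← MulAction.orbit_eq_iff] at h1 h2' ⊢
    rw [← h2', h1]
  have e11 : D.π χ₁ f₁ ≠ 0 := (hs₁ χ₁).mpr (MulAction.mem_orbit_self χ₁)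
  have e22 : D.π χ₂ f₂ ≠ 0 := (hs₂ χ₂).mpr (MulAction.mem_orbit_self χ₂)
  have e12 : D.π χ₁ f₂ = 0 := not_not.mp (mt (hs₂ χ₁).mp hχ₁2)
  have e21 : D.π χ₂ f₁ = 0 := not_not.mp (mt (hs₁ χ₂).mp hχ₂1)
  by_cases hA : ∃ χ₃, D.π χ₃ ≠ 0 ∧ χ₃ ∉ MulAction.orbit ↥P χ₁ ∧ χ₃ ∉ MulAction.orbit ↥P χ₂
  · left
    obtain ⟨χ₃, hχ₃, h31, h32⟩ := hA
    obtain ⟨f₃, hf₃, hfix₃, hsupp₃⟩ := exists_fixed_supp D h2 P hP χ₃ hχ₃
    have hs₃ : ∀ χ : X, D.π χ f₃ ≠ 0 ↔ χ ∈ MulAction.orbit ↥P χ₃ :=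
      fun χ => (hsupp₃ χ).trans (core_mem_orbit P χ₃ χ)
    have e33 : D.π χ₃ f₃ ≠ 0 := (hs₃ χ₃).mpr (MulAction.mem_orbit_self χ₃)
    have e13 : D.π χ₁ f₃ = 0 :=
      not_not.mp (mt (hs₃ χ₁).mp (fun h => h31 (MulAction.mem_orbit_symm.mp h)))
    have e23 : D.π χ₂ f₃ = 0 :=
      not_not.mp (mt (hs₃ χ₂).mp (fun h => h32 (MulAction.mem_orbit_symm.mp h)))
    have e31 : D.π χ₃ f₁ = 0 := not_not.mp (mt (hs₁ χ₃).mp h31)
    have e32 : D.π χ₃ f₂ = 0 := not_not.mp (mt (hs₂ χ₃).mp h32)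
    apply card_ge_of_indep3 (core_C D P) f₁ f₂ f₃ hfix₁ hfix₂ hfix₃
    intro c₁ c₂ c₃ hrel
    have r1 := congrArg (D.π χ₁) hrel
    have r2 := congrArg (D.π χ₂) hrel
    have r3 := congrArg (D.π χ₃) hrel
    simp only [map_add, map_smul, map_zero, e12, e13, e21, e23, e31, e32, smul_zero, add_zero,
      zero_add] at r1 r2 r3
    refine ⟨?_, ?_, ?_⟩
    · exact (smul_eq_zero.mp r1).resolve_right e11
    · exact (smul_eq_zero.mp r2).resolve_right e22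
    · exact (smul_eq_zero.mp r3).resolve_right e33
  · right
    push Not at hA
    have hind : ∀ c₁ c₂ : F, c₁ • f₁ + c₂ • f₂ = 0 → c₁ = 0 ∧ c₂ = 0 := by
      intro c₁ c₂ hrel
      have r1 := congrArg (D.π χ₁) hrel
      have r2 := congrArg (D.π χ₂) hrel
      simp only [map_add, map_smul, map_zero, e12, e21, smul_zero, add_zero, zero_add] at r1 r2
      exact ⟨(smul_eq_zero.mp r1).resolve_right e11, (smul_eq_zero.mp r2).resolve_right e22⟩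
    obtain ⟨hle, heq⟩ := card_ge_of_indep2 (core_C D P) f₁ f₂ hfix₁ hfix₂ hind
    refine ⟨hle, fun hc => ?_⟩
    by_contra hcon
    push Not at hcon
    have hxf : D.ρ x f₁ ∈ core_C D P := hcon f₁ hfix₁
    obtain ⟨c₁, c₂, hcc⟩ := heq hc _ hxf
    obtain ⟨k₁, hk₁⟩ := hpow χ₁
    have hΛ : ∀ χ : X, D.π χ ≠ 0 ↔ χ ∈ MulAction.orbit ↥P χ₁ ∪ MulAction.orbit ↥P χ₂ := by
      intro χ
      constructor
      · intro h
        by_cases h1 : χ ∈ MulAction.orbit ↥P χ₁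
        · exact Or.inl h1
        · exact Or.inr (hA χ h h1)
      · rintro (h | h)
        · exact horbΛ χ₁ hχ₁ χ h
        · exact horbΛ χ₂ hχ₂ χ h
    exact core_caseB D x q hq hq2 hx hfree _ _ f₁ f₂ c₁ c₂ hs₁ hs₂ hdisj hΛ k₁ hk₁
      ⟨χ₁, MulAction.mem_orbit_self χ₁⟩ ⟨χ₂, MulAction.mem_orbit_self χ₂⟩ hcc

end Cfsg.Agent.Lib.Helper73.GM
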