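import Mathlib
import Cfsg.Agent.Lib.Helper73.GMDefs

/-! Project GM (S4414, architect helper73), piece FLD.
Delivered by helper68 (theorem names and statements unchanged).
Paper proofs: team note (topic "GM S4414"). -/

set_option autoImplicit false

namespace Cfsg.Agent.Lib.Helper73.GM

/-- a finite field of characteristic 2 whose multiplicative group has order divisible by the
odd number `n` -/
theorem exists_field (n : ℕ) (hn : Odd n) :
    ∃ (F : Type) (_ : Field F) (_ : Finite F) (_ : CharP F 2), n ∣ Nat.card F - 1 := by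
  have : Fact (Nat.Prime 2) := ⟨Nat.prime_two⟩
  have hcop : Nat.Coprime 2 n := Nat.coprime_two_left.mpr hn
  have hpos : 0 < n := hn.pos
  have h1 : 2 ^ Nat.totient n ≡ 1 [MOD n] := Nat.ModEq.pow_totient hcop
  have hdvd : n ∣ 2 ^ Nat.totient n - 1 :=
    (Nat.modEq_iff_dvd' Nat.one_le_two_pow).mp h1.symm
  have hm : Nat.totient n ≠ 0 := (Nat.totient_pos.mpr hpos).ne'
  refine ⟨GaloisField 2 (Nat.totient n), inferInstance, inferInstance, inferInstance, ?_⟩
  rw [GaloisField.card 2 _ hm]
  exact hdvd

end Cfsg.Agent.Lib.Helper73.GM
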