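import Mathlib
import Cfsg.Agent.Lib.Helper73.GMDefs

/-! Project GM (S4414, architect helper73), piece FREE (proof by helper23).
Keep theorem names and statements byte-identical;
keep the namespace; auxiliary lemmas go ABOVE the theorems and MUST start with the prefix `free_`.
Paper proofs: team note (topic "GM S4414"). -/

set_option autoImplicit false

namespace Cfsg.Agent.Lib.Helper73.GM

/-- invariance of a character under `y` gives invariance under all integer powers of `y` -/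
theorem free_conjChar_zpow {F : Type*} [Field F] {S : Type*} [Group S] (N : Subgroup S) [N.Normal]
    (χ : ↥N →* Fˣ) (y : S) (hy : conjChar N y χ = χ) (k : ℤ) : conjChar N (y ^ k) χ = χ := by
  have hinvn : ∀ m : ℕ, conjChar N (y ^ m) χ = χ := by
    intro m
    induction m with
    | zero => rw [pow_zero]; exact conjChar_one N χ
    | succ m ih => rw [pow_succ, conjChar_mul, hy, ih]
  have hyinv : conjChar N y⁻¹ χ = χ := by
    have h1 := conjChar_mul N y⁻¹ y χ
    rw [inv_mul_cancel, conjChar_one, hy] at h1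
    exact h1.symm
  have hinvn' : ∀ m : ℕ, conjChar N (y⁻¹ ^ m) χ = χ := by
    intro m
    induction m with
    | zero => rw [pow_zero]; exact conjChar_one N χ
    | succ m ih => rw [pow_succ, conjChar_mul, hyinv, ih]
  rcases Int.eq_nat_or_neg k with ⟨m, rfl | rfl⟩
  · rw [zpow_natCast]; exact hinvn m
  · rw [zpow_neg, zpow_natCast, ← inv_pow]; exact hinvn' m

/-- if `[N, Q] = N`, `Q` has prime order and `N` has no nonzero fixed vector, then a nontrivial
element of `Q` fixes no character of `N` that occurs as a weight -/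
theorem free_of_comm {F : Type*} [Field F] {S : Type*} [Group S] {W : Type*} [AddCommGroup W]
    [Module F W] (τ : Representation F S W) (N Q : Subgroup S) [N.Normal] (q : ℕ) (hq : q.Prime)
    (hQ : Nat.card ↥Q = q) (hcomm : ⁅N, Q⁆ = N)
    (hfix : ∀ z : W, (∀ n ∈ N, τ n z = z) → z = 0)
    (χ : ↥N →* Fˣ) (hχ : wt τ N χ ≠ ⊥) (y : S) (hyQ : y ∈ Q) (hy : conjChar N y χ = χ) :
    y = 1 := by
  by_contra hy1
  have hqf : Fact q.Prime := ⟨hq⟩
  have hpow : ∀ x ∈ Q, ∃ k : ℤ, y ^ k = x := by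
    intro x hx
    have hy1' : (⟨y, hyQ⟩ : ↥Q) ≠ 1 := fun h => hy1 (congrArg Subtype.val h)
    have hmem : (⟨x, hx⟩ : ↥Q) ∈ Subgroup.zpowers (⟨y, hyQ⟩ : ↥Q) :=
      mem_zpowers_of_prime_card hQ hy1'
    obtain ⟨k, hk⟩ := Subgroup.mem_zpowers_iff.mp hmem
    refine ⟨k, ?_⟩
    have h2 := congrArg Subtype.val hk
    simpa using h2
  have hQinv : ∀ x ∈ Q, conjChar N x χ = χ := by
    intro x hx
    obtain ⟨k, rfl⟩ := hpow x hx
    exact free_conjChar_zpow N χ y hy k
  have hnorm : N.Normal := inferInstance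
  have hK : ⁅N, Q⁆ ≤ χ.ker.map N.subtype := by
    rw [Subgroup.commutator_le]
    intro n hn x hx
    have hmem : x * n⁻¹ * x⁻¹ ∈ N := hnorm.conj_mem n⁻¹ (N.inv_mem hn) x
    refine ⟨⟨n, hn⟩ * ⟨x * n⁻¹ * x⁻¹, hmem⟩, ?_, ?_⟩
    · rw [SetLike.mem_coe, MonoidHom.mem_ker, map_mul]
      have h1 : conjChar N x⁻¹ χ ⟨n⁻¹, N.inv_mem hn⟩ = χ ⟨n⁻¹, N.inv_mem hn⟩ := by
        rw [hQinv x⁻¹ (Q.inv_mem hx)]
      rw [conjChar_apply] at h1
      have h2 : (MulAut.conjNormal ((x⁻¹)⁻¹) (⟨n⁻¹, N.inv_mem hn⟩ : ↥N) : ↥N) =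
          ⟨x * n⁻¹ * x⁻¹, hmem⟩ := by
        apply Subtype.ext
        rw [conjChar_coe]
        simp
      rw [h2] at h1
      rw [h1, ← map_mul]
      have h3 : (⟨n, hn⟩ : ↥N) * ⟨n⁻¹, N.inv_mem hn⟩ = 1 := by
        apply Subtype.ext
        simp
      rw [h3, map_one]
    · simp [commutatorElement_def, mul_assoc]
  have hNK : N ≤ χ.ker.map N.subtype := le_of_eq_of_le hcomm.symm hK
  have hχ1 : ∀ n : ↥N, χ n = 1 := by
    intro n
    obtain ⟨m, hm, hmn⟩ := hNK n.2
    have hmn' : m = n := Subtype.ext hmn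
    rw [← hmn']
    exact hm
  apply hχ
  rw [eq_bot_iff]
  intro z hz
  rw [Submodule.mem_bot]
  apply hfix
  intro n hn
  have h4 := (mem_wt τ N χ z).mp hz ⟨n, hn⟩
  rw [hχ1, Units.val_one, one_smul] at h4
  exact h4

end Cfsg.Agent.Lib.Helper73.GM
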