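import Mathlib
import Cfsg.Agent.Lib.Helper73.GMDefs

/-! Project GM (S4414, architect helper73), piece ORTH.
PLACEHOLDER: replace the `sorry`(s) in THIS file; keep theorem names and statements byte-identical;
keep the namespace; auxiliary lemmas go ABOVE the theorems and MUST start with the prefix `orth_`.
Paper proofs: team note (topic "GM S4414"). -/

set_option autoImplicit false

namespace Cfsg.Agent.Lib.Helper73.GM

/-- a finite field has enough `e`-th roots of unity when `e ∣ |F| - 1` -/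
theorem orth_enough {F : Type*} [Field F] [Finite F] (e : ℕ) (he0 : e ≠ 0)
    (he : e ∣ Nat.card F - 1) : HasEnoughRootsOfUnity F e := by
  haveI : NeZero e := ⟨he0⟩
  obtain ⟨g, hg⟩ := IsCyclic.exists_generator (α := Fˣ)
  have hord : orderOf g = Nat.card F - 1 := by
    rw [orderOf_eq_card_of_forall_mem_zpowers hg, Nat.card_units]
  obtain ⟨k, hk⟩ := he
  have hk0 : k ≠ 0 := by
    rintro rfl
    have : 1 < Nat.card F := Finite.one_lt_card
    omega
  have hζ : orderOf (g ^ k) = e := by
    rw [orderOf_pow_of_dvd hk0 (by rw [hord, hk]; exact dvd_mul_left k e), hord, hk,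
      Nat.mul_div_cancel _ (Nat.pos_of_ne_zero hk0)]
  refine ⟨⟨((g ^ k : Fˣ) : F), ?_⟩, rootsOfUnity.isCyclic F e⟩
  rw [IsPrimitiveRoot.coe_units_iff, ← hζ]
  exact IsPrimitiveRoot.orderOf (g ^ k)

theorem orth_exists_comm {F : Type*} [Field F] [Finite F] {N : Type*} [CommGroup N] [Finite N]
    (hcard : Nat.card N ∣ Nat.card F - 1) (n : N) (hn : n ≠ 1) : ∃ φ : N →* Fˣ, φ n ≠ 1 := by
  haveI : HasEnoughRootsOfUnity F (Monoid.exponent N) :=
    orth_enough _ Monoid.exponent_ne_zero_of_finite (Group.exponent_dvd_nat_card.trans hcard)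
  exact CommGroup.exists_apply_ne_one_of_hasEnoughRootsOfUnity N F hn

theorem orth_card_comm {F : Type*} [Field F] [Finite F] {N : Type*} [CommGroup N] [Finite N]
    (hcard : Nat.card N ∣ Nat.card F - 1) : Nat.card (N →* Fˣ) = Nat.card N := by
  haveI : HasEnoughRootsOfUnity F (Monoid.exponent N) :=
    orth_enough _ Monoid.exponent_ne_zero_of_finite (Group.exponent_dvd_nat_card.trans hcard)
  exact CommGroup.card_monoidHom_of_hasEnoughRootsOfUnity N F

theorem finite_char {F : Type*} [Field F] [Finite F] {N : Type*} [Group N] [Finite N] :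
    Finite (N →* Fˣ) := by
  exact Finite.of_injective (fun χ : N →* Fˣ => (χ : N → Fˣ)) DFunLike.coe_injective

theorem card_ne_zero {F : Type*} [Field F] [Finite F] {N : Type*} [Group N] [Finite N]
    (hcard : Nat.card N ∣ Nat.card F - 1) : ((Nat.card N : ℕ) : F) ≠ 0 := by
  intro h0
  obtain ⟨p, hp⟩ := CharP.exists F
  haveI := hp
  have hpN : p ∣ Nat.card N := (CharP.cast_eq_zero_iff F p _).mp h0
  have hpF : p ∣ Nat.card F := by
    haveI := Fintype.ofFinite F
    rw [Nat.card_eq_fintype_card]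
    exact (CharP.cast_eq_zero_iff F p _).mp (Nat.cast_card_eq_zero F)
  have h1 : 1 < Nat.card F := Finite.one_lt_card
  have h2 : p ∣ Nat.card F - 1 := hpN.trans hcard
  obtain ⟨a, ha⟩ := hpF
  obtain ⟨b, hb⟩ := h2
  have hp1 : p ∣ 1 := by
    refine ⟨a - b, ?_⟩
    rw [Nat.mul_sub, ← ha, ← hb]
    omega
  exact CharP.char_ne_one F p (Nat.dvd_one.mp hp1)

/-- row orthogonality: a nontrivial character sums to zero -/
theorem char_sum_eq_zero {F : Type*} [Field F] {N : Type*} [Group N] [Finite N]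
    (θ : N →* Fˣ) (hθ : θ ≠ 1) : ∑ᶠ n : N, ((θ n : Fˣ) : F) = 0 := by
  haveI := Fintype.ofFinite N
  rw [finsum_eq_sum_of_fintype]
  obtain ⟨n0, hn0⟩ : ∃ n0, θ n0 ≠ 1 := by
    by_contra h
    push Not at h
    exact hθ (MonoidHom.ext fun n => by simpa using h n)
  have key : ((θ n0 : Fˣ) : F) * ∑ n : N, ((θ n : Fˣ) : F) = ∑ n : N, ((θ n : Fˣ) : F) := by
    rw [Finset.mul_sum]
    refine Fintype.sum_equiv (Equiv.mulLeft n0) _ _ (fun n => ?_)
    simp [map_mul]
  have h1 : (((θ n0 : Fˣ) : F) - 1) * ∑ n : N, ((θ n : Fˣ) : F) = 0 := by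
    rw [sub_mul, key, one_mul, sub_self]
  rcases mul_eq_zero.mp h1 with h | h
  · exfalso
    apply hn0
    have h' : ((θ n0 : Fˣ) : F) = 1 := sub_eq_zero.mp h
    exact Units.ext (by simpa using h')
  · exact h

/-- column orthogonality: the values of all characters at a nontrivial element sum to zero -/
theorem sum_char_eq_zero {F : Type*} [Field F] [Finite F] {N : Type*} [Group N] [Finite N]
    (hc : ∀ a b : N, a * b = b * a) (hcard : Nat.card N ∣ Nat.card F - 1) (n : N) (hn : n ≠ 1) :
    ∑ᶠ χ : N →* Fˣ, ((χ n : Fˣ) : F) = 0 := by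
  haveI : Finite (N →* Fˣ) := finite_char
  obtain ⟨φ, hφ⟩ : ∃ φ : N →* Fˣ, φ n ≠ 1 :=
    @orth_exists_comm F _ _ N { (inferInstance : Group N) with mul_comm := hc } _ hcard n hn
  have h := char_sum_eq_zero (F := F) (N := (N →* Fˣ)) (MonoidHom.eval n) (by
    intro h
    apply hφ
    have h' := DFunLike.congr_fun h φ
    simpa using h')
  simpa using h

theorem card_char {F : Type*} [Field F] [Finite F] {N : Type*} [Group N] [Finite N]
    (hc : ∀ a b : N, a * b = b * a) (hcard : Nat.card N ∣ Nat.card F - 1) :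
    Nat.card (N →* Fˣ) = Nat.card N := by
  exact @orth_card_comm F _ _ N { (inferInstance : Group N) with mul_comm := hc } _ hcard

end Cfsg.Agent.Lib.Helper73.GM
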