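import Mathlib
import Cfsg.Agent.Lib.Helper73.GMDefs
import Cfsg.Agent.Lib.Helper73.GMOrth
/-! Project GM (S4414, architect helper73), piece PROJ.
Auxiliary lemmas start with the prefix `proj_`.
Paper proofs: team note (topic "GM S4414"). -/

set_option autoImplicit false

namespace Cfsg.Agent.Lib.Helper73.GM

section proj_aux

variable {F : Type*} [Field F] {G : Type*} [Group G] {W : Type*} [AddCommGroup W] [Module F W]
  (N : Subgroup G) [Fintype ↥N] (ρ : Representation F G W)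

/-- the candidate weight projection `|N|⁻¹ Σ χ(n)⁻¹ ρ(n)` -/
noncomputable def proj_pi (χ : ↥N →* Fˣ) : W →ₗ[F] W :=
  ((Nat.card ↥N : ℕ) : F)⁻¹ • ∑ n : ↥N, (((χ n)⁻¹ : Fˣ) : F) • ρ (n : G)

theorem proj_pi_apply (χ : ↥N →* Fˣ) (z : W) :
    proj_pi N ρ χ z =
      ((Nat.card ↥N : ℕ) : F)⁻¹ • ∑ n : ↥N, (((χ n)⁻¹ : Fˣ) : F) • ρ (n : G) z := by
  simp [proj_pi, LinearMap.sum_apply]

theorem proj_mem_wt (χ : ↥N →* Fˣ) (z : W) : proj_pi N ρ χ z ∈ wt ρ N χ := by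
  rw [mem_wt]
  intro m
  rw [proj_pi_apply]
  have hL : ρ (m : G) (((Nat.card ↥N : ℕ) : F)⁻¹ •
        ∑ n : ↥N, (((χ n)⁻¹ : Fˣ) : F) • ρ (n : G) z) =
      ((Nat.card ↥N : ℕ) : F)⁻¹ •
        ∑ n : ↥N, (((χ n)⁻¹ : Fˣ) : F) • ρ ((m : G) * (n : G)) z := by
    rw [map_smul, map_sum]
    congr 1
    apply Finset.sum_congr rfl
    intro n _
    rw [map_smul, map_mul, Module.End.mul_apply]
  have hR : ((χ m : Fˣ) : F) • (((Nat.card ↥N : ℕ) : F)⁻¹ •
        ∑ n : ↥N, (((χ n)⁻¹ : Fˣ) : F) • ρ (n : G) z) =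
      ((Nat.card ↥N : ℕ) : F)⁻¹ •
        ∑ n : ↥N, (((χ m : Fˣ) : F) * (((χ n)⁻¹ : Fˣ) : F)) • ρ (n : G) z := by
    rw [smul_comm, Finset.smul_sum]
    congr 1
    apply Finset.sum_congr rfl
    intro n _
    rw [smul_smul]
  rw [hL, hR]
  congr 1
  rw [← Equiv.sum_comp (Equiv.mulLeft m)
    (fun n : ↥N => (((χ m : Fˣ) : F) * (((χ n)⁻¹ : Fˣ) : F)) • ρ (n : G) z)]
  apply Finset.sum_congr rfl
  intro n _
  simp only [Equiv.coe_mulLeft, Subgroup.coe_mul]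
  congr 1
  rw [← Units.val_mul]
  congr 1
  rw [map_mul, mul_inv_rev, mul_comm (χ n)⁻¹, mul_inv_cancel_left]

theorem proj_id_on_wt (hc : ((Nat.card ↥N : ℕ) : F) ≠ 0) (χ : ↥N →* Fˣ) (z : W)
    (hz : z ∈ wt ρ N χ) : proj_pi N ρ χ z = z := by
  rw [proj_pi_apply]
  have h1 : ∀ n : ↥N, (((χ n)⁻¹ : Fˣ) : F) • ρ (n : G) z = z := by
    intro n
    rw [(mem_wt ρ N χ z).mp hz n, smul_smul, ← Units.val_mul, inv_mul_cancel, Units.val_one,
      one_smul]
  rw [Finset.sum_congr rfl (fun n _ => h1 n), Finset.sum_const, Finset.card_univ,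
    ← Nat.card_eq_fintype_card, ← Nat.cast_smul_eq_nsmul F, smul_smul, inv_mul_cancel₀ hc,
    one_smul]

theorem proj_zero_on_wt (χ ψ : ↥N →* Fˣ) (z : W) (hne : χ ≠ ψ) (hz : z ∈ wt ρ N ψ) :
    proj_pi N ρ χ z = 0 := by
  rw [proj_pi_apply]
  have h1 : ∀ n : ↥N, (((χ n)⁻¹ : Fˣ) : F) • ρ (n : G) z =
      ((((χ⁻¹ * ψ) n : Fˣ)) : F) • z := by
    intro n
    rw [(mem_wt ρ N ψ z).mp hz n, smul_smul, ← Units.val_mul]
    rfl
  rw [Finset.sum_congr rfl (fun n _ => h1 n), ← Finset.sum_smul]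
  have h2 := char_sum_eq_zero (χ⁻¹ * ψ) (by intro h; exact hne (inv_mul_eq_one.mp h))
  rw [finsum_eq_sum_of_fintype] at h2
  rw [h2, zero_smul, smul_zero]

theorem proj_sum [Finite F] (hNc : ∀ a b : ↥N, a * b = b * a)
    (hcard : Nat.card ↥N ∣ Nat.card F - 1) [Fintype (↥N →* Fˣ)] (z : W) :
    ∑ χ : ↥N →* Fˣ, proj_pi N ρ χ z = z := by
  classical
  have hc := card_ne_zero (F := F) (N := ↥N) hcard
  simp only [proj_pi_apply]
  rw [← Finset.smul_sum, Finset.sum_comm]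
  have h1 : ∀ n : ↥N, ∑ χ : ↥N →* Fˣ, (((χ n)⁻¹ : Fˣ) : F) • ρ (n : G) z =
      if n = 1 then ((Nat.card ↥N : ℕ) : F) • z else 0 := by
    intro n
    rw [← Finset.sum_smul]
    split_ifs with hn
    · subst hn
      simp only [map_one, inv_one, Units.val_one, Finset.sum_const, Finset.card_univ]
      rw [← Nat.card_eq_fintype_card, card_char hNc hcard]
      simp
    · have h2 := sum_char_eq_zero (F := F) hNc hcard n⁻¹ (by simpa using hn)
      rw [finsum_eq_sum_of_fintype] at h2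
      have h3 : ∑ χ : ↥N →* Fˣ, (((χ n)⁻¹ : Fˣ) : F) = ∑ χ : ↥N →* Fˣ, ((χ n⁻¹ : Fˣ) : F) := by
        apply Finset.sum_congr rfl
        intro χ _
        rw [map_inv]
      rw [h3, h2, zero_smul]
  rw [Finset.sum_congr rfl (fun n _ => h1 n)]
  simp only [Finset.sum_ite_eq', Finset.mem_univ, if_true]
  rw [smul_smul, inv_mul_cancel₀ hc, one_smul]

theorem proj_equiv [N.Normal] (g : G) (χ : ↥N →* Fˣ) (z : W) :
    ρ g (proj_pi N ρ χ z) = proj_pi N ρ (conjChar N g χ) (ρ g z) := by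
  rw [proj_pi_apply, proj_pi_apply, map_smul, map_sum]
  congr 1
  rw [← Equiv.sum_comp (MulAut.conjNormal g : ↥N ≃* ↥N).toEquiv
    (fun n' : ↥N => ((((conjChar N g χ) n')⁻¹ : Fˣ) : F) • ρ (n' : G) (ρ g z))]
  apply Finset.sum_congr rfl
  intro n _
  rw [map_smul]
  have h1 : (MulAut.conjNormal (g⁻¹) ((MulAut.conjNormal g : ↥N ≃* ↥N) n) : ↥N) = n := by
    apply Subtype.ext
    rw [conjChar_coe, MulAut.conjNormal_apply]
    group
  have h2 : ρ (((MulAut.conjNormal g : ↥N ≃* ↥N) n : ↥N) : G) (ρ g z) = ρ g (ρ (n : G) z) := by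
    rw [← Module.End.mul_apply, ← map_mul, ← Module.End.mul_apply, ← map_mul,
      MulAut.conjNormal_apply]
    congr 2
    group
  simp only [MulEquiv.toEquiv_eq_coe, EquivLike.coe_coe]
  rw [conjChar_apply, h1, h2]

end proj_aux

/-- the weight projections of a representation with respect to a finite abelian normal subgroup
`N` whose order divides `|F| - 1` -/
theorem exists_proj {F : Type*} [Field F] [Finite F] {G : Type*} [Group G] {W : Type*}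
    [AddCommGroup W] [Module F W] (N : Subgroup G) [N.Normal] [Finite ↥N]
    (hNc : ∀ a b : ↥N, a * b = b * a) (hcard : Nat.card ↥N ∣ Nat.card F - 1)
    (ρ : Representation F G W) :
    ∃ π : (↥N →* Fˣ) → (W →ₗ[F] W),
      (∀ χ z, π χ z ∈ wt ρ N χ) ∧ (∀ z, ∑ᶠ χ, π χ z = z) ∧
      (∀ χ z, z ∈ wt ρ N χ → π χ z = z) ∧
      (∀ χ ψ z, χ ≠ ψ → z ∈ wt ρ N ψ → π χ z = 0) ∧
      (∀ g χ z, ρ g (π χ z) = π (conjChar N g χ) (ρ g z)) := by
  classical
  have := Fintype.ofFinite ↥N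
  have : Finite (↥N →* Fˣ) := finite_char
  have := Fintype.ofFinite (↥N →* Fˣ)
  have hc := card_ne_zero (F := F) (N := ↥N) hcard
  refine ⟨fun χ => proj_pi N ρ χ, fun χ z => proj_mem_wt N ρ χ z, fun z => ?_,
    fun χ z hz => proj_id_on_wt N ρ hc χ z hz,
    fun χ ψ z hne hz => proj_zero_on_wt N ρ χ ψ z hne hz,
    fun g χ z => proj_equiv N ρ g χ z⟩
  rw [finsum_eq_sum_of_fintype]
  exact proj_sum N ρ hNc hcard z

end Cfsg.Agent.Lib.Helper73.GM
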