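import Mathlib
import Cfsg.Agent.Lib.Helper73.GMDefs

/-! Project GM (S4414, architect helper73), piece TRIV.
PLACEHOLDER: replace the `sorry`(s) in THIS file; keep theorem names and statements byte-identical;
keep the namespace; auxiliary lemmas go ABOVE the theorems and MUST start with the prefix `triv_`.
Paper proofs: team note (topic "GM S4414"). -/

set_option autoImplicit false

namespace Cfsg.Agent.Lib.Helper73.GM

/-- a nontrivial normal subgroup acting faithfully on an irreducible module has no nonzero
fixed vector -/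
theorem fixed_eq_zero {S : Type*} [Group S] {E : Type*} [AddCommGroup E] [Module (ZMod 2) E]
    (ρ : Representation (ZMod 2) S E) (N : Subgroup S) [N.Normal] (hN : N ≠ ⊥)
    (hirr : ∀ M : Submodule (ZMod 2) E, (∀ s : S, ∀ m ∈ M, ρ s m ∈ M) → M = ⊥ ∨ M = ⊤)
    (hfaith : ∀ x ∈ N, ρ x = 1 → x = 1) (v : E) (hv : ∀ n ∈ N, ρ n v = v) : v = 0 := by
  let M : Submodule (ZMod 2) E :=
    { carrier := {w | ∀ n ∈ N, ρ n w = w}
      add_mem' := fun {a b} ha hb n hn => by rw [map_add, ha n hn, hb n hn]
      zero_mem' := fun n _ => map_zero _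
      smul_mem' := fun c a ha n hn => by rw [map_smul, ha n hn] }
  have hinv : ∀ s : S, ∀ m ∈ M, ρ s m ∈ M := by
    intro s m hm n hn
    have h1 : s⁻¹ * n * s ∈ N := by
      have h0 := (inferInstance : N.Normal).conj_mem n hn s⁻¹
      rwa [inv_inv] at h0
    have h2 : ρ n (ρ s m) = ρ s (ρ (s⁻¹ * n * s) m) := by
      rw [← Module.End.mul_apply, ← Module.End.mul_apply, ← map_mul, ← map_mul]
      congr 2
      group
    rw [h2, hm _ h1]
  rcases hirr M hinv with h | h
  · have hvM : v ∈ M := hv
    rw [h] at hvM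
    exact (Submodule.mem_bot _).mp hvM
  · exfalso
    apply hN
    rw [Subgroup.eq_bot_iff_forall]
    intro x hx
    apply hfaith x hx
    ext w
    have hw : w ∈ M := by
      rw [h]
      trivial
    exact hw x hx

end Cfsg.Agent.Lib.Helper73.GM
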