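import Mathlib
import Cfsg.Prelude.Def_Transfer
import Cfsg.Prelude.Def_Solvable

/-!
# Project HJ (S4415, architect helper73): definitions

`ρ : Representation (ZMod 3) S E` (so `ρ g : E →ₗ[ZMod 3] E`, `ρ (g * h) = ρ g * ρ h`).
* `hjFix ρ X` = fixed vectors of the subgroup `X`, `hjComm ρ X` = span of all `ρ x v - v` (`x ∈ X`).
* `Base ρ R b`: the standing hypotheses on `R` and `b` (`R` a solvable 3'-group normalized by `b`,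
  generated by the commutators `r b r⁻¹ b⁻¹`; `b ^ 3 = 1`; `ρ b - 1` has rank 2 and nonzero square; `ρ` faithful).
* `QType Q b`: `Q` is a four-group normalized, not centralized, by `b`.
* `Comm R Q`: `Q` commutes with all its `R`-conjugates.
* `Frame ρ Q b q₁ q₂ q₃ e₁ e₂ e₃`: the weight vectors of `Q`.
* `ZCen ρ R b z`: `z` is a central involution of `R` fixed by `b` acting as `-1` on `hjComm ρ R`.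
* `ExSub R A b z`: `A ≤ R` normalized by `R` and `b`, commutators and squares in `{1, z}`, centre `≤ {1, z}`.
* `Mono4 ρ R e₁ e₂ e₃ e₄`: `R` is the monomial group (even sign changes) x (Klein four-group) on 4 lines.
* `Concl ρ R b`: the goal.
-/

set_option autoImplicit false

namespace Cfsg.Agent.Lib.Helper73.HJ

variable {S : Type*} [Group S] {E : Type*} [AddCommGroup E] [Module (ZMod 3) E]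

/-- fixed points of `X` on `E` -/
def hjFix (ρ : Representation (ZMod 3) S E) (X : Subgroup S) : Submodule (ZMod 3) E where
  carrier := {v | ∀ x ∈ X, ρ x v = v}
  add_mem' := by
    intro u v hu hv x hx
    rw [map_add, hu x hx, hv x hx]
  zero_mem' := by
    intro x _
    exact map_zero _
  smul_mem' := by
    intro c v hv x hx
    rw [map_smul, hv x hx]

theorem mem_hjFix (ρ : Representation (ZMod 3) S E) (X : Subgroup S) (v : E) :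
    v ∈ hjFix ρ X ↔ ∀ x ∈ X, ρ x v = v := Iff.rfl

/-- the commutator `[E, X]` -/
def hjComm (ρ : Representation (ZMod 3) S E) (X : Subgroup S) : Submodule (ZMod 3) E :=
  Submodule.span (ZMod 3) {w | ∃ x ∈ X, ∃ v : E, w = ρ x v - v}

/-- standing hypotheses on `R` and `b` -/
structure Base (ρ : Representation (ZMod 3) S E) (R : Subgroup S) (b : S) : Prop where
  faith : Function.Injective ρ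
  b3 : b ^ 3 = 1
  rank : Nat.card (LinearMap.range (ρ b - 1)) = 9
  sq : ∃ v : E, (ρ b - 1) ((ρ b - 1) v) ≠ 0
  cop : (Nat.card R).Coprime 3
  sol : Group.IsSolvable ↥R
  nR : ∀ r ∈ R, b * r * b⁻¹ ∈ R
  gen : R = Subgroup.closure {g | ∃ r ∈ R, g = r * b * r⁻¹ * b⁻¹}

/-- a four-group normalized and not centralized by `b` -/
structure QType (Q : Subgroup S) (b : S) : Prop where
  card : Nat.card Q = 4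
  exp : ∀ q ∈ Q, q * q = 1
  norm : ∀ q ∈ Q, b * q * b⁻¹ ∈ Q
  nc : ∃ q ∈ Q, b * q * b⁻¹ ≠ q

/-- `Q` commutes with all its `R`-conjugates -/
def Comm (R Q : Subgroup S) : Prop :=
  ∀ r ∈ R, ∀ q ∈ Q, ∀ q' ∈ Q, (r * q * r⁻¹) * q' = q' * (r * q * r⁻¹)

/-- weight vectors of the four-group `Q = {1, q₁, q₂, q₃}` -/
structure Frame (ρ : Representation (ZMod 3) S E) (Q : Subgroup S) (b : S) (q₁ q₂ q₃ : S)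
    (e₁ e₂ e₃ : E) : Prop where
  m1 : q₁ ∈ Q
  m2 : q₂ ∈ Q
  m3 : q₃ ∈ Q
  all : ∀ q ∈ Q, q = 1 ∨ q = q₁ ∨ q = q₂ ∨ q = q₃
  s1 : q₁ * q₁ = 1
  s2 : q₂ * q₂ = 1
  s3 : q₃ * q₃ = 1
  m12 : q₁ * q₂ = q₃
  m21 : q₂ * q₁ = q₃
  b1 : b * q₁ * b⁻¹ = q₂
  b2 : b * q₂ * b⁻¹ = q₃
  b3 : b * q₃ * b⁻¹ = q₁
  e0 : e₁ ≠ 0
  be1 : ρ b e₁ = e₂
  be2 : ρ b e₂ = e₃
  be3 : ρ b e₃ = e₁
  q11 : ρ q₁ e₁ = e₁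
  q12 : ρ q₁ e₂ = -e₂
  q13 : ρ q₁ e₃ = -e₃
  q21 : ρ q₂ e₁ = -e₁
  q22 : ρ q₂ e₂ = e₂
  q23 : ρ q₂ e₃ = -e₃
  q31 : ρ q₃ e₁ = -e₁
  q32 : ρ q₃ e₂ = -e₂
  q33 : ρ q₃ e₃ = e₃
  bfix : ∀ v ∈ hjFix ρ Q, ρ b v = v
  dec : ∀ v : E, ∃ f ∈ hjFix ρ Q, ∃ c₁ c₂ c₃ : ZMod 3, v = f + c₁ • e₁ + c₂ • e₂ + c₃ • e₃

/-- `z` is a central involution of `R`, fixed by `b`, acting as `-1` on `[E, R]` -/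
structure ZCen (ρ : Representation (ZMod 3) S E) (R : Subgroup S) (b z : S) : Prop where
  mem : z ∈ R
  ne : z ≠ 1
  sq : z * z = 1
  bz : b * z * b⁻¹ = z
  cen : ∀ r ∈ R, r * z = z * r
  neg : ∀ v ∈ hjComm ρ R, ρ z v = -v

/-- `A ≤ R` normalized by `R` and `b`, with commutators and squares in `{1, z}` and centre in `{1, z}` -/
structure ExSub (R A : Subgroup S) (b z : S) : Prop where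
  le : A ≤ R
  nR : ∀ r ∈ R, ∀ a ∈ A, r * a * r⁻¹ ∈ A
  nb : ∀ a ∈ A, b * a * b⁻¹ ∈ A
  zA : z ∈ A
  comm : ∀ a ∈ A, ∀ a' ∈ A, a * a' * a⁻¹ * a'⁻¹ = 1 ∨ a * a' * a⁻¹ * a'⁻¹ = z
  sq : ∀ a ∈ A, a * a = 1 ∨ a * a = z
  cen : ∀ a ∈ A, (∀ a' ∈ A, a * a' = a' * a) → a = 1 ∨ a = z

/-- the monomial structure of `R` on four lines -/
structure Mono4 (ρ : Representation (ZMod 3) S E) (R : Subgroup S) (e₁ e₂ e₃ e₄ : E) : Prop where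
  span : hjComm ρ R = Submodule.span (ZMod 3) {e₁, e₂, e₃, e₄}
  indep : ∀ c₁ c₂ c₃ c₄ : ZMod 3, c₁ • e₁ + c₂ • e₂ + c₃ • e₃ + c₄ • e₄ = 0 →
    c₁ = 0 ∧ c₂ = 0 ∧ c₃ = 0 ∧ c₄ = 0
  inj : ∀ r ∈ R, ∀ r' ∈ R, ρ r e₁ = ρ r' e₁ → ρ r e₂ = ρ r' e₂ → ρ r e₃ = ρ r' e₃ →
    ρ r e₄ = ρ r' e₄ → r = r'
  shape : ∀ r ∈ R, ∃ s₁ s₂ s₃ s₄ : ZMod 3, s₁ * s₁ = 1 ∧ s₂ * s₂ = 1 ∧ s₃ * s₃ = 1 ∧ s₄ * s₄ = 1 ∧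
    s₁ * s₂ * s₃ * s₄ = 1 ∧
    ((ρ r e₁ = s₁ • e₁ ∧ ρ r e₂ = s₂ • e₂ ∧ ρ r e₃ = s₃ • e₃ ∧ ρ r e₄ = s₄ • e₄) ∨
     (ρ r e₁ = s₁ • e₂ ∧ ρ r e₂ = s₂ • e₁ ∧ ρ r e₃ = s₃ • e₄ ∧ ρ r e₄ = s₄ • e₃) ∨
     (ρ r e₁ = s₁ • e₃ ∧ ρ r e₃ = s₃ • e₁ ∧ ρ r e₂ = s₂ • e₄ ∧ ρ r e₄ = s₄ • e₂) ∨
     (ρ r e₁ = s₁ • e₄ ∧ ρ r e₄ = s₄ • e₁ ∧ ρ r e₂ = s₂ • e₃ ∧ ρ r e₃ = s₃ • e₂))
  diag : ∀ s₁ s₂ s₃ s₄ : ZMod 3, s₁ * s₁ = 1 → s₂ * s₂ = 1 → s₃ * s₃ = 1 → s₄ * s₄ = 1 →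
    s₁ * s₂ * s₃ * s₄ = 1 →
    ∃ r ∈ R, ρ r e₁ = s₁ • e₁ ∧ ρ r e₂ = s₂ • e₂ ∧ ρ r e₃ = s₃ • e₃ ∧ ρ r e₄ = s₄ • e₄
  perm12 : ∃ r ∈ R, ρ r e₁ = e₂ ∧ ρ r e₂ = e₁ ∧ ρ r e₃ = e₄ ∧ ρ r e₄ = e₃
  perm13 : ∃ r ∈ R, ρ r e₁ = e₃ ∧ ρ r e₃ = e₁ ∧ ρ r e₂ = e₄ ∧ ρ r e₄ = e₂
  perm14 : ∃ r ∈ R, ρ r e₁ = e₄ ∧ ρ r e₄ = e₁ ∧ ρ r e₂ = e₃ ∧ ρ r e₃ = e₂

/-- the structural conclusion -/
def Concl (ρ : Representation (ZMod 3) S E) (R : Subgroup S) (b : S) : Prop :=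
  ((Cfsg.IsElementaryAbelian 2 R ∧ Nat.card R = 4) ∨
    (Cfsg.IsExtraspecial 2 ↥R ∧ Nat.card R = 32 ∧
      ∃ A : Subgroup S, A ≤ R ∧ Cfsg.IsElementaryAbelian 2 A ∧ Nat.card A = 8)) ∧
  ∀ N : Submodule (ZMod 3) E, N ≤ hjComm ρ R → (∀ r ∈ R, ∀ v ∈ N, ρ r v ∈ N) →
    (∀ v ∈ N, ρ b v ∈ N) → N = ⊥ ∨ N = hjComm ρ R

/-- the four-group `Q = {1, q₁, q₂, q₃}` with `b` cycling `q₁ → q₂ → q₃ → q₁` -/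
structure QFrame (Q : Subgroup S) (b : S) (q₁ q₂ q₃ : S) : Prop where
  m1 : q₁ ∈ Q
  m2 : q₂ ∈ Q
  m3 : q₃ ∈ Q
  all : ∀ q ∈ Q, q = 1 ∨ q = q₁ ∨ q = q₂ ∨ q = q₃
  ne1 : q₁ ≠ 1
  s1 : q₁ * q₁ = 1
  s2 : q₂ * q₂ = 1
  s3 : q₃ * q₃ = 1
  m12 : q₁ * q₂ = q₃
  m21 : q₂ * q₁ = q₃
  b1 : b * q₁ * b⁻¹ = q₂
  b2 : b * q₂ * b⁻¹ = q₃
  b3 : b * q₃ * b⁻¹ = q₁

/-- `A` is minimal among the subgroups of `R` normalized by `R` and `b` that properly contain `{1, z}` -/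
structure MinOver (R A : Subgroup S) (b z : S) : Prop where
  le : A ≤ R
  zA : z ∈ A
  ne : A ≠ Subgroup.zpowers z
  nR : ∀ r ∈ R, ∀ a ∈ A, r * a * r⁻¹ ∈ A
  nb : ∀ a ∈ A, b * a * b⁻¹ ∈ A
  min : ∀ A' : Subgroup S, A' ≤ A → (∀ r ∈ R, ∀ a ∈ A', r * a * r⁻¹ ∈ A') →
    (∀ a ∈ A', b * a * b⁻¹ ∈ A') → z ∈ A' → A' = Subgroup.zpowers z ∨ A' = A

/-- `r` acts on `e₁, e₂, e₃, e₄` as a signed permutation whose permutation lies in the Klein four-group -/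
def Sh4 (ρ : Representation (ZMod 3) S E) (r : S) (e₁ e₂ e₃ e₄ : E) : Prop :=
  ∃ s₁ s₂ s₃ s₄ : ZMod 3, s₁ * s₁ = 1 ∧ s₂ * s₂ = 1 ∧ s₃ * s₃ = 1 ∧ s₄ * s₄ = 1 ∧
    ((ρ r e₁ = s₁ • e₁ ∧ ρ r e₂ = s₂ • e₂ ∧ ρ r e₃ = s₃ • e₃ ∧ ρ r e₄ = s₄ • e₄) ∨
     (ρ r e₁ = s₁ • e₂ ∧ ρ r e₂ = s₂ • e₁ ∧ ρ r e₃ = s₃ • e₄ ∧ ρ r e₄ = s₄ • e₃) ∨
     (ρ r e₁ = s₁ • e₃ ∧ ρ r e₃ = s₃ • e₁ ∧ ρ r e₂ = s₂ • e₄ ∧ ρ r e₄ = s₄ • e₂) ∨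
     (ρ r e₁ = s₁ • e₄ ∧ ρ r e₄ = s₄ • e₁ ∧ ρ r e₂ = s₂ • e₃ ∧ ρ r e₃ = s₃ • e₂))

/-- `c` acts on `Ω` as the 3-cycle `(x₁ x₂ x₃)` (`act` is an action of `Γ` on `X`) -/
structure Cyc3 {Γ : Type*} {X : Type*} (act : Γ → X → X) (Ω : Set X) (c : Γ) (x₁ x₂ x₃ : X) : Prop where
  n12 : x₁ ≠ x₂
  n13 : x₁ ≠ x₃
  n23 : x₂ ≠ x₃
  m1 : x₁ ∈ Ω
  m2 : x₂ ∈ Ω
  m3 : x₃ ∈ Ω
  a1 : act c x₁ = x₂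
  a2 : act c x₂ = x₃
  a3 : act c x₃ = x₁
  fix : ∀ u ∈ Ω, u ≠ x₁ → u ≠ x₂ → u ≠ x₃ → act c u = u

/-- `n` acts on `x₁, x₂, x₃, x₄` as an element of the Klein four-group -/
def V4 {Γ : Type*} {X : Type*} (act : Γ → X → X) (n : Γ) (x₁ x₂ x₃ x₄ : X) : Prop :=
  (act n x₁ = x₁ ∧ act n x₂ = x₂ ∧ act n x₃ = x₃ ∧ act n x₄ = x₄) ∨
  (act n x₁ = x₂ ∧ act n x₂ = x₁ ∧ act n x₃ = x₄ ∧ act n x₄ = x₃) ∨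
  (act n x₁ = x₃ ∧ act n x₃ = x₁ ∧ act n x₂ = x₄ ∧ act n x₄ = x₂) ∨
  (act n x₁ = x₄ ∧ act n x₄ = x₁ ∧ act n x₂ = x₃ ∧ act n x₃ = x₂)

end Cfsg.Agent.Lib.Helper73.HJ
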