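import Mathlib
import Cfsg.Agent.Lib.Helper73.HJDefs

/-!
# Project HJ (S4415), piece BCen

BCEN: `A` normalized by `R` and centralized by `b` is central in `R`: each generator `r b r⁻¹ b⁻¹` of `R` centralizes `A`.
-/

set_option autoImplicit false

namespace Cfsg.Agent.Lib.Helper73.HJ

variable {S : Type*} [Group S] [Finite S] {E : Type*} [AddCommGroup E] [Module (ZMod 3) E]
  [Finite E]

theorem hj_bcen (R : Subgroup S) (b : S)
    (hgen : R = Subgroup.closure {g | ∃ r ∈ R, g = r * b * r⁻¹ * b⁻¹}) (A : Subgroup S)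
    (hAn : ∀ r ∈ R, ∀ a ∈ A, r * a * r⁻¹ ∈ A) (hbc : ∀ a ∈ A, b * a * b⁻¹ = a) :
    ∀ r ∈ R, ∀ a ∈ A, r * a = a * r := by
  have key : Subgroup.closure {g | ∃ r ∈ R, g = r * b * r⁻¹ * b⁻¹} ≤
      Subgroup.centralizer (A : Set S) := by
    rw [Subgroup.closure_le]
    rintro g ⟨r, hr, rfl⟩
    rw [SetLike.mem_coe, Subgroup.mem_centralizer_iff]
    intro a ha
    have ha' : r⁻¹ * a * r ∈ A := by
      have h0 := hAn r⁻¹ (inv_mem hr) a ha
      rwa [inv_inv] at h0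
    have h1 : b * (r⁻¹ * a * r) * b⁻¹ = r⁻¹ * a * r := hbc _ ha'
    have h2 : b * a * b⁻¹ = a := hbc a ha
    have h3 : b⁻¹ * a = a * b⁻¹ := by
      calc b⁻¹ * a = b⁻¹ * (b * a * b⁻¹) := by rw [h2]
        _ = a * b⁻¹ := by group
    have h4 : b * (r⁻¹ * a * r) = (r⁻¹ * a * r) * b := by
      calc b * (r⁻¹ * a * r) = (b * (r⁻¹ * a * r) * b⁻¹) * b := by group
        _ = (r⁻¹ * a * r) * b := by rw [h1]
    calc a * (r * b * r⁻¹ * b⁻¹) = r * ((r⁻¹ * a * r) * b) * r⁻¹ * b⁻¹ := by group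
      _ = r * (b * (r⁻¹ * a * r)) * r⁻¹ * b⁻¹ := by rw [h4]
      _ = r * b * r⁻¹ * (a * b⁻¹) := by group
      _ = r * b * r⁻¹ * (b⁻¹ * a) := by rw [h3]
      _ = r * b * r⁻¹ * b⁻¹ * a := by group
  intro r hr a ha
  have h := key (hgen.le hr)
  rw [Subgroup.mem_centralizer_iff] at h
  exact (h a ha).symm

end Cfsg.Agent.Lib.Helper73.HJ
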