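import Mathlib
import Cfsg.Agent.Lib.Helper73.HJDefs

/-!
# Project HJ (S4415), piece CProd (proved by helper29)

CPROD: central product. `D ⊔ A = {d a}` (they commute elementwise); commutators, squares multiply; a central `d a` has `d` central in `D`, `a` central in `A`.
-/

set_option autoImplicit false

namespace Cfsg.Agent.Lib.Helper73.HJ

variable {S : Type*} [Group S] [Finite S] {E : Type*} [AddCommGroup E] [Module (ZMod 3) E]
  [Finite E]

theorem hjcprod_mem (D A : Subgroup S) (hDA : ∀ d ∈ D, ∀ a ∈ A, d * a = a * d) (x : S)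
    (hx : x ∈ D ⊔ A) : ∃ d ∈ D, ∃ a ∈ A, x = d * a := by
  have hcl : D ⊔ A = Subgroup.closure ((D : Set S) ∪ (A : Set S)) := by
    rw [Subgroup.closure_union, Subgroup.closure_eq, Subgroup.closure_eq]
  rw [hcl] at hx
  induction hx using Subgroup.closure_induction with
  | mem y hy =>
    rcases hy with hy | hy
    · exact ⟨y, hy, 1, A.one_mem, (mul_one y).symm⟩
    · exact ⟨1, D.one_mem, y, hy, (one_mul y).symm⟩
  | one => exact ⟨1, D.one_mem, 1, A.one_mem, (mul_one 1).symm⟩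
  | mul y y' _ _ ihy ihy' =>
    obtain ⟨d, hd, a, ha, rfl⟩ := ihy
    obtain ⟨d', hd', a', ha', rfl⟩ := ihy'
    refine ⟨d * d', D.mul_mem hd hd', a * a', A.mul_mem ha ha', ?_⟩
    have h := hDA d' hd' a ha
    calc d * a * (d' * a') = d * (a * d') * a' := by group
      _ = d * (d' * a) * a' := by rw [h]
      _ = d * d' * (a * a') := by group
  | inv y _ ihy =>
    obtain ⟨d, hd, a, ha, rfl⟩ := ihy
    refine ⟨d⁻¹, D.inv_mem hd, a⁻¹, A.inv_mem ha, ?_⟩
    have h := hDA d⁻¹ (D.inv_mem hd) a⁻¹ (A.inv_mem ha)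
    rw [mul_inv_rev, h]

theorem hj_cprod (ρ : Representation (ZMod 3) S E) (R : Subgroup S) (b : S) (z : S) (hz : ZCen ρ R b z) (D A : Subgroup S)
    (hD : ExSub R D b z) (hA : ExSub R A b z) (hDA : ∀ d ∈ D, ∀ a ∈ A, d * a = a * d)
    (hDt : ∀ r ∈ R, ∀ d ∈ D, r * d * r⁻¹ = d ∨ r * d * r⁻¹ = d * z)
    (hAt : ∀ r ∈ R, ∀ a ∈ A, r * a * r⁻¹ = a ∨ r * a * r⁻¹ = a * z) :
    ExSub R (D ⊔ A) b z ∧ ∀ r ∈ R, ∀ x ∈ D ⊔ A, r * x * r⁻¹ = x ∨ r * x * r⁻¹ = x * z := by
  have hmem := hjcprod_mem D A hDA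
  have hzz : z * z = 1 := hz.sq
  have hzA : ∀ a ∈ A, a * z = z * a := fun a ha => hz.cen a (hA.le ha)
  have hDle : D ≤ D ⊔ A := le_sup_left
  have hAle : A ≤ D ⊔ A := le_sup_right
  refine ⟨⟨sup_le hD.le hA.le, ?_, ?_, hDle hD.zA, ?_, ?_, ?_⟩, ?_⟩
  · intro r hr x hx
    obtain ⟨d, hd, a, ha, rfl⟩ := hmem x hx
    have h : r * (d * a) * r⁻¹ = (r * d * r⁻¹) * (r * a * r⁻¹) := by group
    rw [h]
    exact Subgroup.mul_mem _ (hDle (hD.nR r hr d hd)) (hAle (hA.nR r hr a ha))
  · intro x hx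
    obtain ⟨d, hd, a, ha, rfl⟩ := hmem x hx
    have h : b * (d * a) * b⁻¹ = (b * d * b⁻¹) * (b * a * b⁻¹) := by group
    rw [h]
    exact Subgroup.mul_mem _ (hDle (hD.nb d hd)) (hAle (hA.nb a ha))
  · intro x hx x' hx'
    obtain ⟨d, hd, a, ha, rfl⟩ := hmem x hx
    obtain ⟨d', hd', a', ha', rfl⟩ := hmem x' hx'
    have e1 : a * d' = d' * a := (hDA d' hd' a ha).symm
    have e2 : (a * a' * a⁻¹) * d⁻¹ = d⁻¹ * (a * a' * a⁻¹) :=
      (hDA d⁻¹ (D.inv_mem hd) _ (A.mul_mem (A.mul_mem ha ha') (A.inv_mem ha))).symm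
    have e3 : (a * a' * a⁻¹ * a'⁻¹) * d'⁻¹ = d'⁻¹ * (a * a' * a⁻¹ * a'⁻¹) :=
      (hDA d'⁻¹ (D.inv_mem hd') _
        (A.mul_mem (A.mul_mem (A.mul_mem ha ha') (A.inv_mem ha)) (A.inv_mem ha'))).symm
    have key : d * a * (d' * a') * (d * a)⁻¹ * (d' * a')⁻¹
        = (d * d' * d⁻¹ * d'⁻¹) * (a * a' * a⁻¹ * a'⁻¹) := by
      calc d * a * (d' * a') * (d * a)⁻¹ * (d' * a')⁻¹
          = d * (a * d') * a' * a⁻¹ * d⁻¹ * a'⁻¹ * d'⁻¹ := by group
        _ = d * (d' * a) * a' * a⁻¹ * d⁻¹ * a'⁻¹ * d'⁻¹ := by rw [e1]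
        _ = d * d' * ((a * a' * a⁻¹) * d⁻¹) * a'⁻¹ * d'⁻¹ := by group
        _ = d * d' * (d⁻¹ * (a * a' * a⁻¹)) * a'⁻¹ * d'⁻¹ := by rw [e2]
        _ = d * d' * d⁻¹ * ((a * a' * a⁻¹ * a'⁻¹) * d'⁻¹) := by group
        _ = d * d' * d⁻¹ * (d'⁻¹ * (a * a' * a⁻¹ * a'⁻¹)) := by rw [e3]
        _ = (d * d' * d⁻¹ * d'⁻¹) * (a * a' * a⁻¹ * a'⁻¹) := by group
    rw [key]
    rcases hD.comm d hd d' hd' with h1 | h1 <;> rcases hA.comm a ha a' ha' with h2 | h2 <;>
      rw [h1, h2]
    · left; exact mul_one 1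
    · right; exact one_mul z
    · right; exact mul_one z
    · left; exact hzz
  · intro x hx
    obtain ⟨d, hd, a, ha, rfl⟩ := hmem x hx
    have e1 : a * d = d * a := (hDA d hd a ha).symm
    have key : d * a * (d * a) = (d * d) * (a * a) := by
      calc d * a * (d * a) = d * (a * d) * a := by group
        _ = d * (d * a) * a := by rw [e1]
        _ = (d * d) * (a * a) := by group
    rw [key]
    rcases hD.sq d hd with h1 | h1 <;> rcases hA.sq a ha with h2 | h2 <;> rw [h1, h2]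
    · left; exact mul_one 1
    · right; exact one_mul z
    · right; exact mul_one z
    · left; exact hzz
  · intro x hx hcen
    obtain ⟨d, hd, a, ha, rfl⟩ := hmem x hx
    have hd1 : d = 1 ∨ d = z := by
      apply hD.cen d hd
      intro d' hd'
      have h := hcen d' (hDle hd')
      have e1 : a * d' = d' * a := (hDA d' hd' a ha).symm
      have h' : d * d' * a = d' * d * a := by
        calc d * d' * a = d * (d' * a) := by group
          _ = d * (a * d') := by rw [e1]
          _ = d * a * d' := by group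
          _ = d' * (d * a) := h
          _ = d' * d * a := by group
      exact mul_right_cancel h'
    have ha1 : a = 1 ∨ a = z := by
      apply hA.cen a ha
      intro a' ha'
      have h := hcen a' (hAle ha')
      have e1 : d * a' = a' * d := hDA d hd a' ha'
      have h' : d * (a * a') = d * (a' * a) := by
        calc d * (a * a') = d * a * a' := by group
          _ = a' * (d * a) := h
          _ = (a' * d) * a := by group
          _ = (d * a') * a := by rw [e1]
          _ = d * (a' * a) := by group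
      exact mul_left_cancel h'
    rcases hd1 with h1 | h1 <;> rcases ha1 with h2 | h2 <;> rw [h1, h2]
    · left; exact mul_one 1
    · right; exact one_mul z
    · right; exact mul_one z
    · left; exact hzz
  · intro r hr x hx
    obtain ⟨d, hd, a, ha, rfl⟩ := hmem x hx
    have h : r * (d * a) * r⁻¹ = (r * d * r⁻¹) * (r * a * r⁻¹) := by group
    have hza := hzA a ha
    rw [h]
    rcases hDt r hr d hd with h1 | h1 <;> rcases hAt r hr a ha with h2 | h2 <;> rw [h1, h2]
    · left; rfl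
    · right; exact (mul_assoc d a z).symm
    · right
      calc d * z * a = d * (z * a) := by group
        _ = d * (a * z) := by rw [hza]
        _ = d * a * z := by group
    · left
      calc d * z * (a * z) = d * (z * a) * z := by group
        _ = d * (a * z) * z := by rw [hza]
        _ = d * a * (z * z) := by group
        _ = d * a := by rw [hzz, mul_one]

end Cfsg.Agent.Lib.Helper73.HJ
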