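import Mathlib
import Cfsg.Agent.Lib.Helper73.HJDefs

/-!
# Project HJ (S4415), piece Card4A

CARD4A: `A` = the elements of `R` of diagonal shape: a subgroup; by `inj`/`diag`/`shape`/`indep` in bijection with the 8 even sign patterns; squares are 1 and elements commute (by `inj`).
-/

set_option autoImplicit false

namespace Cfsg.Agent.Lib.Helper73.HJ

variable {S : Type*} [Group S] [Finite S] {E : Type*} [AddCommGroup E] [Module (ZMod 3) E]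
  [Finite E]

omit [Finite S] [Finite E] in
/-- diagonal action with the given scalars -/
abbrev hjcard4a_Dg (ρ : Representation (ZMod 3) S E) (e₁ e₂ e₃ e₄ : E) (r : S)
    (t₁ t₂ t₃ t₄ : ZMod 3) : Prop :=
  ρ r e₁ = t₁ • e₁ ∧ ρ r e₂ = t₂ • e₂ ∧ ρ r e₃ = t₃ • e₃ ∧ ρ r e₄ = t₄ • e₄

/-- even sign pattern -/
abbrev hjcard4a_Ev (t₁ t₂ t₃ t₄ : ZMod 3) : Prop :=
  t₁ * t₁ = 1 ∧ t₂ * t₂ = 1 ∧ t₃ * t₃ = 1 ∧ t₄ * t₄ = 1 ∧ t₁ * t₂ * t₃ * t₄ = 1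

/-- the type of even sign patterns -/
abbrev hjcard4a_T : Type :=
  {t : ZMod 3 × ZMod 3 × ZMod 3 × ZMod 3 // hjcard4a_Ev t.1 t.2.1 t.2.2.1 t.2.2.2}

theorem hjcard4a_cardT : Nat.card hjcard4a_T = 8 := by
  rw [Nat.card_eq_fintype_card]
  decide

omit [Finite S] [Finite E] in
theorem hjcard4a_cancel (ρ : Representation (ZMod 3) S E) (R : Subgroup S) (e₁ e₂ e₃ e₄ : E)
    (hM : Mono4 ρ R e₁ e₂ e₃ e₄) (a b : ZMod 3) :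
    (a • e₁ = b • e₁ → a = b) ∧ (a • e₂ = b • e₂ → a = b) ∧ (a • e₃ = b • e₃ → a = b) ∧
      (a • e₄ = b • e₄ → a = b) := by
  refine ⟨fun h => ?_, fun h => ?_, fun h => ?_, fun h => ?_⟩
  · have h3 := hM.indep (a - b) 0 0 0 (by rw [sub_smul, h]; simp)
    exact sub_eq_zero.mp h3.1
  · have h3 := hM.indep 0 (a - b) 0 0 (by rw [sub_smul, h]; simp)
    exact sub_eq_zero.mp h3.2.1
  · have h3 := hM.indep 0 0 (a - b) 0 (by rw [sub_smul, h]; simp)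
    exact sub_eq_zero.mp h3.2.2.1
  · have h3 := hM.indep 0 0 0 (a - b) (by rw [sub_smul, h]; simp)
    exact sub_eq_zero.mp h3.2.2.2

omit [Finite S] [Finite E] in
theorem hjcard4a_mul (ρ : Representation (ZMod 3) S E) (e₁ e₂ e₃ e₄ : E) (r r' : S)
    (t₁ t₂ t₃ t₄ u₁ u₂ u₃ u₄ : ZMod 3)
    (h : hjcard4a_Dg ρ e₁ e₂ e₃ e₄ r t₁ t₂ t₃ t₄)
    (h' : hjcard4a_Dg ρ e₁ e₂ e₃ e₄ r' u₁ u₂ u₃ u₄) :
    hjcard4a_Dg ρ e₁ e₂ e₃ e₄ (r * r') (t₁ * u₁) (t₂ * u₂) (t₃ * u₃) (t₄ * u₄) := by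
  obtain ⟨a1, a2, a3, a4⟩ := h
  obtain ⟨b1, b2, b3, b4⟩ := h'
  have hmul : ∀ (x : E), ρ (r * r') x = ρ r (ρ r' x) := fun x => by rw [map_mul]; rfl
  refine ⟨?_, ?_, ?_, ?_⟩
  · rw [hmul, b1, map_smul, a1, smul_smul, mul_comm]
  · rw [hmul, b2, map_smul, a2, smul_smul, mul_comm]
  · rw [hmul, b3, map_smul, a3, smul_smul, mul_comm]
  · rw [hmul, b4, map_smul, a4, smul_smul, mul_comm]

theorem hjcard4a_ev_mul (t₁ t₂ t₃ t₄ u₁ u₂ u₃ u₄ : ZMod 3) (h : hjcard4a_Ev t₁ t₂ t₃ t₄)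
    (h' : hjcard4a_Ev u₁ u₂ u₃ u₄) : hjcard4a_Ev (t₁ * u₁) (t₂ * u₂) (t₃ * u₃) (t₄ * u₄) := by
  obtain ⟨a1, a2, a3, a4, a5⟩ := h
  obtain ⟨b1, b2, b3, b4, b5⟩ := h'
  refine ⟨?_, ?_, ?_, ?_, ?_⟩
  · linear_combination (u₁ * u₁) * a1 + b1
  · linear_combination (u₂ * u₂) * a2 + b2
  · linear_combination (u₃ * u₃) * a3 + b3
  · linear_combination (u₄ * u₄) * a4 + b4
  · linear_combination (u₁ * u₂ * u₃ * u₄) * a5 + b5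

omit [Finite S] [Finite E] in
theorem hjcard4a_eq (ρ : Representation (ZMod 3) S E) (R : Subgroup S) (e₁ e₂ e₃ e₄ : E)
    (hM : Mono4 ρ R e₁ e₂ e₃ e₄) (r r' : S) (hr : r ∈ R) (hr' : r' ∈ R)
    (t₁ t₂ t₃ t₄ : ZMod 3) (h : hjcard4a_Dg ρ e₁ e₂ e₃ e₄ r t₁ t₂ t₃ t₄)
    (h' : hjcard4a_Dg ρ e₁ e₂ e₃ e₄ r' t₁ t₂ t₃ t₄) : r = r' :=
  hM.inj r hr r' hr' (h.1.trans h'.1.symm) (h.2.1.trans h'.2.1.symm)
    (h.2.2.1.trans h'.2.2.1.symm) (h.2.2.2.trans h'.2.2.2.symm)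

omit [Finite S] [Finite E] in
theorem hjcard4a_norm (ρ : Representation (ZMod 3) S E) (R : Subgroup S) (e₁ e₂ e₃ e₄ : E)
    (hM : Mono4 ρ R e₁ e₂ e₃ e₄) (r : S) (hr : r ∈ R) (s₁ s₂ s₃ s₄ : ZMod 3)
    (h : hjcard4a_Dg ρ e₁ e₂ e₃ e₄ r s₁ s₂ s₃ s₄) :
    ∃ t₁ t₂ t₃ t₄ : ZMod 3, hjcard4a_Ev t₁ t₂ t₃ t₄ ∧ hjcard4a_Dg ρ e₁ e₂ e₃ e₄ r t₁ t₂ t₃ t₄ := by
  obtain ⟨t₁, t₂, t₃, t₄, h1, h2, h3, h4, h5, hsh⟩ := hM.shape r hr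
  rcases hsh with hd | hd | hd | hd
  · exact ⟨t₁, t₂, t₃, t₄, ⟨h1, h2, h3, h4, h5⟩, hd⟩
  · exfalso
    have h6 : s₁ • e₁ = t₁ • e₂ := by rw [← h.1, hd.1]
    have h7 := hM.indep s₁ (-t₁) 0 0 (by rw [h6]; simp)
    have h8 : t₁ = 0 := neg_eq_zero.mp h7.2.1
    rw [h8] at h1
    exact absurd h1 (by decide)
  · exfalso
    have h6 : s₁ • e₁ = t₁ • e₃ := by rw [← h.1, hd.1]
    have h7 := hM.indep s₁ 0 (-t₁) 0 (by rw [h6]; simp)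
    have h8 : t₁ = 0 := neg_eq_zero.mp h7.2.2.1
    rw [h8] at h1
    exact absurd h1 (by decide)
  · exfalso
    have h6 : s₁ • e₁ = t₁ • e₄ := by rw [← h.1, hd.1]
    have h7 := hM.indep s₁ 0 0 (-t₁) (by rw [h6]; simp)
    have h8 : t₁ = 0 := neg_eq_zero.mp h7.2.2.2
    rw [h8] at h1
    exact absurd h1 (by decide)

theorem hj_card4a (ρ : Representation (ZMod 3) S E) (R : Subgroup S) (e₁ e₂ e₃ e₄ : E) (hM : Mono4 ρ R e₁ e₂ e₃ e₄) :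
    ∃ A : Subgroup S, A ≤ R ∧ Cfsg.IsElementaryAbelian 2 A ∧ Nat.card A = 8 ∧
      ∀ r ∈ R, (r ∈ A ↔ ∃ s₁ s₂ s₃ s₄ : ZMod 3, ρ r e₁ = s₁ • e₁ ∧ ρ r e₂ = s₂ • e₂ ∧
        ρ r e₃ = s₃ • e₃ ∧ ρ r e₄ = s₄ • e₄) := by
  classical
  have hone : hjcard4a_Dg ρ e₁ e₂ e₃ e₄ 1 1 1 1 1 := by
    refine ⟨?_, ?_, ?_, ?_⟩ <;> rw [map_one, one_smul] <;> rfl
  have hev1 : hjcard4a_Ev 1 1 1 1 := by decide
  have hsq : ∀ r ∈ R, ∀ t₁ t₂ t₃ t₄ : ZMod 3, hjcard4a_Ev t₁ t₂ t₃ t₄ →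
      hjcard4a_Dg ρ e₁ e₂ e₃ e₄ r t₁ t₂ t₃ t₄ → r * r = 1 := by
    intro r hr t₁ t₂ t₃ t₄ hE hD
    have h3 := hjcard4a_mul ρ e₁ e₂ e₃ e₄ r r _ _ _ _ _ _ _ _ hD hD
    rw [hE.1, hE.2.1, hE.2.2.1, hE.2.2.2.1] at h3
    exact hjcard4a_eq ρ R e₁ e₂ e₃ e₄ hM _ _ (R.mul_mem hr hr) R.one_mem _ _ _ _ h3 hone
  let A : Subgroup S :=
    { carrier := {r | r ∈ R ∧ ∃ t₁ t₂ t₃ t₄ : ZMod 3, hjcard4a_Ev t₁ t₂ t₃ t₄ ∧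
        hjcard4a_Dg ρ e₁ e₂ e₃ e₄ r t₁ t₂ t₃ t₄}
      mul_mem' := by
        rintro a b ⟨ha, t₁, t₂, t₃, t₄, hE, hD⟩ ⟨hb, u₁, u₂, u₃, u₄, hE', hD'⟩
        exact ⟨R.mul_mem ha hb, _, _, _, _, hjcard4a_ev_mul _ _ _ _ _ _ _ _ hE hE',
          hjcard4a_mul ρ e₁ e₂ e₃ e₄ a b _ _ _ _ _ _ _ _ hD hD'⟩
      one_mem' := ⟨R.one_mem, 1, 1, 1, 1, hev1, hone⟩
      inv_mem' := by
        rintro a ⟨ha, t₁, t₂, t₃, t₄, hE, hD⟩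
        have h3 : a⁻¹ = a := inv_eq_of_mul_eq_one_right (hsq a ha _ _ _ _ hE hD)
        rw [h3]
        exact ⟨ha, t₁, t₂, t₃, t₄, hE, hD⟩ }
  refine ⟨A, fun r hr => hr.1, ⟨?_, ?_⟩, ?_, ?_⟩
  · -- commutative
    refine ⟨⟨fun a b => ?_⟩⟩
    obtain ⟨ha, t₁, t₂, t₃, t₄, hE, hD⟩ := a.2
    obtain ⟨hb, u₁, u₂, u₃, u₄, hE', hD'⟩ := b.2
    apply Subtype.ext
    show a.1 * b.1 = b.1 * a.1
    have h3 := hjcard4a_mul ρ e₁ e₂ e₃ e₄ a.1 b.1 _ _ _ _ _ _ _ _ hD hD'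
    have h4 := hjcard4a_mul ρ e₁ e₂ e₃ e₄ b.1 a.1 _ _ _ _ _ _ _ _ hD' hD
    rw [mul_comm u₁, mul_comm u₂, mul_comm u₃, mul_comm u₄] at h4
    exact hjcard4a_eq ρ R e₁ e₂ e₃ e₄ hM _ _ (R.mul_mem ha hb) (R.mul_mem hb ha) _ _ _ _ h3 h4
  · intro a ha
    obtain ⟨haR, t₁, t₂, t₃, t₄, hE, hD⟩ := ha
    rw [pow_two]
    exact hsq a haR _ _ _ _ hE hD
  · -- cardinality
    have hex : ∀ t : hjcard4a_T, ∃ r ∈ R,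
        hjcard4a_Dg ρ e₁ e₂ e₃ e₄ r t.1.1 t.1.2.1 t.1.2.2.1 t.1.2.2.2 := by
      intro t
      obtain ⟨h1, h2, h3, h4, h5⟩ := t.2
      exact hM.diag _ _ _ _ h1 h2 h3 h4 h5
    choose φ hφR hφD using hex
    have hφA : ∀ t : hjcard4a_T, φ t ∈ A := fun t => ⟨hφR t, _, _, _, _, t.2, hφD t⟩
    have hbij : Function.Bijective (fun t : hjcard4a_T => (⟨φ t, hφA t⟩ : A)) := by
      constructor
      · intro t t' htt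
        have h3 : φ t = φ t' := congrArg Subtype.val htt
        have hD := hφD t
        have hD' := hφD t'
        rw [h3] at hD
        have hc := fun a b => hjcard4a_cancel ρ R e₁ e₂ e₃ e₄ hM a b
        apply Subtype.ext
        exact Prod.ext ((hc _ _).1 (hD.1.symm.trans hD'.1))
          (Prod.ext ((hc _ _).2.1 (hD.2.1.symm.trans hD'.2.1))
            (Prod.ext ((hc _ _).2.2.1 (hD.2.2.1.symm.trans hD'.2.2.1))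
              ((hc _ _).2.2.2 (hD.2.2.2.symm.trans hD'.2.2.2))))
      · rintro ⟨a, haR, t₁, t₂, t₃, t₄, hE, hD⟩
        refine ⟨⟨(t₁, t₂, t₃, t₄), hE⟩, ?_⟩
        apply Subtype.ext
        exact hjcard4a_eq ρ R e₁ e₂ e₃ e₄ hM _ _ (hφR _) haR _ _ _ _ (hφD _) hD
    rw [← Nat.card_congr (Equiv.ofBijective _ hbij), hjcard4a_cardT]
  · intro r hr
    constructor
    · rintro ⟨_, t₁, t₂, t₃, t₄, _, hD⟩
      exact ⟨t₁, t₂, t₃, t₄, hD⟩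
    · rintro ⟨s₁, s₂, s₃, s₄, hD⟩
      exact ⟨hr, hjcard4a_norm ρ R e₁ e₂ e₃ e₄ hM r hr s₁ s₂ s₃ s₄ hD⟩

end Cfsg.Agent.Lib.Helper73.HJ
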