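import Mathlib
import Cfsg.Agent.Lib.Helper73.HJDefs
import Cfsg.Agent.Lib.Helper73.HJCard4A

/-!
# Project HJ (S4415), piece Card4

CARD4: with `A` from CARD4A and `p₁ = 1`, `p₂, p₃, p₄` the elements of `perm12/13/14`: `(i, a) ↦ p_i a` is a bijection `Fin 4 × A → R` (the shape of `r` tells `i`; `p_i⁻¹ r` is diagonal).
-/

set_option autoImplicit false

namespace Cfsg.Agent.Lib.Helper73.HJ

variable {S : Type*} [Group S] [Finite S] {E : Type*} [AddCommGroup E] [Module (ZMod 3) E]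
  [Finite E]

/-- abstract counting: `R` is the disjoint union of the four cosets `p i * A` -/
theorem hjcard4_count (ρ : Representation (ZMod 3) S E) (R A : Subgroup S) (e : Fin 4 → E)
    (p : Fin 4 → S) (σ : Fin 4 → Fin 4 → Fin 4) (hli : LinearIndependent (ZMod 3) e)
    (hAR : A ≤ R) (hp : ∀ i, p i ∈ R) (hpe : ∀ i l, ρ (p i) (e l) = e (σ i l))
    (hσ0 : ∀ i, σ i 0 = i)
    (hshape : ∀ r ∈ R, ∃ i, ∃ s : Fin 4 → ZMod 3, ∀ l, ρ r (e l) = s l • e (σ i l))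
    (hA : ∀ r ∈ R, (r ∈ A ↔ ∃ s : Fin 4 → ZMod 3, ∀ l, ρ r (e l) = s l • e l)) :
    Nat.card R = 4 * Nat.card A := by
  have hinv : ∀ (g : S) (v : E), ρ g⁻¹ (ρ g v) = v := by
    intro g v
    rw [← Module.End.mul_apply, ← map_mul, inv_mul_cancel, map_one, Module.End.one_apply]
  have hpair : ∀ (a b : Fin 4) (s t : ZMod 3), s • e a = t • e b → s ≠ 0 → a = b := by
    intro a b s t h hs
    by_contra hab
    have hsum : ∑ k, (Pi.single a s - Pi.single b t : Fin 4 → ZMod 3) k • e k = 0 := by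
      simp only [Pi.sub_apply, sub_smul, Finset.sum_sub_distrib, Pi.single_apply, ite_smul,
        zero_smul, Finset.sum_ite_eq', Finset.mem_univ, if_true]
      rw [h, sub_self]
    have h0 := Fintype.linearIndependent_iff.1 hli _ hsum a
    rw [Pi.sub_apply, Pi.single_eq_same, Pi.single_eq_of_ne hab, sub_zero] at h0
    exact hs h0
  let f : Fin 4 × A → R := fun x => ⟨p x.1 * x.2.1, mul_mem (hp x.1) (hAR x.2.2)⟩
  have hinj : Function.Injective f := by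
    rintro ⟨i, a⟩ ⟨j, a'⟩ h
    have h' : p i * a.1 = p j * a'.1 := congrArg Subtype.val h
    obtain ⟨s, hs⟩ := (hA a.1 (hAR a.2)).1 a.2
    obtain ⟨t, ht⟩ := (hA a'.1 (hAR a'.2)).1 a'.2
    have h1 : ρ (p i * a.1) (e 0) = s 0 • e i := by
      rw [map_mul, Module.End.mul_apply, hs 0, map_smul, hpe, hσ0]
    have h2 : ρ (p j * a'.1) (e 0) = t 0 • e j := by
      rw [map_mul, Module.End.mul_apply, ht 0, map_smul, hpe, hσ0]
    rw [h'] at h1
    have hs0 : s 0 ≠ 0 := by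
      intro h0
      have h3 := hs 0
      rw [h0, zero_smul] at h3
      have h4 := hinv a.1 (e 0)
      rw [h3, map_zero] at h4
      exact hli.ne_zero 0 h4.symm
    have hij : i = j := hpair i j (s 0) (t 0) (h1.symm.trans h2) hs0
    subst hij
    have haa : a.1 = a'.1 := mul_left_cancel h'
    have haa' : a = a' := Subtype.ext haa
    rw [haa']
  have hsurj : Function.Surjective f := by
    rintro ⟨r, hr⟩
    obtain ⟨i, s, hs⟩ := hshape r hr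
    have hmemR : (p i)⁻¹ * r ∈ R := mul_mem (inv_mem (hp i)) hr
    have hmemA : (p i)⁻¹ * r ∈ A := by
      rw [hA _ hmemR]
      refine ⟨s, fun l => ?_⟩
      rw [map_mul, Module.End.mul_apply, hs l, map_smul, ← hpe i l, hinv]
    refine ⟨(i, ⟨(p i)⁻¹ * r, hmemA⟩), ?_⟩
    apply Subtype.ext
    show p i * ((p i)⁻¹ * r) = r
    rw [mul_inv_cancel_left]
  have hbij : Function.Bijective f := ⟨hinj, hsurj⟩
  rw [← Nat.card_congr (Equiv.ofBijective f hbij), Nat.card_prod, Nat.card_fin]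

theorem hj_card4 (ρ : Representation (ZMod 3) S E) (R : Subgroup S) (e₁ e₂ e₃ e₄ : E) (hM : Mono4 ρ R e₁ e₂ e₃ e₄) :
    Nat.card R = 32 := by
  obtain ⟨A, hAR, -, hAcard, hAchar⟩ := hj_card4a ρ R e₁ e₂ e₃ e₄ hM
  obtain ⟨p₂, hp₂, h21, h22, h23, h24⟩ := hM.perm12
  obtain ⟨p₃, hp₃, h31, h33, h32, h34⟩ := hM.perm13
  obtain ⟨p₄, hp₄, h41, h44, h42, h43⟩ := hM.perm14
  have hone : ∀ v : E, ρ 1 v = v := fun v => by rw [map_one, Module.End.one_apply]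
  have hli : LinearIndependent (ZMod 3) ![e₁, e₂, e₃, e₄] := by
    rw [Fintype.linearIndependent_iff]
    intro g hg
    rw [Fin.sum_univ_four] at hg
    obtain ⟨h0, h1, h2, h3⟩ := hM.indep (g 0) (g 1) (g 2) (g 3) hg
    intro i
    fin_cases i
    exacts [h0, h1, h2, h3]
  have hp : ∀ i, (![1, p₂, p₃, p₄] : Fin 4 → S) i ∈ R := by
    intro i
    fin_cases i
    exacts [one_mem _, hp₂, hp₃, hp₄]
  have hpe : ∀ i l, ρ ((![1, p₂, p₃, p₄] : Fin 4 → S) i) ((![e₁, e₂, e₃, e₄] : Fin 4 → E) l)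
      = (![e₁, e₂, e₃, e₄] : Fin 4 → E)
        ((![![0, 1, 2, 3], ![1, 0, 3, 2], ![2, 3, 0, 1], ![3, 2, 1, 0]] :
          Fin 4 → Fin 4 → Fin 4) i l) := by
    intro i l
    fin_cases i <;> fin_cases l
    exacts [hone _, hone _, hone _, hone _, h21, h22, h23, h24, h31, h32, h33, h34,
      h41, h42, h43, h44]
  have hσ0 : ∀ i, (![![0, 1, 2, 3], ![1, 0, 3, 2], ![2, 3, 0, 1], ![3, 2, 1, 0]] :
      Fin 4 → Fin 4 → Fin 4) i 0 = i := by
    intro i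
    fin_cases i <;> rfl
  have hshape : ∀ r ∈ R, ∃ i, ∃ s : Fin 4 → ZMod 3, ∀ l,
      ρ r ((![e₁, e₂, e₃, e₄] : Fin 4 → E) l) = s l • (![e₁, e₂, e₃, e₄] : Fin 4 → E)
        ((![![0, 1, 2, 3], ![1, 0, 3, 2], ![2, 3, 0, 1], ![3, 2, 1, 0]] :
          Fin 4 → Fin 4 → Fin 4) i l) := by
    intro r hr
    obtain ⟨s₁, s₂, s₃, s₄, -, -, -, -, -, h | h | h | h⟩ := hM.shape r hr
    · refine ⟨0, ![s₁, s₂, s₃, s₄], fun l => ?_⟩
      fin_cases l
      exacts [h.1, h.2.1, h.2.2.1, h.2.2.2]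
    · refine ⟨1, ![s₁, s₂, s₃, s₄], fun l => ?_⟩
      fin_cases l
      exacts [h.1, h.2.1, h.2.2.1, h.2.2.2]
    · refine ⟨2, ![s₁, s₂, s₃, s₄], fun l => ?_⟩
      fin_cases l
      exacts [h.1, h.2.2.1, h.2.1, h.2.2.2]
    · refine ⟨3, ![s₁, s₂, s₃, s₄], fun l => ?_⟩
      fin_cases l
      exacts [h.1, h.2.2.1, h.2.2.2, h.2.1]
  have hA' : ∀ r ∈ R, (r ∈ A ↔ ∃ s : Fin 4 → ZMod 3, ∀ l,
      ρ r ((![e₁, e₂, e₃, e₄] : Fin 4 → E) l) = s l • (![e₁, e₂, e₃, e₄] : Fin 4 → E) l) := by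
    intro r hr
    rw [hAchar r hr]
    constructor
    · rintro ⟨s₁, s₂, s₃, s₄, h1, h2, h3, h4⟩
      refine ⟨![s₁, s₂, s₃, s₄], fun l => ?_⟩
      fin_cases l
      exacts [h1, h2, h3, h4]
    · rintro ⟨s, hs⟩
      exact ⟨s 0, s 1, s 2, s 3, hs 0, hs 1, hs 2, hs 3⟩
  have key := hjcard4_count ρ R A ![e₁, e₂, e₃, e₄] ![1, p₂, p₃, p₄]
    ![![0, 1, 2, 3], ![1, 0, 3, 2], ![2, 3, 0, 1], ![3, 2, 1, 0]] hli hAR hp hpe hσ0 hshape hA'
  rw [key, hAcard]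

end Cfsg.Agent.Lib.Helper73.HJ
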