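import Mathlib
import Cfsg.Agent.Lib.Helper73.HJDefs

/-!
# Project HJ (S4415), piece Decomp

DECOMP: coprime action: `E = C_E(X) ⊕ [E, X]` for a 3'-subgroup `X` (averaging operator `|X|⁻¹ Σ ρ x`).
-/

set_option autoImplicit false

namespace Cfsg.Agent.Lib.Helper73.HJ

variable {S : Type*} [Group S] [Finite S] {E : Type*} [AddCommGroup E] [Module (ZMod 3) E]
  [Finite E]

theorem hj_decomp (ρ : Representation (ZMod 3) S E) (X : Subgroup S) (hX : (Nat.card X).Coprime 3) :
    hjFix ρ X ⊓ hjComm ρ X = ⊥ ∧ hjFix ρ X ⊔ hjComm ρ X = ⊤ := by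
  classical
  have : Fintype X := Fintype.ofFinite X
  let T : E →ₗ[ZMod 3] E := ∑ x : X, ρ (x : S)
  have hTapp : ∀ v, T v = ∑ x : X, ρ (x : S) v := by
    intro v
    simp [T, LinearMap.sum_apply]
  have hn : ((Nat.card X : ℕ) : ZMod 3) ≠ 0 := by
    intro h
    rw [ZMod.natCast_eq_zero_iff] at h
    have h1 := Nat.Coprime.eq_one_of_dvd hX.symm h
    omega
  have hcard : Nat.card X = Fintype.card X := Nat.card_eq_fintype_card
  have hb : ∀ v ∈ hjFix ρ X, T v = ((Nat.card X : ℕ) : ZMod 3) • v := by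
    intro v hv
    rw [hTapp]
    have h1 : ∀ x : X, ρ (x : S) v = v := fun x => hv x x.2
    simp only [h1]
    rw [Finset.sum_const, Finset.card_univ, hcard, Nat.cast_smul_eq_nsmul]
  have hc : ∀ w ∈ hjComm ρ X, T w = 0 := by
    intro w hw
    have hle : hjComm ρ X ≤ LinearMap.ker T := by
      apply Submodule.span_le.2
      rintro w ⟨x, hx, v, rfl⟩
      show T (ρ x v - v) = 0
      rw [map_sub, hTapp, hTapp, sub_eq_zero]
      have h1 : ∀ y : X, ρ (y : S) (ρ x v) = ρ ((y * ⟨x, hx⟩ : X) : S) v := by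
        intro y
        rw [Subgroup.coe_mul, map_mul, Module.End.mul_apply]
      simp only [h1]
      exact Fintype.sum_bijective (fun y : X => y * ⟨x, hx⟩) (Group.mulRight_bijective _) _ _
        (fun y => rfl)
    exact LinearMap.mem_ker.1 (hle hw)
  have ha : ∀ v, T v ∈ hjFix ρ X := by
    intro v
    rw [mem_hjFix]
    intro y hy
    rw [hTapp, map_sum]
    have h1 : ∀ x : X, ρ y (ρ (x : S) v) = ρ ((⟨y, hy⟩ * x : X) : S) v := by
      intro x
      rw [Subgroup.coe_mul, map_mul, Module.End.mul_apply]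
    simp only [h1]
    exact Fintype.sum_bijective (fun x : X => ⟨y, hy⟩ * x) (Group.mulLeft_bijective _) _ _
      (fun x => rfl)
  have hd : ∀ v, ((Nat.card X : ℕ) : ZMod 3) • v - T v ∈ hjComm ρ X := by
    intro v
    have h1 : ((Nat.card X : ℕ) : ZMod 3) • v - T v = ∑ x : X, (v - ρ (x : S) v) := by
      rw [Finset.sum_sub_distrib, Finset.sum_const, Finset.card_univ, ← hTapp, hcard,
        Nat.cast_smul_eq_nsmul]
    rw [h1]
    apply Submodule.sum_mem
    intro x _
    have h2 : v - ρ (x : S) v = -(ρ (x : S) v - v) := by abel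
    rw [h2]
    exact Submodule.neg_mem _ (Submodule.subset_span ⟨x, x.2, v, rfl⟩)
  constructor
  · rw [eq_bot_iff]
    rintro v ⟨hv1, hv2⟩
    have h1 := hb v hv1
    rw [hc v hv2] at h1
    rcases smul_eq_zero.1 h1.symm with h | h
    · exact absurd h hn
    · exact (Submodule.mem_bot _).2 h
  · rw [eq_top_iff]
    intro v _
    have h1 : ((Nat.card X : ℕ) : ZMod 3) • v ∈ hjFix ρ X ⊔ hjComm ρ X := by
      have h2 : ((Nat.card X : ℕ) : ZMod 3) • v
          = T v + (((Nat.card X : ℕ) : ZMod 3) • v - T v) := by abel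
      rw [h2]
      exact Submodule.add_mem _ (Submodule.mem_sup_left (ha v)) (Submodule.mem_sup_right (hd v))
    have h3 := Submodule.smul_mem _ (((Nat.card X : ℕ) : ZMod 3)⁻¹) h1
    rwa [smul_smul, inv_mul_cancel₀ hn, one_smul] at h3

end Cfsg.Agent.Lib.Helper73.HJ
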