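import Mathlib
import Cfsg.Agent.Lib.Helper73.HJDefs

/-!
# Project HJ (S4415), piece FFNe

FFNE: nondegeneracy facts of the frame.
-/

set_option autoImplicit false

namespace Cfsg.Agent.Lib.Helper73.HJ

variable {S : Type*} [Group S] [Finite S] {E : Type*} [AddCommGroup E] [Module (ZMod 3) E]
  [Finite E]

theorem hjffne_aux {E : Type*} [AddCommGroup E] [Module (ZMod 3) E] (v : E) (h : v = -v) : v = 0 := by
  have h2 : (2 : ZMod 3) • v = 0 := by
    rw [two_smul]
    nth_rewrite 2 [h]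
    exact add_neg_cancel v
  have h4 : ((2 : ZMod 3) * 2) • v = 0 := by rw [mul_smul, h2, smul_zero]
  have h1 : ((2 : ZMod 3) * 2) = 1 := by decide
  rw [h1, one_smul] at h4
  exact h4

theorem hj_ff_ne (ρ : Representation (ZMod 3) S E) (Q : Subgroup S) (b : S) (q₁ q₂ q₃ : S) (e₁ e₂ e₃ : E) (hF : Frame ρ Q b q₁ q₂ q₃ e₁ e₂ e₃) :
    e₂ ≠ 0 ∧ e₃ ≠ 0 ∧ q₁ ≠ 1 ∧ q₂ ≠ 1 ∧ q₃ ≠ 1 ∧ q₁ ≠ q₂ ∧ q₁ ≠ q₃ ∧ q₂ ≠ q₃ ∧
    e₁ ≠ e₂ ∧ e₁ ≠ e₃ ∧ e₂ ≠ e₃ := by
  have he1 : e₁ ≠ 0 := hF.e0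
  have he3 : e₃ ≠ 0 := by
    intro h
    apply he1
    rw [← hF.be3, h, map_zero]
  have he2 : e₂ ≠ 0 := by
    intro h
    apply he3
    rw [← hF.be2, h, map_zero]
  refine ⟨he2, he3, ?_, ?_, ?_, ?_, ?_, ?_, ?_, ?_, ?_⟩
  · intro h
    apply he2
    apply hjffne_aux
    have h1 := hF.q12
    rw [h, map_one, Module.End.one_apply] at h1
    exact h1
  · intro h
    apply he1
    apply hjffne_aux
    have h1 := hF.q21
    rw [h, map_one, Module.End.one_apply] at h1
    exact h1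
  · intro h
    apply he1
    apply hjffne_aux
    have h1 := hF.q31
    rw [h, map_one, Module.End.one_apply] at h1
    exact h1
  · intro h
    apply he1
    apply hjffne_aux
    have h1 := hF.q11
    rw [h, hF.q21] at h1
    exact h1.symm
  · intro h
    apply he1
    apply hjffne_aux
    have h1 := hF.q11
    rw [h, hF.q31] at h1
    exact h1.symm
  · intro h
    apply he2
    apply hjffne_aux
    have h1 := hF.q22
    rw [h, hF.q32] at h1
    exact h1.symm
  · intro h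
    apply he1
    apply hjffne_aux
    have h1 := hF.q12
    rw [← h, hF.q11] at h1
    exact h1
  · intro h
    apply he1
    apply hjffne_aux
    have h1 := hF.q13
    rw [← h, hF.q11] at h1
    exact h1
  · intro h
    apply he2
    apply hjffne_aux
    have h1 := hF.q23
    rw [← h, hF.q22] at h1
    exact h1

end Cfsg.Agent.Lib.Helper73.HJ
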