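import Mathlib
import Cfsg.Agent.Lib.Helper73.HJDefs

/-!
# Project HJ (S4415), piece Split

SPLIT: `N = ρ b - 1` has rank 2 (range of order 9), `N^3 = 0` (char 3, `b^3 = 1`), `N^2 ≠ 0`. If `E = M₁ ⊕ M₂` with both `b`-invariant, then `b` is trivial on one of them. (Else `N M₁`, `N M₂` are both lines `{0,u,-u}`; `N u = c u`, nilpotent gives `c = 0`; so `N^2 = 0`.)
-/

set_option autoImplicit false

namespace Cfsg.Agent.Lib.Helper73.HJ

variable {S : Type*} [Group S] [Finite S] {E : Type*} [AddCommGroup E] [Module (ZMod 3) E]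
  [Finite E]

theorem hj_split (ρ : Representation (ZMod 3) S E) (b : S) (hb3 : b ^ 3 = 1)
    (hrank : Nat.card (LinearMap.range (ρ b - 1)) = 9) (hsq : ∃ v : E, (ρ b - 1) ((ρ b - 1) v) ≠ 0)
    (M₁ M₂ : Submodule (ZMod 3) E) (hinf : M₁ ⊓ M₂ = ⊥) (hsup : M₁ ⊔ M₂ = ⊤)
    (h1 : ∀ v ∈ M₁, ρ b v ∈ M₁) (h2 : ∀ v ∈ M₂, ρ b v ∈ M₂) :
    (∀ v ∈ M₁, ρ b v = v) ∨ (∀ v ∈ M₂, ρ b v = v) := by
  by_contra hcon
  rw [not_or] at hcon
  obtain ⟨hc1, hc2⟩ := hcon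
  have ex1 : ∃ v₁ ∈ M₁, ρ b v₁ ≠ v₁ := by
    by_contra h
    exact hc1 (fun v hv => by
      by_contra h'
      exact h ⟨v, hv, h'⟩)
  have ex2 : ∃ v₂ ∈ M₂, ρ b v₂ ≠ v₂ := by
    by_contra h
    exact hc2 (fun v hv => by
      by_contra h'
      exact h ⟨v, hv, h'⟩)
  obtain ⟨v₁, hv₁, hne₁⟩ := ex1
  obtain ⟨v₂, hv₂, hne₂⟩ := ex2
  obtain ⟨N, hN⟩ : ∃ N : E →ₗ[ZMod 3] E, N = ρ b - 1 := ⟨_, rfl⟩
  rw [← hN] at hrank hsq
  have hNv : ∀ v, N v = ρ b v - v := fun v => by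
    rw [hN, LinearMap.sub_apply, Module.End.one_apply]
  have hNM1 : ∀ v ∈ M₁, N v ∈ M₁ := fun v hv => by
    rw [hNv]
    exact M₁.sub_mem (h1 v hv) hv
  have hNM2 : ∀ v ∈ M₂, N v ∈ M₂ := fun v hv => by
    rw [hNv]
    exact M₂.sub_mem (h2 v hv) hv
  have hu1 : N v₁ ≠ 0 := by
    rw [hNv]
    exact sub_ne_zero.mpr hne₁
  have hu2 : N v₂ ≠ 0 := by
    rw [hNv]
    exact sub_ne_zero.mpr hne₂
  have h3 : ∀ w : E, w + w + w = 0 := by
    intro w
    have h0 : ((1 : ZMod 3) + 1 + 1) • w = 0 := by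
      have : ((1 : ZMod 3) + 1 + 1) = 0 := by decide
      rw [this, zero_smul]
    rw [add_smul, add_smul, one_smul] at h0
    exact h0
  have hx3 : ∀ v, ρ b (ρ b (ρ b v)) = v := by
    intro v
    have e : ρ (b ^ 3) = ρ b * ρ b * ρ b := by
      rw [pow_succ, pow_two, map_mul, map_mul]
    have h' := congrArg (fun f : E →ₗ[ZMod 3] E => f v) e
    rw [hb3, map_one] at h'
    simp only [Module.End.mul_apply, Module.End.one_apply] at h'
    exact h'.symm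
  have hN3 : ∀ v, N (N (N v)) = 0 := by
    intro v
    simp only [hNv, map_sub]
    rw [hx3]
    have h0 := h3 (ρ b v - ρ b (ρ b v))
    rw [← h0]
    abel
  have hinf0 : ∀ x, x ∈ M₁ → x ∈ M₂ → x = 0 := fun x hx1 hx2 => by
    have hx : x ∈ M₁ ⊓ M₂ := ⟨hx1, hx2⟩
    rw [hinf] at hx
    exact (Submodule.mem_bot _).mp hx
  -- the parametrisation of `range N`
  let φ : ZMod 3 × ZMod 3 → ↥(LinearMap.range N) := fun p =>
    ⟨p.1 • N v₁ + p.2 • N v₂, ⟨p.1 • v₁ + p.2 • v₂, by rw [map_add, map_smul, map_smul]⟩⟩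
  have hφ : Function.Injective φ := by
    rintro ⟨a, c⟩ ⟨a', c'⟩ h
    have h' : a • N v₁ + c • N v₂ = a' • N v₁ + c' • N v₂ := congrArg Subtype.val h
    have e : (a - a') • N v₁ = (c' - c) • N v₂ := by
      rw [sub_smul, sub_smul, sub_eq_sub_iff_add_eq_add, h', add_comm]
    have e1 : (a - a') • N v₁ = 0 :=
      hinf0 _ (M₁.smul_mem _ (hNM1 v₁ hv₁)) (by rw [e]; exact M₂.smul_mem _ (hNM2 v₂ hv₂))
    have e2 : (c' - c) • N v₂ = 0 := by rw [← e]; exact e1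
    have ha : a - a' = 0 := (smul_eq_zero.mp e1).resolve_right hu1
    have hc' : c' - c = 0 := (smul_eq_zero.mp e2).resolve_right hu2
    rw [sub_eq_zero] at ha hc'
    rw [ha, hc']
  have hbij : Function.Bijective φ := hφ.bijective_of_nat_card_le (by
    rw [hrank, Nat.card_prod, Nat.card_zmod])
  have hrep : ∀ y ∈ LinearMap.range N, ∃ a c : ZMod 3, y = a • N v₁ + c • N v₂ := by
    intro y hy
    obtain ⟨⟨a, c⟩, hac⟩ := hbij.2 ⟨y, hy⟩
    exact ⟨a, c, (congrArg Subtype.val hac).symm⟩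
  -- `N` kills `N v₁` and `N v₂`
  have hk1 : N (N v₁) = 0 := by
    obtain ⟨a, c, hac⟩ := hrep (N (N v₁)) ⟨N v₁, rfl⟩
    have hc0 : c • N v₂ = 0 := by
      apply hinf0
      · have : c • N v₂ = N (N v₁) - a • N v₁ := by rw [hac]; abel
        rw [this]
        exact M₁.sub_mem (hNM1 _ (hNM1 v₁ hv₁)) (M₁.smul_mem _ (hNM1 v₁ hv₁))
      · exact M₂.smul_mem _ (hNM2 v₂ hv₂)
    rw [hc0, add_zero] at hac
    have h4 := hN3 v₁
    rw [hac, map_smul, hac, smul_smul] at h4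
    have ha : a * a = 0 := (smul_eq_zero.mp h4).resolve_right hu1
    have ha0 : a = 0 := mul_self_eq_zero.mp ha
    rw [hac, ha0, zero_smul]
  have hk2 : N (N v₂) = 0 := by
    obtain ⟨a, c, hac⟩ := hrep (N (N v₂)) ⟨N v₂, rfl⟩
    have ha0 : a • N v₁ = 0 := by
      apply hinf0
      · exact M₁.smul_mem _ (hNM1 v₁ hv₁)
      · have : a • N v₁ = N (N v₂) - c • N v₂ := by rw [hac]; abel
        rw [this]
        exact M₂.sub_mem (hNM2 _ (hNM2 v₂ hv₂)) (M₂.smul_mem _ (hNM2 v₂ hv₂))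
    rw [ha0, zero_add] at hac
    have h4 := hN3 v₂
    rw [hac, map_smul, hac, smul_smul] at h4
    have hc : c * c = 0 := (smul_eq_zero.mp h4).resolve_right hu2
    have hc0 : c = 0 := mul_self_eq_zero.mp hc
    rw [hac, hc0, zero_smul]
  obtain ⟨v, hv⟩ := hsq
  apply hv
  obtain ⟨a, c, hac⟩ := hrep (N v) ⟨v, rfl⟩
  rw [hac, map_add, map_smul, map_smul, hk1, hk2, smul_zero, smul_zero, add_zero]

end Cfsg.Agent.Lib.Helper73.HJ
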