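import Mathlib
import Cfsg.Agent.Lib.Helper73.HJDefs
import Cfsg.Agent.Lib.Helper73.HJSplit
import Cfsg.Agent.Lib.Helper73.HJDecomp
import Cfsg.Agent.Lib.Helper73.HJFFNe

/-!
# Project HJ (S4415), piece CentralFix

CENTRALFIX: `c ∈ Z(R)`, `b`-fixed, fixing `e₁` (hence `e₂ = b e₁`, `e₃`). `X = ⟨c⟩`: `C_E(X)` contains `e₁, e₂` so `b` is not trivial on it; by DECOMP + SPLIT `b` is trivial on `[E,X]`, which is `R`-invariant (`c` central), so each `r b r⁻¹ b⁻¹`, hence `R`, hence `c`, is trivial on `[E,X]`; so `ρ c = 1`.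
-/

set_option autoImplicit false

namespace Cfsg.Agent.Lib.Helper73.HJ

variable {S : Type*} [Group S] [Finite S] {E : Type*} [AddCommGroup E] [Module (ZMod 3) E]
  [Finite E]

/-- the pointwise stabilizer of a set of vectors -/
def hjcentralfix_stab (ρ : Representation (ZMod 3) S E) (M : Set E) : Subgroup S where
  carrier := {g | ∀ w ∈ M, ρ g w = w}
  mul_mem' := by
    intro g h hg hh w hw
    rw [map_mul, Module.End.mul_apply, hh w hw, hg w hw]
  one_mem' := by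
    intro w _
    rw [map_one, Module.End.one_apply]
  inv_mem' := by
    intro g hg w hw
    have h1 : ρ g⁻¹ (ρ g w) = w := by
      rw [← Module.End.mul_apply, ← map_mul, inv_mul_cancel, map_one, Module.End.one_apply]
    rw [hg w hw] at h1
    exact h1

theorem hjcentralfix_mem_stab (ρ : Representation (ZMod 3) S E) (M : Set E) (g : S) :
    g ∈ hjcentralfix_stab ρ M ↔ ∀ w ∈ M, ρ g w = w := Iff.rfl

theorem hj_central_fix (ρ : Representation (ZMod 3) S E) (R Q : Subgroup S) (b : S) (hB : Base ρ R b) (hQR : Q ≤ R) (hQ : QType Q b) (q₁ q₂ q₃ : S) (e₁ e₂ e₃ : E) (hF : Frame ρ Q b q₁ q₂ q₃ e₁ e₂ e₃)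
    (c : S) (hc : c ∈ R) (hbc : b * c * b⁻¹ = c) (hcen : ∀ r ∈ R, r * c = c * r)
    (h1 : ρ c e₁ = e₁) : c = 1 := by
  obtain ⟨X, hXdef⟩ : ∃ X : Subgroup S, X = Subgroup.zpowers c := ⟨_, rfl⟩
  have hXR : X ≤ R := by
    rw [hXdef, Subgroup.zpowers_le]
    exact hc
  have hcX : c ∈ X := by
    rw [hXdef]
    exact Subgroup.mem_zpowers c
  have hXcop : (Nat.card X).Coprime 3 :=
    Nat.Coprime.coprime_dvd_left (Subgroup.card_dvd_of_le hXR) hB.cop
  have hXb : ∀ x ∈ X, b * x = x * b := by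
    intro x hx
    rw [hXdef] at hx
    obtain ⟨k, rfl⟩ := Subgroup.mem_zpowers_iff.mp hx
    have hbc' : Commute b c := by
      show b * c = c * b
      calc b * c = (b * c * b⁻¹) * b := by group
        _ = c * b := by rw [hbc]
    exact (hbc'.zpow_right k).eq
  have hXr : ∀ x ∈ X, ∀ r ∈ R, r * x = x * r := by
    intro x hx r hr
    rw [hXdef] at hx
    obtain ⟨k, rfl⟩ := Subgroup.mem_zpowers_iff.mp hx
    have h' : Commute r c := hcen r hr
    exact (h'.zpow_right k).eq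
  obtain ⟨hinf, hsup⟩ := hj_decomp ρ X hXcop
  have hρmul : ∀ (x y : S) (v : E), ρ (x * y) v = ρ x (ρ y v) := by
    intro x y v
    rw [map_mul, Module.End.mul_apply]
  have hFb : ∀ v ∈ hjFix ρ X, ρ b v ∈ hjFix ρ X := by
    intro v hv
    rw [mem_hjFix] at hv ⊢
    intro x hx
    rw [← hρmul, ← hXb x hx, hρmul, hv x hx]
  have hCinv : ∀ r : S, (∀ x ∈ X, r * x = x * r) →
      ∀ w ∈ hjComm ρ X, ρ r w ∈ hjComm ρ X := by
    intro r hr w hw
    have hle : hjComm ρ X ≤ (hjComm ρ X).comap (ρ r) := by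
      unfold hjComm
      rw [Submodule.span_le]
      rintro _ ⟨x, hx, v, rfl⟩
      show ρ r (ρ x v - v) ∈ Submodule.span (ZMod 3) {w | ∃ x ∈ X, ∃ v : E, w = ρ x v - v}
      rw [map_sub, ← hρmul, hr x hx, hρmul]
      exact Submodule.subset_span ⟨x, hx, ρ r v, rfl⟩
    exact hle hw
  have hCb : ∀ w ∈ hjComm ρ X, ρ b w ∈ hjComm ρ X := hCinv b hXb
  have hCR : ∀ r ∈ R, ∀ w ∈ hjComm ρ X, ρ r w ∈ hjComm ρ X :=
    fun r hr => hCinv r (fun x hx => hXr x hx r hr)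
  obtain ⟨-, -, -, -, -, -, -, -, he12, -, -⟩ := hj_ff_ne ρ Q b q₁ q₂ q₃ e₁ e₂ e₃ hF
  have he1X : e₁ ∈ hjFix ρ X := by
    rw [mem_hjFix]
    intro x hx
    have hle : X ≤ hjcentralfix_stab ρ {e₁} := by
      rw [hXdef, Subgroup.zpowers_le, hjcentralfix_mem_stab]
      intro w hw
      rw [Set.mem_singleton_iff] at hw
      rw [hw]
      exact h1
    exact (hjcentralfix_mem_stab ρ {e₁} x).mp (hle hx) e₁ rfl
  have hbM : ∀ w ∈ hjComm ρ X, ρ b w = w := by
    rcases hj_split ρ b hB.b3 hB.rank hB.sq (hjFix ρ X) (hjComm ρ X) hinf hsup hFb hCb with h | h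
    · exact absurd ((h e₁ he1X).symm.trans hF.be1) he12
    · exact h
  have hRle : Subgroup.closure {g | ∃ r ∈ R, g = r * b * r⁻¹ * b⁻¹} ≤
      hjcentralfix_stab ρ (hjComm ρ X : Set E) := by
    rw [Subgroup.closure_le]
    rintro g ⟨r, hr, rfl⟩
    show r * b * r⁻¹ * b⁻¹ ∈ hjcentralfix_stab ρ (hjComm ρ X : Set E)
    rw [hjcentralfix_mem_stab]
    intro w hw
    have e1 : ρ b⁻¹ w = w := by
      have h0 := hρmul b⁻¹ b w
      rw [inv_mul_cancel, map_one, Module.End.one_apply, hbM w hw] at h0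
      exact h0.symm
    have e2 : ρ r⁻¹ w ∈ hjComm ρ X := hCR r⁻¹ (R.inv_mem hr) w hw
    have e3 : ρ r (ρ r⁻¹ w) = w := by
      rw [← hρmul, mul_inv_cancel, map_one, Module.End.one_apply]
    rw [hρmul, hρmul, hρmul, e1, hbM _ e2, e3]
  have hc' : c ∈ Subgroup.closure {g | ∃ r ∈ R, g = r * b * r⁻¹ * b⁻¹} := by
    rw [← hB.gen]
    exact hc
  have hcM : ∀ w ∈ (hjComm ρ X : Set E), ρ c w = w :=
    (hjcentralfix_mem_stab ρ _ c).mp (hRle hc')
  have hcF : ∀ f ∈ hjFix ρ X, ρ c f = f := fun f hf => hf c hcX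
  apply hB.faith
  rw [map_one]
  apply LinearMap.ext
  intro v
  rw [Module.End.one_apply]
  have hv : v ∈ hjFix ρ X ⊔ hjComm ρ X := by
    rw [hsup]
    exact Submodule.mem_top
  obtain ⟨f, hf, m, hm, rfl⟩ := Submodule.mem_sup.mp hv
  rw [map_add, hcF f hf, hcM m hm]

end Cfsg.Agent.Lib.Helper73.HJ
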