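import Mathlib
import Cfsg.Agent.Lib.Helper73.HJDefs

/-!
# Project HJ (S4415), piece FFIndep

FFINDEP: apply `ρ q₁, ρ q₂, ρ q₃` to the relation and add.
-/

set_option autoImplicit false

namespace Cfsg.Agent.Lib.Helper73.HJ

variable {S : Type*} [Group S] [Finite S] {E : Type*} [AddCommGroup E] [Module (ZMod 3) E]
  [Finite E]

theorem hj_ff_indep (ρ : Representation (ZMod 3) S E) (Q : Subgroup S) (b : S) (q₁ q₂ q₃ : S) (e₁ e₂ e₃ : E) (hF : Frame ρ Q b q₁ q₂ q₃ e₁ e₂ e₃)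
    (f : E) (hf : f ∈ hjFix ρ Q) (c₁ c₂ c₃ : ZMod 3) (h : f + c₁ • e₁ + c₂ • e₂ + c₃ • e₃ = 0) :
    f = 0 ∧ c₁ = 0 ∧ c₂ = 0 ∧ c₃ = 0 := by
  have hf1 : ρ q₁ f = f := hf q₁ hF.m1
  have hf2 : ρ q₂ f = f := hf q₂ hF.m2
  have hf3 : ρ q₃ f = f := hf q₃ hF.m3
  have h1 := congrArg (ρ q₁) h
  simp only [map_add, map_smul, map_zero, hF.q11, hF.q12, hF.q13, hf1] at h1
  have h2 := congrArg (ρ q₂) h
  simp only [map_add, map_smul, map_zero, hF.q21, hF.q22, hF.q23, hf2] at h2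
  have h3 := congrArg (ρ q₃) h
  simp only [map_add, map_smul, map_zero, hF.q31, hF.q32, hF.q33, hf3] at h3
  have h41 : (4 : ZMod 3) = 1 := by decide
  have hf0 : f = 0 := by
    have h4 : (4 : ZMod 3) • f = 0 := by
      linear_combination (norm := module) h + h1 + h2 + h3
    rwa [h41, one_smul] at h4
  have e2 : e₂ ≠ 0 := by
    intro h0
    have h5 := hF.be2
    rw [h0, map_zero] at h5
    have h6 := hF.be3
    rw [← h5, map_zero] at h6
    exact hF.e0 h6.symm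
  have e3 : e₃ ≠ 0 := by
    intro h0
    have h6 := hF.be3
    rw [h0, map_zero] at h6
    exact hF.e0 h6.symm
  have hz : ∀ c : ZMod 3, 2 * c = 0 → c = 0 := by decide
  have hc1 : (2 * c₁) • e₁ = 0 := by
    linear_combination (norm := module) h + h1 - (2 : ZMod 3) • hf0
  have hc2 : (2 * c₂) • e₂ = 0 := by
    linear_combination (norm := module) h + h2 - (2 : ZMod 3) • hf0
  have hc3 : (2 * c₃) • e₃ = 0 := by
    linear_combination (norm := module) h + h3 - (2 : ZMod 3) • hf0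
  exact ⟨hf0, hz _ ((smul_eq_zero.1 hc1).resolve_right hF.e0),
    hz _ ((smul_eq_zero.1 hc2).resolve_right e2), hz _ ((smul_eq_zero.1 hc3).resolve_right e3)⟩

end Cfsg.Agent.Lib.Helper73.HJ
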