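import Mathlib
import Cfsg.Agent.Lib.Helper73.HJDefs
import Cfsg.Agent.Lib.Helper73.HJFFIndep

/-!
# Project HJ (S4415), piece FFLines

FFLINES: the three nontrivial weight spaces of `Q` are the lines spanned by `e₁, e₂, e₃` (use `dec` and FFINDEP).
-/

set_option autoImplicit false

namespace Cfsg.Agent.Lib.Helper73.HJ

variable {S : Type*} [Group S] [Finite S] {E : Type*} [AddCommGroup E] [Module (ZMod 3) E]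
  [Finite E]

theorem hjfflines_aux (ρ : Representation (ZMod 3) S E) (Q : Subgroup S) (b : S) (q₁ q₂ q₃ : S)
    (e₁ e₂ e₃ : E) (hF : Frame ρ Q b q₁ q₂ q₃ e₁ e₂ e₃) (v : E) (s₁ s₂ : ZMod 3)
    (h1 : ρ q₁ v = s₁ • v) (h2 : ρ q₂ v = s₂ • v) :
    ∃ f ∈ hjFix ρ Q, ∃ c₁ c₂ c₃ : ZMod 3, v = f + c₁ • e₁ + c₂ • e₂ + c₃ • e₃ ∧
      (1 - s₁) • f = 0 ∧ (1 - s₁) * c₁ = 0 ∧ (1 + s₁) * c₂ = 0 ∧ (1 + s₁) * c₃ = 0 ∧
      (1 - s₂) • f = 0 ∧ (1 + s₂) * c₁ = 0 ∧ (1 - s₂) * c₂ = 0 ∧ (1 + s₂) * c₃ = 0 := by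
  obtain ⟨f, hf, c₁, c₂, c₃, hv⟩ := hF.dec v
  refine ⟨f, hf, c₁, c₂, c₃, hv, ?_⟩
  have a1 : ρ q₁ v = f + c₁ • e₁ + (-c₂) • e₂ + (-c₃) • e₃ := by
    rw [hv, map_add, map_add, map_add, map_smul, map_smul, map_smul, hF.q11, hF.q12, hF.q13,
      hf q₁ hF.m1, smul_neg, smul_neg, neg_smul, neg_smul]
  have a2 : ρ q₂ v = f + (-c₁) • e₁ + c₂ • e₂ + (-c₃) • e₃ := by
    rw [hv, map_add, map_add, map_add, map_smul, map_smul, map_smul, hF.q21, hF.q22, hF.q23,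
      hf q₂ hF.m2, smul_neg, smul_neg, neg_smul, neg_smul]
  have e1 : f + c₁ • e₁ + (-c₂) • e₂ + (-c₃) • e₃ = s₁ • (f + c₁ • e₁ + c₂ • e₂ + c₃ • e₃) := by
    rw [← a1, h1, ← hv]
  have e2 : f + (-c₁) • e₁ + c₂ • e₂ + (-c₃) • e₃ = s₂ • (f + c₁ • e₁ + c₂ • e₂ + c₃ • e₃) := by
    rw [← a2, h2, ← hv]
  have r1 : (1 - s₁) • f + ((1 - s₁) * c₁) • e₁ + (-((1 + s₁) * c₂)) • e₂ +
      (-((1 + s₁) * c₃)) • e₃ = 0 := by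
    have h3 : (1 - s₁) • f + ((1 - s₁) * c₁) • e₁ + (-((1 + s₁) * c₂)) • e₂ +
        (-((1 + s₁) * c₃)) • e₃ =
        (f + c₁ • e₁ + (-c₂) • e₂ + (-c₃) • e₃) - s₁ • (f + c₁ • e₁ + c₂ • e₂ + c₃ • e₃) := by
      module
    rw [h3, e1, sub_self]
  have r2 : (1 - s₂) • f + (-((1 + s₂) * c₁)) • e₁ + ((1 - s₂) * c₂) • e₂ +
      (-((1 + s₂) * c₃)) • e₃ = 0 := by
    have h3 : (1 - s₂) • f + (-((1 + s₂) * c₁)) • e₁ + ((1 - s₂) * c₂) • e₂ +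
        (-((1 + s₂) * c₃)) • e₃ =
        (f + (-c₁) • e₁ + c₂ • e₂ + (-c₃) • e₃) - s₂ • (f + c₁ • e₁ + c₂ • e₂ + c₃ • e₃) := by
      module
    rw [h3, e2, sub_self]
  obtain ⟨i1, i2, i3, i4⟩ := hj_ff_indep ρ Q b q₁ q₂ q₃ e₁ e₂ e₃ hF ((1 - s₁) • f)
    (Submodule.smul_mem _ _ hf) _ _ _ r1
  obtain ⟨j1, j2, j3, j4⟩ := hj_ff_indep ρ Q b q₁ q₂ q₃ e₁ e₂ e₃ hF ((1 - s₂) • f)
    (Submodule.smul_mem _ _ hf) _ _ _ r2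
  exact ⟨i1, i2, neg_eq_zero.mp i3, neg_eq_zero.mp i4, j1, neg_eq_zero.mp j2, j3,
    neg_eq_zero.mp j4⟩

theorem hjfflines_two (f : E) (h : (1 - (-1) : ZMod 3) • f = 0) : f = 0 := by
  have h2 : ((1 - (-1)) * (1 - (-1)) : ZMod 3) = 1 := by decide
  calc f = ((1 - (-1)) * (1 - (-1)) : ZMod 3) • f := by rw [h2, one_smul]
    _ = 0 := by rw [mul_smul, h, smul_zero]

theorem hjfflines_c1 : ∀ c : ZMod 3, (1 + 1) * c = 0 → c = 0 := by decide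

theorem hjfflines_c2 : ∀ c : ZMod 3, (1 - (-1)) * c = 0 → c = 0 := by decide

theorem hj_ff_lines (ρ : Representation (ZMod 3) S E) (Q : Subgroup S) (b : S) (q₁ q₂ q₃ : S) (e₁ e₂ e₃ : E) (hF : Frame ρ Q b q₁ q₂ q₃ e₁ e₂ e₃) :
    (∀ v, ρ q₁ v = v → ρ q₂ v = -v → ∃ c : ZMod 3, v = c • e₁) ∧
    (∀ v, ρ q₁ v = -v → ρ q₂ v = v → ∃ c : ZMod 3, v = c • e₂) ∧
    (∀ v, ρ q₁ v = -v → ρ q₂ v = -v → ∃ c : ZMod 3, v = c • e₃) ∧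
    (∀ v, ρ q₁ v = v → ρ q₂ v = v → v ∈ hjFix ρ Q) := by
  refine ⟨?_, ?_, ?_, ?_⟩
  · intro v h1 h2
    obtain ⟨f, hf, c₁, c₂, c₃, hv, A1, A2, A3, A4, B1, B2, B3, B4⟩ :=
      hjfflines_aux ρ Q b q₁ q₂ q₃ e₁ e₂ e₃ hF v 1 (-1) (by rw [one_smul]; exact h1)
        (by rw [neg_one_smul]; exact h2)
    have hf0 := hjfflines_two f B1
    have hc2 := hjfflines_c1 c₂ A3
    have hc3 := hjfflines_c1 c₃ A4
    refine ⟨c₁, ?_⟩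
    rw [hv, hf0, hc2, hc3, zero_smul, zero_smul, add_zero, add_zero, zero_add]
  · intro v h1 h2
    obtain ⟨f, hf, c₁, c₂, c₃, hv, A1, A2, A3, A4, B1, B2, B3, B4⟩ :=
      hjfflines_aux ρ Q b q₁ q₂ q₃ e₁ e₂ e₃ hF v (-1) 1 (by rw [neg_one_smul]; exact h1)
        (by rw [one_smul]; exact h2)
    have hf0 := hjfflines_two f A1
    have hc1 := hjfflines_c2 c₁ A2
    have hc3 := hjfflines_c1 c₃ B4
    refine ⟨c₂, ?_⟩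
    rw [hv, hf0, hc1, hc3, zero_smul, zero_smul, add_zero, add_zero, zero_add]
  · intro v h1 h2
    obtain ⟨f, hf, c₁, c₂, c₃, hv, A1, A2, A3, A4, B1, B2, B3, B4⟩ :=
      hjfflines_aux ρ Q b q₁ q₂ q₃ e₁ e₂ e₃ hF v (-1) (-1) (by rw [neg_one_smul]; exact h1)
        (by rw [neg_one_smul]; exact h2)
    have hf0 := hjfflines_two f A1
    have hc1 := hjfflines_c2 c₁ A2
    have hc2 := hjfflines_c2 c₂ B3
    refine ⟨c₃, ?_⟩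
    rw [hv, hf0, hc1, hc2, zero_smul, zero_smul, add_zero, add_zero, zero_add]
  · intro v h1 h2
    obtain ⟨f, hf, c₁, c₂, c₃, hv, A1, A2, A3, A4, B1, B2, B3, B4⟩ :=
      hjfflines_aux ρ Q b q₁ q₂ q₃ e₁ e₂ e₃ hF v 1 1 (by rw [one_smul]; exact h1)
        (by rw [one_smul]; exact h2)
    have hc1 := hjfflines_c1 c₁ B2
    have hc2 := hjfflines_c1 c₂ A3
    have hc3 := hjfflines_c1 c₃ A4
    rw [hv, hc1, hc2, hc3]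
    simp only [zero_smul, add_zero]
    exact hf

end Cfsg.Agent.Lib.Helper73.HJ
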