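import Mathlib
import Cfsg.Agent.Lib.Helper73.HJDefs

/-!
# Project HJ (S4415), piece FFSpan

FFSPAN: `[E,Q] = ⟨e₁,e₂,e₃⟩` (⊆ by `dec`; ⊇: `e₁ = ρ q₂ e₁ - e₁` in char 3) and `(ρ b - 1) E ⊆ ⟨e₁,e₂,e₃⟩` (`dec`, `bfix`).
-/

set_option autoImplicit false

namespace Cfsg.Agent.Lib.Helper73.HJ

variable {S : Type*} [Group S] [Finite S] {E : Type*} [AddCommGroup E] [Module (ZMod 3) E]
  [Finite E]

omit [Finite E] in
theorem hjffspan_three (e : E) : -e - e = e := by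
  have h3 : (3 : ZMod 3) • e = 0 := by
    have h0 : (3 : ZMod 3) = 0 := by decide
    rw [h0, zero_smul]
  have h4 : (3 : ZMod 3) • e = e + e + e := by
    rw [show (3 : ZMod 3) = 1 + 1 + 1 by norm_num, add_smul, add_smul, one_smul]
  rw [h4] at h3
  have h5 : -e - e = e - (e + e + e) := by abel
  rw [h5, h3, sub_zero]

theorem hj_ff_span (ρ : Representation (ZMod 3) S E) (Q : Subgroup S) (b : S) (q₁ q₂ q₃ : S) (e₁ e₂ e₃ : E) (hF : Frame ρ Q b q₁ q₂ q₃ e₁ e₂ e₃) :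
    hjComm ρ Q = Submodule.span (ZMod 3) {e₁, e₂, e₃} ∧
    ∀ v : E, ρ b v - v ∈ Submodule.span (ZMod 3) {e₁, e₂, e₃} := by
  have hT : ∃ T : Submodule (ZMod 3) E, T = Submodule.span (ZMod 3) {e₁, e₂, e₃} := ⟨_, rfl⟩
  obtain ⟨T, hT⟩ := hT
  rw [← hT]
  have he₁ : e₁ ∈ T := by
    rw [hT]
    exact Submodule.subset_span (by simp)
  have he₂ : e₂ ∈ T := by
    rw [hT]
    exact Submodule.subset_span (by simp)
  have he₃ : e₃ ∈ T := by
    rw [hT]
    exact Submodule.subset_span (by simp)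
  have hQT : ∀ x ∈ Q, ρ x e₁ ∈ T ∧ ρ x e₂ ∈ T ∧ ρ x e₃ ∈ T := by
    intro x hx
    rcases hF.all x hx with h | h | h | h
    · rw [h, map_one]
      simp only [Module.End.one_apply]
      exact ⟨he₁, he₂, he₃⟩
    · rw [h, hF.q11, hF.q12, hF.q13]
      exact ⟨he₁, T.neg_mem he₂, T.neg_mem he₃⟩
    · rw [h, hF.q21, hF.q22, hF.q23]
      exact ⟨T.neg_mem he₁, he₂, T.neg_mem he₃⟩
    · rw [h, hF.q31, hF.q32, hF.q33]
      exact ⟨T.neg_mem he₁, T.neg_mem he₂, he₃⟩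
  refine ⟨?_, ?_⟩
  · apply le_antisymm
    · unfold hjComm
      rw [Submodule.span_le]
      rintro w ⟨x, hx, v, rfl⟩
      obtain ⟨f, hf, c₁, c₂, c₃, rfl⟩ := hF.dec v
      obtain ⟨h1, h2, h3⟩ := hQT x hx
      have hfx : ρ x f = f := (mem_hjFix ρ Q f).mp hf x hx
      have h4 : ρ x (f + c₁ • e₁ + c₂ • e₂ + c₃ • e₃) - (f + c₁ • e₁ + c₂ • e₂ + c₃ • e₃) =
          c₁ • (ρ x e₁ - e₁) + c₂ • (ρ x e₂ - e₂) + c₃ • (ρ x e₃ - e₃) := by
        rw [map_add, map_add, map_add, map_smul, map_smul, map_smul, hfx]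
        simp only [smul_sub]
        abel
      rw [SetLike.mem_coe, h4]
      exact T.add_mem (T.add_mem (T.smul_mem _ (T.sub_mem h1 he₁))
        (T.smul_mem _ (T.sub_mem h2 he₂))) (T.smul_mem _ (T.sub_mem h3 he₃))
    · rw [hT, Submodule.span_le]
      intro w hw
      simp only [Set.mem_insert_iff, Set.mem_singleton_iff] at hw
      rw [SetLike.mem_coe]
      rcases hw with h | h | h
      · rw [h]
        apply Submodule.subset_span
        refine ⟨q₂, hF.m2, e₁, ?_⟩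
        rw [hF.q21]
        exact (hjffspan_three e₁).symm
      · rw [h]
        apply Submodule.subset_span
        refine ⟨q₁, hF.m1, e₂, ?_⟩
        rw [hF.q12]
        exact (hjffspan_three e₂).symm
      · rw [h]
        apply Submodule.subset_span
        refine ⟨q₁, hF.m1, e₃, ?_⟩
        rw [hF.q13]
        exact (hjffspan_three e₃).symm
  · intro v
    obtain ⟨f, hf, c₁, c₂, c₃, rfl⟩ := hF.dec v
    have hbf : ρ b f = f := hF.bfix f hf
    have h4 : ρ b (f + c₁ • e₁ + c₂ • e₂ + c₃ • e₃) - (f + c₁ • e₁ + c₂ • e₂ + c₃ • e₃) =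
        c₁ • (e₂ - e₁) + c₂ • (e₃ - e₂) + c₃ • (e₁ - e₃) := by
      rw [map_add, map_add, map_add, map_smul, map_smul, map_smul, hbf, hF.be1, hF.be2, hF.be3]
      simp only [smul_sub]
      abel
    rw [h4]
    exact T.add_mem (T.add_mem (T.smul_mem _ (T.sub_mem he₂ he₁))
      (T.smul_mem _ (T.sub_mem he₃ he₂))) (T.smul_mem _ (T.sub_mem he₁ he₃))

end Cfsg.Agent.Lib.Helper73.HJ
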