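import Mathlib
import Cfsg.Agent.Lib.Helper73.HJDefs

/-!
# Project HJ (S4415), piece FrameW

FRAMEW: weight decomposition for two commuting involutions in char 3 (`1/4 = 1`): `f = v + q₁v + q₂v + q₁q₂v`, `v₁ = v + q₁v - q₂v - q₁q₂v`, ...
-/

set_option autoImplicit false

namespace Cfsg.Agent.Lib.Helper73.HJ

variable {S : Type*} [Group S] [Finite S] {E : Type*} [AddCommGroup E] [Module (ZMod 3) E]
  [Finite E]

theorem hj_framew (ρ : Representation (ZMod 3) S E) (q₁ q₂ : S) (h1 : q₁ * q₁ = 1) (h2 : q₂ * q₂ = 1)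
    (hc : q₁ * q₂ = q₂ * q₁) (v : E) :
    ∃ f v₁ v₂ v₃ : E, v = f + v₁ + v₂ + v₃ ∧ ρ q₁ f = f ∧ ρ q₂ f = f ∧ ρ q₁ v₁ = v₁ ∧ ρ q₂ v₁ = -v₁ ∧
      ρ q₁ v₂ = -v₂ ∧ ρ q₂ v₂ = v₂ ∧ ρ q₁ v₃ = -v₃ ∧ ρ q₂ v₃ = -v₃ := by
  have hA : ∀ u : E, ρ q₁ (ρ q₁ u) = u := by
    intro u
    rw [← Module.End.mul_apply, ← map_mul, h1, map_one, Module.End.one_apply]
  have hB : ∀ u : E, ρ q₂ (ρ q₂ u) = u := by
    intro u
    rw [← Module.End.mul_apply, ← map_mul, h2, map_one, Module.End.one_apply]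
  have hAB : ∀ u : E, ρ q₁ (ρ q₂ u) = ρ q₂ (ρ q₁ u) := by
    intro u
    rw [← Module.End.mul_apply, ← Module.End.mul_apply, ← map_mul, ← map_mul, hc]
  have h3 : v + v + v = 0 := by
    have h : (3 : ZMod 3) • v = 0 := by
      have h0 : (3 : ZMod 3) = 0 := by decide
      rw [h0, zero_smul]
    have h' : (3 : ZMod 3) • v = v + v + v := by
      have h1' : (3 : ZMod 3) = 1 + 1 + 1 := by decide
      rw [h1', add_smul, add_smul, one_smul]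
    rw [← h', h]
  obtain ⟨a, Av⟩ : ∃ a : E, ρ q₁ v = a := ⟨_, rfl⟩
  obtain ⟨b, Bv⟩ : ∃ b : E, ρ q₂ v = b := ⟨_, rfl⟩
  obtain ⟨d, Ab⟩ : ∃ d : E, ρ q₁ b = d := ⟨_, rfl⟩
  have Aa : ρ q₁ a = v := by rw [← Av, hA]
  have Bb : ρ q₂ b = v := by rw [← Bv, hB]
  have Ad : ρ q₁ d = b := by rw [← Ab, hA]
  have Ba : ρ q₂ a = d := by rw [← Av, ← hAB, Bv, Ab]
  have Bd : ρ q₂ d = a := by rw [← Ab, ← hAB, Bb, Av]
  refine ⟨v + a + b + d, v + a - b - d, v - a + b - d, v - a - b + d,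
    ?_, ?_, ?_, ?_, ?_, ?_, ?_, ?_, ?_⟩
  · calc v = v + (v + v + v) := by rw [h3, add_zero]
      _ = _ := by abel
  · simp only [map_add, map_sub, Av, Aa, Ab, Ad]
    abel
  · simp only [map_add, map_sub, Bv, Ba, Bb, Bd]
    abel
  · simp only [map_add, map_sub, Av, Aa, Ab, Ad]
    abel
  · simp only [map_add, map_sub, Bv, Ba, Bb, Bd]
    abel
  · simp only [map_add, map_sub, Av, Aa, Ab, Ad]
    abel
  · simp only [map_add, map_sub, Bv, Ba, Bb, Bd]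
    abel
  · simp only [map_add, map_sub, Av, Aa, Ab, Ad]
    abel
  · simp only [map_add, map_sub, Bv, Ba, Bb, Bd]
    abel

end Cfsg.Agent.Lib.Helper73.HJ
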