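import Mathlib
import Cfsg.Agent.Lib.Helper73.HJDefs
import Cfsg.Agent.Lib.Helper73.HJFrameW

/-!
# Project HJ (S4415), piece FrameE1

FRAMEE1: a nonzero `(+,-)` weight vector exists: otherwise (b permutes the three nontrivial weight spaces: `b⁻¹` maps weight `(-,+)` to `(+,-)`, `b` maps `(-,-)` to `(+,-)`) all three vanish, so by FRAMEW `ρ q₁ = 1`, contradicting faithfulness and `q₁ ≠ 1`.
-/

set_option autoImplicit false

namespace Cfsg.Agent.Lib.Helper73.HJ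

variable {S : Type*} [Group S] [Finite S] {E : Type*} [AddCommGroup E] [Module (ZMod 3) E]
  [Finite E]

theorem hj_framee1 (ρ : Representation (ZMod 3) S E) (Q : Subgroup S) (b : S) (hfaith : Function.Injective ρ)
    (hb3 : b ^ 3 = 1) (q₁ q₂ q₃ : S) (hq : QFrame Q b q₁ q₂ q₃) :
    ∃ e₁ : E, e₁ ≠ 0 ∧ ρ q₁ e₁ = e₁ ∧ ρ q₂ e₁ = -e₁ := by
  by_contra hcon
  have hno : ∀ e : E, ρ q₁ e = e → ρ q₂ e = -e → e = 0 := by
    intro e h1 h2
    by_contra he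
    exact hcon ⟨e, he, h1, h2⟩
  have hmul : ∀ (g h : S) (v : E), ρ (g * h) v = ρ g (ρ h v) := by
    intro g h v
    rw [map_mul]
    rfl
  have hA : ∀ v₂ : E, ρ q₁ v₂ = -v₂ → ρ q₂ v₂ = v₂ → v₂ = 0 := by
    intro v₂ h1 h2
    have hc1 : q₁ * b⁻¹ = b⁻¹ * q₂ := by
      rw [← hq.b1]
      group
    have hc2 : q₂ * b⁻¹ = b⁻¹ * q₃ := by
      rw [← hq.b2]
      group
    have he1 : ρ q₁ (ρ b⁻¹ v₂) = ρ b⁻¹ v₂ := by
      rw [← hmul, hc1, hmul, h2]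
    have he2 : ρ q₂ (ρ b⁻¹ v₂) = -(ρ b⁻¹ v₂) := by
      rw [← hmul, hc2, hmul, ← hq.m12, hmul, h2, h1, map_neg]
    have h0 := hno _ he1 he2
    have h3 : v₂ = ρ b (ρ b⁻¹ v₂) := by
      rw [← hmul, mul_inv_cancel, map_one]
      rfl
    rw [h3, h0, map_zero]
  have hB : ∀ v₃ : E, ρ q₁ v₃ = -v₃ → ρ q₂ v₃ = -v₃ → v₃ = 0 := by
    intro v₃ h1 h2
    have hc1 : q₁ * b = b * q₃ := by
      have h4 : q₁ = b * q₃ * b⁻¹ := hq.b3.symm
      calc q₁ * b = b * q₃ * b⁻¹ * b := by rw [← h4]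
        _ = b * q₃ := by group
    have hc2 : q₂ * b = b * q₁ := by
      have h4 : q₂ = b * q₁ * b⁻¹ := hq.b1.symm
      calc q₂ * b = b * q₁ * b⁻¹ * b := by rw [← h4]
        _ = b * q₁ := by group
    have he1 : ρ q₁ (ρ b v₃) = ρ b v₃ := by
      rw [← hmul, hc1, hmul, ← hq.m12, hmul, h2, map_neg, h1, neg_neg]
    have he2 : ρ q₂ (ρ b v₃) = -(ρ b v₃) := by
      rw [← hmul, hc2, hmul, h1, map_neg]
    have h0 := hno _ he1 he2
    have h3 : v₃ = ρ b⁻¹ (ρ b v₃) := by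
      rw [← hmul, inv_mul_cancel, map_one]
      rfl
    rw [h3, h0, map_zero]
  have hq1 : ρ q₁ = 1 := by
    apply LinearMap.ext
    intro v
    obtain ⟨f, v₁, v₂, v₃, hv, hf1, hf2, h11, h12, h21, h22, h31, h32⟩ :=
      hj_framew ρ q₁ q₂ hq.s1 hq.s2 (by rw [hq.m12, hq.m21]) v
    have e1 := hno v₁ h11 h12
    have e2 := hA v₂ h21 h22
    have e3 := hB v₃ h31 h32
    rw [e1, e2, e3, add_zero, add_zero, add_zero] at hv
    rw [hv, hf1]
    rfl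
  exact hq.ne1 (hfaith (by rw [hq1, map_one]))

end Cfsg.Agent.Lib.Helper73.HJ
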