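import Mathlib
import Cfsg.Agent.Lib.Helper73.HJDefs

/-!
# Project HJ (S4415), piece FrameQ

FRAMEQ: pick `q₁ ∈ Q` moved by `b`, `q₂ = b q₁ b⁻¹`, `q₃ = b q₂ b⁻¹`; they are the three involutions of `Q`.
-/

set_option autoImplicit false

namespace Cfsg.Agent.Lib.Helper73.HJ

variable {S : Type*} [Group S] [Finite S] {E : Type*} [AddCommGroup E] [Module (ZMod 3) E]
  [Finite E]

theorem hj_frameq (Q : Subgroup S) (b : S) (hb3 : b ^ 3 = 1) (hQ : QType Q b) :
    ∃ q₁ q₂ q₃ : S, QFrame Q b q₁ q₂ q₃ := by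
  classical
  obtain ⟨q₁, hq₁, hne⟩ := hQ.nc
  obtain ⟨q₂, hq₂def⟩ : ∃ q₂, q₂ = b * q₁ * b⁻¹ := ⟨_, rfl⟩
  obtain ⟨q₃, hq₃def⟩ : ∃ q₃, q₃ = b * q₂ * b⁻¹ := ⟨_, rfl⟩
  have hq₂ : q₂ ∈ Q := by rw [hq₂def]; exact hQ.norm q₁ hq₁
  have hq₃ : q₃ ∈ Q := by rw [hq₃def]; exact hQ.norm q₂ hq₂
  have hb31 : b * q₃ * b⁻¹ = q₁ := by
    rw [hq₃def, hq₂def]
    have hb3' : b * b * b = 1 := by rw [← hb3, pow_succ, pow_succ, pow_one]
    calc b * (b * (b * q₁ * b⁻¹) * b⁻¹) * b⁻¹ = (b * b * b) * q₁ * (b * b * b)⁻¹ := by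
          simp only [mul_assoc, mul_inv_rev]
      _ = q₁ := by rw [hb3', one_mul, inv_one, mul_one]
  have h1ne : q₁ ≠ 1 := by
    intro h
    apply hne
    rw [h, mul_one, mul_inv_cancel]
  have h2ne1 : q₂ ≠ 1 := by
    intro h
    apply h1ne
    have h1 : q₁ = b⁻¹ * q₂ * b := by rw [hq₂def]; group
    rw [h1, h, mul_one, inv_mul_cancel]
  have h3ne1 : q₃ ≠ 1 := by
    intro h
    apply h2ne1
    have h1 : q₂ = b⁻¹ * q₃ * b := by rw [hq₃def]; group
    rw [h1, h, mul_one, inv_mul_cancel]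
  have h21 : q₂ ≠ q₁ := by rw [hq₂def]; exact hne
  have h32 : q₃ ≠ q₂ := by
    intro h
    apply h21
    have h' : b * q₂ * b⁻¹ = b * q₁ * b⁻¹ := by rw [← hq₃def, ← hq₂def]; exact h
    exact mul_left_cancel (mul_right_cancel h')
  have h31 : q₃ ≠ q₁ := by
    intro h
    apply h21
    calc q₂ = b * q₁ * b⁻¹ := hq₂def
      _ = b * q₃ * b⁻¹ := by rw [h]
      _ = q₁ := hb31
  have s1 : q₁ * q₁ = 1 := hQ.exp q₁ hq₁
  have s2 : q₂ * q₂ = 1 := hQ.exp q₂ hq₂
  have s3 : q₃ * q₃ = 1 := hQ.exp q₃ hq₃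
  have hcomm : q₂ * q₁ = q₁ * q₂ := by
    have e : q₁ * q₂ * (q₁ * q₂) = 1 := hQ.exp _ (Q.mul_mem hq₁ hq₂)
    have i1 : q₁⁻¹ = q₁ := inv_eq_of_mul_eq_one_right s1
    have i2 : q₂⁻¹ = q₂ := inv_eq_of_mul_eq_one_right s2
    have i12 : (q₁ * q₂)⁻¹ = q₁ * q₂ := inv_eq_of_mul_eq_one_right e
    rw [mul_inv_rev, i1, i2] at i12
    exact i12
  have hall : ∀ q ∈ Q, q = 1 ∨ q = q₁ ∨ q = q₂ ∨ q = q₃ := by
    have c3 : ({q₃} : Finset S).card = 1 := Finset.card_singleton q₃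
    have c2 : ({q₂, q₃} : Finset S).card = 2 := by
      rw [Finset.card_insert_of_notMem (by rw [Finset.mem_singleton]; exact h32.symm), c3]
    have c1 : ({q₁, q₂, q₃} : Finset S).card = 3 := by
      rw [Finset.card_insert_of_notMem (by
        rw [Finset.mem_insert, Finset.mem_singleton]
        rintro (h | h)
        · exact h21 h.symm
        · exact h31 h.symm), c2]
    have c0 : ({1, q₁, q₂, q₃} : Finset S).card = 4 := by
      rw [Finset.card_insert_of_notMem (by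
        rw [Finset.mem_insert, Finset.mem_insert, Finset.mem_singleton]
        rintro (h | h | h)
        · exact h1ne h.symm
        · exact h2ne1 h.symm
        · exact h3ne1 h.symm), c1]
    have hTQ : ∀ x ∈ ({1, q₁, q₂, q₃} : Finset S), x ∈ Q := by
      intro x hx
      rw [Finset.mem_insert, Finset.mem_insert, Finset.mem_insert, Finset.mem_singleton] at hx
      rcases hx with rfl | rfl | rfl | rfl
      exacts [Q.one_mem, hq₁, hq₂, hq₃]
    intro q hq
    by_contra hcon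
    have hqT : q ∉ ({1, q₁, q₂, q₃} : Finset S) := by
      rw [Finset.mem_insert, Finset.mem_insert, Finset.mem_insert, Finset.mem_singleton]
      exact hcon
    have h5 : (insert q ({1, q₁, q₂, q₃} : Finset S)).card = 5 := by
      rw [Finset.card_insert_of_notMem hqT, c0]
    have hsub : ((insert q ({1, q₁, q₂, q₃} : Finset S) : Finset S) : Set S) ⊆ (Q : Set S) := by
      intro x hx
      rw [Finset.mem_coe, Finset.mem_insert] at hx
      rcases hx with rfl | hx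
      · exact hq
      · exact hTQ x hx
    have hle := Set.ncard_le_ncard hsub (Set.toFinite _)
    rw [Set.ncard_coe_finset, h5] at hle
    have hc : (Q : Set S).ncard = 4 := by
      rw [← Nat.card_coe_set_eq]
      exact hQ.card
    omega
  have m12 : q₁ * q₂ = q₃ := by
    rcases hall _ (Q.mul_mem hq₁ hq₂) with h | h | h | h
    · exfalso
      apply h21
      have h1 : q₂ = q₁⁻¹ := eq_inv_of_mul_eq_one_right h
      rw [h1]
      exact inv_eq_of_mul_eq_one_right s1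
    · exfalso
      exact h2ne1 (mul_eq_left.mp h)
    · exfalso
      exact h1ne (mul_eq_right.mp h)
    · exact h
  exact ⟨q₁, q₂, q₃, ⟨hq₁, hq₂, hq₃, hall, h1ne, s1, s2, s3, m12, hcomm.trans m12, hq₂def.symm,
    hq₃def.symm, hb31⟩⟩

end Cfsg.Agent.Lib.Helper73.HJ
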