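import Mathlib
import Cfsg.Agent.Lib.Helper73.HJDefs

/-!
# Project HJ (S4415), piece FrameRg

FRAMERG: with `e₂ = b e₁`, `e₃ = b e₂`: `e₂ - e₁`, `e₃ - e₂` are independent (apply `ρ q₁`, `ρ q₂`; the `e_i` lie in different weight spaces), lie in `range (ρ b - 1)`, which has 9 elements; so they span it.
-/

set_option autoImplicit false

namespace Cfsg.Agent.Lib.Helper73.HJ

variable {S : Type*} [Group S] [Finite S] {E : Type*} [AddCommGroup E] [Module (ZMod 3) E]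
  [Finite E]

theorem hj_framerg (ρ : Representation (ZMod 3) S E) (Q : Subgroup S) (b : S) (hb3 : b ^ 3 = 1)
    (hrank : Nat.card (LinearMap.range (ρ b - 1)) = 9) (q₁ q₂ q₃ : S) (hq : QFrame Q b q₁ q₂ q₃)
    (e₁ : E) (he : e₁ ≠ 0) (h1 : ρ q₁ e₁ = e₁) (h2 : ρ q₂ e₁ = -e₁) :
    ∀ w ∈ LinearMap.range (ρ b - 1), ∃ c d : ZMod 3,
      w = c • (ρ b e₁ - e₁) + d • (ρ b (ρ b e₁) - ρ b e₁) := by
  have hmul : ∀ (x y : S) (v : E), ρ (x * y) v = ρ x (ρ y v) := fun x y v => by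
    rw [map_mul]; rfl
  have comm : ∀ (p q : S), b * p * b⁻¹ = q → ∀ x : E, ρ q (ρ b x) = ρ b (ρ p x) := by
    intro p q hpq x
    have hqb : q * b = b * p := by rw [← hpq]; group
    rw [← hmul, hqb, hmul]
  have hb1 : b * (b * b) = 1 := by
    have e : b ^ 3 = b * (b * b) := by rw [pow_succ, pow_two, mul_assoc]
    rw [← e, hb3]
  have hbbb : ∀ x : E, ρ b (ρ b (ρ b x)) = x := by
    intro x
    calc ρ b (ρ b (ρ b x)) = ρ (b * (b * b)) x := by rw [hmul, hmul]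
      _ = x := by rw [hb1, map_one]; rfl
  have h3 : ∀ x : E, x + x + x = 0 := by
    intro x
    have h30 : (1 + 1 + 1 : ZMod 3) = 0 := by decide
    calc x + x + x = (1 + 1 + 1 : ZMod 3) • x := by rw [add_smul, add_smul, one_smul]
      _ = 0 := by rw [h30, zero_smul]
  have h31 : ρ q₃ e₁ = -e₁ := by
    rw [← hq.m12, hmul, h2, map_neg, h1]
  have hu : ρ b e₁ - e₁ ∈ LinearMap.range (ρ b - 1) := ⟨e₁, rfl⟩
  have hv : ρ b (ρ b e₁) - ρ b e₁ ∈ LinearMap.range (ρ b - 1) := ⟨ρ b e₁, rfl⟩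
  have hbb := hbbb e₁
  obtain ⟨e₂, he₂⟩ : ∃ e₂, e₂ = ρ b e₁ := ⟨_, rfl⟩
  rw [← he₂] at hu hv hbb ⊢
  obtain ⟨e₃, he₃⟩ : ∃ e₃, e₃ = ρ b e₂ := ⟨_, rfl⟩
  rw [← he₃] at hv hbb ⊢
  have h12 : ρ q₁ e₂ = -e₂ := by
    rw [he₂, comm q₃ q₁ hq.b3, h31, map_neg]
  have h22 : ρ q₂ e₂ = e₂ := by
    rw [he₂, comm q₁ q₂ hq.b1, h1]
  have h32 : ρ q₃ e₂ = -e₂ := by
    rw [he₂, comm q₂ q₃ hq.b2, h2, map_neg]
  have h13 : ρ q₁ e₃ = -e₃ := by
    rw [he₃, comm q₃ q₁ hq.b3, h32, map_neg]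
  have h23 : ρ q₂ e₃ = -e₃ := by
    rw [he₃, comm q₁ q₂ hq.b1, h12, map_neg]
  have he2 : e₂ ≠ 0 := by
    intro h0
    apply he
    rw [he₃, h0, map_zero, map_zero] at hbb
    exact hbb.symm
  have hind : ∀ c d : ZMod 3, c • (e₂ - e₁) + d • (e₃ - e₂) = 0 → c = 0 ∧ d = 0 := by
    intro c d h
    have hq1 : c • (-e₂ - e₁) + d • (-e₃ - -e₂) = 0 := by
      have h' := congrArg (ρ q₁) h
      simp only [map_add, map_smul, map_sub, h13, h12, h1, map_zero] at h'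
      exact h'
    have hce : c • e₁ = 0 := by
      have e : c • e₁ = (c • (e₂ - e₁) + d • (e₃ - e₂)) + (c • (-e₂ - e₁) + d • (-e₃ - -e₂))
          + (c • e₁ + c • e₁ + c • e₁) := by module
      rw [e, h, hq1, h3, add_zero, add_zero]
    have hc0 : c = 0 := by
      rcases smul_eq_zero.mp hce with h' | h'
      · exact h'
      · exact absurd h' he
    refine ⟨hc0, ?_⟩
    rw [hc0, zero_smul, zero_add] at h
    rcases smul_eq_zero.mp h with h' | h'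
    · exact h'
    · exfalso
      have h32' : e₃ = e₂ := sub_eq_zero.mp h'
      have h6 : e₂ = -e₂ := by
        calc e₂ = ρ q₂ e₂ := h22.symm
          _ = ρ q₂ e₃ := by rw [h32']
          _ = -e₃ := h23
          _ = -e₂ := by rw [h32']
      have h7' : e₂ + e₂ = 0 := by
        calc e₂ + e₂ = -e₂ + e₂ := by rw [← h6]
          _ = 0 := neg_add_cancel e₂
      apply he2
      have e : e₂ = (e₂ + e₂ + e₂) - (e₂ + e₂) := by abel
      rw [e, h3, h7', sub_zero]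
  intro w hw
  let f : ZMod 3 × ZMod 3 → ↥(LinearMap.range (ρ b - 1)) := fun cd =>
    ⟨cd.1 • (e₂ - e₁) + cd.2 • (e₃ - e₂),
      Submodule.add_mem _ (Submodule.smul_mem _ _ hu) (Submodule.smul_mem _ _ hv)⟩
  have hinj : Function.Injective f := by
    rintro ⟨c, d⟩ ⟨c', d'⟩ hcd
    have h0 : c • (e₂ - e₁) + d • (e₃ - e₂) = c' • (e₂ - e₁) + d' • (e₃ - e₂) :=
      congrArg Subtype.val hcd
    have h0' : (c - c') • (e₂ - e₁) + (d - d') • (e₃ - e₂) = 0 := by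
      rw [sub_smul, sub_smul]
      have e : c • (e₂ - e₁) - c' • (e₂ - e₁) + (d • (e₃ - e₂) - d' • (e₃ - e₂)) =
          (c • (e₂ - e₁) + d • (e₃ - e₂)) - (c' • (e₂ - e₁) + d' • (e₃ - e₂)) := by abel
      rw [e, h0, sub_self]
    obtain ⟨hc, hd⟩ := hind _ _ h0'
    rw [Prod.mk.injEq]
    exact ⟨sub_eq_zero.mp hc, sub_eq_zero.mp hd⟩
  have hcard9 : Nat.card (ZMod 3 × ZMod 3) = 9 := by
    rw [Nat.card_prod, Nat.card_zmod]
  have hbij : Function.Bijective f :=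
    hinj.bijective_of_nat_card_le (hrank.le.trans hcard9.ge)
  obtain ⟨⟨c, d⟩, hcd⟩ := hbij.2 ⟨w, hw⟩
  exact ⟨c, d, (congrArg Subtype.val hcd).symm⟩

end Cfsg.Agent.Lib.Helper73.HJ
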