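import Mathlib
import Cfsg.Agent.Lib.Helper73.HJDefs
import Cfsg.Agent.Lib.Helper73.HJFrameQ
import Cfsg.Agent.Lib.Helper73.HJFrameW
import Cfsg.Agent.Lib.Helper73.HJFrameE1
import Cfsg.Agent.Lib.Helper73.HJFrameRg

/-!
# Project HJ (S4415), piece Frame

FRAME: existence of the frame. FRAMEQ gives the `q_i`, FRAMEE1 gives `e₁`; `e₂ = ρ b e₁`, `e₃ = ρ b e₂` (`ρ b e₃ = e₁` as `b^3 = 1`). Weight vectors are multiples: if `u` has weight `(+,-)` then `b u - u = c (e₂ - e₁) + d (e₃ - e₂)` (FRAMERG); apply `1 + ρ q₁`: `-2u = -2c e₁`. `bfix`: for `f ∈ C_E(Q)`, `b f - f` is `Q`-fixed and of the form `c (e₂ - e₁) + d (e₃ - e₂)`; apply `1 + q₁ + q₂ + q₃`. `dec`: FRAMEW.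
-/

set_option autoImplicit false

namespace Cfsg.Agent.Lib.Helper73.HJ

variable {S : Type*} [Group S] [Finite S] {E : Type*} [AddCommGroup E] [Module (ZMod 3) E]
  [Finite E]

theorem hj_frame (ρ : Representation (ZMod 3) S E) (Q : Subgroup S) (b : S) (hfaith : Function.Injective ρ)
    (hb3 : b ^ 3 = 1) (hrank : Nat.card (LinearMap.range (ρ b - 1)) = 9) (hQ : QType Q b) :
    ∃ q₁ q₂ q₃ : S, ∃ e₁ e₂ e₃ : E, Frame ρ Q b q₁ q₂ q₃ e₁ e₂ e₃ := by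
  obtain ⟨q₁, q₂, q₃, hq⟩ := hj_frameq Q b hb3 hQ
  obtain ⟨e₁, he0, h11, h21⟩ := hj_framee1 ρ Q b hfaith hb3 q₁ q₂ q₃ hq
  have hrg := hj_framerg ρ Q b hb3 hrank q₁ q₂ q₃ hq e₁ he0 h11 h21
  have hmul : ∀ (g h : S) (v : E), ρ (g * h) v = ρ g (ρ h v) := by
    intro g h v
    rw [map_mul]
    rfl
  have hone : ∀ v : E, ρ 1 v = v := by
    intro v
    rw [map_one]
    rfl
  have hbbb : ∀ v : E, ρ b (ρ b (ρ b v)) = v := by
    intro v
    have h : ρ (b * (b * b)) v = v := by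
      have hb : b * (b * b) = 1 := by
        rw [← hb3, pow_succ, pow_two, mul_assoc]
      rw [hb, hone]
    rwa [hmul, hmul] at h
  have hc1 : b * q₁ = q₂ * b := by
    rw [← hq.b1]
    group
  have hc2 : b * q₂ = q₃ * b := by
    rw [← hq.b2]
    group
  have hc3 : b * q₃ = q₁ * b := by
    rw [← hq.b3]
    group
  have hq2b : ∀ v : E, ρ q₂ (ρ b v) = ρ b (ρ q₁ v) := by
    intro v
    rw [← hmul, ← hmul, hc1]
  have hq3b : ∀ v : E, ρ q₃ (ρ b v) = ρ b (ρ q₂ v) := by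
    intro v
    rw [← hmul, ← hmul, hc2]
  have hq1b : ∀ v : E, ρ q₁ (ρ b v) = ρ b (ρ q₃ v) := by
    intro v
    rw [← hmul, ← hmul, hc3]
  have hq3 : ∀ v : E, ρ q₃ v = ρ q₁ (ρ q₂ v) := by
    intro v
    rw [← hmul, hq.m12]
  have h31 : ρ q₃ e₁ = -e₁ := by
    rw [hq3, h21, map_neg, h11]
  have h12 : ρ q₁ (ρ b e₁) = -(ρ b e₁) := by
    rw [hq1b, h31, map_neg]
  have h22 : ρ q₂ (ρ b e₁) = ρ b e₁ := by
    rw [hq2b, h11]
  have h32 : ρ q₃ (ρ b e₁) = -(ρ b e₁) := by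
    rw [hq3b, h21, map_neg]
  have h13 : ρ q₁ (ρ b (ρ b e₁)) = -(ρ b (ρ b e₁)) := by
    rw [hq1b, h32, map_neg]
  have h23 : ρ q₂ (ρ b (ρ b e₁)) = -(ρ b (ρ b e₁)) := by
    rw [hq2b, h12, map_neg]
  have h33 : ρ q₃ (ρ b (ρ b e₁)) = ρ b (ρ b e₁) := by
    rw [hq3b, h22]
  have h3z : ∀ x : E, (3 : ZMod 3) • x = 0 := by
    intro x
    rw [show (3 : ZMod 3) = 0 from by decide, zero_smul]
  refine ⟨q₁, q₂, q₃, e₁, ρ b e₁, ρ b (ρ b e₁), ?_⟩
  refine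
    { m1 := hq.m1, m2 := hq.m2, m3 := hq.m3, all := hq.all, s1 := hq.s1, s2 := hq.s2, s3 := hq.s3,
      m12 := hq.m12, m21 := hq.m21, b1 := hq.b1, b2 := hq.b2, b3 := hq.b3, e0 := he0,
      be1 := rfl, be2 := rfl, be3 := hbbb e₁, q11 := h11, q12 := h12, q13 := h13,
      q21 := h21, q22 := h22, q23 := h23, q31 := h31, q32 := h32, q33 := h33,
      bfix := ?_, dec := ?_ }
  · intro f hf
    rw [mem_hjFix] at hf
    have hf1 := hf q₁ hq.m1
    have hf2 := hf q₂ hq.m2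
    have hf3 := hf q₃ hq.m3
    obtain ⟨c, d, hcd⟩ := hrg _ (LinearMap.mem_range_self (ρ b - 1) f)
    have hX : ρ b f - f = c • (ρ b e₁ - e₁) + d • (ρ b (ρ b e₁) - ρ b e₁) := hcd
    have hX1 := congrArg (ρ q₁) hX
    have hX2 := congrArg (ρ q₂) hX
    have hX3 := congrArg (ρ q₃) hX
    simp only [map_sub, map_add, map_smul, hf1, hf2, hf3, h11, h21, h31, h12, h22, h32,
      h13, h23, h33] at hX1 hX2 hX3
    rw [hq1b, hf3] at hX1
    rw [hq2b, hf1] at hX2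
    rw [hq3b, hf2] at hX3
    linear_combination (norm := module) hX + hX1 + hX2 + hX3 - h3z (ρ b f - f)
  · intro v
    have hc : q₁ * q₂ = q₂ * q₁ := by rw [hq.m12, hq.m21]
    obtain ⟨f, v₁, v₂, v₃, hv, hf1, hf2, a11, a12, a21, a22, a31, a32⟩ :=
      hj_framew ρ q₁ q₂ hq.s1 hq.s2 hc v
    have hfQ : f ∈ hjFix ρ Q := by
      rw [mem_hjFix]
      intro q hqQ
      rcases hq.all q hqQ with h | h | h | h
      · rw [h]
        exact hone f
      · rw [h]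
        exact hf1
      · rw [h]
        exact hf2
      · rw [h, hq3, hf2, hf1]
    -- v₁ is a multiple of e₁
    have hv1 : ∃ c₁ : ZMod 3, v₁ = c₁ • e₁ := by
      have b13 : ρ q₃ v₁ = -v₁ := by rw [hq3, a12, map_neg, a11]
      obtain ⟨c, d, hcd⟩ := hrg _ (LinearMap.mem_range_self (ρ b - 1) v₁)
      have hX : ρ b v₁ - v₁ = c • (ρ b e₁ - e₁) + d • (ρ b (ρ b e₁) - ρ b e₁) := hcd
      have hX1 := congrArg (ρ q₁) hX
      simp only [map_sub, map_add, map_smul, a11, h11, h12, h13] at hX1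
      rw [hq1b, b13, map_neg] at hX1
      refine ⟨c, ?_⟩
      linear_combination (norm := module) (-2 : ZMod 3) • hX + (-2 : ZMod 3) • hX1
        - h3z (v₁ - c • e₁)
    -- v₂ is a multiple of e₂
    have hv2 : ∃ c₂ : ZMod 3, v₂ = c₂ • ρ b e₁ := by
      obtain ⟨c, d, hcd⟩ := hrg _ (LinearMap.mem_range_self (ρ b - 1) v₂)
      have hX : ρ b v₂ - v₂ = c • (ρ b e₁ - e₁) + d • (ρ b (ρ b e₁) - ρ b e₁) := hcd
      have hX2 := congrArg (ρ q₂) hX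
      simp only [map_sub, map_add, map_smul, a22, h21, h22, h23] at hX2
      rw [hq2b, a21, map_neg] at hX2
      refine ⟨d - c, ?_⟩
      linear_combination (norm := module) (-2 : ZMod 3) • hX + (-2 : ZMod 3) • hX2
        - h3z (v₂ - (d - c) • ρ b e₁)
    -- v₃ is a multiple of e₃
    have hv3 : ∃ c₃ : ZMod 3, v₃ = c₃ • ρ b (ρ b e₁) := by
      have b33 : ρ q₃ v₃ = v₃ := by rw [hq3, a32, map_neg, a31, neg_neg]
      obtain ⟨c, d, hcd⟩ := hrg _ (LinearMap.mem_range_self (ρ b - 1) v₃)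
      have hX : ρ b v₃ - v₃ = c • (ρ b e₁ - e₁) + d • (ρ b (ρ b e₁) - ρ b e₁) := hcd
      have hX3 := congrArg (ρ q₃) hX
      simp only [map_sub, map_add, map_smul, b33, h31, h32, h33] at hX3
      rw [hq3b, a32, map_neg] at hX3
      refine ⟨-d, ?_⟩
      linear_combination (norm := module) (-2 : ZMod 3) • hX + (-2 : ZMod 3) • hX3
        - h3z (v₃ - (-d) • ρ b (ρ b e₁))
    obtain ⟨c₁, hv1⟩ := hv1
    obtain ⟨c₂, hv2⟩ := hv2
    obtain ⟨c₃, hv3⟩ := hv3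
    exact ⟨f, hfQ, c₁, c₂, c₃, by rw [hv, ← hv1, ← hv2, ← hv3]⟩

end Cfsg.Agent.Lib.Helper73.HJ
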