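import Mathlib
import Cfsg.Agent.Lib.Helper73.HJDefs
import Cfsg.Agent.Lib.Helper73.HJFrame
import Cfsg.Agent.Lib.Helper73.HJFFLines
import Cfsg.Agent.Lib.Helper73.HJFFSpan
import Cfsg.Agent.Lib.Helper73.HJFFNe
import Cfsg.Agent.Lib.Helper73.HJCentralFix
import Cfsg.Agent.Lib.Helper73.HJSplit
import Cfsg.Agent.Lib.Helper73.HJDecomp

/-!
# Project HJ (S4415), piece Central

CENTRAL: `c ∈ Z(R)` fixed by `b`. `c` commutes with `Q`, so `ρ c e₁ = ε e₁`, `ε = ±1` (FFLINES). `ε = 1`: CENTRALFIX. `ε = -1`: CENTRALFIX for `c^2` gives `c^2 = 1`; with `X = {1,c}`: `e₁ ∈ [E,X]`, so `b` is trivial on `C_E(c)` (SPLIT), which is `R`-invariant, so `R` is trivial on `C_E(c)`; hence `[E,R] ⊆ [E,c]` = the `(-1)`-eigenspace of `c`.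
-/

set_option autoImplicit false

namespace Cfsg.Agent.Lib.Helper73.HJ

variable {S : Type*} [Group S] [Finite S] {E : Type*} [AddCommGroup E] [Module (ZMod 3) E]
  [Finite E]

theorem hj_central (ρ : Representation (ZMod 3) S E) (R Q : Subgroup S) (b : S) (hB : Base ρ R b) (hQR : Q ≤ R) (hQ : QType Q b)
    (c : S) (hc : c ∈ R) (hbc : b * c * b⁻¹ = c) (hcen : ∀ r ∈ R, r * c = c * r) :
    c = 1 ∨ ZCen ρ R b c := by
  obtain ⟨q₁, q₂, q₃, e₁, e₂, e₃, hF⟩ := hj_frame ρ Q b hB.faith hB.b3 hB.rank hQ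
  have hmul : ∀ (g h : S) (v : E), ρ (g * h) v = ρ g (ρ h v) := fun g h v => by
    rw [map_mul, Module.End.mul_apply]
  have hone : ∀ v : E, ρ 1 v = v := fun v => by rw [map_one, Module.End.one_apply]
  have h3 : ∀ w : E, w + w + w = 0 := by
    intro w
    have h0 : ((1 : ZMod 3) + 1 + 1) • w = 0 := by
      have : ((1 : ZMod 3) + 1 + 1) = 0 := by decide
      rw [this, zero_smul]
    rw [add_smul, add_smul, one_smul] at h0
    exact h0
  have hcq1 : q₁ * c = c * q₁ := hcen q₁ (hQR hF.m1)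
  have hcq2 : q₂ * c = c * q₂ := hcen q₂ (hQR hF.m2)
  have hw1 : ρ q₁ (ρ c e₁) = ρ c e₁ := by
    rw [← hmul, hcq1, hmul, hF.q11]
  have hw2 : ρ q₂ (ρ c e₁) = -ρ c e₁ := by
    rw [← hmul, hcq2, hmul, hF.q21, map_neg]
  obtain ⟨ε, hε⟩ := (hj_ff_lines ρ Q b q₁ q₂ q₃ e₁ e₂ e₃ hF).1 (ρ c e₁) hw1 hw2
  have hcases : ∀ ε : ZMod 3, ε = 0 ∨ ε = 1 ∨ ε = -1 := by decide
  rcases hcases ε with h0 | h1 | hm1
  · exfalso
    rw [h0, zero_smul] at hε
    apply hF.e0
    calc e₁ = ρ (c⁻¹ * c) e₁ := by rw [inv_mul_cancel, hone]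
      _ = 0 := by rw [hmul, hε, map_zero]
  · left
    rw [h1, one_smul] at hε
    exact hj_central_fix ρ R Q b hB hQR hQ q₁ q₂ q₃ e₁ e₂ e₃ hF c hc hbc hcen hε
  · right
    have hc1 : ρ c e₁ = -e₁ := by rw [hε, hm1, neg_smul, one_smul]
    have hbc' : b * c = c * b := mul_inv_eq_iff_eq_mul.1 hbc
    have hcc : c * c = 1 := by
      refine hj_central_fix ρ R Q b hB hQR hQ q₁ q₂ q₃ e₁ e₂ e₃ hF (c * c) (R.mul_mem hc hc)
        ?_ ?_ ?_
      · calc b * (c * c) * b⁻¹ = (b * c * b⁻¹) * (b * c * b⁻¹) := by group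
          _ = c * c := by rw [hbc]
      · intro r hr
        rw [← mul_assoc, hcen r hr, mul_assoc, hcen r hr, mul_assoc]
      · rw [hmul, hc1, map_neg, hc1, neg_neg]
    have hcne : c ≠ 1 := by
      intro h
      rw [h, hone] at hc1
      have h2 : -e₁ + e₁ = 0 := neg_add_cancel e₁
      rw [← hc1] at h2
      have h4 := h3 e₁
      rw [h2, zero_add] at h4
      exact hF.e0 h4
    -- the subgroup `X = {1, c}`
    have hX : ∀ x ∈ Subgroup.zpowers c, x = 1 ∨ x = c := by
      intro x hx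
      rw [Subgroup.zpowers_eq_closure] at hx
      induction hx using Subgroup.closure_induction with
      | mem y hy => exact Or.inr hy
      | one => exact Or.inl rfl
      | mul y z _ _ hy hz =>
        rcases hy with hy | hy <;> rcases hz with hz | hz
        · left
          rw [hy, hz, one_mul]
        · right
          rw [hy, hz, one_mul]
        · right
          rw [hy, hz, mul_one]
        · left
          rw [hy, hz, hcc]
      | inv y _ hy =>
        rcases hy with hy | hy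
        · left
          rw [hy, inv_one]
        · right
          rw [hy]
          exact inv_eq_of_mul_eq_one_left hcc
    have hcX : c ∈ Subgroup.zpowers c := Subgroup.mem_zpowers c
    have hXR : Subgroup.zpowers c ≤ R := Subgroup.zpowers_le.2 hc
    have hcop : (Nat.card (Subgroup.zpowers c)).Coprime 3 :=
      Nat.Coprime.coprime_dvd_left (Subgroup.card_dvd_of_le hXR) hB.cop
    obtain ⟨hd1, hd2⟩ := hj_decomp ρ (Subgroup.zpowers c) hcop
    -- elements commuting with `c` preserve `C_E(X)` and `[E, X]`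
    have hfixinv : ∀ g : S, g * c = c * g → ∀ v ∈ hjFix ρ (Subgroup.zpowers c),
        ρ g v ∈ hjFix ρ (Subgroup.zpowers c) := by
      intro g hg v hv x hx
      rcases hX x hx with h | h
      · rw [h, hone]
      · rw [h, ← hmul, ← hg, hmul, hv c hcX]
    have hcomminv : ∀ g : S, g * c = c * g → ∀ v ∈ hjComm ρ (Subgroup.zpowers c),
        ρ g v ∈ hjComm ρ (Subgroup.zpowers c) := by
      intro g hg
      have hle : hjComm ρ (Subgroup.zpowers c) ≤
          (hjComm ρ (Subgroup.zpowers c)).comap (ρ g) := by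
        apply Submodule.span_le.2
        rintro w ⟨x, hx, u, rfl⟩
        show ρ g (ρ x u - u) ∈ hjComm ρ (Subgroup.zpowers c)
        have e : ρ g (ρ x u) = ρ x (ρ g u) := by
          rcases hX x hx with h | h
          · rw [h, hone, hone]
          · rw [h, ← hmul, ← hmul, hg]
        rw [map_sub, e]
        exact Submodule.subset_span ⟨x, hx, ρ g u, rfl⟩
      exact fun v hv => hle hv
    have he1 : e₁ = ρ c e₁ - e₁ := by
      rw [hc1, eq_sub_iff_add_eq, eq_neg_iff_add_eq_zero]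
      exact h3 e₁
    have he1X : e₁ ∈ hjComm ρ (Subgroup.zpowers c) :=
      Submodule.subset_span ⟨c, hcX, e₁, he1⟩
    have hbtriv : ∀ v ∈ hjFix ρ (Subgroup.zpowers c), ρ b v = v := by
      rcases hj_split ρ b hB.b3 hB.rank hB.sq (hjFix ρ (Subgroup.zpowers c))
        (hjComm ρ (Subgroup.zpowers c)) hd1 hd2 (hfixinv b hbc') (hcomminv b hbc') with h | h
      · exact h
      · exfalso
        have h5 := h e₁ he1X
        rw [hF.be1] at h5
        exact (hj_ff_ne ρ Q b q₁ q₂ q₃ e₁ e₂ e₃ hF).2.2.2.2.2.2.2.2.1 h5.symm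
    have hbinv : ∀ v ∈ hjFix ρ (Subgroup.zpowers c), ρ b⁻¹ v = v := by
      intro v hv
      calc ρ b⁻¹ v = ρ b⁻¹ (ρ b v) := by rw [hbtriv v hv]
        _ = v := by rw [← hmul, inv_mul_cancel, hone]
    have hgen : ∀ r ∈ R, ∀ v ∈ hjFix ρ (Subgroup.zpowers c), ρ (r * b * r⁻¹ * b⁻¹) v = v := by
      intro r hr v hv
      have hri : ρ r⁻¹ v ∈ hjFix ρ (Subgroup.zpowers c) :=
        hfixinv r⁻¹ (hcen r⁻¹ (R.inv_mem hr)) v hv
      rw [hmul, hmul, hmul, hbinv v hv, hbtriv _ hri, ← hmul, mul_inv_cancel, hone]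
    have hRtriv : ∀ r ∈ R, ∀ v ∈ hjFix ρ (Subgroup.zpowers c), ρ r v = v := by
      have hcl : ∀ r ∈ Subgroup.closure {g | ∃ r ∈ R, g = r * b * r⁻¹ * b⁻¹},
          ∀ v ∈ hjFix ρ (Subgroup.zpowers c), ρ r v = v := by
        intro r hr
        induction hr using Subgroup.closure_induction with
        | mem g hg =>
          obtain ⟨r', hr', rfl⟩ := hg
          exact hgen r' hr'
        | one => exact fun v _ => hone v
        | mul x y _ _ hx hy =>
          intro v hv
          rw [hmul, hy v hv, hx v hv]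
        | inv x _ hx =>
          intro v hv
          calc ρ x⁻¹ v = ρ x⁻¹ (ρ x v) := by rw [hx v hv]
            _ = v := by rw [← hmul, inv_mul_cancel, hone]
      intro r hr
      have hr' : r ∈ Subgroup.closure {g | ∃ r ∈ R, g = r * b * r⁻¹ * b⁻¹} := by
        rw [← hB.gen]
        exact hr
      exact hcl r hr'
    have hK : ∀ w : E, w ∈ LinearMap.ker (ρ c + LinearMap.id) ↔ ρ c w = -w := by
      intro w
      rw [LinearMap.mem_ker, LinearMap.add_apply, LinearMap.id_apply, add_eq_zero_iff_eq_neg]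
    have hXneg : ∀ w ∈ hjComm ρ (Subgroup.zpowers c), ρ c w = -w := by
      have hle : hjComm ρ (Subgroup.zpowers c) ≤ LinearMap.ker (ρ c + LinearMap.id) := by
        apply Submodule.span_le.2
        rintro w ⟨x, hx, u, rfl⟩
        show ρ x u - u ∈ LinearMap.ker (ρ c + LinearMap.id)
        rw [hK]
        rcases hX x hx with h | h
        · rw [h, hone, sub_self, map_zero, neg_zero]
        · rw [h, map_sub, ← hmul, hcc, hone, neg_sub]
      exact fun w hw => (hK w).1 (hle hw)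
    refine ⟨hc, hcne, hcc, hbc, hcen, ?_⟩
    have hle : hjComm ρ R ≤ LinearMap.ker (ρ c + LinearMap.id) := by
      apply Submodule.span_le.2
      rintro w ⟨r, hr, v, rfl⟩
      show ρ r v - v ∈ LinearMap.ker (ρ c + LinearMap.id)
      rw [hK]
      have hv : v ∈ hjFix ρ (Subgroup.zpowers c) ⊔ hjComm ρ (Subgroup.zpowers c) := by
        rw [hd2]
        exact Submodule.mem_top
      obtain ⟨f, hf, w', hw', rfl⟩ := Submodule.mem_sup.1 hv
      have e : ρ r (f + w') - (f + w') = ρ r w' - w' := by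
        rw [map_add, hRtriv r hr f hf]
        abel
      rw [e]
      exact hXneg _ (Submodule.sub_mem _ (hcomminv r (hcen r hr) w' hw') hw')
    exact fun v hv => (hK v).1 (hle hv)

end Cfsg.Agent.Lib.Helper73.HJ
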