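import Mathlib
import Cfsg.Agent.Lib.Helper73.HJDefs

/-!
# Project HJ (S4415), piece P3A0

P3A0: supports disjoint: `t = c' c⁻¹ ∈ N` acts on `x₁, x₃, x₂` as a 3-cycle.
-/

set_option autoImplicit false

namespace Cfsg.Agent.Lib.Helper73.HJ

variable {S : Type*} [Group S] [Finite S] {E : Type*} [AddCommGroup E] [Module (ZMod 3) E]
  [Finite E]

theorem hj_p3a0 {Γ : Type*} [Group Γ] {X : Type*} (act : Γ → X → X) (h1 : ∀ x, act 1 x = x)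
    (hmul : ∀ g h x, act (g * h) x = act g (act h x)) (N : Subgroup Γ) (c : Γ)
    (hcN : ∀ n ∈ N, c * n * c⁻¹ ∈ N) (hcN' : ∀ n ∈ N, c⁻¹ * n * c ∈ N)
    (hno : ∀ g ∈ N, ∀ u : X, act g (act g (act g u)) = u → act g u = u)
    (Ω : Set X) (x₁ x₂ x₃ : X) (hc : Cyc3 act Ω c x₁ x₂ x₃)
    (c' : Γ) (ht : c' * c⁻¹ ∈ N) (y₁ y₂ y₃ : X) (hc' : Cyc3 act Ω c' y₁ y₂ y₃)
    (k1 : y₁ ≠ x₁ ∧ y₁ ≠ x₂ ∧ y₁ ≠ x₃) (k2 : y₂ ≠ x₁ ∧ y₂ ≠ x₂ ∧ y₂ ≠ x₃)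
    (k3 : y₃ ≠ x₁ ∧ y₃ ≠ x₂ ∧ y₃ ≠ x₃) : False := by
  have hinv : ∀ u, act c⁻¹ (act c u) = u := fun u => by rw [← hmul, inv_mul_cancel, h1]
  have t1 : act (c' * c⁻¹) x₁ = x₃ := by
    have e : act c⁻¹ x₁ = x₃ := by rw [← hc.a3, hinv]
    rw [hmul, e]
    exact hc'.fix x₃ hc.m3 (Ne.symm k1.2.2) (Ne.symm k2.2.2) (Ne.symm k3.2.2)
  have t3 : act (c' * c⁻¹) x₃ = x₂ := by
    have e : act c⁻¹ x₃ = x₂ := by rw [← hc.a2, hinv]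
    rw [hmul, e]
    exact hc'.fix x₂ hc.m2 (Ne.symm k1.2.1) (Ne.symm k2.2.1) (Ne.symm k3.2.1)
  have t2 : act (c' * c⁻¹) x₂ = x₁ := by
    have e : act c⁻¹ x₂ = x₁ := by rw [← hc.a1, hinv]
    rw [hmul, e]
    exact hc'.fix x₁ hc.m1 (Ne.symm k1.1) (Ne.symm k2.1) (Ne.symm k3.1)
  have h := hno (c' * c⁻¹) ht x₁ (by rw [t1, t3, t2])
  rw [t1] at h
  exact hc.n13 h.symm

end Cfsg.Agent.Lib.Helper73.HJ
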