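import Mathlib
import Cfsg.Agent.Lib.Helper73.HJDefs

/-!
# Project HJ (S4415), piece P3A1

P3A1: supports meet in one point. `t = c' c⁻¹`, `w = t · (c t⁻¹ c⁻¹) ∈ N` acts as a 3-cycle (e.g. `c = (1 2 3)`, `c' = (3 4 5)`: `t = (1 4 5 3 2)`, `w = (1 3 4)`; `c' = (1 4 5)`: `w = (1 4 2)`).
-/

set_option autoImplicit false

namespace Cfsg.Agent.Lib.Helper73.HJ

variable {S : Type*} [Group S] [Finite S] {E : Type*} [AddCommGroup E] [Module (ZMod 3) E]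
  [Finite E]

omit [Finite S] [Finite E] in
/-- rotating the names of a 3-cycle -/
theorem hjp3a1_rot {Γ : Type*} {X : Type*} (act : Γ → X → X) (Ω : Set X) (c : Γ)
    (x₁ x₂ x₃ : X) (hc : Cyc3 act Ω c x₁ x₂ x₃) : Cyc3 act Ω c x₂ x₃ x₁ where
  n12 := hc.n23
  n13 := hc.n12.symm
  n23 := hc.n13.symm
  m1 := hc.m2
  m2 := hc.m3
  m3 := hc.m1
  a1 := hc.a2
  a2 := hc.a3
  a3 := hc.a1
  fix := fun u hu h2 h3 h1 => hc.fix u hu h1 h2 h3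

omit [Finite S] [Finite E] in
/-- the case `y₁ = x₃`: the commutator `c' c c'⁻¹ c⁻¹ ∈ N` acts as the 3-cycle `(x₁ x₃ y₂)` -/
theorem hjp3a1_core {Γ : Type*} [Group Γ] {X : Type*} (act : Γ → X → X) (h1 : ∀ x, act 1 x = x)
    (hmul : ∀ g h x, act (g * h) x = act g (act h x)) (N : Subgroup Γ) (c : Γ)
    (hcN : ∀ n ∈ N, c * n * c⁻¹ ∈ N)
    (hno : ∀ g ∈ N, ∀ u : X, act g (act g (act g u)) = u → act g u = u)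
    (Ω : Set X) (x₁ x₂ x₃ : X) (hc : Cyc3 act Ω c x₁ x₂ x₃)
    (c' : Γ) (ht : c' * c⁻¹ ∈ N) (y₂ y₃ : X) (hc' : Cyc3 act Ω c' x₃ y₂ y₃)
    (k2 : y₂ ≠ x₁ ∧ y₂ ≠ x₂ ∧ y₂ ≠ x₃)
    (k3 : y₃ ≠ x₁ ∧ y₃ ≠ x₂ ∧ y₃ ≠ x₃) : False := by
  have hinv : ∀ (g : Γ) (a b : X), act g a = b → act g⁻¹ b = a := by
    intro g a b hab
    rw [← hab, ← hmul, inv_mul_cancel, h1]
  have hgN : c' * c * c'⁻¹ * c⁻¹ ∈ N := by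
    have h := N.mul_mem ht (hcN _ (N.inv_mem ht))
    have e : c' * c⁻¹ * (c * (c' * c⁻¹)⁻¹ * c⁻¹) = c' * c * c'⁻¹ * c⁻¹ := by group
    rwa [e] at h
  have hact : ∀ u, act (c' * c * c'⁻¹ * c⁻¹) u = act c' (act c (act c'⁻¹ (act c⁻¹ u))) := by
    intro u
    rw [hmul, hmul, hmul]
  have c'x1 : act c' x₁ = x₁ := hc'.fix x₁ hc.m1 hc.n13 (Ne.symm k2.1) (Ne.symm k3.1)
  have c'x2 : act c' x₂ = x₂ := hc'.fix x₂ hc.m2 hc.n23 (Ne.symm k2.2.1) (Ne.symm k3.2.1)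
  have cy2 : act c y₂ = y₂ := hc.fix y₂ hc'.m2 k2.1 k2.2.1 k2.2.2
  have cy3 : act c y₃ = y₃ := hc.fix y₃ hc'.m3 k3.1 k3.2.1 k3.2.2
  have w1 : act (c' * c * c'⁻¹ * c⁻¹) x₁ = x₃ := by
    rw [hact, hinv c x₃ x₁ hc.a3, hinv c' y₃ x₃ hc'.a3, cy3, hc'.a3]
  have w3 : act (c' * c * c'⁻¹ * c⁻¹) x₃ = y₂ := by
    rw [hact, hinv c x₂ x₃ hc.a2, hinv c' x₂ x₂ c'x2, hc.a2, hc'.a1]
  have w2 : act (c' * c * c'⁻¹ * c⁻¹) y₂ = x₁ := by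
    rw [hact, hinv c y₂ y₂ cy2, hinv c' x₃ y₂ hc'.a1, hc.a3, c'x1]
  have h3 := hno _ hgN x₁ (by rw [w1, w3, w2])
  rw [w1] at h3
  exact hc.n13 h3.symm

theorem hj_p3a1 {Γ : Type*} [Group Γ] {X : Type*} (act : Γ → X → X) (h1 : ∀ x, act 1 x = x)
    (hmul : ∀ g h x, act (g * h) x = act g (act h x)) (N : Subgroup Γ) (c : Γ)
    (hcN : ∀ n ∈ N, c * n * c⁻¹ ∈ N) (hcN' : ∀ n ∈ N, c⁻¹ * n * c ∈ N)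
    (hno : ∀ g ∈ N, ∀ u : X, act g (act g (act g u)) = u → act g u = u)
    (Ω : Set X) (x₁ x₂ x₃ : X) (hc : Cyc3 act Ω c x₁ x₂ x₃)
    (c' : Γ) (ht : c' * c⁻¹ ∈ N) (y₁ y₂ y₃ : X) (hc' : Cyc3 act Ω c' y₁ y₂ y₃)
    (k1 : y₁ = x₁ ∨ y₁ = x₂ ∨ y₁ = x₃) (k2 : y₂ ≠ x₁ ∧ y₂ ≠ x₂ ∧ y₂ ≠ x₃)
    (k3 : y₃ ≠ x₁ ∧ y₃ ≠ x₂ ∧ y₃ ≠ x₃) : False := by
  rcases k1 with h | h | h
  · rw [h] at hc'
    exact hjp3a1_core act h1 hmul N c hcN hno Ω x₂ x₃ x₁ (hjp3a1_rot act Ω c x₁ x₂ x₃ hc) c' ht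
      y₂ y₃ hc' ⟨k2.2.1, k2.2.2, k2.1⟩ ⟨k3.2.1, k3.2.2, k3.1⟩
  · rw [h] at hc'
    exact hjp3a1_core act h1 hmul N c hcN hno Ω x₃ x₁ x₂
      (hjp3a1_rot act Ω c x₂ x₃ x₁ (hjp3a1_rot act Ω c x₁ x₂ x₃ hc)) c' ht
      y₂ y₃ hc' ⟨k2.2.2, k2.1, k2.2.1⟩ ⟨k3.2.2, k3.1, k3.2.1⟩
  · rw [h] at hc'
    exact hjp3a1_core act h1 hmul N c hcN hno Ω x₁ x₂ x₃ hc c' ht y₂ y₃ hc' k2 k3

end Cfsg.Agent.Lib.Helper73.HJ
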