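import Mathlib
import Cfsg.Agent.Lib.Helper73.HJDefs

/-!
# Project HJ (S4415), piece P3A2

P3A2: supports meet in two points `y₁, y₂`. If `y₂ = c y₁` then `t = c' c⁻¹` is a 3-cycle: contradiction. If `y₁ = c y₂` then `t` is the double transposition `(y₂, c y₁)(y₁, y₃)`; conjugate by the power of `c` taking `y₁` to `x₁` (e.g. `c = (1 2 3)`, `c' = (1 3 4)`: `t = (1 4)(2 3)`).
-/

set_option autoImplicit false

namespace Cfsg.Agent.Lib.Helper73.HJ

variable {S : Type*} [Group S] [Finite S] {E : Type*} [AddCommGroup E] [Module (ZMod 3) E]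
  [Finite E]

theorem hj_p3a2 {Γ : Type*} [Group Γ] {X : Type*} (act : Γ → X → X) (h1 : ∀ x, act 1 x = x)
    (hmul : ∀ g h x, act (g * h) x = act g (act h x)) (N : Subgroup Γ) (c : Γ)
    (hcN : ∀ n ∈ N, c * n * c⁻¹ ∈ N) (hcN' : ∀ n ∈ N, c⁻¹ * n * c ∈ N)
    (hno : ∀ g ∈ N, ∀ u : X, act g (act g (act g u)) = u → act g u = u)
    (Ω : Set X) (x₁ x₂ x₃ : X) (hc : Cyc3 act Ω c x₁ x₂ x₃)
    (c' : Γ) (ht : c' * c⁻¹ ∈ N) (y₁ y₂ y₃ : X) (hc' : Cyc3 act Ω c' y₁ y₂ y₃)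
    (k1 : y₁ = x₁ ∨ y₁ = x₂ ∨ y₁ = x₃) (k2 : y₂ = x₁ ∨ y₂ = x₂ ∨ y₂ = x₃)
    (k3 : y₃ ≠ x₁ ∧ y₃ ≠ x₂ ∧ y₃ ≠ x₃) :
    ∃ g ∈ N, act g x₁ = y₃ ∧ act g y₃ = x₁ ∧ act g x₂ = x₃ ∧ act g x₃ = x₂ ∧
      ∀ u ∈ Ω, u ≠ x₁ → u ≠ x₂ → u ≠ x₃ → u ≠ y₃ → act g u = u := by
  obtain ⟨n12, n13, n23, m1, m2, m3, a1, a2, a3, fx⟩ := hc
  obtain ⟨n12', n13', n23', m1', m2', m3', a1', a2', a3', fx'⟩ := hc'
  obtain ⟨k31, k32, k33⟩ := k3
  have hinv : ∀ (g : Γ) (u v : X), act g u = v → act g⁻¹ v = u := by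
    intro g u v h
    rw [← h, ← hmul, inv_mul_cancel, h1]
  have b1 : act c⁻¹ x₂ = x₁ := hinv c _ _ a1
  have b2 : act c⁻¹ x₃ = x₂ := hinv c _ _ a2
  have b3 : act c⁻¹ x₁ = x₃ := hinv c _ _ a3
  have cy3 : act c y₃ = y₃ := fx y₃ m3' k31 k32 k33
  have by3 : act c⁻¹ y₃ = y₃ := hinv c _ _ cy3
  rcases k1 with e1 | e1 | e1 <;> rcases k2 with e2 | e2 | e2
  · exact absurd (e1.trans e2.symm) n12'
  · -- `(y₁, y₂) = (x₁, x₂)`: a 3-cycle
    exfalso
    have e1' := e1.symm; have e2' := e2.symm; subst e1'; subst e2'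
    have p3 : act c' x₃ = x₃ := fx' x₃ m3 n13.symm n23.symm k33.symm
    have h := hno _ ht x₁
      (by simp only [hmul, a1, a2, a3, b1, b2, b3, cy3, by3, a1', a2', a3', p3])
    simp only [hmul, a1, a2, a3, b1, b2, b3, cy3, by3, a1', a2', a3', p3] at h
    exact n13 h.symm
  · -- `(y₁, y₂) = (x₁, x₃)`: `t` itself
    have e1' := e1.symm; have e2' := e2.symm; subst e1'; subst e2'
    have p2 : act c' x₂ = x₂ := fx' x₂ m2 n12.symm n23 k32.symm
    refine ⟨c' * c⁻¹, ht, ?_, ?_, ?_, ?_, ?_⟩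
    · simp only [hmul, a1, a2, a3, b1, b2, b3, cy3, by3, a1', a2', a3', p2]
    · simp only [hmul, a1, a2, a3, b1, b2, b3, cy3, by3, a1', a2', a3', p2]
    · simp only [hmul, a1, a2, a3, b1, b2, b3, cy3, by3, a1', a2', a3', p2]
    · simp only [hmul, a1, a2, a3, b1, b2, b3, cy3, by3, a1', a2', a3', p2]
    · intro u hu u1 u2 u3 u4
      have cu : act c u = u := fx u hu u1 u2 u3
      have bu : act c⁻¹ u = u := hinv c _ _ cu
      have c'u : act c' u = u := fx' u hu u1 u3 u4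
      simp only [hmul, cu, bu, c'u]
  · -- `(y₁, y₂) = (x₂, x₁)`: conjugate by `c⁻¹`
    have e1' := e1.symm; have e2' := e2.symm; subst e1'; subst e2'
    have p3 : act c' x₃ = x₃ := fx' x₃ m3 n23.symm n13.symm k33.symm
    refine ⟨c⁻¹ * (c' * c⁻¹) * c, hcN' _ ht, ?_, ?_, ?_, ?_, ?_⟩
    · simp only [hmul, a1, a2, a3, b1, b2, b3, cy3, by3, a1', a2', a3', p3]
    · simp only [hmul, a1, a2, a3, b1, b2, b3, cy3, by3, a1', a2', a3', p3]
    · simp only [hmul, a1, a2, a3, b1, b2, b3, cy3, by3, a1', a2', a3', p3]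
    · simp only [hmul, a1, a2, a3, b1, b2, b3, cy3, by3, a1', a2', a3', p3]
    · intro u hu u1 u2 u3 u4
      have cu : act c u = u := fx u hu u1 u2 u3
      have bu : act c⁻¹ u = u := hinv c _ _ cu
      have c'u : act c' u = u := fx' u hu u2 u1 u4
      simp only [hmul, cu, bu, c'u]
  · exact absurd (e1.trans e2.symm) n12'
  · -- `(y₁, y₂) = (x₂, x₃)`: a 3-cycle
    exfalso
    have e1' := e1.symm; have e2' := e2.symm; subst e1'; subst e2'
    have p1 : act c' x₁ = x₁ := fx' x₁ m1 n12 n13 k31.symm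
    have h := hno _ ht x₂
      (by simp only [hmul, a1, a2, a3, b1, b2, b3, cy3, by3, a1', a2', a3', p1])
    simp only [hmul, a1, a2, a3, b1, b2, b3, cy3, by3, a1', a2', a3', p1] at h
    exact n12 h
  · -- `(y₁, y₂) = (x₃, x₁)`: a 3-cycle
    exfalso
    have e1' := e1.symm; have e2' := e2.symm; subst e1'; subst e2'
    have p2 : act c' x₂ = x₂ := fx' x₂ m2 n23 n12.symm k32.symm
    have h := hno _ ht x₃
      (by simp only [hmul, a1, a2, a3, b1, b2, b3, cy3, by3, a1', a2', a3', p2])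
    simp only [hmul, a1, a2, a3, b1, b2, b3, cy3, by3, a1', a2', a3', p2] at h
    exact n23 h
  · -- `(y₁, y₂) = (x₃, x₂)`: conjugate by `c`
    have e1' := e1.symm; have e2' := e2.symm; subst e1'; subst e2'
    have p1 : act c' x₁ = x₁ := fx' x₁ m1 n13 n12 k31.symm
    refine ⟨c * (c' * c⁻¹) * c⁻¹, hcN _ ht, ?_, ?_, ?_, ?_, ?_⟩
    · simp only [hmul, a1, a2, a3, b1, b2, b3, cy3, by3, a1', a2', a3', p1]
    · simp only [hmul, a1, a2, a3, b1, b2, b3, cy3, by3, a1', a2', a3', p1]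
    · simp only [hmul, a1, a2, a3, b1, b2, b3, cy3, by3, a1', a2', a3', p1]
    · simp only [hmul, a1, a2, a3, b1, b2, b3, cy3, by3, a1', a2', a3', p1]
    · intro u hu u1 u2 u3 u4
      have cu : act c u = u := fx u hu u1 u2 u3
      have bu : act c⁻¹ u = u := hinv c _ _ cu
      have c'u : act c' u = u := fx' u hu u3 u2 u4
      simp only [hmul, cu, bu, c'u]
  · exact absurd (e1.trans e2.symm) n12'

end Cfsg.Agent.Lib.Helper73.HJ
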