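import Mathlib
import Cfsg.Agent.Lib.Helper73.HJDefs

/-!
# Project HJ (S4415), piece P3A3

P3A3: same support: `c'` is `c` or `c⁻¹` on it; in the second case `t = c' c⁻¹` acts as `c` there: a 3-cycle in `N`.
-/

set_option autoImplicit false

namespace Cfsg.Agent.Lib.Helper73.HJ

variable {S : Type*} [Group S] [Finite S] {E : Type*} [AddCommGroup E] [Module (ZMod 3) E]
  [Finite E]

theorem hj_p3a3 {Γ : Type*} [Group Γ] {X : Type*} (act : Γ → X → X) (h1 : ∀ x, act 1 x = x)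
    (hmul : ∀ g h x, act (g * h) x = act g (act h x)) (N : Subgroup Γ) (c : Γ)
    (hcN : ∀ n ∈ N, c * n * c⁻¹ ∈ N) (hcN' : ∀ n ∈ N, c⁻¹ * n * c ∈ N)
    (hno : ∀ g ∈ N, ∀ u : X, act g (act g (act g u)) = u → act g u = u)
    (Ω : Set X) (x₁ x₂ x₃ : X) (hc : Cyc3 act Ω c x₁ x₂ x₃)
    (c' : Γ) (ht : c' * c⁻¹ ∈ N) (y₁ y₂ y₃ : X) (hc' : Cyc3 act Ω c' y₁ y₂ y₃)
    (k1 : y₁ = x₁ ∨ y₁ = x₂ ∨ y₁ = x₃) (k2 : y₂ = x₁ ∨ y₂ = x₂ ∨ y₂ = x₃)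
    (k3 : y₃ = x₁ ∨ y₃ = x₂ ∨ y₃ = x₃) :
    (y₁ = x₁ ∧ y₂ = x₂ ∧ y₃ = x₃) ∨ (y₁ = x₂ ∧ y₂ = x₃ ∧ y₃ = x₁) ∨ (y₁ = x₃ ∧ y₂ = x₁ ∧ y₃ = x₂) := by
  have hci1 : act c⁻¹ x₁ = x₃ := by
    have h := hmul c⁻¹ c x₃
    rw [inv_mul_cancel, h1, hc.a3] at h
    exact h.symm
  have hci2 : act c⁻¹ x₂ = x₁ := by
    have h := hmul c⁻¹ c x₁
    rw [inv_mul_cancel, h1, hc.a1] at h
    exact h.symm
  have hci3 : act c⁻¹ x₃ = x₂ := by
    have h := hmul c⁻¹ c x₂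
    rw [inv_mul_cancel, h1, hc.a2] at h
    exact h.symm
  -- `c'` cannot act as the inverse of `c` on the common support
  have bad : act c' x₁ = x₃ → act c' x₃ = x₂ → act c' x₂ = x₁ → False := by
    intro e1 e3 e2
    have t1 : act (c' * c⁻¹) x₁ = x₂ := by rw [hmul, hci1, e3]
    have t2 : act (c' * c⁻¹) x₂ = x₃ := by rw [hmul, hci2, e1]
    have t3 : act (c' * c⁻¹) x₃ = x₁ := by rw [hmul, hci3, e2]
    have h := hno _ ht x₁ (by rw [t1, t2, t3])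
    rw [t1] at h
    exact hc.n12 h.symm
  rcases k1 with e1 | e1 | e1 <;> rcases k2 with e2 | e2 | e2 <;> rcases k3 with e3 | e3 | e3
  all_goals first
    | exact Or.inl ⟨e1, e2, e3⟩
    | exact Or.inr (Or.inl ⟨e1, e2, e3⟩)
    | exact Or.inr (Or.inr ⟨e1, e2, e3⟩)
    | exact absurd (e1.trans e2.symm) hc'.n12
    | exact absurd (e1.trans e3.symm) hc'.n13
    | exact absurd (e2.trans e3.symm) hc'.n23
    | exact (bad (by rw [← e1, ← e2]; exact hc'.a1) (by rw [← e2, ← e3]; exact hc'.a2)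
        (by rw [← e3, ← e1]; exact hc'.a3)).elim
    | exact (bad (by rw [← e2, ← e3]; exact hc'.a2) (by rw [← e3, ← e1]; exact hc'.a3)
        (by rw [← e1, ← e2]; exact hc'.a1)).elim
    | exact (bad (by rw [← e3, ← e1]; exact hc'.a3) (by rw [← e1, ← e2]; exact hc'.a1)
        (by rw [← e2, ← e3]; exact hc'.a2)).elim

end Cfsg.Agent.Lib.Helper73.HJ
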