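import Mathlib
import Cfsg.Agent.Lib.Helper73.HJDefs
import Cfsg.Agent.Lib.Helper73.HJP3A0
import Cfsg.Agent.Lib.Helper73.HJP3A1
import Cfsg.Agent.Lib.Helper73.HJP3A2
import Cfsg.Agent.Lib.Helper73.HJP3A3

/-!
# Project HJ (S4415), piece P3A

P3A: case on which `y_i` lie in `{x₁,x₂,x₃}`; rotate `(y₁,y₂,y₃)` (the hypothesis `Cyc3` is invariant under rotation) to reduce to P3A0..P3A3.
-/

set_option autoImplicit false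

namespace Cfsg.Agent.Lib.Helper73.HJ

variable {S : Type*} [Group S] [Finite S] {E : Type*} [AddCommGroup E] [Module (ZMod 3) E]
  [Finite E]

theorem hjp3a_rot {Γ : Type*} {X : Type*} (act : Γ → X → X) (Ω : Set X) (c : Γ) (y₁ y₂ y₃ : X)
    (h : Cyc3 act Ω c y₁ y₂ y₃) : Cyc3 act Ω c y₂ y₃ y₁ :=
  ⟨h.n23, h.n12.symm, h.n13.symm, h.m2, h.m3, h.m1, h.a2, h.a3, h.a1,
    fun u hu h2 h3 h1 => h.fix u hu h1 h2 h3⟩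

theorem hjp3a_or4 {X : Type*} {u x₁ x₂ x₃ : X} (y : X) (h : u = x₁ ∨ u = x₂ ∨ u = x₃) :
    u = x₁ ∨ u = x₂ ∨ u = x₃ ∨ u = y := by
  rcases h with h | h | h
  · exact Or.inl h
  · exact Or.inr (Or.inl h)
  · exact Or.inr (Or.inr (Or.inl h))

theorem hjp3a_not3 {X : Type*} {u x₁ x₂ x₃ : X} (h : ¬ (u = x₁ ∨ u = x₂ ∨ u = x₃)) :
    u ≠ x₁ ∧ u ≠ x₂ ∧ u ≠ x₃ :=
  ⟨fun h' => h (Or.inl h'), fun h' => h (Or.inr (Or.inl h')), fun h' => h (Or.inr (Or.inr h'))⟩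

theorem hj_p3a {Γ : Type*} [Group Γ] {X : Type*} (act : Γ → X → X) (h1 : ∀ x, act 1 x = x)
    (hmul : ∀ g h x, act (g * h) x = act g (act h x)) (N : Subgroup Γ) (c : Γ)
    (hcN : ∀ n ∈ N, c * n * c⁻¹ ∈ N) (hcN' : ∀ n ∈ N, c⁻¹ * n * c ∈ N)
    (hno : ∀ g ∈ N, ∀ u : X, act g (act g (act g u)) = u → act g u = u)
    (Ω : Set X) (x₁ x₂ x₃ : X) (hc : Cyc3 act Ω c x₁ x₂ x₃)
    (c' : Γ) (ht : c' * c⁻¹ ∈ N) (y₁ y₂ y₃ : X) (hc' : Cyc3 act Ω c' y₁ y₂ y₃) :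
    ((y₁ = x₁ ∧ y₂ = x₂ ∧ y₃ = x₃) ∨ (y₁ = x₂ ∧ y₂ = x₃ ∧ y₃ = x₁) ∨
      (y₁ = x₃ ∧ y₂ = x₁ ∧ y₃ = x₂)) ∨
    ∃ y, y ∈ Ω ∧ y ≠ x₁ ∧ y ≠ x₂ ∧ y ≠ x₃ ∧ (y = y₁ ∨ y = y₂ ∨ y = y₃) ∧
      (∀ u, (u = y₁ ∨ u = y₂ ∨ u = y₃) → (u = x₁ ∨ u = x₂ ∨ u = x₃ ∨ u = y)) ∧
      ∃ g ∈ N, act g x₁ = y ∧ act g y = x₁ ∧ act g x₂ = x₃ ∧ act g x₃ = x₂ ∧
        ∀ u ∈ Ω, u ≠ x₁ → u ≠ x₂ → u ≠ x₃ → u ≠ y → act g u = u := by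
  have r1 := hjp3a_rot act Ω c' y₁ y₂ y₃ hc'
  have r2 := hjp3a_rot act Ω c' y₂ y₃ y₁ r1
  by_cases k1 : y₁ = x₁ ∨ y₁ = x₂ ∨ y₁ = x₃
  · by_cases k2 : y₂ = x₁ ∨ y₂ = x₂ ∨ y₂ = x₃
    · by_cases k3 : y₃ = x₁ ∨ y₃ = x₂ ∨ y₃ = x₃
      · left
        exact hj_p3a3 act h1 hmul N c hcN hcN' hno Ω x₁ x₂ x₃ hc c' ht y₁ y₂ y₃ hc' k1 k2 k3
      · have k3' := hjp3a_not3 k3
        right
        obtain ⟨g, hg, hg'⟩ := hj_p3a2 act h1 hmul N c hcN hcN' hno Ω x₁ x₂ x₃ hc c' ht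
          y₁ y₂ y₃ hc' k1 k2 k3'
        refine ⟨y₃, hc'.m3, k3'.1, k3'.2.1, k3'.2.2, Or.inr (Or.inr rfl), ?_, g, hg, hg'⟩
        intro u hu
        rcases hu with h | h | h
        · rw [h]; exact hjp3a_or4 y₃ k1
        · rw [h]; exact hjp3a_or4 y₃ k2
        · exact Or.inr (Or.inr (Or.inr h))
    · have k2' := hjp3a_not3 k2
      by_cases k3 : y₃ = x₁ ∨ y₃ = x₂ ∨ y₃ = x₃
      · right
        obtain ⟨g, hg, hg'⟩ := hj_p3a2 act h1 hmul N c hcN hcN' hno Ω x₁ x₂ x₃ hc c' ht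
          y₃ y₁ y₂ r2 k3 k1 k2'
        refine ⟨y₂, hc'.m2, k2'.1, k2'.2.1, k2'.2.2, Or.inr (Or.inl rfl), ?_, g, hg, hg'⟩
        intro u hu
        rcases hu with h | h | h
        · rw [h]; exact hjp3a_or4 y₂ k1
        · exact Or.inr (Or.inr (Or.inr h))
        · rw [h]; exact hjp3a_or4 y₂ k3
      · have k3' := hjp3a_not3 k3
        exact (hj_p3a1 act h1 hmul N c hcN hcN' hno Ω x₁ x₂ x₃ hc c' ht y₁ y₂ y₃ hc'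
          k1 k2' k3').elim
  · have k1' := hjp3a_not3 k1
    by_cases k2 : y₂ = x₁ ∨ y₂ = x₂ ∨ y₂ = x₃
    · by_cases k3 : y₃ = x₁ ∨ y₃ = x₂ ∨ y₃ = x₃
      · right
        obtain ⟨g, hg, hg'⟩ := hj_p3a2 act h1 hmul N c hcN hcN' hno Ω x₁ x₂ x₃ hc c' ht
          y₂ y₃ y₁ r1 k2 k3 k1'
        refine ⟨y₁, hc'.m1, k1'.1, k1'.2.1, k1'.2.2, Or.inl rfl, ?_, g, hg, hg'⟩
        intro u hu
        rcases hu with h | h | h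
        · exact Or.inr (Or.inr (Or.inr h))
        · rw [h]; exact hjp3a_or4 y₁ k2
        · rw [h]; exact hjp3a_or4 y₁ k3
      · have k3' := hjp3a_not3 k3
        exact (hj_p3a1 act h1 hmul N c hcN hcN' hno Ω x₁ x₂ x₃ hc c' ht y₂ y₃ y₁ r1
          k2 k3' k1').elim
    · have k2' := hjp3a_not3 k2
      by_cases k3 : y₃ = x₁ ∨ y₃ = x₂ ∨ y₃ = x₃
      · exact (hj_p3a1 act h1 hmul N c hcN hcN' hno Ω x₁ x₂ x₃ hc c' ht y₃ y₁ y₂ r2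
          k3 k1' k2').elim
      · have k3' := hjp3a_not3 k3
        exact (hj_p3a0 act h1 hmul N c hcN hcN' hno Ω x₁ x₂ x₃ hc c' ht y₁ y₂ y₃ hc'
          k1' k2' k3').elim

end Cfsg.Agent.Lib.Helper73.HJ
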