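import Mathlib
import Cfsg.Agent.Lib.Helper73.HJDefs

/-!
# Project HJ (S4415), piece P3B

P3B: `g g'` acts as the 3-cycle `y' → y → x₁ → y'`.
-/

set_option autoImplicit false

namespace Cfsg.Agent.Lib.Helper73.HJ

variable {S : Type*} [Group S] [Finite S] {E : Type*} [AddCommGroup E] [Module (ZMod 3) E]
  [Finite E]

theorem hj_p3b {Γ : Type*} [Group Γ] {X : Type*} (act : Γ → X → X) (h1 : ∀ x, act 1 x = x)
    (hmul : ∀ g h x, act (g * h) x = act g (act h x)) (N : Subgroup Γ) (c : Γ)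
    (hcN : ∀ n ∈ N, c * n * c⁻¹ ∈ N) (hcN' : ∀ n ∈ N, c⁻¹ * n * c ∈ N)
    (hno : ∀ g ∈ N, ∀ u : X, act g (act g (act g u)) = u → act g u = u)
    (Ω : Set X) (x₁ x₂ x₃ : X) (hc : Cyc3 act Ω c x₁ x₂ x₃)
    (y y' : X) (hy : y ∈ Ω) (hy' : y' ∈ Ω) (hne : y ≠ y') (hyT : y ≠ x₁ ∧ y ≠ x₂ ∧ y ≠ x₃)
    (hyT' : y' ≠ x₁ ∧ y' ≠ x₂ ∧ y' ≠ x₃) (g g' : Γ) (hg : g ∈ N) (hg' : g' ∈ N)
    (hg1 : act g x₁ = y) (hg2 : act g y = x₁)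
    (hgfix : ∀ u ∈ Ω, u ≠ x₁ → u ≠ x₂ → u ≠ x₃ → u ≠ y → act g u = u)
    (hg1' : act g' x₁ = y') (hg2' : act g' y' = x₁)
    (hgfix' : ∀ u ∈ Ω, u ≠ x₁ → u ≠ x₂ → u ≠ x₃ → u ≠ y' → act g' u = u) : False := by
  have a1 : act (g * g') y' = y := by rw [hmul, hg2', hg1]
  have a2 : act (g * g') y = x₁ := by
    rw [hmul, hgfix' y hy hyT.1 hyT.2.1 hyT.2.2 hne, hg2]
  have a3 : act (g * g') x₁ = y' := by
    rw [hmul, hg1', hgfix y' hy' hyT'.1 hyT'.2.1 hyT'.2.2 (Ne.symm hne)]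
  have h := hno (g * g') (N.mul_mem hg hg') y' (by rw [a1, a2, a3])
  rw [a1] at h
  exact hne h

end Cfsg.Agent.Lib.Helper73.HJ
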