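import Mathlib
import Cfsg.Agent.Lib.Helper73.HJDefs

/-!
# Project HJ (S4415), piece P3C

P3C: `n` induces a permutation `π` of the four points (injective as `act n⁻¹` inverts it). If `π` is a 3-cycle: `hno` for `n`. If `π` is a transposition or a 4-cycle then `n c n⁻¹ c⁻¹ ∈ N` acts as a 3-cycle (`c` acts as `(x₁ x₂ x₃)` fixing `x₄`). Otherwise `π` is in the four-group.
-/

set_option autoImplicit false

namespace Cfsg.Agent.Lib.Helper73.HJ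

variable {S : Type*} [Group S] [Finite S] {E : Type*} [AddCommGroup E] [Module (ZMod 3) E]
  [Finite E]

/-- the permutation `(0 1 2)` of `Fin 4` -/
def hjp3c_g : Fin 4 → Fin 4 := ![1, 2, 0, 3]

/-- the permutation `(0 2 1)` of `Fin 4` -/
def hjp3c_gi : Fin 4 → Fin 4 := ![2, 0, 1, 3]

/-- the combinatorial core of P3C, as a statement on self-maps of `Fin 4` -/
def hjp3c_P (π : Fin 4 → Fin 4) : Prop :=
  (∀ i j : Fin 4, π i = π j → i = j) →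
  (∀ i : Fin 4, π (π (π i)) = i → π i = i) →
  (∀ i : Fin 4,
    π (hjp3c_g (π (hjp3c_gi (π (hjp3c_g (π (hjp3c_gi (π (hjp3c_g (π (hjp3c_gi i))))))))))) = i →
      π (hjp3c_g (π (hjp3c_gi i))) = i) →
  (π 0 = 0 ∧ π 1 = 1 ∧ π 2 = 2 ∧ π 3 = 3) ∨ (π 0 = 1 ∧ π 1 = 0 ∧ π 2 = 3 ∧ π 3 = 2) ∨
  (π 0 = 2 ∧ π 2 = 0 ∧ π 1 = 3 ∧ π 3 = 1) ∨ (π 0 = 3 ∧ π 3 = 0 ∧ π 1 = 2 ∧ π 2 = 1)

set_option maxRecDepth 100000 in
theorem hjp3c_comb0 : ∀ a b c d : Fin 4, hjp3c_P ![a, b, c, d] := by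
  unfold hjp3c_P
  decide

theorem hjp3c_comb (π : Fin 4 → Fin 4) : hjp3c_P π := by
  have h : π = ![π 0, π 1, π 2, π 3] := by
    funext i
    fin_cases i <;> rfl
  rw [h]
  exact hjp3c_comb0 _ _ _ _

theorem hjp3c_main {Γ : Type*} [Group Γ] {X : Type*} (act : Γ → X → X) (h1 : ∀ x, act 1 x = x)
    (hmul : ∀ g h x, act (g * h) x = act g (act h x)) (N : Subgroup Γ) (c : Γ)
    (hcN : ∀ n ∈ N, c * n * c⁻¹ ∈ N)
    (hno : ∀ g ∈ N, ∀ u : X, act g (act g (act g u)) = u → act g u = u)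
    (f : Fin 4 → X) (hf : Function.Injective f)
    (hcf : ∀ i, act c (f i) = f (hjp3c_g i))
    (n : Γ) (hn : n ∈ N) (π : Fin 4 → Fin 4) (hπ : ∀ i, act n (f i) = f (π i)) :
    (π 0 = 0 ∧ π 1 = 1 ∧ π 2 = 2 ∧ π 3 = 3) ∨ (π 0 = 1 ∧ π 1 = 0 ∧ π 2 = 3 ∧ π 3 = 2) ∨
    (π 0 = 2 ∧ π 2 = 0 ∧ π 1 = 3 ∧ π 3 = 1) ∨ (π 0 = 3 ∧ π 3 = 0 ∧ π 1 = 2 ∧ π 2 = 1) := by
  have hci : ∀ i, act c⁻¹ (f i) = f (hjp3c_gi i) := by
    intro i
    have hgg : hjp3c_g (hjp3c_gi i) = i := by fin_cases i <;> rfl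
    have h2 := hcf (hjp3c_gi i)
    rw [hgg] at h2
    rw [← h2, ← hmul, inv_mul_cancel, h1]
  have hinj : ∀ i j : Fin 4, π i = π j → i = j := by
    intro i j hij
    apply hf
    have e1 : act n⁻¹ (act n (f i)) = f i := by rw [← hmul, inv_mul_cancel, h1]
    have e2 : act n⁻¹ (act n (f j)) = f j := by rw [← hmul, inv_mul_cancel, h1]
    rw [← e1, ← e2, hπ, hπ, hij]
  have hn3 : ∀ i : Fin 4, π (π (π i)) = i → π i = i := by
    intro i hi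
    apply hf
    have h2 := hno n hn (f i) (by rw [hπ, hπ, hπ, hi])
    rw [hπ] at h2
    exact h2
  have hg : n * (c * n * c⁻¹) ∈ N := N.mul_mem hn (hcN n hn)
  have hgact : ∀ i, act (n * (c * n * c⁻¹)) (f i) = f (π (hjp3c_g (π (hjp3c_gi i)))) := by
    intro i
    rw [hmul, hmul, hmul, hci, hπ, hcf, hπ]
  have hg3 : ∀ i : Fin 4,
      π (hjp3c_g (π (hjp3c_gi (π (hjp3c_g (π (hjp3c_gi (π (hjp3c_g (π (hjp3c_gi i))))))))))) = i →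
        π (hjp3c_g (π (hjp3c_gi i))) = i := by
    intro i hi
    apply hf
    have h2 := hno _ hg (f i) (by rw [hgact, hgact, hgact, hi])
    rw [hgact] at h2
    exact h2
  exact hjp3c_comb π hinj hn3 hg3

theorem hj_p3c {Γ : Type*} [Group Γ] {X : Type*} (act : Γ → X → X) (h1 : ∀ x, act 1 x = x)
    (hmul : ∀ g h x, act (g * h) x = act g (act h x)) (N : Subgroup Γ) (c : Γ)
    (hcN : ∀ n ∈ N, c * n * c⁻¹ ∈ N) (hcN' : ∀ n ∈ N, c⁻¹ * n * c ∈ N)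
    (hno : ∀ g ∈ N, ∀ u : X, act g (act g (act g u)) = u → act g u = u)
    (Ω : Set X) (x₁ x₂ x₃ : X) (hc : Cyc3 act Ω c x₁ x₂ x₃)
    (x₄ : X) (hx4 : x₄ ∈ Ω) (h4 : x₄ ≠ x₁ ∧ x₄ ≠ x₂ ∧ x₄ ≠ x₃) (n : Γ) (hn : n ∈ N)
    (hmap : ∀ x, (x = x₁ ∨ x = x₂ ∨ x = x₃ ∨ x = x₄) →
      (act n x = x₁ ∨ act n x = x₂ ∨ act n x = x₃ ∨ act n x = x₄)) :
    V4 act n x₁ x₂ x₃ x₄ := by
  have hf : Function.Injective (![x₁, x₂, x₃, x₄] : Fin 4 → X) := by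
    have n12 := hc.n12
    have n13 := hc.n13
    have n23 := hc.n23
    have n41 := h4.1
    have n42 := h4.2.1
    have n43 := h4.2.2
    intro i j
    fin_cases i <;> fin_cases j <;>
      simp [n12, n13, n23, n41, n42, n43, n12.symm, n13.symm, n23.symm, n41.symm, n42.symm,
        n43.symm]
  have hcf : ∀ i, act c ((![x₁, x₂, x₃, x₄] : Fin 4 → X) i) =
      (![x₁, x₂, x₃, x₄] : Fin 4 → X) (hjp3c_g i) := by
    intro i
    fin_cases i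
    · exact hc.a1
    · exact hc.a2
    · exact hc.a3
    · exact hc.fix x₄ hx4 h4.1 h4.2.1 h4.2.2
  have hx : ∀ i : Fin 4, ∃ j : Fin 4, act n ((![x₁, x₂, x₃, x₄] : Fin 4 → X) i) =
      (![x₁, x₂, x₃, x₄] : Fin 4 → X) j := by
    intro i
    have hi : ((![x₁, x₂, x₃, x₄] : Fin 4 → X) i = x₁ ∨ (![x₁, x₂, x₃, x₄] : Fin 4 → X) i = x₂ ∨
        (![x₁, x₂, x₃, x₄] : Fin 4 → X) i = x₃ ∨ (![x₁, x₂, x₃, x₄] : Fin 4 → X) i = x₄) := by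
      fin_cases i
      · exact Or.inl rfl
      · exact Or.inr (Or.inl rfl)
      · exact Or.inr (Or.inr (Or.inl rfl))
      · exact Or.inr (Or.inr (Or.inr rfl))
    rcases hmap _ hi with h | h | h | h
    · exact ⟨0, h⟩
    · exact ⟨1, h⟩
    · exact ⟨2, h⟩
    · exact ⟨3, h⟩
  choose π hπ using hx
  have key : ∀ i j : Fin 4, π i = j → act n ((![x₁, x₂, x₃, x₄] : Fin 4 → X) i) =
      (![x₁, x₂, x₃, x₄] : Fin 4 → X) j := fun i j h => by rw [← h]; exact hπ i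
  unfold V4
  rcases hjp3c_main act h1 hmul N c hcN hno _ hf hcf n hn π hπ with h | h | h | h
  · exact Or.inl ⟨key 0 0 h.1, key 1 1 h.2.1, key 2 2 h.2.2.1, key 3 3 h.2.2.2⟩
  · exact Or.inr (Or.inl ⟨key 0 1 h.1, key 1 0 h.2.1, key 2 3 h.2.2.1, key 3 2 h.2.2.2⟩)
  · exact Or.inr (Or.inr (Or.inl ⟨key 0 2 h.1, key 2 0 h.2.1, key 1 3 h.2.2.1, key 3 1 h.2.2.2⟩))
  · exact Or.inr (Or.inr (Or.inr ⟨key 0 3 h.1, key 3 0 h.2.1, key 1 2 h.2.2.1, key 2 1 h.2.2.2⟩))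

end Cfsg.Agent.Lib.Helper73.HJ
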