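import Mathlib
import Cfsg.Agent.Lib.Helper73.HJDefs
import Cfsg.Agent.Lib.Helper73.HJP3A
import Cfsg.Agent.Lib.Helper73.HJP3B
import Cfsg.Agent.Lib.Helper73.HJP3C

/-!
# Project HJ (S4415), piece Cyc

CYC: `Ω = {act n x : n ∈ N, x ∈ {x₁,x₂,x₃}}` (`N`-invariant; `c` acts on it as the 3-cycle by `hcfix`; `hno` holds in `N` since `3 ∤ |N|`). For `n ∈ N`, `n c n⁻¹` acts on `Ω` as the 3-cycle `(n x₁, n x₂, n x₃)` and `(n c n⁻¹) c⁻¹ ∈ N`: apply P3A. First alternative: `n` acts on `{x_i}` as a power of `c`, so trivially (`hno`). Second: an outside point `y`; by P3B all `n` give the same `y =: x₄`; so `Ω = {x₁,..,x₄}`, then P3C. The element `g` of P3A maps `x₄` to `x₁`.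
-/

set_option autoImplicit false

namespace Cfsg.Agent.Lib.Helper73.HJ

variable {S : Type*} [Group S] [Finite S] {E : Type*} [AddCommGroup E] [Module (ZMod 3) E]
  [Finite E]

theorem hj_cyc {Γ : Type*} [Group Γ] {X : Type*} (act : Γ → X → X) (h1 : ∀ x, act 1 x = x)
    (hmul : ∀ g h x, act (g * h) x = act g (act h x)) [Finite Γ] (N : Subgroup Γ)
    (hcop : (Nat.card N).Coprime 3) (c : Γ) (hcN : ∀ n ∈ N, c * n * c⁻¹ ∈ N)
    (hcN' : ∀ n ∈ N, c⁻¹ * n * c ∈ N) (x₁ x₂ x₃ : X) (h12 : x₁ ≠ x₂) (h13 : x₁ ≠ x₃)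
    (h23 : x₂ ≠ x₃) (hc1 : act c x₁ = x₂) (hc2 : act c x₂ = x₃) (hc3 : act c x₃ = x₁)
    (hcfix : ∀ n ∈ N, ∀ x, (x = x₁ ∨ x = x₂ ∨ x = x₃) → act n x ≠ x₁ → act n x ≠ x₂ →
      act n x ≠ x₃ → act c (act n x) = act n x) :
    (∀ n ∈ N, act n x₁ = x₁ ∧ act n x₂ = x₂ ∧ act n x₃ = x₃) ∨
    ∃ x₄, x₄ ≠ x₁ ∧ x₄ ≠ x₂ ∧ x₄ ≠ x₃ ∧ (∀ n ∈ N, V4 act n x₁ x₂ x₃ x₄) ∧
      ∃ n ∈ N, act n x₄ = x₁ := by
  classical
  have hinv : ∀ (g : Γ) (x : X), act g⁻¹ (act g x) = x := by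
    intro g x; rw [← hmul, inv_mul_cancel, h1]
  have hinv' : ∀ (g : Γ) (x : X), act g (act g⁻¹ x) = x := by
    intro g x; rw [← hmul, mul_inv_cancel, h1]
  have hinj : ∀ (g : Γ) (x y : X), act g x = act g y → x = y := by
    intro g x y h
    have := congrArg (act g⁻¹) h
    rwa [hinv, hinv] at this
  -- no element of `N` has a 3-cycle
  have hno : ∀ g ∈ N, ∀ u : X, act g (act g (act g u)) = u → act g u = u := by
    intro g hg u h3
    have hactpow : ∀ (k : ℕ) (v : X), act (g ^ k) v = (act g)^[k] v := by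
      intro k
      induction k with
      | zero => intro v; simp [h1]
      | succ k ih => intro v; rw [pow_succ, hmul, ih, Function.iterate_succ_apply]
    have hgn : g ^ Nat.card N = 1 := by
      have := pow_card_eq_one' (G := N) (x := ⟨g, hg⟩)
      exact congrArg Subtype.val this
    have hp3 : Function.IsPeriodicPt (act g) 3 u := h3
    have hpn : Function.IsPeriodicPt (act g) (Nat.card N) u := by
      show (act g)^[Nat.card N] u = u
      rw [← hactpow, hgn, h1]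
    have hg1 := hp3.gcd hpn
    have hgcd : Nat.gcd 3 (Nat.card N) = 1 := Nat.Coprime.symm hcop
    rw [hgcd] at hg1
    exact hg1
  set Ω : Set X := {u | ∃ n ∈ N, ∃ x, (x = x₁ ∨ x = x₂ ∨ x = x₃) ∧ u = act n x} with hΩ
  have hΩN : ∀ m ∈ N, ∀ u ∈ Ω, act m u ∈ Ω := by
    rintro m hm u ⟨n, hn, x, hx, rfl⟩
    exact ⟨m * n, N.mul_mem hm hn, x, hx, by rw [hmul]⟩
  have hΩT : ∀ x, (x = x₁ ∨ x = x₂ ∨ x = x₃) → x ∈ Ω := by
    intro x hx
    exact ⟨1, N.one_mem, x, hx, (h1 x).symm⟩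
  have hcΩ : Cyc3 act Ω c x₁ x₂ x₃ := by
    refine ⟨h12, h13, h23, hΩT _ (Or.inl rfl), hΩT _ (Or.inr (Or.inl rfl)),
      hΩT _ (Or.inr (Or.inr rfl)), hc1, hc2, hc3, ?_⟩
    rintro u ⟨n, hn, x, hx, rfl⟩ k1 k2 k3
    exact hcfix n hn x hx k1 k2 k3
  have hcn : ∀ n ∈ N, Cyc3 act Ω (n * c * n⁻¹) (act n x₁) (act n x₂) (act n x₃) := by
    intro n hn
    refine ⟨fun h => h12 (hinj _ _ _ h), fun h => h13 (hinj _ _ _ h), fun h => h23 (hinj _ _ _ h),
      hΩN n hn _ hcΩ.m1, hΩN n hn _ hcΩ.m2, hΩN n hn _ hcΩ.m3, ?_, ?_, ?_, ?_⟩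
    · rw [hmul, hmul, hinv, hc1]
    · rw [hmul, hmul, hinv, hc2]
    · rw [hmul, hmul, hinv, hc3]
    · intro u hu k1 k2 k3
      rw [hmul, hmul]
      have hfix : act c (act n⁻¹ u) = act n⁻¹ u := by
        apply hcΩ.fix _ (hΩN n⁻¹ (N.inv_mem hn) u hu)
        · intro h; apply k1; rw [← h, hinv']
        · intro h; apply k2; rw [← h, hinv']
        · intro h; apply k3; rw [← h, hinv']
      rw [hfix, hinv']
  have htn : ∀ n ∈ N, n * c * n⁻¹ * c⁻¹ ∈ N := by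
    intro n hn
    have := N.mul_mem hn (hcN n⁻¹ (N.inv_mem hn))
    simpa [mul_assoc] using this
  have key := fun (n : Γ) (hn : n ∈ N) =>
    hj_p3a act h1 hmul N c hcN hcN' hno Ω x₁ x₂ x₃ hcΩ (n * c * n⁻¹) (htn n hn)
      (act n x₁) (act n x₂) (act n x₃) (hcn n hn)
  -- the first alternative of `key` means that `n` fixes the three points
  have keyI : ∀ n ∈ N, ((act n x₁ = x₁ ∧ act n x₂ = x₂ ∧ act n x₃ = x₃) ∨
      (act n x₁ = x₂ ∧ act n x₂ = x₃ ∧ act n x₃ = x₁) ∨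
      (act n x₁ = x₃ ∧ act n x₂ = x₁ ∧ act n x₃ = x₂)) →
      (act n x₁ = x₁ ∧ act n x₂ = x₂ ∧ act n x₃ = x₃) := by
    intro n hn h
    rcases h with h | ⟨a1, a2, a3⟩ | ⟨a1, a2, a3⟩
    · exact h
    · exfalso
      have := hno n hn x₁ (by rw [a1, a2, a3])
      rw [a1] at this
      exact h12 this.symm
    · exfalso
      have := hno n hn x₁ (by rw [a1, a3, a2])
      rw [a1] at this
      exact h13 this.symm
  by_cases hall : ∀ n ∈ N, (act n x₁ = x₁ ∧ act n x₂ = x₂ ∧ act n x₃ = x₃)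
  · exact Or.inl hall
  · right
    push Not at hall
    obtain ⟨n₀, hn₀, hn₀not⟩ := hall
    rcases key n₀ hn₀ with hI | ⟨x₄, hx4Ω, hx41, hx42, hx43, hx4y, -, g₀, hg₀, hg₀1, hg₀2, -, -, hg₀fix⟩
    · exact absurd (keyI n₀ hn₀ hI) (by
        intro h; exact hn₀not h.1 h.2.1 h.2.2)
    · have hmapT : ∀ n ∈ N, ∀ x, (x = x₁ ∨ x = x₂ ∨ x = x₃) →
          (act n x = x₁ ∨ act n x = x₂ ∨ act n x = x₃ ∨ act n x = x₄) := by
        intro n hn x hx
        rcases key n hn with hI | ⟨y, hyΩ, hy1, hy2, hy3, -, hyall, g, hg, hg1, hg2, -, -, hgfix⟩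
        · obtain ⟨a1, a2, a3⟩ := keyI n hn hI
          rcases hx with rfl | rfl | rfl
          · exact Or.inl a1
          · exact Or.inr (Or.inl a2)
          · exact Or.inr (Or.inr (Or.inl a3))
        · by_cases hyx : y = x₄
          · subst hyx
            apply hyall
            rcases hx with rfl | rfl | rfl
            · exact Or.inl rfl
            · exact Or.inr (Or.inl rfl)
            · exact Or.inr (Or.inr rfl)
          · exfalso
            exact hj_p3b act h1 hmul N c hcN hcN' hno Ω x₁ x₂ x₃ hcΩ x₄ y hx4Ω hyΩ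
              (fun h => hyx h.symm) ⟨hx41, hx42, hx43⟩ ⟨hy1, hy2, hy3⟩ g₀ g hg₀ hg hg₀1 hg₀2
              hg₀fix hg1 hg2 hgfix
      have hmap : ∀ n ∈ N, ∀ x, (x = x₁ ∨ x = x₂ ∨ x = x₃ ∨ x = x₄) →
          (act n x = x₁ ∨ act n x = x₂ ∨ act n x = x₃ ∨ act n x = x₄) := by
        intro n hn x hx
        rcases hx with h | h | h | h
        · exact hmapT n hn x (Or.inl h)
        · exact hmapT n hn x (Or.inr (Or.inl h))
        · exact hmapT n hn x (Or.inr (Or.inr h))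
        · subst h
          rcases hx4y with h | h | h
          · have t := hmapT (n * n₀) (N.mul_mem hn hn₀) x₁ (Or.inl rfl)
            rw [hmul, ← h] at t; exact t
          · have t := hmapT (n * n₀) (N.mul_mem hn hn₀) x₂ (Or.inr (Or.inl rfl))
            rw [hmul, ← h] at t; exact t
          · have t := hmapT (n * n₀) (N.mul_mem hn hn₀) x₃ (Or.inr (Or.inr rfl))
            rw [hmul, ← h] at t; exact t
      refine ⟨x₄, hx41, hx42, hx43, ?_, g₀, hg₀, hg₀2⟩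
      intro n hn
      exact hj_p3c act h1 hmul N c hcN hcN' hno Ω x₁ x₂ x₃ hcΩ x₄ hx4Ω ⟨hx41, hx42, hx43⟩ n hn
        (hmap n hn)

end Cfsg.Agent.Lib.Helper73.HJ
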