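import Mathlib
import Cfsg.Agent.Lib.Helper73.HJDefs
import Cfsg.Agent.Lib.Helper31.PComp
import Cfsg.Agent.Lib.Helper75.PSolvOfSolv
import Cfsg.Agent.Lib.Helper40.HallHigman

/-!
# Project HJ (S4415), piece DataL

DATAL: `K = O_{3'}(S)`, `L` = preimage of `O_3(S/K)`. `O_{3'}(S/K) = 1` (`Lib/Helper31/PComp.lean: pPrimeCore_quotient_eq_bot`), `S/K` is 3-solvable (`Lib/Helper75/PSolvOfSolv.lean`), so `C(O_3(S/K)) ≤ O_3(S/K)` (`Lib/Helper40/HallHigman.lean: centralizer_pCore_le`). The image of `B = Z(P)` centralizes the image of `P`, which contains `O_3(S/K)`; so `B ≤ L`.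
-/

set_option autoImplicit false

namespace Cfsg.Agent.Lib.Helper73.HJ

variable {S : Type*} [Group S] [Finite S] {E : Type*} [AddCommGroup E] [Module (ZMod 3) E]
  [Finite E]

theorem hj_data_l [Group.IsSolvable S] (B : Subgroup S) (P : Sylow 3 S)
    (hBZ : (Subgroup.center ↥(P : Subgroup S)).map (P : Subgroup S).subtype = B) :
    ∃ L : Subgroup S, L.Normal ∧ B ≤ L ∧ ∀ x ∈ L, ∃ k : ℕ, x ^ (3 ^ k) ∈ Cfsg.pPrimeCore 3 S := by
  classical
  haveI : Fact (Nat.Prime 3) := ⟨by norm_num⟩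
  haveI hKn : (Cfsg.pPrimeCore 3 S).Normal := Cfsg.Agent.Lib.Helper81.pPrimeCore_normal 3
  have hsurj : Function.Surjective (QuotientGroup.mk' (Cfsg.pPrimeCore 3 S)) :=
    QuotientGroup.mk'_surjective _
  haveI hsolq : Group.IsSolvable (S ⧸ Cfsg.pPrimeCore 3 S) :=
    Group.isSolvable_of_surjective hsurj
  have hred : Cfsg.pPrimeCore 3 (S ⧸ Cfsg.pPrimeCore 3 S) = ⊥ :=
    Cfsg.Agent.Lib.Helper31.pPrimeCore_quotient_eq_bot 3
  have hps : Cfsg.IsPSolvable 3 (S ⧸ Cfsg.pPrimeCore 3 S) :=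
    Cfsg.Agent.Lib.Helper75.PSS.isPSolvable_of_isSolvable 3 (by norm_num) _
  have hcen := Cfsg.Agent.Lib.Helper40.centralizer_pCore_le hps hred
  haveI hOn : (Cfsg.pCore 3 (S ⧸ Cfsg.pPrimeCore 3 S)).Normal :=
    Cfsg.Agent.Lib.Helper40.pCore_normal' 3
  have hOp : IsPGroup 3 ↥(Cfsg.pCore 3 (S ⧸ Cfsg.pPrimeCore 3 S)) :=
    Cfsg.Agent.Lib.Helper40.pCore_isPGroup' 3
  refine ⟨(Cfsg.pCore 3 (S ⧸ Cfsg.pPrimeCore 3 S)).comap (QuotientGroup.mk' (Cfsg.pPrimeCore 3 S)),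
    inferInstance, ?_, ?_⟩
  · rw [← hBZ]
    rintro _ ⟨z, hz, rfl⟩
    rw [Subgroup.mem_comap]
    apply hcen
    rw [Subgroup.mem_centralizer_iff]
    intro y hy
    have hle : Cfsg.pCore 3 (S ⧸ Cfsg.pPrimeCore 3 S) ≤ (P.mapSurjective hsurj : Subgroup _) :=
      hOp.le_sylow_of_normal (P.mapSurjective hsurj)
    have hy' := hle hy
    rw [Sylow.coe_mapSurjective] at hy'
    obtain ⟨w, hw, rfl⟩ := hy'
    have hzw : (⟨w, hw⟩ : ↥(P : Subgroup S)) * z = z * ⟨w, hw⟩ :=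
      (Subgroup.mem_center_iff.mp hz ⟨w, hw⟩)
    have hzw' : w * (z : S) = (z : S) * w := congrArg Subtype.val hzw
    show QuotientGroup.mk' _ w * QuotientGroup.mk' _ ((P : Subgroup S).subtype z) =
      QuotientGroup.mk' _ ((P : Subgroup S).subtype z) * QuotientGroup.mk' _ w
    rw [← map_mul, ← map_mul]
    exact congrArg _ hzw'
  · intro x hx
    rw [Subgroup.mem_comap] at hx
    obtain ⟨k, hk⟩ := hOp ⟨_, hx⟩
    refine ⟨k, ?_⟩
    have h1 : (QuotientGroup.mk' (Cfsg.pPrimeCore 3 S) x) ^ 3 ^ k = 1 := by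
      have := congrArg Subtype.val hk
      simpa using this
    rw [← map_pow] at h1
    exact (QuotientGroup.eq_one_iff _).mp h1

end Cfsg.Agent.Lib.Helper73.HJ
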