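import Mathlib
import Cfsg.Agent.Lib.Helper73.HJDefs
import Cfsg.Agent.Lib.Helper73.HJFrameQ

/-!
# Project HJ (S4415), piece DataQ

DATAQ: `QType` from the hypotheses; with the `q_i` of FRAMEQ, `q₃ = q₁ b q₁⁻¹ b⁻¹`, `q₁ = q₂ b q₂⁻¹ b⁻¹`, `q₂ = q₃ b q₃⁻¹ b⁻¹` lie in `⁅Q, B⁆`.
-/

set_option autoImplicit false

namespace Cfsg.Agent.Lib.Helper73.HJ

variable {S : Type*} [Group S] [Finite S] {E : Type*} [AddCommGroup E] [Module (ZMod 3) E]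
  [Finite E]

theorem hj_data_q (B : Subgroup S) (hB : Nat.card ↥B = 3) (b : S)
    (hb : Subgroup.zpowers b = B) (Q : Subgroup S) (hQ : Cfsg.IsElementaryAbelian 2 Q)
    (hQ4 : Nat.card ↥Q = 4) (hBQ : B ≤ Subgroup.normalizer (Q : Set S))
    (hBQ' : ¬ B ≤ Subgroup.centralizer (Q : Set S)) :
    QType Q b ∧ Q ≤ ⁅Q, B⁆ := by
  have hbB : b ∈ B := by rw [← hb]; exact Subgroup.mem_zpowers b
  have hb3 : b ^ 3 = 1 := by
    have h3 : orderOf b = 3 := by rw [← Nat.card_zpowers, hb]; exact hB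
    rw [← h3]; exact pow_orderOf_eq_one b
  have hexp : ∀ q ∈ Q, q * q = 1 := by
    intro q hq
    have h := hQ.2 q hq
    rwa [pow_two] at h
  have hnorm : ∀ q ∈ Q, b * q * b⁻¹ ∈ Q := by
    intro q hq
    exact (Subgroup.mem_normalizer_iff.mp (hBQ hbB) q).mp hq
  have hnc : ∃ q ∈ Q, b * q * b⁻¹ ≠ q := by
    by_contra hcon
    push Not at hcon
    apply hBQ'
    rw [← hb, Subgroup.zpowers_le, Subgroup.mem_centralizer_iff]
    intro q hq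
    have h := hcon q (SetLike.mem_coe.mp hq)
    calc q * b = (b * q * b⁻¹) * b := by rw [h]
      _ = b * q := by group
  have hQT : QType Q b := ⟨hQ4, hexp, hnorm, hnc⟩
  refine ⟨hQT, ?_⟩
  obtain ⟨q₁, q₂, q₃, hF⟩ := hj_frameq Q b hb3 hQT
  have hmem : ∀ q ∈ Q, q * b * q⁻¹ * b⁻¹ ∈ ⁅Q, B⁆ := by
    intro q hq
    have h := Subgroup.commutator_mem_commutator hq hbB
    rw [commutatorElement_def] at h
    exact h
  have hinv : ∀ q : S, q * q = 1 → q⁻¹ = q := fun q h => inv_eq_of_mul_eq_one_left h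
  have h3 : q₃ ∈ ⁅Q, B⁆ := by
    have h := hmem q₁ hF.m1
    have e : q₁ * b * q₁⁻¹ * b⁻¹ = q₃ := by
      calc q₁ * b * q₁⁻¹ * b⁻¹ = q₁ * (b * q₁ * b⁻¹)⁻¹ := by group
        _ = q₁ * q₂⁻¹ := by rw [hF.b1]
        _ = q₁ * q₂ := by rw [hinv q₂ hF.s2]
        _ = q₃ := hF.m12
    rwa [e] at h
  have h1 : q₁ ∈ ⁅Q, B⁆ := by
    have h := hmem q₂ hF.m2
    have e : q₂ * b * q₂⁻¹ * b⁻¹ = q₁ := by
      calc q₂ * b * q₂⁻¹ * b⁻¹ = q₂ * (b * q₂ * b⁻¹)⁻¹ := by group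
        _ = q₂ * q₃⁻¹ := by rw [hF.b2]
        _ = q₂ * q₃ := by rw [hinv q₃ hF.s3]
        _ = q₂ * (q₂ * q₁) := by rw [hF.m21]
        _ = (q₂ * q₂) * q₁ := by rw [mul_assoc]
        _ = q₁ := by rw [hF.s2, one_mul]
    rwa [e] at h
  have h2 : q₂ ∈ ⁅Q, B⁆ := by
    have h := hmem q₃ hF.m3
    have e : q₃ * b * q₃⁻¹ * b⁻¹ = q₂ := by
      calc q₃ * b * q₃⁻¹ * b⁻¹ = q₃ * (b * q₃ * b⁻¹)⁻¹ := by group
        _ = q₃ * q₁⁻¹ := by rw [hF.b3]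
        _ = q₃ * q₁ := by rw [hinv q₁ hF.s1]
        _ = (q₂ * q₁) * q₁ := by rw [hF.m21]
        _ = q₂ * (q₁ * q₁) := by rw [mul_assoc]
        _ = q₂ := by rw [hF.s1, mul_one]
    rwa [e] at h
  intro q hq
  rcases hF.all q hq with h | h | h | h
  · rw [h]; exact Subgroup.one_mem _
  · rw [h]; exact h1
  · rw [h]; exact h2
  · rw [h]; exact h3

end Cfsg.Agent.Lib.Helper73.HJ
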