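import Mathlib
import Cfsg.Agent.Lib.Helper73.HJDefs
import Cfsg.Agent.Lib.Helper73.HJDataL
import Cfsg.Agent.Lib.Helper73.HJDataQ
import Cfsg.Agent.Lib.Helper73.HJFrameQ

/-!
# Project HJ (S4415), piece DataA

DATAA: with `L` of DATAL (normal, `b ∈ L`): for `q ∈ Q`, `q b q⁻¹ b⁻¹ ∈ L ∩ Q`; these are all of `Q ∖ 1` (as in DATAQ); an involution `x` with `x^(3^k) ∈ K` lies in `K`.
-/

set_option autoImplicit false

namespace Cfsg.Agent.Lib.Helper73.HJ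

variable {S : Type*} [Group S] [Finite S] {E : Type*} [AddCommGroup E] [Module (ZMod 3) E]
  [Finite E]

theorem hj_data_a [Group.IsSolvable S] (B : Subgroup S) (hB : Nat.card ↥B = 3) (b : S)
    (hb : Subgroup.zpowers b = B) (Q : Subgroup S) (hQ : Cfsg.IsElementaryAbelian 2 Q)
    (hQ4 : Nat.card ↥Q = 4) (hBQ : B ≤ Subgroup.normalizer (Q : Set S))
    (hBQ' : ¬ B ≤ Subgroup.centralizer (Q : Set S)) (P : Sylow 3 S)
    (hBZ : (Subgroup.center ↥(P : Subgroup S)).map (P : Subgroup S).subtype = B) :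
    Q ≤ Cfsg.pPrimeCore 3 S := by
  obtain ⟨L, hLn, hBL, hL⟩ := hj_data_l B P hBZ
  obtain ⟨-, hQc⟩ := hj_data_q B hB b hb Q hQ hQ4 hBQ hBQ'
  intro x hx
  have hxL : x ∈ L := by
    have h1 : ⁅Q, B⁆ ≤ L :=
      (Subgroup.commutator_mono le_rfl hBL).trans (Subgroup.commutator_le_right Q L)
    exact h1 (hQc hx)
  obtain ⟨k, hk⟩ := hL x hxL
  have hx2 : x ^ 2 = 1 := hQ.2 x hx
  have hodd : Odd (3 ^ k) := Odd.pow (by decide)
  obtain ⟨m, hm⟩ := hodd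
  rw [hm, pow_succ, pow_mul, hx2, one_pow, one_mul] at hk
  exact hk

end Cfsg.Agent.Lib.Helper73.HJ
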