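import Mathlib
import Cfsg.Agent.Lib.Helper73.HJDefs

/-!
# Project HJ (S4415), piece DataB

DATAB: `N = ρ b - 1` kills `E₁`, preserves `E₀`, `N^3 = 0`, `N^2 v ≠ 0` for some `v ∈ E₀`: `v, N v, N^2 v` is a basis of `E₀` (27 elements) and `range N = N E₀ = ⟨N v, N^2 v⟩` has 9 elements.
-/

set_option autoImplicit false

namespace Cfsg.Agent.Lib.Helper73.HJ

variable {S : Type*} [Group S] [Finite S] {E : Type*} [AddCommGroup E] [Module (ZMod 3) E]
  [Finite E]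

theorem hj_data_b (ρ : Representation (ZMod 3) S E) (b : S) (hb3 : b ^ 3 = 1) (E₀ E₁ : Submodule (ZMod 3) E)
    (hE01 : E₀ ⊓ E₁ = ⊥) (hE01' : E₀ ⊔ E₁ = ⊤) (hE1 : ∀ v ∈ E₁, ρ b v = v)
    (hE0inv : ∀ v ∈ E₀, ρ b v ∈ E₀) (hE0 : Nat.card ↥E₀ = 27)
    (hind : ∃ v ∈ E₀, ρ b (ρ b v - v) - (ρ b v - v) ≠ 0) :
    Nat.card (LinearMap.range (ρ b - 1)) = 9 ∧ ∃ v : E, (ρ b - 1) ((ρ b - 1) v) ≠ 0 := by
  classical
  obtain ⟨v, hv0, hv⟩ := hind
  have hNap : ∀ w : E, (ρ b - 1) w = ρ b w - w := fun w => by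
    rw [LinearMap.sub_apply, Module.End.one_apply]
  have hNN : (ρ b - 1) ((ρ b - 1) v) ≠ 0 := by
    rw [hNap, hNap]
    exact hv
  refine ⟨?_, ⟨v, hNN⟩⟩
  have h3 : ∀ u : E, (3 : ℕ) • u = 0 := by
    intro u
    rw [← Nat.cast_smul_eq_nsmul (ZMod 3)]
    have : ((3 : ℕ) : ZMod 3) = 0 := by decide
    rw [this, zero_smul]
  have hcube : ∀ w : E, (ρ b - 1) ((ρ b - 1) ((ρ b - 1) w)) = 0 := by
    intro w
    have hb : ρ b (ρ b (ρ b w)) = w := by
      have h1 : ρ (b ^ 3) = 1 := by rw [hb3, map_one]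
      have h2 := LinearMap.congr_fun h1 w
      rw [pow_succ, pow_succ, pow_one, map_mul, map_mul] at h2
      exact h2
    simp only [hNap, map_sub, hb]
    have h4 : w - ρ b (ρ b w) - (ρ b (ρ b w) - ρ b w) - (ρ b (ρ b w) - ρ b w - (ρ b w - w))
        = (3 : ℕ) • (ρ b w - ρ b (ρ b w)) := by abel
    rw [h4, h3]
  have hNE0 : ∀ w ∈ E₀, (ρ b - 1) w ∈ E₀ := fun w hw => by
    rw [hNap]
    exact E₀.sub_mem (hE0inv w hw) hw
  have hNE1 : ∀ w ∈ E₁, (ρ b - 1) w = 0 := fun w hw => by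
    rw [hNap, hE1 w hw, sub_self]
  have hindep : ∀ α β γ : ZMod 3,
      α • v + β • (ρ b - 1) v + γ • (ρ b - 1) ((ρ b - 1) v) = 0 → α = 0 ∧ β = 0 ∧ γ = 0 := by
    intro α β γ h
    have h1 : α • (ρ b - 1) ((ρ b - 1) v) = 0 := by
      have h5 := congrArg (fun u => (ρ b - 1) ((ρ b - 1) u)) h
      simp only [map_add, map_smul, hcube, map_zero, smul_zero, add_zero] at h5
      exact h5
    have hα : α = 0 := by
      rcases smul_eq_zero.mp h1 with h6 | h6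
      · exact h6
      · exact absurd h6 hNN
    subst hα
    have h2 : β • (ρ b - 1) ((ρ b - 1) v) = 0 := by
      have h5 := congrArg (fun u => (ρ b - 1) u) h
      simp only [map_add, map_smul, hcube, map_zero, smul_zero, add_zero, zero_smul,
        zero_add] at h5
      exact h5
    have hβ : β = 0 := by
      rcases smul_eq_zero.mp h2 with h6 | h6
      · exact h6
      · exact absurd h6 hNN
    subst hβ
    have hγ : γ = 0 := by
      rw [zero_smul, zero_smul, zero_add, zero_add] at h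
      rcases smul_eq_zero.mp h with h6 | h6
      · exact h6
      · exact absurd h6 hNN
    exact ⟨rfl, rfl, hγ⟩
  let φ : (ZMod 3 × ZMod 3 × ZMod 3) →ₗ[ZMod 3] E :=
    (LinearMap.fst (ZMod 3) (ZMod 3) (ZMod 3 × ZMod 3)).smulRight v
      + ((LinearMap.fst (ZMod 3) (ZMod 3) (ZMod 3)).comp
          (LinearMap.snd (ZMod 3) (ZMod 3) (ZMod 3 × ZMod 3))).smulRight ((ρ b - 1) v)
      + ((LinearMap.snd (ZMod 3) (ZMod 3) (ZMod 3)).comp
          (LinearMap.snd (ZMod 3) (ZMod 3) (ZMod 3 × ZMod 3))).smulRight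
            ((ρ b - 1) ((ρ b - 1) v))
  have hφap : ∀ c : ZMod 3 × ZMod 3 × ZMod 3,
      φ c = c.1 • v + c.2.1 • (ρ b - 1) v + c.2.2 • (ρ b - 1) ((ρ b - 1) v) := fun c => rfl
  have hφE0 : ∀ c : ZMod 3 × ZMod 3 × ZMod 3, φ c ∈ E₀ := by
    intro c
    rw [hφap]
    exact E₀.add_mem (E₀.add_mem (E₀.smul_mem _ hv0) (E₀.smul_mem _ (hNE0 v hv0)))
      (E₀.smul_mem _ (hNE0 _ (hNE0 v hv0)))
  have hφinj : Function.Injective φ := by
    rw [← LinearMap.ker_eq_bot, LinearMap.ker_eq_bot']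
    intro c hc
    rw [hφap] at hc
    obtain ⟨h1, h2, h5⟩ := hindep _ _ _ hc
    exact Prod.ext h1 (Prod.ext h2 h5)
  have hsurj : ∀ w ∈ E₀, ∃ c : ZMod 3 × ZMod 3 × ZMod 3, φ c = w := by
    have hinj0 : Function.Injective
        (fun c : ZMod 3 × ZMod 3 × ZMod 3 => (⟨φ c, hφE0 c⟩ : ↥E₀)) :=
      fun c c' h => hφinj (congrArg Subtype.val h)
    have hcard : Nat.card (ZMod 3 × ZMod 3 × ZMod 3) = Nat.card ↥E₀ := by
      rw [hE0]
      simp [Nat.card_eq_fintype_card]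
    have hbij := (Nat.bijective_iff_injective_and_card _).2 ⟨hinj0, hcard⟩
    intro w hw
    obtain ⟨c, hc⟩ := hbij.2 ⟨w, hw⟩
    exact ⟨c, congrArg Subtype.val hc⟩
  let ψ : (ZMod 3 × ZMod 3) →ₗ[ZMod 3] E :=
    (LinearMap.fst (ZMod 3) (ZMod 3) (ZMod 3)).smulRight ((ρ b - 1) v)
      + (LinearMap.snd (ZMod 3) (ZMod 3) (ZMod 3)).smulRight ((ρ b - 1) ((ρ b - 1) v))
  have hψap : ∀ c : ZMod 3 × ZMod 3,
      ψ c = c.1 • (ρ b - 1) v + c.2 • (ρ b - 1) ((ρ b - 1) v) := fun c => rfl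
  have hψinj : Function.Injective ψ := by
    rw [← LinearMap.ker_eq_bot, LinearMap.ker_eq_bot']
    intro c hc
    rw [hψap] at hc
    have h5 := hindep 0 c.1 c.2 (by rw [zero_smul, zero_add]; exact hc)
    exact Prod.ext h5.2.1 h5.2.2
  have hrange : LinearMap.range (ρ b - 1) = LinearMap.range ψ := by
    apply le_antisymm
    · rintro _ ⟨w, rfl⟩
      have hw : w ∈ E₀ ⊔ E₁ := by
        rw [hE01']
        trivial
      obtain ⟨w₀, hw₀, w₁, hw₁, rfl⟩ := Submodule.mem_sup.mp hw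
      obtain ⟨c, rfl⟩ := hsurj w₀ hw₀
      refine ⟨(c.1, c.2.1), ?_⟩
      rw [hψap, map_add, hNE1 w₁ hw₁, add_zero, hφap, map_add, map_add, map_smul, map_smul,
        map_smul, hcube v, smul_zero, add_zero]
    · rintro _ ⟨c, rfl⟩
      refine ⟨c.1 • v + c.2 • (ρ b - 1) v, ?_⟩
      rw [hψap, map_add, map_smul, map_smul]
  rw [hrange, ← Nat.card_congr (LinearEquiv.ofInjective ψ hψinj).toEquiv]
  simp [Nat.card_eq_fintype_card]

end Cfsg.Agent.Lib.Helper73.HJ
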