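import Mathlib
import Cfsg.Agent.Lib.Helper73.HJDefs
import Cfsg.Agent.Lib.Helper31.Basic

/-!
# Project HJ (S4415), piece DataC1

DATAC1: `b^3 = 1`; `⁅K, B⁆ ≤ K` (`K` normal: `Lib/Helper12/CharTwo.lean: pPrimeCore_characteristic'`), `|K|` prime to 3 (`Lib/Helper31/Basic.lean: pPrimeCore_coprime`); `b` normalizes `K` and `B`, hence `⁅K, B⁆`.
-/

set_option autoImplicit false

namespace Cfsg.Agent.Lib.Helper73.HJ

variable {S : Type*} [Group S] [Finite S] {E : Type*} [AddCommGroup E] [Module (ZMod 3) E]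
  [Finite E]

theorem hj_data_c1 (B : Subgroup S) (hB : Nat.card ↥B = 3) (b : S)
    (hb : Subgroup.zpowers b = B) :
    b ^ 3 = 1 ∧ (Nat.card ↥⁅Cfsg.pPrimeCore 3 S, B⁆).Coprime 3 ∧
      (∀ r ∈ ⁅Cfsg.pPrimeCore 3 S, B⁆, b * r * b⁻¹ ∈ ⁅Cfsg.pPrimeCore 3 S, B⁆) ∧ ⁅Cfsg.pPrimeCore 3 S, B⁆ ≤ Cfsg.pPrimeCore 3 S := by
  have hK : (Cfsg.pPrimeCore 3 S).Normal := by
    constructor
    intro n hn g
    have h0 := Cfsg.Agent.Lib.Helper31.pPrimeCore_map (G := S) (H := S) 3 (MulAut.conj g)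
    have h1 : (MulAut.conj g).toMonoidHom n ∈
        (Cfsg.pPrimeCore 3 S).map (MulAut.conj g).toMonoidHom := Subgroup.mem_map_of_mem _ hn
    rw [h0] at h1
    have h2 : (MulAut.conj g).toMonoidHom n = g * n * g⁻¹ := MulAut.conj_apply g n
    rw [h2] at h1
    exact h1
  have hbB : b ∈ B := by
    rw [← hb]
    exact Subgroup.mem_zpowers b
  have hle : ⁅Cfsg.pPrimeCore 3 S, B⁆ ≤ Cfsg.pPrimeCore 3 S := Subgroup.commutator_le_left _ _
  refine ⟨?_, ?_, ?_, hle⟩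
  · have h1 : orderOf b = 3 := by
      rw [← Nat.card_zpowers, hb, hB]
    rw [← h1]
    exact pow_orderOf_eq_one b
  · exact Nat.Coprime.coprime_dvd_left (Subgroup.card_dvd_of_le hle)
      (Cfsg.Agent.Lib.Helper31.pPrimeCore_coprime 3)
  · have h2 : ⁅Cfsg.pPrimeCore 3 S, B⁆ ≤
        (⁅Cfsg.pPrimeCore 3 S, B⁆).comap (MulAut.conj b).toMonoidHom := by
      rw [Subgroup.commutator_le]
      intro k hk x hx
      rw [Subgroup.mem_comap, map_commutatorElement]
      apply Subgroup.commutator_mem_commutator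
      · show MulAut.conj b k ∈ Cfsg.pPrimeCore 3 S
        rw [MulAut.conj_apply]
        exact hK.conj_mem k hk b
      · show MulAut.conj b x ∈ B
        rw [MulAut.conj_apply]
        exact B.mul_mem (B.mul_mem hbB hx) (B.inv_mem hbB)
    intro r hr
    have h3 := h2 hr
    rw [Subgroup.mem_comap] at h3
    have h4 : (MulAut.conj b).toMonoidHom r = b * r * b⁻¹ := MulAut.conj_apply b r
    rw [h4] at h3
    exact h3

end Cfsg.Agent.Lib.Helper73.HJ
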