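import Mathlib
import Cfsg.Agent.Lib.Helper73.HJDefs
import Cfsg.Agent.Lib.Helper73.HJDataC1

/-!
# Project HJ (S4415), piece DataC3

DATAC3: coprime action: for `k ∈ K` the coset `k ⁅K,B⁆` (inside `K`) is invariant under conjugation by `b`, has size prime to 3, and `b^3 = 1`: it contains a point fixed by `b`.
-/

set_option autoImplicit false

namespace Cfsg.Agent.Lib.Helper73.HJ

variable {S : Type*} [Group S] [Finite S] {E : Type*} [AddCommGroup E] [Module (ZMod 3) E]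
  [Finite E]

theorem hj_data_c3 (B : Subgroup S) (hB : Nat.card ↥B = 3) (b : S)
    (hb : Subgroup.zpowers b = B) :
    ∀ k ∈ Cfsg.pPrimeCore 3 S, ∃ c ∈ Cfsg.pPrimeCore 3 S, b * c * b⁻¹ = c ∧ ∃ r ∈ ⁅Cfsg.pPrimeCore 3 S, B⁆, k = c * r := by
  classical
  obtain ⟨hb3, hcop, hbR, hRK⟩ := hj_data_c1 (S := S) B hB b hb
  intro k hk
  have hbB : b ∈ B := hb ▸ Subgroup.mem_zpowers b
  obtain ⟨R, hRdef⟩ : ∃ R : Subgroup S, R = ⁅Cfsg.pPrimeCore 3 S, B⁆ := ⟨_, rfl⟩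
  rw [← hRdef] at hcop hbR hRK ⊢
  have hmap : ∀ x : S, k⁻¹ * x ∈ R → k⁻¹ * (b * x * b⁻¹) ∈ R := by
    intro x hx
    have e : k⁻¹ * (b * x * b⁻¹) = (k⁻¹ * b * k * b⁻¹) * (b * (k⁻¹ * x) * b⁻¹) := by group
    rw [e]
    refine R.mul_mem ?_ (hbR _ hx)
    have h1 := Subgroup.commutator_mem_commutator (Subgroup.inv_mem _ hk) hbB
    rw [commutatorElement_def, inv_inv, ← hRdef] at h1
    exact h1
  obtain ⟨f, hfdef⟩ : ∃ f : Function.End {x : S // k⁻¹ * x ∈ R},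
      ∀ x, (f x : S) = b * (x : S) * b⁻¹ :=
    ⟨fun x => ⟨b * x.1 * b⁻¹, hmap x.1 x.2⟩, fun _ => rfl⟩
  have hf : f ^ 3 ^ 1 = 1 := by
    have e3 : f ^ 3 ^ 1 = f * (f * f) := by
      rw [pow_one, pow_succ', pow_two]
    rw [e3]
    funext x
    apply Subtype.ext
    rw [Function.End.mul_def, Function.End.mul_def]
    show (f (f (f x)) : S) = (x : S)
    rw [hfdef, hfdef, hfdef]
    have e : b * (b * (b * (x : S) * b⁻¹) * b⁻¹) * b⁻¹
        = (b * b * b) * (x : S) * (b * b * b)⁻¹ := by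
      group
    have hb3' : b * b * b = 1 := by
      rw [← hb3, pow_succ, pow_two]
    rw [e, hb3']
    simp
  have : Fintype {x : S // k⁻¹ * x ∈ R} := Fintype.ofFinite _
  have : Fact (Nat.Prime 3) := ⟨by norm_num⟩
  have hmod := Equiv.Perm.card_fixedPoints_modEq (p := 3) (n := 1) hf
  have hcardX : Fintype.card {x : S // k⁻¹ * x ∈ R} = Nat.card R := by
    rw [← Nat.card_eq_fintype_card]
    refine Nat.card_congr ⟨fun x => ⟨k⁻¹ * x.1, x.2⟩, fun r => ⟨k * r.1, ?_⟩, ?_, ?_⟩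
    · rw [inv_mul_cancel_left]
      exact r.2
    · intro x
      apply Subtype.ext
      show k * (k⁻¹ * x.1) = x.1
      rw [mul_inv_cancel_left]
    · intro r
      apply Subtype.ext
      show k⁻¹ * (k * r.1) = r.1
      rw [inv_mul_cancel_left]
  have key : ∀ n : ℕ, Fintype.card {x : S // k⁻¹ * x ∈ R} ≡ n [MOD 3] → n ≠ 0 := by
    intro n hn h0
    rw [h0, hcardX] at hn
    have hdvd : 3 ∣ Nat.card R := (Nat.modEq_zero_iff_dvd).1 hn
    have h1 : (3 : ℕ) ∣ 1 := by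
      have := Nat.dvd_gcd hdvd (dvd_refl 3)
      rwa [Nat.Coprime.gcd_eq_one hcop] at this
    norm_num at h1
  have hpos := key _ hmod
  rw [Fintype.card_eq_nat_card] at hpos
  have hne : Nonempty (Function.fixedPoints f) := (Nat.card_ne_zero.1 hpos).1
  obtain ⟨⟨x, hx⟩⟩ := hne
  have hfx : f x = x := hx
  have hbx : b * (x : S) * b⁻¹ = (x : S) := by
    rw [← hfdef, hfx]
  refine ⟨x.1, ?_, hbx, (k⁻¹ * x.1)⁻¹, R.inv_mem x.2, ?_⟩
  · have e : (x : S) = k * (k⁻¹ * x.1) := by rw [mul_inv_cancel_left]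
    rw [e]
    exact Subgroup.mul_mem _ hk (hRK x.2)
  · group

end Cfsg.Agent.Lib.Helper73.HJ
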