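import Mathlib
import Cfsg.Agent.Lib.Helper73.HJDefs
import Cfsg.Agent.Lib.Helper73.HJDataC3
import Cfsg.Agent.Lib.Helper73.HJDataC1

/-!
# Project HJ (S4415), piece DataC2

DATAC2: `R = ⁅K,B⁆` is generated by the `k b' k⁻¹ b'⁻¹` (`k ∈ K`, `b' ∈ {b, b^2}`). Write `k = c r` (DATAC3): `k b k⁻¹ b⁻¹ = c (r b r⁻¹ b⁻¹) c⁻¹ = (c r c⁻¹) b (c r c⁻¹)⁻¹ b⁻¹` with `c r c⁻¹ ∈ R` (`K` normalizes `⁅K,B⁆`); and `r b² r⁻¹ b⁻² = (r b r⁻¹ b⁻¹) · ((b r b⁻¹) b (b r b⁻¹)⁻¹ b⁻¹)`.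
-/

set_option autoImplicit false

namespace Cfsg.Agent.Lib.Helper73.HJ

variable {S : Type*} [Group S] [Finite S] {E : Type*} [AddCommGroup E] [Module (ZMod 3) E]
  [Finite E]

open scoped commutatorElement in
/-- `K` normalizes `⁅K, B⁆` -/
theorem hj_data_c2_norm {S : Type*} [Group S] (K B : Subgroup S) :
    ∀ c ∈ K, ∀ r ∈ ⁅K, B⁆, c * r * c⁻¹ ∈ ⁅K, B⁆ := by
  intro c hc r hr
  rw [Subgroup.commutator_def] at hr
  induction hr using Subgroup.closure_induction with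
  | mem g hg =>
    obtain ⟨k', hk', b', hb', rfl⟩ := hg
    have e : c * ⁅k', b'⁆ * c⁻¹ = ⁅c * k', b'⁆ * ⁅c, b'⁆⁻¹ := by
      simp only [commutatorElement_def]
      group
    rw [e]
    exact Subgroup.mul_mem _ (Subgroup.commutator_mem_commutator (K.mul_mem hc hk') hb')
      (Subgroup.inv_mem _ (Subgroup.commutator_mem_commutator hc hb'))
  | one =>
    have e : c * 1 * c⁻¹ = 1 := by group
    rw [e]
    exact Subgroup.one_mem _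
  | mul x y _ _ ihx ihy =>
    have e : c * (x * y) * c⁻¹ = (c * x * c⁻¹) * (c * y * c⁻¹) := by group
    rw [e]
    exact Subgroup.mul_mem _ ihx ihy
  | inv x _ ihx =>
    have e : c * x⁻¹ * c⁻¹ = (c * x * c⁻¹)⁻¹ := by group
    rw [e]
    exact Subgroup.inv_mem _ ihx

theorem hj_data_c2 (B : Subgroup S) (hB : Nat.card ↥B = 3) (b : S)
    (hb : Subgroup.zpowers b = B) :
    ⁅Cfsg.pPrimeCore 3 S, B⁆ = Subgroup.closure {g | ∃ r ∈ ⁅Cfsg.pPrimeCore 3 S, B⁆, g = r * b * r⁻¹ * b⁻¹} := by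
  obtain ⟨hb3, -, hbR, hRK⟩ := hj_data_c1 B hB b hb
  have hbnR : ∀ n : ℕ, ∀ r ∈ ⁅Cfsg.pPrimeCore 3 S, B⁆,
      b ^ n * r * (b ^ n)⁻¹ ∈ ⁅Cfsg.pPrimeCore 3 S, B⁆ := by
    intro n
    induction n with
    | zero =>
      intro r hr
      simpa using hr
    | succ n ih =>
      intro r hr
      have e : b ^ (n + 1) * r * (b ^ (n + 1))⁻¹ = b * (b ^ n * r * (b ^ n)⁻¹) * b⁻¹ := by
        rw [pow_succ']
        group
      rw [e]
      exact hbR _ (ih r hr)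
  have hgen : ∀ r ∈ ⁅Cfsg.pPrimeCore 3 S, B⁆, r * b * r⁻¹ * b⁻¹ ∈
      Subgroup.closure {g | ∃ r ∈ ⁅Cfsg.pPrimeCore 3 S, B⁆, g = r * b * r⁻¹ * b⁻¹} :=
    fun r hr => Subgroup.subset_closure ⟨r, hr, rfl⟩
  have hn : ∀ n : ℕ, ∀ r ∈ ⁅Cfsg.pPrimeCore 3 S, B⁆, r * b ^ n * r⁻¹ * (b ^ n)⁻¹ ∈
      Subgroup.closure {g | ∃ r ∈ ⁅Cfsg.pPrimeCore 3 S, B⁆, g = r * b * r⁻¹ * b⁻¹} := by
    intro n
    induction n with
    | zero =>
      intro r hr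
      have e : r * b ^ 0 * r⁻¹ * (b ^ 0)⁻¹ = 1 := by group
      rw [e]
      exact Subgroup.one_mem _
    | succ n ih =>
      intro r hr
      have e : r * b ^ (n + 1) * r⁻¹ * (b ^ (n + 1))⁻¹ =
          (r * b ^ n * r⁻¹ * (b ^ n)⁻¹) *
            ((b ^ n * r * (b ^ n)⁻¹) * b * (b ^ n * r * (b ^ n)⁻¹)⁻¹ * b⁻¹) := by
        rw [pow_succ]
        group
      rw [e]
      exact Subgroup.mul_mem _ (ih r hr) (hgen _ (hbnR n r hr))
  apply le_antisymm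
  · rw [Subgroup.commutator_le]
    intro k hk b' hb'
    rw [← hb] at hb'
    obtain ⟨n, rfl⟩ := (Submonoid.mem_powers_iff _ _).mp (mem_powers_iff_mem_zpowers.mpr hb')
    obtain ⟨c, hc, hbc, r, hr, rfl⟩ := hj_data_c3 B hB b hb k hk
    have hbc' : b * c = c * b := by
      have h := congrArg (fun t => t * b) hbc
      simpa using h
    have hcomm : Commute (b ^ n) c := (Commute.pow_left (show Commute b c from hbc') n)
    have hcomm' : c⁻¹ * b ^ n * c = b ^ n := by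
      rw [mul_assoc, hcomm.eq, ← mul_assoc, inv_mul_cancel, one_mul]
    rw [commutatorElement_def]
    have e : c * r * b ^ n * (c * r)⁻¹ * (b ^ n)⁻¹ =
        (c * r * c⁻¹) * b ^ n * (c * r * c⁻¹)⁻¹ * (b ^ n)⁻¹ := by
      have e1 : (c * r * c⁻¹) * b ^ n * (c * r * c⁻¹)⁻¹ * (b ^ n)⁻¹ =
          c * r * (c⁻¹ * b ^ n * c) * r⁻¹ * c⁻¹ * (b ^ n)⁻¹ := by group
      rw [e1, hcomm']
      group
    rw [e]
    exact hn n _ (hj_data_c2_norm _ _ c hc r hr)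
  · rw [Subgroup.closure_le]
    rintro g ⟨r, hr, rfl⟩
    have e : r * b * r⁻¹ * b⁻¹ = r * (b * r⁻¹ * b⁻¹) := by group
    rw [e]
    exact Subgroup.mul_mem _ hr (hbR _ (Subgroup.inv_mem _ hr))

end Cfsg.Agent.Lib.Helper73.HJ
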