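import Mathlib
import Cfsg.Agent.Lib.Helper73.HJDefs

/-!
# Project HJ (S4415), piece DihA

DIHA: an element of order prime to 6 acting on a space with at most 9 elements acts trivially: an orbit of size > 1 has odd size ≥ 5, and the orbits of `w` and `-w` are disjoint (odd order).
-/

set_option autoImplicit false

namespace Cfsg.Agent.Lib.Helper73.HJ

variable {S : Type*} [Group S] [Finite S] {E : Type*} [AddCommGroup E] [Module (ZMod 3) E]
  [Finite E]

theorem hj_diha (ρ : Representation (ZMod 3) S E) (x : S) (hx : (orderOf x).Coprime 6) (W : Submodule (ZMod 3) E)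
    (hW : ∀ w ∈ W, ρ x w ∈ W) (hcard : Nat.card W ≤ 9) : ∀ w ∈ W, ρ x w = w := by
  classical
  intro w hw
  by_contra hne
  have hTn : ∀ (k : ℕ) (v : E), (ρ x ^ k) v = (⇑(ρ x))^[k] v :=
    fun k v => Module.End.pow_apply (ρ x) k v
  have hinv : ∀ v, ρ x⁻¹ (ρ x v) = v := by
    intro v
    rw [← Module.End.mul_apply, ← map_mul, inv_mul_cancel, map_one, Module.End.one_apply]
  have hinj : Function.Injective (⇑(ρ x)) := by
    intro a b h
    have h' := congrArg (ρ x⁻¹) h
    rw [hinv, hinv] at h'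
    exact h'
  have hneg : ∀ (k : ℕ) (v : E), (⇑(ρ x))^[k] (-v) = -((⇑(ρ x))^[k] v) := by
    intro k v
    rw [← hTn, ← hTn, map_neg]
  have hzero : ∀ k : ℕ, (⇑(ρ x))^[k] (0 : E) = 0 := by
    intro k
    rw [← hTn, map_zero]
  have hmem : ∀ k : ℕ, (⇑(ρ x))^[k] w ∈ W := by
    intro k
    induction k with
    | zero => exact hw
    | succ k ih =>
      rw [Function.iterate_succ_apply']
      exact hW _ ih
  have hper : (⇑(ρ x))^[orderOf x] w = w := by
    rw [← hTn, ← map_pow, pow_orderOf_eq_one, map_one, Module.End.one_apply]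
  have key : ∀ m : ℕ, Nat.Coprime m (orderOf x) → (⇑(ρ x))^[m] w = w → False := by
    intro m hm hp
    have hp' : Function.IsPeriodicPt (⇑(ρ x)) m w := hp
    have hper' : Function.IsPeriodicPt (⇑(ρ x)) (orderOf x) w := hper
    have h1 := hp'.gcd hper'
    rw [hm.gcd_eq_one] at h1
    have h2 : (⇑(ρ x))^[1] w = w := h1
    rw [Function.iterate_one] at h2
    exact hne h2
  have hw0 : w ≠ 0 := by
    intro h0
    apply hne
    rw [h0, map_zero]
  have c2 : Nat.Coprime 2 (orderOf x) :=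
    (Nat.Coprime.coprime_dvd_right (by norm_num : 2 ∣ 6) hx).symm
  have c3 : Nat.Coprime 3 (orderOf x) :=
    (Nat.Coprime.coprime_dvd_right (by norm_num : 3 ∣ 6) hx).symm
  have c1 : Nat.Coprime 1 (orderOf x) := Nat.coprime_one_left _
  have c4 : Nat.Coprime 4 (orderOf x) := Nat.Coprime.mul_left c2 c2
  have c6 : Nat.Coprime 6 (orderOf x) := hx.symm
  have c8 : Nat.Coprime 8 (orderOf x) := Nat.Coprime.mul_left c2 c4
  have hA' : ∀ k : ℕ, 1 ≤ k → k ≤ 4 → (⇑(ρ x))^[k] w ≠ w := by
    intro k h1 h4 h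
    interval_cases k
    · exact key 1 c1 h
    · exact key 2 c2 h
    · exact key 3 c3 h
    · exact key 4 c4 h
  have hdouble : ∀ k : ℕ, (⇑(ρ x))^[k] w = -w → (⇑(ρ x))^[2 * k] w = w := by
    intro k h
    rw [two_mul, Function.iterate_add_apply, h, hneg, h, neg_neg]
  have hB' : ∀ k : ℕ, k ≤ 4 → (⇑(ρ x))^[k] w ≠ -w := by
    intro k h4 h
    have hd := hdouble k h
    interval_cases k
    · rw [Function.iterate_zero_apply] at h
      have h2w : w + w = 0 := by
        nth_rewrite 2 [h]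
        exact add_neg_cancel w
      have h3 : (3 : ZMod 3) • w = 0 := by
        have e : (3 : ZMod 3) = 0 := by decide
        rw [e, zero_smul]
      have e2 : (3 : ZMod 3) • w = w + w + w := by
        rw [show (3 : ZMod 3) = 1 + 1 + 1 by decide, add_smul, add_smul, one_smul]
      rw [e2, h2w, zero_add] at h3
      exact hw0 h3
    · exact key 2 c2 hd
    · exact key 4 c4 hd
    · exact key 6 c6 hd
    · exact key 8 c8 hd
  have L1 : ∀ (i d : ℕ) (u v : E), (⇑(ρ x))^[i] u = (⇑(ρ x))^[i + d] v →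
      u = (⇑(ρ x))^[d] v := by
    intro i d u v h
    rw [Function.iterate_add_apply] at h
    exact (hinj.iterate i) h
  have hne1 : ∀ i d : ℕ, 1 ≤ d → d ≤ 4 → (⇑(ρ x))^[i] w ≠ (⇑(ρ x))^[i + d] w := by
    intro i d h1 h4 h
    exact hA' d h1 h4 (L1 i d w w h).symm
  have hne2 : ∀ i d : ℕ, d ≤ 4 → (⇑(ρ x))^[i + d] w ≠ -((⇑(ρ x))^[i] w) := by
    intro i d h4 h
    rw [← hneg] at h
    exact hB' d h4 (L1 i d (-w) w h.symm).symm
  have hne3 : ∀ i d : ℕ, d ≤ 4 → (⇑(ρ x))^[i] w ≠ -((⇑(ρ x))^[i + d] w) := by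
    intro i d h4 h
    rw [← hneg] at h
    have h' := L1 i d w (-w) h
    rw [hneg] at h'
    exact hB' d h4 (neg_eq_iff_eq_neg.1 h'.symm)
  have hinjA : Set.InjOn (fun i : ℕ => (⇑(ρ x))^[i] w) (↑(Finset.range 5) : Set ℕ) := by
    intro i hi j hj hij
    rw [Finset.coe_range, Set.mem_Iio] at hi hj
    rcases Nat.lt_trichotomy i j with h | h | h
    · exfalso
      obtain ⟨d, rfl⟩ := Nat.exists_eq_add_of_lt h
      exact hne1 i (d + 1) (by omega) (by omega) hij
    · exact h
    · exfalso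
      obtain ⟨d, rfl⟩ := Nat.exists_eq_add_of_lt h
      exact hne1 j (d + 1) (by omega) (by omega) hij.symm
  have hinjB : Set.InjOn (fun i : ℕ => -((⇑(ρ x))^[i] w)) (↑(Finset.range 5) : Set ℕ) := by
    intro i hi j hj hij
    exact hinjA hi hj (neg_inj.1 hij)
  have hcA : ((Finset.range 5).image (fun i : ℕ => (⇑(ρ x))^[i] w)).card = 5 := by
    rw [Finset.card_image_of_injOn hinjA, Finset.card_range]
  have hcB : ((Finset.range 5).image (fun i : ℕ => -((⇑(ρ x))^[i] w))).card = 5 := by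
    rw [Finset.card_image_of_injOn hinjB, Finset.card_range]
  have hdisj : Disjoint ((Finset.range 5).image (fun i : ℕ => (⇑(ρ x))^[i] w))
      ((Finset.range 5).image (fun i : ℕ => -((⇑(ρ x))^[i] w))) := by
    rw [Finset.disjoint_left]
    intro v hvA hvB
    obtain ⟨i, hi, rfl⟩ := Finset.mem_image.1 hvA
    obtain ⟨j, hj, hij⟩ := Finset.mem_image.1 hvB
    rw [Finset.mem_range] at hi hj
    rcases Nat.le_total i j with h | h
    · obtain ⟨d, rfl⟩ := Nat.exists_eq_add_of_le h
      exact hne3 i d (by omega) hij.symm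
    · obtain ⟨d, rfl⟩ := Nat.exists_eq_add_of_le h
      exact hne2 j d (by omega) hij.symm
  have h0 : (0 : E) ∉ (Finset.range 5).image (fun i : ℕ => (⇑(ρ x))^[i] w) ∪
      (Finset.range 5).image (fun i : ℕ => -((⇑(ρ x))^[i] w)) := by
    intro h
    rcases Finset.mem_union.1 h with h | h
    · obtain ⟨i, _, hi⟩ := Finset.mem_image.1 h
      have hi' : (⇑(ρ x))^[i] w = (⇑(ρ x))^[i] 0 := by rw [hzero]; exact hi
      exact hw0 ((hinj.iterate i) hi')
    · obtain ⟨i, _, hi⟩ := Finset.mem_image.1 h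
      have hi'' : (⇑(ρ x))^[i] w = 0 := neg_eq_zero.1 hi
      have hi' : (⇑(ρ x))^[i] w = (⇑(ρ x))^[i] 0 := by rw [hzero]; exact hi''
      exact hw0 ((hinj.iterate i) hi')
  have hc11 : (insert (0 : E) ((Finset.range 5).image (fun i : ℕ => (⇑(ρ x))^[i] w) ∪
      (Finset.range 5).image (fun i : ℕ => -((⇑(ρ x))^[i] w)))).card = 11 := by
    rw [Finset.card_insert_of_notMem h0, Finset.card_union_of_disjoint hdisj, hcA, hcB]
  have hsub : (↑(insert (0 : E) ((Finset.range 5).image (fun i : ℕ => (⇑(ρ x))^[i] w) ∪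
      (Finset.range 5).image (fun i : ℕ => -((⇑(ρ x))^[i] w)))) : Set E) ⊆ (W : Set E) := by
    intro v hv
    rw [Finset.mem_coe, Finset.mem_insert, Finset.mem_union] at hv
    rcases hv with rfl | hv | hv
    · exact W.zero_mem
    · obtain ⟨i, _, rfl⟩ := Finset.mem_image.1 hv
      exact hmem i
    · obtain ⟨i, _, rfl⟩ := Finset.mem_image.1 hv
      exact W.neg_mem (hmem i)
  have hle := Set.ncard_le_ncard hsub (Set.toFinite _)
  rw [Set.ncard_coe_finset, hc11] at hle
  have hcW : Nat.card W = (W : Set E).ncard := Nat.card_coe_set_eq (W : Set E)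
  omega

end Cfsg.Agent.Lib.Helper73.HJ
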