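import Mathlib
import Cfsg.Agent.Lib.Helper73.HJDefs
import Cfsg.Agent.Lib.Helper73.HJDihA
import Cfsg.Agent.Lib.Helper73.HJFFLines
import Cfsg.Agent.Lib.Helper73.HJFFIndep
import Cfsg.Agent.Lib.Helper73.HJFFNe

/-!
# Project HJ (S4415), piece Dih (filled by helper74)

DIH: `x ∈ R` of odd order (prime to 6 as `|R|` is prime to 3), centralized by `q₁`, inverted by `q₂`. (1) `x` preserves `{v : q₁ v = -v} = ⟨e₂,e₃⟩` (9 elements): fixes `e₂,e₃` (DIHA). (2) `(x + x⁻¹) e₁` has weight `(+,-)`, so `= c e₁`; `⟨e₁, x e₁⟩` is `x`-invariant of order ≤ 9: `x e₁ = e₁`. (3) for `f ∈ C_E(Q)`: `(x - x⁻¹) f` has weight `(+,-)`, `= c e₁`; so `x^2 f = f + c e₁`, `x^6 f = f`, `x f = f`. By `dec`, `ρ x = 1`.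
-/

set_option autoImplicit false

namespace Cfsg.Agent.Lib.Helper73.HJ

variable {S : Type*} [Group S] [Finite S] {E : Type*} [AddCommGroup E] [Module (ZMod 3) E]
  [Finite E]

omit [Finite E] in
theorem hjdih_card_le (W : Submodule (ZMod 3) E) (v₁ v₂ : E)
    (h : ∀ w ∈ W, ∃ a a' : ZMod 3, w = a • v₁ + a' • v₂) : Nat.card W ≤ 9 := by
  classical
  choose a a' hw using fun w : W => h w.1 w.2
  have hinj : Function.Injective (fun w : W => (a w, a' w)) := by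
    intro w w' hww
    simp only [Prod.mk.injEq] at hww
    apply Subtype.ext
    rw [hw w, hw w', hww.1, hww.2]
  have h1 := Nat.card_le_card_of_injective _ hinj
  have h2 : Nat.card (ZMod 3 × ZMod 3) = 9 := by
    rw [Nat.card_prod, Nat.card_zmod]
  rw [h2] at h1
  exact h1

theorem hj_dih (ρ : Representation (ZMod 3) S E) (R Q : Subgroup S) (b : S) (hB : Base ρ R b) (hQR : Q ≤ R) (hQ : QType Q b) (q₁ q₂ q₃ : S) (e₁ e₂ e₃ : E) (hF : Frame ρ Q b q₁ q₂ q₃ e₁ e₂ e₃)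
    (x : S) (hx : x ∈ R) (hodd : Odd (orderOf x)) (h1 : q₁ * x * q₁⁻¹ = x)
    (h2 : q₂ * x * q₂⁻¹ = x⁻¹) : x = 1 := by
  classical
  obtain ⟨hL1, hL2, hL3, -⟩ := hj_ff_lines ρ Q b q₁ q₂ q₃ e₁ e₂ e₃ hF
  have hmul : ∀ (g h : S) (v : E), ρ (g * h) v = ρ g (ρ h v) := by
    intro g h v
    rw [map_mul]
    rfl
  have hone : ∀ v : E, ρ 1 v = v := by
    intro v
    rw [map_one]
    rfl
  have hxxi : ∀ v : E, ρ x (ρ x⁻¹ v) = v := by
    intro v
    rw [← hmul, mul_inv_cancel, hone]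
  have e1 : q₁ * x = x * q₁ := mul_inv_eq_iff_eq_mul.mp h1
  have e1' : q₁ * x⁻¹ = x⁻¹ * q₁ := by
    calc q₁ * x⁻¹ = x⁻¹ * (x * q₁) * x⁻¹ := by group
      _ = x⁻¹ * (q₁ * x) * x⁻¹ := by rw [e1]
      _ = x⁻¹ * q₁ := by group
  have e2 : q₂ * x = x⁻¹ * q₂ := mul_inv_eq_iff_eq_mul.mp h2
  have e2' : q₂ * x⁻¹ = x * q₂ := by
    have h3 : q₂ * x⁻¹ * q₂⁻¹ = x := by
      have h4 := congrArg (fun y => y⁻¹) h2
      simpa [mul_assoc] using h4
    exact mul_inv_eq_iff_eq_mul.mp h3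
  have hq1x : ∀ v, ρ q₁ (ρ x v) = ρ x (ρ q₁ v) := by
    intro v
    rw [← hmul, ← hmul, e1]
  have hq1xi : ∀ v, ρ q₁ (ρ x⁻¹ v) = ρ x⁻¹ (ρ q₁ v) := by
    intro v
    rw [← hmul, ← hmul, e1']
  have hq2x : ∀ v, ρ q₂ (ρ x v) = ρ x⁻¹ (ρ q₂ v) := by
    intro v
    rw [← hmul, ← hmul, e2]
  have hq2xi : ∀ v, ρ q₂ (ρ x⁻¹ v) = ρ x (ρ q₂ v) := by
    intro v
    rw [← hmul, ← hmul, e2']
  have hq22 : ∀ v, ρ q₂ (ρ q₂ v) = v := by
    intro v
    rw [← hmul, hF.s2, hone]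
  have hq12 : ∀ v, ρ q₁ (ρ q₂ v) = ρ q₂ (ρ q₁ v) := by
    intro v
    rw [← hmul, ← hmul, hF.m12, hF.m21]
  have hcop : (orderOf x).Coprime 6 := by
    have hd : orderOf x ∣ Nat.card R := by
      have h3 := orderOf_dvd_natCard (⟨x, hx⟩ : R)
      rwa [Subgroup.orderOf_mk] at h3
    have h3 : (orderOf x).Coprime 3 := Nat.Coprime.coprime_dvd_left hd hB.cop
    have h2' : (orderOf x).Coprime 2 := Nat.coprime_two_right.mpr hodd
    exact Nat.Coprime.mul_right h2' h3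
  have htwo : ∀ v : E, v + v = -v := by
    intro v
    have h3 : (2 : ZMod 3) • v = -v := by
      have h : (2 : ZMod 3) = -1 := by decide
      rw [h, neg_smul, one_smul]
    rw [← h3, two_smul]
  -- (1) the `-1`-eigenspace of `q₁`
  let W1 : Submodule (ZMod 3) E := LinearMap.ker (ρ q₁ + 1)
  have hW1 : ∀ v, v ∈ W1 ↔ ρ q₁ v = -v := by
    intro v
    simp only [W1, LinearMap.mem_ker, LinearMap.add_apply, Module.End.one_apply]
    exact add_eq_zero_iff_eq_neg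
  have hW1form : ∀ w ∈ W1, ∃ a a' : ZMod 3, w = a • e₂ + a' • e₃ := by
    intro v hv
    rw [hW1] at hv
    obtain ⟨c, hc⟩ := hL2 (v + ρ q₂ v) (by rw [map_add, hq12, hv, map_neg]; abel)
      (by rw [map_add, hq22]; abel)
    obtain ⟨c', hc'⟩ := hL3 (v - ρ q₂ v) (by rw [map_sub, hq12, hv, map_neg]; abel)
      (by rw [map_sub, hq22]; abel)
    refine ⟨-c, -c', ?_⟩
    have h4 : (v + ρ q₂ v) + (v - ρ q₂ v) = -v := by
      rw [← htwo v]
      abel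
    rw [neg_smul, neg_smul, ← hc, ← hc', ← neg_add, h4, neg_neg]
  have hW1x : ∀ w ∈ W1, ρ x w ∈ W1 := by
    intro w hw
    rw [hW1] at hw ⊢
    rw [hq1x, hw, map_neg]
  have hfix1 := hj_diha ρ x hcop W1 hW1x (hjdih_card_le W1 e₂ e₃ hW1form)
  have hxe2 : ρ x e₂ = e₂ := hfix1 e₂ ((hW1 e₂).mpr hF.q12)
  have hxe3 : ρ x e₃ = e₃ := hfix1 e₃ ((hW1 e₃).mpr hF.q13)
  -- (2) `x e₁ = e₁`
  obtain ⟨c, hc⟩ := hL1 (ρ x e₁ + ρ x⁻¹ e₁) (by rw [map_add, hq1x, hq1xi, hF.q11])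
    (by rw [map_add, hq2x, hq2xi, hF.q21, map_neg, map_neg]; abel)
  have hxx : ρ x (ρ x e₁) = c • ρ x e₁ - e₁ := by
    have h5 := congrArg (ρ x) hc
    rw [map_add, hxxi, map_smul] at h5
    rw [← h5]
    abel
  let U : Submodule (ZMod 3) E := Submodule.span (ZMod 3) {e₁, ρ x e₁}
  have hUform : ∀ w ∈ U, ∃ a a' : ZMod 3, w = a • e₁ + a' • ρ x e₁ := by
    intro w hw
    obtain ⟨a, a', h⟩ := Submodule.mem_span_pair.mp hw
    exact ⟨a, a', h.symm⟩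
  have he1U : e₁ ∈ U := Submodule.subset_span (by simp)
  have he2U : ρ x e₁ ∈ U := Submodule.subset_span (by simp)
  have hUx : ∀ w ∈ U, ρ x w ∈ U := by
    intro w hw
    obtain ⟨a, a', rfl⟩ := hUform w hw
    rw [map_add, map_smul, map_smul, hxx]
    exact U.add_mem (U.smul_mem a he2U) (U.smul_mem a' (U.sub_mem (U.smul_mem c he2U) he1U))
  have hfixU := hj_diha ρ x hcop U hUx (hjdih_card_le U e₁ (ρ x e₁) hUform)
  have hxe1 : ρ x e₁ = e₁ := hfixU e₁ he1U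
  -- (3) `x` fixes `C_E(Q)`
  have hxf : ∀ f ∈ hjFix ρ Q, ρ x f = f := by
    intro f hf
    have hq1f : ρ q₁ f = f := hf q₁ hF.m1
    have hq2f : ρ q₂ f = f := hf q₂ hF.m2
    obtain ⟨c', hc'⟩ := hL1 (ρ x f - ρ x⁻¹ f) (by rw [map_sub, hq1x, hq1xi, hq1f])
      (by rw [map_sub, hq2x, hq2xi, hq2f]; abel)
    have h6 : ρ x (ρ x f) = f + c' • e₁ := by
      have h5 := congrArg (ρ x) hc'
      rw [map_sub, hxxi, map_smul, hxe1] at h5
      rw [← h5]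
      abel
    have h7 : ρ (x ^ 2) f = f + c' • e₁ := by
      rw [pow_two, hmul]
      exact h6
    have h8 : ρ (x ^ 2) e₁ = e₁ := by
      rw [pow_two, hmul, hxe1, hxe1]
    have h9 : ρ (x ^ 6) f = f := by
      have h10 : x ^ 6 = x ^ 2 * (x ^ 2 * x ^ 2) := by group
      have h11 : ρ (x ^ 6) f = f + c' • e₁ + c' • e₁ + c' • e₁ := by
        rw [h10, hmul, hmul]
        simp only [h7, h8, map_add, map_smul]
      rw [h11]
      have h12 : (3 : ZMod 3) = 0 := by decide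
      calc f + c' • e₁ + c' • e₁ + c' • e₁ = f + (3 : ZMod 3) • (c' • e₁) := by module
        _ = f := by rw [h12, zero_smul, add_zero]
    obtain ⟨m, hm⟩ := exists_pow_eq_self_of_coprime (show Nat.Coprime 6 (orderOf x) from hcop.symm)
    have h10 : ∀ k : ℕ, ρ ((x ^ 6) ^ k) f = f := by
      intro k
      induction k with
      | zero => rw [pow_zero, hone]
      | succ k ih => rw [pow_succ, hmul, h9, ih]
    have h11 := h10 m
    rwa [hm] at h11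
  have hall : ∀ v : E, ρ x v = v := by
    intro v
    obtain ⟨f, hf, c₁, c₂, c₃, rfl⟩ := hF.dec v
    rw [map_add, map_add, map_add, map_smul, map_smul, map_smul, hxf f hf, hxe1, hxe2, hxe3]
  apply hB.faith
  ext v
  rw [hall v, hone v]

end Cfsg.Agent.Lib.Helper73.HJ
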