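import Mathlib
import Cfsg.Agent.Lib.Helper73.HJDefs
import Cfsg.Agent.Lib.Helper73.HJFrame
import Cfsg.Agent.Lib.Helper73.HJFFIndep
import Cfsg.Agent.Lib.Helper73.HJFFSpan

/-!
# Project HJ (S4415), piece Dim4Lo

DIM4LO: `(c₁,c₂,c₃) ↦ Σ c_i e_i` is injective into `[E,Q] ≤ [E,R]`.
-/

set_option autoImplicit false

namespace Cfsg.Agent.Lib.Helper73.HJ

variable {S : Type*} [Group S] [Finite S] {E : Type*} [AddCommGroup E] [Module (ZMod 3) E]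
  [Finite E]

theorem hj_dim4lo (ρ : Representation (ZMod 3) S E) (R Q : Subgroup S) (b : S) (hB : Base ρ R b) (hQR : Q ≤ R) (hQ : QType Q b) :
    27 ≤ Nat.card (hjComm ρ R) := by
  obtain ⟨q₁, q₂, q₃, e₁, e₂, e₃, hF⟩ := hj_frame ρ Q b hB.faith hB.b3 hB.rank hQ
  obtain ⟨hspan, -⟩ := hj_ff_span ρ Q b q₁ q₂ q₃ e₁ e₂ e₃ hF
  have hmono : hjComm ρ Q ≤ hjComm ρ R := by
    unfold hjComm
    apply Submodule.span_mono
    rintro w ⟨x, hx, v, rfl⟩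
    exact ⟨x, hQR hx, v, rfl⟩
  have hmem : ∀ c₁ c₂ c₃ : ZMod 3, c₁ • e₁ + c₂ • e₂ + c₃ • e₃ ∈ hjComm ρ R := by
    intro c₁ c₂ c₃
    apply hmono
    rw [hspan]
    have h1 : e₁ ∈ Submodule.span (ZMod 3) ({e₁, e₂, e₃} : Set E) :=
      Submodule.subset_span (by simp)
    have h2 : e₂ ∈ Submodule.span (ZMod 3) ({e₁, e₂, e₃} : Set E) :=
      Submodule.subset_span (by simp)
    have h3 : e₃ ∈ Submodule.span (ZMod 3) ({e₁, e₂, e₃} : Set E) :=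
      Submodule.subset_span (by simp)
    exact add_mem (add_mem (Submodule.smul_mem _ _ h1) (Submodule.smul_mem _ _ h2))
      (Submodule.smul_mem _ _ h3)
  have hinj : Function.Injective (fun c : ZMod 3 × ZMod 3 × ZMod 3 =>
      (⟨c.1 • e₁ + c.2.1 • e₂ + c.2.2 • e₃, hmem _ _ _⟩ : hjComm ρ R)) := by
    rintro ⟨c₁, c₂, c₃⟩ ⟨d₁, d₂, d₃⟩ h
    have h1 : c₁ • e₁ + c₂ • e₂ + c₃ • e₃ = d₁ • e₁ + d₂ • e₂ + d₃ • e₃ :=
      congrArg Subtype.val h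
    have h2 : (0 : E) + (c₁ - d₁) • e₁ + (c₂ - d₂) • e₂ + (c₃ - d₃) • e₃ = 0 := by
      rw [sub_smul, sub_smul, sub_smul, zero_add]
      rw [← sub_eq_zero] at h1
      rw [← h1]
      abel
    obtain ⟨-, k1, k2, k3⟩ :=
      hj_ff_indep ρ Q b q₁ q₂ q₃ e₁ e₂ e₃ hF 0 (Submodule.zero_mem _) _ _ _ h2
    rw [sub_eq_zero] at k1 k2 k3
    rw [k1, k2, k3]
  have hcard := Nat.card_le_card_of_injective _ hinj
  rw [Nat.card_prod, Nat.card_prod, Nat.card_zmod] at hcard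
  exact hcard

end Cfsg.Agent.Lib.Helper73.HJ
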