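import Mathlib
import Cfsg.Agent.Lib.Helper73.HJDefs

/-!
# Project HJ (S4415), piece Dim4Par

DIM4PAR: `x ∈ R` with `x^2 = z = -1` on `[E,R]`: the nonzero vectors split into the sets `{v, xv, -v, -xv}` of size 4 (or: `det(x)^2 = (-1)^dim` forces even dimension).
-/

set_option autoImplicit false

namespace Cfsg.Agent.Lib.Helper73.HJ

variable {S : Type*} [Group S] [Finite S] {E : Type*} [AddCommGroup E] [Module (ZMod 3) E]
  [Finite E]

theorem hj_dim4par (ρ : Representation (ZMod 3) S E) (R : Subgroup S) (b : S) (hB : Base ρ R b) (z : S) (hz : ZCen ρ R b z)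
    (x : S) (hxR : x ∈ R) (hx : x * x = z) : Nat.card (hjComm ρ R) % 4 = 1 := by
  classical
  have hinv : ∀ w ∈ hjComm ρ R, ρ x w ∈ hjComm ρ R := by
    intro w hw
    have h1 : ρ x w - w ∈ hjComm ρ R := Submodule.subset_span ⟨x, hxR, w, rfl⟩
    have h2 := Submodule.add_mem _ h1 hw
    rwa [sub_add_cancel] at h2
  obtain ⟨J, hJ⟩ : ∃ J : Module.End (ZMod 3) (hjComm ρ R), J = (ρ x).restrict hinv := ⟨_, rfl⟩
  have hJ2 : J * J = (-1 : ZMod 3) • (1 : Module.End (ZMod 3) (hjComm ρ R)) := by
    apply LinearMap.ext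
    intro w
    apply Subtype.ext
    rw [Module.End.mul_apply, LinearMap.smul_apply, Module.End.one_apply, hJ,
      LinearMap.restrict_coe_apply, LinearMap.restrict_coe_apply]
    have h3 := hz.neg w w.2
    rw [← hx, map_mul, Module.End.mul_apply] at h3
    rw [h3]
    simp
  have hdet := congrArg LinearMap.det hJ2
  rw [map_mul, LinearMap.det_smul, map_one, mul_one] at hdet
  have heven : Even (Module.finrank (ZMod 3) (hjComm ρ R)) := by
    by_contra hodd
    rw [Nat.not_even_iff_odd] at hodd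
    rw [hodd.neg_one_pow] at hdet
    generalize LinearMap.det J = d at hdet
    revert hdet
    revert d
    decide
  obtain ⟨m, hm⟩ := heven
  haveI : Fintype (hjComm ρ R) := Fintype.ofFinite _
  have hcard : Nat.card (hjComm ρ R) = 3 ^ Module.finrank (ZMod 3) (hjComm ρ R) := by
    rw [Nat.card_eq_fintype_card, Module.card_eq_pow_finrank (K := ZMod 3), ZMod.card]
  rw [hcard, hm, ← two_mul, pow_mul]
  norm_num [Nat.pow_mod]

end Cfsg.Agent.Lib.Helper73.HJ
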