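import Mathlib
import Cfsg.Agent.Lib.Helper73.HJDefs

/-!
# Project HJ (S4415), piece Dim4Up

DIM4UP: `x = y b y⁻¹ b⁻¹ ∈ R`, `x^2 = z`: `ρ x - 1` is injective on `[E,R]` (`x v = v` gives `-v = z v = v`). `(ρ x - 1) v = (ρ(y b y⁻¹) - 1)(ρ b⁻¹ v) - (ρ b - 1)(ρ b⁻¹ v)` lies in the sum of two ranges with 9 elements each.
-/

set_option autoImplicit false

namespace Cfsg.Agent.Lib.Helper73.HJ

variable {S : Type*} [Group S] [Finite S] {E : Type*} [AddCommGroup E] [Module (ZMod 3) E]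
  [Finite E]

theorem hj_dim4up (ρ : Representation (ZMod 3) S E) (R : Subgroup S) (b : S) (hB : Base ρ R b) (z : S) (hz : ZCen ρ R b z)
    (y : S) (hy : y ∈ R) (hx : (y * b * y⁻¹ * b⁻¹) * (y * b * y⁻¹ * b⁻¹) = z) :
    Nat.card (hjComm ρ R) ≤ 81 := by
  have hmul : ∀ (g h : S) (v : E), ρ (g * h) v = ρ g (ρ h v) := by
    intro g h v
    rw [map_mul, Module.End.mul_apply]
  have hinv : ∀ (g : S) (v : E), ρ g (ρ g⁻¹ v) = v := by
    intro g v
    rw [← hmul, mul_inv_cancel, map_one, Module.End.one_apply]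
  have hkey : ∀ d ∈ hjComm ρ R, (ρ b - 1) (ρ y⁻¹ (ρ b⁻¹ d)) = 0 →
      (ρ b - 1) (ρ b⁻¹ d) = 0 → d = 0 := by
    intro d hd h1 h2
    rw [LinearMap.sub_apply, Module.End.one_apply, sub_eq_zero] at h1 h2
    rw [hinv] at h2
    rw [← h2] at h1
    have hxd : ρ (y * b * y⁻¹ * b⁻¹) d = d := by
      rw [hmul, hmul, hmul, ← h2, h1, hinv]
    have hzd : ρ z d = d := by
      rw [← hx, hmul, hxd, hxd]
    have hneg := hz.neg d hd
    rw [hzd] at hneg
    have h2d : (2 : ZMod 3) • d = 0 := by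
      rw [two_smul]
      nth_rewrite 2 [hneg]
      exact add_neg_cancel d
    have h4 : d = ((2 : ZMod 3) * 2) • d := by
      rw [show (2 : ZMod 3) * 2 = 1 from by decide, one_smul]
    rw [h4, mul_smul, h2d, smul_zero]
  have hinj : Function.Injective (fun v : hjComm ρ R =>
      ((⟨(ρ b - 1) (ρ y⁻¹ (ρ b⁻¹ (v : E))), LinearMap.mem_range_self _ _⟩,
        ⟨(ρ b - 1) (ρ b⁻¹ (v : E)), LinearMap.mem_range_self _ _⟩) :
        LinearMap.range (ρ b - 1) × LinearMap.range (ρ b - 1))) := by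
    intro v v' h
    have h1 : (ρ b - 1) (ρ y⁻¹ (ρ b⁻¹ (v : E))) = (ρ b - 1) (ρ y⁻¹ (ρ b⁻¹ (v' : E))) :=
      congrArg (fun p : LinearMap.range (ρ b - 1) × LinearMap.range (ρ b - 1) => (p.1 : E)) h
    have h2 : (ρ b - 1) (ρ b⁻¹ (v : E)) = (ρ b - 1) (ρ b⁻¹ (v' : E)) :=
      congrArg (fun p : LinearMap.range (ρ b - 1) × LinearMap.range (ρ b - 1) => (p.2 : E)) h
    have hd := hkey ((v : E) - (v' : E)) (sub_mem v.2 v'.2)
      (by rw [map_sub, map_sub, map_sub, h1, sub_self])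
      (by rw [map_sub, map_sub, h2, sub_self])
    exact Subtype.ext (sub_eq_zero.mp hd)
  have hcard := Nat.card_le_card_of_injective _ hinj
  rw [Nat.card_prod, hB.rank] at hcard
  omega

end Cfsg.Agent.Lib.Helper73.HJ
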