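import Mathlib
import Cfsg.Agent.Lib.Helper73.HJDefs
import Cfsg.Agent.Lib.Helper73.HJBCen

/-!
# Project HJ (S4415), piece Dim4X (filled by helper74)

DIM4X: write `y^β = b y b⁻¹`, `⟨u,v⟩ = u v u⁻¹ v⁻¹ ∈ {1,z}` (bimultiplicative, symmetric, `b`-invariant on `A`). `(y b y⁻¹ b⁻¹)^2 = ⟨y^β, y⟩`. If this is never `z`: `⟨y, y^β⟩ = 1` for all `y`; polarize: `⟨y, y'^β⟩ = ⟨y', y^β⟩ = ⟨y, y'^{β⁻¹}⟩`, so `y'^β (y'^{β⁻¹})⁻¹` is central in `A`, i.e. in `{1,z}`; then `b y b⁻¹ ∈ {y, yz}` and `= y` as `b^3 = 1`; so `b` centralizes `A`, `A ≤ Z(R)` (BCEN): `A` abelian, contradiction.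
-/

set_option autoImplicit false

namespace Cfsg.Agent.Lib.Helper73.HJ

variable {S : Type*} [Group S] [Finite S] {E : Type*} [AddCommGroup E] [Module (ZMod 3) E]
  [Finite E]

/-- the commutator `u v u⁻¹ v⁻¹` -/
def hjdim4x_c (u v : S) : S := u * v * u⁻¹ * v⁻¹

omit [Finite S] in
theorem hjdim4x_mulL (u v w : S) (h : u * hjdim4x_c v w = hjdim4x_c v w * u) :
    hjdim4x_c (u * v) w = hjdim4x_c v w * hjdim4x_c u w := by
  unfold hjdim4x_c at h ⊢
  calc u * v * w * (u * v)⁻¹ * w⁻¹ = u * (v * w * v⁻¹ * w⁻¹) * (w * u⁻¹ * w⁻¹) := by group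
    _ = (v * w * v⁻¹ * w⁻¹) * u * (w * u⁻¹ * w⁻¹) := by rw [h]
    _ = v * w * v⁻¹ * w⁻¹ * (u * w * u⁻¹ * w⁻¹) := by group

omit [Finite S] in
theorem hjdim4x_mulR (u v w : S) (h : v * hjdim4x_c u w = hjdim4x_c u w * v) :
    hjdim4x_c u (v * w) = hjdim4x_c u v * hjdim4x_c u w := by
  unfold hjdim4x_c at h ⊢
  have h' : (u * w * u⁻¹ * w⁻¹) * v⁻¹ = v⁻¹ * (u * w * u⁻¹ * w⁻¹) := by
    calc (u * w * u⁻¹ * w⁻¹) * v⁻¹ = v⁻¹ * (v * (u * w * u⁻¹ * w⁻¹)) * v⁻¹ := by group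
      _ = v⁻¹ * ((u * w * u⁻¹ * w⁻¹) * v) * v⁻¹ := by rw [h]
      _ = v⁻¹ * (u * w * u⁻¹ * w⁻¹) := by group
  calc u * (v * w) * u⁻¹ * (v * w)⁻¹ = u * v * u⁻¹ * ((u * w * u⁻¹ * w⁻¹) * v⁻¹) := by group
    _ = u * v * u⁻¹ * (v⁻¹ * (u * w * u⁻¹ * w⁻¹)) := by rw [h']
    _ = u * v * u⁻¹ * v⁻¹ * (u * w * u⁻¹ * w⁻¹) := by group

theorem hj_dim4x (ρ : Representation (ZMod 3) S E) (R : Subgroup S) (b : S) (hB : Base ρ R b) (z : S) (hz : ZCen ρ R b z) (A : Subgroup S) (hA : ExSub R A b z) (hnab : ∃ a ∈ A, ∃ a' ∈ A, a * a' ≠ a' * a) :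
    ∃ y ∈ A, (y * b * y⁻¹ * b⁻¹) * (y * b * y⁻¹ * b⁻¹) = z := by
  classical
  by_contra hcon
  have hcon' : ∀ y ∈ A, (y * b * y⁻¹ * b⁻¹) * (y * b * y⁻¹ * b⁻¹) ≠ z := by
    intro y hy h
    exact hcon ⟨y, hy, h⟩
  have hzz : z * z = 1 := hz.sq
  have hzinv : z⁻¹ = z := inv_eq_of_mul_eq_one_left hzz
  have hzc : ∀ a ∈ A, a * z = z * a := fun a ha => hz.cen a (hA.le ha)
  have hc : ∀ u ∈ A, ∀ v ∈ A, hjdim4x_c u v = 1 ∨ hjdim4x_c u v = z := hA.comm
  have hcc : ∀ u ∈ A, ∀ v ∈ A, ∀ a ∈ A, a * hjdim4x_c u v = hjdim4x_c u v * a := by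
    intro u hu v hv a ha
    rcases hc u hu v hv with h | h
    · rw [h, mul_one, one_mul]
    · rw [h]
      exact hzc a ha
  have hsqc : ∀ u ∈ A, ∀ v ∈ A, hjdim4x_c u v * hjdim4x_c u v = 1 := by
    intro u hu v hv
    rcases hc u hu v hv with h | h
    · rw [h, mul_one]
    · rw [h]
      exact hzz
  have hmulL : ∀ u ∈ A, ∀ v ∈ A, ∀ w ∈ A,
      hjdim4x_c (u * v) w = hjdim4x_c v w * hjdim4x_c u w :=
    fun u hu v hv w hw => hjdim4x_mulL u v w (hcc v hv w hw u hu)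
  have hmulR : ∀ u ∈ A, ∀ v ∈ A, ∀ w ∈ A,
      hjdim4x_c u (v * w) = hjdim4x_c u v * hjdim4x_c u w :=
    fun u hu v hv w hw => hjdim4x_mulR u v w (hcc u hu w hw v hv)
  have hsym : ∀ u ∈ A, ∀ v ∈ A, hjdim4x_c v u = hjdim4x_c u v := by
    intro u hu v hv
    have h1 : hjdim4x_c v u = (hjdim4x_c u v)⁻¹ := by
      unfold hjdim4x_c
      group
    rw [h1]
    exact inv_eq_of_mul_eq_one_left (hsqc u hu v hv)
  have hβ : ∀ u ∈ A, ∀ v ∈ A, hjdim4x_c (b * u * b⁻¹) (b * v * b⁻¹) = hjdim4x_c u v := by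
    intro u hu v hv
    have h1 : hjdim4x_c (b * u * b⁻¹) (b * v * b⁻¹) = b * hjdim4x_c u v * b⁻¹ := by
      unfold hjdim4x_c
      group
    rw [h1]
    rcases hc u hu v hv with h | h
    · rw [h]
      group
    · rw [h]
      exact hz.bz
  have hb2 : b⁻¹ = b * b := by
    have h3 := hB.b3
    rw [pow_succ, pow_two] at h3
    exact inv_eq_of_mul_eq_one_left h3
  have hbinv : ∀ d ∈ A, b⁻¹ * d * b ∈ A := by
    intro d hd
    have h1 := hA.nb _ (hA.nb d hd)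
    have h3 : b * (b * d * b⁻¹) * b⁻¹ = b⁻¹ * d * b := by
      calc b * (b * d * b⁻¹) * b⁻¹ = (b * b) * d * (b * b)⁻¹ := by group
        _ = b⁻¹ * d * b := by rw [← hb2, inv_inv]
    rw [h3] at h1
    exact h1
  have hinvL : ∀ u ∈ A, ∀ v ∈ A, hjdim4x_c u⁻¹ v = hjdim4x_c u v := by
    intro u hu v hv
    have h1 := hmulL u⁻¹ (A.inv_mem hu) u hu v hv
    rw [inv_mul_cancel] at h1
    have h2 : hjdim4x_c 1 v = 1 := by
      unfold hjdim4x_c
      group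
    rw [h2] at h1
    -- 1 = c u v * c u⁻¹ v
    have h3 := hsqc u hu v hv
    exact mul_left_cancel (h1.symm.trans h3.symm)
  -- Step 1: y commutes with its b-conjugate
  have h1 : ∀ y ∈ A, hjdim4x_c (b * y * b⁻¹) y = 1 := by
    intro y hy
    rcases hc _ (hA.nb y hy) y hy with h | h
    · exact h
    · exfalso
      apply hcon' y hy
      set p := b * y * b⁻¹ with hp
      have hpA : p ∈ A := hA.nb y hy
      have hx : y * b * y⁻¹ * b⁻¹ = y * p⁻¹ := by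
        rw [hp]
        group
      rw [hx]
      -- p y = z y p
      have h2 : p * y = z * y * p := by
        have h3 : p * y = hjdim4x_c p y * y * p := by
          unfold hjdim4x_c
          group
        rw [h3, h]
      -- p⁻¹ y = z y p⁻¹
      have h4 : p⁻¹ * y = z * y * p⁻¹ := by
        have h5 : y = p⁻¹ * (p * y) * p⁻¹ * p * y⁻¹ * y := by group
        have h6 : p⁻¹ * y = p⁻¹ * (p⁻¹ * (p * y) * p⁻¹ * p * y⁻¹ * y) := by rw [← h5]
        have hzp : p⁻¹ * z = z * p⁻¹ := hzc p⁻¹ (A.inv_mem hpA)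
        calc p⁻¹ * y = z⁻¹ * (z * p⁻¹) * y := by group
          _ = z⁻¹ * (p⁻¹ * z) * y := by rw [hzp]
          _ = z⁻¹ * (p⁻¹ * (z * y * p) * p⁻¹) := by group
          _ = z⁻¹ * (p⁻¹ * (p * y) * p⁻¹) := by rw [h2]
          _ = z * y * p⁻¹ := by rw [hzinv]; group
      have hpp : p * p = y * y := by
        have h7 : p * p = b * (y * y) * b⁻¹ := by
          rw [hp]
          group
        rw [h7]
        rcases hA.sq y hy with h8 | h8
        · rw [h8]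
          group
        · rw [h8]
          exact hz.bz
      have hyz : y * z = z * y := hzc y hy
      calc y * p⁻¹ * (y * p⁻¹) = y * (p⁻¹ * y) * p⁻¹ := by group
        _ = y * (z * y * p⁻¹) * p⁻¹ := by rw [h4]
        _ = (y * z) * y * (p * p)⁻¹ := by group
        _ = (z * y) * y * (y * y)⁻¹ := by rw [hyz, hpp]
        _ = z := by group
  -- Step 2: polarization
  have h2 : ∀ y ∈ A, ∀ y' ∈ A,
      hjdim4x_c (b * y * b⁻¹) y' = hjdim4x_c (b * y' * b⁻¹) y := by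
    intro y hy y' hy'
    have h3 := h1 (y * y') (A.mul_mem hy hy')
    have h4 : b * (y * y') * b⁻¹ = (b * y * b⁻¹) * (b * y' * b⁻¹) := by group
    rw [h4, hmulL _ (hA.nb y hy) _ (hA.nb y' hy') _ (A.mul_mem hy hy'),
      hmulR _ (hA.nb y' hy') y hy y' hy', hmulR _ (hA.nb y hy) y hy y' hy',
      h1 y hy, h1 y' hy', mul_one, one_mul] at h3
    -- h3 : c (b y' b⁻¹) y * c (b y b⁻¹) y' = 1
    have h5 := hsqc _ (hA.nb y' hy') y hy
    exact mul_left_cancel (h3.trans h5.symm)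
  -- Step 3
  have h3 : ∀ y ∈ A, ∀ y' ∈ A,
      hjdim4x_c (b * y * b⁻¹) y' = hjdim4x_c (b⁻¹ * y * b) y' := by
    intro y hy y' hy'
    rw [h2 y hy y' hy', hsym y hy _ (hA.nb y' hy')]
    have h4 : y = b * (b⁻¹ * y * b) * b⁻¹ := by group
    rw [h4, hβ _ (hbinv y hy) y' hy']
    have h5 : b⁻¹ * (b * (b⁻¹ * y * b) * b⁻¹) * b = b⁻¹ * y * b := by group
    rw [h5]
  -- Step 4 + 5: b centralizes A
  have hbc : ∀ y ∈ A, b * y * b⁻¹ = y := by
    intro y hy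
    set t := (b * y * b⁻¹) * (b⁻¹ * y * b)⁻¹ with ht
    have htA : t ∈ A := A.mul_mem (hA.nb y hy) (A.inv_mem (hbinv y hy))
    have htc : ∀ y' ∈ A, t * y' = y' * t := by
      intro y' hy'
      have h4 : hjdim4x_c t y' = 1 := by
        rw [ht, hmulL _ (hA.nb y hy) _ (A.inv_mem (hbinv y hy)) y' hy',
          hinvL _ (hbinv y hy) y' hy', ← h3 y hy y' hy']
        exact hsqc _ (hA.nb y hy) y' hy'
      have h5 : t * y' = hjdim4x_c t y' * y' * t := by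
        unfold hjdim4x_c
        group
      rw [h5, h4, one_mul]
    have ht1 : t = 1 ∨ t = z := hA.cen t htA htc
    have htt : t * t = 1 := by
      rcases ht1 with h | h
      · rw [h, mul_one]
      · rw [h]
        exact hzz
    have htb : b * t * b⁻¹ = t := by
      rcases ht1 with h | h
      · rw [h]
        group
      · rw [h]
        exact hz.bz
    -- b y b⁻¹ = t * (b⁻¹ y b)
    have h6 : b * y * b⁻¹ = t * (b⁻¹ * y * b) := by
      rw [ht]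
      group
    -- conjugate by b: b⁻¹ y b = t * y
    have h7 : b⁻¹ * y * b = t * y := by
      have h8 : b * (b * y * b⁻¹) * b⁻¹ = b⁻¹ * y * b := by
        calc b * (b * y * b⁻¹) * b⁻¹ = (b * b) * y * (b * b)⁻¹ := by group
          _ = b⁻¹ * y * b := by rw [← hb2, inv_inv]
      have h9 : b * (t * (b⁻¹ * y * b)) * b⁻¹ = (b * t * b⁻¹) * y := by group
      rw [← h8, h6, h9, htb]
    rw [h6, h7, ← mul_assoc, htt, one_mul]
  have hcen := hj_bcen R b hB.gen A hA.nR hbc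
  obtain ⟨a, ha, a', ha', hne⟩ := hnab
  exact hne (hcen a (hA.le ha) a' ha')

end Cfsg.Agent.Lib.Helper73.HJ
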