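import Mathlib
import Cfsg.Agent.Lib.Helper73.HJDefs
import Cfsg.Agent.Lib.Helper73.HJDim4X
import Cfsg.Agent.Lib.Helper73.HJDim4Up
import Cfsg.Agent.Lib.Helper73.HJDim4Lo
import Cfsg.Agent.Lib.Helper73.HJDim4Par

/-!
# Project HJ (S4415), piece Dim4

DIM4: the cardinality is a power of 3 between 27 and 81 and ≡ 1 mod 4.
-/

set_option autoImplicit false

namespace Cfsg.Agent.Lib.Helper73.HJ

variable {S : Type*} [Group S] [Finite S] {E : Type*} [AddCommGroup E] [Module (ZMod 3) E]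
  [Finite E]

theorem hj_dim4 (ρ : Representation (ZMod 3) S E) (R Q : Subgroup S) (b : S) (hB : Base ρ R b) (hQR : Q ≤ R) (hQ : QType Q b) (z : S) (hz : ZCen ρ R b z) (A : Subgroup S) (hA : ExSub R A b z) (hnab : ∃ a ∈ A, ∃ a' ∈ A, a * a' ≠ a' * a) :
    Nat.card (hjComm ρ R) = 81 := by
  obtain ⟨y, hyA, hx⟩ := hj_dim4x ρ R b hB z hz A hA hnab
  have hyR : y ∈ R := hA.le hyA
  have hxR : y * b * y⁻¹ * b⁻¹ ∈ R := by
    have h1 : b * y⁻¹ * b⁻¹ ∈ R := hB.nR y⁻¹ (inv_mem hyR)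
    have h2 : y * b * y⁻¹ * b⁻¹ = y * (b * y⁻¹ * b⁻¹) := by group
    rw [h2]
    exact mul_mem hyR h1
  have hup := hj_dim4up ρ R b hB z hz y hyR hx
  have hlo := hj_dim4lo ρ R Q b hB hQR hQ
  have hpar := hj_dim4par ρ R b hB z hz (y * b * y⁻¹ * b⁻¹) hxR hx
  have hpow : Nat.card (hjComm ρ R) = 3 ^ Module.finrank (ZMod 3) (hjComm ρ R) := by
    have h3 := Module.natCard_eq_pow_finrank (K := ZMod 3) (V := hjComm ρ R)
    rw [Nat.card_zmod] at h3
    exact h3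
  generalize Module.finrank (ZMod 3) (hjComm ρ R) = k at hpow
  rw [hpow] at hup hlo hpar ⊢
  have hk4 : k ≤ 4 := by
    by_contra hlt
    have h5 : 3 ^ 5 ≤ 3 ^ k := Nat.pow_le_pow_right (by norm_num) (by omega)
    norm_num at h5
    omega
  interval_cases k <;> simp_all

end Cfsg.Agent.Lib.Helper73.HJ
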