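import Mathlib
import Cfsg.Agent.Lib.Helper73.HJDefs

/-!
# Project HJ (S4415), piece QSub

QSUB: `a ∈ A` moved by `b`; `x = a · b a b⁻¹`; `Q' = {1, x, b x b⁻¹, x · b x b⁻¹}` (note `x · bxb⁻¹ · b²xb⁻² = 1`).
-/

set_option autoImplicit false

namespace Cfsg.Agent.Lib.Helper73.HJ

variable {S : Type*} [Group S] [Finite S] {E : Type*} [AddCommGroup E] [Module (ZMod 3) E]
  [Finite E]

theorem hj_qsub (b : S) (hb3 : b ^ 3 = 1) (A : Subgroup S) (hAb : ∀ a ∈ A, b * a * b⁻¹ ∈ A)
    (hab : ∀ a ∈ A, ∀ a' ∈ A, a * a' = a' * a) (hexp : ∀ a ∈ A, a * a = 1)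
    (hnc : ∃ a ∈ A, b * a * b⁻¹ ≠ a) : ∃ Q' : Subgroup S, Q' ≤ A ∧ QType Q' b := by
  obtain ⟨a, haA, hne⟩ := hnc
  obtain ⟨c, hc⟩ : ∃ c, c = b * a * b⁻¹ := ⟨_, rfl⟩
  obtain ⟨d, hd⟩ : ∃ d, d = b * c * b⁻¹ := ⟨_, rfl⟩
  have hcA : c ∈ A := hc ▸ hAb a haA
  have hdA : d ∈ A := hd ▸ hAb c hcA
  have hbbb : b * b * b = 1 := by rw [pow_succ, pow_two] at hb3; exact hb3
  have hbd : b * d * b⁻¹ = a := by
    have h1 : b * (b * (b * a * b⁻¹) * b⁻¹) * b⁻¹ = (b * b * b) * a * (b * b * b)⁻¹ := by group
    rw [hd, hc, h1, hbbb]; simp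
  have hca : c ≠ a := hc ▸ hne
  have hdc : d ≠ c := by
    intro h
    apply hca
    have h2 : b * c * b⁻¹ = b * a * b⁻¹ := by rw [← hd, ← hc]; exact h
    simpa using h2
  have hda : d ≠ a := by
    intro h
    apply hca
    have h2 : b * d * b⁻¹ = b * a * b⁻¹ := by rw [h]
    rw [hbd, ← hc] at h2
    exact h2.symm
  -- rewriting system
  have e1 : c * a = a * c := hab c hcA a haA
  have e2 : d * a = a * d := hab d hdA a haA
  have e3 : d * c = c * d := hab d hdA c hcA
  have e1' : ∀ z, c * (a * z) = a * (c * z) := fun z => by rw [← mul_assoc, e1, mul_assoc]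
  have e2' : ∀ z, d * (a * z) = a * (d * z) := fun z => by rw [← mul_assoc, e2, mul_assoc]
  have e3' : ∀ z, d * (c * z) = c * (d * z) := fun z => by rw [← mul_assoc, e3, mul_assoc]
  have sa : a * a = 1 := hexp a haA
  have sc : c * c = 1 := hexp c hcA
  have sd : d * d = 1 := hexp d hdA
  have sa' : ∀ z, a * (a * z) = z := fun z => by rw [← mul_assoc, sa, one_mul]
  have sc' : ∀ z, c * (c * z) = z := fun z => by rw [← mul_assoc, sc, one_mul]
  have sd' : ∀ z, d * (d * z) = z := fun z => by rw [← mul_assoc, sd, one_mul]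
  have n1 : a * c ≠ 1 := by
    intro h; apply hca
    have := congrArg (fun z => a * z) h
    simpa [sa'] using this
  have n2 : c * d ≠ 1 := by
    intro h; apply hdc
    have := congrArg (fun z => c * z) h
    simpa [sc'] using this
  have n3 : a * d ≠ 1 := by
    intro h; apply hda
    have := congrArg (fun z => a * z) h
    simpa [sa'] using this
  have n4 : a * c ≠ c * d := by
    intro h; apply hda
    have := congrArg (fun z => c * z) h
    simp only [e1', sc', sc, mul_one] at this
    exact this.symm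
  have n5 : a * c ≠ a * d := by
    intro h; apply hdc
    exact (mul_left_cancel h).symm
  have n6 : c * d ≠ a * d := by
    intro h; apply hca
    exact mul_right_cancel h
  let Q' : Subgroup S :=
    { carrier := {1, a * c, c * d, a * d}
      mul_mem' := by
        intro g h hg hh
        simp only [Set.mem_insert_iff, Set.mem_singleton_iff] at hg hh ⊢
        rcases hg with rfl | rfl | rfl | rfl <;> rcases hh with rfl | rfl | rfl | rfl <;>
          simp only [mul_assoc, e1, e2, e3, e1', e2', e3', sa, sc, sd, sa', sc', sd', one_mul,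
            mul_one, true_or, or_true]
      one_mem' := by simp
      inv_mem' := by
        intro g hg
        simp only [Set.mem_insert_iff, Set.mem_singleton_iff] at hg ⊢
        have key : g * g = 1 := by
          rcases hg with rfl | rfl | rfl | rfl <;>
            simp only [mul_assoc, e1, e2, e3, e1', e2', e3', sa, sc, sd, sa', sc', sd', one_mul,
              mul_one]
        have hinv : g⁻¹ = g := inv_eq_of_mul_eq_one_right key
        rw [hinv]; exact hg }
  have hmem : ∀ g, g ∈ Q' ↔ g = 1 ∨ g = a * c ∨ g = c * d ∨ g = a * d := by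
    intro g
    show g ∈ ({1, a * c, c * d, a * d} : Set S) ↔ _
    simp only [Set.mem_insert_iff, Set.mem_singleton_iff]
  refine ⟨Q', ?_, ?_, ?_, ?_, ?_⟩
  · intro g hg
    rcases (hmem g).1 hg with rfl | rfl | rfl | rfl
    · exact one_mem _
    · exact mul_mem haA hcA
    · exact mul_mem hcA hdA
    · exact mul_mem haA hdA
  · have hset : (Q' : Set S) = ({1, a * c, c * d, a * d} : Set S) := rfl
    have h0 : Nat.card Q' = Set.ncard (Q' : Set S) := (Nat.card_coe_set_eq _)
    rw [h0, hset, Set.ncard_insert_of_notMem, Set.ncard_insert_of_notMem, Set.ncard_pair n6]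
    · simp only [Set.mem_insert_iff, Set.mem_singleton_iff, not_or]
      exact ⟨n4, n5⟩
    · simp only [Set.mem_insert_iff, Set.mem_singleton_iff, not_or]
      exact ⟨n1.symm, n2.symm, n3.symm⟩
  · intro g hg
    rcases (hmem g).1 hg with rfl | rfl | rfl | rfl <;>
      simp only [mul_assoc, e1, e2, e3, e1', e2', e3', sa, sc, sd, sa', sc', sd', one_mul,
        mul_one]
  · intro g hg
    rw [hmem]
    have hconj : ∀ u v : S, b * (u * v) * b⁻¹ = (b * u * b⁻¹) * (b * v * b⁻¹) := by
      intro u v; group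
    rcases (hmem g).1 hg with rfl | rfl | rfl | rfl
    · left; simp
    · right; right; left; rw [hconj, ← hc, ← hd]
    · right; right; right; rw [hconj, ← hd, hbd, e2]
    · right; left; rw [hconj, ← hc, hbd, e1]
  · refine ⟨a * c, (hmem _).2 (Or.inr (Or.inl rfl)), ?_⟩
    have hconj : ∀ u v : S, b * (u * v) * b⁻¹ = (b * u * b⁻¹) * (b * v * b⁻¹) := by
      intro u v; group
    rw [hconj, ← hc, ← hd]
    exact n4.symm

end Cfsg.Agent.Lib.Helper73.HJ
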