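import Mathlib
import Cfsg.Agent.Lib.Helper73.HJDefs
import Cfsg.Agent.Lib.Helper73.HJQSub
import Cfsg.Agent.Lib.Helper73.HJBCen
import Cfsg.Agent.Lib.Helper73.HJCentral

/-!
# Project HJ (S4415), piece ElAb2

ELAB2: `A ≤ R` elementary abelian 2-group normalized by `R`, `b`. If `b` does not centralize `A`: QSUB gives `Q' ≤ A` with `QType Q' b`, and `Comm R Q'` holds (conjugates of `Q'` lie in the abelian `A`), contradicting `hno`. So `b` centralizes `A`, `A ≤ Z(R)` (BCEN), CENTRAL.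
-/

set_option autoImplicit false

namespace Cfsg.Agent.Lib.Helper73.HJ

variable {S : Type*} [Group S] [Finite S] {E : Type*} [AddCommGroup E] [Module (ZMod 3) E]
  [Finite E]

theorem hj_elab2 (ρ : Representation (ZMod 3) S E) (R Q : Subgroup S) (b : S) (hB : Base ρ R b) (hQR : Q ≤ R) (hQ : QType Q b) (hno : ¬ ∃ Q' : Subgroup S, Q' ≤ R ∧ QType Q' b ∧ Comm R Q') (A : Subgroup S)
    (hAR : A ≤ R) (hAn : ∀ r ∈ R, ∀ a ∈ A, r * a * r⁻¹ ∈ A) (hAb : ∀ a ∈ A, b * a * b⁻¹ ∈ A) (hab : ∀ a ∈ A, ∀ a' ∈ A, a * a' = a' * a) (hexp : ∀ a ∈ A, a * a = 1) :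
    ∀ a ∈ A, a = 1 ∨ ZCen ρ R b a := by
  by_cases hbc : ∀ a ∈ A, b * a * b⁻¹ = a
  · have hcen := hj_bcen R b hB.gen A hAn hbc
    intro a ha
    exact hj_central ρ R Q b hB hQR hQ a (hAR ha) (hbc a ha) (fun r hr => hcen r hr a ha)
  · exfalso
    apply hno
    have hnc : ∃ a ∈ A, b * a * b⁻¹ ≠ a := by
      by_contra h
      apply hbc
      intro a ha
      by_contra hne
      exact h ⟨a, ha, hne⟩
    obtain ⟨Q', hQ'A, hQ'⟩ := hj_qsub b hB.b3 A hAb hab hexp hnc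
    refine ⟨Q', hQ'A.trans hAR, hQ', ?_⟩
    intro r hr q hq q' hq'
    exact hab _ (hAn r hr q (hQ'A hq)) q' (hQ'A hq')

end Cfsg.Agent.Lib.Helper73.HJ
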