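import Mathlib
import Cfsg.Agent.Lib.Helper73.HJDefs
import Cfsg.Agent.Lib.Helper73.HJSplit
import Cfsg.Agent.Lib.Helper73.HJDecomp

/-!
# Project HJ (S4415), piece Triv

TRIV: `X` a 3'-subgroup normalized but not centralized by `b`: then `b` is trivial on `C_E(X)`. (Both `hjFix ρ X`, `hjComm ρ X` are `b`-invariant; by SPLIT `b` is trivial on one; if on `hjComm ρ X` then every `b x b⁻¹ x⁻¹` (in `X`) acts trivially on both summands, so is 1 by faithfulness.)
-/

set_option autoImplicit false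

namespace Cfsg.Agent.Lib.Helper73.HJ

variable {S : Type*} [Group S] [Finite S] {E : Type*} [AddCommGroup E] [Module (ZMod 3) E]
  [Finite E]

omit [Finite S] [Finite E] in
theorem hjtriv_mul (ρ : Representation (ZMod 3) S E) (g h : S) (v : E) :
    ρ (g * h) v = ρ g (ρ h v) := by
  rw [map_mul, Module.End.mul_apply]

theorem hj_triv (ρ : Representation (ZMod 3) S E) (b : S) (hfaith : Function.Injective ρ) (hb3 : b ^ 3 = 1)
    (hrank : Nat.card (LinearMap.range (ρ b - 1)) = 9) (hsq : ∃ v : E, (ρ b - 1) ((ρ b - 1) v) ≠ 0)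
    (X : Subgroup S) (hX : (Nat.card X).Coprime 3) (hn : ∀ x ∈ X, b * x * b⁻¹ ∈ X)
    (hnc : ∃ x ∈ X, b * x * b⁻¹ ≠ x) : ∀ v ∈ hjFix ρ X, ρ b v = v := by
  have hbb : b * b = b⁻¹ := by
    apply eq_inv_of_mul_eq_one_left
    rw [← pow_two, ← pow_succ]
    exact hb3
  have hn' : ∀ x ∈ X, b⁻¹ * x * b ∈ X := by
    intro x hx
    have h1 := hn _ (hn x hx)
    have h2 : b * (b * x * b⁻¹) * b⁻¹ = b⁻¹ * x * b := by
      calc b * (b * x * b⁻¹) * b⁻¹ = (b * b) * x * (b * b)⁻¹ := by group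
        _ = b⁻¹ * x * b := by rw [hbb, inv_inv]
    rw [h2] at h1
    exact h1
  have hF : ∀ v ∈ hjFix ρ X, ρ b v ∈ hjFix ρ X := by
    intro v hv
    rw [mem_hjFix] at hv ⊢
    intro x hx
    have h1 : ρ (b⁻¹ * x * b) v = v := hv _ (hn' x hx)
    have h3 : x * b = b * (b⁻¹ * x * b) := by group
    rw [← hjtriv_mul, h3, hjtriv_mul, h1]
  have hC : ∀ v ∈ hjComm ρ X, ρ b v ∈ hjComm ρ X := by
    intro v hv
    have h1 : (hjComm ρ X).map (ρ b) ≤ hjComm ρ X := by
      unfold hjComm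
      rw [Submodule.map_span_le]
      rintro w ⟨x, hx, u, rfl⟩
      apply Submodule.subset_span
      refine ⟨b * x * b⁻¹, hn x hx, ρ b u, ?_⟩
      rw [map_sub]
      congr 1
      have h3 : b * x = b * x * b⁻¹ * b := by group
      rw [← hjtriv_mul, ← hjtriv_mul, ← h3]
    exact h1 (Submodule.mem_map_of_mem hv)
  obtain ⟨hinf, hsup⟩ := hj_decomp ρ X hX
  rcases hj_split ρ b hb3 hrank hsq (hjFix ρ X) (hjComm ρ X) hinf hsup hF hC with h | h
  · exact h
  · exfalso
    obtain ⟨x, hx, hne⟩ := hnc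
    apply hne
    apply hfaith
    apply LinearMap.ext
    intro v
    have hv : v ∈ hjFix ρ X ⊔ hjComm ρ X := by
      rw [hsup]
      exact Submodule.mem_top
    obtain ⟨f, hf, w, hw, rfl⟩ := Submodule.mem_sup.mp hv
    rw [map_add, map_add]
    have h1 : ρ (b * x * b⁻¹) f = ρ x f := by
      rw [(mem_hjFix ρ X f).mp hf _ (hn x hx), (mem_hjFix ρ X f).mp hf x hx]
    have hxw : ρ x w ∈ hjComm ρ X := by
      have h4 : ρ x w - w ∈ hjComm ρ X := Submodule.subset_span ⟨x, hx, w, rfl⟩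
      have h5 := (hjComm ρ X).add_mem h4 hw
      rw [sub_add_cancel] at h5
      exact h5
    have hbw : ρ b⁻¹ w = w := by
      have h6 := hjtriv_mul ρ b⁻¹ b w
      rw [inv_mul_cancel, map_one, Module.End.one_apply, h w hw] at h6
      exact h6.symm
    have h2 : ρ (b * x * b⁻¹) w = ρ x w := by
      rw [hjtriv_mul, hjtriv_mul, hbw, h _ hxw]
    rw [h1, h2]

end Cfsg.Agent.Lib.Helper73.HJ
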