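import Mathlib
import Cfsg.Agent.Lib.Helper73.HJDefs
import Cfsg.Agent.Lib.Helper73.HJTriv
import Cfsg.Agent.Lib.Helper73.HJBCen
import Cfsg.Agent.Lib.Helper73.HJCentral
import Cfsg.Agent.Lib.Helper73.HJFFSpan
import Cfsg.Agent.Lib.Helper73.HJFFNe
import Cfsg.Agent.Lib.Helper73.HJFFIndep

/-!
# Project HJ (S4415), piece End3A (filled by helper51)

END3A: `K₀ = {r ∈ R : r fixes e₁,e₂,e₃}` is normalized by `R`, `b`; `b` centralizes it (else TRIV: `b e₁ = e₁`); so `K₀ ≤ Z(R)` (BCEN) and CENTRAL gives `K₀ = 1` (a `ZCen` element negates `e₁ ∈ [E,R]`). The elements of `R` whose three signs have product 1 form a subgroup containing all `r b r⁻¹ b⁻¹` (signs `(s₁s₃, s₂s₁, s₃s₂)`), so it is `R`; each such sign pattern is that of an element of `Q`; so `R = Q`.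
-/

set_option autoImplicit false

namespace Cfsg.Agent.Lib.Helper73.HJ

variable {S : Type*} [Group S] [Finite S] {E : Type*} [AddCommGroup E] [Module (ZMod 3) E]
  [Finite E]

omit [Finite S] [Finite E] in
theorem hjend3a_mul (ρ : Representation (ZMod 3) S E) (g h : S) (v : E) :
    ρ (g * h) v = ρ g (ρ h v) := by
  rw [map_mul, Module.End.mul_apply]

omit [Finite S] [Finite E] in
theorem hjend3a_inv_apply (ρ : Representation (ZMod 3) S E) (g : S) (u v : E) (h : ρ g u = v) :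
    ρ g⁻¹ v = u := by
  rw [← h, ← hjend3a_mul, inv_mul_cancel, map_one, Module.End.one_apply]

omit [Finite S] [Finite E] in
theorem hjend3a_inv_smul (ρ : Representation (ZMod 3) S E) (r : S) (e : E) (s : ZMod 3)
    (hs : s * s = 1) (h : ρ r e = s • e) : ρ r⁻¹ e = s • e := by
  have h1 : ρ r⁻¹ (ρ r e) = e := hjend3a_inv_apply ρ r e (ρ r e) rfl
  rw [h, map_smul] at h1
  calc ρ r⁻¹ e = (s * s) • ρ r⁻¹ e := by rw [hs, one_smul]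
    _ = s • (s • ρ r⁻¹ e) := by rw [mul_smul]
    _ = s • e := by rw [h1]

omit [Finite E] in
theorem hjend3a_sign (e v : E) (h : v = e ∨ v = -e) : ∃ s : ZMod 3, s * s = 1 ∧ v = s • e := by
  rcases h with h | h
  · exact ⟨1, by decide, by rw [h, one_smul]⟩
  · exact ⟨-1, by decide, by rw [h, neg_smul, one_smul]⟩

theorem hjend3a_pm : ∀ s : ZMod 3, s * s = 1 → s = 1 ∨ s = -1 := by decide

/-- `K₀ = 1`: an element of `R` fixing `e₁, e₂, e₃` is trivial. -/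
theorem hjend3a_key (ρ : Representation (ZMod 3) S E) (R Q : Subgroup S) (b : S) (hB : Base ρ R b)
    (hQR : Q ≤ R) (hQ : QType Q b) (q₁ q₂ q₃ : S) (e₁ e₂ e₃ : E)
    (hF : Frame ρ Q b q₁ q₂ q₃ e₁ e₂ e₃)
    (h3 : ∀ r ∈ R, (ρ r e₁ = e₁ ∨ ρ r e₁ = -e₁) ∧ (ρ r e₂ = e₂ ∨ ρ r e₂ = -e₂) ∧
      (ρ r e₃ = e₃ ∨ ρ r e₃ = -e₃)) :
    ∀ k ∈ R, ρ k e₁ = e₁ → ρ k e₂ = e₂ → ρ k e₃ = e₃ → k = 1 := by
  obtain ⟨K₀, hK₀⟩ : ∃ K₀ : Subgroup S, ∀ k, k ∈ K₀ ↔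
      (k ∈ R ∧ ρ k e₁ = e₁ ∧ ρ k e₂ = e₂ ∧ ρ k e₃ = e₃) :=
    ⟨{ carrier := {k | k ∈ R ∧ ρ k e₁ = e₁ ∧ ρ k e₂ = e₂ ∧ ρ k e₃ = e₃}
       mul_mem' := by
         rintro x y ⟨hx, hx1, hx2, hx3⟩ ⟨hy, hy1, hy2, hy3⟩
         exact ⟨R.mul_mem hx hy, by rw [hjend3a_mul, hy1, hx1], by rw [hjend3a_mul, hy2, hx2],
           by rw [hjend3a_mul, hy3, hx3]⟩
       one_mem' := ⟨R.one_mem, by rw [map_one, Module.End.one_apply],
         by rw [map_one, Module.End.one_apply], by rw [map_one, Module.End.one_apply]⟩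
       inv_mem' := by
         rintro x ⟨hx, hx1, hx2, hx3⟩
         exact ⟨R.inv_mem hx, hjend3a_inv_apply ρ x e₁ e₁ hx1, hjend3a_inv_apply ρ x e₂ e₂ hx2,
           hjend3a_inv_apply ρ x e₃ e₃ hx3⟩ }, fun k => Iff.rfl⟩
  have hKR : K₀ ≤ R := fun k hk => ((hK₀ k).mp hk).1
  have hcop : (Nat.card K₀).Coprime 3 :=
    Nat.Coprime.coprime_dvd_left (Subgroup.card_dvd_of_le hKR) hB.cop
  have hb1 : ρ b⁻¹ e₁ = e₃ := hjend3a_inv_apply ρ b e₃ e₁ hF.be3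
  have hb2 : ρ b⁻¹ e₂ = e₁ := hjend3a_inv_apply ρ b e₁ e₂ hF.be1
  have hb3 : ρ b⁻¹ e₃ = e₂ := hjend3a_inv_apply ρ b e₂ e₃ hF.be2
  have hnb : ∀ k ∈ K₀, b * k * b⁻¹ ∈ K₀ := by
    intro k hk
    obtain ⟨hk, hk1, hk2, hk3⟩ := (hK₀ k).mp hk
    refine (hK₀ _).mpr ⟨hB.nR k hk, ?_, ?_, ?_⟩
    · rw [hjend3a_mul, hjend3a_mul, hb1, hk3, hF.be3]
    · rw [hjend3a_mul, hjend3a_mul, hb2, hk1, hF.be1]
    · rw [hjend3a_mul, hjend3a_mul, hb3, hk2, hF.be2]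
  have hnR : ∀ r ∈ R, ∀ k ∈ K₀, r * k * r⁻¹ ∈ K₀ := by
    intro r hr k hk
    obtain ⟨hk, hk1, hk2, hk3⟩ := (hK₀ k).mp hk
    obtain ⟨h1, h2, h3'⟩ := h3 r hr
    obtain ⟨s₁, hs₁, hr1⟩ := hjend3a_sign e₁ _ h1
    obtain ⟨s₂, hs₂, hr2⟩ := hjend3a_sign e₂ _ h2
    obtain ⟨s₃, hs₃, hr3⟩ := hjend3a_sign e₃ _ h3'
    refine (hK₀ _).mpr ⟨R.mul_mem (R.mul_mem hr hk) (R.inv_mem hr), ?_, ?_, ?_⟩
    · rw [hjend3a_mul, hjend3a_mul, hjend3a_inv_smul ρ r e₁ s₁ hs₁ hr1, map_smul, hk1, map_smul,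
        hr1, ← mul_smul, hs₁, one_smul]
    · rw [hjend3a_mul, hjend3a_mul, hjend3a_inv_smul ρ r e₂ s₂ hs₂ hr2, map_smul, hk2, map_smul,
        hr2, ← mul_smul, hs₂, one_smul]
    · rw [hjend3a_mul, hjend3a_mul, hjend3a_inv_smul ρ r e₃ s₃ hs₃ hr3, map_smul, hk3, map_smul,
        hr3, ← mul_smul, hs₃, one_smul]
  have hbc : ∀ k ∈ K₀, b * k * b⁻¹ = k := by
    intro k hk
    by_contra hne
    have htriv := hj_triv ρ b hB.faith hB.b3 hB.rank hB.sq K₀ hcop hnb ⟨k, hk, hne⟩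
    have he1 : e₁ ∈ hjFix ρ K₀ := fun x hx => ((hK₀ x).mp hx).2.1
    have h := htriv e₁ he1
    rw [hF.be1] at h
    exact (hj_ff_ne ρ Q b q₁ q₂ q₃ e₁ e₂ e₃ hF).2.2.2.2.2.2.2.2.1 h.symm
  have hcen := hj_bcen R b hB.gen K₀ hnR hbc
  intro k hk hk1 hk2 hk3
  have hkK : k ∈ K₀ := (hK₀ k).mpr ⟨hk, hk1, hk2, hk3⟩
  rcases hj_central ρ R Q b hB hQR hQ k hk (hbc k hkK) (fun r hr => hcen r hr k hkK) with h | hZ
  · exact h
  · exfalso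
    have he1 : e₁ ∈ hjComm ρ R :=
      Submodule.subset_span ⟨q₂, hQR hF.m2, e₁, by rw [hF.q21]; exact (hjffspan_three e₁).symm⟩
    have h := hZ.neg e₁ he1
    rw [hk1] at h
    exact hF.e0 (hjffne_aux e₁ h)

omit [Finite S] [Finite E] in
/-- every element of `R` has an even sign pattern on `e₁, e₂, e₃`. -/
theorem hjend3a_even (ρ : Representation (ZMod 3) S E) (R Q : Subgroup S) (b : S)
    (hB : Base ρ R b) (q₁ q₂ q₃ : S) (e₁ e₂ e₃ : E) (hF : Frame ρ Q b q₁ q₂ q₃ e₁ e₂ e₃)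
    (h3 : ∀ r ∈ R, (ρ r e₁ = e₁ ∨ ρ r e₁ = -e₁) ∧ (ρ r e₂ = e₂ ∨ ρ r e₂ = -e₂) ∧
      (ρ r e₃ = e₃ ∨ ρ r e₃ = -e₃)) :
    ∀ r ∈ R, ∃ s₁ s₂ s₃ : ZMod 3, s₁ * s₁ = 1 ∧ s₂ * s₂ = 1 ∧ s₃ * s₃ = 1 ∧ s₁ * s₂ * s₃ = 1 ∧
      ρ r e₁ = s₁ • e₁ ∧ ρ r e₂ = s₂ • e₂ ∧ ρ r e₃ = s₃ • e₃ := by
  obtain ⟨T, hT⟩ : ∃ T : Subgroup S, ∀ r, r ∈ T ↔
      ∃ s₁ s₂ s₃ : ZMod 3, s₁ * s₁ = 1 ∧ s₂ * s₂ = 1 ∧ s₃ * s₃ = 1 ∧ s₁ * s₂ * s₃ = 1 ∧
        ρ r e₁ = s₁ • e₁ ∧ ρ r e₂ = s₂ • e₂ ∧ ρ r e₃ = s₃ • e₃ :=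
    ⟨{ carrier := {r | ∃ s₁ s₂ s₃ : ZMod 3, s₁ * s₁ = 1 ∧ s₂ * s₂ = 1 ∧ s₃ * s₃ = 1 ∧
         s₁ * s₂ * s₃ = 1 ∧ ρ r e₁ = s₁ • e₁ ∧ ρ r e₂ = s₂ • e₂ ∧ ρ r e₃ = s₃ • e₃}
       mul_mem' := by
         rintro x y ⟨s₁, s₂, s₃, a1, a2, a3, ap, x1, x2, x3⟩ ⟨t₁, t₂, t₃, b1, b2, b3, bp, y1, y2, y3⟩
         refine ⟨s₁ * t₁, s₂ * t₂, s₃ * t₃, ?_, ?_, ?_, ?_, ?_, ?_, ?_⟩
         · calc s₁ * t₁ * (s₁ * t₁) = (s₁ * s₁) * (t₁ * t₁) := by ring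
             _ = 1 := by rw [a1, b1, one_mul]
         · calc s₂ * t₂ * (s₂ * t₂) = (s₂ * s₂) * (t₂ * t₂) := by ring
             _ = 1 := by rw [a2, b2, one_mul]
         · calc s₃ * t₃ * (s₃ * t₃) = (s₃ * s₃) * (t₃ * t₃) := by ring
             _ = 1 := by rw [a3, b3, one_mul]
         · calc s₁ * t₁ * (s₂ * t₂) * (s₃ * t₃) = (s₁ * s₂ * s₃) * (t₁ * t₂ * t₃) := by ring
             _ = 1 := by rw [ap, bp, one_mul]
         · rw [hjend3a_mul, y1, map_smul, x1, ← mul_smul, mul_comm]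
         · rw [hjend3a_mul, y2, map_smul, x2, ← mul_smul, mul_comm]
         · rw [hjend3a_mul, y3, map_smul, x3, ← mul_smul, mul_comm]
       one_mem' := ⟨1, 1, 1, by decide, by decide, by decide, by decide,
         by rw [map_one, Module.End.one_apply, one_smul],
         by rw [map_one, Module.End.one_apply, one_smul],
         by rw [map_one, Module.End.one_apply, one_smul]⟩
       inv_mem' := by
         rintro x ⟨s₁, s₂, s₃, a1, a2, a3, ap, x1, x2, x3⟩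
         exact ⟨s₁, s₂, s₃, a1, a2, a3, ap, hjend3a_inv_smul ρ x e₁ s₁ a1 x1,
           hjend3a_inv_smul ρ x e₂ s₂ a2 x2, hjend3a_inv_smul ρ x e₃ s₃ a3 x3⟩ },
      fun r => Iff.rfl⟩
  have hle : Subgroup.closure {g | ∃ r ∈ R, g = r * b * r⁻¹ * b⁻¹} ≤ T := by
    rw [Subgroup.closure_le]
    rintro g ⟨r, hr, rfl⟩
    obtain ⟨h1, h2, h3'⟩ := h3 r hr
    obtain ⟨s₁, hs₁, hr1⟩ := hjend3a_sign e₁ _ h1
    obtain ⟨s₂, hs₂, hr2⟩ := hjend3a_sign e₂ _ h2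
    obtain ⟨s₃, hs₃, hr3⟩ := hjend3a_sign e₃ _ h3'
    have hb1 : ρ b⁻¹ e₁ = e₃ := hjend3a_inv_apply ρ b e₃ e₁ hF.be3
    have hb2 : ρ b⁻¹ e₂ = e₁ := hjend3a_inv_apply ρ b e₁ e₂ hF.be1
    have hb3 : ρ b⁻¹ e₃ = e₂ := hjend3a_inv_apply ρ b e₂ e₃ hF.be2
    refine (hT _).mpr ⟨s₃ * s₁, s₁ * s₂, s₂ * s₃, ?_, ?_, ?_, ?_, ?_, ?_, ?_⟩
    · calc s₃ * s₁ * (s₃ * s₁) = (s₃ * s₃) * (s₁ * s₁) := by ring
        _ = 1 := by rw [hs₃, hs₁, one_mul]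
    · calc s₁ * s₂ * (s₁ * s₂) = (s₁ * s₁) * (s₂ * s₂) := by ring
        _ = 1 := by rw [hs₁, hs₂, one_mul]
    · calc s₂ * s₃ * (s₂ * s₃) = (s₂ * s₂) * (s₃ * s₃) := by ring
        _ = 1 := by rw [hs₂, hs₃, one_mul]
    · calc s₃ * s₁ * (s₁ * s₂) * (s₂ * s₃) = (s₁ * s₁) * (s₂ * s₂) * (s₃ * s₃) := by ring
        _ = 1 := by rw [hs₁, hs₂, hs₃, one_mul, one_mul]
    · rw [hjend3a_mul, hjend3a_mul, hjend3a_mul, hb1, hjend3a_inv_smul ρ r e₃ s₃ hs₃ hr3,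
        map_smul, hF.be3, map_smul, hr1, ← mul_smul]
    · rw [hjend3a_mul, hjend3a_mul, hjend3a_mul, hb2, hjend3a_inv_smul ρ r e₁ s₁ hs₁ hr1,
        map_smul, hF.be1, map_smul, hr2, ← mul_smul]
    · rw [hjend3a_mul, hjend3a_mul, hjend3a_mul, hb3, hjend3a_inv_smul ρ r e₂ s₂ hs₂ hr2,
        map_smul, hF.be2, map_smul, hr3, ← mul_smul]
  intro r hr
  have hr' : r ∈ Subgroup.closure {g | ∃ r ∈ R, g = r * b * r⁻¹ * b⁻¹} := by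
    rw [← hB.gen]
    exact hr
  exact (hT r).mp (hle hr')

theorem hj_end3a (ρ : Representation (ZMod 3) S E) (R Q : Subgroup S) (b : S) (hB : Base ρ R b) (hQR : Q ≤ R) (hQ : QType Q b) (q₁ q₂ q₃ : S) (e₁ e₂ e₃ : E) (hF : Frame ρ Q b q₁ q₂ q₃ e₁ e₂ e₃)
    (h3 : ∀ r ∈ R, (ρ r e₁ = e₁ ∨ ρ r e₁ = -e₁) ∧ (ρ r e₂ = e₂ ∨ ρ r e₂ = -e₂) ∧ (ρ r e₃ = e₃ ∨ ρ r e₃ = -e₃)) : R = Q := by
  have key := hjend3a_key ρ R Q b hB hQR hQ q₁ q₂ q₃ e₁ e₂ e₃ hF h3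
  have hev := hjend3a_even ρ R Q b hB q₁ q₂ q₃ e₁ e₂ e₃ hF h3
  refine le_antisymm ?_ hQR
  intro r hr
  obtain ⟨s₁, s₂, s₃, a1, a2, a3, ap, r1, r2, r3⟩ := hev r hr
  have c1 := hjend3a_pm s₁ a1
  have c2 := hjend3a_pm s₂ a2
  have c3 := hjend3a_pm s₃ a3
  rcases c1 with rfl | rfl <;> rcases c2 with rfl | rfl <;> rcases c3 with rfl | rfl
  · have h1 : r = 1 := key r hr (by rw [r1, one_smul]) (by rw [r2, one_smul])
      (by rw [r3, one_smul])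
    rw [h1]
    exact Q.one_mem
  · exact absurd ap (by decide)
  · exact absurd ap (by decide)
  · have hqr : q₁ * r = 1 := key (q₁ * r) (R.mul_mem (hQR hF.m1) hr)
      (by rw [hjend3a_mul, r1, map_smul, hF.q11, one_smul])
      (by rw [hjend3a_mul, r2, map_smul, hF.q12, neg_smul, one_smul, neg_neg])
      (by rw [hjend3a_mul, r3, map_smul, hF.q13, neg_smul, one_smul, neg_neg])
    have h1 : r = q₁ := by
      calc r = (q₁ * q₁) * r := by rw [hF.s1, one_mul]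
        _ = q₁ * (q₁ * r) := by rw [mul_assoc]
        _ = q₁ := by rw [hqr, mul_one]
    rw [h1]
    exact hF.m1
  · exact absurd ap (by decide)
  · have hqr : q₂ * r = 1 := key (q₂ * r) (R.mul_mem (hQR hF.m2) hr)
      (by rw [hjend3a_mul, r1, map_smul, hF.q21, neg_smul, one_smul, neg_neg])
      (by rw [hjend3a_mul, r2, map_smul, hF.q22, one_smul])
      (by rw [hjend3a_mul, r3, map_smul, hF.q23, neg_smul, one_smul, neg_neg])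
    have h1 : r = q₂ := by
      calc r = (q₂ * q₂) * r := by rw [hF.s2, one_mul]
        _ = q₂ * (q₂ * r) := by rw [mul_assoc]
        _ = q₂ := by rw [hqr, mul_one]
    rw [h1]
    exact hF.m2
  · have hqr : q₃ * r = 1 := key (q₃ * r) (R.mul_mem (hQR hF.m3) hr)
      (by rw [hjend3a_mul, r1, map_smul, hF.q31, neg_smul, one_smul, neg_neg])
      (by rw [hjend3a_mul, r2, map_smul, hF.q32, neg_smul, one_smul, neg_neg])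
      (by rw [hjend3a_mul, r3, map_smul, hF.q33, one_smul])
    have h1 : r = q₃ := by
      calc r = (q₃ * q₃) * r := by rw [hF.s3, one_mul]
        _ = q₃ * (q₃ * r) := by rw [mul_assoc]
        _ = q₃ := by rw [hqr, mul_one]
    rw [h1]
    exact hF.m3
  · exact absurd ap (by decide)

end Cfsg.Agent.Lib.Helper73.HJ
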