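import Mathlib
import Cfsg.Agent.Lib.Helper73.HJDefs
import Cfsg.Agent.Lib.Helper73.HJEnd3A
import Cfsg.Agent.Lib.Helper73.HJFFSpan
import Cfsg.Agent.Lib.Helper73.HJFFIndep

/-!
# Project HJ (S4415), piece End3

END3: `R = Q` (END3A) is a four-group; `[E,R] = ⟨e₁,e₂,e₃⟩` (FFSPAN); an invariant `N ≠ 0` contains some `c₁e₁+c₂e₂+c₃e₃` with, say, `c₁ ≠ 0`; `v + q₁ v = 2 c₁ e₁`; then `e₂ = b e₁`, `e₃ ∈ N`.
-/

set_option autoImplicit false

namespace Cfsg.Agent.Lib.Helper73.HJ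

variable {S : Type*} [Group S] [Finite S] {E : Type*} [AddCommGroup E] [Module (ZMod 3) E]
  [Finite E]

theorem hj_end3 (ρ : Representation (ZMod 3) S E) (R Q : Subgroup S) (b : S) (hB : Base ρ R b) (hQR : Q ≤ R) (hQ : QType Q b) (q₁ q₂ q₃ : S) (e₁ e₂ e₃ : E) (hF : Frame ρ Q b q₁ q₂ q₃ e₁ e₂ e₃)
    (h3 : ∀ r ∈ R, (ρ r e₁ = e₁ ∨ ρ r e₁ = -e₁) ∧ (ρ r e₂ = e₂ ∨ ρ r e₂ = -e₂) ∧ (ρ r e₃ = e₃ ∨ ρ r e₃ = -e₃)) : Concl ρ R b := by
  have hRQ := hj_end3a ρ R Q b hB hQR hQ q₁ q₂ q₃ e₁ e₂ e₃ hF h3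
  rw [hRQ]
  obtain ⟨hspan, -⟩ := hj_ff_span ρ Q b q₁ q₂ q₃ e₁ e₂ e₃ hF
  refine ⟨Or.inl ⟨⟨?_, ?_⟩, hQ.card⟩, ?_⟩
  · refine ⟨⟨fun x y => ?_⟩⟩
    have hx := hQ.exp x.1 x.2
    have hy := hQ.exp y.1 y.2
    have hxy := hQ.exp (x.1 * y.1) (Q.mul_mem x.2 y.2)
    apply Subtype.ext
    show x.1 * y.1 = y.1 * x.1
    have h1 : (x.1 * y.1)⁻¹ = x.1 * y.1 := inv_eq_of_mul_eq_one_right hxy
    have h2 : x.1⁻¹ = x.1 := inv_eq_of_mul_eq_one_right hx
    have h4 : y.1⁻¹ = y.1 := inv_eq_of_mul_eq_one_right hy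
    rw [← h1, mul_inv_rev, h2, h4]
  · intro a ha
    rw [pow_two]
    exact hQ.exp a ha
  · intro N hN hNR hNb
    rw [hspan] at hN ⊢
    by_cases hbot : N = ⊥
    · left
      exact hbot
    · right
      obtain ⟨v, hvN, hv0⟩ := (Submodule.ne_bot_iff N).1 hbot
      obtain ⟨c₁, c₂, c₃, hv⟩ := Submodule.mem_span_triple.1 (hN hvN)
      have hunit : ∀ c : ZMod 3, c ≠ 0 → ∃ d : ZMod 3, d * (2 * c) = 1 := by decide
      have hmem : ∀ (c : ZMod 3) (e : E), c ≠ 0 → (2 * c) • e ∈ N → e ∈ N := by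
        intro c e hc he
        obtain ⟨d, hd⟩ := hunit c hc
        have h5 : e = d • ((2 * c) • e) := by rw [smul_smul, hd, one_smul]
        rw [h5]
        exact N.smul_mem d he
      have hq1 : (2 * c₁) • e₁ ∈ N := by
        have h1 : (2 * c₁) • e₁ = v + ρ q₁ v := by
          rw [← hv]
          simp only [map_add, map_smul, hF.q11, hF.q12, hF.q13]
          module
        rw [h1]
        exact N.add_mem hvN (hNR q₁ hF.m1 v hvN)
      have hq2 : (2 * c₂) • e₂ ∈ N := by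
        have h1 : (2 * c₂) • e₂ = v + ρ q₂ v := by
          rw [← hv]
          simp only [map_add, map_smul, hF.q21, hF.q22, hF.q23]
          module
        rw [h1]
        exact N.add_mem hvN (hNR q₂ hF.m2 v hvN)
      have hq3 : (2 * c₃) • e₃ ∈ N := by
        have h1 : (2 * c₃) • e₃ = v + ρ q₃ v := by
          rw [← hv]
          simp only [map_add, map_smul, hF.q31, hF.q32, hF.q33]
          module
        rw [h1]
        exact N.add_mem hvN (hNR q₃ hF.m3 v hvN)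
      have hb12 : e₁ ∈ N → e₂ ∈ N := fun h => by
        rw [← hF.be1]
        exact hNb e₁ h
      have hb23 : e₂ ∈ N → e₃ ∈ N := fun h => by
        rw [← hF.be2]
        exact hNb e₂ h
      have hb31 : e₃ ∈ N → e₁ ∈ N := fun h => by
        rw [← hF.be3]
        exact hNb e₃ h
      have hall : e₁ ∈ N ∧ e₂ ∈ N ∧ e₃ ∈ N := by
        by_cases h1 : c₁ = 0
        · by_cases h2 : c₂ = 0
          · by_cases h3c : c₃ = 0
            · exfalso
              apply hv0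
              rw [← hv, h1, h2, h3c]
              simp
            · have he3 := hmem c₃ e₃ h3c hq3
              exact ⟨hb31 he3, hb12 (hb31 he3), he3⟩
          · have he2 := hmem c₂ e₂ h2 hq2
            exact ⟨hb31 (hb23 he2), he2, hb23 he2⟩
        · have he1 := hmem c₁ e₁ h1 hq1
          exact ⟨he1, hb12 he1, hb23 (hb12 he1)⟩
      apply le_antisymm hN
      rw [Submodule.span_le]
      intro x hx
      simp only [Set.mem_insert_iff, Set.mem_singleton_iff] at hx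
      rcases hx with rfl | rfl | rfl
      · exact hall.1
      · exact hall.2.1
      · exact hall.2.2

end Cfsg.Agent.Lib.Helper73.HJ
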