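import Mathlib
import Cfsg.Agent.Lib.Helper73.HJDefs

/-!
# Project HJ (S4415), piece FixPt

FIXPT: `A' = {a ∈ A : ∀ r ∈ R, r a r⁻¹ ∈ {a, az}}` is a subgroup normalized by `R`, `b`, containing `z`. It is not `{1,z}`: the 2-group `R` acts on the cosets `{a, az}` (`a ∈ A`, `a ∉ {1,z}`), an odd number (`|A|/2 - 1`), so fixes one. By minimality `A' = A`.
-/

set_option autoImplicit false

namespace Cfsg.Agent.Lib.Helper73.HJ

/-- a nontrivial normal subgroup of a finite `p`-group meets the centre nontrivially -/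
theorem hjfixpt_center_mem {P : Type*} [Group P] [Finite P] {p : ℕ}
    [Fact p.Prime] (hP : IsPGroup p P) (N : Subgroup P) [N.Normal] (hN : N ≠ ⊥) :
    ∃ z ∈ N, z ≠ 1 ∧ z ∈ Subgroup.center P := by
  have hNp : IsPGroup p ↥N := hP.to_subgroup N
  have hnt : Nontrivial ↥N := (Subgroup.nontrivial_iff_ne_bot N).mpr hN
  have dvd : p ∣ Nat.card ↥N := by
    obtain ⟨n, hn0, hn⟩ := hNp.nontrivial_iff_card.mp hnt
    exact hn.symm ▸ dvd_pow_self _ (ne_of_gt hn0)
  have h1 : (1 : ↥N) ∈ MulAction.fixedPoints (ConjAct P) ↥N := by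
    intro g
    exact smul_one g
  obtain ⟨b, hb, hb1⟩ :=
    (hP.of_equiv ConjAct.toConjAct).exists_fixed_point_of_prime_dvd_card_of_fixed_point ↥N dvd h1
  refine ⟨(b : P), b.2, ?_, ?_⟩
  · intro h
    apply hb1
    ext
    simp [h]
  · rw [Subgroup.mem_center_iff]
    intro g
    have h2 := hb (ConjAct.toConjAct g)
    have h3 : g * (b : P) * g⁻¹ = b := by
      have := congrArg Subtype.val h2
      rwa [ConjAct.Subgroup.val_conj_smul, ConjAct.toConjAct_smul] at this
    calc g * (b : P) = g * (b : P) * g⁻¹ * g := by simp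
      _ = (b : P) * g := by rw [h3]

/-- the powers of an involution -/
theorem hjfixpt_mem_zpowers {S : Type*} [Group S] {z : S} (hz : z * z = 1) {g : S}
    (hg : g ∈ Subgroup.zpowers z) : g = 1 ∨ g = z := by
  let E : Subgroup S :=
    { carrier := {g | g = 1 ∨ g = z}
      mul_mem' := by
        rintro x y (rfl | rfl) (rfl | rfl)
        · left; simp
        · right; simp
        · right; simp
        · left; exact hz
      one_mem' := Or.inl rfl
      inv_mem' := by
        rintro x (rfl | rfl)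
        · left; simp
        · right; exact inv_eq_of_mul_eq_one_right hz }
  have h : Subgroup.zpowers z ≤ E := (Subgroup.zpowers_le).2 (Or.inr rfl)
  exact h hg

variable {S : Type*} [Group S] [Finite S] {E : Type*} [AddCommGroup E] [Module (ZMod 3) E]
  [Finite E]

theorem hj_fixpt (ρ : Representation (ZMod 3) S E) (R : Subgroup S) (b : S) (hB : Base ρ R b) (z : S) (hz : ZCen ρ R b z) (A : Subgroup S)
    (hM : MinOver R A b z) (h2 : IsPGroup 2 ↥R) :
    ∀ r ∈ R, ∀ a ∈ A, r * a * r⁻¹ = a ∨ r * a * r⁻¹ = a * z := by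
  have hzinv : z⁻¹ = z := inv_eq_of_mul_eq_one_right hz.sq
  have hzconj : ∀ r ∈ R, r * z * r⁻¹ = z := by
    intro r hr
    rw [hz.cen r hr, mul_assoc, mul_inv_cancel, mul_one]
  have hbb : b * b = b⁻¹ := by
    apply eq_inv_of_mul_eq_one_left
    have := hB.b3
    rw [pow_succ, pow_two] at this
    exact this
  have hbinv : ∀ r ∈ R, b⁻¹ * r * b ∈ R := by
    intro r hr
    have e : b⁻¹ * r * b = b * (b * r * b⁻¹) * b⁻¹ := by
      have h1 : b * (b * r * b⁻¹) * b⁻¹ = (b * b) * r * (b * b)⁻¹ := by group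
      rw [h1, hbb, inv_inv]
    rw [e]
    exact hB.nR _ (hB.nR r hr)
  -- the subgroup `A'`
  let A' : Subgroup S :=
    { carrier := {a | a ∈ A ∧ ∀ r ∈ R, r * a * r⁻¹ = a ∨ r * a * r⁻¹ = a * z}
      mul_mem' := by
        rintro x y ⟨hx, hx'⟩ ⟨hy, hy'⟩
        refine ⟨A.mul_mem hx hy, ?_⟩
        intro r hr
        have e : r * (x * y) * r⁻¹ = (r * x * r⁻¹) * (r * y * r⁻¹) := by group
        have hzy : z * y = y * z := (hz.cen y (hM.le hy)).symm
        rw [e]
        rcases hx' r hr with h1 | h1 <;> rcases hy' r hr with h3 | h3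
        · left; rw [h1, h3]
        · right; rw [h1, h3, mul_assoc]
        · right; rw [h1, h3, mul_assoc, hzy, mul_assoc]
        · left
          rw [h1, h3]
          calc x * z * (y * z) = x * (z * y) * z := by group
            _ = x * (y * z) * z := by rw [hzy]
            _ = x * y * (z * z) := by group
            _ = x * y := by rw [hz.sq, mul_one]
      one_mem' := ⟨A.one_mem, fun r _ => Or.inl (by simp)⟩
      inv_mem' := by
        rintro x ⟨hx, hx'⟩
        refine ⟨A.inv_mem hx, ?_⟩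
        intro r hr
        have e : r * x⁻¹ * r⁻¹ = (r * x * r⁻¹)⁻¹ := by group
        have hzx : z * x⁻¹ = x⁻¹ * z := (hz.cen x⁻¹ (hM.le (A.inv_mem hx))).symm
        rw [e]
        rcases hx' r hr with h1 | h1
        · left; rw [h1]
        · right; rw [h1, mul_inv_rev, hzinv, hzx] }
  have hA'mem : ∀ a, a ∈ A' ↔ a ∈ A ∧ ∀ r ∈ R, r * a * r⁻¹ = a ∨ r * a * r⁻¹ = a * z :=
    fun a => Iff.rfl
  have hzA' : z ∈ A' := by
    rw [hA'mem]
    exact ⟨hM.zA, fun r hr => Or.inl (hzconj r hr)⟩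
  have hA'le : A' ≤ A := fun a ha => ha.1
  have hA'R : ∀ r ∈ R, ∀ a ∈ A', r * a * r⁻¹ ∈ A' := by
    intro r hr a ha
    rcases ha.2 r hr with h1 | h1
    · rw [h1]; exact ha
    · rw [h1]; exact A'.mul_mem ha hzA'
  have hA'b : ∀ a ∈ A', b * a * b⁻¹ ∈ A' := by
    intro a ha
    rw [hA'mem]
    refine ⟨hM.nb a ha.1, ?_⟩
    intro r hr
    have e : r * (b * a * b⁻¹) * r⁻¹ = b * ((b⁻¹ * r * b) * a * (b⁻¹ * r * b)⁻¹) * b⁻¹ := by
      group
    rw [e]
    rcases ha.2 _ (hbinv r hr) with h1 | h1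
    · left; rw [h1]
    · right
      rw [h1]
      calc b * (a * z) * b⁻¹ = (b * a * b⁻¹) * (b * z * b⁻¹) := by group
        _ = b * a * b⁻¹ * z := by rw [hz.bz]
  rcases hM.min A' hA'le hA'R hA'b hzA' with hcase | hcase
  · exfalso
    -- the quotient of `R` by `{1, z}`
    have hZn : ((Subgroup.zpowers z).subgroupOf R).Normal := by
      refine ⟨fun n hn g => ?_⟩
      rw [Subgroup.mem_subgroupOf] at hn ⊢
      rcases hjfixpt_mem_zpowers hz.sq hn with h1 | h1
      · simp [h1]
      · have : ((g * n * g⁻¹ : ↥R) : S) = z := by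
          rw [Subgroup.coe_mul, Subgroup.coe_mul, Subgroup.coe_inv, h1]
          exact hzconj _ g.2
        rw [this]
        exact Subgroup.mem_zpowers z
    have hAn : (A.subgroupOf R).Normal := by
      refine ⟨fun n hn g => ?_⟩
      rw [Subgroup.mem_subgroupOf] at hn ⊢
      simpa using hM.nR g g.2 n hn
    have hP : IsPGroup 2 (↥R ⧸ (Subgroup.zpowers z).subgroupOf R) := h2.to_quotient _
    have hNn : ((A.subgroupOf R).map
        (QuotientGroup.mk' ((Subgroup.zpowers z).subgroupOf R))).Normal :=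
      Subgroup.Normal.map hAn _ (QuotientGroup.mk'_surjective _)
    -- an element of `A` outside `{1, z}`
    obtain ⟨a, haA, haz⟩ : ∃ a ∈ A, a ∉ Subgroup.zpowers z := by
      by_contra hcon
      push Not at hcon
      exact hM.ne (le_antisymm hcon ((Subgroup.zpowers_le).2 hM.zA))
    have hNne : (A.subgroupOf R).map
        (QuotientGroup.mk' ((Subgroup.zpowers z).subgroupOf R)) ≠ ⊥ := by
      intro hbot
      have hmem : QuotientGroup.mk' ((Subgroup.zpowers z).subgroupOf R) ⟨a, hM.le haA⟩ ∈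
          (A.subgroupOf R).map (QuotientGroup.mk' ((Subgroup.zpowers z).subgroupOf R)) :=
        Subgroup.mem_map_of_mem _ (by rw [Subgroup.mem_subgroupOf]; exact haA)
      rw [hbot, Subgroup.mem_bot, QuotientGroup.mk'_apply, QuotientGroup.eq_one_iff,
        Subgroup.mem_subgroupOf] at hmem
      exact haz hmem
    obtain ⟨c, hcN, hc1, hcZ⟩ := hjfixpt_center_mem hP _ hNne
    obtain ⟨a₀, ha₀, rfl⟩ := Subgroup.mem_map.1 hcN
    rw [Subgroup.mem_subgroupOf] at ha₀
    have ha₀' : (a₀ : S) ∈ A' := by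
      rw [hA'mem]
      refine ⟨ha₀, ?_⟩
      intro r hr
      rw [Subgroup.mem_center_iff] at hcZ
      have h3 := hcZ (QuotientGroup.mk' ((Subgroup.zpowers z).subgroupOf R)
        ⟨r⁻¹, R.inv_mem hr⟩)
      rw [← map_mul, ← map_mul, QuotientGroup.mk'_apply, QuotientGroup.mk'_apply,
        QuotientGroup.eq, Subgroup.mem_subgroupOf] at h3
      have h4 : (((⟨r⁻¹, R.inv_mem hr⟩ : ↥R) * a₀)⁻¹ * (a₀ * (⟨r⁻¹, R.inv_mem hr⟩ : ↥R)) : ↥R) =
          ((a₀ : S)⁻¹ * (r * (a₀ : S) * r⁻¹) : S) := by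
        simp only [Subgroup.coe_mul, Subgroup.coe_inv]
        group
      rw [h4] at h3
      rcases hjfixpt_mem_zpowers hz.sq h3 with h5 | h5
      · left
        have : r * (a₀ : S) * r⁻¹ = (a₀ : S) * ((a₀ : S)⁻¹ * (r * (a₀ : S) * r⁻¹)) := by group
        rw [this, h5, mul_one]
      · right
        have : r * (a₀ : S) * r⁻¹ = (a₀ : S) * ((a₀ : S)⁻¹ * (r * (a₀ : S) * r⁻¹)) := by group
        rw [this, h5]
    rw [hcase] at ha₀'
    apply hc1
    rw [QuotientGroup.mk'_apply, QuotientGroup.eq_one_iff, Subgroup.mem_subgroupOf]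
    exact ha₀'
  · intro r hr a ha
    have ha' : a ∈ A' := by rw [hcase]; exact ha
    exact ha'.2 r hr

end Cfsg.Agent.Lib.Helper73.HJ
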