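import Mathlib
import Cfsg.Agent.Lib.Helper73.HJDefs
import Cfsg.Agent.Lib.Helper73.HJDecomp

/-!
# Project HJ (S4415), piece ZUniq

ZUNIQ: `z⁻¹ z'` is trivial on `[E,R]` and on `C_E(R)`, so is 1.
-/

set_option autoImplicit false

namespace Cfsg.Agent.Lib.Helper73.HJ

variable {S : Type*} [Group S] [Finite S] {E : Type*} [AddCommGroup E] [Module (ZMod 3) E]
  [Finite E]

theorem hj_zuniq (ρ : Representation (ZMod 3) S E) (R : Subgroup S) (b : S) (hB : Base ρ R b) (z z' : S)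
    (hz : ZCen ρ R b z) (hz' : ZCen ρ R b z') : z = z'  := by
  apply hB.faith
  apply LinearMap.ext
  intro v
  have hsup := (hj_decomp ρ R hB.cop).2
  have hv : v ∈ hjFix ρ R ⊔ hjComm ρ R := by
    rw [hsup]
    exact Submodule.mem_top
  obtain ⟨f, hf, w, hw, rfl⟩ := Submodule.mem_sup.mp hv
  rw [map_add, map_add, (mem_hjFix ρ R f).mp hf z hz.mem, (mem_hjFix ρ R f).mp hf z' hz'.mem,
    hz.neg w hw, hz'.neg w hw]

end Cfsg.Agent.Lib.Helper73.HJ
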