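import Mathlib
import Cfsg.Agent.Lib.Helper73.HJDefs
import Cfsg.Agent.Lib.Helper73.HJElAb2
import Cfsg.Agent.Lib.Helper73.HJBCen
import Cfsg.Agent.Lib.Helper73.HJCentral
import Cfsg.Agent.Lib.Helper73.HJZUniq

/-!
# Project HJ (S4415), piece L2Ab

L2AB: `A` abelian with squares in `{1,z}`. `Ω = {a : a^2 = 1}` is `{1,z}` (ELAB2 + ZUNIQ). If some `a` has `a^2 = z` then `A = {1,z,a,az}`, `b a b⁻¹ ∈ {a, az}` and `= a` since `b^3 = 1`; so `b` centralizes `A`, `A ≤ Z(R)` (BCEN), and CENTRAL+ZUNIQ give `a ∈ {1,z}`: contradiction.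
-/

set_option autoImplicit false

namespace Cfsg.Agent.Lib.Helper73.HJ

variable {S : Type*} [Group S] [Finite S] {E : Type*} [AddCommGroup E] [Module (ZMod 3) E]
  [Finite E]

theorem hj_l2ab (ρ : Representation (ZMod 3) S E) (R Q : Subgroup S) (b : S) (hB : Base ρ R b) (hQR : Q ≤ R) (hQ : QType Q b) (hno : ¬ ∃ Q' : Subgroup S, Q' ≤ R ∧ QType Q' b ∧ Comm R Q') (z : S) (hz : ZCen ρ R b z) (A : Subgroup S)
    (hAR : A ≤ R) (hAn : ∀ r ∈ R, ∀ a ∈ A, r * a * r⁻¹ ∈ A) (hAb : ∀ a ∈ A, b * a * b⁻¹ ∈ A) (hzA : z ∈ A)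
    (hsq : ∀ a ∈ A, a * a = 1 ∨ a * a = z) (hab : ∀ a ∈ A, ∀ a' ∈ A, a * a' = a' * a) :
    A = Subgroup.zpowers z := by
  have hb3 : b * b * b = 1 := by
    have h0 := hB.b3
    rw [pow_succ, pow_two] at h0
    exact h0
  -- the subgroup of involutions of `A`
  let Ω : Subgroup S :=
    { carrier := {a | a ∈ A ∧ a * a = 1}
      mul_mem' := by
        rintro x y ⟨hx, hx2⟩ ⟨hy, hy2⟩
        refine ⟨A.mul_mem hx hy, ?_⟩
        calc x * y * (x * y) = x * (y * x) * y := by group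
          _ = x * (x * y) * y := by rw [hab y hy x hx]
          _ = (x * x) * (y * y) := by group
          _ = 1 := by rw [hx2, hy2, one_mul]
      one_mem' := ⟨A.one_mem, one_mul 1⟩
      inv_mem' := by
        rintro x ⟨hx, hx2⟩
        refine ⟨A.inv_mem hx, ?_⟩
        rw [← mul_inv_rev, hx2, inv_one] }
  have hΩmem : ∀ a : S, a ∈ Ω ↔ a ∈ A ∧ a * a = 1 := fun a => Iff.rfl
  have hΩ : ∀ a ∈ A, a * a = 1 → a = 1 ∨ a = z := by
    intro a ha ha2
    have h1 := hj_elab2 ρ R Q b hB hQR hQ hno Ω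
      (fun x hx => hAR ((hΩmem x).mp hx).1)
      (fun r hr x hx => by
        obtain ⟨hx1, hx2⟩ := (hΩmem x).mp hx
        refine (hΩmem _).mpr ⟨hAn r hr x hx1, ?_⟩
        calc r * x * r⁻¹ * (r * x * r⁻¹) = r * (x * x) * r⁻¹ := by group
          _ = 1 := by rw [hx2, mul_one, mul_inv_cancel])
      (fun x hx => by
        obtain ⟨hx1, hx2⟩ := (hΩmem x).mp hx
        refine (hΩmem _).mpr ⟨hAb x hx1, ?_⟩
        calc b * x * b⁻¹ * (b * x * b⁻¹) = b * (x * x) * b⁻¹ := by group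
          _ = 1 := by rw [hx2, mul_one, mul_inv_cancel])
      (fun x hx y hy => hab x ((hΩmem x).mp hx).1 y ((hΩmem y).mp hy).1)
      (fun x hx => ((hΩmem x).mp hx).2)
      a ((hΩmem a).mpr ⟨ha, ha2⟩)
    rcases h1 with h1 | h1
    · exact Or.inl h1
    · exact Or.inr (hj_zuniq ρ R b hB z a hz h1).symm
  -- `b` centralizes `A`
  have hbc : ∀ a ∈ A, b * a * b⁻¹ = a := by
    intro a ha
    rcases hsq a ha with ha2 | ha2
    · rcases hΩ a ha ha2 with rfl | rfl
      · group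
      · exact hz.bz
    · have hcA : b * a * b⁻¹ ∈ A := hAb a ha
      have hcc : b * a * b⁻¹ * (b * a * b⁻¹) = z := by
        calc b * a * b⁻¹ * (b * a * b⁻¹) = b * (a * a) * b⁻¹ := by group
          _ = z := by rw [ha2, hz.bz]
      have hcomm : b * a * b⁻¹ * a⁻¹ = a⁻¹ * (b * a * b⁻¹) := hab _ hcA _ (A.inv_mem ha)
      have hdd : b * a * b⁻¹ * a⁻¹ * (b * a * b⁻¹ * a⁻¹) = 1 := by
        calc b * a * b⁻¹ * a⁻¹ * (b * a * b⁻¹ * a⁻¹)
            = b * a * b⁻¹ * (a⁻¹ * (b * a * b⁻¹)) * a⁻¹ := by group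
          _ = b * a * b⁻¹ * (b * a * b⁻¹ * a⁻¹) * a⁻¹ := by rw [← hcomm]
          _ = (b * a * b⁻¹ * (b * a * b⁻¹)) * (a * a)⁻¹ := by group
          _ = 1 := by rw [hcc, ha2, mul_inv_cancel]
      rcases hΩ _ (A.mul_mem hcA (A.inv_mem ha)) hdd with h1 | h1
      · exact mul_inv_eq_one.mp h1
      · exfalso
        have hcz : b * a * b⁻¹ = z * a := mul_inv_eq_iff_eq_mul.mp h1
        have e1 : b * (z * a) * b⁻¹ = a := by
          calc b * (z * a) * b⁻¹ = (b * z * b⁻¹) * (b * a * b⁻¹) := by group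
            _ = z * (z * a) := by rw [hz.bz, hcz]
            _ = (z * z) * a := by group
            _ = a := by rw [hz.sq, one_mul]
        have e2 : b * (b * (b * a * b⁻¹) * b⁻¹) * b⁻¹ = a := by
          have e : b * (b * (b * a * b⁻¹) * b⁻¹) * b⁻¹ = (b * b * b) * a * (b * b * b)⁻¹ := by
            group
          rw [e, hb3]
          group
        have e3 : z * a = a := by
          calc z * a = b * a * b⁻¹ := hcz.symm
            _ = b * (b * (z * a) * b⁻¹) * b⁻¹ := by rw [e1]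
            _ = b * (b * (b * a * b⁻¹) * b⁻¹) * b⁻¹ := by rw [hcz]
            _ = a := e2
        apply hz.ne
        have h := congrArg (· * a⁻¹) e3
        simpa using h
  have hcen := hj_bcen R b hB.gen A hAn hbc
  have hall : ∀ a ∈ A, a = 1 ∨ a = z := by
    intro a ha
    rcases hj_central ρ R Q b hB hQR hQ a (hAR ha) (hbc a ha) (fun r hr => hcen r hr a ha)
      with h1 | h1
    · exact Or.inl h1
    · exact Or.inr (hj_zuniq ρ R b hB z a hz h1).symm
  apply le_antisymm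
  · intro a ha
    rcases hall a ha with rfl | rfl
    · exact Subgroup.one_mem _
    · exact Subgroup.mem_zpowers _
  · rw [Subgroup.zpowers_le]
    exact hzA

end Cfsg.Agent.Lib.Helper73.HJ
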