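import Mathlib
import Cfsg.Agent.Lib.Helper73.HJDefs

/-!
# Project HJ (S4415), piece L2MinA (filled by helper51)

L2MINA: choose `A ≤ C` of least cardinality among the subgroups normalized by `R` and `b`, containing `z`, `≠ zpowers z`.
-/

set_option autoImplicit false

namespace Cfsg.Agent.Lib.Helper73.HJ

variable {S : Type*} [Group S] [Finite S] {E : Type*} [AddCommGroup E] [Module (ZMod 3) E]
  [Finite E]

theorem hj_l2mina (R : Subgroup S) (b z : S) (C : Subgroup S) (hCR : C ≤ R)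
    (hCn : ∀ r ∈ R, ∀ c ∈ C, r * c * r⁻¹ ∈ C) (hCb : ∀ c ∈ C, b * c * b⁻¹ ∈ C) (hzC : z ∈ C)
    (hC : C ≠ Subgroup.zpowers z) : ∃ A : Subgroup S, A ≤ C ∧ MinOver R A b z := by
  classical
  have hex : ∃ n : ℕ, ∃ A : Subgroup S, (A ≤ C ∧ z ∈ A ∧ A ≠ Subgroup.zpowers z ∧
      (∀ r ∈ R, ∀ a ∈ A, r * a * r⁻¹ ∈ A) ∧ (∀ a ∈ A, b * a * b⁻¹ ∈ A)) ∧ Nat.card A = n :=
    ⟨Nat.card C, C, ⟨le_rfl, hzC, hC, hCn, hCb⟩, rfl⟩
  obtain ⟨A, ⟨hAC, hzA, hAne, hAR, hAb⟩, hAcard⟩ := Nat.find_spec hex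
  refine ⟨A, hAC, ⟨hAC.trans hCR, hzA, hAne, hAR, hAb, ?_⟩⟩
  intro A' hA'A hA'R hA'b hzA'
  by_cases h : A' = Subgroup.zpowers z
  · exact Or.inl h
  · right
    have hmin : Nat.find hex ≤ Nat.card A' :=
      Nat.find_min' hex ⟨A', ⟨hA'A.trans hAC, hzA', h, hA'R, hA'b⟩, rfl⟩
    rw [← hAcard] at hmin
    exact Subgroup.eq_of_le_of_card_ge hA'A hmin

end Cfsg.Agent.Lib.Helper73.HJ
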