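import Mathlib
import Cfsg.Agent.Lib.Helper73.HJDefs

/-!
# Project HJ (S4415), piece L2MinB

L2MINB: `⁅A,A⁆ ⊔ zpowers z` is normalized by `R`, `b`, contains `z`: equals `zpowers z` (done) or `A`; in the latter case `⁅A,A⁆ = ⁅⁅A,A⁆,⁅A,A⁆⁆` (`z` central), impossible for the solvable `A` unless `⁅A,A⁆ = 1`.
-/

set_option autoImplicit false

namespace Cfsg.Agent.Lib.Helper73.HJ

variable {S : Type*} [Group S] [Finite S] {E : Type*} [AddCommGroup E] [Module (ZMod 3) E]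
  [Finite E]

/-- a nontrivial subgroup of a solvable subgroup is not perfect -/
theorem hjl2minb_not_perfect (R X : Subgroup S) (hsol : Group.IsSolvable ↥R) (hXR : X ≤ R)
    (hX : X ≠ ⊥) : ⁅X, X⁆ ≠ X := by
  intro hEq
  haveI : Nontrivial ↥X := (Subgroup.nontrivial_iff_ne_bot X).mpr hX
  haveI : Group.IsSolvable ↥X :=
    solvable_of_solvable_injective (Subgroup.inclusion_injective hXR)
  have hlt' : ⁅(⊤ : Subgroup ↥X), (⊤ : Subgroup ↥X)⁆ < ⊤ :=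
    Group.IsSolvable.commutator_lt_top_of_nontrivial ↥X
  have hmapT : (⊤ : Subgroup ↥X).map X.subtype = X := by
    rw [← MonoidHom.range_eq_map, Subgroup.range_subtype]
  have hmap : Subgroup.map X.subtype ⁅(⊤ : Subgroup ↥X), (⊤ : Subgroup ↥X)⁆ = ⁅X, X⁆ := by
    rw [Subgroup.map_commutator, hmapT]
  apply hlt'.ne
  apply Subgroup.map_injective X.subtype_injective
  rw [hmap, hEq, hmapT]

/-- conjugation by `m` preserves `⁅A, A⁆` when it preserves `A` -/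
theorem hjl2minb_conj (A : Subgroup S) (m : S) (hm : ∀ a ∈ A, m * a * m⁻¹ ∈ A) :
    ∀ c ∈ ⁅A, A⁆, m * c * m⁻¹ ∈ ⁅A, A⁆ := by
  intro c hc
  have hAm : A.map (MulAut.conj m).toMonoidHom ≤ A := by
    rintro _ ⟨a, ha, rfl⟩
    exact hm a ha
  have h1 : (⁅A, A⁆).map (MulAut.conj m).toMonoidHom ≤ ⁅A, A⁆ := by
    rw [Subgroup.map_commutator]
    exact Subgroup.commutator_mono hAm hAm
  exact h1 ⟨c, hc, rfl⟩

/-- the elements of `zpowers z` for an involution `z` -/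
theorem hjl2minb_zpowers (z : S) (hz2 : z * z = 1) : ∀ x ∈ Subgroup.zpowers z, x = 1 ∨ x = z := by
  intro x hx
  obtain ⟨k, rfl⟩ := Subgroup.mem_zpowers_iff.mp hx
  have hz2' : z ^ (2 : ℤ) = 1 := by
    rw [show (2 : ℤ) = 1 + 1 from rfl, zpow_add, zpow_one]; exact hz2
  obtain ⟨m, hm | hm⟩ := Int.even_or_odd' k
  · left
    rw [hm, zpow_mul, hz2', one_zpow]
  · right
    rw [hm, zpow_add, zpow_mul, hz2', one_zpow, one_mul, zpow_one]

theorem hj_l2minb (R : Subgroup S) (b z : S) (hsol : Group.IsSolvable ↥R)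
    (hnR : ∀ r ∈ R, b * r * b⁻¹ ∈ R) (hz2 : z * z = 1) (hzc : ∀ r ∈ R, r * z = z * r)
    (hbz : b * z * b⁻¹ = z) (A : Subgroup S) (hM : MinOver R A b z) :
    ∀ a ∈ A, ∀ a' ∈ A, a * a' * a⁻¹ * a'⁻¹ = 1 ∨ a * a' * a⁻¹ * a'⁻¹ = z := by
  classical
  have hCle : ⁅A, A⁆ ≤ A := by
    rw [Subgroup.commutator_le]
    intro g₁ h₁ g₂ h₂
    rw [commutatorElement_def]
    exact A.mul_mem (A.mul_mem (A.mul_mem h₁ h₂) (A.inv_mem h₁)) (A.inv_mem h₂)
  have hZle : Subgroup.zpowers z ≤ A := Subgroup.zpowers_le.mpr hM.zA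
  have hDle : ⁅A, A⁆ ⊔ Subgroup.zpowers z ≤ A := sup_le hCle hZle
  have hzD : z ∈ ⁅A, A⁆ ⊔ Subgroup.zpowers z :=
    (le_sup_right : Subgroup.zpowers z ≤ ⁅A, A⁆ ⊔ Subgroup.zpowers z) (Subgroup.mem_zpowers z)
  -- conjugation by `m` preserves `D` when it preserves `A` and fixes `z`
  have hDconj : ∀ m : S, (∀ a ∈ A, m * a * m⁻¹ ∈ A) → m * z * m⁻¹ = z →
      ∀ d ∈ ⁅A, A⁆ ⊔ Subgroup.zpowers z, m * d * m⁻¹ ∈ ⁅A, A⁆ ⊔ Subgroup.zpowers z := by
    intro m hm hmz d hd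
    have h1 : (⁅A, A⁆ ⊔ Subgroup.zpowers z).map (MulAut.conj m).toMonoidHom ≤
        ⁅A, A⁆ ⊔ Subgroup.zpowers z := by
      rw [Subgroup.map_sup]
      apply sup_le_sup
      · rintro _ ⟨c, hc, rfl⟩
        exact hjl2minb_conj A m hm c hc
      · rw [MonoidHom.map_zpowers]
        have : (MulAut.conj m).toMonoidHom z = z := hmz
        rw [this]
    exact h1 ⟨d, hd, rfl⟩
  have hcomm_mem : ∀ a ∈ A, ∀ a' ∈ A, a * a' * a⁻¹ * a'⁻¹ ∈ ⁅A, A⁆ := by
    intro a ha a' ha'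
    have h := Subgroup.commutator_mem_commutator ha ha'
    rw [commutatorElement_def] at h
    exact h
  have hrz : ∀ r ∈ R, r * z * r⁻¹ = z := by
    intro r hr
    rw [hzc r hr, mul_assoc, mul_inv_cancel, mul_one]
  rcases hM.min (⁅A, A⁆ ⊔ Subgroup.zpowers z) hDle
      (fun r hr d hd => hDconj r (hM.nR r hr) (hrz r hr) d hd)
      (fun d hd => hDconj b hM.nb hbz d hd) hzD with hD | hD
  · intro a ha a' ha'
    apply hjl2minb_zpowers z hz2
    rw [← hD]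
    exact (le_sup_left : ⁅A, A⁆ ≤ ⁅A, A⁆ ⊔ Subgroup.zpowers z) (hcomm_mem a ha a' ha')
  · -- `A = ⁅A, A⁆ ⊔ ⟨z⟩`: then `⁅A, A⁆` is perfect, hence trivial
    have hCR : ⁅A, A⁆ ≤ R := hCle.trans hM.le
    let T : Subgroup S :=
      { carrier := {g | ∃ c ∈ ⁅A, A⁆, g = c ∨ g = c * z}
        mul_mem' := by
          rintro g h ⟨c, hc, hg⟩ ⟨d, hd, hh⟩
          have hzd : z * d = d * z := (hzc d (hCR hd)).symm
          rcases hg with hg | hg <;> rcases hh with hh | hh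
          · exact ⟨c * d, Subgroup.mul_mem _ hc hd, Or.inl (by rw [hg, hh])⟩
          · exact ⟨c * d, Subgroup.mul_mem _ hc hd, Or.inr (by rw [hg, hh, mul_assoc])⟩
          · refine ⟨c * d, Subgroup.mul_mem _ hc hd, Or.inr ?_⟩
            rw [hg, hh, mul_assoc c z d, hzd, ← mul_assoc]
          · refine ⟨c * d, Subgroup.mul_mem _ hc hd, Or.inl ?_⟩
            rw [hg, hh]
            calc c * z * (d * z) = c * (z * d) * z := by simp only [mul_assoc]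
              _ = c * (d * z) * z := by rw [hzd]
              _ = c * d * (z * z) := by simp only [mul_assoc]
              _ = c * d := by rw [hz2, mul_one]
        one_mem' := ⟨1, Subgroup.one_mem _, Or.inl rfl⟩
        inv_mem' := by
          rintro g ⟨c, hc, hg⟩
          rcases hg with hg | hg
          · exact ⟨c⁻¹, Subgroup.inv_mem _ hc, Or.inl (by rw [hg])⟩
          · refine ⟨c⁻¹, Subgroup.inv_mem _ hc, Or.inr ?_⟩
            have hzinv : z⁻¹ = z := inv_eq_of_mul_eq_one_left hz2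
            have hzc' : z * c⁻¹ = c⁻¹ * z := (hzc c⁻¹ (hCR (Subgroup.inv_mem _ hc))).symm
            rw [hg, mul_inv_rev, hzinv, hzc'] }
    have hTmem : ∀ g : S, g ∈ T ↔ ∃ c ∈ ⁅A, A⁆, g = c ∨ g = c * z := fun g => Iff.rfl
    have hAT : A ≤ T := by
      rw [← hD]
      apply sup_le
      · intro c hc
        exact (hTmem c).mpr ⟨c, hc, Or.inl rfl⟩
      · rw [Subgroup.zpowers_le]
        exact (hTmem z).mpr ⟨1, Subgroup.one_mem _, Or.inr (one_mul z).symm⟩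
    -- conjugation by `c * z` agrees with conjugation by `c` on `R`
    have hcz : ∀ c g : S, g ∈ R → c * z * g * (c * z)⁻¹ = c * g * c⁻¹ := by
      intro c g hg
      have h1 : z * g = g * z := (hzc g hg).symm
      calc c * z * g * (c * z)⁻¹ = c * (z * g) * z⁻¹ * c⁻¹ := by rw [mul_inv_rev]; simp only [mul_assoc]
        _ = c * (g * z) * z⁻¹ * c⁻¹ := by rw [h1]
        _ = c * g * c⁻¹ := by simp only [mul_assoc, mul_inv_cancel, mul_one]
    have hperf : ⁅A, A⁆ ≤ ⁅⁅A, A⁆, ⁅A, A⁆⁆ := by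
      rw [Subgroup.commutator_le]
      intro g₁ h₁ g₂ h₂
      obtain ⟨c₁, hc₁, hg₁⟩ := (hTmem g₁).mp (hAT h₁)
      obtain ⟨c₂, hc₂, hg₂⟩ := (hTmem g₂).mp (hAT h₂)
      have hc₁R : c₁ ∈ R := hCR hc₁
      have hg₂R : g₂ ∈ R := hM.le h₂
      have e1 : g₁ * g₂ * g₁⁻¹ * g₂⁻¹ = c₁ * g₂ * c₁⁻¹ * g₂⁻¹ := by
        rcases hg₁ with hg₁ | hg₁
        · rw [hg₁]
        · rw [hg₁, hcz c₁ g₂ hg₂R]
      have e2 : c₁ * g₂ * c₁⁻¹ * g₂⁻¹ = c₁ * c₂ * c₁⁻¹ * c₂⁻¹ := by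
        rcases hg₂ with hg₂ | hg₂
        · rw [hg₂]
        · rw [hg₂]
          have h1 : z * c₁⁻¹ = c₁⁻¹ * z := (hzc c₁⁻¹ (R.inv_mem hc₁R)).symm
          calc c₁ * (c₂ * z) * c₁⁻¹ * (c₂ * z)⁻¹
              = c₁ * c₂ * (z * c₁⁻¹) * z⁻¹ * c₂⁻¹ := by rw [mul_inv_rev]; simp only [mul_assoc]
            _ = c₁ * c₂ * (c₁⁻¹ * z) * z⁻¹ * c₂⁻¹ := by rw [h1]
            _ = c₁ * c₂ * c₁⁻¹ * c₂⁻¹ := by simp only [mul_assoc, mul_inv_cancel_left]
      rw [commutatorElement_def, e1, e2]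
      have h := Subgroup.commutator_mem_commutator hc₁ hc₂
      rw [commutatorElement_def] at h
      exact h
    have hCC : ⁅⁅A, A⁆, ⁅A, A⁆⁆ ≤ ⁅A, A⁆ := Subgroup.commutator_mono hCle hCle
    have hCbot : ⁅A, A⁆ = ⊥ := by
      by_contra hne
      exact hjl2minb_not_perfect R ⁅A, A⁆ hsol hCR hne (le_antisymm hCC hperf)
    intro a ha a' ha'
    left
    have h := hcomm_mem a ha a' ha'
    rw [hCbot, Subgroup.mem_bot] at h
    exact h

end Cfsg.Agent.Lib.Helper73.HJ
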