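import Mathlib
import Cfsg.Agent.Lib.Helper73.HJDefs

/-!
# Project HJ (S4415), piece L2MinC

L2MINC: pick `a ∈ A` not in `{1,z}` and a prime `p` with `a^p ∈ {1,z}` (replace `a` by a power). `{a ∈ A : a^p ∈ {1,z}}` is a subgroup (`(a a')^n ∈ a^n a'^n {1,z}` by induction, commutators being central in `{1,z}`), normalized by `R`, `b`, containing `z`, `≠ zpowers z`: it is `A`.
-/

set_option autoImplicit false

namespace Cfsg.Agent.Lib.Helper73.HJ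

variable {S : Type*} [Group S] [Finite S] {E : Type*} [AddCommGroup E] [Module (ZMod 3) E]
  [Finite E]

theorem hjl2minc_zmem {S : Type*} [Group S] (z : S) (hz2 : z * z = 1) (x : S) :
    x ∈ Subgroup.zpowers z ↔ x = 1 ∨ x = z := by
  constructor
  · intro hx
    obtain ⟨k, rfl⟩ := Subgroup.mem_zpowers_iff.mp hx
    have hz2' : z ^ (2 : ℤ) = 1 := by
      rw [zpow_two]
      exact hz2
    rcases Int.emod_two_eq_zero_or_one k with h | h
    · left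
      obtain ⟨m, hm⟩ : ∃ m : ℤ, k = 2 * m := ⟨k / 2, by omega⟩
      rw [hm, zpow_mul, hz2', one_zpow]
    · right
      obtain ⟨m, hm⟩ : ∃ m : ℤ, k = 2 * m + 1 := ⟨k / 2, by omega⟩
      rw [hm, zpow_add, zpow_mul, hz2', one_zpow, one_mul, zpow_one]
  · rintro (rfl | rfl)
    · exact Subgroup.one_mem _
    · exact Subgroup.mem_zpowers _

theorem hj_l2minc (R : Subgroup S) (b z : S) (hz2 : z * z = 1) (hzc : ∀ r ∈ R, r * z = z * r)
    (hbz : b * z * b⁻¹ = z) (A : Subgroup S) (hM : MinOver R A b z)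
    (hcomm : ∀ a ∈ A, ∀ a' ∈ A, a * a' * a⁻¹ * a'⁻¹ = 1 ∨ a * a' * a⁻¹ * a'⁻¹ = z) :
    ∃ p : ℕ, p.Prime ∧ ∀ a ∈ A, a ^ p = 1 ∨ a ^ p = z := by
  classical
  obtain ⟨Zs, hZs⟩ : ∃ Zs : Subgroup S, Zs = Subgroup.zpowers z := ⟨_, rfl⟩
  have hZ : ∀ x : S, x ∈ Zs ↔ x = 1 ∨ x = z := by
    intro x
    rw [hZs]
    exact hjl2minc_zmem z hz2 x
  have hzZ : z ∈ Zs := (hZ z).mpr (Or.inr rfl)
  have hZA : Zs ≤ A := by
    rw [hZs, Subgroup.zpowers_le]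
    exact hM.zA
  have hcen : ∀ c ∈ Zs, ∀ a ∈ A, c * a = a * c := by
    intro c hc a ha
    rcases (hZ c).mp hc with rfl | rfl
    · rw [one_mul, mul_one]
    · exact (hzc a (hM.le ha)).symm
  have hcZ : ∀ x ∈ A, ∀ y ∈ A, x * y * x⁻¹ * y⁻¹ ∈ Zs := by
    intro x hx y hy
    exact (hZ _).mpr (hcomm x hx y hy)
  have hpm : ∀ x ∈ A, ∀ y ∈ A, ∀ n : ℕ, ∃ c ∈ Zs, (x * y) ^ n = c * x ^ n * y ^ n := by
    intro x hx y hy n
    induction n with
    | zero => exact ⟨1, Zs.one_mem, by simp⟩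
    | succ n ih =>
      obtain ⟨c, hc, hcn⟩ := ih
      obtain ⟨w, hw⟩ : ∃ w : S, w = y ^ n := ⟨_, rfl⟩
      obtain ⟨u, hu⟩ : ∃ u : S, u = x ^ n := ⟨_, rfl⟩
      have hwA : w ∈ A := by
        rw [hw]
        exact A.pow_mem hy n
      have huA : u ∈ A := by
        rw [hu]
        exact A.pow_mem hx n
      have hc' := hcZ w hwA x hx
      refine ⟨c * (w * x * w⁻¹ * x⁻¹), Zs.mul_mem hc hc', ?_⟩
      have h1 := hcen _ hc' u huA
      rw [pow_succ, hcn, pow_succ, pow_succ, ← hw, ← hu]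
      calc c * u * w * (x * y) = c * (u * (w * x * w⁻¹ * x⁻¹)) * x * w * y := by group
        _ = c * ((w * x * w⁻¹ * x⁻¹) * u) * x * w * y := by rw [← h1]
        _ = c * (w * x * w⁻¹ * x⁻¹) * (u * x) * (w * y) := by group
  have hex0 : ∃ a₀ ∈ A, a₀ ∉ Zs := by
    by_contra hcon
    push Not at hcon
    apply hM.ne
    rw [← hZs]
    exact le_antisymm hcon hZA
  obtain ⟨a₀, ha₀A, ha₀Z⟩ := hex0
  have hex : ∃ k : ℕ, 0 < k ∧ a₀ ^ k ∈ Zs :=
    ⟨orderOf a₀, orderOf_pos a₀, by rw [pow_orderOf_eq_one]; exact Zs.one_mem⟩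
  obtain ⟨k, hkdef⟩ : ∃ k, k = Nat.find hex := ⟨_, rfl⟩
  have hk : 0 < k ∧ a₀ ^ k ∈ Zs := by
    rw [hkdef]
    exact Nat.find_spec hex
  have hkmin : ∀ m, m < k → ¬ (0 < m ∧ a₀ ^ m ∈ Zs) := by
    intro m hm
    rw [hkdef] at hm
    exact Nat.find_min hex hm
  have hk1 : k ≠ 1 := by
    intro h1
    rw [h1, pow_one] at hk
    exact ha₀Z hk.2
  obtain ⟨p, hpdef⟩ : ∃ p, p = k.minFac := ⟨_, rfl⟩
  have hp : p.Prime := by
    rw [hpdef]
    exact Nat.minFac_prime hk1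
  obtain ⟨j, hj⟩ : p ∣ k := by
    rw [hpdef]
    exact Nat.minFac_dvd k
  have hj0 : 0 < j := by
    rcases Nat.eq_zero_or_pos j with h0 | h0
    · rw [h0, mul_zero] at hj
      omega
    · exact h0
  have hjk : j < k := by
    have h2 : 2 * j ≤ p * j := Nat.mul_le_mul_right j hp.two_le
    omega
  have haZ : a₀ ^ j ∉ Zs := fun h => hkmin j hjk ⟨hj0, h⟩
  have hap : (a₀ ^ j) ^ p ∈ Zs := by
    rw [← pow_mul, mul_comm, ← hj]
    exact hk.2
  obtain ⟨A', hA'⟩ : ∃ A' : Subgroup S, ∀ x : S, x ∈ A' ↔ x ∈ A ∧ x ^ p ∈ Zs := by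
    refine ⟨{ carrier := {x | x ∈ A ∧ x ^ p ∈ Zs}
              mul_mem' := ?_
              one_mem' := ?_
              inv_mem' := ?_ }, fun x => Iff.rfl⟩
    · rintro x y ⟨hx, hxp⟩ ⟨hy, hyp⟩
      obtain ⟨c, hc, hcp⟩ := hpm x hx y hy p
      refine ⟨A.mul_mem hx hy, ?_⟩
      rw [hcp]
      exact Zs.mul_mem (Zs.mul_mem hc hxp) hyp
    · exact ⟨A.one_mem, by rw [one_pow]; exact Zs.one_mem⟩
    · rintro x ⟨hx, hxp⟩
      exact ⟨A.inv_mem hx, by rw [inv_pow]; exact Zs.inv_mem hxp⟩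
  have hconjZ : ∀ g : S, g * z * g⁻¹ = z → ∀ c ∈ Zs, g * c * g⁻¹ ∈ Zs := by
    intro g hg c hc
    rcases (hZ c).mp hc with rfl | rfl
    · rw [mul_one, mul_inv_cancel]
      exact Zs.one_mem
    · rw [hg]
      exact hzZ
  have hmin := hM.min A' (fun x hx => ((hA' x).mp hx).1)
    (by
      intro r hr x hx
      obtain ⟨hxA, hxp⟩ := (hA' x).mp hx
      refine (hA' _).mpr ⟨hM.nR r hr x hxA, ?_⟩
      rw [conj_pow]
      apply hconjZ r _ _ hxp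
      rw [hzc r hr, mul_assoc, mul_inv_cancel, mul_one])
    (by
      intro x hx
      obtain ⟨hxA, hxp⟩ := (hA' x).mp hx
      refine (hA' _).mpr ⟨hM.nb x hxA, ?_⟩
      rw [conj_pow]
      exact hconjZ b hbz _ hxp)
    ((hA' z).mpr ⟨hM.zA, Zs.pow_mem hzZ p⟩)
  have haA' : a₀ ^ j ∈ A' := (hA' _).mpr ⟨A.pow_mem ha₀A j, hap⟩
  rcases hmin with h1 | h1
  · exfalso
    rw [h1, ← hZs] at haA'
    exact haZ haA'
  · refine ⟨p, hp, ?_⟩
    intro a ha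
    rw [← h1] at ha
    exact (hZ _).mp ((hA' a).mp ha).2

end Cfsg.Agent.Lib.Helper73.HJ
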