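import Mathlib
import Cfsg.Agent.Lib.Helper73.HJDefs

/-!
# Project HJ (S4415), piece FrameRot

FRAMEROT: the frame is cyclically symmetric.
-/

set_option autoImplicit false
set_option linter.unusedSectionVars false

namespace Cfsg.Agent.Lib.Helper73.HJ

variable {S : Type*} [Group S] [Finite S] {E : Type*} [AddCommGroup E] [Module (ZMod 3) E]
  [Finite E]

theorem hj_framerot (ρ : Representation (ZMod 3) S E) (Q : Subgroup S) (b : S) (q₁ q₂ q₃ : S) (e₁ e₂ e₃ : E) (hF : Frame ρ Q b q₁ q₂ q₃ e₁ e₂ e₃) :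
    Frame ρ Q b q₂ q₃ q₁ e₂ e₃ e₁ := by
  refine
    { m1 := hF.m2
      m2 := hF.m3
      m3 := hF.m1
      all := ?_
      s1 := hF.s2
      s2 := hF.s3
      s3 := hF.s1
      m12 := ?_
      m21 := ?_
      b1 := hF.b2
      b2 := hF.b3
      b3 := hF.b1
      e0 := ?_
      be1 := hF.be2
      be2 := hF.be3
      be3 := hF.be1
      q11 := hF.q22
      q12 := hF.q23
      q13 := hF.q21
      q21 := hF.q32
      q22 := hF.q33
      q23 := hF.q31
      q31 := hF.q12
      q32 := hF.q13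
      q33 := hF.q11
      bfix := hF.bfix
      dec := ?_ }
  · intro q hq
    rcases hF.all q hq with h | h | h | h
    · exact Or.inl h
    · exact Or.inr (Or.inr (Or.inr h))
    · exact Or.inr (Or.inl h)
    · exact Or.inr (Or.inr (Or.inl h))
  · rw [← hF.m21, ← mul_assoc, hF.s2, one_mul]
  · rw [← hF.m12, mul_assoc, hF.s2, mul_one]
  · intro h2
    apply hF.e0
    have h3 : e₃ = 0 := by rw [← hF.be2, h2, map_zero]
    rw [← hF.be3, h3, map_zero]
  · intro v
    obtain ⟨f, hf, c₁, c₂, c₃, hv⟩ := hF.dec v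
    refine ⟨f, hf, c₂, c₃, c₁, ?_⟩
    rw [hv]
    abel

end Cfsg.Agent.Lib.Helper73.HJ
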