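import Mathlib
import Cfsg.Agent.Lib.Helper73.HJDefs
import Cfsg.Agent.Lib.Helper73.HJDih
import Cfsg.Agent.Lib.Helper73.HJFrameRot

/-!
# Project HJ (S4415), piece OddQ (filled in by helper11)

ODDQ: `Q` centralizes the abelian odd-order `A ⊴ R`. For `a ∈ A` put `a₁ = a · a^{q₁} · (a^{q₂})⁻¹ · (a^{q₃})⁻¹` (`a^q = q a q⁻¹`): centralized by `q₁`, inverted by `q₂`, so `a₁ = 1` (DIH); same for the rotated frames (FRAMEROT). From `a a^{q₁} = a^{q₂} a^{q₃}` and `a a^{q₂} = a^{q₁} a^{q₃}`: `a^2 = (a^{q₃})^2`, so `a = a^{q₃}` (odd order); etc.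
-/

set_option autoImplicit false

namespace Cfsg.Agent.Lib.Helper73.HJ

variable {S : Type*} [Group S] [Finite S] {E : Type*} [AddCommGroup E] [Module (ZMod 3) E]
  [Finite E]

/-- abstract relation: `a · σa = τa · στa` if the only element fixed by `σ` and inverted by `τ`
is `1` -/
theorem hjoddq_absA {M : Type*} [CommGroup M] (σ τ : M →* M) (hσσ : ∀ m, σ (σ m) = m)
    (hττ : ∀ m, τ (τ m) = m) (hστ : ∀ m, τ (σ m) = σ (τ m))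
    (D : ∀ x : M, σ x = x → τ x = x⁻¹ → x = 1) (a : M) :
    a * σ a = τ a * σ (τ a) := by
  have h1 : σ (a * σ a * (τ a)⁻¹ * (σ (τ a))⁻¹) = a * σ a * (τ a)⁻¹ * (σ (τ a))⁻¹ := by
    simp only [map_mul, map_inv, hσσ]
    ac_rfl
  have h2 : τ (a * σ a * (τ a)⁻¹ * (σ (τ a))⁻¹) = (a * σ a * (τ a)⁻¹ * (σ (τ a))⁻¹)⁻¹ := by
    simp only [map_mul, map_inv, hστ, hττ, mul_inv, inv_inv]
    ac_rfl
  have h3 := D _ h1 h2
  rw [mul_inv_eq_one, mul_inv_eq_iff_eq_mul] at h3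
  rw [h3, mul_comm]

/-- abstract cancellation in a commutative group of odd order -/
theorem hjoddq_absB {M : Type*} [CommGroup M] (hodd : Odd (Nat.card M)) (u v w t : M)
    (h1 : u * v = w * t) (h2 : u * w = t * v) : u = t := by
  have h3 : (u * t⁻¹) ^ 2 = 1 := by
    have h4 : u * u * (v * w) = t * t * (v * w) := by
      calc u * u * (v * w) = (u * v) * (u * w) := by ac_rfl
        _ = (w * t) * (t * v) := by rw [h1, h2]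
        _ = t * t * (v * w) := by ac_rfl
    have h5 : u * u = t * t := mul_right_cancel h4
    rw [pow_two]
    calc u * t⁻¹ * (u * t⁻¹) = (u * u) * (t * t)⁻¹ := by
          simp only [mul_inv]
          ac_rfl
      _ = 1 := by rw [h5, mul_inv_cancel]
  have h6 : orderOf (u * t⁻¹) ∣ 2 := orderOf_dvd_of_pow_eq_one h3
  have h7 : orderOf (u * t⁻¹) ∣ Nat.card M := orderOf_dvd_natCard _
  have h8 : orderOf (u * t⁻¹) ∣ Nat.gcd 2 (Nat.card M) := Nat.dvd_gcd h6 h7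
  have h9 : Nat.gcd 2 (Nat.card M) = 1 := Nat.coprime_two_left.2 hodd
  rw [h9, Nat.dvd_one, orderOf_eq_one_iff] at h8
  exact mul_inv_eq_one.1 h8

/-- conjugation by a normalizing element, as an endomorphism of `↥A` -/
def hjoddq_cj {S : Type*} [Group S] (A : Subgroup S) (g : S) (hg : ∀ a ∈ A, g * a * g⁻¹ ∈ A) :
    ↥A →* ↥A where
  toFun a := ⟨g * a * g⁻¹, hg a a.2⟩
  map_one' := by
    apply Subtype.ext
    show g * ((1 : ↥A) : S) * g⁻¹ = ((1 : ↥A) : S)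
    rw [Subgroup.coe_one]
    group
  map_mul' x y := by
    apply Subtype.ext
    show g * ((x * y : ↥A) : S) * g⁻¹ = (g * (x : S) * g⁻¹) * (g * (y : S) * g⁻¹)
    rw [Subgroup.coe_mul]
    group

theorem hjoddq_cj_val {S : Type*} [Group S] (A : Subgroup S) (g : S)
    (hg : ∀ a ∈ A, g * a * g⁻¹ ∈ A) (a : ↥A) :
    ((hjoddq_cj A g hg a : ↥A) : S) = g * (a : S) * g⁻¹ := rfl

/-- the relation `a · a^{q₁} = a^{q₂} · a^{q₃}` for a frame -/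
theorem hjoddq_rel (ρ : Representation (ZMod 3) S E) (R Q : Subgroup S) (b : S) (hB : Base ρ R b)
    (hQR : Q ≤ R) (hQ : QType Q b) (q₁ q₂ q₃ : S) (e₁ e₂ e₃ : E)
    (hF : Frame ρ Q b q₁ q₂ q₃ e₁ e₂ e₃) (A : Subgroup S)
    (hAR : A ≤ R) (hAn : ∀ r ∈ R, ∀ a ∈ A, r * a * r⁻¹ ∈ A)
    (hab : ∀ a ∈ A, ∀ a' ∈ A, a * a' = a' * a) (hodd : Odd (Nat.card A)) :
    ∀ a ∈ A, a * (q₁ * a * q₁⁻¹) = (q₂ * a * q₂⁻¹) * (q₃ * a * q₃⁻¹) := by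
  intro a ha
  letI : CommGroup ↥A :=
    { (inferInstance : Group ↥A) with mul_comm := fun x y => Subtype.ext (hab x x.2 y y.2) }
  have key := hjoddq_absA (M := ↥A) (hjoddq_cj A q₁ (hAn q₁ (hQR hF.m1)))
    (hjoddq_cj A q₂ (hAn q₂ (hQR hF.m2))) ?_ ?_ ?_ ?_ ⟨a, ha⟩
  · have key' := congrArg Subtype.val key
    have e1 : q₁ * (q₂ * a * q₂⁻¹) * q₁⁻¹ = (q₁ * q₂) * a * (q₁ * q₂)⁻¹ := by group
    rw [hF.m12] at e1
    rw [← e1]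
    exact key'
  · intro m
    apply Subtype.ext
    show q₁ * (q₁ * (m : S) * q₁⁻¹) * q₁⁻¹ = (m : S)
    have e1 : q₁ * (q₁ * (m : S) * q₁⁻¹) * q₁⁻¹ = (q₁ * q₁) * (m : S) * (q₁ * q₁)⁻¹ := by group
    rw [e1, hF.s1]
    group
  · intro m
    apply Subtype.ext
    show q₂ * (q₂ * (m : S) * q₂⁻¹) * q₂⁻¹ = (m : S)
    have e1 : q₂ * (q₂ * (m : S) * q₂⁻¹) * q₂⁻¹ = (q₂ * q₂) * (m : S) * (q₂ * q₂)⁻¹ := by group
    rw [e1, hF.s2]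
    group
  · intro m
    apply Subtype.ext
    show q₂ * (q₁ * (m : S) * q₁⁻¹) * q₂⁻¹ = q₁ * (q₂ * (m : S) * q₂⁻¹) * q₁⁻¹
    have e1 : q₂ * (q₁ * (m : S) * q₁⁻¹) * q₂⁻¹ = (q₂ * q₁) * (m : S) * (q₂ * q₁)⁻¹ := by group
    have e2 : q₁ * (q₂ * (m : S) * q₂⁻¹) * q₁⁻¹ = (q₁ * q₂) * (m : S) * (q₁ * q₂)⁻¹ := by group
    rw [e1, e2, hF.m12, hF.m21]
  · intro x h1 h2
    have h1' : q₁ * (x : S) * q₁⁻¹ = (x : S) := congrArg Subtype.val h1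
    have h2' : q₂ * (x : S) * q₂⁻¹ = (x : S)⁻¹ := congrArg Subtype.val h2
    have hox : Odd (orderOf (x : S)) :=
      Odd.of_dvd_nat hodd (Subgroup.orderOf_dvd_natCard A x.2)
    have hx1 := hj_dih ρ R Q b hB hQR hQ q₁ q₂ q₃ e₁ e₂ e₃ hF (x : S) (hAR x.2) hox h1' h2'
    exact Subtype.ext hx1

/-- `q₃` centralizes `A` (for any frame) -/
theorem hjoddq_fix (ρ : Representation (ZMod 3) S E) (R Q : Subgroup S) (b : S) (hB : Base ρ R b)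
    (hQR : Q ≤ R) (hQ : QType Q b) (q₁ q₂ q₃ : S) (e₁ e₂ e₃ : E)
    (hF : Frame ρ Q b q₁ q₂ q₃ e₁ e₂ e₃) (A : Subgroup S)
    (hAR : A ≤ R) (hAn : ∀ r ∈ R, ∀ a ∈ A, r * a * r⁻¹ ∈ A)
    (hab : ∀ a ∈ A, ∀ a' ∈ A, a * a' = a' * a) (hodd : Odd (Nat.card A)) :
    ∀ a ∈ A, q₃ * a = a * q₃ := by
  intro a ha
  have hF2 := hj_framerot ρ Q b q₁ q₂ q₃ e₁ e₂ e₃ hF
  have R1 := hjoddq_rel ρ R Q b hB hQR hQ q₁ q₂ q₃ e₁ e₂ e₃ hF A hAR hAn hab hodd a ha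
  have R2 := hjoddq_rel ρ R Q b hB hQR hQ q₂ q₃ q₁ e₂ e₃ e₁ hF2 A hAR hAn hab hodd a ha
  letI : CommGroup ↥A :=
    { (inferInstance : Group ↥A) with mul_comm := fun x y => Subtype.ext (hab x x.2 y y.2) }
  have h := hjoddq_absB (M := ↥A) hodd ⟨a, ha⟩ ⟨q₁ * a * q₁⁻¹, hAn q₁ (hQR hF.m1) a ha⟩
    ⟨q₂ * a * q₂⁻¹, hAn q₂ (hQR hF.m2) a ha⟩ ⟨q₃ * a * q₃⁻¹, hAn q₃ (hQR hF.m3) a ha⟩
    (Subtype.ext R1) (Subtype.ext R2)
  have h' : a = q₃ * a * q₃⁻¹ := congrArg Subtype.val h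
  calc q₃ * a = (q₃ * a * q₃⁻¹) * q₃ := by group
    _ = a * q₃ := by rw [← h']

theorem hj_oddq (ρ : Representation (ZMod 3) S E) (R Q : Subgroup S) (b : S) (hB : Base ρ R b) (hQR : Q ≤ R) (hQ : QType Q b) (q₁ q₂ q₃ : S) (e₁ e₂ e₃ : E) (hF : Frame ρ Q b q₁ q₂ q₃ e₁ e₂ e₃) (A : Subgroup S)
    (hAR : A ≤ R) (hAn : ∀ r ∈ R, ∀ a ∈ A, r * a * r⁻¹ ∈ A) (hAb : ∀ a ∈ A, b * a * b⁻¹ ∈ A) (hab : ∀ a ∈ A, ∀ a' ∈ A, a * a' = a' * a) (hodd : Odd (Nat.card A)) :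
    ∀ a ∈ A, ∀ q ∈ Q, q * a = a * q := by
  intro a ha q hq
  have hF2 := hj_framerot ρ Q b q₁ q₂ q₃ e₁ e₂ e₃ hF
  have hF3 := hj_framerot ρ Q b q₂ q₃ q₁ e₂ e₃ e₁ hF2
  rcases hF.all q hq with rfl | rfl | rfl | rfl
  · rw [one_mul, mul_one]
  · exact hjoddq_fix ρ R Q b hB hQR hQ q₂ q₃ q e₂ e₃ e₁ hF2 A hAR hAn hab hodd a ha
  · exact hjoddq_fix ρ R Q b hB hQR hQ q₃ q₁ q e₃ e₁ e₂ hF3 A hAR hAn hab hodd a ha
  · exact hjoddq_fix ρ R Q b hB hQR hQ q₁ q₂ q e₁ e₂ e₃ hF A hAR hAn hab hodd a ha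

end Cfsg.Agent.Lib.Helper73.HJ
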