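import Mathlib
import Cfsg.Agent.Lib.Helper73.HJDefs
import Cfsg.Agent.Lib.Helper73.HJFrame
import Cfsg.Agent.Lib.Helper73.HJOddQ
import Cfsg.Agent.Lib.Helper73.HJTriv
import Cfsg.Agent.Lib.Helper73.HJBCen
import Cfsg.Agent.Lib.Helper73.HJCentral
import Cfsg.Agent.Lib.Helper73.HJFFLines
import Cfsg.Agent.Lib.Helper73.HJFFNe
import Cfsg.Agent.Lib.Helper73.HJFFSpan

/-!
# Project HJ (S4415), piece Odd

ODD: an abelian subgroup `A` of odd order normalized by `R` and `b` is trivial. By ODDQ `Q` centralizes `A`, so each `a` maps `e_i` to `± e_i`, hence (odd order) fixes `e₁,e₂,e₃`. If `b` does not centralize `A`, TRIV says `b` fixes `e₁ ∈ C_E(A)`: false. So `b` centralizes `A`, `A ≤ Z(R)` (BCEN), and by CENTRAL each `a ≠ 1` is an involution: impossible.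
-/

set_option autoImplicit false

namespace Cfsg.Agent.Lib.Helper73.HJ

variable {S : Type*} [Group S] [Finite S] {E : Type*} [AddCommGroup E] [Module (ZMod 3) E]
  [Finite E]

theorem hjodd_zmod3 (c : ZMod 3) : c = 0 ∨ c = 1 ∨ c = -1 := by
  revert c
  decide

omit [Finite S] [Finite E] in
theorem hjodd_pow (ρ : Representation (ZMod 3) S E) (a : S) (e : E) (c : ZMod 3)
    (hc : ρ a e = c • e) (k : ℕ) : ρ (a ^ k) e = c ^ k • e := by
  induction k with
  | zero =>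
    rw [pow_zero, pow_zero, map_one, one_smul]
    rfl
  | succ k ih =>
    rw [pow_succ, hjtriv_mul, hc, map_smul, ih, smul_smul, pow_succ, mul_comm]

omit [Finite S] in
theorem hjodd_mem_pow (A : Subgroup S) (a : S) (ha : a ∈ A) : a ^ Nat.card A = 1 := by
  have h : (⟨a, ha⟩ : A) ^ Nat.card A = 1 := pow_card_eq_one'
  have h2 := congrArg Subtype.val h
  rw [Subgroup.coe_pow, Subgroup.coe_one] at h2
  exact h2

theorem hj_odd (ρ : Representation (ZMod 3) S E) (R Q : Subgroup S) (b : S) (hB : Base ρ R b) (hQR : Q ≤ R) (hQ : QType Q b) (A : Subgroup S)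
    (hAR : A ≤ R) (hAn : ∀ r ∈ R, ∀ a ∈ A, r * a * r⁻¹ ∈ A) (hAb : ∀ a ∈ A, b * a * b⁻¹ ∈ A) (hab : ∀ a ∈ A, ∀ a' ∈ A, a * a' = a' * a) (hodd : Odd (Nat.card A)) :
    A = ⊥ := by
  obtain ⟨q₁, q₂, q₃, e₁, e₂, e₃, hF⟩ := hj_frame ρ Q b hB.faith hB.b3 hB.rank hQ
  have hcomm := hj_oddq ρ R Q b hB hQR hQ q₁ q₂ q₃ e₁ e₂ e₃ hF A hAR hAn hAb hab hodd
  obtain ⟨hL1, -, -, -⟩ := hj_ff_lines ρ Q b q₁ q₂ q₃ e₁ e₂ e₃ hF
  obtain ⟨-, -, -, -, -, -, -, -, hne12, -, -⟩ := hj_ff_ne ρ Q b q₁ q₂ q₃ e₁ e₂ e₃ hF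
  obtain ⟨k, hk⟩ := hodd
  have hfix : ∀ a ∈ A, ρ a e₁ = e₁ := by
    intro a ha
    have h1 : ρ q₁ (ρ a e₁) = ρ a e₁ := by
      rw [← hjtriv_mul, hcomm a ha q₁ hF.m1, hjtriv_mul, hF.q11]
    have h2 : ρ q₂ (ρ a e₁) = -(ρ a e₁) := by
      rw [← hjtriv_mul, hcomm a ha q₂ hF.m2, hjtriv_mul, hF.q21, map_neg]
    obtain ⟨c, hc⟩ := hL1 _ h1 h2
    have han : a ^ (2 * k + 1) = 1 := by
      rw [← hk]
      exact hjodd_mem_pow A a ha
    have hcn : c ^ (2 * k + 1) • e₁ = e₁ := by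
      rw [← hjodd_pow ρ a e₁ c hc, han, map_one]
      rfl
    rcases hjodd_zmod3 c with h0 | h1' | hm
    · exfalso
      rw [h0, zero_pow (by omega), zero_smul] at hcn
      exact hF.e0 hcn.symm
    · rw [hc, h1', one_smul]
    · exfalso
      rw [hm, pow_succ, pow_mul, neg_one_sq, one_pow, one_mul, neg_smul, one_smul] at hcn
      have h3 : (2 : ZMod 3) • e₁ = 0 := by
        rw [two_smul]
        nth_rewrite 1 [← hcn]
        exact neg_add_cancel e₁
      have h4 : (2 : ZMod 3) * 2 = 1 := by decide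
      have h5 : e₁ = 0 := by
        calc e₁ = ((2 : ZMod 3) * 2) • e₁ := by rw [h4, one_smul]
          _ = (2 : ZMod 3) • ((2 : ZMod 3) • e₁) := by rw [mul_smul]
          _ = 0 := by rw [h3, smul_zero]
      exact hF.e0 h5
  by_cases hnc : ∃ a ∈ A, b * a * b⁻¹ ≠ a
  · exfalso
    have hcop : (Nat.card A).Coprime 3 :=
      Nat.Coprime.coprime_dvd_left (Subgroup.card_dvd_of_le hAR) hB.cop
    have hb1 : ρ b e₁ = e₁ :=
      hj_triv ρ b hB.faith hB.b3 hB.rank hB.sq A hcop hAb hnc e₁ ((mem_hjFix ρ A e₁).2 hfix)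
    rw [hF.be1] at hb1
    exact hne12 hb1.symm
  · have hbc : ∀ a ∈ A, b * a * b⁻¹ = a := by
      intro a ha
      by_contra hne
      exact hnc ⟨a, ha, hne⟩
    have hcen := hj_bcen R b hB.gen A hAn hbc
    rw [Subgroup.eq_bot_iff_forall]
    intro a ha
    rcases hj_central ρ R Q b hB hQR hQ a (hAR ha) (hbc a ha) (fun r hr => hcen r hr a ha) with h | hz
    · exact h
    · exfalso
      have han : a ^ (2 * k + 1) = 1 := by
        rw [← hk]
        exact hjodd_mem_pow A a ha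
      rw [pow_succ, pow_mul, pow_two, hz.sq, one_pow, one_mul] at han
      exact hz.ne han

end Cfsg.Agent.Lib.Helper73.HJ
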