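import Mathlib
import Cfsg.Agent.Lib.Helper73.HJDefs
import Cfsg.Agent.Lib.Helper73.HJOdd

/-!
# Project HJ (S4415), piece L2Odd

L2ODD: `p` odd. `O = {a ∈ A : a^p = 1}` is an abelian subgroup (if `a a' a⁻¹ a'⁻¹ = z` then `1 = (a a' a⁻¹)^p = z^p a'^p = z`), normalized by `R`, `b`, of odd order: `O = 1` (ODD). Then `a^2 ∈ O` gives `a^2 = 1`, `a = a^p ∈ {1,z}`.
-/

set_option autoImplicit false

namespace Cfsg.Agent.Lib.Helper73.HJ

variable {S : Type*} [Group S] [Finite S] {E : Type*} [AddCommGroup E] [Module (ZMod 3) E]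
  [Finite E]

theorem hj_l2odd (ρ : Representation (ZMod 3) S E) (R Q : Subgroup S) (b : S) (hB : Base ρ R b) (hQR : Q ≤ R) (hQ : QType Q b) (z : S) (hz : ZCen ρ R b z) (A : Subgroup S)
    (hAR : A ≤ R) (hAn : ∀ r ∈ R, ∀ a ∈ A, r * a * r⁻¹ ∈ A) (hAb : ∀ a ∈ A, b * a * b⁻¹ ∈ A) (hzA : z ∈ A)
    (hcomm : ∀ a ∈ A, ∀ a' ∈ A, a * a' * a⁻¹ * a'⁻¹ = 1 ∨ a * a' * a⁻¹ * a'⁻¹ = z)
    (p : ℕ) (hp : p.Prime) (hp2 : p ≠ 2) (hpow : ∀ a ∈ A, a ^ p = 1 ∨ a ^ p = z) :
    A = Subgroup.zpowers z := by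
  classical
  have hzc : ∀ a ∈ A, a * z = z * a := fun a ha => hz.cen a (hAR ha)
  obtain ⟨k, hk⟩ := hp.odd_of_ne_two hp2
  have hzp : z ^ p = z := by
    rw [hk, pow_succ, pow_mul, pow_two, hz.sq, one_pow, one_mul]
  -- elements of `A` killed by `p` are central in `A`
  have hOcomm : ∀ a ∈ A, ∀ a' ∈ A, a' ^ p = 1 → a * a' = a' * a := by
    intro a ha a' ha' hp'
    rcases hcomm a ha a' ha' with h | h
    · have h1 : a * a' * a⁻¹ * a'⁻¹ * a' * a = a' * a := by rw [h, one_mul]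
      rw [← h1]
      group
    · exfalso
      have h1 : a * a' * a⁻¹ = z * a' := by
        rw [← h]
        group
      have h2 : (a * a' * a⁻¹) ^ p = 1 := by
        rw [conj_pow, hp', mul_one, mul_inv_cancel]
      have h3 : (z * a') ^ p = z := by
        rw [(show Commute z a' from (hzc a' ha').symm).mul_pow, hzp, hp', mul_one]
      rw [h1, h3] at h2
      exact hz.ne h2
  obtain ⟨O, hOmem⟩ : ∃ O : Subgroup S, ∀ a, a ∈ O ↔ a ∈ A ∧ a ^ p = 1 :=
    ⟨{ carrier := {a | a ∈ A ∧ a ^ p = 1}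
       mul_mem' := by
         rintro a a' ⟨ha, hap⟩ ⟨ha', hap'⟩
         refine ⟨mul_mem ha ha', ?_⟩
         rw [(show Commute a a' from hOcomm a ha a' ha' hap').mul_pow, hap, hap', one_mul]
       one_mem' := ⟨one_mem A, one_pow p⟩
       inv_mem' := by
         rintro a ⟨ha, hap⟩
         exact ⟨inv_mem ha, by rw [inv_pow, hap, inv_one]⟩ }, fun a => Iff.rfl⟩
  have hObot : O = ⊥ := by
    apply hj_odd ρ R Q b hB hQR hQ O
    · intro a ha
      exact hAR ((hOmem a).mp ha).1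
    · intro r hr a ha
      obtain ⟨ha1, ha2⟩ := (hOmem a).mp ha
      exact (hOmem _).mpr ⟨hAn r hr a ha1, by rw [conj_pow, ha2, mul_one, mul_inv_cancel]⟩
    · intro a ha
      obtain ⟨ha1, ha2⟩ := (hOmem a).mp ha
      exact (hOmem _).mpr ⟨hAb a ha1, by rw [conj_pow, ha2, mul_one, mul_inv_cancel]⟩
    · intro a ha a' ha'
      exact hOcomm a ((hOmem a).mp ha).1 a' ((hOmem a').mp ha').1 ((hOmem a').mp ha').2
    · have hpg : IsPGroup p O := by
        intro a
        refine ⟨1, ?_⟩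
        rw [pow_one]
        apply Subtype.ext
        rw [Subgroup.coe_pow]
        exact ((hOmem a.1).mp a.2).2
      have hfact : Fact p.Prime := ⟨hp⟩
      obtain ⟨j, hj⟩ := IsPGroup.iff_card.mp hpg
      rw [hj]
      exact (hp.odd_of_ne_two hp2).pow
  apply le_antisymm
  · intro a ha
    have ha2 : a ^ 2 ∈ O := by
      refine (hOmem _).mpr ⟨pow_mem ha 2, ?_⟩
      rw [← pow_mul, mul_comm, pow_mul]
      rcases hpow a ha with h | h
      · rw [h, one_pow]
      · rw [h, pow_two, hz.sq]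
    rw [hObot, Subgroup.mem_bot] at ha2
    have hap : a ^ p = a := by
      rw [hk, pow_succ, pow_mul, ha2, one_pow, one_mul]
    rcases hpow a ha with h | h
    · rw [hap] at h
      rw [h]
      exact one_mem _
    · rw [hap] at h
      rw [h]
      exact Subgroup.mem_zpowers z
  · rw [Subgroup.zpowers_le]
    exact hzA

end Cfsg.Agent.Lib.Helper73.HJ
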