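import Mathlib
import Cfsg.Agent.Lib.Helper73.HJDefs
import Cfsg.Agent.Lib.Helper73.HJL2MinA
import Cfsg.Agent.Lib.Helper73.HJL2MinB
import Cfsg.Agent.Lib.Helper73.HJL2MinC
import Cfsg.Agent.Lib.Helper73.HJL2Odd
import Cfsg.Agent.Lib.Helper73.HJL2Ab

/-!
# Project HJ (S4415), piece L2

L2: L2MINA gives `A`; L2MINB commutators; L2MINC exponent `p` mod `z`; `p = 2` by L2ODD; `A` nonabelian by L2AB; centre: `{a ∈ A : a central in A}` is normalized by `R`, `b`, contains `z`, is not `A`, so is `zpowers z` (minimality).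
-/

set_option autoImplicit false

namespace Cfsg.Agent.Lib.Helper73.HJ

variable {S : Type*} [Group S] [Finite S] {E : Type*} [AddCommGroup E] [Module (ZMod 3) E]
  [Finite E]

theorem hj_l2 (ρ : Representation (ZMod 3) S E) (R Q : Subgroup S) (b : S) (hB : Base ρ R b) (hQR : Q ≤ R) (hQ : QType Q b) (hno : ¬ ∃ Q' : Subgroup S, Q' ≤ R ∧ QType Q' b ∧ Comm R Q') (z : S) (hz : ZCen ρ R b z) (C : Subgroup S) (hCR : C ≤ R)
    (hCn : ∀ r ∈ R, ∀ c ∈ C, r * c * r⁻¹ ∈ C) (hCb : ∀ c ∈ C, b * c * b⁻¹ ∈ C) (hzC : z ∈ C)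
    (hC : C ≠ Subgroup.zpowers z) :
    ∃ A : Subgroup S, A ≤ C ∧ ExSub R A b z ∧ (∃ a ∈ A, ∃ a' ∈ A, a * a' ≠ a' * a) ∧
      MinOver R A b z := by
  obtain ⟨A, hAC, hM⟩ := hj_l2mina R b z C hCR hCn hCb hzC hC
  have hcomm := hj_l2minb R b z hB.sol hB.nR hz.sq hz.cen hz.bz A hM
  obtain ⟨p, hp, hpow⟩ := hj_l2minc R b z hz.sq hz.cen hz.bz A hM hcomm
  have hp2 : p = 2 := by
    by_contra hp2
    exact hM.ne (hj_l2odd ρ R Q b hB hQR hQ z hz A hM.le hM.nR hM.nb hM.zA hcomm p hp hp2 hpow)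
  subst hp2
  have hsq : ∀ a ∈ A, a * a = 1 ∨ a * a = z := by
    intro a ha
    have h1 := hpow a ha
    rwa [pow_two] at h1
  have hnab : ∃ a ∈ A, ∃ a' ∈ A, a * a' ≠ a' * a := by
    by_contra hcon
    push Not at hcon
    exact hM.ne (hj_l2ab ρ R Q b hB hQR hQ hno z hz A hM.le hM.nR hM.nb hM.zA hsq hcon)
  refine ⟨A, hAC, ⟨hM.le, hM.nR, hM.nb, hM.zA, hcomm, hsq, ?_⟩, hnab, hM⟩
  intro a ha hcen
  have hbinv : ∀ a' ∈ A, b⁻¹ * a' * b ∈ A := by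
    intro a' ha'
    have h1 := hM.nb _ (hM.nb a' ha')
    have hb3 : b * (b * b) = 1 := by
      have h3 := hB.b3
      rw [pow_succ, pow_two, mul_assoc] at h3
      exact h3
    have hb : b⁻¹ = b * b := inv_eq_of_mul_eq_one_right hb3
    have e : b * (b * a' * b⁻¹) * b⁻¹ = b⁻¹ * a' * b := by
      calc b * (b * a' * b⁻¹) * b⁻¹ = (b * b) * a' * (b * b)⁻¹ := by group
        _ = b⁻¹ * a' * b⁻¹⁻¹ := by rw [← hb]
        _ = b⁻¹ * a' * b := by rw [inv_inv]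
    rw [e] at h1
    exact h1
  have hmemZ : ∀ x, x ∈ A ⊓ Subgroup.centralizer (A : Set S) ↔
      x ∈ A ∧ ∀ a' ∈ A, a' * x = x * a' := by
    intro x
    rw [Subgroup.mem_inf, Subgroup.mem_centralizer_iff]
    rfl
  have hconjZ : ∀ g : S, (∀ a' ∈ A, g * a' * g⁻¹ ∈ A) → (∀ a' ∈ A, g⁻¹ * a' * g ∈ A) →
      ∀ x ∈ A ⊓ Subgroup.centralizer (A : Set S),
        g * x * g⁻¹ ∈ A ⊓ Subgroup.centralizer (A : Set S) := by
    intro g hg hg' x hx
    rw [hmemZ] at hx ⊢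
    refine ⟨hg x hx.1, fun a' ha' => ?_⟩
    have h1 := hx.2 _ (hg' a' ha')
    calc a' * (g * x * g⁻¹) = g * ((g⁻¹ * a' * g) * x) * g⁻¹ := by group
      _ = g * (x * (g⁻¹ * a' * g)) * g⁻¹ := by rw [h1]
      _ = g * x * g⁻¹ * a' := by group
  have hZmin := hM.min (A ⊓ Subgroup.centralizer (A : Set S)) inf_le_left
    (fun r hr x hx => hconjZ r (fun a' ha' => hM.nR r hr a' ha') (fun a' ha' => by
        have h1 := hM.nR r⁻¹ (inv_mem hr) a' ha'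
        rwa [inv_inv] at h1) x hx)
    (fun x hx => hconjZ b hM.nb hbinv x hx)
    ((hmemZ z).mpr ⟨hM.zA, fun a' ha' => hz.cen a' (hM.le ha')⟩)
  rcases hZmin with h | h
  · have haZ : a ∈ A ⊓ Subgroup.centralizer (A : Set S) :=
      (hmemZ a).mpr ⟨ha, fun a' ha' => (hcen a' ha').symm⟩
    rw [h] at haZ
    obtain ⟨k, hk⟩ := Subgroup.mem_zpowers_iff.mp haZ
    rw [← hk]
    rcases Int.even_or_odd' k with ⟨m, rfl | rfl⟩
    · left
      rw [zpow_mul, zpow_two, hz.sq, one_zpow]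
    · right
      rw [zpow_add, zpow_mul, zpow_two, hz.sq, one_zpow, one_mul, zpow_one]
  · exfalso
    obtain ⟨a1, ha1, a2, ha2, hne⟩ := hnab
    have h1 : a1 ∈ A ⊓ Subgroup.centralizer (A : Set S) := by
      rw [h]
      exact ha1
    exact hne (((hmemZ a1).mp h1).2 a2 ha2).symm

end Cfsg.Agent.Lib.Helper73.HJ
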