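import Mathlib
import Cfsg.Agent.Lib.Helper73.HJDefs
import Cfsg.Agent.Lib.Helper73.HJL2
import Cfsg.Agent.Lib.Helper73.HJFixPt
import Cfsg.Agent.Lib.Helper73.HJCProd

/-!
# Project HJ (S4415), piece ExtMax (filled by helper74)

EXTMAX: take `D` of largest order with `ExSub R D b z` and `R` trivial on `D` mod `z` (`zpowers z` qualifies). `C = R ⊓ centralizer D` is normalized by `R`, `b`, contains `z`. If `C ≠ zpowers z`: L2 gives a nonabelian `A ≤ C` with `ExSub` and `MinOver`; FIXPT gives `R` trivial on `A` mod `z`; CPROD: `D ⊔ A` qualifies and is larger (`A ≤ D` would make `A` abelian).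
-/

set_option autoImplicit false

namespace Cfsg.Agent.Lib.Helper73.HJ

variable {S : Type*} [Group S] [Finite S] {E : Type*} [AddCommGroup E] [Module (ZMod 3) E]
  [Finite E]

omit [Finite S] in
theorem hjextmax_mem_zpowers (z : S) (hz : z * z = 1) (a : S) (ha : a ∈ Subgroup.zpowers z) :
    a = 1 ∨ a = z := by
  obtain ⟨k, rfl⟩ := Subgroup.mem_zpowers_iff.mp ha
  rcases Int.even_or_odd k with ⟨m, rfl⟩ | ⟨m, rfl⟩
  · left
    rw [← two_mul, zpow_mul, zpow_two, hz, one_zpow]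
  · right
    rw [zpow_add, zpow_mul, zpow_two, hz, one_zpow, one_mul, zpow_one]

theorem hj_extmax (ρ : Representation (ZMod 3) S E) (R Q : Subgroup S) (b : S) (hB : Base ρ R b) (hQR : Q ≤ R) (hQ : QType Q b) (hno : ¬ ∃ Q' : Subgroup S, Q' ≤ R ∧ QType Q' b ∧ Comm R Q') (z : S) (hz : ZCen ρ R b z) (h2 : IsPGroup 2 ↥R) :
    ∃ D : Subgroup S, ExSub R D b z ∧
      (∀ r ∈ R, ∀ d ∈ D, r * d * r⁻¹ = d ∨ r * d * r⁻¹ = d * z) ∧
      ∀ c ∈ R, (∀ d ∈ D, c * d = d * c) → c = 1 ∨ c = z := by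
  classical
  have hzz : z * z = 1 := hz.sq
  have hmem := hjextmax_mem_zpowers z hzz
  have hbase : ExSub R (Subgroup.zpowers z) b z ∧
      (∀ r ∈ R, ∀ d ∈ Subgroup.zpowers z, r * d * r⁻¹ = d ∨ r * d * r⁻¹ = d * z) := by
    have hconj : ∀ r ∈ R, ∀ d ∈ Subgroup.zpowers z, r * d * r⁻¹ = d := by
      intro r hr d hd
      rcases hmem d hd with h | h
      · rw [h]
        simp
      · rw [h, hz.cen r hr, mul_inv_cancel_right]
    refine ⟨⟨?_, ?_, ?_, Subgroup.mem_zpowers z, ?_, ?_, ?_⟩,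
      fun r hr d hd => Or.inl (hconj r hr d hd)⟩
    · rw [Subgroup.zpowers_le]
      exact hz.mem
    · intro r hr a ha
      rw [hconj r hr a ha]
      exact ha
    · intro a ha
      rcases hmem a ha with h | h
      · rw [h]
        simp
      · rw [h, hz.bz]
        exact Subgroup.mem_zpowers z
    · intro a ha a' ha'
      left
      rcases hmem a ha with h | h <;> rcases hmem a' ha' with h' | h' <;> rw [h, h'] <;> simp
    · intro a ha
      left
      rcases hmem a ha with h | h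
      · rw [h]
        simp
      · rw [h]
        exact hzz
    · intro a ha _
      exact hmem a ha
  let P : Subgroup S → Prop := fun D => ExSub R D b z ∧
    (∀ r ∈ R, ∀ d ∈ D, r * d * r⁻¹ = d ∨ r * d * r⁻¹ = d * z)
  have : Nonempty {D : Subgroup S // P D} := ⟨⟨Subgroup.zpowers z, hbase⟩⟩
  obtain ⟨⟨D, hD, hDt⟩, hmax⟩ :=
    Finite.exists_max (fun D : {D : Subgroup S // P D} => Nat.card D.1)
  refine ⟨D, hD, hDt, ?_⟩
  have hCz : R ⊓ Subgroup.centralizer (D : Set S) = Subgroup.zpowers z := by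
    by_contra hCne
    have hb2 : b⁻¹ = b * b := by
      have h3 := hB.b3
      rw [pow_succ, pow_two] at h3
      exact inv_eq_of_mul_eq_one_left h3
    have hbinv : ∀ d ∈ D, b⁻¹ * d * b ∈ D := by
      intro d hd
      have h1 := hD.nb _ (hD.nb d hd)
      have h3 : b * (b * d * b⁻¹) * b⁻¹ = b⁻¹ * d * b := by
        calc b * (b * d * b⁻¹) * b⁻¹ = (b * b) * d * (b * b)⁻¹ := by group
          _ = b⁻¹ * d * b := by rw [← hb2, inv_inv]
      rw [h3] at h1
      exact h1
    have hCn : ∀ r ∈ R, ∀ c ∈ R ⊓ Subgroup.centralizer (D : Set S),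
        r * c * r⁻¹ ∈ R ⊓ Subgroup.centralizer (D : Set S) := by
      intro r hr c hc
      rw [Subgroup.mem_inf] at hc ⊢
      refine ⟨R.mul_mem (R.mul_mem hr hc.1) (R.inv_mem hr), ?_⟩
      rw [Subgroup.mem_centralizer_iff]
      intro d hd
      have h1 : r⁻¹ * d * r ∈ D := by
        have h3 := hD.nR r⁻¹ (R.inv_mem hr) d hd
        simpa using h3
      have h4 := (Subgroup.mem_centralizer_iff.mp hc.2) _ h1
      calc d * (r * c * r⁻¹) = r * ((r⁻¹ * d * r) * c) * r⁻¹ := by group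
        _ = r * (c * (r⁻¹ * d * r)) * r⁻¹ := by rw [h4]
        _ = r * c * r⁻¹ * d := by group
    have hCb : ∀ c ∈ R ⊓ Subgroup.centralizer (D : Set S),
        b * c * b⁻¹ ∈ R ⊓ Subgroup.centralizer (D : Set S) := by
      intro c hc
      rw [Subgroup.mem_inf] at hc ⊢
      refine ⟨hB.nR c hc.1, ?_⟩
      rw [Subgroup.mem_centralizer_iff]
      intro d hd
      have h4 := (Subgroup.mem_centralizer_iff.mp hc.2) _ (hbinv d hd)
      calc d * (b * c * b⁻¹) = b * ((b⁻¹ * d * b) * c) * b⁻¹ := by group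
        _ = b * (c * (b⁻¹ * d * b)) * b⁻¹ := by rw [h4]
        _ = b * c * b⁻¹ * d := by group
    have hzC : z ∈ R ⊓ Subgroup.centralizer (D : Set S) := by
      rw [Subgroup.mem_inf]
      refine ⟨hz.mem, ?_⟩
      rw [Subgroup.mem_centralizer_iff]
      intro d hd
      exact hz.cen d (hD.le hd)
    obtain ⟨A, hAC, hA, ⟨a, ha, a', ha', hne⟩, hM⟩ :=
      hj_l2 ρ R Q b hB hQR hQ hno z hz (R ⊓ Subgroup.centralizer (D : Set S)) inf_le_left
        hCn hCb hzC hCne
    have hAt := hj_fixpt ρ R b hB z hz A hM h2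
    have hDA : ∀ d ∈ D, ∀ a ∈ A, d * a = a * d := by
      intro d hd a ha
      have h5 := hAC ha
      rw [Subgroup.mem_inf] at h5
      exact (Subgroup.mem_centralizer_iff.mp h5.2) d hd
    obtain ⟨hE, hEt⟩ := hj_cprod ρ R b z hz D A hD hA hDA hDt hAt
    have hle := hmax ⟨D ⊔ A, hE, hEt⟩
    have heq : D = D ⊔ A := Subgroup.eq_of_le_of_card_ge le_sup_left hle
    have hAD : A ≤ D := by
      rw [heq]
      exact le_sup_right
    exact hne ((hDA a' (hAD ha') a ha).symm)
  intro c hc hcd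
  have h6 : c ∈ R ⊓ Subgroup.centralizer (D : Set S) := by
    rw [Subgroup.mem_inf]
    refine ⟨hc, ?_⟩
    rw [Subgroup.mem_centralizer_iff]
    intro d hd
    exact (hcd d hd).symm
  rw [hCz] at h6
  exact hmem c h6

end Cfsg.Agent.Lib.Helper73.HJ
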