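import Mathlib
import Cfsg.Agent.Lib.Helper73.HJDefs
import Cfsg.Agent.Lib.Helper73.HJExtMax

/-!
# Project HJ (S4415), piece Ext (proved by helper29)

EXT: with `D` from EXTMAX, `r r'` and `r' r` act in the same way on `D` (each multiplies `d` by a central element of `{1,z}`), so `r r' r⁻¹ r'⁻¹` centralizes `D`, hence is `1` or `z`.
-/

set_option autoImplicit false

namespace Cfsg.Agent.Lib.Helper73.HJ

variable {S : Type*} [Group S] [Finite S] {E : Type*} [AddCommGroup E] [Module (ZMod 3) E]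
  [Finite E]

theorem hjext_swap (R D : Subgroup S) (z : S) (hzc : ∀ r ∈ R, r * z = z * r)
    (hDt : ∀ r ∈ R, ∀ d ∈ D, r * d * r⁻¹ = d ∨ r * d * r⁻¹ = d * z)
    (r r' : S) (hr : r ∈ R) (hr' : r' ∈ R) (d : S) (hd : d ∈ D) :
    (r * r') * d * (r * r')⁻¹ = (r' * r) * d * (r' * r)⁻¹ := by
  have hz1 : r * z * r⁻¹ = z := by rw [hzc r hr, mul_inv_cancel_right]
  have hz2 : r' * z * r'⁻¹ = z := by rw [hzc r' hr', mul_inv_cancel_right]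
  have hL : (r * r') * d * (r * r')⁻¹ = r * (r' * d * r'⁻¹) * r⁻¹ := by group
  have hR : (r' * r) * d * (r' * r)⁻¹ = r' * (r * d * r⁻¹) * r'⁻¹ := by group
  have hLz : r * (d * z) * r⁻¹ = (r * d * r⁻¹) * (r * z * r⁻¹) := by group
  have hRz : r' * (d * z) * r'⁻¹ = (r' * d * r'⁻¹) * (r' * z * r'⁻¹) := by group
  rw [hL, hR]
  rcases hDt r hr d hd with h1 | h1 <;> rcases hDt r' hr' d hd with h2 | h2
  · rw [h2, h1, h2]
  · rw [h2, h1, h2, hLz, h1, hz1]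
  · rw [h2, h1, hRz, h2, hz2]
  · rw [h2, h1, hLz, hRz, h1, h2, hz1, hz2]

theorem hj_ext (ρ : Representation (ZMod 3) S E) (R Q : Subgroup S) (b : S) (hB : Base ρ R b) (hQR : Q ≤ R) (hQ : QType Q b) (hno : ¬ ∃ Q' : Subgroup S, Q' ≤ R ∧ QType Q' b ∧ Comm R Q') (z : S) (hz : ZCen ρ R b z) (h2 : IsPGroup 2 ↥R) :
    ∀ r ∈ R, ∀ r' ∈ R, r * r' * r⁻¹ * r'⁻¹ = 1 ∨ r * r' * r⁻¹ * r'⁻¹ = z := by
  obtain ⟨D, hD, hDt, hC⟩ := hj_extmax ρ R Q b hB hQR hQ hno z hz h2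
  intro r hr r' hr'
  apply hC
  · exact R.mul_mem (R.mul_mem (R.mul_mem hr hr') (R.inv_mem hr)) (R.inv_mem hr')
  · intro d hd
    have hd' : (r' * r)⁻¹ * d * ((r' * r)⁻¹)⁻¹ ∈ D :=
      hD.nR _ (R.inv_mem (R.mul_mem hr' hr)) d hd
    have hsw := hjext_swap R D z hz.cen hDt r r' hr hr' _ hd'
    have h1 : (r' * r) * ((r' * r)⁻¹ * d * ((r' * r)⁻¹)⁻¹) * (r' * r)⁻¹ = d := by group
    have h2' : (r * r') * ((r' * r)⁻¹ * d * ((r' * r)⁻¹)⁻¹) * (r * r')⁻¹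
        = (r * r' * r⁻¹ * r'⁻¹) * d * (r * r' * r⁻¹ * r'⁻¹)⁻¹ := by group
    rw [h1, h2'] at hsw
    calc r * r' * r⁻¹ * r'⁻¹ * d
        = (r * r' * r⁻¹ * r'⁻¹ * d * (r * r' * r⁻¹ * r'⁻¹)⁻¹) * (r * r' * r⁻¹ * r'⁻¹) := by group
      _ = d * (r * r' * r⁻¹ * r'⁻¹) := by rw [hsw]

end Cfsg.Agent.Lib.Helper73.HJ
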