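import Mathlib
import Cfsg.Agent.Lib.Helper73.HJDefs
import Cfsg.Agent.Lib.Helper73.HJCard4
import Cfsg.Agent.Lib.Helper72.HHCore

/-!
# Project HJ (S4415), piece Extra4

EXTRA4: `R` has order 32; its centre is `{1, z₀}`, `z₀` = the diagonal element `(-1,-1,-1,-1)`; all commutators and squares lie in `{1, z₀}` and `R` is not abelian. See `Cfsg/Agent/Lib/Helper72/HHCore.lean` (`isExtraspecial_subgroup`) and `Lib/Helper72/Frattini.lean` for recognising extraspecial subgroups.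
-/

set_option autoImplicit false

namespace Cfsg.Agent.Lib.Helper73.HJ

variable {S : Type*} [Group S] [Finite S] {E : Type*} [AddCommGroup E] [Module (ZMod 3) E]
  [Finite E]

/-- the addition table of the Klein four-group on `Fin 4` -/
def hjextra4_sw : Fin 4 → Fin 4 → Fin 4 :=
  ![![0, 1, 2, 3], ![1, 0, 3, 2], ![2, 3, 0, 1], ![3, 2, 1, 0]]

theorem hjextra4_sw_comm : ∀ j j' i : Fin 4,
    hjextra4_sw j (hjextra4_sw j' i) = hjextra4_sw j' (hjextra4_sw j i) := by decide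

theorem hjextra4_sw_invol : ∀ j i : Fin 4, hjextra4_sw j (hjextra4_sw j i) = i := by decide

theorem hjextra4_sw_zero : ∀ i : Fin 4, hjextra4_sw 0 i = i := by decide

theorem hjextra4_sw_zero' : ∀ i : Fin 4, hjextra4_sw i 0 = i := by decide

theorem hjextra4_sgn : ∀ a b c d : ZMod 3, a * a = 1 → b * b = 1 → c * c = 1 → d * d = 1 →
    a * b * c * d = 1 → a * b = c * d := by decide

theorem hjextra4_pm : ∀ a b c d : ZMod 3, a * a = 1 → b * b = 1 → c * c = 1 → d * d = 1 →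
    (a * b) * (c * d) = 1 ∨ (a * b) * (c * d) = -1 := by decide

theorem hjextra4_pm1 : ∀ a b : ZMod 3, a * a = 1 → b * b = 1 → a * b = 1 ∨ a * b = -1 := by
  decide

theorem hjextra4_pm0 : ∀ a : ZMod 3, a * a = 1 → a = 1 ∨ a = -1 := by decide

theorem hjextra4_eq : ∀ a b : ZMod 3, a * a = 1 → a * b = 1 → b = a := by decide

theorem hjextra4_j0 : ∀ j : Fin 4,
    (![-1, 1, -1, 1] : Fin 4 → ZMod 3) 0 * (![-1, 1, -1, 1] : Fin 4 → ZMod 3) (hjextra4_sw j 0) = 1 →
    (![-1, -1, 1, 1] : Fin 4 → ZMod 3) 0 * (![-1, -1, 1, 1] : Fin 4 → ZMod 3) (hjextra4_sw j 0) = 1 →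
    j = 0 := by decide

theorem hjextra4_all (P : Fin 4 → Prop) (h0 : P 0) (h1 : P 1) (h2 : P 2) (h3 : P 3) :
    ∀ i, P i := by
  intro i
  fin_cases i
  · exact h0
  · exact h1
  · exact h2
  · exact h3

theorem hjextra4_const (s : Fin 4 → ZMod 3) (hs : ∀ i, s i * s i = 1)
    (hp : s 0 * s 1 * s 2 * s 3 = 1) (j : Fin 4) :
    ∀ i, s i * s (hjextra4_sw j i) = s 0 * s (hjextra4_sw j 0) := by
  have h01 := hjextra4_sgn (s 0) (s 1) (s 2) (s 3) (hs 0) (hs 1) (hs 2) (hs 3) hp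
  have h02 := hjextra4_sgn (s 0) (s 2) (s 1) (s 3) (hs 0) (hs 2) (hs 1) (hs 3)
    (by rw [← hp]; ring)
  have h03 := hjextra4_sgn (s 0) (s 3) (s 1) (s 2) (hs 0) (hs 3) (hs 1) (hs 2)
    (by rw [← hp]; ring)
  revert j
  refine hjextra4_all _ ?_ ?_ ?_ ?_
  · refine hjextra4_all _ ?_ ?_ ?_ ?_
    · rfl
    · show s 1 * s 1 = s 0 * s 0
      rw [hs 1, hs 0]
    · show s 2 * s 2 = s 0 * s 0
      rw [hs 2, hs 0]
    · show s 3 * s 3 = s 0 * s 0
      rw [hs 3, hs 0]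
  · refine hjextra4_all _ ?_ ?_ ?_ ?_
    · rfl
    · show s 1 * s 0 = s 0 * s 1
      ring
    · show s 2 * s 3 = s 0 * s 1
      exact h01.symm
    · show s 3 * s 2 = s 0 * s 1
      rw [h01]; ring
  · refine hjextra4_all _ ?_ ?_ ?_ ?_
    · rfl
    · show s 1 * s 3 = s 0 * s 2
      exact h02.symm
    · show s 2 * s 0 = s 0 * s 2
      ring
    · show s 3 * s 1 = s 0 * s 2
      rw [h02]; ring
  · refine hjextra4_all _ ?_ ?_ ?_ ?_
    · rfl
    · show s 1 * s 2 = s 0 * s 3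
      exact h03.symm
    · show s 2 * s 1 = s 0 * s 3
      rw [h03]; ring
    · show s 3 * s 0 = s 0 * s 3
      ring

omit [Finite S] [Finite E] in
theorem hjextra4_mul (ρ : Representation (ZMod 3) S E) (e : Fin 4 → E) (r r' : S) (j j' : Fin 4)
    (s s' : Fin 4 → ZMod 3) (h : ∀ i, ρ r (e i) = s i • e (hjextra4_sw j i))
    (h' : ∀ i, ρ r' (e i) = s' i • e (hjextra4_sw j' i)) (i : Fin 4) :
    ρ (r * r') (e i)
      = (s' i * s (hjextra4_sw j' i)) • e (hjextra4_sw j (hjextra4_sw j' i)) := by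
  rw [map_mul, Module.End.mul_apply, h', map_smul, h, smul_smul]

theorem hjextra4_key (ρ : Representation (ZMod 3) S E) (e : Fin 4 → E) (r r' : S) (j j' : Fin 4)
    (s s' : Fin 4 → ZMod 3) (hs : ∀ i, s i * s i = 1) (hp : s 0 * s 1 * s 2 * s 3 = 1)
    (hs' : ∀ i, s' i * s' i = 1) (hp' : s' 0 * s' 1 * s' 2 * s' 3 = 1)
    (h : ∀ i, ρ r (e i) = s i • e (hjextra4_sw j i))
    (h' : ∀ i, ρ r' (e i) = s' i • e (hjextra4_sw j' i)) (i : Fin 4) :
    ρ (r * r') (e i)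
      = ((s 0 * s (hjextra4_sw j' 0)) * (s' 0 * s' (hjextra4_sw j 0))) • ρ (r' * r) (e i) := by
  rw [hjextra4_mul ρ e r r' j j' s s' h h' i, hjextra4_mul ρ e r' r j' j s' s h' h i, smul_smul,
    hjextra4_sw_comm j j' i]
  congr 1
  have c1 := hjextra4_const s hs hp j' i
  have c2 := hjextra4_const s' hs' hp' j i
  rw [← c1, ← c2]
  have a1 := hs i
  have a2 := hs' (hjextra4_sw j i)
  calc s' i * s (hjextra4_sw j' i)
      = (s i * s i) * (s' (hjextra4_sw j i) * s' (hjextra4_sw j i))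
          * (s' i * s (hjextra4_sw j' i)) := by rw [a1, a2]; ring
    _ = _ := by ring

theorem hjextra4_core (ρ : Representation (ZMod 3) S E) (R : Subgroup S) (e : Fin 4 → E)
    (hindep : (2 : ZMod 3) • e 0 ≠ 0)
    (hinj : ∀ r ∈ R, ∀ r' ∈ R, (∀ i, ρ r (e i) = ρ r' (e i)) → r = r')
    (hshape : ∀ r ∈ R, ∃ (j : Fin 4) (s : Fin 4 → ZMod 3), (∀ i, s i * s i = 1) ∧
      s 0 * s 1 * s 2 * s 3 = 1 ∧ ∀ i, ρ r (e i) = s i • e (hjextra4_sw j i))
    (hdiag : ∀ s : Fin 4 → ZMod 3, (∀ i, s i * s i = 1) → s 0 * s 1 * s 2 * s 3 = 1 →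
      ∃ r ∈ R, ∀ i, ρ r (e i) = s i • e i)
    (hperm : ∀ j : Fin 4, ∃ r ∈ R, ∀ i, ρ r (e i) = e (hjextra4_sw j i))
    (h32 : Nat.card R = 32) : Cfsg.IsExtraspecial 2 ↥R := by
  classical
  obtain ⟨z₀, hz₀R, hz₀e⟩ := hdiag (fun _ => -1) (fun _ => by decide) (by decide)
  have hz₀e' : ∀ i, ρ z₀ (e i) = (-1 : ZMod 3) • e i := hz₀e
  have hz₀ne : z₀ ≠ 1 := by
    intro h
    have h1 := hz₀e' 0
    rw [h, map_one, Module.End.one_apply] at h1
    apply hindep
    have h2 : (2 : ZMod 3) • e 0 = e 0 - (-1 : ZMod 3) • e 0 := by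
      rw [neg_smul, one_smul, sub_neg_eq_add, two_smul]
    rw [h2, ← h1, sub_self]
  have hK : ∀ r ∈ R, ∀ r' ∈ R, ∀ (j : Fin 4) (s : Fin 4 → ZMod 3) (j' : Fin 4)
      (s' : Fin 4 → ZMod 3), (∀ i, s i * s i = 1) → s 0 * s 1 * s 2 * s 3 = 1 →
      (∀ i, ρ r (e i) = s i • e (hjextra4_sw j i)) →
      (∀ i, s' i * s' i = 1) → s' 0 * s' 1 * s' 2 * s' 3 = 1 →
      (∀ i, ρ r' (e i) = s' i • e (hjextra4_sw j' i)) →
      ((s 0 * s (hjextra4_sw j' 0)) * (s' 0 * s' (hjextra4_sw j 0)) = 1 → r * r' = r' * r) ∧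
      ((s 0 * s (hjextra4_sw j' 0)) * (s' 0 * s' (hjextra4_sw j 0)) = -1 →
        r * r' = z₀ * (r' * r)) := by
    intro r hr r' hr' j s j' s' hs hp h hs' hp' h'
    have key := hjextra4_key ρ e r r' j j' s s' hs hp hs' hp' h h'
    constructor
    · intro ht
      apply hinj _ (R.mul_mem hr hr') _ (R.mul_mem hr' hr)
      intro i
      rw [key i, ht, one_smul]
    · intro ht
      apply hinj _ (R.mul_mem hr hr') _ (R.mul_mem hz₀R (R.mul_mem hr' hr))
      intro i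
      rw [key i, ht, map_mul ρ z₀ (r' * r), Module.End.mul_apply,
        hjextra4_mul ρ e r' r j' j s' s h' h i, map_smul, hz₀e']
      exact smul_comm _ _ _
  have hcomm : ∀ r ∈ R, ∀ r' ∈ R, r * r' = r' * r ∨ r * r' = z₀ * (r' * r) := by
    intro r hr r' hr'
    obtain ⟨j, s, hs, hp, h⟩ := hshape r hr
    obtain ⟨j', s', hs', hp', h'⟩ := hshape r' hr'
    obtain ⟨k1, k2⟩ := hK r hr r' hr' j s j' s' hs hp h hs' hp' h'
    rcases hjextra4_pm _ _ _ _ (hs 0) (hs (hjextra4_sw j' 0)) (hs' 0) (hs' (hjextra4_sw j 0))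
      with ht | ht
    · exact Or.inl (k1 ht)
    · exact Or.inr (k2 ht)
  have hzc : ∀ r' ∈ R, z₀ * r' = r' * z₀ := by
    intro r' hr'
    obtain ⟨j', s', hs', hp', h'⟩ := hshape r' hr'
    have hz₀d : ∀ i, ρ z₀ (e i)
        = (fun _ : Fin 4 => (-1 : ZMod 3)) i • e (hjextra4_sw 0 i) := by
      intro i
      rw [hjextra4_sw_zero]
      exact hz₀e' i
    refine (hK z₀ hz₀R r' hr' 0 (fun _ => -1) j' s' (fun _ => by decide) (by decide) hz₀d
      hs' hp' h').1 ?_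
    show ((-1 : ZMod 3) * (-1)) * (s' 0 * s' (hjextra4_sw 0 0)) = 1
    rw [hjextra4_sw_zero, hs' 0]
    decide
  have hsq : ∀ r ∈ R, r * r = 1 ∨ r * r = z₀ := by
    intro r hr
    obtain ⟨j, s, hs, hp, h⟩ := hshape r hr
    have hrr : ∀ i, ρ (r * r) (e i) = (s 0 * s (hjextra4_sw j 0)) • e i := by
      intro i
      rw [hjextra4_mul ρ e r r j j s s h h i, hjextra4_sw_invol, hjextra4_const s hs hp j i]
    rcases hjextra4_pm1 _ _ (hs 0) (hs (hjextra4_sw j 0)) with hc | hc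
    · left
      apply hinj _ (R.mul_mem hr hr) _ R.one_mem
      intro i
      rw [hrr, hc, one_smul, map_one, Module.End.one_apply]
    · right
      apply hinj _ (R.mul_mem hr hr) _ hz₀R
      intro i
      rw [hrr, hc, hz₀e']
  have hcen : ∀ r ∈ R, (∀ r' ∈ R, r * r' = r' * r) → r = 1 ∨ r = z₀ := by
    intro r hr hc
    obtain ⟨j, s, hs, hp, h⟩ := hshape r hr
    have htest : ∀ r' ∈ R, ∀ (j' : Fin 4) (s' : Fin 4 → ZMod 3), (∀ i, s' i * s' i = 1) →
        s' 0 * s' 1 * s' 2 * s' 3 = 1 → (∀ i, ρ r' (e i) = s' i • e (hjextra4_sw j' i)) →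
        (s 0 * s (hjextra4_sw j' 0)) * (s' 0 * s' (hjextra4_sw j 0)) = 1 := by
      intro r' hr' j' s' hs' hp' h'
      rcases hjextra4_pm _ _ _ _ (hs 0) (hs (hjextra4_sw j' 0)) (hs' 0)
        (hs' (hjextra4_sw j 0)) with ht | ht
      · exact ht
      · exfalso
        have h1 := (hK r hr r' hr' j s j' s' hs hp h hs' hp' h').2 ht
        rw [hc r' hr'] at h1
        exact hz₀ne (mul_right_cancel (a := z₀) (b := r' * r) (c := 1) (by rw [one_mul]; exact h1.symm))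
    have hj : j = 0 := by
      obtain ⟨d1, hd1R, hd1⟩ := hdiag ![-1, 1, -1, 1] (by decide) (by decide)
      obtain ⟨d2, hd2R, hd2⟩ := hdiag ![-1, -1, 1, 1] (by decide) (by decide)
      have t1 := htest d1 hd1R 0 ![-1, 1, -1, 1] (by decide) (by decide)
        (fun i => by rw [hjextra4_sw_zero]; exact hd1 i)
      have t2 := htest d2 hd2R 0 ![-1, -1, 1, 1] (by decide) (by decide)
        (fun i => by rw [hjextra4_sw_zero]; exact hd2 i)
      rw [hjextra4_sw_zero, hs 0, one_mul] at t1 t2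
      exact hjextra4_j0 j t1 t2
    subst hj
    have hperm1 : ∀ j' : Fin 4, s 0 * s (hjextra4_sw j' 0) = 1 := by
      intro j'
      obtain ⟨p, hpR, hpe⟩ := hperm j'
      have t := htest p hpR j' (fun _ => 1) (fun _ => by decide) (by decide)
        (fun i => by rw [one_smul]; exact hpe i)
      have t' : (s 0 * s (hjextra4_sw j' 0)) * ((1 : ZMod 3) * 1) = 1 := t
      rw [mul_one, mul_one] at t'
      exact t'
    have hconst : ∀ i, s i = s 0 := by
      intro i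
      have h1 := hperm1 i
      rw [hjextra4_sw_zero'] at h1
      exact hjextra4_eq _ _ (hs 0) h1
    rcases hjextra4_pm0 (s 0) (hs 0) with h0 | h0
    · left
      apply hinj _ hr _ R.one_mem
      intro i
      rw [h i, hconst i, h0, one_smul, hjextra4_sw_zero, map_one, Module.End.one_apply]
    · right
      apply hinj _ hr _ hz₀R
      intro i
      rw [h i, hconst i, h0, hjextra4_sw_zero, hz₀e']
  have hz₀comm : z₀ ∈ ⁅R, R⁆ := by
    obtain ⟨p, hpR, hpe⟩ := hperm 1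
    obtain ⟨d, hdR, hde⟩ := hdiag ![1, -1, 1, -1] (by decide) (by decide)
    have h1 := (hK p hpR d hdR 1 (fun _ => 1) 0 ![1, -1, 1, -1] (fun _ => by decide) (by decide)
      (fun i => by rw [one_smul]; exact hpe i) (by decide) (by decide)
      (fun i => by rw [hjextra4_sw_zero]; exact hde i)).2 (by decide)
    have h3 := Subgroup.commutator_mem_commutator hpR hdR
    rw [commutatorElement_def, h1] at h3
    have h4 : z₀ * (d * p) * p⁻¹ * d⁻¹ = z₀ := by group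
    rw [h4] at h3
    exact h3
  have hz₀sq : z₀ * z₀ = 1 := by
    rcases hsq z₀ hz₀R with h | h
    · exact h
    · exact absurd (mul_eq_left.mp h) hz₀ne
  have hZ_eq : R ⊓ Subgroup.centralizer (R : Set S) = Subgroup.zpowers z₀ := by
    apply le_antisymm
    · intro x hx
      rcases hcen x hx.1 (fun r' hr' => ((Subgroup.mem_centralizer_iff.1 hx.2) r' hr').symm)
        with h | h
      · rw [h]
        exact Subgroup.one_mem _
      · rw [h]
        exact Subgroup.mem_zpowers _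
    · rw [Subgroup.zpowers_le]
      exact ⟨hz₀R, Subgroup.mem_centralizer_iff.2 (fun h hh => (hzc h hh).symm)⟩
  have hfact : Fact (Nat.Prime 2) := ⟨Nat.prime_two⟩
  have hcard : Nat.card ↥(R ⊓ Subgroup.centralizer (R : Set S) : Subgroup S) = 2 := by
    rw [hZ_eq, Nat.card_zpowers]
    exact orderOf_eq_prime (by rw [pow_two]; exact hz₀sq) hz₀ne
  have hZ : R ⊓ Subgroup.centralizer (R : Set S) = ⁅R, R⁆ := by
    apply le_antisymm
    · rw [hZ_eq, Subgroup.zpowers_le]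
      exact hz₀comm
    · rw [Subgroup.commutator_le]
      intro a ha b hb
      rw [commutatorElement_def]
      rcases hcomm a ha b hb with h | h
      · have h1 : b * a * a⁻¹ * b⁻¹ = 1 := by group
        rw [h, h1]
        exact Subgroup.one_mem _
      · have h1 : z₀ * (b * a) * a⁻¹ * b⁻¹ = z₀ := by group
        rw [h, h1, hZ_eq]
        exact Subgroup.mem_zpowers _
  have hcenR : ∀ x : ↥R, ((x : S) = 1 ∨ (x : S) = z₀) → x ∈ Subgroup.center ↥R := by
    intro x hx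
    rw [Subgroup.mem_center_iff]
    intro g
    apply Subtype.ext
    show (g : S) * (x : S) = (x : S) * (g : S)
    rcases hx with h | h
    · rw [h, mul_one, one_mul]
    · rw [h]
      exact (hzc g g.2).symm
  have hfr : frattini ↥R ≤ Subgroup.center ↥R := by
    apply Cfsg.Agent.Lib.Helper72.frattini_le_of_forall_pow_mem Nat.prime_two
    · intro x
      apply hcenR
      have h1 : ((x ^ 2 : ↥R) : S) = (x : S) * (x : S) := by
        rw [pow_two]
        rfl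
      rw [h1]
      exact hsq x x.2
    · intro x y
      apply hcenR
      have h1 : ((x * y * x⁻¹ * y⁻¹ : ↥R) : S) = (x : S) * (y : S) * (x : S)⁻¹ * (y : S)⁻¹ := rfl
      rw [h1]
      rcases hcomm x x.2 y y.2 with h | h
      · left
        rw [h]
        group
      · right
        rw [h]
        group
  have hΦ : (frattini ↥R).map R.subtype ≤ R ⊓ Subgroup.centralizer (R : Set S) := by
    intro w hw
    obtain ⟨v, hv, rfl⟩ := Subgroup.mem_map.1 hw
    have h1 := hfr hv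
    rw [Subgroup.mem_center_iff] at h1
    refine ⟨v.2, Subgroup.mem_centralizer_iff.2 (fun h hh => ?_)⟩
    exact congrArg Subtype.val (h1 ⟨h, hh⟩)
  have hQ : IsPGroup 2 ↥R := IsPGroup.of_card (n := 5) (by rw [h32]; norm_num)
  exact Cfsg.Agent.Lib.Helper72.HH.isExtraspecial_subgroup R hQ hZ hΦ hcard

theorem hj_extra4 (ρ : Representation (ZMod 3) S E) (R : Subgroup S) (e₁ e₂ e₃ e₄ : E) (hM : Mono4 ρ R e₁ e₂ e₃ e₄)
    (h32 : Nat.card R = 32) : Cfsg.IsExtraspecial 2 ↥R := by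
  apply hjextra4_core ρ R ![e₁, e₂, e₃, e₄] ?_ ?_ ?_ ?_ ?_ h32
  · intro h
    have h1 : (2 : ZMod 3) • e₁ = 0 := h
    have h2 := hM.indep 2 0 0 0 (by rw [h1, zero_smul, zero_smul, zero_smul]; simp)
    exact absurd h2.1 (by decide)
  · intro r hr r' hr' h
    exact hM.inj r hr r' hr' (h 0) (h 1) (h 2) (h 3)
  · intro r hr
    obtain ⟨s₁, s₂, s₃, s₄, h1, h2, h3, h4, hp, hsh⟩ := hM.shape r hr
    rcases hsh with ⟨a, b, c, d⟩ | ⟨a, b, c, d⟩ | ⟨a, c, b, d⟩ | ⟨a, d, b, c⟩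
    · exact ⟨0, ![s₁, s₂, s₃, s₄], hjextra4_all _ h1 h2 h3 h4, hp, hjextra4_all _ a b c d⟩
    · exact ⟨1, ![s₁, s₂, s₃, s₄], hjextra4_all _ h1 h2 h3 h4, hp, hjextra4_all _ a b c d⟩
    · exact ⟨2, ![s₁, s₂, s₃, s₄], hjextra4_all _ h1 h2 h3 h4, hp, hjextra4_all _ a b c d⟩
    · exact ⟨3, ![s₁, s₂, s₃, s₄], hjextra4_all _ h1 h2 h3 h4, hp, hjextra4_all _ a b c d⟩
  · intro s hs hp
    obtain ⟨r, hr, a, b, c, d⟩ := hM.diag (s 0) (s 1) (s 2) (s 3) (hs 0) (hs 1) (hs 2) (hs 3) hp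
    exact ⟨r, hr, hjextra4_all _ a b c d⟩
  · refine hjextra4_all _ ?_ ?_ ?_ ?_
    · refine ⟨1, R.one_mem, fun i => ?_⟩
      rw [map_one, Module.End.one_apply, hjextra4_sw_zero]
    · obtain ⟨r, hr, a, b, c, d⟩ := hM.perm12
      exact ⟨r, hr, hjextra4_all _ a b c d⟩
    · obtain ⟨r, hr, a, c, b, d⟩ := hM.perm13
      exact ⟨r, hr, hjextra4_all _ a b c d⟩
    · obtain ⟨r, hr, a, d, b, c⟩ := hM.perm14
      exact ⟨r, hr, hjextra4_all _ a b c d⟩

end Cfsg.Agent.Lib.Helper73.HJ
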