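import Mathlib
import Cfsg.Agent.Lib.Helper73.HJDefs
import Cfsg.Agent.Lib.Helper73.HJTriv
import Cfsg.Agent.Lib.Helper73.HJDecomp

/-!
# Project HJ (S4415), piece F0F1

F0F1: `b` is trivial on `C_E(R)` (TRIV with `X = R`; `b` does not centralize `Q ≤ R`); `R` and `b` preserve `[E,R]`; an element of `R⟨b⟩` trivial on `[E,R]` is trivial on `C_E(R)` too (the elements trivial on `C_E(R)` form a subgroup containing `R` and `b`), hence is 1 (DECOMP + faithful).
-/

set_option autoImplicit false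
set_option linter.unusedSectionVars false

namespace Cfsg.Agent.Lib.Helper73.HJ

variable {S : Type*} [Group S] [Finite S] {E : Type*} [AddCommGroup E] [Module (ZMod 3) E]
  [Finite E]

theorem hjf0f1_mul (ρ : Representation (ZMod 3) S E) (g h : S) (v : E) :
    ρ (g * h) v = ρ g (ρ h v) := by
  rw [map_mul]
  rfl

theorem hjf0f1_one (ρ : Representation (ZMod 3) S E) (v : E) : ρ 1 v = v := by
  rw [map_one]
  rfl

/-- an element normalizing `R` preserves `[E, R]` -/
theorem hjf0f1_gen (ρ : Representation (ZMod 3) S E) (R : Subgroup S) (g : S)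
    (hg : ∀ x ∈ R, g * x * g⁻¹ ∈ R) : ∀ v ∈ hjComm ρ R, ρ g v ∈ hjComm ρ R := by
  have hle : hjComm ρ R ≤ (hjComm ρ R).comap (ρ g) := by
    refine Submodule.span_le.mpr ?_
    rintro w ⟨x, hx, v, rfl⟩
    show ρ g (ρ x v - v) ∈ hjComm ρ R
    have e : ρ g (ρ x v - v) = ρ (g * x * g⁻¹) (ρ g v) - ρ g v := by
      rw [map_sub, ← hjf0f1_mul, ← hjf0f1_mul]
      congr 2
      group
    rw [e]
    exact Submodule.subset_span ⟨g * x * g⁻¹, hg x hx, ρ g v, rfl⟩
  exact fun v hv => hle hv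

theorem hj_f0f1 (ρ : Representation (ZMod 3) S E) (R Q : Subgroup S) (b : S) (hB : Base ρ R b) (hQR : Q ≤ R) (hQ : QType Q b) :
    (∀ v ∈ hjFix ρ R, ρ b v = v) ∧
    (∀ g ∈ R ⊔ Subgroup.zpowers b, ∀ v ∈ hjComm ρ R, ρ g v ∈ hjComm ρ R) ∧
    (∀ g ∈ R ⊔ Subgroup.zpowers b, (∀ v ∈ hjComm ρ R, ρ g v = v) → g = 1) := by
  have h1 : ∀ v ∈ hjFix ρ R, ρ b v = v := by
    obtain ⟨q, hq, hne⟩ := hQ.nc
    exact hj_triv ρ b hB.faith hB.b3 hB.rank hB.sq R hB.cop hB.nR ⟨q, hQR hq, hne⟩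
  have hb3 : b * b * b = 1 := by
    have h0 := hB.b3
    rw [pow_succ, pow_two] at h0
    exact h0
  have hbinv : b⁻¹ = b * b := inv_eq_of_mul_eq_one_left hb3
  have hbb : b⁻¹ * b⁻¹ = b := by
    rw [hbinv]
    calc b * b * (b * b) = b * (b * b * b) := by group
      _ = b := by rw [hb3, mul_one]
  have hnR' : ∀ r ∈ R, b⁻¹ * r * b ∈ R := by
    intro r hr
    have h2 := hB.nR _ (hB.nR r hr)
    have e : b⁻¹ * r * b = b * (b * r * b⁻¹) * b⁻¹ := by
      calc b⁻¹ * r * b = b⁻¹ * r * (b⁻¹ * b⁻¹) := by rw [hbb]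
        _ = (b * b) * r * (b⁻¹ * b⁻¹) := by rw [← hbinv]
        _ = b * (b * r * b⁻¹) * b⁻¹ := by group
    rw [e]
    exact h2
  have hN : R ⊔ Subgroup.zpowers b ≤ Subgroup.normalizer (R : Set S) := by
    refine sup_le Subgroup.le_normalizer ?_
    rw [Subgroup.zpowers_le, Subgroup.mem_normalizer_iff]
    intro h
    constructor
    · exact hB.nR h
    · intro hh
      have h3 := hnR' _ hh
      have e : b⁻¹ * (b * h * b⁻¹) * b = h := by group
      rwa [e] at h3
  let M : Subgroup S :=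
    { carrier := {g | ∀ v ∈ hjFix ρ R, ρ g v = v}
      mul_mem' := by
        intro g h hg hh v hv
        rw [hjf0f1_mul, hh v hv, hg v hv]
      one_mem' := fun v _ => hjf0f1_one ρ v
      inv_mem' := by
        intro g hg v hv
        calc ρ g⁻¹ v = ρ g⁻¹ (ρ g v) := by rw [hg v hv]
          _ = ρ (g⁻¹ * g) v := (hjf0f1_mul ρ g⁻¹ g v).symm
          _ = v := by rw [inv_mul_cancel, hjf0f1_one] }
  have hM : R ⊔ Subgroup.zpowers b ≤ M := by
    refine sup_le (fun r hr v hv => hv r hr) ?_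
    rw [Subgroup.zpowers_le]
    exact h1
  refine ⟨h1, ?_, ?_⟩
  · intro g hg
    have hgN := hN hg
    exact hjf0f1_gen ρ R g (fun x hx => (Subgroup.mem_normalizer_iff.mp hgN x).mp hx)
  · intro g hg hgC
    have hfix : ∀ v ∈ hjFix ρ R, ρ g v = v := hM hg
    have hall : ∀ v, ρ g v = v := by
      intro v
      have hv : v ∈ hjFix ρ R ⊔ hjComm ρ R := by
        rw [(hj_decomp ρ R hB.cop).2]
        trivial
      obtain ⟨f, hf, c, hc, rfl⟩ := Submodule.mem_sup.mp hv
      rw [map_add, hfix f hf, hgC c hc]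
    apply hB.faith
    exact LinearMap.ext (fun v => (hall v).trans (hjf0f1_one ρ v).symm)

end Cfsg.Agent.Lib.Helper73.HJ
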