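import Mathlib
import Cfsg.Agent.Lib.Helper73.HJDefs
import Cfsg.Agent.Lib.Helper73.HJF0F1

/-!
# Project HJ (S4415), piece GLB (filled by helper74)

GLB: `X ≤ R` acts faithfully on `[E,R]` (81 elements, a 4-dimensional space over `ZMod 3`), so `|X|` divides `|GL_4(3)| = 80·78·72·54 = 24261120 = 2^9·3^6·5·13` (`Matrix.card_GL_field`).
-/

set_option autoImplicit false

namespace Cfsg.Agent.Lib.Helper73.HJ

variable {S : Type*} [Group S] [Finite S] {E : Type*} [AddCommGroup E] [Module (ZMod 3) E]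
  [Finite E]

theorem hjglb_card_GL : Nat.card (GL (Fin 4) (ZMod 3)) = 24261120 := by
  rw [Matrix.card_GL_field]
  simp [Fin.prod_univ_four, ZMod.card]

theorem hj_glb (ρ : Representation (ZMod 3) S E) (R Q : Subgroup S) (b : S) (hB : Base ρ R b) (hQR : Q ≤ R) (hQ : QType Q b) (h81 : Nat.card (hjComm ρ R) = 81) (X : Subgroup S) (hXR : X ≤ R) :
    Nat.card X ∣ 24261120 := by
  classical
  obtain ⟨-, h2, h3⟩ := hj_f0f1 ρ R Q b hB hQR hQ
  have hXle : ∀ x ∈ X, x ∈ R ⊔ Subgroup.zpowers b :=
    fun x hx => (le_sup_left : R ≤ R ⊔ Subgroup.zpowers b) (hXR hx)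
  have hfr : Module.finrank (ZMod 3) (hjComm ρ R) = 4 := by
    have h1 : Nat.card (hjComm ρ R) =
        Nat.card (ZMod 3) ^ Module.finrank (ZMod 3) (hjComm ρ R) :=
      Module.natCard_eq_pow_finrank
    rw [h81, Nat.card_zmod] at h1
    have h4 : (3 : ℕ) ^ 4 = 3 ^ Module.finrank (ZMod 3) (hjComm ρ R) := by
      rw [← h1]
      norm_num
    exact (Nat.pow_right_injective (by norm_num : 2 ≤ 3) h4).symm
  let bas : Module.Basis (Fin 4) (ZMod 3) (hjComm ρ R) :=
    Module.finBasisOfFinrankEq (ZMod 3) (hjComm ρ R) hfr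
  let φ : X →* Module.End (ZMod 3) (hjComm ρ R) :=
    { toFun := fun x => (ρ x).restrict (fun v hv => h2 x (hXle x x.2) v hv)
      map_one' := by
        ext v
        simp
      map_mul' := by
        intro x y
        ext v
        simp [Module.End.mul_apply] }
  let ψ : X →* GL (Fin 4) (ZMod 3) :=
    (Units.mapEquiv (LinearMap.toMatrixAlgEquiv bas).toMulEquiv).toMonoidHom.comp φ.toHomUnits
  have hinj : Function.Injective ψ := by
    rw [injective_iff_map_eq_one]
    intro x hx
    have h4 : φ.toHomUnits x = 1 := by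
      apply (Units.mapEquiv (LinearMap.toMatrixAlgEquiv bas).toMulEquiv).injective
      rw [map_one]
      exact hx
    have h5 : φ x = 1 := by
      have h6 := congrArg Units.val h4
      simpa using h6
    have h6 : ∀ v ∈ hjComm ρ R, ρ x v = v := by
      intro v hv
      have h7 := congrArg (fun f => ((f ⟨v, hv⟩ : hjComm ρ R) : E)) h5
      simpa [φ] using h7
    exact Subtype.ext (h3 x (hXle x x.2) h6)
  have hdvd := Subgroup.card_dvd_of_injective ψ hinj
  rw [hjglb_card_GL] at hdvd
  exact hdvd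

end Cfsg.Agent.Lib.Helper73.HJ
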