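import Mathlib
import Cfsg.Agent.Lib.Helper73.HJDefs

/-!
# Project HJ (S4415), piece Irred4

IRRED4: a nonzero `v = Σ c_i e_i ∈ N` with `c_j ≠ 0`: using two diagonal elements `d, d'` (`+1` at `j` and at one other index each), `(1 + d')(1 + d) v = 4 c_j e_j`; so `e_j ∈ N`, and the permutation elements give all `e_i`.
-/

set_option autoImplicit false

namespace Cfsg.Agent.Lib.Helper73.HJ

variable {S : Type*} [Group S] [Finite S] {E : Type*} [AddCommGroup E] [Module (ZMod 3) E]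
  [Finite E]

omit [Finite S] [Finite E] in
/-- apply `1 + d` for a diagonal element `d` -/
theorem hjirred4_step (ρ : Representation (ZMod 3) S E) (R : Subgroup S) (e₁ e₂ e₃ e₄ : E)
    (hM : Mono4 ρ R e₁ e₂ e₃ e₄) (N : Submodule (ZMod 3) E)
    (hN : ∀ r ∈ R, ∀ v ∈ N, ρ r v ∈ N) (c₁ c₂ c₃ c₄ s₁ s₂ s₃ s₄ : ZMod 3)
    (h1 : s₁ * s₁ = 1) (h2 : s₂ * s₂ = 1) (h3 : s₃ * s₃ = 1) (h4 : s₄ * s₄ = 1)
    (hp : s₁ * s₂ * s₃ * s₄ = 1)
    (hv : c₁ • e₁ + c₂ • e₂ + c₃ • e₃ + c₄ • e₄ ∈ N) :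
    ((1 + s₁) * c₁) • e₁ + ((1 + s₂) * c₂) • e₂ + ((1 + s₃) * c₃) • e₃ +
      ((1 + s₄) * c₄) • e₄ ∈ N := by
  obtain ⟨r, hr, e1, e2, e3, e4⟩ := hM.diag s₁ s₂ s₃ s₄ h1 h2 h3 h4 hp
  have h := N.add_mem hv (hN r hr _ hv)
  rw [map_add, map_add, map_add, map_smul, map_smul, map_smul, map_smul, e1, e2, e3, e4] at h
  convert h using 1
  module

omit [Finite S] [Finite E] in
/-- apply `(1 + d')(1 + d)` -/
theorem hjirred4_two (ρ : Representation (ZMod 3) S E) (R : Subgroup S) (e₁ e₂ e₃ e₄ : E)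
    (hM : Mono4 ρ R e₁ e₂ e₃ e₄) (N : Submodule (ZMod 3) E)
    (hN : ∀ r ∈ R, ∀ v ∈ N, ρ r v ∈ N) (c₁ c₂ c₃ c₄ s₁ s₂ s₃ s₄ t₁ t₂ t₃ t₄ : ZMod 3)
    (h1 : s₁ * s₁ = 1) (h2 : s₂ * s₂ = 1) (h3 : s₃ * s₃ = 1) (h4 : s₄ * s₄ = 1)
    (hp : s₁ * s₂ * s₃ * s₄ = 1)
    (k1 : t₁ * t₁ = 1) (k2 : t₂ * t₂ = 1) (k3 : t₃ * t₃ = 1) (k4 : t₄ * t₄ = 1)
    (kp : t₁ * t₂ * t₃ * t₄ = 1)
    (hv : c₁ • e₁ + c₂ • e₂ + c₃ • e₃ + c₄ • e₄ ∈ N) :
    ((1 + t₁) * ((1 + s₁) * c₁)) • e₁ + ((1 + t₂) * ((1 + s₂) * c₂)) • e₂ +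
      ((1 + t₃) * ((1 + s₃) * c₃)) • e₃ + ((1 + t₄) * ((1 + s₄) * c₄)) • e₄ ∈ N :=
  hjirred4_step ρ R e₁ e₂ e₃ e₄ hM N hN _ _ _ _ t₁ t₂ t₃ t₄ k1 k2 k3 k4 kp
    (hjirred4_step ρ R e₁ e₂ e₃ e₄ hM N hN c₁ c₂ c₃ c₄ s₁ s₂ s₃ s₄ h1 h2 h3 h4 hp hv)

theorem hj_irred4 (ρ : Representation (ZMod 3) S E) (R : Subgroup S) (e₁ e₂ e₃ e₄ : E) (hM : Mono4 ρ R e₁ e₂ e₃ e₄) :
    ∀ N : Submodule (ZMod 3) E, N ≤ hjComm ρ R → (∀ r ∈ R, ∀ v ∈ N, ρ r v ∈ N) →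
      N = ⊥ ∨ N = hjComm ρ R := by
  intro N hNle hN
  by_cases hN0 : N = ⊥
  · exact Or.inl hN0
  right
  obtain ⟨v, hvN, hv0⟩ := Submodule.exists_mem_ne_zero_of_ne_bot hN0
  have hvs : v ∈ Submodule.span (ZMod 3) {e₁, e₂, e₃, e₄} := by
    rw [← hM.span]; exact hNle hvN
  rw [Submodule.mem_span_insert] at hvs
  obtain ⟨c₁, z₁, hz₁, rfl⟩ := hvs
  rw [Submodule.mem_span_insert] at hz₁
  obtain ⟨c₂, z₂, hz₂, rfl⟩ := hz₁
  rw [Submodule.mem_span_insert] at hz₂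
  obtain ⟨c₃, z₃, hz₃, rfl⟩ := hz₂
  rw [Submodule.mem_span_singleton] at hz₃
  obtain ⟨c₄, rfl⟩ := hz₃
  have hv : c₁ • e₁ + c₂ • e₂ + c₃ • e₃ + c₄ • e₄ ∈ N := by
    have e : c₁ • e₁ + c₂ • e₂ + c₃ • e₃ + c₄ • e₄ =
        c₁ • e₁ + (c₂ • e₂ + (c₃ • e₃ + c₄ • e₄)) := by abel
    rw [e]; exact hvN
  have h3z : (3 : ZMod 3) = 0 := by decide
  have hm : ((-1 : ZMod 3)) * (-1) = 1 := by decide
  have ho : ((1 : ZMod 3)) * 1 = 1 := by decide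
  obtain ⟨r12, hr12, p12a, p12b, -, -⟩ := hM.perm12
  obtain ⟨r13, hr13, p13a, p13b, -, -⟩ := hM.perm13
  obtain ⟨r14, hr14, p14a, p14b, -, -⟩ := hM.perm14
  -- `e₁ ∈ N`
  have he1 : e₁ ∈ N := by
    by_cases hc1 : c₁ = 0
    · by_cases hc2 : c₂ = 0
      · by_cases hc3 : c₃ = 0
        · have hc4 : c₄ ≠ 0 := by
            intro hc4
            apply hv0
            rw [hc1, hc2, hc3, hc4]
            simp
          have h := hjirred4_two ρ R e₁ e₂ e₃ e₄ hM N hN c₁ c₂ c₃ c₄ (-1) (-1) 1 1 (-1) 1 (-1) 1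
            hm hm ho ho (by decide) hm ho hm ho (by decide) hv
          have e1 : ((1 + 1) * ((1 + 1) * c₄) : ZMod 3) = c₄ := by linear_combination c₄ * h3z
          rw [e1] at h
          simp only [add_neg_cancel, zero_mul, mul_zero, zero_smul, zero_add] at h
          have h4 : e₄ ∈ N := by
            have := N.smul_mem c₄⁻¹ h
            rwa [inv_smul_smul₀ hc4] at this
          have := hN r14 hr14 _ h4
          rwa [p14b] at this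
        · have h := hjirred4_two ρ R e₁ e₂ e₃ e₄ hM N hN c₁ c₂ c₃ c₄ (-1) (-1) 1 1 1 (-1) 1 (-1)
            hm hm ho ho (by decide) ho hm ho hm (by decide) hv
          have e1 : ((1 + 1) * ((1 + 1) * c₃) : ZMod 3) = c₃ := by linear_combination c₃ * h3z
          rw [e1] at h
          simp only [add_neg_cancel, zero_mul, mul_zero, zero_smul, zero_add, add_zero] at h
          have h4 : e₃ ∈ N := by
            have := N.smul_mem c₃⁻¹ h
            rwa [inv_smul_smul₀ hc3] at this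
          have := hN r13 hr13 _ h4
          rwa [p13b] at this
      · have h := hjirred4_two ρ R e₁ e₂ e₃ e₄ hM N hN c₁ c₂ c₃ c₄ 1 1 (-1) (-1) (-1) 1 1 (-1)
          ho ho hm hm (by decide) hm ho ho hm (by decide) hv
        have e1 : ((1 + 1) * ((1 + 1) * c₂) : ZMod 3) = c₂ := by linear_combination c₂ * h3z
        rw [e1] at h
        simp only [add_neg_cancel, zero_mul, mul_zero, zero_smul, zero_add, add_zero] at h
        have h4 : e₂ ∈ N := by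
          have := N.smul_mem c₂⁻¹ h
          rwa [inv_smul_smul₀ hc2] at this
        have := hN r12 hr12 _ h4
        rwa [p12b] at this
    · have h := hjirred4_two ρ R e₁ e₂ e₃ e₄ hM N hN c₁ c₂ c₃ c₄ 1 1 (-1) (-1) 1 (-1) 1 (-1)
        ho ho hm hm (by decide) ho hm ho hm (by decide) hv
      have e1 : ((1 + 1) * ((1 + 1) * c₁) : ZMod 3) = c₁ := by linear_combination c₁ * h3z
      rw [e1] at h
      simp only [add_neg_cancel, zero_mul, mul_zero, zero_smul, zero_add, add_zero] at h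
      have := N.smul_mem c₁⁻¹ h
      rwa [inv_smul_smul₀ hc1] at this
  have he2 : e₂ ∈ N := by
    have := hN r12 hr12 _ he1
    rwa [p12a] at this
  have he3 : e₃ ∈ N := by
    have := hN r13 hr13 _ he1
    rwa [p13a] at this
  have he4 : e₄ ∈ N := by
    have := hN r14 hr14 _ he1
    rwa [p14a] at this
  apply le_antisymm hNle
  rw [hM.span, Submodule.span_le]
  intro x hx
  simp only [Set.mem_insert_iff, Set.mem_singleton_iff] at hx
  rcases hx with rfl | rfl | rfl | rfl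
  · exact he1
  · exact he2
  · exact he3
  · exact he4

end Cfsg.Agent.Lib.Helper73.HJ
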