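import Mathlib
import Cfsg.Agent.Lib.Helper73.HJDefs

/-!
# Project HJ (S4415), piece MinAb

MINAB: a minimal nontrivial subgroup `A` of the solvable group `R` normalized by `R` and `b` is abelian (`[A,A] < A` is again normalized) and of prime exponent (`{a^p}` is a proper normalized subgroup).
-/

set_option autoImplicit false

namespace Cfsg.Agent.Lib.Helper73.HJ

variable {S : Type*} [Group S] [Finite S] {E : Type*} [AddCommGroup E] [Module (ZMod 3) E]
  [Finite E]

theorem hj_minab (R : Subgroup S) (b : S) (hsol : Group.IsSolvable ↥R)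
    (hnR : ∀ r ∈ R, b * r * b⁻¹ ∈ R) (hne : R ≠ ⊥) :
    ∃ A : Subgroup S, A ≤ R ∧ A ≠ ⊥ ∧ (∀ r ∈ R, ∀ a ∈ A, r * a * r⁻¹ ∈ A) ∧
      (∀ a ∈ A, b * a * b⁻¹ ∈ A) ∧ (∀ a ∈ A, ∀ a' ∈ A, a * a' = a' * a) ∧
      ∃ p : ℕ, p.Prime ∧ ∀ a ∈ A, a ^ p = 1 := by
  classical
  have key : ∀ (n : ℕ) (A : Subgroup S), Nat.card A = n → A ≤ R → A ≠ ⊥ →
      (∀ r ∈ R, ∀ a ∈ A, r * a * r⁻¹ ∈ A) → (∀ a ∈ A, b * a * b⁻¹ ∈ A) →
      ∃ A' : Subgroup S, A' ≤ R ∧ A' ≠ ⊥ ∧ (∀ r ∈ R, ∀ a ∈ A', r * a * r⁻¹ ∈ A') ∧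
        (∀ a ∈ A', b * a * b⁻¹ ∈ A') ∧ (∀ a ∈ A', ∀ a' ∈ A', a * a' = a' * a) ∧
        ∃ p : ℕ, p.Prime ∧ ∀ a ∈ A', a ^ p = 1 := by
    intro n
    induction n using Nat.strong_induction_on with
    | _ n ih =>
      intro A hcardA hAR hAne hAnR hAb
      have hlt : ∀ A' : Subgroup S, A' ≤ A → A' ≠ A → Nat.card A' < n := by
        intro A' hle hneq
        by_contra hcon
        push Not at hcon
        rw [← hcardA] at hcon
        exact hneq (Subgroup.eq_of_le_of_card_ge hle hcon)
      by_cases hab : ∀ a ∈ A, ∀ a' ∈ A, a * a' = a' * a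
      · have hcard : Nat.card A ≠ 1 := fun h => hAne (Subgroup.card_eq_one.mp h)
        obtain ⟨p, hp, hpd⟩ := Nat.exists_prime_and_dvd hcard
        haveI := Fact.mk hp
        obtain ⟨x, hx⟩ := exists_prime_orderOf_dvd_card' p hpd
        let Ω : Subgroup S :=
          { carrier := {a | a ∈ A ∧ a ^ p = 1}
            mul_mem' := by
              rintro u v ⟨hu, hu1⟩ ⟨hv, hv1⟩
              refine ⟨A.mul_mem hu hv, ?_⟩
              rw [(show Commute u v from hab u hu v hv).mul_pow, hu1, hv1, one_mul]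
            one_mem' := ⟨A.one_mem, one_pow p⟩
            inv_mem' := by
              rintro u ⟨hu, hu1⟩
              exact ⟨A.inv_mem hu, by rw [inv_pow, hu1, inv_one]⟩ }
        have hΩmem : ∀ a : S, a ∈ Ω ↔ a ∈ A ∧ a ^ p = 1 := fun a => Iff.rfl
        by_cases hΩ : Ω = A
        · refine ⟨A, hAR, hAne, hAnR, hAb, hab, p, hp, ?_⟩
          intro a ha
          have haΩ : a ∈ Ω := by rw [hΩ]; exact ha
          exact ((hΩmem a).mp haΩ).2
        · have hΩle : Ω ≤ A := fun a ha => ((hΩmem a).mp ha).1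
          refine ih (Nat.card Ω) (hlt Ω hΩle hΩ) Ω rfl (hΩle.trans hAR) ?_ ?_ ?_
          · intro hbot
            have hxp : (x : S) ^ p = 1 := by
              rw [← Subgroup.coe_pow, ← hx, pow_orderOf_eq_one]
              rfl
            have hxΩ : (x : S) ∈ Ω := (hΩmem _).mpr ⟨x.2, hxp⟩
            rw [hbot, Subgroup.mem_bot] at hxΩ
            have hx1 : x = 1 := Subtype.ext hxΩ
            rw [hx1, orderOf_one] at hx
            exact hp.one_lt.ne hx
          · intro r hr a ha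
            have ha' := (hΩmem a).mp ha
            exact (hΩmem _).mpr ⟨hAnR r hr a ha'.1, by rw [conj_pow, ha'.2, mul_one, mul_inv_cancel]⟩
          · intro a ha
            have ha' := (hΩmem a).mp ha
            exact (hΩmem _).mpr ⟨hAb a ha'.1, by rw [conj_pow, ha'.2, mul_one, mul_inv_cancel]⟩
      · have hCle : ⁅A, A⁆ ≤ A := by
          rw [Subgroup.commutator_le]
          intro g₁ h₁ g₂ h₂
          rw [commutatorElement_def]
          exact A.mul_mem (A.mul_mem (A.mul_mem h₁ h₂) (A.inv_mem h₁)) (A.inv_mem h₂)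
        have hCne : ⁅A, A⁆ ≠ A := by
          intro hEq
          haveI : Nontrivial ↥A := (Subgroup.nontrivial_iff_ne_bot A).mpr hAne
          haveI : Group.IsSolvable ↥A :=
            solvable_of_solvable_injective (Subgroup.inclusion_injective hAR)
          have hlt' : ⁅(⊤ : Subgroup ↥A), (⊤ : Subgroup ↥A)⁆ < ⊤ :=
            Group.IsSolvable.commutator_lt_top_of_nontrivial ↥A
          have hmapT : (⊤ : Subgroup ↥A).map A.subtype = A := by
            rw [← MonoidHom.range_eq_map, Subgroup.range_subtype]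
          have hmap : Subgroup.map A.subtype ⁅(⊤ : Subgroup ↥A), (⊤ : Subgroup ↥A)⁆ = ⁅A, A⁆ := by
            rw [Subgroup.map_commutator, hmapT]
          apply hlt'.ne
          apply Subgroup.map_injective A.subtype_injective
          rw [hmap, hEq, hmapT]
        have hCbot : ⁅A, A⁆ ≠ ⊥ := by
          intro hbot
          apply hab
          intro a ha a' ha'
          have h1 := Subgroup.commutator_eq_bot_iff_le_centralizer.mp hbot
          have h2 := h1 ha
          rw [Subgroup.mem_centralizer_iff] at h2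
          exact (h2 a' ha').symm
        have hconj : ∀ m : S, (∀ a ∈ A, m * a * m⁻¹ ∈ A) →
            ∀ c ∈ ⁅A, A⁆, m * c * m⁻¹ ∈ ⁅A, A⁆ := by
          intro m hm c hc
          have hAm : A.map (MulAut.conj m).toMonoidHom ≤ A := by
            rintro _ ⟨a, ha, rfl⟩
            exact hm a ha
          have h1 : (⁅A, A⁆).map (MulAut.conj m).toMonoidHom ≤ ⁅A, A⁆ := by
            rw [Subgroup.map_commutator]
            exact Subgroup.commutator_mono hAm hAm
          exact h1 ⟨c, hc, rfl⟩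
        exact ih (Nat.card ↥⁅A, A⁆) (hlt ⁅A, A⁆ hCle hCne) ⁅A, A⁆ rfl (hCle.trans hAR) hCbot
          (fun r hr c hc => hconj r (hAnR r hr) c hc) (fun c hc => hconj b hAb c hc)
  exact key (Nat.card R) R rfl le_rfl hne
    (fun r hr a ha => R.mul_mem (R.mul_mem hr ha) (R.inv_mem hr)) hnR

end Cfsg.Agent.Lib.Helper73.HJ
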