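import Mathlib
import Cfsg.Agent.Lib.Helper73.HJDefs
import Cfsg.Agent.Lib.Helper73.HJMinAb
import Cfsg.Agent.Lib.Helper73.HJOdd
import Cfsg.Agent.Lib.Helper73.HJElAb2

/-!
# Project HJ (S4415), piece L1

L1: MINAB gives `A`; `p` odd is impossible by ODD (`|A|` is a power of `p`); `p = 2`: ELAB2 applied to some `a ≠ 1`.
-/

set_option autoImplicit false

namespace Cfsg.Agent.Lib.Helper73.HJ

variable {S : Type*} [Group S] [Finite S] {E : Type*} [AddCommGroup E] [Module (ZMod 3) E]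
  [Finite E]

theorem hj_l1 (ρ : Representation (ZMod 3) S E) (R Q : Subgroup S) (b : S) (hB : Base ρ R b) (hQR : Q ≤ R) (hQ : QType Q b) (hno : ¬ ∃ Q' : Subgroup S, Q' ≤ R ∧ QType Q' b ∧ Comm R Q') :
    ∃ z : S, ZCen ρ R b z := by
  have hRne : R ≠ ⊥ := by
    intro h
    have hQ1 : Q = ⊥ := by
      rw [h] at hQR
      exact le_bot_iff.1 hQR
    have h4 := hQ.card
    rw [hQ1, Subgroup.card_bot] at h4
    omega
  obtain ⟨A, hAR, hAne, hAn, hAb, hab, p, hp, hpow⟩ := hj_minab R b hB.sol hB.nR hRne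
  by_cases hp2 : p = 2
  · subst hp2
    have hexp : ∀ a ∈ A, a * a = 1 := fun a ha => by
      rw [← pow_two]
      exact hpow a ha
    obtain ⟨a, ha, ha1⟩ : ∃ a ∈ A, a ≠ 1 := by
      by_contra hcon
      push Not at hcon
      exact hAne ((Subgroup.eq_bot_iff_forall A).2 hcon)
    rcases hj_elab2 ρ R Q b hB hQR hQ hno A hAR hAn hAb hab hexp a ha with h | h
    · exact absurd h ha1
    · exact ⟨a, h⟩
  · exfalso
    have : Fact p.Prime := ⟨hp⟩
    have hpg : IsPGroup p A := by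
      intro g
      refine ⟨1, ?_⟩
      rw [pow_one]
      apply Subtype.ext
      rw [Subgroup.coe_pow]
      exact hpow g g.2
    obtain ⟨n, hn⟩ := IsPGroup.iff_card.1 hpg
    have hodd : Odd (Nat.card A) := by
      rw [hn]
      exact (hp.odd_of_ne_two hp2).pow
    exact hAne (hj_odd ρ R Q b hB hQR hQ A hAR hAn hAb hab hodd)

end Cfsg.Agent.Lib.Helper73.HJ
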