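import Mathlib
import Cfsg.Agent.Lib.Helper73.HJDefs
import Cfsg.Agent.Lib.Helper73.HJFFLines
import Cfsg.Agent.Lib.Helper73.HJFrameRot
import Cfsg.Agent.Lib.Helper73.HJFFNe

/-!
# Project HJ (S4415), piece Lines

LINES: `ρ r e₁` spans the `(+,-)` weight line of `r Q r⁻¹` (namely `r · ⟨e₁⟩`); `Q` commutes with `r Q r⁻¹` (`hC`), so preserves that line: `ρ q (ρ r e₁) = ± ρ r e₁`. So `ρ r e₁` is a weight vector of `Q`: in `C_E(Q)` or (FFLINES) `± e_j`.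
-/

set_option autoImplicit false

namespace Cfsg.Agent.Lib.Helper73.HJ

variable {S : Type*} [Group S] [Finite S] {E : Type*} [AddCommGroup E] [Module (ZMod 3) E]
  [Finite E]

omit [Finite S] [Finite E] in
theorem hjlines_mul (ρ : Representation (ZMod 3) S E) (g h : S) (v : E) :
    ρ (g * h) v = ρ g (ρ h v) := by
  rw [map_mul, Module.End.mul_apply]

theorem hjlines_z3 : ∀ c : ZMod 3, c = 0 ∨ c = 1 ∨ c = -1 := by decide

theorem hjlines_one (ρ : Representation (ZMod 3) S E) (R Q : Subgroup S) (b : S) (hC : Comm R Q)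
    (q₁ q₂ q₃ : S) (e₁ e₂ e₃ : E) (hF : Frame ρ Q b q₁ q₂ q₃ e₁ e₂ e₃) (r : S) (hr : r ∈ R) :
    ρ r e₁ ∈ hjFix ρ Q ∨ ρ r e₁ = e₁ ∨ ρ r e₁ = -e₁ ∨ ρ r e₁ = e₂ ∨ ρ r e₁ = -e₂ ∨
        ρ r e₁ = e₃ ∨ ρ r e₁ = -e₃ := by
  obtain ⟨L1, L2, L3, L4⟩ := hj_ff_lines ρ Q b q₁ q₂ q₃ e₁ e₂ e₃ hF
  have hrinv : ∀ v, ρ r⁻¹ (ρ r v) = v := by
    intro v
    rw [← hjlines_mul ρ r⁻¹ r v, inv_mul_cancel, map_one, Module.End.one_apply]
  have hrinv' : ∀ v, ρ r (ρ r⁻¹ v) = v := by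
    intro v
    rw [← hjlines_mul ρ r r⁻¹ v, mul_inv_cancel, map_one, Module.End.one_apply]
  have hw0 : ρ r e₁ ≠ 0 := by
    intro h
    apply hF.e0
    rw [← hrinv e₁, h, map_zero]
  have hc1 : ρ (r * q₁ * r⁻¹) (ρ r e₁) = ρ r e₁ := by
    rw [hjlines_mul ρ (r * q₁) r⁻¹, hrinv, hjlines_mul ρ r q₁, hF.q11]
  have hc2 : ρ (r * q₂ * r⁻¹) (ρ r e₁) = -ρ r e₁ := by
    rw [hjlines_mul ρ (r * q₂) r⁻¹, hrinv, hjlines_mul ρ r q₂, hF.q21, map_neg]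
  have hline : ∀ v, ρ (r * q₁ * r⁻¹) v = v → ρ (r * q₂ * r⁻¹) v = -v →
      ∃ c : ZMod 3, v = c • ρ r e₁ := by
    intro v h1 h2
    have h3 : ρ q₁ (ρ r⁻¹ v) = ρ r⁻¹ v := by
      have h5 : ρ r⁻¹ (ρ (r * q₁ * r⁻¹) v) = ρ q₁ (ρ r⁻¹ v) := by
        rw [hjlines_mul ρ (r * q₁) r⁻¹, hjlines_mul ρ r q₁, hrinv]
      rw [← h5, h1]
    have h4 : ρ q₂ (ρ r⁻¹ v) = -ρ r⁻¹ v := by
      have h5 : ρ r⁻¹ (ρ (r * q₂ * r⁻¹) v) = ρ q₂ (ρ r⁻¹ v) := by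
        rw [hjlines_mul ρ (r * q₂) r⁻¹, hjlines_mul ρ r q₂, hrinv]
      rw [← h5, h2, map_neg]
    obtain ⟨c, hc⟩ := L1 _ h3 h4
    refine ⟨c, ?_⟩
    have h6 := hrinv' v
    rw [hc, map_smul] at h6
    exact h6.symm
  have hpres : ∀ q ∈ Q, q * q = 1 →
      (ρ q (ρ r e₁) = ρ r e₁ ∨ ρ q (ρ r e₁) = -ρ r e₁) := by
    intro q hq hqq
    have k1 : ρ (r * q₁ * r⁻¹) (ρ q (ρ r e₁)) = ρ q (ρ r e₁) := by
      rw [← hjlines_mul ρ (r * q₁ * r⁻¹) q, hC r hr q₁ hF.m1 q hq,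
        hjlines_mul ρ q (r * q₁ * r⁻¹), hc1]
    have k2 : ρ (r * q₂ * r⁻¹) (ρ q (ρ r e₁)) = -ρ q (ρ r e₁) := by
      rw [← hjlines_mul ρ (r * q₂ * r⁻¹) q, hC r hr q₂ hF.m2 q hq,
        hjlines_mul ρ q (r * q₂ * r⁻¹), hc2, map_neg]
    obtain ⟨c, hc⟩ := hline _ k1 k2
    rcases hjlines_z3 c with h | h | h
    · exfalso
      apply hw0
      rw [h, zero_smul] at hc
      have h7 : ρ (q * q) (ρ r e₁) = 0 := by rw [hjlines_mul ρ q q, hc, map_zero]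
      rw [hqq, map_one, Module.End.one_apply] at h7
      exact h7
    · left
      rw [hc, h, one_smul]
    · right
      rw [hc, h, neg_smul, one_smul]
  rcases hpres q₁ hF.m1 hF.s1 with a1 | a1 <;> rcases hpres q₂ hF.m2 hF.s2 with a2 | a2
  · left
    exact L4 _ a1 a2
  · obtain ⟨c, hc⟩ := L1 _ a1 a2
    rcases hjlines_z3 c with h | h | h
    · exfalso
      apply hw0
      rw [hc, h, zero_smul]
    · right; left
      rw [hc, h, one_smul]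
    · right; right; left
      rw [hc, h, neg_smul, one_smul]
  · obtain ⟨c, hc⟩ := L2 _ a1 a2
    rcases hjlines_z3 c with h | h | h
    · exfalso
      apply hw0
      rw [hc, h, zero_smul]
    · right; right; right; left
      rw [hc, h, one_smul]
    · right; right; right; right; left
      rw [hc, h, neg_smul, one_smul]
  · obtain ⟨c, hc⟩ := L3 _ a1 a2
    rcases hjlines_z3 c with h | h | h
    · exfalso
      apply hw0
      rw [hc, h, zero_smul]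
    · right; right; right; right; right; left
      rw [hc, h, one_smul]
    · right; right; right; right; right; right
      rw [hc, h, neg_smul, one_smul]

theorem hj_lines (ρ : Representation (ZMod 3) S E) (R Q : Subgroup S) (b : S) (hB : Base ρ R b) (hQR : Q ≤ R) (hQ : QType Q b) (hC : Comm R Q) (q₁ q₂ q₃ : S) (e₁ e₂ e₃ : E) (hF : Frame ρ Q b q₁ q₂ q₃ e₁ e₂ e₃) :
    ∀ r ∈ R, ∀ e : E, (e = e₁ ∨ e = e₂ ∨ e = e₃) →
      (ρ r e ∈ hjFix ρ Q ∨ ρ r e = e₁ ∨ ρ r e = -e₁ ∨ ρ r e = e₂ ∨ ρ r e = -e₂ ∨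
        ρ r e = e₃ ∨ ρ r e = -e₃) := by
  intro r hr e he
  rcases he with h | h | h
  · rw [h]
    exact hjlines_one ρ R Q b hC q₁ q₂ q₃ e₁ e₂ e₃ hF r hr
  · rw [h]
    have h' := hjlines_one ρ R Q b hC q₂ q₃ q₁ e₂ e₃ e₁
      (hj_framerot ρ Q b q₁ q₂ q₃ e₁ e₂ e₃ hF) r hr
    rcases h' with h' | h' | h' | h' | h' | h' | h'
    · exact Or.inl h'
    · exact Or.inr (Or.inr (Or.inr (Or.inl h')))
    · exact Or.inr (Or.inr (Or.inr (Or.inr (Or.inl h'))))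
    · exact Or.inr (Or.inr (Or.inr (Or.inr (Or.inr (Or.inl h')))))
    · exact Or.inr (Or.inr (Or.inr (Or.inr (Or.inr (Or.inr h')))))
    · exact Or.inr (Or.inl h')
    · exact Or.inr (Or.inr (Or.inl h'))
  · rw [h]
    have h' := hjlines_one ρ R Q b hC q₃ q₁ q₂ e₃ e₁ e₂
      (hj_framerot ρ Q b q₂ q₃ q₁ e₂ e₃ e₁ (hj_framerot ρ Q b q₁ q₂ q₃ e₁ e₂ e₃ hF)) r hr
    rcases h' with h' | h' | h' | h' | h' | h' | h'
    · exact Or.inl h'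
    · exact Or.inr (Or.inr (Or.inr (Or.inr (Or.inr (Or.inl h')))))
    · exact Or.inr (Or.inr (Or.inr (Or.inr (Or.inr (Or.inr h')))))
    · exact Or.inr (Or.inl h')
    · exact Or.inr (Or.inr (Or.inl h'))
    · exact Or.inr (Or.inr (Or.inr (Or.inl h')))
    · exact Or.inr (Or.inr (Or.inr (Or.inr (Or.inl h'))))

end Cfsg.Agent.Lib.Helper73.HJ
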