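import Mathlib
import Cfsg.Agent.Lib.Helper73.HJDefs
import Cfsg.Agent.Lib.Helper73.HJFFIndep

/-!
# Project HJ (S4415), piece Mon4Ind

MON4IND: FFINDEP with `f = c₄ • e₄`.
-/

set_option autoImplicit false

namespace Cfsg.Agent.Lib.Helper73.HJ

variable {S : Type*} [Group S] [Finite S] {E : Type*} [AddCommGroup E] [Module (ZMod 3) E]
  [Finite E]

theorem hj_mon4ind (ρ : Representation (ZMod 3) S E) (Q : Subgroup S) (b : S) (q₁ q₂ q₃ : S) (e₁ e₂ e₃ : E) (hF : Frame ρ Q b q₁ q₂ q₃ e₁ e₂ e₃) (e₄ : E) (he4 : e₄ ≠ 0)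
    (he4f : e₄ ∈ hjFix ρ Q) : ∀ c₁ c₂ c₃ c₄ : ZMod 3,
    c₁ • e₁ + c₂ • e₂ + c₃ • e₃ + c₄ • e₄ = 0 → c₁ = 0 ∧ c₂ = 0 ∧ c₃ = 0 ∧ c₄ = 0 := by
  intro c₁ c₂ c₃ c₄ h
  have hf : c₄ • e₄ ∈ hjFix ρ Q := (hjFix ρ Q).smul_mem c₄ he4f
  have h' : c₄ • e₄ + c₁ • e₁ + c₂ • e₂ + c₃ • e₃ = 0 := by
    rw [← h]
    abel
  obtain ⟨h0, h1, h2, h3⟩ :=
    hj_ff_indep ρ Q b q₁ q₂ q₃ e₁ e₂ e₃ hF (c₄ • e₄) hf c₁ c₂ c₃ h'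
  exact ⟨h1, h2, h3, (smul_eq_zero.1 h0).resolve_right he4⟩

end Cfsg.Agent.Lib.Helper73.HJ
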