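import Mathlib
import Cfsg.Agent.Lib.Helper73.HJDefs
import Cfsg.Agent.Lib.Helper73.HJMon4Ind

/-!
# Project HJ (S4415), piece Mon4Diag

MON4DIAG: `q₁, q₂, q₃` act as `(1,-1,-1,1)`, `(-1,1,-1,1)`, `(-1,-1,1,1)` (`e₄ ∈ C_E(Q)`). The `r₀` of `hr4` has the fourth shape (MON4IND), and `r₀ q₂ r₀⁻¹` acts as `(1,-1,1,-1)`. Products give all 8 even sign patterns.
-/

set_option autoImplicit false
set_option linter.unusedSectionVars false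
set_option linter.unusedVariables false

namespace Cfsg.Agent.Lib.Helper73.HJ

variable {S : Type*} [Group S] [Finite S] {E : Type*} [AddCommGroup E] [Module (ZMod 3) E]
  [Finite E]

omit [Finite S] [Finite E] in
/-- product of two diagonal elements -/
theorem hjmon4diag_mul (ρ : Representation (ZMod 3) S E) (R : Subgroup S) (e₁ e₂ e₃ e₄ : E)
    (r r' : S) (a b c d a' b' c' d' a'' b'' c'' d'' : ZMod 3)
    (h : r ∈ R ∧ ρ r e₁ = a • e₁ ∧ ρ r e₂ = b • e₂ ∧ ρ r e₃ = c • e₃ ∧ ρ r e₄ = d • e₄)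
    (h' : r' ∈ R ∧ ρ r' e₁ = a' • e₁ ∧ ρ r' e₂ = b' • e₂ ∧ ρ r' e₃ = c' • e₃ ∧
      ρ r' e₄ = d' • e₄)
    (ha : a * a' = a'') (hb : b * b' = b'') (hc : c * c' = c'') (hd : d * d' = d'') :
    ∃ r ∈ R, ρ r e₁ = a'' • e₁ ∧ ρ r e₂ = b'' • e₂ ∧ ρ r e₃ = c'' • e₃ ∧ ρ r e₄ = d'' • e₄ := by
  obtain ⟨hr, h1, h2, h3, h4⟩ := h
  obtain ⟨hr', h1', h2', h3', h4'⟩ := h'
  refine ⟨r * r', mul_mem hr hr', ?_, ?_, ?_, ?_⟩
  · rw [map_mul, Module.End.mul_apply, h1', map_smul, h1, smul_smul, mul_comm, ha]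
  · rw [map_mul, Module.End.mul_apply, h2', map_smul, h2, smul_smul, mul_comm, hb]
  · rw [map_mul, Module.End.mul_apply, h3', map_smul, h3, smul_smul, mul_comm, hc]
  · rw [map_mul, Module.End.mul_apply, h4', map_smul, h4, smul_smul, mul_comm, hd]

theorem hj_mon4diag (ρ : Representation (ZMod 3) S E) (R Q : Subgroup S) (b : S) (hB : Base ρ R b) (hQR : Q ≤ R) (hQ : QType Q b) (q₁ q₂ q₃ : S) (e₁ e₂ e₃ : E) (hF : Frame ρ Q b q₁ q₂ q₃ e₁ e₂ e₃)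
    (e₄ : E) (he4 : e₄ ≠ 0) (he4f : e₄ ∈ hjFix ρ Q) (hsh : ∀ r ∈ R, Sh4 ρ r e₁ e₂ e₃ e₄)
    (hr4 : ∃ r ∈ R, ρ r e₄ = e₁ ∨ ρ r e₄ = -e₁) :
    ∀ s₁ s₂ s₃ s₄ : ZMod 3, s₁ * s₁ = 1 → s₂ * s₂ = 1 → s₃ * s₃ = 1 → s₄ * s₄ = 1 →
      s₁ * s₂ * s₃ * s₄ = 1 →
      ∃ r ∈ R, ρ r e₁ = s₁ • e₁ ∧ ρ r e₂ = s₂ • e₂ ∧ ρ r e₃ = s₃ • e₃ ∧ ρ r e₄ = s₄ • e₄ := by
  have hind := hj_mon4ind ρ Q b q₁ q₂ q₃ e₁ e₂ e₃ hF e₄ he4 he4f
  have hunit : ∀ s : ZMod 3, s * s = 1 → s = 1 ∨ s = -1 := by decide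
  have hcancel : ∀ (s : ZMod 3) (x y : E), s * s = 1 → s • x = s • y → x = y := by
    intro s x y hs h
    have h' := congrArg (fun z => s • z) h
    simp only [smul_smul, hs, one_smul] at h'
    exact h'
  obtain ⟨r₀, hr₀R, hr₀⟩ := hr4
  have hshape : ∃ t₁ t₂ t₃ t₄ : ZMod 3, t₁ * t₁ = 1 ∧ t₂ * t₂ = 1 ∧ t₃ * t₃ = 1 ∧ t₄ * t₄ = 1 ∧
      ρ r₀ e₁ = t₁ • e₄ ∧ ρ r₀ e₄ = t₄ • e₁ ∧ ρ r₀ e₂ = t₂ • e₃ ∧ ρ r₀ e₃ = t₃ • e₂ := by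
    obtain ⟨t₁, t₂, t₃, t₄, h1, h2, h3, h4, hc⟩ := hsh r₀ hr₀R
    rcases hc with ⟨-, -, -, h⟩ | ⟨-, -, -, h⟩ | ⟨-, -, -, h⟩ | ⟨ha, hb, hc, hd⟩
    · exfalso
      rcases hr₀ with h' | h'
      · have h5 : t₄ • e₄ = e₁ := h.symm.trans h'
        have h6 := hind (-1) 0 0 t₄ (by rw [h5]; module)
        exact absurd h6.1 (by decide)
      · have h5 : t₄ • e₄ = -e₁ := h.symm.trans h'
        have h6 := hind 1 0 0 t₄ (by rw [h5]; module)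
        exact absurd h6.1 (by decide)
    · exfalso
      rcases hr₀ with h' | h'
      · have h5 : t₄ • e₃ = e₁ := h.symm.trans h'
        have h6 := hind (-1) 0 t₄ 0 (by rw [h5]; module)
        exact absurd h6.1 (by decide)
      · have h5 : t₄ • e₃ = -e₁ := h.symm.trans h'
        have h6 := hind 1 0 t₄ 0 (by rw [h5]; module)
        exact absurd h6.1 (by decide)
    · exfalso
      rcases hr₀ with h' | h'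
      · have h5 : t₄ • e₂ = e₁ := h.symm.trans h'
        have h6 := hind (-1) t₄ 0 0 (by rw [h5]; module)
        exact absurd h6.1 (by decide)
      · have h5 : t₄ • e₂ = -e₁ := h.symm.trans h'
        have h6 := hind 1 t₄ 0 0 (by rw [h5]; module)
        exact absurd h6.1 (by decide)
    · exact ⟨t₁, t₂, t₃, t₄, h1, h2, h3, h4, ha, hb, hc, hd⟩
  obtain ⟨t₁, t₂, t₃, t₄, ht1, ht2, ht3, ht4, ha, hb, hc, hd⟩ := hshape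
  have hconj : ∀ v, ρ (r₀ * q₂ * r₀⁻¹) (ρ r₀ v) = ρ r₀ (ρ q₂ v) := by
    intro v
    rw [← Module.End.mul_apply, ← map_mul, ← Module.End.mul_apply, ← map_mul]
    have h : r₀ * q₂ * r₀⁻¹ * r₀ = r₀ * q₂ := by group
    rw [h]
  have D1 : (1 : S) ∈ R ∧ ρ 1 e₁ = (1 : ZMod 3) • e₁ ∧ ρ 1 e₂ = (1 : ZMod 3) • e₂ ∧
      ρ 1 e₃ = (1 : ZMod 3) • e₃ ∧ ρ 1 e₄ = (1 : ZMod 3) • e₄ := by
    refine ⟨one_mem R, ?_, ?_, ?_, ?_⟩ <;> rw [map_one, one_smul, Module.End.one_apply]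
  have Dq1 : q₁ ∈ R ∧ ρ q₁ e₁ = (1 : ZMod 3) • e₁ ∧ ρ q₁ e₂ = (-1 : ZMod 3) • e₂ ∧
      ρ q₁ e₃ = (-1 : ZMod 3) • e₃ ∧ ρ q₁ e₄ = (1 : ZMod 3) • e₄ :=
    ⟨hQR hF.m1, by rw [one_smul]; exact hF.q11, by rw [neg_one_smul]; exact hF.q12,
      by rw [neg_one_smul]; exact hF.q13, by rw [one_smul]; exact he4f q₁ hF.m1⟩
  have Dq2 : q₂ ∈ R ∧ ρ q₂ e₁ = (-1 : ZMod 3) • e₁ ∧ ρ q₂ e₂ = (1 : ZMod 3) • e₂ ∧
      ρ q₂ e₃ = (-1 : ZMod 3) • e₃ ∧ ρ q₂ e₄ = (1 : ZMod 3) • e₄ :=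
    ⟨hQR hF.m2, by rw [neg_one_smul]; exact hF.q21, by rw [one_smul]; exact hF.q22,
      by rw [neg_one_smul]; exact hF.q23, by rw [one_smul]; exact he4f q₂ hF.m2⟩
  have Dq3 : q₃ ∈ R ∧ ρ q₃ e₁ = (-1 : ZMod 3) • e₁ ∧ ρ q₃ e₂ = (-1 : ZMod 3) • e₂ ∧
      ρ q₃ e₃ = (1 : ZMod 3) • e₃ ∧ ρ q₃ e₄ = (1 : ZMod 3) • e₄ :=
    ⟨hQR hF.m3, by rw [neg_one_smul]; exact hF.q31, by rw [neg_one_smul]; exact hF.q32,
      by rw [one_smul]; exact hF.q33, by rw [one_smul]; exact he4f q₃ hF.m3⟩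
  have Dt : r₀ * q₂ * r₀⁻¹ ∈ R ∧ ρ (r₀ * q₂ * r₀⁻¹) e₁ = (1 : ZMod 3) • e₁ ∧
      ρ (r₀ * q₂ * r₀⁻¹) e₂ = (-1 : ZMod 3) • e₂ ∧
      ρ (r₀ * q₂ * r₀⁻¹) e₃ = (1 : ZMod 3) • e₃ ∧ ρ (r₀ * q₂ * r₀⁻¹) e₄ = (-1 : ZMod 3) • e₄ := by
    refine ⟨mul_mem (mul_mem hr₀R (hQR hF.m2)) (inv_mem hr₀R), ?_, ?_, ?_, ?_⟩
    · rw [one_smul]
      apply hcancel t₄ _ _ ht4
      have h := hconj e₄
      rw [he4f q₂ hF.m2, hb, map_smul] at h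
      exact h
    · rw [neg_one_smul]
      apply hcancel t₃ _ _ ht3
      have h := hconj e₃
      rw [hF.q23, map_neg, hd, map_smul] at h
      rw [h, smul_neg]
    · rw [one_smul]
      apply hcancel t₂ _ _ ht2
      have h := hconj e₂
      rw [hF.q22, hc, map_smul] at h
      exact h
    · rw [neg_one_smul]
      apply hcancel t₁ _ _ ht1
      have h := hconj e₁
      rw [hF.q21, map_neg, ha, map_smul] at h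
      rw [h, smul_neg]
  intro s₁ s₂ s₃ s₄ h1 h2 h3 h4 h5
  rcases hunit s₁ h1 with rfl | rfl <;> rcases hunit s₂ h2 with rfl | rfl <;>
    rcases hunit s₃ h3 with rfl | rfl <;> rcases hunit s₄ h4 with rfl | rfl
  all_goals first
    | exact absurd h5 (by decide)
    | exact ⟨_, D1⟩
    | exact ⟨_, Dq1⟩
    | exact ⟨_, Dq2⟩
    | exact ⟨_, Dq3⟩
    | exact ⟨_, Dt⟩
    | exact hjmon4diag_mul ρ R e₁ e₂ e₃ e₄ _ _ _ _ _ _ _ _ _ _ _ _ _ _ Dt Dq1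
        (by decide) (by decide) (by decide) (by decide)
    | exact hjmon4diag_mul ρ R e₁ e₂ e₃ e₄ _ _ _ _ _ _ _ _ _ _ _ _ _ _ Dt Dq2
        (by decide) (by decide) (by decide) (by decide)
    | exact hjmon4diag_mul ρ R e₁ e₂ e₃ e₄ _ _ _ _ _ _ _ _ _ _ _ _ _ _ Dt Dq3
        (by decide) (by decide) (by decide) (by decide)

end Cfsg.Agent.Lib.Helper73.HJ
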