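import Mathlib
import Cfsg.Agent.Lib.Helper73.HJDefs
import Cfsg.Agent.Lib.Helper73.HJFFSpan

/-!
# Project HJ (S4415), piece Mon4Span

MON4SPAN: `W = ⟨e₁..e₄⟩` is invariant under `R` (`hsh`) and `b`. `⊇`: `e₁,e₂,e₃ ∈ [E,Q] ≤ [E,R]`, `e₄ = ± ρ r₀⁻¹ e₁` and `[E,R]` is `R`-invariant. `⊆`: `b` is trivial on `E/W` (FFSPAN), so each `r b r⁻¹ b⁻¹` is; the elements of `R` trivial on `E/W` form a subgroup; so `ρ r v - v ∈ W`.
-/

set_option autoImplicit false

namespace Cfsg.Agent.Lib.Helper73.HJ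

variable {S : Type*} [Group S] [Finite S] {E : Type*} [AddCommGroup E] [Module (ZMod 3) E]
  [Finite E]

omit [Finite S] [Finite E] in
theorem hjmon4span_mul (ρ : Representation (ZMod 3) S E) (W : Submodule (ZMod 3) E) (g h : S)
    (hg : ∀ v, ρ g v - v ∈ W) (hh : ∀ v, ρ h v - v ∈ W) : ∀ v, ρ (g * h) v - v ∈ W := by
  intro v
  have h1 : ρ (g * h) v - v = (ρ g (ρ h v) - ρ h v) + (ρ h v - v) := by
    rw [map_mul, Module.End.mul_apply]
    abel
  rw [h1]
  exact W.add_mem (hg _) (hh v)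

omit [Finite S] [Finite E] in
theorem hjmon4span_inv (ρ : Representation (ZMod 3) S E) (W : Submodule (ZMod 3) E) (g : S)
    (hg : ∀ v, ρ g v - v ∈ W) : ∀ v, ρ g⁻¹ v - v ∈ W := by
  intro v
  have h1 : ρ g (ρ g⁻¹ v) = v := by
    rw [← Module.End.mul_apply, ← map_mul, mul_inv_cancel, map_one, Module.End.one_apply]
  have h2 := hg (ρ g⁻¹ v)
  rw [h1] at h2
  have h3 : ρ g⁻¹ v - v = -(v - ρ g⁻¹ v) := by abel
  rw [h3]
  exact W.neg_mem h2

theorem hj_mon4span (ρ : Representation (ZMod 3) S E) (R Q : Subgroup S) (b : S) (hB : Base ρ R b) (hQR : Q ≤ R) (hQ : QType Q b) (q₁ q₂ q₃ : S) (e₁ e₂ e₃ : E) (hF : Frame ρ Q b q₁ q₂ q₃ e₁ e₂ e₃)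
    (e₄ : E) (he4 : e₄ ≠ 0) (he4f : e₄ ∈ hjFix ρ Q) (hsh : ∀ r ∈ R, Sh4 ρ r e₁ e₂ e₃ e₄)
    (hr4 : ∃ r ∈ R, ρ r e₄ = e₁ ∨ ρ r e₄ = -e₁) :
    hjComm ρ R = Submodule.span (ZMod 3) {e₁, e₂, e₃, e₄} := by
  obtain ⟨hcq, hbT⟩ := hj_ff_span ρ Q b q₁ q₂ q₃ e₁ e₂ e₃ hF
  have hWex : ∃ W : Submodule (ZMod 3) E, W = Submodule.span (ZMod 3) {e₁, e₂, e₃, e₄} := ⟨_, rfl⟩
  obtain ⟨W, hW⟩ := hWex
  rw [← hW]
  have he₁ : e₁ ∈ W := by
    rw [hW]
    exact Submodule.subset_span (by simp)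
  have he₂ : e₂ ∈ W := by
    rw [hW]
    exact Submodule.subset_span (by simp)
  have he₃ : e₃ ∈ W := by
    rw [hW]
    exact Submodule.subset_span (by simp)
  have he₄ : e₄ ∈ W := by
    rw [hW]
    exact Submodule.subset_span (by simp)
  have h3W : Submodule.span (ZMod 3) {e₁, e₂, e₃} ≤ W := by
    rw [Submodule.span_le]
    intro w hw
    simp only [Set.mem_insert_iff, Set.mem_singleton_iff] at hw
    rcases hw with h | h | h <;> rw [SetLike.mem_coe, h] <;> assumption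
  -- `W` is `R`-invariant
  have hinv : ∀ r ∈ R, ∀ w ∈ W, ρ r w ∈ W := by
    intro r hr w hw
    have hmap : Submodule.map (ρ r) W ≤ W := by
      rw [hW, Submodule.map_span_le, ← hW]
      intro m hm
      obtain ⟨s₁, s₂, s₃, s₄, -, -, -, -, h⟩ := hsh r hr
      simp only [Set.mem_insert_iff, Set.mem_singleton_iff] at hm
      rcases h with ⟨h1, h2, h3, h4⟩ | ⟨h1, h2, h3, h4⟩ | ⟨h1, h3, h2, h4⟩ | ⟨h1, h4, h2, h3⟩ <;>
        rcases hm with h | h | h | h <;> rw [h] <;>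
        first
          | (rw [h1]; exact W.smul_mem _ (by assumption))
          | (rw [h2]; exact W.smul_mem _ (by assumption))
          | (rw [h3]; exact W.smul_mem _ (by assumption))
          | (rw [h4]; exact W.smul_mem _ (by assumption))
    exact hmap (Submodule.mem_map_of_mem hw)
  -- `b` is trivial on `E / W`
  have hbW : ∀ v, ρ b v - v ∈ W := fun v => h3W (hbT v)
  -- every element of `R` is trivial on `E / W`
  have hRW : ∀ r ∈ R, ∀ v, ρ r v - v ∈ W := by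
    intro r hr
    have hr' : r ∈ Subgroup.closure {g | ∃ r ∈ R, g = r * b * r⁻¹ * b⁻¹} := by
      rw [← hB.gen]
      exact hr
    refine Subgroup.closure_induction (p := fun g _ => ∀ v, ρ g v - v ∈ W) ?_ ?_ ?_ ?_ hr'
    · rintro g ⟨x, hx, rfl⟩
      have hconj : ∀ v, ρ (x * b * x⁻¹) v - v ∈ W := by
        intro v
        have h1 : ρ x (ρ x⁻¹ v) = v := by
          rw [← Module.End.mul_apply, ← map_mul, mul_inv_cancel, map_one, Module.End.one_apply]
        have h2 : ρ (x * b * x⁻¹) v - v = ρ x (ρ b (ρ x⁻¹ v) - ρ x⁻¹ v) := by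
          rw [map_sub, h1, map_mul, map_mul, Module.End.mul_apply, Module.End.mul_apply]
        rw [h2]
        exact hinv x hx _ (hbW _)
      exact hjmon4span_mul ρ W _ _ hconj (hjmon4span_inv ρ W b hbW)
    · intro v
      rw [map_one, Module.End.one_apply, sub_self]
      exact W.zero_mem
    · intro g h _ _ hg hh
      exact hjmon4span_mul ρ W g h hg hh
    · intro g _ hg
      exact hjmon4span_inv ρ W g hg
  apply le_antisymm
  · unfold hjComm
    rw [Submodule.span_le]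
    rintro w ⟨x, hx, v, rfl⟩
    exact hRW x hx v
  · -- `[E, Q] ≤ [E, R]`
    have hQR' : hjComm ρ Q ≤ hjComm ρ R := by
      unfold hjComm
      apply Submodule.span_mono
      rintro w ⟨x, hx, v, rfl⟩
      exact ⟨x, hQR hx, v, rfl⟩
    have hg₁ : e₁ ∈ hjComm ρ R := by
      apply hQR'
      rw [hcq]
      exact Submodule.subset_span (by simp)
    have hg₂ : e₂ ∈ hjComm ρ R := by
      apply hQR'
      rw [hcq]
      exact Submodule.subset_span (by simp)
    have hg₃ : e₃ ∈ hjComm ρ R := by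
      apply hQR'
      rw [hcq]
      exact Submodule.subset_span (by simp)
    have hg₄ : e₄ ∈ hjComm ρ R := by
      obtain ⟨r₀, hr₀, h⟩ := hr4
      have h1 : ρ r₀ e₄ - e₄ ∈ hjComm ρ R := Submodule.subset_span ⟨r₀, hr₀, e₄, rfl⟩
      have h2 : ρ r₀ e₄ ∈ hjComm ρ R := by
        rcases h with h | h
        · rw [h]
          exact hg₁
        · rw [h]
          exact (hjComm ρ R).neg_mem hg₁
      have h3 : e₄ = ρ r₀ e₄ - (ρ r₀ e₄ - e₄) := by abel
      rw [h3]
      exact (hjComm ρ R).sub_mem h2 h1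
    rw [hW, Submodule.span_le]
    intro w hw
    simp only [Set.mem_insert_iff, Set.mem_singleton_iff] at hw
    rcases hw with h | h | h | h <;> rw [SetLike.mem_coe, h] <;> assumption

end Cfsg.Agent.Lib.Helper73.HJ
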