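import Mathlib
import Cfsg.Agent.Lib.Helper73.HJDefs
import Cfsg.Agent.Lib.Helper73.HJMon4Span
import Cfsg.Agent.Lib.Helper73.HJF0F1

/-!
# Project HJ (S4415), piece Mon4Inj

MON4INJ: `r⁻¹ r'` fixes `e₁..e₄`, hence `[E,R]` (MON4SPAN), so is 1 (F0F1).
-/

set_option autoImplicit false

namespace Cfsg.Agent.Lib.Helper73.HJ

variable {S : Type*} [Group S] [Finite S] {E : Type*} [AddCommGroup E] [Module (ZMod 3) E]
  [Finite E]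

theorem hj_mon4inj (ρ : Representation (ZMod 3) S E) (R Q : Subgroup S) (b : S) (hB : Base ρ R b) (hQR : Q ≤ R) (hQ : QType Q b) (q₁ q₂ q₃ : S) (e₁ e₂ e₃ : E) (hF : Frame ρ Q b q₁ q₂ q₃ e₁ e₂ e₃)
    (e₄ : E) (he4 : e₄ ≠ 0) (he4f : e₄ ∈ hjFix ρ Q) (hsh : ∀ r ∈ R, Sh4 ρ r e₁ e₂ e₃ e₄)
    (hr4 : ∃ r ∈ R, ρ r e₄ = e₁ ∨ ρ r e₄ = -e₁) :
    ∀ r ∈ R, ∀ r' ∈ R, ρ r e₁ = ρ r' e₁ → ρ r e₂ = ρ r' e₂ → ρ r e₃ = ρ r' e₃ →
      ρ r e₄ = ρ r' e₄ → r = r'  := by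
  intro r hr r' hr' h1 h2 h3 h4
  have hspan := hj_mon4span ρ R Q b hB hQR hQ q₁ q₂ q₃ e₁ e₂ e₃ hF e₄ he4 he4f hsh hr4
  obtain ⟨-, -, h03⟩ := hj_f0f1 ρ R Q b hB hQR hQ
  have hg : r⁻¹ * r' ∈ R ⊔ Subgroup.zpowers b :=
    (le_sup_left : R ≤ R ⊔ Subgroup.zpowers b) (R.mul_mem (R.inv_mem hr) hr')
  have hfix : ∀ e : E, ρ r e = ρ r' e → ρ (r⁻¹ * r') e = e := by
    intro e he
    rw [hjf0f1_mul, ← he, ← hjf0f1_mul, inv_mul_cancel, hjf0f1_one]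
  have hle : Submodule.span (ZMod 3) {e₁, e₂, e₃, e₄} ≤
      LinearMap.eqLocus (ρ (r⁻¹ * r')) LinearMap.id := by
    apply Submodule.span_le.2
    intro e he
    simp only [Set.mem_insert_iff, Set.mem_singleton_iff] at he
    rcases he with rfl | rfl | rfl | rfl
    · exact LinearMap.mem_eqLocus.2 (hfix _ h1)
    · exact LinearMap.mem_eqLocus.2 (hfix _ h2)
    · exact LinearMap.mem_eqLocus.2 (hfix _ h3)
    · exact LinearMap.mem_eqLocus.2 (hfix _ h4)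
  have key : ∀ v ∈ hjComm ρ R, ρ (r⁻¹ * r') v = v := by
    intro v hv
    rw [hspan] at hv
    exact LinearMap.mem_eqLocus.1 (hle hv)
  exact inv_mul_eq_one.1 (h03 _ hg key)

end Cfsg.Agent.Lib.Helper73.HJ
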