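import Mathlib
import Cfsg.Agent.Lib.Helper73.HJDefs
import Cfsg.Agent.Lib.Helper73.HJMon4Ind

/-!
# Project HJ (S4415), piece Mon4Sgn

MON4SGN: call `σ` the product of the four signs of a signed permutation of shape `Sh4`. Shapes multiply (16 cases), `σ` is multiplicative, invariant under inversion and under conjugation by `b` (which cycles `e₁,e₂,e₃`, fixes `e₄`). So `σ(r b r⁻¹ b⁻¹) = 1` and the elements of `R` with `σ = 1` form a subgroup containing the generators (`hB.gen`).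

Proved by helper86: the predicate `hjmon4sgn_P` (shape `Sh4` with product of signs `1`) holds for
`1`, is closed under products and inverses, and holds for the generators `r * b * r⁻¹ * b⁻¹`.
-/

set_option autoImplicit false

namespace Cfsg.Agent.Lib.Helper73.HJ

variable {S : Type*} [Group S] [Finite S] {E : Type*} [AddCommGroup E] [Module (ZMod 3) E]
  [Finite E]

/-- signed permutation of Klein type with product of signs `1` -/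
def hjmon4sgn_P (ρ : Representation (ZMod 3) S E) (r : S) (e₁ e₂ e₃ e₄ : E) : Prop :=
  ∃ s₁ s₂ s₃ s₄ : ZMod 3, s₁ * s₁ = 1 ∧ s₂ * s₂ = 1 ∧ s₃ * s₃ = 1 ∧ s₄ * s₄ = 1 ∧
    s₁ * s₂ * s₃ * s₄ = 1 ∧
    ((ρ r e₁ = s₁ • e₁ ∧ ρ r e₂ = s₂ • e₂ ∧ ρ r e₃ = s₃ • e₃ ∧ ρ r e₄ = s₄ • e₄) ∨
     (ρ r e₁ = s₁ • e₂ ∧ ρ r e₂ = s₂ • e₁ ∧ ρ r e₃ = s₃ • e₄ ∧ ρ r e₄ = s₄ • e₃) ∨
     (ρ r e₁ = s₁ • e₃ ∧ ρ r e₃ = s₃ • e₁ ∧ ρ r e₂ = s₂ • e₄ ∧ ρ r e₄ = s₄ • e₂) ∨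
     (ρ r e₁ = s₁ • e₄ ∧ ρ r e₄ = s₄ • e₁ ∧ ρ r e₂ = s₂ • e₃ ∧ ρ r e₃ = s₃ • e₂))

theorem hjmon4sgn_inv_aux (ρ : Representation (ZMod 3) S E) (x : S) (u v : E) (s : ZMod 3)
    (hs : s * s = 1) (h : ρ x u = s • v) : ρ x⁻¹ v = s • u := by
  have h1 : ρ x⁻¹ (ρ x u) = u := by
    rw [← Module.End.mul_apply, ← map_mul, inv_mul_cancel, map_one, Module.End.one_apply]
  rw [h, map_smul] at h1
  rw [← h1, smul_smul, hs, one_smul]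

theorem hjmon4sgn_inv_aux1 (ρ : Representation (ZMod 3) S E) (x : S) (u v : E)
    (h : ρ x u = v) : ρ x⁻¹ v = u := by
  rw [← h, ← Module.End.mul_apply, ← map_mul, inv_mul_cancel, map_one, Module.End.one_apply]

theorem hjmon4sgn_one (ρ : Representation (ZMod 3) S E) (e₁ e₂ e₃ e₄ : E) :
    hjmon4sgn_P ρ 1 e₁ e₂ e₃ e₄ := by
  refine ⟨1, 1, 1, 1, one_mul 1, one_mul 1, one_mul 1, one_mul 1, by simp, Or.inl ⟨?_, ?_, ?_, ?_⟩⟩ <;>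
    rw [map_one, Module.End.one_apply, one_smul]

theorem hjmon4sgn_mul (ρ : Representation (ZMod 3) S E) (e₁ e₂ e₃ e₄ : E) (x y : S)
    (hx : hjmon4sgn_P ρ x e₁ e₂ e₃ e₄) (hy : hjmon4sgn_P ρ y e₁ e₂ e₃ e₄) :
    hjmon4sgn_P ρ (x * y) e₁ e₂ e₃ e₄ := by
  obtain ⟨s₁, s₂, s₃, s₄, hs₁, hs₂, hs₃, hs₄, hs, hx⟩ := hx
  obtain ⟨t₁, t₂, t₃, t₄, ht₁, ht₂, ht₃, ht₄, ht, hy⟩ := hy
  rcases hx with ⟨x1, x2, x3, x4⟩ | ⟨x1, x2, x3, x4⟩ | ⟨x1, x3, x2, x4⟩ | ⟨x1, x4, x2, x3⟩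
  · rcases hy with ⟨y1, y2, y3, y4⟩ | ⟨y1, y2, y3, y4⟩ | ⟨y1, y3, y2, y4⟩ | ⟨y1, y4, y2, y3⟩
    · refine ⟨t₁ * s₁, t₂ * s₂, t₃ * s₃, t₄ * s₄, ?_, ?_, ?_, ?_, ?_, ?_⟩
      · rw [mul_mul_mul_comm, ht₁, hs₁, mul_one]
      · rw [mul_mul_mul_comm, ht₂, hs₂, mul_one]
      · rw [mul_mul_mul_comm, ht₃, hs₃, mul_one]
      · rw [mul_mul_mul_comm, ht₄, hs₄, mul_one]
      · calc (t₁ * s₁) * (t₂ * s₂) * (t₃ * s₃) * (t₄ * s₄) = (t₁ * t₂ * t₃ * t₄) * (s₁ * s₂ * s₃ * s₄) := by ring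
          _ = 1 := by rw [ht, hs, mul_one]
      · left
        refine ⟨?_, ?_, ?_, ?_⟩
        · rw [map_mul, Module.End.mul_apply, y1, map_smul, x1, smul_smul]
        · rw [map_mul, Module.End.mul_apply, y2, map_smul, x2, smul_smul]
        · rw [map_mul, Module.End.mul_apply, y3, map_smul, x3, smul_smul]
        · rw [map_mul, Module.End.mul_apply, y4, map_smul, x4, smul_smul]
    · refine ⟨t₁ * s₂, t₂ * s₁, t₃ * s₄, t₄ * s₃, ?_, ?_, ?_, ?_, ?_, ?_⟩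
      · rw [mul_mul_mul_comm, ht₁, hs₂, mul_one]
      · rw [mul_mul_mul_comm, ht₂, hs₁, mul_one]
      · rw [mul_mul_mul_comm, ht₃, hs₄, mul_one]
      · rw [mul_mul_mul_comm, ht₄, hs₃, mul_one]
      · calc (t₁ * s₂) * (t₂ * s₁) * (t₃ * s₄) * (t₄ * s₃) = (t₁ * t₂ * t₃ * t₄) * (s₁ * s₂ * s₃ * s₄) := by ring
          _ = 1 := by rw [ht, hs, mul_one]
      · right; left
        refine ⟨?_, ?_, ?_, ?_⟩
        · rw [map_mul, Module.End.mul_apply, y1, map_smul, x2, smul_smul]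
        · rw [map_mul, Module.End.mul_apply, y2, map_smul, x1, smul_smul]
        · rw [map_mul, Module.End.mul_apply, y3, map_smul, x4, smul_smul]
        · rw [map_mul, Module.End.mul_apply, y4, map_smul, x3, smul_smul]
    · refine ⟨t₁ * s₃, t₂ * s₄, t₃ * s₁, t₄ * s₂, ?_, ?_, ?_, ?_, ?_, ?_⟩
      · rw [mul_mul_mul_comm, ht₁, hs₃, mul_one]
      · rw [mul_mul_mul_comm, ht₂, hs₄, mul_one]
      · rw [mul_mul_mul_comm, ht₃, hs₁, mul_one]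
      · rw [mul_mul_mul_comm, ht₄, hs₂, mul_one]
      · calc (t₁ * s₃) * (t₂ * s₄) * (t₃ * s₁) * (t₄ * s₂) = (t₁ * t₂ * t₃ * t₄) * (s₁ * s₂ * s₃ * s₄) := by ring
          _ = 1 := by rw [ht, hs, mul_one]
      · right; right; left
        refine ⟨?_, ?_, ?_, ?_⟩
        · rw [map_mul, Module.End.mul_apply, y1, map_smul, x3, smul_smul]
        · rw [map_mul, Module.End.mul_apply, y3, map_smul, x1, smul_smul]
        · rw [map_mul, Module.End.mul_apply, y2, map_smul, x4, smul_smul]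
        · rw [map_mul, Module.End.mul_apply, y4, map_smul, x2, smul_smul]
    · refine ⟨t₁ * s₄, t₂ * s₃, t₃ * s₂, t₄ * s₁, ?_, ?_, ?_, ?_, ?_, ?_⟩
      · rw [mul_mul_mul_comm, ht₁, hs₄, mul_one]
      · rw [mul_mul_mul_comm, ht₂, hs₃, mul_one]
      · rw [mul_mul_mul_comm, ht₃, hs₂, mul_one]
      · rw [mul_mul_mul_comm, ht₄, hs₁, mul_one]
      · calc (t₁ * s₄) * (t₂ * s₃) * (t₃ * s₂) * (t₄ * s₁) = (t₁ * t₂ * t₃ * t₄) * (s₁ * s₂ * s₃ * s₄) := by ring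
          _ = 1 := by rw [ht, hs, mul_one]
      · right; right; right
        refine ⟨?_, ?_, ?_, ?_⟩
        · rw [map_mul, Module.End.mul_apply, y1, map_smul, x4, smul_smul]
        · rw [map_mul, Module.End.mul_apply, y4, map_smul, x1, smul_smul]
        · rw [map_mul, Module.End.mul_apply, y2, map_smul, x3, smul_smul]
        · rw [map_mul, Module.End.mul_apply, y3, map_smul, x2, smul_smul]
  · rcases hy with ⟨y1, y2, y3, y4⟩ | ⟨y1, y2, y3, y4⟩ | ⟨y1, y3, y2, y4⟩ | ⟨y1, y4, y2, y3⟩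
    · refine ⟨t₁ * s₁, t₂ * s₂, t₃ * s₃, t₄ * s₄, ?_, ?_, ?_, ?_, ?_, ?_⟩
      · rw [mul_mul_mul_comm, ht₁, hs₁, mul_one]
      · rw [mul_mul_mul_comm, ht₂, hs₂, mul_one]
      · rw [mul_mul_mul_comm, ht₃, hs₃, mul_one]
      · rw [mul_mul_mul_comm, ht₄, hs₄, mul_one]
      · calc (t₁ * s₁) * (t₂ * s₂) * (t₃ * s₃) * (t₄ * s₄) = (t₁ * t₂ * t₃ * t₄) * (s₁ * s₂ * s₃ * s₄) := by ring
          _ = 1 := by rw [ht, hs, mul_one]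
      · right; left
        refine ⟨?_, ?_, ?_, ?_⟩
        · rw [map_mul, Module.End.mul_apply, y1, map_smul, x1, smul_smul]
        · rw [map_mul, Module.End.mul_apply, y2, map_smul, x2, smul_smul]
        · rw [map_mul, Module.End.mul_apply, y3, map_smul, x3, smul_smul]
        · rw [map_mul, Module.End.mul_apply, y4, map_smul, x4, smul_smul]
    · refine ⟨t₁ * s₂, t₂ * s₁, t₃ * s₄, t₄ * s₃, ?_, ?_, ?_, ?_, ?_, ?_⟩
      · rw [mul_mul_mul_comm, ht₁, hs₂, mul_one]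
      · rw [mul_mul_mul_comm, ht₂, hs₁, mul_one]
      · rw [mul_mul_mul_comm, ht₃, hs₄, mul_one]
      · rw [mul_mul_mul_comm, ht₄, hs₃, mul_one]
      · calc (t₁ * s₂) * (t₂ * s₁) * (t₃ * s₄) * (t₄ * s₃) = (t₁ * t₂ * t₃ * t₄) * (s₁ * s₂ * s₃ * s₄) := by ring
          _ = 1 := by rw [ht, hs, mul_one]
      · left
        refine ⟨?_, ?_, ?_, ?_⟩
        · rw [map_mul, Module.End.mul_apply, y1, map_smul, x2, smul_smul]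
        · rw [map_mul, Module.End.mul_apply, y2, map_smul, x1, smul_smul]
        · rw [map_mul, Module.End.mul_apply, y3, map_smul, x4, smul_smul]
        · rw [map_mul, Module.End.mul_apply, y4, map_smul, x3, smul_smul]
    · refine ⟨t₁ * s₃, t₂ * s₄, t₃ * s₁, t₄ * s₂, ?_, ?_, ?_, ?_, ?_, ?_⟩
      · rw [mul_mul_mul_comm, ht₁, hs₃, mul_one]
      · rw [mul_mul_mul_comm, ht₂, hs₄, mul_one]
      · rw [mul_mul_mul_comm, ht₃, hs₁, mul_one]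
      · rw [mul_mul_mul_comm, ht₄, hs₂, mul_one]
      · calc (t₁ * s₃) * (t₂ * s₄) * (t₃ * s₁) * (t₄ * s₂) = (t₁ * t₂ * t₃ * t₄) * (s₁ * s₂ * s₃ * s₄) := by ring
          _ = 1 := by rw [ht, hs, mul_one]
      · right; right; right
        refine ⟨?_, ?_, ?_, ?_⟩
        · rw [map_mul, Module.End.mul_apply, y1, map_smul, x3, smul_smul]
        · rw [map_mul, Module.End.mul_apply, y4, map_smul, x2, smul_smul]
        · rw [map_mul, Module.End.mul_apply, y2, map_smul, x4, smul_smul]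
        · rw [map_mul, Module.End.mul_apply, y3, map_smul, x1, smul_smul]
    · refine ⟨t₁ * s₄, t₂ * s₃, t₃ * s₂, t₄ * s₁, ?_, ?_, ?_, ?_, ?_, ?_⟩
      · rw [mul_mul_mul_comm, ht₁, hs₄, mul_one]
      · rw [mul_mul_mul_comm, ht₂, hs₃, mul_one]
      · rw [mul_mul_mul_comm, ht₃, hs₂, mul_one]
      · rw [mul_mul_mul_comm, ht₄, hs₁, mul_one]
      · calc (t₁ * s₄) * (t₂ * s₃) * (t₃ * s₂) * (t₄ * s₁) = (t₁ * t₂ * t₃ * t₄) * (s₁ * s₂ * s₃ * s₄) := by ring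
          _ = 1 := by rw [ht, hs, mul_one]
      · right; right; left
        refine ⟨?_, ?_, ?_, ?_⟩
        · rw [map_mul, Module.End.mul_apply, y1, map_smul, x4, smul_smul]
        · rw [map_mul, Module.End.mul_apply, y3, map_smul, x2, smul_smul]
        · rw [map_mul, Module.End.mul_apply, y2, map_smul, x3, smul_smul]
        · rw [map_mul, Module.End.mul_apply, y4, map_smul, x1, smul_smul]
  · rcases hy with ⟨y1, y2, y3, y4⟩ | ⟨y1, y2, y3, y4⟩ | ⟨y1, y3, y2, y4⟩ | ⟨y1, y4, y2, y3⟩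
    · refine ⟨t₁ * s₁, t₂ * s₂, t₃ * s₃, t₄ * s₄, ?_, ?_, ?_, ?_, ?_, ?_⟩
      · rw [mul_mul_mul_comm, ht₁, hs₁, mul_one]
      · rw [mul_mul_mul_comm, ht₂, hs₂, mul_one]
      · rw [mul_mul_mul_comm, ht₃, hs₃, mul_one]
      · rw [mul_mul_mul_comm, ht₄, hs₄, mul_one]
      · calc (t₁ * s₁) * (t₂ * s₂) * (t₃ * s₃) * (t₄ * s₄) = (t₁ * t₂ * t₃ * t₄) * (s₁ * s₂ * s₃ * s₄) := by ring
          _ = 1 := by rw [ht, hs, mul_one]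
      · right; right; left
        refine ⟨?_, ?_, ?_, ?_⟩
        · rw [map_mul, Module.End.mul_apply, y1, map_smul, x1, smul_smul]
        · rw [map_mul, Module.End.mul_apply, y3, map_smul, x3, smul_smul]
        · rw [map_mul, Module.End.mul_apply, y2, map_smul, x2, smul_smul]
        · rw [map_mul, Module.End.mul_apply, y4, map_smul, x4, smul_smul]
    · refine ⟨t₁ * s₂, t₂ * s₁, t₃ * s₄, t₄ * s₃, ?_, ?_, ?_, ?_, ?_, ?_⟩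
      · rw [mul_mul_mul_comm, ht₁, hs₂, mul_one]
      · rw [mul_mul_mul_comm, ht₂, hs₁, mul_one]
      · rw [mul_mul_mul_comm, ht₃, hs₄, mul_one]
      · rw [mul_mul_mul_comm, ht₄, hs₃, mul_one]
      · calc (t₁ * s₂) * (t₂ * s₁) * (t₃ * s₄) * (t₄ * s₃) = (t₁ * t₂ * t₃ * t₄) * (s₁ * s₂ * s₃ * s₄) := by ring
          _ = 1 := by rw [ht, hs, mul_one]
      · right; right; right
        refine ⟨?_, ?_, ?_, ?_⟩
        · rw [map_mul, Module.End.mul_apply, y1, map_smul, x2, smul_smul]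
        · rw [map_mul, Module.End.mul_apply, y4, map_smul, x3, smul_smul]
        · rw [map_mul, Module.End.mul_apply, y2, map_smul, x1, smul_smul]
        · rw [map_mul, Module.End.mul_apply, y3, map_smul, x4, smul_smul]
    · refine ⟨t₁ * s₃, t₂ * s₄, t₃ * s₁, t₄ * s₂, ?_, ?_, ?_, ?_, ?_, ?_⟩
      · rw [mul_mul_mul_comm, ht₁, hs₃, mul_one]
      · rw [mul_mul_mul_comm, ht₂, hs₄, mul_one]
      · rw [mul_mul_mul_comm, ht₃, hs₁, mul_one]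
      · rw [mul_mul_mul_comm, ht₄, hs₂, mul_one]
      · calc (t₁ * s₃) * (t₂ * s₄) * (t₃ * s₁) * (t₄ * s₂) = (t₁ * t₂ * t₃ * t₄) * (s₁ * s₂ * s₃ * s₄) := by ring
          _ = 1 := by rw [ht, hs, mul_one]
      · left
        refine ⟨?_, ?_, ?_, ?_⟩
        · rw [map_mul, Module.End.mul_apply, y1, map_smul, x3, smul_smul]
        · rw [map_mul, Module.End.mul_apply, y2, map_smul, x4, smul_smul]
        · rw [map_mul, Module.End.mul_apply, y3, map_smul, x1, smul_smul]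
        · rw [map_mul, Module.End.mul_apply, y4, map_smul, x2, smul_smul]
    · refine ⟨t₁ * s₄, t₂ * s₃, t₃ * s₂, t₄ * s₁, ?_, ?_, ?_, ?_, ?_, ?_⟩
      · rw [mul_mul_mul_comm, ht₁, hs₄, mul_one]
      · rw [mul_mul_mul_comm, ht₂, hs₃, mul_one]
      · rw [mul_mul_mul_comm, ht₃, hs₂, mul_one]
      · rw [mul_mul_mul_comm, ht₄, hs₁, mul_one]
      · calc (t₁ * s₄) * (t₂ * s₃) * (t₃ * s₂) * (t₄ * s₁) = (t₁ * t₂ * t₃ * t₄) * (s₁ * s₂ * s₃ * s₄) := by ring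
          _ = 1 := by rw [ht, hs, mul_one]
      · right; left
        refine ⟨?_, ?_, ?_, ?_⟩
        · rw [map_mul, Module.End.mul_apply, y1, map_smul, x4, smul_smul]
        · rw [map_mul, Module.End.mul_apply, y2, map_smul, x3, smul_smul]
        · rw [map_mul, Module.End.mul_apply, y3, map_smul, x2, smul_smul]
        · rw [map_mul, Module.End.mul_apply, y4, map_smul, x1, smul_smul]
  · rcases hy with ⟨y1, y2, y3, y4⟩ | ⟨y1, y2, y3, y4⟩ | ⟨y1, y3, y2, y4⟩ | ⟨y1, y4, y2, y3⟩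
    · refine ⟨t₁ * s₁, t₂ * s₂, t₃ * s₃, t₄ * s₄, ?_, ?_, ?_, ?_, ?_, ?_⟩
      · rw [mul_mul_mul_comm, ht₁, hs₁, mul_one]
      · rw [mul_mul_mul_comm, ht₂, hs₂, mul_one]
      · rw [mul_mul_mul_comm, ht₃, hs₃, mul_one]
      · rw [mul_mul_mul_comm, ht₄, hs₄, mul_one]
      · calc (t₁ * s₁) * (t₂ * s₂) * (t₃ * s₃) * (t₄ * s₄) = (t₁ * t₂ * t₃ * t₄) * (s₁ * s₂ * s₃ * s₄) := by ring
          _ = 1 := by rw [ht, hs, mul_one]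
      · right; right; right
        refine ⟨?_, ?_, ?_, ?_⟩
        · rw [map_mul, Module.End.mul_apply, y1, map_smul, x1, smul_smul]
        · rw [map_mul, Module.End.mul_apply, y4, map_smul, x4, smul_smul]
        · rw [map_mul, Module.End.mul_apply, y2, map_smul, x2, smul_smul]
        · rw [map_mul, Module.End.mul_apply, y3, map_smul, x3, smul_smul]
    · refine ⟨t₁ * s₂, t₂ * s₁, t₃ * s₄, t₄ * s₃, ?_, ?_, ?_, ?_, ?_, ?_⟩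
      · rw [mul_mul_mul_comm, ht₁, hs₂, mul_one]
      · rw [mul_mul_mul_comm, ht₂, hs₁, mul_one]
      · rw [mul_mul_mul_comm, ht₃, hs₄, mul_one]
      · rw [mul_mul_mul_comm, ht₄, hs₃, mul_one]
      · calc (t₁ * s₂) * (t₂ * s₁) * (t₃ * s₄) * (t₄ * s₃) = (t₁ * t₂ * t₃ * t₄) * (s₁ * s₂ * s₃ * s₄) := by ring
          _ = 1 := by rw [ht, hs, mul_one]
      · right; right; left
        refine ⟨?_, ?_, ?_, ?_⟩
        · rw [map_mul, Module.End.mul_apply, y1, map_smul, x2, smul_smul]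
        · rw [map_mul, Module.End.mul_apply, y3, map_smul, x4, smul_smul]
        · rw [map_mul, Module.End.mul_apply, y2, map_smul, x1, smul_smul]
        · rw [map_mul, Module.End.mul_apply, y4, map_smul, x3, smul_smul]
    · refine ⟨t₁ * s₃, t₂ * s₄, t₃ * s₁, t₄ * s₂, ?_, ?_, ?_, ?_, ?_, ?_⟩
      · rw [mul_mul_mul_comm, ht₁, hs₃, mul_one]
      · rw [mul_mul_mul_comm, ht₂, hs₄, mul_one]
      · rw [mul_mul_mul_comm, ht₃, hs₁, mul_one]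
      · rw [mul_mul_mul_comm, ht₄, hs₂, mul_one]
      · calc (t₁ * s₃) * (t₂ * s₄) * (t₃ * s₁) * (t₄ * s₂) = (t₁ * t₂ * t₃ * t₄) * (s₁ * s₂ * s₃ * s₄) := by ring
          _ = 1 := by rw [ht, hs, mul_one]
      · right; left
        refine ⟨?_, ?_, ?_, ?_⟩
        · rw [map_mul, Module.End.mul_apply, y1, map_smul, x3, smul_smul]
        · rw [map_mul, Module.End.mul_apply, y2, map_smul, x4, smul_smul]
        · rw [map_mul, Module.End.mul_apply, y3, map_smul, x1, smul_smul]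
        · rw [map_mul, Module.End.mul_apply, y4, map_smul, x2, smul_smul]
    · refine ⟨t₁ * s₄, t₂ * s₃, t₃ * s₂, t₄ * s₁, ?_, ?_, ?_, ?_, ?_, ?_⟩
      · rw [mul_mul_mul_comm, ht₁, hs₄, mul_one]
      · rw [mul_mul_mul_comm, ht₂, hs₃, mul_one]
      · rw [mul_mul_mul_comm, ht₃, hs₂, mul_one]
      · rw [mul_mul_mul_comm, ht₄, hs₁, mul_one]
      · calc (t₁ * s₄) * (t₂ * s₃) * (t₃ * s₂) * (t₄ * s₁) = (t₁ * t₂ * t₃ * t₄) * (s₁ * s₂ * s₃ * s₄) := by ring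
          _ = 1 := by rw [ht, hs, mul_one]
      · left
        refine ⟨?_, ?_, ?_, ?_⟩
        · rw [map_mul, Module.End.mul_apply, y1, map_smul, x4, smul_smul]
        · rw [map_mul, Module.End.mul_apply, y2, map_smul, x3, smul_smul]
        · rw [map_mul, Module.End.mul_apply, y3, map_smul, x2, smul_smul]
        · rw [map_mul, Module.End.mul_apply, y4, map_smul, x1, smul_smul]

theorem hjmon4sgn_inv (ρ : Representation (ZMod 3) S E) (e₁ e₂ e₃ e₄ : E) (x : S)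
    (hx : hjmon4sgn_P ρ x e₁ e₂ e₃ e₄) : hjmon4sgn_P ρ x⁻¹ e₁ e₂ e₃ e₄ := by
  obtain ⟨s₁, s₂, s₃, s₄, hs₁, hs₂, hs₃, hs₄, hs, hx⟩ := hx
  rcases hx with ⟨x1, x2, x3, x4⟩ | ⟨x1, x2, x3, x4⟩ | ⟨x1, x3, x2, x4⟩ | ⟨x1, x4, x2, x3⟩
  · refine ⟨s₁, s₂, s₃, s₄, hs₁, hs₂, hs₃, hs₄, ?_, ?_⟩
    · calc s₁ * s₂ * s₃ * s₄ = s₁ * s₂ * s₃ * s₄ := by ring
        _ = 1 := hs
    · left
      exact ⟨hjmon4sgn_inv_aux ρ x e₁ e₁ s₁ hs₁ x1, hjmon4sgn_inv_aux ρ x e₂ e₂ s₂ hs₂ x2, hjmon4sgn_inv_aux ρ x e₃ e₃ s₃ hs₃ x3, hjmon4sgn_inv_aux ρ x e₄ e₄ s₄ hs₄ x4⟩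
  · refine ⟨s₂, s₁, s₄, s₃, hs₂, hs₁, hs₄, hs₃, ?_, ?_⟩
    · calc s₂ * s₁ * s₄ * s₃ = s₁ * s₂ * s₃ * s₄ := by ring
        _ = 1 := hs
    · right; left
      exact ⟨hjmon4sgn_inv_aux ρ x e₂ e₁ s₂ hs₂ x2, hjmon4sgn_inv_aux ρ x e₁ e₂ s₁ hs₁ x1, hjmon4sgn_inv_aux ρ x e₄ e₃ s₄ hs₄ x4, hjmon4sgn_inv_aux ρ x e₃ e₄ s₃ hs₃ x3⟩
  · refine ⟨s₃, s₄, s₁, s₂, hs₃, hs₄, hs₁, hs₂, ?_, ?_⟩
    · calc s₃ * s₄ * s₁ * s₂ = s₁ * s₂ * s₃ * s₄ := by ring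
        _ = 1 := hs
    · right; right; left
      exact ⟨hjmon4sgn_inv_aux ρ x e₃ e₁ s₃ hs₃ x3, hjmon4sgn_inv_aux ρ x e₁ e₃ s₁ hs₁ x1, hjmon4sgn_inv_aux ρ x e₄ e₂ s₄ hs₄ x4, hjmon4sgn_inv_aux ρ x e₂ e₄ s₂ hs₂ x2⟩
  · refine ⟨s₄, s₃, s₂, s₁, hs₄, hs₃, hs₂, hs₁, ?_, ?_⟩
    · calc s₄ * s₃ * s₂ * s₁ = s₁ * s₂ * s₃ * s₄ := by ring
        _ = 1 := hs
    · right; right; right
      exact ⟨hjmon4sgn_inv_aux ρ x e₄ e₁ s₄ hs₄ x4, hjmon4sgn_inv_aux ρ x e₁ e₄ s₁ hs₁ x1, hjmon4sgn_inv_aux ρ x e₃ e₂ s₃ hs₃ x3, hjmon4sgn_inv_aux ρ x e₂ e₃ s₂ hs₂ x2⟩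

theorem hjmon4sgn_gen (ρ : Representation (ZMod 3) S E) (e₁ e₂ e₃ e₄ : E) (b r : S)
    (hb1 : ρ b e₁ = e₂) (hb2 : ρ b e₂ = e₃) (hb3 : ρ b e₃ = e₁) (hb4 : ρ b e₄ = e₄)
    (hr : Sh4 ρ r e₁ e₂ e₃ e₄) : hjmon4sgn_P ρ (r * b * r⁻¹ * b⁻¹) e₁ e₂ e₃ e₄ := by
  obtain ⟨s₁, s₂, s₃, s₄, hs₁, hs₂, hs₃, hs₄, hx⟩ := hr
  have bi1 : ρ b⁻¹ e₁ = e₃ := hjmon4sgn_inv_aux1 ρ b e₃ e₁ hb3
  have bi2 : ρ b⁻¹ e₂ = e₁ := hjmon4sgn_inv_aux1 ρ b e₁ e₂ hb1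
  have bi3 : ρ b⁻¹ e₃ = e₂ := hjmon4sgn_inv_aux1 ρ b e₂ e₃ hb2
  have bi4 : ρ b⁻¹ e₄ = e₄ := hjmon4sgn_inv_aux1 ρ b e₄ e₄ hb4
  rcases hx with ⟨x1, x2, x3, x4⟩ | ⟨x1, x2, x3, x4⟩ | ⟨x1, x3, x2, x4⟩ | ⟨x1, x4, x2, x3⟩
  · have ri1 : ρ r⁻¹ e₁ = s₁ • e₁ := hjmon4sgn_inv_aux ρ r e₁ e₁ s₁ hs₁ x1
    have ri2 : ρ r⁻¹ e₂ = s₂ • e₂ := hjmon4sgn_inv_aux ρ r e₂ e₂ s₂ hs₂ x2
    have ri3 : ρ r⁻¹ e₃ = s₃ • e₃ := hjmon4sgn_inv_aux ρ r e₃ e₃ s₃ hs₃ x3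
    have ri4 : ρ r⁻¹ e₄ = s₄ • e₄ := hjmon4sgn_inv_aux ρ r e₄ e₄ s₄ hs₄ x4
    refine ⟨s₃ * s₁, s₁ * s₂, s₂ * s₃, s₄ * s₄, ?_, ?_, ?_, ?_, ?_, ?_⟩
    · rw [mul_mul_mul_comm, hs₃]; simp [hs₁]
    · rw [mul_mul_mul_comm, hs₁]; simp [hs₂]
    · rw [mul_mul_mul_comm, hs₂]; simp [hs₃]
    · rw [mul_mul_mul_comm, hs₄]; simp [hs₄]
    · calc (s₃ * s₁) * (s₁ * s₂) * (s₂ * s₃) * (s₄ * s₄) = (s₁ * s₁) * (s₂ * s₂) * (s₃ * s₃) * (s₄ * s₄) := by ring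
        _ = 1 := by rw [hs₁, hs₂, hs₃, hs₄]; simp
    · left
      refine ⟨?_, ?_, ?_, ?_⟩
      · rw [map_mul, map_mul, map_mul, Module.End.mul_apply, Module.End.mul_apply, Module.End.mul_apply, bi1, ri3, map_smul, hb3, map_smul, x1, smul_smul]
      · rw [map_mul, map_mul, map_mul, Module.End.mul_apply, Module.End.mul_apply, Module.End.mul_apply, bi2, ri1, map_smul, hb1, map_smul, x2, smul_smul]
      · rw [map_mul, map_mul, map_mul, Module.End.mul_apply, Module.End.mul_apply, Module.End.mul_apply, bi3, ri2, map_smul, hb2, map_smul, x3, smul_smul]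
      · rw [map_mul, map_mul, map_mul, Module.End.mul_apply, Module.End.mul_apply, Module.End.mul_apply, bi4, ri4, map_smul, hb4, map_smul, x4, smul_smul]
  · have ri1 : ρ r⁻¹ e₁ = s₂ • e₂ := hjmon4sgn_inv_aux ρ r e₂ e₁ s₂ hs₂ x2
    have ri2 : ρ r⁻¹ e₂ = s₁ • e₁ := hjmon4sgn_inv_aux ρ r e₁ e₂ s₁ hs₁ x1
    have ri3 : ρ r⁻¹ e₃ = s₄ • e₄ := hjmon4sgn_inv_aux ρ r e₄ e₃ s₄ hs₄ x4
    have ri4 : ρ r⁻¹ e₄ = s₃ • e₃ := hjmon4sgn_inv_aux ρ r e₃ e₄ s₃ hs₃ x3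
    refine ⟨s₄ * s₄, s₂ * s₃, s₁ * s₂, s₃ * s₁, ?_, ?_, ?_, ?_, ?_, ?_⟩
    · rw [mul_mul_mul_comm, hs₄]; simp [hs₄]
    · rw [mul_mul_mul_comm, hs₂]; simp [hs₃]
    · rw [mul_mul_mul_comm, hs₁]; simp [hs₂]
    · rw [mul_mul_mul_comm, hs₃]; simp [hs₁]
    · calc (s₄ * s₄) * (s₂ * s₃) * (s₁ * s₂) * (s₃ * s₁) = (s₁ * s₁) * (s₂ * s₂) * (s₃ * s₃) * (s₄ * s₄) := by ring
        _ = 1 := by rw [hs₁, hs₂, hs₃, hs₄]; simp
    · right; right; left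
      refine ⟨?_, ?_, ?_, ?_⟩
      · rw [map_mul, map_mul, map_mul, Module.End.mul_apply, Module.End.mul_apply, Module.End.mul_apply, bi1, ri3, map_smul, hb4, map_smul, x4, smul_smul]
      · rw [map_mul, map_mul, map_mul, Module.End.mul_apply, Module.End.mul_apply, Module.End.mul_apply, bi3, ri2, map_smul, hb1, map_smul, x2, smul_smul]
      · rw [map_mul, map_mul, map_mul, Module.End.mul_apply, Module.End.mul_apply, Module.End.mul_apply, bi2, ri1, map_smul, hb2, map_smul, x3, smul_smul]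
      · rw [map_mul, map_mul, map_mul, Module.End.mul_apply, Module.End.mul_apply, Module.End.mul_apply, bi4, ri4, map_smul, hb3, map_smul, x1, smul_smul]
  · have ri1 : ρ r⁻¹ e₁ = s₃ • e₃ := hjmon4sgn_inv_aux ρ r e₃ e₁ s₃ hs₃ x3
    have ri2 : ρ r⁻¹ e₂ = s₄ • e₄ := hjmon4sgn_inv_aux ρ r e₄ e₂ s₄ hs₄ x4
    have ri3 : ρ r⁻¹ e₃ = s₁ • e₁ := hjmon4sgn_inv_aux ρ r e₁ e₃ s₁ hs₁ x1
    have ri4 : ρ r⁻¹ e₄ = s₂ • e₂ := hjmon4sgn_inv_aux ρ r e₂ e₄ s₂ hs₂ x2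
    refine ⟨s₁ * s₂, s₃ * s₁, s₄ * s₄, s₂ * s₃, ?_, ?_, ?_, ?_, ?_, ?_⟩
    · rw [mul_mul_mul_comm, hs₁]; simp [hs₂]
    · rw [mul_mul_mul_comm, hs₃]; simp [hs₁]
    · rw [mul_mul_mul_comm, hs₄]; simp [hs₄]
    · rw [mul_mul_mul_comm, hs₂]; simp [hs₃]
    · calc (s₁ * s₂) * (s₃ * s₁) * (s₄ * s₄) * (s₂ * s₃) = (s₁ * s₁) * (s₂ * s₂) * (s₃ * s₃) * (s₄ * s₄) := by ring
        _ = 1 := by rw [hs₁, hs₂, hs₃, hs₄]; simp
    · right; right; right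
      refine ⟨?_, ?_, ?_, ?_⟩
      · rw [map_mul, map_mul, map_mul, Module.End.mul_apply, Module.End.mul_apply, Module.End.mul_apply, bi1, ri3, map_smul, hb1, map_smul, x2, smul_smul]
      · rw [map_mul, map_mul, map_mul, Module.End.mul_apply, Module.End.mul_apply, Module.End.mul_apply, bi4, ri4, map_smul, hb2, map_smul, x3, smul_smul]
      · rw [map_mul, map_mul, map_mul, Module.End.mul_apply, Module.End.mul_apply, Module.End.mul_apply, bi2, ri1, map_smul, hb3, map_smul, x1, smul_smul]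
      · rw [map_mul, map_mul, map_mul, Module.End.mul_apply, Module.End.mul_apply, Module.End.mul_apply, bi3, ri2, map_smul, hb4, map_smul, x4, smul_smul]
  · have ri1 : ρ r⁻¹ e₁ = s₄ • e₄ := hjmon4sgn_inv_aux ρ r e₄ e₁ s₄ hs₄ x4
    have ri2 : ρ r⁻¹ e₂ = s₃ • e₃ := hjmon4sgn_inv_aux ρ r e₃ e₂ s₃ hs₃ x3
    have ri3 : ρ r⁻¹ e₃ = s₂ • e₂ := hjmon4sgn_inv_aux ρ r e₂ e₃ s₂ hs₂ x2
    have ri4 : ρ r⁻¹ e₄ = s₁ • e₁ := hjmon4sgn_inv_aux ρ r e₁ e₄ s₁ hs₁ x1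
    refine ⟨s₂ * s₃, s₄ * s₄, s₃ * s₁, s₁ * s₂, ?_, ?_, ?_, ?_, ?_, ?_⟩
    · rw [mul_mul_mul_comm, hs₂]; simp [hs₃]
    · rw [mul_mul_mul_comm, hs₄]; simp [hs₄]
    · rw [mul_mul_mul_comm, hs₃]; simp [hs₁]
    · rw [mul_mul_mul_comm, hs₁]; simp [hs₂]
    · calc (s₂ * s₃) * (s₄ * s₄) * (s₃ * s₁) * (s₁ * s₂) = (s₁ * s₁) * (s₂ * s₂) * (s₃ * s₃) * (s₄ * s₄) := by ring
        _ = 1 := by rw [hs₁, hs₂, hs₃, hs₄]; simp
    · right; left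
      refine ⟨?_, ?_, ?_, ?_⟩
      · rw [map_mul, map_mul, map_mul, Module.End.mul_apply, Module.End.mul_apply, Module.End.mul_apply, bi1, ri3, map_smul, hb2, map_smul, x3, smul_smul]
      · rw [map_mul, map_mul, map_mul, Module.End.mul_apply, Module.End.mul_apply, Module.End.mul_apply, bi2, ri1, map_smul, hb4, map_smul, x4, smul_smul]
      · rw [map_mul, map_mul, map_mul, Module.End.mul_apply, Module.End.mul_apply, Module.End.mul_apply, bi3, ri2, map_smul, hb3, map_smul, x1, smul_smul]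
      · rw [map_mul, map_mul, map_mul, Module.End.mul_apply, Module.End.mul_apply, Module.End.mul_apply, bi4, ri4, map_smul, hb1, map_smul, x2, smul_smul]

theorem hj_mon4sgn (ρ : Representation (ZMod 3) S E) (R Q : Subgroup S) (b : S) (hB : Base ρ R b) (hQR : Q ≤ R) (hQ : QType Q b) (q₁ q₂ q₃ : S) (e₁ e₂ e₃ : E) (hF : Frame ρ Q b q₁ q₂ q₃ e₁ e₂ e₃)
    (e₄ : E) (he4 : e₄ ≠ 0) (he4f : e₄ ∈ hjFix ρ Q) (hsh : ∀ r ∈ R, Sh4 ρ r e₁ e₂ e₃ e₄)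
    (hr4 : ∃ r ∈ R, ρ r e₄ = e₁ ∨ ρ r e₄ = -e₁) :
    ∀ r ∈ R, ∃ s₁ s₂ s₃ s₄ : ZMod 3, s₁ * s₁ = 1 ∧ s₂ * s₂ = 1 ∧ s₃ * s₃ = 1 ∧ s₄ * s₄ = 1 ∧
      s₁ * s₂ * s₃ * s₄ = 1 ∧
      ((ρ r e₁ = s₁ • e₁ ∧ ρ r e₂ = s₂ • e₂ ∧ ρ r e₃ = s₃ • e₃ ∧ ρ r e₄ = s₄ • e₄) ∨
       (ρ r e₁ = s₁ • e₂ ∧ ρ r e₂ = s₂ • e₁ ∧ ρ r e₃ = s₃ • e₄ ∧ ρ r e₄ = s₄ • e₃) ∨
       (ρ r e₁ = s₁ • e₃ ∧ ρ r e₃ = s₃ • e₁ ∧ ρ r e₂ = s₂ • e₄ ∧ ρ r e₄ = s₄ • e₂) ∨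
       (ρ r e₁ = s₁ • e₄ ∧ ρ r e₄ = s₄ • e₁ ∧ ρ r e₂ = s₂ • e₃ ∧ ρ r e₃ = s₃ • e₂)) := by
  intro r hr
  have hb4 : ρ b e₄ = e₄ := hF.bfix e₄ he4f
  have hr' : r ∈ Subgroup.closure {g | ∃ r ∈ R, g = r * b * r⁻¹ * b⁻¹} := hB.gen.le hr
  clear hr
  have key : hjmon4sgn_P ρ r e₁ e₂ e₃ e₄ := by
    induction hr' using Subgroup.closure_induction with
    | mem g hg =>
      obtain ⟨r', hr'R, rfl⟩ := hg
      exact hjmon4sgn_gen ρ e₁ e₂ e₃ e₄ b r' hF.be1 hF.be2 hF.be3 hb4 (hsh r' hr'R)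
    | one => exact hjmon4sgn_one ρ e₁ e₂ e₃ e₄
    | mul x y _ _ hx hy => exact hjmon4sgn_mul ρ e₁ e₂ e₃ e₄ x y hx hy
    | inv x _ hx => exact hjmon4sgn_inv ρ e₁ e₂ e₃ e₄ x hx
  exact key

end Cfsg.Agent.Lib.Helper73.HJ
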