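import Mathlib
import Cfsg.Agent.Lib.Helper73.HJDefs
import Cfsg.Agent.Lib.Helper73.HJMon4Sgn
import Cfsg.Agent.Lib.Helper73.HJMon4Diag
import Cfsg.Agent.Lib.Helper73.HJMon4Ind

/-!
# Project HJ (S4415), piece Mon4Perm

MON4PERM: `r₀` (from `hr4`) has the fourth shape with signs of product 1 (MON4SGN); multiply by the diagonal element of MON4DIAG cancelling the signs: the permutation matrix `(14)(23)`. Conjugating by `b` and `b^2` gives `(13)(24)` and `(12)(34)`.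
-/

set_option autoImplicit false

namespace Cfsg.Agent.Lib.Helper73.HJ

variable {S : Type*} [Group S] [Finite S] {E : Type*} [AddCommGroup E] [Module (ZMod 3) E]
  [Finite E]

theorem hjmon4perm_conj {S : Type*} [Group S] {E : Type*} [AddCommGroup E] [Module (ZMod 3) E]
    (ρ : Representation (ZMod 3) S E) (b p : S) (x y : E) (h : ρ p x = y) :
    ρ (b * p * b⁻¹) (ρ b x) = ρ b y := by
  rw [map_mul, map_mul, Module.End.mul_apply, Module.End.mul_apply,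
    ← Module.End.mul_apply (ρ b⁻¹), ← map_mul, inv_mul_cancel, map_one, Module.End.one_apply, h]

theorem hj_mon4perm (ρ : Representation (ZMod 3) S E) (R Q : Subgroup S) (b : S) (hB : Base ρ R b) (hQR : Q ≤ R) (hQ : QType Q b) (q₁ q₂ q₃ : S) (e₁ e₂ e₃ : E) (hF : Frame ρ Q b q₁ q₂ q₃ e₁ e₂ e₃)
    (e₄ : E) (he4 : e₄ ≠ 0) (he4f : e₄ ∈ hjFix ρ Q) (hsh : ∀ r ∈ R, Sh4 ρ r e₁ e₂ e₃ e₄)
    (hr4 : ∃ r ∈ R, ρ r e₄ = e₁ ∨ ρ r e₄ = -e₁) :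
    (∃ r ∈ R, ρ r e₁ = e₂ ∧ ρ r e₂ = e₁ ∧ ρ r e₃ = e₄ ∧ ρ r e₄ = e₃) ∧
    (∃ r ∈ R, ρ r e₁ = e₃ ∧ ρ r e₃ = e₁ ∧ ρ r e₂ = e₄ ∧ ρ r e₄ = e₂) ∧
    (∃ r ∈ R, ρ r e₁ = e₄ ∧ ρ r e₄ = e₁ ∧ ρ r e₂ = e₃ ∧ ρ r e₃ = e₂) := by
  have ind := hj_mon4ind ρ Q b q₁ q₂ q₃ e₁ e₂ e₃ hF e₄ he4 he4f
  have sgn := hj_mon4sgn ρ R Q b hB hQR hQ q₁ q₂ q₃ e₁ e₂ e₃ hF e₄ he4 he4f hsh hr4
  have dia := hj_mon4diag ρ R Q b hB hQR hQ q₁ q₂ q₃ e₁ e₂ e₃ hF e₄ he4 he4f hsh hr4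
  have hb4 : ρ b e₄ = e₄ := hF.bfix e₄ he4f
  -- the permutation `(14)(23)`
  have h14 : ∃ r ∈ R, ρ r e₁ = e₄ ∧ ρ r e₄ = e₁ ∧ ρ r e₂ = e₃ ∧ ρ r e₃ = e₂ := by
    obtain ⟨r₀, hr₀, hr₀4⟩ := hr4
    obtain ⟨s₁, s₂, s₃, s₄, hs1, hs2, hs3, hs4, hprod, hshape⟩ := sgn r₀ hr₀
    have key : ρ r₀ e₁ = s₁ • e₄ ∧ ρ r₀ e₄ = s₄ • e₁ ∧ ρ r₀ e₂ = s₂ • e₃ ∧ ρ r₀ e₃ = s₃ • e₂ := by
      rcases hshape with h | h | h | h
      · exfalso
        obtain ⟨-, -, -, h4⟩ := h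
        rcases hr₀4 with he | he
        · have hz := ind (-1) 0 0 s₄ (by rw [← h4, he]; simp)
          exact absurd hz.1 (by decide)
        · have hz := ind 1 0 0 s₄ (by rw [← h4, he]; simp)
          exact absurd hz.1 (by decide)
      · exfalso
        obtain ⟨-, -, -, h4⟩ := h
        rcases hr₀4 with he | he
        · have hz := ind (-1) 0 s₄ 0 (by rw [← h4, he]; simp)
          exact absurd hz.1 (by decide)
        · have hz := ind 1 0 s₄ 0 (by rw [← h4, he]; simp)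
          exact absurd hz.1 (by decide)
      · exfalso
        obtain ⟨-, -, -, h4⟩ := h
        rcases hr₀4 with he | he
        · have hz := ind (-1) s₄ 0 0 (by rw [← h4, he]; simp)
          exact absurd hz.1 (by decide)
        · have hz := ind 1 s₄ 0 0 (by rw [← h4, he]; simp)
          exact absurd hz.1 (by decide)
      · exact h
    obtain ⟨k1, k4, k2, k3⟩ := key
    obtain ⟨d, hd, hd1, hd2, hd3, hd4⟩ := dia s₁ s₂ s₃ s₄ hs1 hs2 hs3 hs4 hprod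
    refine ⟨r₀ * d, R.mul_mem hr₀ hd, ?_, ?_, ?_, ?_⟩
    · rw [map_mul, Module.End.mul_apply, hd1, map_smul, k1, smul_smul, hs1, one_smul]
    · rw [map_mul, Module.End.mul_apply, hd4, map_smul, k4, smul_smul, hs4, one_smul]
    · rw [map_mul, Module.End.mul_apply, hd2, map_smul, k2, smul_smul, hs2, one_smul]
    · rw [map_mul, Module.End.mul_apply, hd3, map_smul, k3, smul_smul, hs3, one_smul]
  obtain ⟨p, hp, p1, p4, p2, p3⟩ := h14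
  -- the permutation `(13)(24)`
  have hp' : b * p * b⁻¹ ∈ R := hB.nR p hp
  have c1 := hjmon4perm_conj ρ b p e₁ e₄ p1
  have c4 := hjmon4perm_conj ρ b p e₄ e₁ p4
  have c2 := hjmon4perm_conj ρ b p e₂ e₃ p2
  have c3 := hjmon4perm_conj ρ b p e₃ e₂ p3
  rw [hF.be1, hb4] at c1
  rw [hb4, hF.be1] at c4
  rw [hF.be2, hF.be3] at c2
  rw [hF.be3, hF.be2] at c3
  -- c1 : e₂ → e₄, c4 : e₄ → e₂, c2 : e₃ → e₁, c3 : e₁ → e₃
  have hp'' : b * (b * p * b⁻¹) * b⁻¹ ∈ R := hB.nR _ hp'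
  have d1 := hjmon4perm_conj ρ b (b * p * b⁻¹) e₂ e₄ c1
  have d4 := hjmon4perm_conj ρ b (b * p * b⁻¹) e₄ e₂ c4
  have d2 := hjmon4perm_conj ρ b (b * p * b⁻¹) e₃ e₁ c2
  have d3 := hjmon4perm_conj ρ b (b * p * b⁻¹) e₁ e₃ c3
  rw [hF.be2, hb4] at d1
  rw [hb4, hF.be2] at d4
  rw [hF.be3, hF.be1] at d2
  rw [hF.be1, hF.be3] at d3
  -- d1 : e₃ → e₄, d4 : e₄ → e₃, d2 : e₁ → e₂, d3 : e₂ → e₁
  exact ⟨⟨_, hp'', d2, d3, d1, d4⟩, ⟨_, hp', c3, c2, c1, c4⟩, ⟨p, hp, p1, p4, p2, p3⟩⟩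

end Cfsg.Agent.Lib.Helper73.HJ
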