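import Mathlib
import Cfsg.Agent.Lib.Helper73.HJDefs
import Cfsg.Agent.Lib.Helper73.HJMon4Ind
import Cfsg.Agent.Lib.Helper73.HJMon4Sgn
import Cfsg.Agent.Lib.Helper73.HJMon4Diag
import Cfsg.Agent.Lib.Helper73.HJMon4Perm
import Cfsg.Agent.Lib.Helper73.HJMon4Span
import Cfsg.Agent.Lib.Helper73.HJMon4Inj

/-!
# Project HJ (S4415), piece Mon4

MON4: assemble the structure.
-/

set_option autoImplicit false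

namespace Cfsg.Agent.Lib.Helper73.HJ

variable {S : Type*} [Group S] [Finite S] {E : Type*} [AddCommGroup E] [Module (ZMod 3) E]
  [Finite E]

theorem hj_mon4 (ρ : Representation (ZMod 3) S E) (R Q : Subgroup S) (b : S) (hB : Base ρ R b) (hQR : Q ≤ R) (hQ : QType Q b) (q₁ q₂ q₃ : S) (e₁ e₂ e₃ : E) (hF : Frame ρ Q b q₁ q₂ q₃ e₁ e₂ e₃)
    (e₄ : E) (he4 : e₄ ≠ 0) (he4f : e₄ ∈ hjFix ρ Q) (hsh : ∀ r ∈ R, Sh4 ρ r e₁ e₂ e₃ e₄)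
    (hr4 : ∃ r ∈ R, ρ r e₄ = e₁ ∨ ρ r e₄ = -e₁) : Mono4 ρ R e₁ e₂ e₃ e₄ := by
  obtain ⟨h12, h13, h14⟩ :=
    hj_mon4perm ρ R Q b hB hQR hQ q₁ q₂ q₃ e₁ e₂ e₃ hF e₄ he4 he4f hsh hr4
  exact
    { span := hj_mon4span ρ R Q b hB hQR hQ q₁ q₂ q₃ e₁ e₂ e₃ hF e₄ he4 he4f hsh hr4
      indep := hj_mon4ind ρ Q b q₁ q₂ q₃ e₁ e₂ e₃ hF e₄ he4 he4f
      inj := hj_mon4inj ρ R Q b hB hQR hQ q₁ q₂ q₃ e₁ e₂ e₃ hF e₄ he4 he4f hsh hr4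
      shape := hj_mon4sgn ρ R Q b hB hQR hQ q₁ q₂ q₃ e₁ e₂ e₃ hF e₄ he4 he4f hsh hr4
      diag := hj_mon4diag ρ R Q b hB hQR hQ q₁ q₂ q₃ e₁ e₂ e₃ hF e₄ he4 he4f hsh hr4
      perm12 := h12
      perm13 := h13
      perm14 := h14 }

end Cfsg.Agent.Lib.Helper73.HJ
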