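import Mathlib
import Cfsg.Agent.Lib.Helper73.HJDefs
import Cfsg.Agent.Lib.Helper73.HJF0F1

/-!
# Project HJ (S4415), piece Primes

PRIMES: `g` of prime order `s` acts on the 81 vectors of `[E,R]`, not trivially (F0F1); its fixed vectors form a subspace of order `3^j`, `j ≤ 3`, and `s ∣ 81 - 3^j ∈ {80, 78, 72, 54}`, `s ≠ 3`.
(filled in by helper17)
-/

set_option autoImplicit false

namespace Cfsg.Agent.Lib.Helper73.HJ

variable {S : Type*} [Group S] [Finite S] {E : Type*} [AddCommGroup E] [Module (ZMod 3) E]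
  [Finite E]

theorem hjprimes_dvd_two {s k : ℕ} (hs : s.Prime) (h : s ∣ 2 ^ k) : s = 2 :=
  (Nat.prime_dvd_prime_iff_eq hs Nat.prime_two).mp (hs.dvd_of_dvd_pow h)

theorem hjprimes_dvd_three {s k : ℕ} (hs : s.Prime) (h : s ∣ 3 ^ k) : s = 3 :=
  (Nat.prime_dvd_prime_iff_eq hs Nat.prime_three).mp (hs.dvd_of_dvd_pow h)

theorem hjprimes_arith (s c : ℕ) (hs : s.Prime) (hs3 : s ≠ 3)
    (hc : c = 1 ∨ c = 3 ∨ c = 9 ∨ c = 27) (hd : s ∣ 81 - c) :
    s = 2 ∨ (s = 5 ∧ c = 1) ∨ (s = 13 ∧ c = 3) := by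
  rcases hc with rfl | rfl | rfl | rfl
  · have h1 : s ∣ 2 ^ 4 * 5 := by norm_num; exact hd
    rcases (Nat.Prime.dvd_mul hs).mp h1 with h | h
    · exact Or.inl (hjprimes_dvd_two hs h)
    · exact Or.inr (Or.inl ⟨(Nat.prime_dvd_prime_iff_eq hs (by norm_num)).mp h, rfl⟩)
  · have h1 : s ∣ 2 ^ 1 * (3 ^ 1 * 13) := by norm_num; exact hd
    rcases (Nat.Prime.dvd_mul hs).mp h1 with h | h
    · exact Or.inl (hjprimes_dvd_two hs h)
    · rcases (Nat.Prime.dvd_mul hs).mp h with h' | h'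
      · exact absurd (hjprimes_dvd_three hs h') hs3
      · exact Or.inr (Or.inr ⟨(Nat.prime_dvd_prime_iff_eq hs (by norm_num)).mp h', rfl⟩)
  · have h1 : s ∣ 2 ^ 3 * 3 ^ 2 := by norm_num; exact hd
    rcases (Nat.Prime.dvd_mul hs).mp h1 with h | h
    · exact Or.inl (hjprimes_dvd_two hs h)
    · exact absurd (hjprimes_dvd_three hs h) hs3
  · have h1 : s ∣ 2 ^ 1 * 3 ^ 3 := by norm_num; exact hd
    rcases (Nat.Prime.dvd_mul hs).mp h1 with h | h
    · exact Or.inl (hjprimes_dvd_two hs h)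
    · exact absurd (hjprimes_dvd_three hs h) hs3

/-- the stabilizer of a vector -/
def hjprimesStab (ρ : Representation (ZMod 3) S E) (v : E) : Subgroup S where
  carrier := {h | ρ h v = v}
  mul_mem' := by
    intro g h hg hh
    show ρ (g * h) v = v
    rw [hjf0f1_mul, (show ρ h v = v from hh), (show ρ g v = v from hg)]
  one_mem' := hjf0f1_one ρ v
  inv_mem' := by
    intro g hg
    show ρ g⁻¹ v = v
    calc ρ g⁻¹ v = ρ g⁻¹ (ρ g v) := by rw [(show ρ g v = v from hg)]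
      _ = ρ (g⁻¹ * g) v := (hjf0f1_mul ρ g⁻¹ g v).symm
      _ = v := by rw [inv_mul_cancel, hjf0f1_one]

theorem hjprimes_zmod3 : ∀ c : ZMod 3, c = 0 ∨ c = 1 ∨ c = -1 := by decide

theorem hj_primes (ρ : Representation (ZMod 3) S E) (R Q : Subgroup S) (b : S) (hB : Base ρ R b) (hQR : Q ≤ R) (hQ : QType Q b) (h81 : Nat.card (hjComm ρ R) = 81) (g : S) (hg : g ∈ R) (s : ℕ) (hs : s.Prime)
    (hord : orderOf g = s) :
    s = 2 ∨ (s = 5 ∧ ∀ v ∈ hjComm ρ R, ρ g v = v → v = 0) ∨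
      (s = 13 ∧ ∃ w ∈ hjComm ρ R, w ≠ 0 ∧ ∀ v ∈ hjComm ρ R, ρ g v = v → v = 0 ∨ v = w ∨ v = -w) := by
  classical
  obtain ⟨-, hinv, htriv⟩ := hj_f0f1 ρ R Q b hB hQR hQ
  have hgS : g ∈ R ⊔ Subgroup.zpowers b := Subgroup.mem_sup_left hg
  have hg1 : g ≠ 1 := by
    intro h
    rw [h, orderOf_one] at hord
    exact hs.ne_one hord.symm
  have hs3 : s ≠ 3 := by
    intro h3
    have hdvd : orderOf g ∣ Nat.card R := by
      have h1 := orderOf_dvd_natCard (⟨g, hg⟩ : R)
      rwa [Subgroup.orderOf_mk] at h1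
    rw [hord, h3] at hdvd
    have h2 := Nat.Coprime.eq_one_of_dvd hB.cop.symm hdvd
    omega
  -- the fixed subspace
  obtain ⟨Fx, hFx⟩ : ∃ Fx : Submodule (ZMod 3) E,
      Fx = hjComm ρ R ⊓ LinearMap.ker (ρ g - 1) := ⟨_, rfl⟩
  have hmemFx : ∀ v, v ∈ Fx ↔ v ∈ hjComm ρ R ∧ ρ g v = v := by
    intro v
    rw [hFx, Submodule.mem_inf, LinearMap.mem_ker, LinearMap.sub_apply, Module.End.one_apply,
      sub_eq_zero]
  have hFxle : Fx ≤ hjComm ρ R := by rw [hFx]; exact inf_le_left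
  have hdvd81 : Nat.card Fx ∣ 81 := by
    rw [← h81]
    exact AddSubgroup.card_dvd_of_le
      (show Fx.toAddSubgroup ≤ (hjComm ρ R).toAddSubgroup from hFxle)
  have hFxne : Nat.card Fx ≠ 81 := by
    intro h
    have heq : (Fx : Set E) = (hjComm ρ R : Set E) := by
      refine Set.eq_of_subset_of_ncard_le hFxle ?_ (Set.toFinite _)
      rw [← Nat.card_coe_set_eq, ← Nat.card_coe_set_eq]
      exact le_of_eq (h81.trans h.symm)
    apply hg1
    apply htriv g hgS
    intro v hv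
    have hv' : v ∈ Fx := by
      have h1 : v ∈ (hjComm ρ R : Set E) := hv
      rw [← heq] at h1
      exact h1
    exact ((hmemFx v).1 hv').2
  -- the action of `⟨g⟩` on `[E, R]`
  have hGinv : ∀ h ∈ Subgroup.zpowers g, ∀ v ∈ hjComm ρ R, ρ h v ∈ hjComm ρ R :=
    fun h hh => hinv h (Subgroup.mem_sup_left ((Subgroup.zpowers_le.mpr hg) hh))
  letI act : MulAction (Subgroup.zpowers g) (hjComm ρ R) :=
    { smul := fun h v => ⟨ρ (h : S) (v : E), hGinv h h.2 v v.2⟩
      one_smul := fun v => Subtype.ext (hjf0f1_one ρ v)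
      mul_smul := fun h k v => Subtype.ext (hjf0f1_mul ρ h k v) }
  have hsmul : ∀ (h : Subgroup.zpowers g) (v : hjComm ρ R),
      ((h • v : hjComm ρ R) : E) = ρ (h : S) (v : E) := fun h v => rfl
  haveI : Fact s.Prime := ⟨hs⟩
  have hp : IsPGroup s (Subgroup.zpowers g) :=
    IsPGroup.of_card (n := 1) (by rw [Nat.card_zpowers, hord, pow_one])
  have hcount := hp.card_modEq_card_fixedPoints (hjComm ρ R)
  have hfixcard : Nat.card (MulAction.fixedPoints (Subgroup.zpowers g) (hjComm ρ R))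
      = Nat.card Fx := by
    refine Nat.card_congr
      { toFun := fun v => ⟨(v.1 : E), (hmemFx _).2 ⟨v.1.2, by
          have h1 := v.2 ⟨g, Subgroup.mem_zpowers g⟩
          have h2 := congrArg Subtype.val h1
          rw [hsmul] at h2
          exact h2⟩⟩
        invFun := fun w => ⟨⟨(w : E), ((hmemFx _).1 w.2).1⟩, by
          intro h
          apply Subtype.ext
          rw [hsmul]
          have h3 : Subgroup.zpowers g ≤ hjprimesStab ρ (w : E) := by
            rw [Subgroup.zpowers_le]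
            exact ((hmemFx _).1 w.2).2
          exact h3 h.2⟩
        left_inv := fun v => rfl
        right_inv := fun w => rfl }
  rw [h81, hfixcard] at hcount
  -- the possible cardinalities
  have hc : Nat.card Fx = 1 ∨ Nat.card Fx = 3 ∨ Nat.card Fx = 9 ∨ Nat.card Fx = 27 := by
    have h1 : Nat.card Fx ∣ 3 ^ 4 := by norm_num; exact hdvd81
    obtain ⟨j, hj, hj'⟩ := (Nat.dvd_prime_pow Nat.prime_three).mp h1
    interval_cases j
    · left; rw [hj']; norm_num
    · right; left; rw [hj']; norm_num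
    · right; right; left; rw [hj']; norm_num
    · right; right; right; rw [hj']; norm_num
    · exfalso; apply hFxne; rw [hj']; norm_num
  have hle : Nat.card Fx ≤ 81 := Nat.le_of_dvd (by norm_num) hdvd81
  have hd : s ∣ 81 - Nat.card Fx := (Nat.modEq_iff_dvd' hle).mp hcount.symm
  rcases hjprimes_arith s (Nat.card Fx) hs hs3 hc hd with h | ⟨h5, hc1⟩ | ⟨h13, hc3⟩
  · exact Or.inl h
  · refine Or.inr (Or.inl ⟨h5, ?_⟩)
    intro v hv hgv
    have hsub : Subsingleton Fx := (Nat.card_eq_one_iff_unique.mp hc1).1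
    have h1 : (⟨v, (hmemFx v).2 ⟨hv, hgv⟩⟩ : Fx) = 0 := Subsingleton.elim _ _
    exact congrArg Subtype.val h1
  · refine Or.inr (Or.inr ⟨h13, ?_⟩)
    have hnb : Fx ≠ ⊥ := by
      intro hb
      rw [hb] at hc3
      simp at hc3
    obtain ⟨w, hw, hw0⟩ := Submodule.exists_mem_ne_zero_of_ne_bot hnb
    refine ⟨w, ((hmemFx w).1 hw).1, hw0, ?_⟩
    intro v hv hgv
    have hinj : Function.Injective (fun c : ZMod 3 => (⟨c • w, Fx.smul_mem c hw⟩ : Fx)) := by
      intro c c' hcc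
      have h1 : c • w = c' • w := congrArg Subtype.val hcc
      have h2 : (c - c') • w = 0 := by rw [sub_smul, h1, sub_self]
      rcases smul_eq_zero.mp h2 with h | h
      · exact sub_eq_zero.mp h
      · exact absurd h hw0
    have hbij : Function.Bijective (fun c : ZMod 3 => (⟨c • w, Fx.smul_mem c hw⟩ : Fx)) := by
      rw [Nat.bijective_iff_injective_and_card]
      refine ⟨hinj, ?_⟩
      rw [hc3, Nat.card_zmod]
    obtain ⟨c, hcv⟩ := hbij.2 ⟨v, (hmemFx v).2 ⟨hv, hgv⟩⟩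
    have hcv' : c • w = v := congrArg Subtype.val hcv
    rcases hjprimes_zmod3 c with rfl | rfl | rfl
    · left; rw [← hcv', zero_smul]
    · right; left; rw [← hcv', one_smul]
    · right; right; rw [← hcv', neg_one_smul]

end Cfsg.Agent.Lib.Helper73.HJ
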