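import Mathlib
import Cfsg.Agent.Lib.Helper73.HJDefs
import Cfsg.Agent.Lib.Helper73.HJCyc
import Cfsg.Agent.Lib.Helper73.HJLines
import Cfsg.Agent.Lib.Helper73.HJFFIndep
import Cfsg.Agent.Lib.Helper73.HJFFNe

/-!
# Project HJ (S4415), piece Struct

STRUCT: apply CYC to `Γ = S`, `X = Submodule (ZMod 3) E`, `act g L = L.map (ρ g)`, `N = R`, `c = b`, `x_i = span {e_i}`. `hcfix`: by LINES a line `span {ρ n e_i}` not among the `x_j` is spanned by a vector of `C_E(Q)`, fixed by `b` (`bfix`). Second alternative: `e₄ = ρ n⁻¹ e₁` where `act n x₄ = x₁`; `e₄ ∈ C_E(Q)` by LINES.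
-/

set_option autoImplicit false

namespace Cfsg.Agent.Lib.Helper73.HJ

variable {S : Type*} [Group S] [Finite S] {E : Type*} [AddCommGroup E] [Module (ZMod 3) E]
  [Finite E]

theorem hj_struct (ρ : Representation (ZMod 3) S E) (R Q : Subgroup S) (b : S) (hB : Base ρ R b) (hQR : Q ≤ R) (hQ : QType Q b) (hC : Comm R Q) (q₁ q₂ q₃ : S) (e₁ e₂ e₃ : E) (hF : Frame ρ Q b q₁ q₂ q₃ e₁ e₂ e₃) :
    (∀ r ∈ R, (ρ r e₁ = e₁ ∨ ρ r e₁ = -e₁) ∧ (ρ r e₂ = e₂ ∨ ρ r e₂ = -e₂) ∧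
      (ρ r e₃ = e₃ ∨ ρ r e₃ = -e₃)) ∨
    ∃ e₄ : E, e₄ ≠ 0 ∧ e₄ ∈ hjFix ρ Q ∧ (∀ r ∈ R, Sh4 ρ r e₁ e₂ e₃ e₄) ∧
      ∃ r ∈ R, ρ r e₄ = e₁ ∨ ρ r e₄ = -e₁ := by
  classical
  obtain ⟨hne2, hne3, -, -, -, -, -, -, -, -, -⟩ := hj_ff_ne ρ Q b q₁ q₂ q₃ e₁ e₂ e₃ hF
  have hindep := hj_ff_indep ρ Q b q₁ q₂ q₃ e₁ e₂ e₃ hF
  have hlines := hj_lines ρ R Q b hB hQR hQ hC q₁ q₂ q₃ e₁ e₂ e₃ hF
  have hinv : ∀ (g : S) (v : E), ρ g⁻¹ (ρ g v) = v := by
    intro g v
    rw [← Module.End.mul_apply, ← map_mul, inv_mul_cancel, map_one, Module.End.one_apply]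
  have hinv' : ∀ (g : S) (v : E), ρ g (ρ g⁻¹ v) = v := by
    intro g v
    rw [← Module.End.mul_apply, ← map_mul, mul_inv_cancel, map_one, Module.End.one_apply]
  have hnz : ∀ (g : S) (v : E), v ≠ 0 → ρ g v ≠ 0 := by
    intro g v hv h0
    apply hv
    have := hinv g v
    rw [h0, map_zero] at this
    exact this.symm
  have h1 : ∀ x : Submodule (ZMod 3) E, Submodule.map (ρ 1) x = x := by
    intro x
    rw [map_one]
    exact Submodule.map_id x
  have hmul : ∀ (g h : S) (x : Submodule (ZMod 3) E),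
      Submodule.map (ρ (g * h)) x = Submodule.map (ρ g) (Submodule.map (ρ h) x) := by
    intro g h x
    rw [map_mul, Module.End.mul_eq_comp, Submodule.map_comp]
  have hactL : ∀ (g : S) (e : E), Submodule.map (ρ g) (Submodule.span (ZMod 3) {e}) =
      Submodule.span (ZMod 3) {ρ g e} := by
    intro g e
    rw [Submodule.map_span, Set.image_singleton]
  -- a nonzero vector spanning the same line is `± e`
  have hA : ∀ (u e : E), u ≠ 0 → Submodule.span (ZMod 3) {u} = Submodule.span (ZMod 3) {e} →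
      ∃ s : ZMod 3, s * s = 1 ∧ u = s • e := by
    intro u e hu h
    have hmem : u ∈ Submodule.span (ZMod 3) {e} := by
      rw [← h]; exact Submodule.mem_span_singleton_self u
    obtain ⟨c, hc⟩ := Submodule.mem_span_singleton.mp hmem
    refine ⟨c, ?_, hc.symm⟩
    have hc0 : c ≠ 0 := by
      rintro rfl
      rw [zero_smul] at hc
      exact hu hc.symm
    revert hc0
    generalize c = c'
    revert c'
    decide
  have hA' : ∀ (u e : E), u ≠ 0 → Submodule.span (ZMod 3) {u} = Submodule.span (ZMod 3) {e} →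
      u = e ∨ u = -e := by
    intro u e hu h
    obtain ⟨s, hs, rfl⟩ := hA u e hu h
    have : s = 1 ∨ s = -1 := by
      revert hs
      generalize s = s'
      revert s'
      decide
    rcases this with rfl | rfl
    · left; rw [one_smul]
    · right; rw [neg_smul, one_smul]
  have hBneg : ∀ e : E, Submodule.span (ZMod 3) {-e} = Submodule.span (ZMod 3) {e} := by
    intro e
    have := Submodule.span_singleton_smul_eq (R := ZMod 3) (isUnit_one.neg) e
    rwa [neg_smul, one_smul] at this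
  have hb3 := hB.b3
  have hbinv : b⁻¹ = b * b := by
    apply inv_eq_of_mul_eq_one_right
    rw [← mul_assoc, ← pow_two, ← pow_succ]
    exact hb3
  have hcN' : ∀ n ∈ R, b⁻¹ * n * b ∈ R := by
    intro n hn
    have h := hB.nR _ (hB.nR n hn)
    have hinv2 : b⁻¹ * b⁻¹ = b := by rw [← mul_inv_rev, ← hbinv, inv_inv]
    have e : b⁻¹ * n * b = b * (b * n * b⁻¹) * b⁻¹ := by
      have e0 : b * (b * n * b⁻¹) * b⁻¹ = (b * b) * n * (b⁻¹ * b⁻¹) := by group
      rw [e0, ← hbinv, hinv2]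
    rw [e]; exact h
  -- distinctness of the three lines
  have hd : ∀ (u e : E), u ≠ 0 → (u = e ∨ u = -e → False) →
      Submodule.span (ZMod 3) {u} ≠ Submodule.span (ZMod 3) {e} := by
    intro u e hu hf h
    exact hf (hA' u e hu h)
  have z0 : (0 : E) ∈ hjFix ρ Q := (hjFix ρ Q).zero_mem
  have h12 : Submodule.span (ZMod 3) {e₁} ≠ Submodule.span (ZMod 3) {e₂} := by
    apply hd _ _ hF.e0
    rintro (h | h)
    · have := hindep 0 z0 1 (-1) 0 (by rw [h]; simp)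
      exact one_ne_zero this.2.1
    · have := hindep 0 z0 1 1 0 (by rw [h]; simp)
      exact one_ne_zero this.2.1
  have h13 : Submodule.span (ZMod 3) {e₁} ≠ Submodule.span (ZMod 3) {e₃} := by
    apply hd _ _ hF.e0
    rintro (h | h)
    · have := hindep 0 z0 1 0 (-1) (by rw [h]; simp)
      exact one_ne_zero this.2.1
    · have := hindep 0 z0 1 0 1 (by rw [h]; simp)
      exact one_ne_zero this.2.1
  have h23 : Submodule.span (ZMod 3) {e₂} ≠ Submodule.span (ZMod 3) {e₃} := by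
    apply hd _ _ hne2
    rintro (h | h)
    · have := hindep 0 z0 0 1 (-1) (by rw [h]; simp)
      exact one_ne_zero this.2.2.1
    · have := hindep 0 z0 0 1 1 (by rw [h]; simp)
      exact one_ne_zero this.2.2.1
  -- a line through `ρ n e_i` is one of the three lines or is fixed by `b`
  have hcfix : ∀ n ∈ R, ∀ x : Submodule (ZMod 3) E,
      (x = Submodule.span (ZMod 3) {e₁} ∨ x = Submodule.span (ZMod 3) {e₂} ∨
        x = Submodule.span (ZMod 3) {e₃}) →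
      Submodule.map (ρ n) x ≠ Submodule.span (ZMod 3) {e₁} →
      Submodule.map (ρ n) x ≠ Submodule.span (ZMod 3) {e₂} →
      Submodule.map (ρ n) x ≠ Submodule.span (ZMod 3) {e₃} →
      Submodule.map (ρ b) (Submodule.map (ρ n) x) = Submodule.map (ρ n) x := by
    intro n hn x hx k1 k2 k3
    have key : ∀ e : E, (e = e₁ ∨ e = e₂ ∨ e = e₃) → x = Submodule.span (ZMod 3) {e} →
        Submodule.map (ρ b) (Submodule.map (ρ n) x) = Submodule.map (ρ n) x := by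
      intro e he hxe
      rw [hxe, hactL] at k1 k2 k3 ⊢
      rcases hlines n hn e he with h | h | h | h | h | h | h
      · rw [hactL, hF.bfix _ h]
      · exact absurd (by rw [h]) k1
      · exact absurd (by rw [h, hBneg]) k1
      · exact absurd (by rw [h]) k2
      · exact absurd (by rw [h, hBneg]) k2
      · exact absurd (by rw [h]) k3
      · exact absurd (by rw [h, hBneg]) k3
    rcases hx with h | h | h
    · exact key e₁ (Or.inl rfl) h
    · exact key e₂ (Or.inr (Or.inl rfl)) h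
    · exact key e₃ (Or.inr (Or.inr rfl)) h
  have hcyc := hj_cyc (Γ := S) (X := Submodule (ZMod 3) E) (fun g L => Submodule.map (ρ g) L)
    h1 hmul R hB.cop b hB.nR hcN' (Submodule.span (ZMod 3) {e₁}) (Submodule.span (ZMod 3) {e₂})
    (Submodule.span (ZMod 3) {e₃}) h12 h13 h23 (by rw [hactL, hF.be1]) (by rw [hactL, hF.be2])
    (by rw [hactL, hF.be3]) hcfix
  rcases hcyc with hall | ⟨x₄, hx41, hx42, hx43, hV, n₀, hn₀, hn₀x⟩
  · left
    intro r hr
    obtain ⟨a1, a2, a3⟩ := hall r hr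
    simp only [hactL] at a1 a2 a3
    exact ⟨hA' _ _ (hnz r _ hF.e0) a1, hA' _ _ (hnz r _ hne2) a2, hA' _ _ (hnz r _ hne3) a3⟩
  · right
    have hx4 : x₄ = Submodule.span (ZMod 3) {ρ n₀⁻¹ e₁} := by
      have h := congrArg (Submodule.map (ρ n₀⁻¹)) hn₀x
      rw [← hmul, inv_mul_cancel, h1, hactL] at h
      exact h
    have he4 : ρ n₀⁻¹ e₁ ≠ 0 := hnz _ _ hF.e0
    refine ⟨ρ n₀⁻¹ e₁, he4, ?_, ?_, n₀, hn₀, Or.inl (hinv' n₀ e₁)⟩
    · rcases hlines n₀⁻¹ (R.inv_mem hn₀) e₁ (Or.inl rfl) with h | h | h | h | h | h | h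
      · exact h
      · exact absurd (by rw [hx4, h]) hx41
      · exact absurd (by rw [hx4, h, hBneg]) hx41
      · exact absurd (by rw [hx4, h]) hx42
      · exact absurd (by rw [hx4, h, hBneg]) hx42
      · exact absurd (by rw [hx4, h]) hx43
      · exact absurd (by rw [hx4, h, hBneg]) hx43
    · intro r hr
      have hv := hV r hr
      rw [hx4] at hv
      simp only [V4, hactL] at hv
      have n1 := hnz r _ hF.e0
      have n2 := hnz r _ hne2
      have n3 := hnz r _ hne3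
      have n4 := hnz r _ he4
      rcases hv with ⟨a1, a2, a3, a4⟩ | ⟨a1, a2, a3, a4⟩ | ⟨a1, a2, a3, a4⟩ | ⟨a1, a2, a3, a4⟩
      · obtain ⟨s₁, hs1, k1⟩ := hA _ _ n1 a1
        obtain ⟨s₂, hs2, k2⟩ := hA _ _ n2 a2
        obtain ⟨s₃, hs3, k3⟩ := hA _ _ n3 a3
        obtain ⟨s₄, hs4, k4⟩ := hA _ _ n4 a4
        exact ⟨s₁, s₂, s₃, s₄, hs1, hs2, hs3, hs4, Or.inl ⟨k1, k2, k3, k4⟩⟩
      · obtain ⟨s₁, hs1, k1⟩ := hA _ _ n1 a1
        obtain ⟨s₂, hs2, k2⟩ := hA _ _ n2 a2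
        obtain ⟨s₃, hs3, k3⟩ := hA _ _ n3 a3
        obtain ⟨s₄, hs4, k4⟩ := hA _ _ n4 a4
        exact ⟨s₁, s₂, s₃, s₄, hs1, hs2, hs3, hs4, Or.inr (Or.inl ⟨k1, k2, k3, k4⟩)⟩
      · obtain ⟨s₁, hs1, k1⟩ := hA _ _ n1 a1
        obtain ⟨s₃, hs3, k3⟩ := hA _ _ n3 a2
        obtain ⟨s₂, hs2, k2⟩ := hA _ _ n2 a3
        obtain ⟨s₄, hs4, k4⟩ := hA _ _ n4 a4
        exact ⟨s₁, s₂, s₃, s₄, hs1, hs2, hs3, hs4, Or.inr (Or.inr (Or.inl ⟨k1, k3, k2, k4⟩))⟩
      · obtain ⟨s₁, hs1, k1⟩ := hA _ _ n1 a1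
        obtain ⟨s₄, hs4, k4⟩ := hA _ _ n4 a2
        obtain ⟨s₂, hs2, k2⟩ := hA _ _ n2 a3
        obtain ⟨s₃, hs3, k3⟩ := hA _ _ n3 a4
        exact ⟨s₁, s₂, s₃, s₄, hs1, hs2, hs3, hs4, Or.inr (Or.inr (Or.inr ⟨k1, k4, k2, k3⟩))⟩

end Cfsg.Agent.Lib.Helper73.HJ
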