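import Mathlib
import Cfsg.Agent.Lib.Helper73.HJDefs
import Cfsg.Agent.Lib.Helper73.HJGLB
import Cfsg.Agent.Lib.Helper73.HJPrimes

/-!
# Project HJ (S4415), piece Syl5T

SYL5T: a 5-subgroup of `R` has order dividing `24261120 = 2^9·3^6·5·13` (GLB), so order 1 or 5.
-/

set_option autoImplicit false

namespace Cfsg.Agent.Lib.Helper73.HJ

variable {S : Type*} [Group S] [Finite S] {E : Type*} [AddCommGroup E] [Module (ZMod 3) E]
  [Finite E]

theorem hj_syl5t (ρ : Representation (ZMod 3) S E) (R Q : Subgroup S) (b : S) (hB : Base ρ R b) (hQR : Q ≤ R) (hQ : QType Q b) (h81 : Nat.card (hjComm ρ R) = 81) (T : Subgroup S) (hTR : T ≤ R) (hT : IsPGroup 5 ↥T) :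
    Nat.card T ∣ 5 := by
  haveI : Fact (Nat.Prime 5) := ⟨by norm_num⟩
  have h1 := hj_glb ρ R Q b hB hQR hQ h81 T hTR
  obtain ⟨k, hk⟩ := IsPGroup.iff_card.mp hT
  rw [hk] at h1 ⊢
  have hk1 : k ≤ 1 := by
    by_contra hcon
    have hk2 : 2 ≤ k := by omega
    have h25 : 5 ^ 2 ∣ 24261120 := dvd_trans (pow_dvd_pow 5 hk2) h1
    norm_num at h25
  interval_cases k <;> norm_num

end Cfsg.Agent.Lib.Helper73.HJ
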