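import Mathlib
import Cfsg.Agent.Lib.Helper73.HJDefs
import Cfsg.Agent.Lib.Helper73.HJSyl5T

/-!
# Project HJ (S4415), piece Syl5A

SYL5A: the number of Sylow 5-subgroups of `R` (all of order 5 by SYL5T) divides `|R|`, so is prime to 3; `b` permutes them, so fixes one, `T`; `b` permutes the 4 nonidentity elements of `T`, so fixes one.
-/

set_option autoImplicit false

namespace Cfsg.Agent.Lib.Helper73.HJ

open scoped Pointwise

variable {S : Type*} [Group S] [Finite S] {E : Type*} [AddCommGroup E] [Module (ZMod 3) E]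
  [Finite E]

/-- conjugation by `b` as an automorphism of `R` -/
def hjsyl5a_conj {S : Type*} [Group S] (R : Subgroup S) (b : S) (h1 : ∀ r ∈ R, b * r * b⁻¹ ∈ R)
    (h2 : ∀ r ∈ R, b⁻¹ * r * b ∈ R) : MulAut ↥R where
  toFun r := ⟨b * r * b⁻¹, h1 r r.2⟩
  invFun r := ⟨b⁻¹ * r * b, h2 r r.2⟩
  left_inv r := Subtype.ext (by
    show b⁻¹ * (b * (r : S) * b⁻¹) * b = (r : S)
    group)
  right_inv r := Subtype.ext (by
    show b * (b⁻¹ * (r : S) * b) * b⁻¹ = (r : S)
    group)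
  map_mul' r s := Subtype.ext (by
    show b * ((r : S) * (s : S)) * b⁻¹ = (b * (r : S) * b⁻¹) * (b * (s : S) * b⁻¹)
    group)

theorem hj_syl5a (ρ : Representation (ZMod 3) S E) (R Q : Subgroup S) (b : S) (hB : Base ρ R b) (hQR : Q ≤ R) (hQ : QType Q b) (h81 : Nat.card (hjComm ρ R) = 81) (g : S) (hg : g ∈ R) (hord : orderOf g = 5) :
    ∃ g' ∈ R, orderOf g' = 5 ∧ b * g' * b⁻¹ = g'  := by
  classical
  have hb3 : b * b * b = 1 := by
    have h := hB.b3
    rw [pow_succ, pow_succ, pow_one] at h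
    exact h
  have hbinv : b⁻¹ = b * b := by
    apply inv_eq_of_mul_eq_one_right
    rw [← mul_assoc]; exact hb3
  have hb' : b = b⁻¹ * b⁻¹ := by
    rw [← mul_inv_rev, ← hbinv, inv_inv]
  have h2 : ∀ r ∈ R, b⁻¹ * r * b ∈ R := by
    intro r hr
    have h := hB.nR _ (hB.nR r hr)
    have e : b * (b * r * b⁻¹) * b⁻¹ = b⁻¹ * r * b := by
      calc b * (b * r * b⁻¹) * b⁻¹ = (b * b) * r * (b⁻¹ * b⁻¹) := by group
        _ = b⁻¹ * r * b := by rw [← hbinv, ← hb']
    rw [e] at h; exact h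
  obtain ⟨β, hβ⟩ : ∃ β : MulAut ↥R, ∀ r : ↥R, ((β r : ↥R) : S) = b * r * b⁻¹ :=
    ⟨hjsyl5a_conj R b hB.nR h2, fun r => rfl⟩
  have hβ3' : ∀ r : ↥R, β (β (β r)) = r := by
    intro r
    apply Subtype.ext
    rw [hβ, hβ, hβ]
    calc b * (b * (b * (r : S) * b⁻¹) * b⁻¹) * b⁻¹ = (b * b * b) * (r : S) * (b * b * b)⁻¹ := by
          group
      _ = (r : S) := by rw [hb3, one_mul, inv_one, mul_one]
  have hβ3 : β ^ 3 = 1 := by
    apply MulEquiv.ext
    intro r
    simp only [pow_succ, pow_zero, one_mul, MulAut.mul_apply, MulAut.one_apply]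
    exact hβ3' r
  haveI : Fact (Nat.Prime 5) := ⟨by norm_num⟩
  haveI : Fact (Nat.Prime 3) := ⟨Nat.prime_three⟩
  haveI : Fintype (Sylow 5 ↥R) := Fintype.ofFinite _
  have hn5 : ¬ 3 ∣ Fintype.card (Sylow 5 ↥R) := by
    intro h3
    obtain ⟨P0⟩ : Nonempty (Sylow 5 ↥R) := inferInstance
    have h1 : Nat.card (Sylow 5 ↥R) ∣ Nat.card ↥R :=
      (Sylow.card_dvd_index P0).trans (Subgroup.index_dvd_card _)
    rw [Nat.card_eq_fintype_card] at h1
    have h3R : 3 ∣ Nat.card ↥R := h3.trans h1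
    have h4 : 3 ∣ Nat.gcd (Nat.card ↥R) 3 := Nat.dvd_gcd h3R dvd_rfl
    rw [Nat.Coprime.gcd_eq_one hB.cop] at h4
    omega
  obtain ⟨P, hP⟩ := Equiv.Perm.exists_fixed_point_of_prime (p := 3) (n := 1) hn5
    (σ := MulAction.toPerm β) (by
      rw [pow_one, ← MulAction.toPermHom_apply (MulAut ↥R) (Sylow 5 ↥R), ← map_pow, hβ3, map_one])
  have hPfix : β • P = P := hP
  have h5R : 5 ∣ Nat.card ↥R := by
    have h := orderOf_dvd_natCard (⟨g, hg⟩ : ↥R)
    rw [Subgroup.orderOf_mk, hord] at h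
    exact h
  have hPne : (P : Subgroup ↥R) ≠ ⊥ := P.ne_bot_of_dvd_card h5R
  have hPcard : Nat.card (P : Subgroup ↥R) = 5 := by
    have h1 := hj_syl5t ρ R Q b hB hQR hQ h81 ((P : Subgroup ↥R).map R.subtype)
      (Subgroup.map_subtype_le _) (P.isPGroup'.map _)
    rw [Subgroup.card_map_of_injective (Subgroup.subtype_injective R)] at h1
    rcases (Nat.dvd_prime (by norm_num : Nat.Prime 5)).mp h1 with h | h
    · exact absurd (Subgroup.card_eq_one.mp h) hPne
    · exact h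
  obtain ⟨x, hxP, hx1⟩ : ∃ x : ↥R, x ∈ (P : Subgroup ↥R) ∧ x ≠ 1 := by
    by_contra hcon
    apply hPne
    rw [Subgroup.eq_bot_iff_forall]
    intro x hx
    by_contra hx1
    exact hcon ⟨x, hx, hx1⟩
  have hxord : orderOf x = 5 := by
    have h1 : orderOf x ∣ 5 := hPcard ▸ Subgroup.orderOf_dvd_natCard _ hxP
    rcases (Nat.dvd_prime (by norm_num : Nat.Prime 5)).mp h1 with h | h
    · exact absurd (orderOf_eq_one_iff.mp h) hx1
    · exact h
  have hzp : Subgroup.zpowers x = (P : Subgroup ↥R) := by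
    apply Subgroup.eq_of_le_of_card_ge ((Subgroup.zpowers_le).mpr hxP)
    rw [hPcard, Nat.card_zpowers, hxord]
  have hβx : β x ∈ (P : Subgroup ↥R) := by
    have h1 : β • x ∈ β • (P : Subgroup ↥R) := Subgroup.smul_mem_pointwise_smul x β _ hxP
    have h2' : (β • (P : Subgroup ↥R)) = ((β • P : Sylow 5 ↥R) : Subgroup ↥R) := rfl
    rw [h2', hPfix] at h1
    exact h1
  rw [← hzp] at hβx
  obtain ⟨j, hj⟩ := (Submonoid.mem_powers_iff _ _).mp (mem_powers_iff_mem_zpowers.mpr hβx)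
  have e1 : β (β x) = x ^ (j * j) := by rw [← hj, map_pow, ← hj, ← pow_mul]
  have e2 : β (β (β x)) = x ^ (j * (j * j)) := by rw [e1, map_pow, ← hj, ← pow_mul]
  rw [hβ3' x] at e2
  have hmod : j * (j * j) ≡ 1 [MOD 5] := by
    rw [← hxord]
    apply pow_eq_pow_iff_modEq.mp
    rw [pow_one]; exact e2.symm
  have hjm : j % 5 = 1 := by
    have h : (j * (j * j)) % 5 = 1 % 5 := hmod
    have hlt : j % 5 < 5 := Nat.mod_lt _ (by norm_num)
    rw [Nat.mul_mod, Nat.mul_mod j j] at h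
    obtain ⟨m, hm⟩ : ∃ m, m = j % 5 := ⟨_, rfl⟩
    rw [← hm] at h hlt ⊢
    interval_cases m <;> first | rfl | (exfalso; revert h; decide)
  have hfix : β x = x := by rw [← hj, ← pow_mod_orderOf, hxord, hjm, pow_one]
  refine ⟨(x : S), x.2, ?_, ?_⟩
  · rw [Subgroup.orderOf_coe]; exact hxord
  · have h := congrArg Subtype.val hfix
    rw [hβ] at h
    exact h

end Cfsg.Agent.Lib.Helper73.HJ
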