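import Mathlib
import Cfsg.Agent.Lib.Helper73.HJDefs
import Cfsg.Agent.Lib.Helper73.HJSyl5A
import Cfsg.Agent.Lib.Helper73.HJPrimes
import Cfsg.Agent.Lib.Helper73.HJF0F1
import Cfsg.Agent.Lib.Helper73.HJDecomp

/-!
# Project HJ (S4415), piece Syl5

SYL5: by SYL5A some `g'` of order 5 commutes with `b`, so preserves `I = range (ρ b - 1)` (9 elements), and `I ≤ [E,R]` (DECOMP, F0F1: `b` is trivial on `C_E(R)`). `g'` has no nonzero fixed vector in `[E,R]` (PRIMES), so `5 ∣ 8`.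
-/

set_option autoImplicit false

namespace Cfsg.Agent.Lib.Helper73.HJ

variable {S : Type*} [Group S] [Finite S] {E : Type*} [AddCommGroup E] [Module (ZMod 3) E]
  [Finite E]

theorem hj_syl5 (ρ : Representation (ZMod 3) S E) (R Q : Subgroup S) (b : S) (hB : Base ρ R b) (hQR : Q ≤ R) (hQ : QType Q b) (h81 : Nat.card (hjComm ρ R) = 81) (g : S) (hg : g ∈ R) (hord : orderOf g = 5) : False := by
  classical
  obtain ⟨g', hg'R, hg'5, hcomm⟩ := hj_syl5a ρ R Q b hB hQR hQ h81 g hg hord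
  have hbg : g' * b = b * g' := (mul_inv_eq_iff_eq_mul.mp hcomm).symm
  obtain ⟨hb0, hbinv, -⟩ := hj_f0f1 ρ R Q b hB hQR hQ
  obtain ⟨-, hsup⟩ := hj_decomp ρ R hB.cop
  have hfix : ∀ v ∈ hjComm ρ R, ρ g' v = v → v = 0 := by
    rcases hj_primes ρ R Q b hB hQR hQ h81 g' hg'R 5 (by norm_num) hg'5 with h | ⟨-, h⟩ | ⟨h, -⟩
    · exact absurd h (by norm_num)
    · exact h
    · exact absurd h (by norm_num)
  have hIle : ∀ w ∈ LinearMap.range (ρ b - 1), w ∈ hjComm ρ R := by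
    rintro w ⟨v, rfl⟩
    have hv : v ∈ hjFix ρ R ⊔ hjComm ρ R := by rw [hsup]; exact Submodule.mem_top
    obtain ⟨v₀, hv₀, v₁, hv₁, rfl⟩ := Submodule.mem_sup.mp hv
    have e : (ρ b - 1) (v₀ + v₁) = ρ b v₁ - v₁ := by
      rw [LinearMap.sub_apply, Module.End.one_apply, map_add, hb0 v₀ hv₀]
      abel
    rw [e]
    exact Submodule.sub_mem _
      (hbinv b (Subgroup.mem_sup_right (Subgroup.mem_zpowers b)) v₁ hv₁) hv₁
  have hIinv : ∀ w ∈ LinearMap.range (ρ b - 1), ρ g' w ∈ LinearMap.range (ρ b - 1) := by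
    rintro w ⟨v, rfl⟩
    refine ⟨ρ g' v, ?_⟩
    rw [LinearMap.sub_apply, LinearMap.sub_apply, Module.End.one_apply, Module.End.one_apply,
      map_sub, ← hjf0f1_mul, ← hjf0f1_mul, hbg]
  have hFin : Fintype ↥(LinearMap.range (ρ b - 1)) := Fintype.ofFinite _
  obtain ⟨f, hf⟩ : ∃ f : Function.End ↥(LinearMap.range (ρ b - 1)),
      ∀ w, ((f w : ↥(LinearMap.range (ρ b - 1))) : E) = ρ g' w.1 :=
    ⟨fun w => ⟨ρ g' w.1, hIinv w.1 w.2⟩, fun _ => rfl⟩
  have hpow : ∀ n : ℕ, ∀ w : ↥(LinearMap.range (ρ b - 1)),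
      (((f ^ n) w : ↥(LinearMap.range (ρ b - 1))) : E) = ρ (g' ^ n) w.1 := by
    intro n
    induction n with
    | zero =>
      intro w
      rw [pow_zero, pow_zero, hjf0f1_one]
      rfl
    | succ n ih =>
      intro w
      rw [pow_succ, pow_succ, hjf0f1_mul, ← hf w]
      exact ih (f w)
  have hf5 : f ^ 5 ^ 1 = 1 := by
    rw [pow_one]
    funext w
    apply Subtype.ext
    rw [hpow 5 w, ← hg'5, pow_orderOf_eq_one, hjf0f1_one]
    rfl
  have hP5 : Fact (Nat.Prime 5) := ⟨by norm_num⟩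
  have hmod := Equiv.Perm.card_fixedPoints_modEq (f := f) (p := 5) (n := 1) hf5
  have hc9 : ∀ inst : Fintype ↥(LinearMap.range (ρ b - 1)), @Fintype.card _ inst = 9 := by
    intro inst
    rw [← Nat.card_eq_fintype_card]
    exact hB.rank
  have hc1 : ∀ inst : Fintype ↥(Function.fixedPoints f), @Fintype.card _ inst = 1 := by
    intro inst
    rw [Fintype.card_eq_one_iff]
    have h0 : f 0 = 0 := by
      apply Subtype.ext
      rw [hf 0]
      exact map_zero _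
    refine ⟨⟨0, h0⟩, ?_⟩
    rintro ⟨w, hw⟩
    apply Subtype.ext
    apply Subtype.ext
    have h1 : f w = w := hw
    have h2 : ρ g' (w : E) = w := by rw [← hf w, h1]
    exact hfix _ (hIle w.1 w.2) h2
  rw [hc9, hc1] at hmod
  exact absurd hmod (by decide)

end Cfsg.Agent.Lib.Helper73.HJ
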