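import Mathlib
import Cfsg.Agent.Lib.Helper73.HJDefs
import Cfsg.Agent.Lib.Helper73.HJGLB

/-!
# Project HJ (S4415), piece Th13A

TH13A: `A` is a 2-group (`a^4 = 1`) of order dividing `24261120` (GLB), so `|A| ≤ 2^9`. `g` (order 13) normalizes `A`; `|A| ≡ |C_A(g)| mod 13` with both powers of 2, `2^k ≡ 1 mod 13` iff `12 ∣ k`: `C_A(g) = A`.
-/

set_option autoImplicit false

namespace Cfsg.Agent.Lib.Helper73.HJ

variable {S : Type*} [Group S] [Finite S] {E : Type*} [AddCommGroup E] [Module (ZMod 3) E]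
  [Finite E]

theorem hj_th13a (ρ : Representation (ZMod 3) S E) (R Q : Subgroup S) (b : S) (hB : Base ρ R b) (hQR : Q ≤ R) (hQ : QType Q b) (z : S) (hz : ZCen ρ R b z) (A : Subgroup S) (hA : ExSub R A b z) (hnab : ∃ a ∈ A, ∃ a' ∈ A, a * a' ≠ a' * a) (h81 : Nat.card (hjComm ρ R) = 81)
    (g : S) (hg : g ∈ R) (hord : orderOf g = 13) : ∀ a ∈ A, g * a = a * g := by
  classical
  have hp2 : Fact (Nat.Prime 2) := ⟨Nat.prime_two⟩
  have hp13 : Fact (Nat.Prime 13) := ⟨by norm_num⟩
  have h4 : ∀ a ∈ A, a ^ 4 = 1 := by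
    intro a ha
    have e : a ^ 4 = (a * a) * (a * a) := by
      rw [show (4 : ℕ) = 2 + 2 from rfl, pow_add, pow_two]
    rw [e]
    rcases hA.sq a ha with h | h
    · rw [h, one_mul]
    · rw [h, hz.sq]
  have hPA : IsPGroup 2 A := by
    intro a
    refine ⟨2, ?_⟩
    apply Subtype.ext
    have h := h4 a a.2
    rw [Subgroup.coe_pow, Subgroup.coe_one]
    exact h
  obtain ⟨n, hn⟩ := (IsPGroup.iff_card).1 hPA
  have hdvd := hj_glb ρ R Q b hB hQR hQ h81 A hA.le
  rw [hn] at hdvd
  have hn9 : n ≤ 9 := by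
    by_contra hcon
    have h10 : 2 ^ 10 ∣ 24261120 := (pow_dvd_pow 2 (by omega)).trans hdvd
    norm_num at h10
  have hCA : A ⊓ Subgroup.centralizer {g} ≤ A := inf_le_left
  have hCdvd := Subgroup.card_dvd_of_le hCA
  rw [hn] at hCdvd
  obtain ⟨m, hmn, hm⟩ := (Nat.dvd_prime_pow Nat.prime_two).1 hCdvd
  let f : Function.End ↥A := fun a => ⟨g * a * g⁻¹, hA.nR g hg a a.2⟩
  have hfa : ∀ a : ↥A, ((f a : ↥A) : S) = g * a * g⁻¹ := fun a => rfl
  have hpow : ∀ (k : ℕ) (a : ↥A), (((f ^ k) a : ↥A) : S) = g ^ k * a * (g ^ k)⁻¹ := by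
    intro k
    induction k with
    | zero =>
      intro a
      rw [pow_zero, pow_zero]
      show ((a : ↥A) : S) = 1 * (a : S) * 1⁻¹
      simp
    | succ k ih =>
      intro a
      rw [pow_succ']
      show g * (((f ^ k) a : ↥A) : S) * g⁻¹ = _
      rw [ih a, pow_succ']
      group
  have hf : f ^ 13 ^ 1 = 1 := by
    funext a
    apply Subtype.ext
    rw [pow_one, hpow 13 a]
    have h13 : g ^ 13 = 1 := by
      rw [← hord]
      exact pow_orderOf_eq_one g
    rw [h13, one_mul, inv_one, mul_one]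
    rfl
  have hfinA : Fintype ↥A := Fintype.ofFinite _
  have hmod := Equiv.Perm.card_fixedPoints_modEq (p := 13) (n := 1) hf
  rw [Fintype.card_eq_nat_card, Fintype.card_eq_nat_card] at hmod
  have e : ↥(Function.fixedPoints f) ≃ ↥(A ⊓ Subgroup.centralizer {g}) :=
    { toFun := fun x => ⟨((x : ↥A) : S), Subgroup.mem_inf.2 ⟨(x : ↥A).2, by
          rw [Subgroup.mem_centralizer_iff]
          intro h hh
          rw [Set.mem_singleton_iff] at hh
          rw [hh]
          have h1 : f (x : ↥A) = (x : ↥A) := x.2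
          have h2 : g * ((x : ↥A) : S) * g⁻¹ = ((x : ↥A) : S) := congrArg Subtype.val h1
          calc g * ((x : ↥A) : S) = (g * ((x : ↥A) : S) * g⁻¹) * g := by group
            _ = ((x : ↥A) : S) * g := by rw [h2]⟩⟩
      invFun := fun c => ⟨⟨(c : S), (Subgroup.mem_inf.1 c.2).1⟩, by
          show f _ = _
          apply Subtype.ext
          show g * (c : S) * g⁻¹ = (c : S)
          have h1 := (Subgroup.mem_centralizer_iff.1 (Subgroup.mem_inf.1 c.2).2) g rfl
          rw [h1]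
          group⟩
      left_inv := fun x => rfl
      right_inv := fun c => rfl }
  rw [hn, Nat.card_congr e, hm] at hmod
  have hnm : n = m := by
    interval_cases n <;> interval_cases m <;> first | rfl | (exfalso; revert hmod; decide)
  have hCeq : A ⊓ Subgroup.centralizer {g} = A :=
    Subgroup.eq_of_le_of_card_ge hCA (by rw [hn, hm, hnm])
  intro a ha
  rw [← hCeq] at ha
  exact (Subgroup.mem_centralizer_iff.1 (Subgroup.mem_inf.1 ha).2) g rfl

end Cfsg.Agent.Lib.Helper73.HJ
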