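import Mathlib
import Cfsg.Agent.Lib.Helper73.HJDefs
import Cfsg.Agent.Lib.Helper73.HJTh13A
import Cfsg.Agent.Lib.Helper73.HJPrimes
import Cfsg.Agent.Lib.Helper73.HJF0F1

/-!
# Project HJ (S4415), piece Th13

TH13: by TH13A `A` centralizes `g`, so preserves the fixed vectors `{0, w, -w}` of `g` in `[E,R]` (PRIMES): `a w = ± w`. Take `a, a' ∈ A` not commuting: `a a' a⁻¹ a'⁻¹ = z` fixes `w`, but `z w = -w`.
-/

set_option autoImplicit false

namespace Cfsg.Agent.Lib.Helper73.HJ

variable {S : Type*} [Group S] [Finite S] {E : Type*} [AddCommGroup E] [Module (ZMod 3) E]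
  [Finite E]

/-- an element of order 13 preserving a set of 81 vectors fixes a nonzero one -/
theorem hjth13_fix (ρ : Representation (ZMod 3) S E) (M : Submodule (ZMod 3) E) (g : S)
    (hM : ∀ v ∈ M, ρ g v ∈ M) (h81 : Nat.card M = 81) (hord : orderOf g = 13) :
    ∃ v ∈ M, v ≠ 0 ∧ ρ g v = v := by
  classical
  by_contra hcon
  push_neg at hcon
  haveI : Fact (Nat.Prime 13) := ⟨by norm_num⟩
  haveI : Fintype M := Fintype.ofFinite M
  let f : Function.End M := fun v => ⟨ρ g v.1, hM v.1 v.2⟩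
  have hpow : ∀ n : ℕ, ∀ v : M, ((f ^ n) v : E) = ρ (g ^ n) v.1 := by
    intro n
    induction n with
    | zero =>
      intro v
      rw [pow_zero, pow_zero, hjf0f1_one]
      rfl
    | succ n ih =>
      intro v
      rw [pow_succ, pow_succ, hjf0f1_mul]
      exact ih (f v)
  have hf : f ^ 13 ^ 1 = 1 := by
    funext v
    apply Subtype.ext
    rw [pow_one, hpow, ← hord, pow_orderOf_eq_one, hjf0f1_one]
    rfl
  have h := Equiv.Perm.card_fixedPoints_modEq (p := 13) (n := 1) hf
  have hfix : Fintype.card (Function.fixedPoints f) = 1 := by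
    rw [Fintype.card_eq_one_iff]
    refine ⟨⟨0, ?_⟩, ?_⟩
    · show f 0 = 0
      apply Subtype.ext
      show ρ g ((0 : M) : E) = ((0 : M) : E)
      rw [Submodule.coe_zero, map_zero]
    · rintro ⟨v, hv⟩
      apply Subtype.ext
      apply Subtype.ext
      show (v : E) = ((0 : M) : E)
      rw [Submodule.coe_zero]
      by_contra hne
      exact hcon v.1 v.2 hne (congrArg Subtype.val hv)
  rw [hfix, Fintype.card_eq_nat_card, h81] at h
  exact absurd h (by decide)

theorem hj_th13 (ρ : Representation (ZMod 3) S E) (R Q : Subgroup S) (b : S) (hB : Base ρ R b) (hQR : Q ≤ R) (hQ : QType Q b) (z : S) (hz : ZCen ρ R b z) (A : Subgroup S) (hA : ExSub R A b z) (hnab : ∃ a ∈ A, ∃ a' ∈ A, a * a' ≠ a' * a) (h81 : Nat.card (hjComm ρ R) = 81)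
    (g : S) (hg : g ∈ R) (hord : orderOf g = 13) : False := by
  obtain ⟨a, ha, a', ha', hne⟩ := hnab
  have hcomm := hj_th13a ρ R Q b hB hQR hQ z hz A hA ⟨a, ha, a', ha', hne⟩ h81 g hg hord
  have hprime : Nat.Prime 13 := by norm_num
  have hnormR : ∀ r ∈ R, ∀ x ∈ R, r * x * r⁻¹ ∈ R :=
    fun r hr x hx => R.mul_mem (R.mul_mem hr hx) (R.inv_mem hr)
  have hpres : ∀ r ∈ R, ∀ v ∈ hjComm ρ R, ρ r v ∈ hjComm ρ R :=
    fun r hr => hjf0f1_gen ρ R r (hnormR r hr)
  rcases hj_primes ρ R Q b hB hQR hQ h81 g hg 13 hprime hord with h | ⟨h, -⟩ | ⟨-, w, hw, hw0, hfix⟩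
  · omega
  · omega
  obtain ⟨v, hv, hv0, hgv⟩ := hjth13_fix ρ (hjComm ρ R) g (hpres g hg) h81 hord
  have hgw : ρ g w = w := by
    rcases hfix v hv hgv with h | h | h
    · exact absurd h hv0
    · rw [← h]
      exact hgv
    · have e : w = -v := by rw [h, neg_neg]
      rw [e, map_neg, hgv]
  have hsign : ∀ x ∈ A, ρ x w = w ∨ ρ x w = -w := by
    intro x hx
    have h1 : ρ g (ρ x w) = ρ x w := by
      rw [← hjf0f1_mul, hcomm x hx, hjf0f1_mul, hgw]
    rcases hfix _ (hpres x (hA.le hx) w hw) h1 with h | h | h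
    · exfalso
      apply hw0
      have e : ρ x⁻¹ (ρ x w) = w := by rw [← hjf0f1_mul, inv_mul_cancel, hjf0f1_one]
      rw [← e, h, map_zero]
    · exact Or.inl h
    · exact Or.inr h
  have hz' : a * a' * a⁻¹ * a'⁻¹ = z := by
    rcases hA.comm a ha a' ha' with h | h
    · exfalso
      apply hne
      have e : a * a' = (a * a' * a⁻¹ * a'⁻¹) * (a' * a) := by group
      rw [e, h, one_mul]
    · exact h
  have hrel : a * a' = z * (a' * a) := by
    rw [← hz']
    group
  have h2 : ρ (a * a') w = ρ (z * (a' * a)) w := by rw [← hrel]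
  rw [hjf0f1_mul, hjf0f1_mul, hjf0f1_mul] at h2
  have hzw := hz.neg w hw
  have hww : w = -w := by
    rcases hsign a ha with h | h <;> rcases hsign a' ha' with h' | h'
    · rw [h', h, h', hzw] at h2
      exact h2
    · rw [h', map_neg, h, h', map_neg, hzw] at h2
      exact neg_injective h2
    · rw [h', h, map_neg, h', map_neg, hzw] at h2
      exact neg_injective h2
    · rw [h', map_neg, h, neg_neg, map_neg, h', neg_neg, hzw] at h2
      exact h2
  apply hw0
  have e2 : (2 : ZMod 3) • w = 0 := by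
    rw [two_smul]
    nth_rewrite 1 [hww]
    exact neg_add_cancel w
  have e4 : (2 : ZMod 3) * 2 = 1 := by decide
  calc w = ((2 : ZMod 3) * 2) • w := by rw [e4, one_smul]
    _ = (2 : ZMod 3) • ((2 : ZMod 3) • w) := by rw [mul_smul]
    _ = 0 := by rw [e2, smul_zero]

end Cfsg.Agent.Lib.Helper73.HJ
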