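import Mathlib
import Cfsg.Agent.Lib.Helper73.HJDefs
import Cfsg.Agent.Lib.Helper73.HJPrimes
import Cfsg.Agent.Lib.Helper73.HJSyl5
import Cfsg.Agent.Lib.Helper73.HJTh13

/-!
# Project HJ (S4415), piece TwoGrp

TWOGRP: a prime `s ∣ |R|` has an element of order `s` (Cauchy); PRIMES, SYL5, TH13 leave `s = 2`.
-/

set_option autoImplicit false

namespace Cfsg.Agent.Lib.Helper73.HJ

variable {S : Type*} [Group S] [Finite S] {E : Type*} [AddCommGroup E] [Module (ZMod 3) E]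
  [Finite E]

theorem hj_twogrp (ρ : Representation (ZMod 3) S E) (R Q : Subgroup S) (b : S) (hB : Base ρ R b) (hQR : Q ≤ R) (hQ : QType Q b) (z : S) (hz : ZCen ρ R b z) (A : Subgroup S) (hA : ExSub R A b z) (hnab : ∃ a ∈ A, ∃ a' ∈ A, a * a' ≠ a' * a) (h81 : Nat.card (hjComm ρ R) = 81) :
    IsPGroup 2 ↥R := by
  have hpr : ∀ s : ℕ, s.Prime → s ∣ Nat.card R → s = 2 := by
    intro s hs hdvd
    haveI : Fact s.Prime := ⟨hs⟩
    obtain ⟨x, hx⟩ := exists_prime_orderOf_dvd_card' s hdvd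
    have hx' : orderOf (x : S) = s := by
      rw [Subgroup.orderOf_coe]
      exact hx
    rcases hj_primes ρ R Q b hB hQR hQ h81 (x : S) x.2 s hs hx' with h | ⟨h, -⟩ | ⟨h, -⟩
    · exact h
    · exfalso
      exact hj_syl5 ρ R Q b hB hQR hQ h81 (x : S) x.2 (hx'.trans h)
    · exfalso
      exact hj_th13 ρ R Q b hB hQR hQ z hz A hA hnab h81 (x : S) x.2 (hx'.trans h)
  have hne : Nat.card R ≠ 0 := Nat.card_pos.ne'
  have hk : Nat.card R = 2 ^ (Nat.card R).primeFactorsList.length :=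
    Nat.eq_prime_pow_of_unique_prime_dvd hne (fun {d} hd hdvd => hpr d hd hdvd)
  exact IsPGroup.of_card hk

end Cfsg.Agent.Lib.Helper73.HJ
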