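import Mathlib
import Cfsg.Prelude.Def_Transfer
import Cfsg.Prelude.Def_CaseTheorems

/-!
# Project QM (S4404, architect helper73): definitions

`QMData M x V`: `V ≤ M` has order 4, `x ^ 3` centralizes `M`, `V = {⁅x, m⁆ : m ∈ M}`,
`x` normalizes `V` and acts on it without fixed points.
(`⁅x, m⁆ = x * m * x⁻¹ * m⁻¹`.)
-/

set_option autoImplicit false

open scoped commutatorElement

namespace Cfsg.Agent.Lib.Helper73.QM

/-- the data of an element `x` acting on `M` with `[M, x] = V` of order 4 -/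
structure QMData {S : Type*} [Group S] (M : Subgroup S) (x : S) (V : Subgroup S) : Prop where
  le : V ≤ M
  card : Nat.card ↥V = 4
  cube : ∀ m ∈ M, x ^ 3 * m * (x ^ 3)⁻¹ = m
  comm : ∀ m ∈ M, ⁅x, m⁆ ∈ V
  surj : ∀ v ∈ V, ∃ m ∈ M, v = ⁅x, m⁆
  conj : ∀ v ∈ V, x * v * x⁻¹ ∈ V
  fpf : ∀ v ∈ V, x * v * x⁻¹ = v → v = 1

end Cfsg.Agent.Lib.Helper73.QM
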