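import Mathlib
import Cfsg.Agent.Lib.Helper73.QMDefs

/-!
# Project QM (S4404, architect helper73): piece ACT48

`p`-groups (`p ≥ 5`) of automorphisms of elementary abelian 2-groups of order 4 and 8.
Auxiliary: fixed points of a `p`-group of automorphisms form a subgroup whose order is congruent
to the order of the group mod `p`.
-/

set_option autoImplicit false

open scoped commutatorElement

namespace Cfsg.Agent.Lib.Helper73.QM

/-- fixed points of a `p`-group of automorphisms -/
theorem qmact48_fix {U : Type*} [Group U] [Finite U] (p : ℕ) (hp : p.Prime)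
    (Λ : Subgroup (MulAut U)) (hΛ : IsPGroup p ↥Λ) :
    ∃ F : Subgroup U, (∀ u : U, u ∈ F ↔ ∀ l ∈ Λ, l u = u) ∧ Nat.card ↥F ∣ Nat.card U ∧
      Nat.card U ≡ Nat.card ↥F [MOD p] := by
  classical
  haveI : Fact p.Prime := ⟨hp⟩
  let F : Subgroup U :=
    { carrier := {u | ∀ l ∈ Λ, l u = u}
      mul_mem' := by
        intro a b ha hb l hl
        rw [map_mul, ha l hl, hb l hl]
      one_mem' := by
        intro l _
        exact map_one l
      inv_mem' := by
        intro a ha l hl
        rw [map_inv, ha l hl] }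
  refine ⟨F, fun u => Iff.rfl, Subgroup.card_subgroup_dvd_card F, ?_⟩
  have h := hΛ.card_modEq_card_fixedPoints U
  have hset : (MulAction.fixedPoints ↥Λ U) = (F : Set U) := by
    ext u
    simp only [MulAction.mem_fixedPoints]
    constructor
    · intro h l hl
      exact h ⟨l, hl⟩
    · intro h l
      exact h l.1 l.2
  rw [hset] at h
  exact h

/-- fixed points of a single element of a `p`-group of automorphisms -/
theorem qmact48_fix_elt {U : Type*} [Group U] [Finite U] (p : ℕ) (hp : p.Prime)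
    (Λ : Subgroup (MulAut U)) (hΛ : IsPGroup p ↥Λ) (l : MulAut U) (hl : l ∈ Λ) :
    ∃ F : Subgroup U, (∀ u : U, u ∈ F ↔ l u = u) ∧ Nat.card ↥F ∣ Nat.card U ∧
      Nat.card U ≡ Nat.card ↥F [MOD p] := by
  have hle : Subgroup.zpowers l ≤ Λ := (Subgroup.zpowers_le).mpr hl
  have hZ : IsPGroup p ↥(Subgroup.zpowers l) := hΛ.to_le hle
  obtain ⟨F, hF, h1, h2⟩ := qmact48_fix p hp (Subgroup.zpowers l) hZ
  refine ⟨F, fun u => ?_, h1, h2⟩
  rw [hF]
  constructor
  · intro h
    exact h l (Subgroup.mem_zpowers l)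
  · intro h l' hl'
    have hst : Subgroup.zpowers l ≤ MulAction.stabilizer (MulAut U) u := by
      rw [Subgroup.zpowers_le, MulAction.mem_stabilizer_iff]
      exact h
    have := hst hl'
    rw [MulAction.mem_stabilizer_iff] at this
    exact this

/-- a group of automorphisms with a point whose stabilizer is trivial is no larger than the
group acted on -/
theorem qmact48_card_le {U : Type*} [Group U] [Finite U] (Λ : Subgroup (MulAut U)) (u : U)
    (hst : ∀ l ∈ Λ, l u = u → l = 1) : Nat.card ↥Λ ≤ Nat.card U := by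
  apply Nat.card_le_card_of_injective (fun l : ↥Λ => (l : MulAut U) u)
  intro l l' h
  have h' : (l : MulAut U) u = (l' : MulAut U) u := h
  have h1 : ((l' : MulAut U)⁻¹ * (l : MulAut U)) u = u := by
    rw [MulAut.mul_apply, h', MulAut.inv_apply_self]
  have h2 := hst _ (Λ.mul_mem (Λ.inv_mem l'.2) l.2) h1
  apply Subtype.ext
  have : (l : MulAut U) = (l' : MulAut U) * ((l' : MulAut U)⁻¹ * (l : MulAut U)) := by group
  rw [this, h2, mul_one]

/-- if every element of `Λ` fixes every point then `Λ` is trivial -/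
theorem qmact48_bot {U : Type*} [Group U] (Λ : Subgroup (MulAut U))
    (h : ∀ l ∈ Λ, ∀ u : U, l u = u) : Λ = ⊥ := by
  rw [Subgroup.eq_bot_iff_forall]
  intro l hl
  ext u
  exact h l hl u

/-- ACT4: a `p`-group (`p ≥ 5`) of automorphisms of a four-group is trivial. -/
theorem qm_act4 {U : Type*} [Group U] [Finite U] (hU : ∀ u : U, u * u = 1)
    (h4 : Nat.card U = 4) (p : ℕ) (hp : p.Prime) (hp5 : 5 ≤ p) (Λ : Subgroup (MulAut U))
    (hΛ : IsPGroup p ↥Λ) : Λ = ⊥ := by
  obtain ⟨F, hF, hdvd, hmod⟩ := qmact48_fix p hp Λ hΛ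
  rw [h4] at hdvd hmod
  have hle : Nat.card ↥F ≤ 4 := Nat.le_of_dvd (by norm_num) hdvd
  have hpd : p ∣ 4 - Nat.card ↥F := (Nat.modEq_iff_dvd' hle).mp hmod.symm
  have hF4 : Nat.card ↥F = 4 := by
    by_contra hne
    have hpos : 0 < 4 - Nat.card ↥F := by omega
    have := Nat.le_of_dvd hpos hpd
    have hpos' : 0 < Nat.card ↥F := Nat.card_pos
    omega
  have hFtop : F = ⊤ := Subgroup.eq_top_of_card_eq F (by rw [hF4, h4])
  apply qmact48_bot
  intro l hl u
  have : u ∈ F := by rw [hFtop]; trivial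
  exact (hF u).mp this l hl

/-- ACT8: a `p`-group (`p ≥ 5`) of automorphisms of an elementary abelian group of order 8 has
order 1 or 7. -/
theorem qm_act8 {U : Type*} [Group U] [Finite U] (hU : ∀ u : U, u * u = 1)
    (h8 : Nat.card U = 8) (p : ℕ) (hp : p.Prime) (hp5 : 5 ≤ p) (Λ : Subgroup (MulAut U))
    (hΛ : IsPGroup p ↥Λ) : Nat.card ↥Λ ∣ 7 := by
  classical
  haveI : Fact p.Prime := ⟨hp⟩
  by_cases hbot : Λ = ⊥
  · rw [hbot, Subgroup.card_bot]; exact one_dvd 7
  -- every nonidentity element is fixed-point-free and p = 7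
  have key : ∀ l ∈ Λ, l ≠ 1 → p = 7 ∧ ∀ u : U, l u = u → u = 1 := by
    intro l hl hl1
    obtain ⟨F, hF, hdvd, hmod⟩ := qmact48_fix_elt p hp Λ hΛ l hl
    rw [h8] at hdvd hmod
    have hle : Nat.card ↥F ≤ 8 := Nat.le_of_dvd (by norm_num) hdvd
    have hpd : p ∣ 8 - Nat.card ↥F := (Nat.modEq_iff_dvd' hle).mp hmod.symm
    have hne : Nat.card ↥F ≠ 8 := by
      intro h
      have hFtop : F = ⊤ := Subgroup.eq_top_of_card_eq F (by rw [h, h8])
      apply hl1
      ext u
      have : u ∈ F := by rw [hFtop]; trivial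
      exact (hF u).mp this
    have hpos' : 0 < Nat.card ↥F := Nat.card_pos
    have hcases : Nat.card ↥F = 1 ∨ Nat.card ↥F = 2 ∨ Nat.card ↥F = 4 := by
      have : Nat.card ↥F ∈ Nat.divisors 8 := by
        rw [Nat.mem_divisors]; exact ⟨hdvd, by norm_num⟩
      have h8d : Nat.divisors 8 = {1, 2, 4, 8} := by decide
      rw [h8d] at this
      simp only [Finset.mem_insert, Finset.mem_singleton] at this
      rcases this with h | h | h | h
      · exact Or.inl h
      · exact Or.inr (Or.inl h)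
      · exact Or.inr (Or.inr h)
      · exact absurd h hne
    rcases hcases with h | h | h
    · rw [h] at hpd
      have h7 : p ∣ 7 := hpd
      have hp7 : p = 7 := (Nat.prime_dvd_prime_iff_eq hp (by norm_num)).mp h7
      refine ⟨hp7, fun u hu => ?_⟩
      have huF : u ∈ F := (hF u).mpr hu
      have hFbot : F = ⊥ := Subgroup.eq_bot_of_card_eq F h
      rw [hFbot] at huF
      exact Subgroup.mem_bot.mp huF
    · rw [h] at hpd
      exfalso
      have h6 : p ∣ 6 := hpd
      have hle6 : p ≤ 6 := Nat.le_of_dvd (by norm_num) h6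
      interval_cases p
      · omega
      · exact absurd hp (by decide)
    · rw [h] at hpd
      exfalso
      have h4' : p ∣ 4 := hpd
      have := Nat.le_of_dvd (by norm_num) h4'
      omega
  obtain ⟨l₀, hl₀, hl₀1⟩ : ∃ l ∈ Λ, l ≠ 1 := by
    by_contra hcon
    apply hbot
    rw [Subgroup.eq_bot_iff_forall]
    intro l hl
    by_contra h1
    exact hcon ⟨l, hl, h1⟩
  have hp7 : p = 7 := (key l₀ hl₀ hl₀1).1
  -- pick u ≠ 1
  obtain ⟨u, hu⟩ : ∃ u : U, u ≠ 1 := by
    by_contra hcon
    have hsub : Subsingleton U := ⟨fun a b => by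
      have ha : a = 1 := by by_contra h; exact hcon ⟨a, h⟩
      have hb : b = 1 := by by_contra h; exact hcon ⟨b, h⟩
      rw [ha, hb]⟩
    have := Nat.card_eq_one_iff_unique.mpr ⟨hsub, ⟨1⟩⟩
    omega
  have hle : Nat.card ↥Λ ≤ Nat.card U := by
    apply qmact48_card_le Λ u
    intro l hl hfix
    by_contra h1
    exact hu ((key l hl h1).2 u hfix)
  rw [h8] at hle
  obtain ⟨k, hk⟩ := IsPGroup.iff_card.mp hΛ
  rw [hp7] at hk
  rw [hk] at hle ⊢
  have hk1 : k ≤ 1 := by
    by_contra hcon
    have h2 : 2 ≤ k := by omega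
    have : 7 ^ 2 ≤ 7 ^ k := Nat.pow_le_pow_right (by norm_num) h2
    omega
  interval_cases k
  · norm_num
  · norm_num

end Cfsg.Agent.Lib.Helper73.QM
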