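import Mathlib
import Cfsg.Agent.Lib.Helper73.QMDefs
import Cfsg.Agent.Lib.Helper73.QMAct48

/-!
# Project QM (S4404, architect helper73): piece ACT16

`p`-groups (`p ≥ 5`) of automorphisms of an elementary abelian group of order 16.
-/

set_option autoImplicit false

open scoped commutatorElement

namespace Cfsg.Agent.Lib.Helper73.QM

/-- the order of the fixed-point subgroup of a nontrivial `p`-group (`p ≥ 5`) of automorphisms of
a group of order 16 -/
theorem qmact16_cases {n : ℕ} (p : ℕ) (hp : p.Prime) (hp5 : 5 ≤ p) (hdvd : n ∣ 16)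
    (hmod : 16 ≡ n [MOD p]) (hne : n ≠ 16) : (p = 5 ∧ n = 1) ∨ (p = 7 ∧ n = 2) := by
  have hle : n ≤ 16 := Nat.le_of_dvd (by norm_num) hdvd
  have hpd : p ∣ 16 - n := (Nat.modEq_iff_dvd' hle).mp hmod.symm
  have hn : n ∈ Nat.divisors 16 := by
    rw [Nat.mem_divisors]; exact ⟨hdvd, by norm_num⟩
  have h16d : Nat.divisors 16 = {1, 2, 4, 8, 16} := by decide
  rw [h16d] at hn
  simp only [Finset.mem_insert, Finset.mem_singleton] at hn
  rcases hn with h | h | h | h | h
  · subst h
    left
    have h15 : p ∣ 15 := hpd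
    have hle15 : p ≤ 15 := Nat.le_of_dvd (by norm_num) h15
    refine ⟨?_, rfl⟩
    interval_cases p <;> first | rfl | omega | exact absurd hp (by decide)
  · subst h
    right
    have h14 : p ∣ 14 := hpd
    have hle14 : p ≤ 14 := Nat.le_of_dvd (by norm_num) h14
    refine ⟨?_, rfl⟩
    interval_cases p <;> first | rfl | omega | exact absurd hp (by decide)
  · subst h
    exfalso
    have h12 : p ∣ 12 := hpd
    have hle12 : p ≤ 12 := Nat.le_of_dvd (by norm_num) h12
    interval_cases p <;> first | omega | exact absurd hp (by decide)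
  · subst h
    exfalso
    have h8 : p ∣ 8 := hpd
    have hle8 : p ≤ 8 := Nat.le_of_dvd (by norm_num) h8
    interval_cases p <;> first | omega | exact absurd hp (by decide)
  · exact absurd h hne

/-- ACT16: a `p`-group (`p ≥ 5`) of automorphisms of an elementary abelian group of order 16
is trivial, or `p = 5` and it has order 5, or `p = 7`, it has order 7 and its nonidentity elements
all have the same fixed points `{1, u₀}`. -/
theorem qm_act16 {U : Type*} [Group U] [Finite U] (hU : ∀ u : U, u * u = 1)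
    (h16 : Nat.card U = 16) (p : ℕ) (hp : p.Prime) (hp5 : 5 ≤ p) (Λ : Subgroup (MulAut U))
    (hΛ : IsPGroup p ↥Λ) :
    Λ = ⊥ ∨ (p = 5 ∧ Nat.card ↥Λ = 5) ∨
      (p = 7 ∧ Nat.card ↥Λ = 7 ∧ ∃ u₀ : U, u₀ ≠ 1 ∧
        ∀ l ∈ Λ, l ≠ 1 → ∀ u : U, (l u = u ↔ u = 1 ∨ u = u₀)) := by
  classical
  haveI : Fact p.Prime := ⟨hp⟩
  by_cases hbot : Λ = ⊥
  · exact Or.inl hbot
  right
  obtain ⟨k, hk⟩ := IsPGroup.iff_card.mp hΛ
  have hk0 : k ≠ 0 := by
    rintro rfl
    exact hbot (Subgroup.eq_bot_of_card_eq Λ (by simpa using hk))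
  -- fixed points of the whole group
  obtain ⟨F, hF, hFdvd, hFmod⟩ := qmact48_fix p hp Λ hΛ
  rw [h16] at hFdvd hFmod
  have hFne : Nat.card ↥F ≠ 16 := by
    intro h
    have hFtop : F = ⊤ := Subgroup.eq_top_of_card_eq F (by rw [h, h16])
    apply hbot
    apply qmact48_bot
    intro l hl u
    have : u ∈ F := by rw [hFtop]; trivial
    exact (hF u).mp this l hl
  -- fixed points of single elements
  have key : ∀ l ∈ Λ, l ≠ 1 → ∃ Fl : Subgroup U, (∀ u : U, u ∈ Fl ↔ l u = u) ∧
      ((p = 5 ∧ Nat.card ↥Fl = 1) ∨ (p = 7 ∧ Nat.card ↥Fl = 2)) := by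
    intro l hl hl1
    obtain ⟨Fl, hFl, hdvd, hmod⟩ := qmact48_fix_elt p hp Λ hΛ l hl
    rw [h16] at hdvd hmod
    refine ⟨Fl, hFl, qmact16_cases p hp hp5 hdvd hmod ?_⟩
    intro h
    have hFtop : Fl = ⊤ := Subgroup.eq_top_of_card_eq Fl (by rw [h, h16])
    apply hl1
    ext u
    have : u ∈ Fl := by rw [hFtop]; trivial
    exact (hFl u).mp this
  rcases qmact16_cases p hp hp5 hFdvd hFmod hFne with ⟨hp5', hF1⟩ | ⟨hp7, hF2⟩
  · -- p = 5
    left
    refine ⟨hp5', ?_⟩
    -- every nonidentity element is fixed-point-free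
    have hfree : ∀ l ∈ Λ, l ≠ 1 → ∀ u : U, l u = u → u = 1 := by
      intro l hl hl1 u hu
      obtain ⟨Fl, hFl, hc⟩ := key l hl hl1
      rcases hc with ⟨_, hc1⟩ | ⟨h7, _⟩
      · have huF : u ∈ Fl := (hFl u).mpr hu
        have hb : Fl = ⊥ := Subgroup.eq_bot_of_card_eq Fl hc1
        rw [hb] at huF
        exact Subgroup.mem_bot.mp huF
      · omega
    obtain ⟨u, hu⟩ : ∃ u : U, u ≠ 1 := by
      by_contra hcon
      have hsub : Subsingleton U := ⟨fun a b => by
        have ha : a = 1 := by by_contra h; exact hcon ⟨a, h⟩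
        have hb : b = 1 := by by_contra h; exact hcon ⟨b, h⟩
        rw [ha, hb]⟩
      have := Nat.card_eq_one_iff_unique.mpr ⟨hsub, ⟨1⟩⟩
      omega
    have hle : Nat.card ↥Λ ≤ Nat.card U := by
      apply qmact48_card_le Λ u
      intro l hl hfix
      by_contra h1
      exact hu (hfree l hl h1 u hfix)
    rw [h16, hk, hp5'] at hle
    rw [hk, hp5']
    have hk1 : k ≤ 1 := by
      by_contra hcon
      have h2 : 2 ≤ k := by omega
      have : 5 ^ 2 ≤ 5 ^ k := Nat.pow_le_pow_right (by norm_num) h2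
      omega
    have : k = 1 := by omega
    rw [this]; norm_num
  · -- p = 7
    right
    -- F = {1, u₀}
    obtain ⟨y, hy1, hyu⟩ := (Nat.card_eq_two_iff' (1 : ↥F)).mp hF2
    have hu₀1 : (y : U) ≠ 1 := fun h => hy1 (Subtype.ext h)
    have hFmem : ∀ u : U, u ∈ F ↔ u = 1 ∨ u = (y : U) := by
      intro u
      constructor
      · intro hu
        by_cases h1 : u = 1
        · exact Or.inl h1
        · right
          have := hyu ⟨u, hu⟩ (fun h => h1 (congrArg Subtype.val h))
          exact congrArg Subtype.val this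
      · rintro (h | h)
        · rw [h]; exact F.one_mem
        · rw [h]; exact y.2
    have hfix : ∀ l ∈ Λ, l ≠ 1 → ∀ u : U, (l u = u ↔ u = 1 ∨ u = (y : U)) := by
      intro l hl hl1 u
      obtain ⟨Fl, hFl, hc⟩ := key l hl hl1
      rcases hc with ⟨h5, _⟩ | ⟨_, hc2⟩
      · omega
      · have hle : F ≤ Fl := by
          intro v hv
          exact (hFl v).mpr ((hF v).mp hv l hl)
        have heq : F = Fl := Subgroup.eq_of_le_of_card_ge hle (by rw [hc2, hF2])
        rw [← hFl, ← heq, hFmem]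
    refine ⟨hp7, ?_, (y : U), hu₀1, hfix⟩
    -- a point outside F
    obtain ⟨u, hu⟩ : ∃ u : U, u ∉ F := by
      by_contra hcon
      have hFtop : F = ⊤ := by
        rw [eq_top_iff]
        intro u _
        by_contra h
        exact hcon ⟨u, h⟩
      have : Nat.card ↥F = Nat.card U := by rw [hFtop, Subgroup.card_top]
      omega
    have hle : Nat.card ↥Λ ≤ Nat.card U := by
      apply qmact48_card_le Λ u
      intro l hl hfx
      by_contra h1
      exact hu ((hFmem u).mpr ((hfix l hl h1 u).mp hfx))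
    rw [h16, hk, hp7] at hle
    rw [hk, hp7]
    have hk1 : k ≤ 1 := by
      by_contra hcon
      have h2 : 2 ≤ k := by omega
      have : 7 ^ 2 ≤ 7 ^ k := Nat.pow_le_pow_right (by norm_num) h2
      omega
    have : k = 1 := by omega
    rw [this]; norm_num

end Cfsg.Agent.Lib.Helper73.QM
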