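import Mathlib
import Cfsg.Agent.Lib.Helper73.QMDefs
import Cfsg.Agent.Lib.Helper73.QMAct16

/-!
# Project QM (S4404, architect helper73): piece AUT (proved by helper92)

Paper proof: note 2122, section AUT.
-/

set_option autoImplicit false

open scoped commutatorElement

namespace Cfsg.Agent.Lib.Helper73.QM

/-- a group of exponent two is commutative -/
theorem qmaut_comm {U : Type*} [Group U] (hU : ∀ u : U, u * u = 1) (x y : U) : x * y = y * x := by
  have hinv : ∀ u : U, u⁻¹ = u := fun u => inv_eq_of_mul_eq_one_left (hU u)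
  rw [← hinv (x * y), mul_inv_rev, hinv, hinv]

/-- `u ↦ f u * u⁻¹` as a homomorphism -/
def qmaut_delta {U : Type*} [CommGroup U] (f : MulAut U) : U →* U :=
  f.toMonoidHom / MonoidHom.id U

theorem qmaut_delta_apply {U : Type*} [CommGroup U] (f : MulAut U) (u : U) :
    qmaut_delta f u = f u * u⁻¹ := by
  simp [qmaut_delta, div_eq_mul_inv]

/-- `u ↦ a u * u⁻¹` maps `Va` onto `Va` -/
theorem qmaut_surj {U : Type*} [CommGroup U] [Finite U] (a : MulAut U) (Va : Subgroup U)
    (hVa : ∀ u : U, a u * u⁻¹ ∈ Va) (hfa : ∀ v ∈ Va, a v = v → v = 1) :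
    ∀ v ∈ Va, ∃ w : U, a w * w⁻¹ = v := by
  have hinj : Function.Injective (fun v : ↥Va => (⟨a (v : U) * (v : U)⁻¹, hVa v⟩ : ↥Va)) := by
    intro v v' h
    have h1 : a (v : U) * (v : U)⁻¹ = a (v' : U) * (v' : U)⁻¹ := congrArg Subtype.val h
    have h2 : a ((v : U) * (v' : U)⁻¹) = (v : U) * (v' : U)⁻¹ := by
      rw [map_mul, map_inv]
      rw [← div_eq_mul_inv, ← div_eq_mul_inv, div_eq_div_iff_mul_eq_mul] at h1
      rw [← div_eq_mul_inv, ← div_eq_mul_inv, div_eq_div_iff_mul_eq_mul, h1, mul_comm]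
    have h3 := hfa _ (Va.mul_mem v.2 (Va.inv_mem v'.2)) h2
    exact Subtype.ext (mul_inv_eq_one.mp h3)
  have hsurj := Finite.injective_iff_surjective.mp hinj
  intro v hv
  obtain ⟨w, hw⟩ := hsurj ⟨v, hv⟩
  exact ⟨w, congrArg Subtype.val hw⟩

/-- an automorphism of order dividing 3 preserving a subgroup of index two acts trivially modulo
that subgroup -/
theorem qmaut_sub {U : Type*} [Group U] (U' : Subgroup U) (hidx : U'.index = 2) (f : MulAut U)
    (hf3 : f ^ 3 = 1) (hinv : ∀ u ∈ U', f u ∈ U') (u : U) : f u * u⁻¹ ∈ U' := by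
  have h3 : f (f (f u)) = u := by
    have := congrArg (fun g : MulAut U => g u) hf3
    simpa [pow_succ, MulAut.mul_apply] using this
  rw [Subgroup.mul_mem_iff_of_index_two hidx, inv_mem_iff]
  constructor
  · intro h
    have := hinv _ (hinv _ h)
    rwa [h3] at this
  · exact hinv u

/-- the main statement for a commutative group -/
theorem qmaut_main {U : Type*} [CommGroup U] [Finite U] (hU : ∀ u : U, u * u = 1)
    (h16 : Nat.card U = 16) (a b : MulAut U) (ha : a ^ 3 = 1) (hb : b ^ 3 = 1)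
    (Va Vb : Subgroup U) (hVa : ∀ u : U, a u * u⁻¹ ∈ Va) (hVb : ∀ u : U, b u * u⁻¹ ∈ Vb)
    (h4a : Nat.card ↥Va = 4) (h4b : Nat.card ↥Vb = 4) (hdisj : Va ⊓ Vb = ⊥)
    (hfa : ∀ v ∈ Va, a v = v → v = 1) (hfb : ∀ v ∈ Vb, b v = v → v = 1)
    (p : ℕ) (hp : p.Prime) (hp5 : 5 ≤ p) (Λ : Subgroup (MulAut U)) (hΛ : IsPGroup p ↥Λ)
    (hc : b * a⁻¹ ∈ Λ) (hn : ∀ l ∈ Λ, a * l * a⁻¹ ∈ Λ) : False := by
  obtain ⟨c, hcdef⟩ : ∃ c : MulAut U, c = b * a⁻¹ := ⟨_, rfl⟩
  have hcΛ : c ∈ Λ := hcdef ▸ hc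
  have hbca : b = c * a := by rw [hcdef, inv_mul_cancel_right]
  have hc1 : c ≠ 1 := by
    intro h1
    have hab : b = a := by rw [hbca, h1, one_mul]
    have hfix : ∀ u : U, a u = u := by
      intro u
      have h2 : a u * u⁻¹ ∈ Va ⊓ Vb := ⟨hVa u, hab ▸ hVb u⟩
      rw [hdisj, Subgroup.mem_bot] at h2
      exact mul_inv_eq_one.mp h2
    have htriv : ∀ v ∈ Va, v = 1 := fun v hv => hfa v hv (hfix v)
    have hbot : Va = ⊥ := (Subgroup.eq_bot_iff_forall Va).mpr htriv
    rw [hbot, Subgroup.card_bot] at h4a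
    omega
  have hΛne : Λ ≠ ⊥ := by
    intro h
    rw [h, Subgroup.mem_bot] at hcΛ
    exact hc1 hcΛ
  have hact := qm_act16 hU h16 p hp hp5 Λ hΛ
  have hcard : Nat.card ↥Λ = p := by
    rcases hact with h | ⟨h5, hc5⟩ | ⟨h7, hc7, -⟩
    · exact absurd h hΛne
    · rw [hc5, h5]
    · rw [hc7, h7]
  have : Fact p.Prime := ⟨hp⟩
  have hcp : c ^ p = 1 := by
    have h := pow_card_eq_one' (G := ↥Λ) (x := ⟨c, hcΛ⟩)
    rw [hcard] at h
    have h' := congrArg Subtype.val h
    simpa using h'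
  have hord : orderOf c = p := orderOf_eq_prime hcp hc1
  obtain ⟨n, hn'⟩ : ∃ n : ℕ, c ^ n = a * c * a⁻¹ := by
    have hmem : (⟨a * c * a⁻¹, hn c hcΛ⟩ : ↥Λ) ∈ Subgroup.zpowers (⟨c, hcΛ⟩ : ↥Λ) :=
      mem_zpowers_of_prime_card hcard (by
        intro h
        exact hc1 (congrArg Subtype.val h))
    rw [← mem_powers_iff_mem_zpowers] at hmem
    obtain ⟨n, hn⟩ := hmem
    exact ⟨n, by simpa using congrArg Subtype.val hn⟩
  rcases hact with h | ⟨h5, -⟩ | ⟨h7, -, u₀, hu₀, hfix⟩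
  · exact hΛne h
  · -- `p = 5`
    subst h5
    have e1 : a * c ^ n * a⁻¹ = c ^ (n * n) := by rw [← conj_pow, ← hn', ← pow_mul]
    have e2 : a * c ^ (n * n) * a⁻¹ = c ^ (n * (n * n)) := by rw [← conj_pow, ← hn', ← pow_mul]
    have e3 : a * (a * (a * c * a⁻¹) * a⁻¹) * a⁻¹ = c := by
      have e : a * (a * (a * c * a⁻¹) * a⁻¹) * a⁻¹ = a ^ 3 * c * (a ^ 3)⁻¹ := by
        simp only [pow_succ, pow_zero, one_mul, mul_inv_rev, mul_assoc]
      rw [e, ha, one_mul, inv_one, mul_one]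
    have e4 : c ^ (n * (n * n)) = c ^ 1 := by rw [← e2, ← e1, hn', e3, pow_one]
    have e5 : n * (n * n) ≡ 1 [MOD 5] := by
      have := pow_eq_pow_iff_modEq.mp e4
      rwa [hord] at this
    have e6 : n % 5 = 1 := by
      have hdec : ∀ r < 5, r * (r * r) % 5 = 1 → r = 1 := by decide
      have h1 : (n % 5) * ((n % 5) * (n % 5)) % 5 = 1 := by
        have h2 : n * (n * n) % 5 = 1 := e5
        rw [← h2]
        simp [Nat.mul_mod]
      exact hdec _ (Nat.mod_lt _ (by norm_num)) h1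
    have e7 : c ^ n = c := by
      have := pow_mod_orderOf c n
      rw [hord, e6, pow_one] at this
      exact this.symm
    have hcomm : Commute c a := by
      have h1 : a * c = c * a := by
        rw [e7] at hn'
        exact (mul_inv_eq_iff_eq_mul.mp hn'.symm)
      exact h1.symm
    have hc3 : c ^ 3 = 1 := by
      have h1 := hcomm.mul_pow 3
      rw [← hbca, hb, ha, mul_one] at h1
      exact h1.symm
    have h53 := orderOf_dvd_of_pow_eq_one hc3
    rw [hord] at h53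
    omega
  · -- `p = 7`
    subst h7
    have hfixc := hfix c hcΛ hc1
    obtain ⟨δ, hδ⟩ : ∃ δ : U →* U, δ = qmaut_delta c := ⟨_, rfl⟩
    have hδa : ∀ u, δ u = c u * u⁻¹ := fun u => by rw [hδ, qmaut_delta_apply]
    have hker : (δ.ker : Set U) = {1, u₀} := by
      ext u
      simp only [SetLike.mem_coe, MonoidHom.mem_ker, Set.mem_insert_iff, Set.mem_singleton_iff]
      rw [hδa, mul_inv_eq_one]
      exact hfixc u
    have hkercard : Nat.card ↥δ.ker = 2 := by
      have h1 : Nat.card ↥δ.ker = (δ.ker : Set U).ncard := Nat.card_coe_set_eq _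
      rw [h1, hker, Set.ncard_pair (Ne.symm hu₀)]
    have hrange : Nat.card ↥δ.range = 8 := by
      have h1 := Subgroup.card_mul_index δ.ker
      rw [Subgroup.index_ker, hkercard, h16] at h1
      omega
    have hidx : δ.range.index = 2 := by
      have h1 := Subgroup.card_mul_index δ.range
      rw [hrange, h16] at h1
      omega
    -- powers of `c`
    have hpow : ∀ (j : ℕ) (w : U), (c ^ j) w * w⁻¹ ∈ δ.range := by
      intro j
      induction j with
      | zero =>
        intro w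
        simp
      | succ j ih =>
        intro w
        have h1 : (c ^ (j + 1)) w * w⁻¹ = δ ((c ^ j) w) * ((c ^ j) w * w⁻¹) := by
          rw [hδa, pow_succ', MulAut.mul_apply]
          simp [mul_assoc]
        rw [h1]
        exact δ.range.mul_mem ⟨_, rfl⟩ (ih w)
    have hainv : ∀ u ∈ δ.range, a u ∈ δ.range := by
      rintro _ ⟨u, rfl⟩
      have h1 : a (c u) = (c ^ n) (a u) := by
        rw [hn']
        simp [MulAut.mul_apply]
      rw [hδa, map_mul, map_inv, h1]
      exact hpow n (a u)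
    have hcinv : ∀ u ∈ δ.range, c u ∈ δ.range := by
      rintro _ ⟨u, rfl⟩
      rw [hδa, map_mul, map_inv]
      exact ⟨c u, hδa (c u)⟩
    have hbinv : ∀ u ∈ δ.range, b u ∈ δ.range := by
      intro u hu
      rw [hbca, MulAut.mul_apply]
      exact hcinv _ (hainv u hu)
    have hVaU : Va ≤ δ.range := by
      intro v hv
      obtain ⟨w, rfl⟩ := qmaut_surj a Va hVa hfa v hv
      exact qmaut_sub δ.range hidx a ha hainv w
    have hVbU : Vb ≤ δ.range := by
      intro v hv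
      obtain ⟨w, rfl⟩ := qmaut_surj b Vb hVb hfb v hv
      exact qmaut_sub δ.range hidx b hb hbinv w
    have hinj : Function.Injective (fun g : ↥Va × ↥Vb =>
        (⟨(g.1 : U) * (g.2 : U), δ.range.mul_mem (hVaU g.1.2) (hVbU g.2.2)⟩ : ↥δ.range)) := by
      intro g g' h
      exact Subgroup.mul_injective_of_disjoint (disjoint_iff.mpr hdisj) (congrArg Subtype.val h)
    have hle := Nat.card_le_card_of_injective _ hinj
    rw [Nat.card_prod, h4a, h4b, hrange] at hle
    omega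

/-- AUT: two automorphisms `a, b` of order dividing 3 of an elementary abelian group of order
16 with independent "commutator" four-groups `Va`, `Vb` (on which they act without fixed points)
cannot differ by an element of a `p`-group `Λ` (`p ≥ 5`) normalized by `a`. -/
theorem qm_aut {U : Type*} [Group U] [Finite U] (hU : ∀ u : U, u * u = 1)
    (h16 : Nat.card U = 16) (a b : MulAut U) (ha : a ^ 3 = 1) (hb : b ^ 3 = 1)
    (Va Vb : Subgroup U) (hVa : ∀ u : U, a u * u⁻¹ ∈ Va) (hVb : ∀ u : U, b u * u⁻¹ ∈ Vb)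
    (h4a : Nat.card ↥Va = 4) (h4b : Nat.card ↥Vb = 4) (hdisj : Va ⊓ Vb = ⊥)
    (hfa : ∀ v ∈ Va, a v = v → v = 1) (hfb : ∀ v ∈ Vb, b v = v → v = 1)
    (p : ℕ) (hp : p.Prime) (hp5 : 5 ≤ p) (Λ : Subgroup (MulAut U)) (hΛ : IsPGroup p ↥Λ)
    (hc : b * a⁻¹ ∈ Λ) (hn : ∀ l ∈ Λ, a * l * a⁻¹ ∈ Λ) : False := by
  let _ : CommGroup U := { ‹Group U› with mul_comm := qmaut_comm hU }
  exact qmaut_main hU h16 a b ha hb Va Vb hVa hVb h4a h4b hdisj hfa hfb p hp hp5 Λ hΛ hc hn

end Cfsg.Agent.Lib.Helper73.QM
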