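import Mathlib
import Cfsg.Agent.Lib.Helper73.QMDefs

/-!
# Project QM (S4404, architect helper73): piece COPLANAR

Four-subgroups of an elementary abelian 2-group that pairwise meet nontrivially and have no
common nonidentity element lie in a subgroup of order 8.
-/

set_option autoImplicit false

open scoped commutatorElement

namespace Cfsg.Agent.Lib.Helper73.QM

theorem qmcoplanar_exists_ne_one {S : Type*} [Group S] (H : Subgroup S) (h : H ≠ ⊥) :
    ∃ x ∈ H, x ≠ 1 := by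
  by_contra hcon
  push Not at hcon
  exact h ((Subgroup.eq_bot_iff_forall H).mpr hcon)

/-- a subgroup of order dividing 4 with two distinct nonidentity elements has order 4 -/
theorem qmcoplanar_card_four {S : Type*} [Group S] [Finite S] (H : Subgroup S)
    (hdvd : Nat.card ↥H ∣ 4) (a b : S) (ha : a ∈ H) (hb : b ∈ H) (ha1 : a ≠ 1) (hb1 : b ≠ 1)
    (hab : a ≠ b) : Nat.card ↥H = 4 := by
  have h4 : (4 : ℕ) = 2 ^ 2 := by norm_num
  rw [h4] at hdvd
  obtain ⟨k, hk, hcard⟩ := (Nat.dvd_prime_pow Nat.prime_two).mp hdvd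
  have hk' : k = 0 ∨ k = 1 ∨ k = 2 := by omega
  rcases hk' with rfl | rfl | rfl
  · exfalso
    have hbot : H = ⊥ := Subgroup.card_eq_one.mp (by rw [hcard]; norm_num)
    rw [hbot] at ha
    exact ha1 (Subgroup.mem_bot.mp ha)
  · exfalso
    have h2 : Nat.card ↥H = 2 := by rw [hcard]; norm_num
    obtain ⟨y, -, hy⟩ := (Nat.card_eq_two_iff' (1 : ↥H)).mp h2
    have e1 : (⟨a, ha⟩ : ↥H) = y := hy _ (fun h => ha1 (congrArg Subtype.val h))
    have e2 : (⟨b, hb⟩ : ↥H) = y := hy _ (fun h => hb1 (congrArg Subtype.val h))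
    exact hab (congrArg Subtype.val (e1.trans e2.symm))
  · rw [hcard]; norm_num

/-- a four-group lies in every subgroup containing two of its distinct nonidentity elements -/
theorem qmcoplanar_le {S : Type*} [Group S] [Finite S] (A U : Subgroup S)
    (hA : Nat.card ↥A = 4) (a b : S) (ha : a ∈ A) (hb : b ∈ A) (haU : a ∈ U) (hbU : b ∈ U)
    (ha1 : a ≠ 1) (hb1 : b ≠ 1) (hab : a ≠ b) : A ≤ U := by
  have hdvd : Nat.card ↥(A ⊓ U) ∣ 4 := by
    rw [← hA]; exact Subgroup.card_dvd_of_le inf_le_left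
  have hc := qmcoplanar_card_four (A ⊓ U) hdvd a b ⟨ha, haU⟩ ⟨hb, hbU⟩ ha1 hb1 hab
  have heq : A ⊓ U = A := Subgroup.eq_of_le_of_card_ge inf_le_left (by rw [hc, hA])
  rw [← heq]
  exact inf_le_right

/-- COPLANAR: a nonempty family of four-subgroups of `M` that pairwise meet nontrivially and
have no common nonidentity element lies in a subgroup of order 8. -/
theorem qm_coplanar {S : Type*} [Group S] [Finite S] (M : Subgroup S)
    (hM : Cfsg.IsElementaryAbelian 2 M) (O : Set (Subgroup S)) (hne : O.Nonempty)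
    (h4 : ∀ A ∈ O, A ≤ M ∧ Nat.card ↥A = 4) (hmeet : ∀ A ∈ O, ∀ B ∈ O, A ⊓ B ≠ ⊥)
    (hno : ∀ m : S, m ≠ 1 → ∃ A ∈ O, m ∉ A) :
    ∃ U : Subgroup S, U ≤ M ∧ Nat.card ↥U = 8 ∧ ∀ A ∈ O, A ≤ U := by
  obtain ⟨hMc, hM2⟩ := hM
  have hcomm : ∀ x ∈ M, ∀ y ∈ M, x * y = y * x := by
    intro x hx y hy
    have h := hMc.is_comm.comm (⟨x, hx⟩ : ↥M) ⟨y, hy⟩
    exact congrArg Subtype.val h
  have hinv : ∀ x ∈ M, x⁻¹ = x := by
    intro x hx
    have h := hM2 x hx
    rw [pow_two] at h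
    exact inv_eq_of_mul_eq_one_left h
  obtain ⟨V1, hV1⟩ := hne
  obtain ⟨hV1M, hV1c⟩ := h4 V1 hV1
  have hV1bot : V1 ≠ ⊥ := by
    intro h
    rw [h, Subgroup.card_bot] at hV1c
    norm_num at hV1c
  obtain ⟨m0, hm0, hm01⟩ := qmcoplanar_exists_ne_one V1 hV1bot
  obtain ⟨V2, hV2, hm0V2⟩ := hno m0 hm01
  obtain ⟨hV2M, hV2c⟩ := h4 V2 hV2
  obtain ⟨m, hm, hm1⟩ := qmcoplanar_exists_ne_one _ (hmeet V1 hV1 V2 hV2)
  have hmV1 : m ∈ V1 := hm.1
  have hmV2 : m ∈ V2 := hm.2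
  have hnle : ¬ V2 ≤ V1 := by
    intro hle
    have heq : V2 = V1 := Subgroup.eq_of_le_of_card_ge hle (by rw [hV1c, hV2c])
    rw [heq] at hm0V2
    exact hm0V2 hm0
  obtain ⟨b, hbV2, hbV1⟩ := SetLike.not_le_iff_exists.mp hnle
  have hbM : b ∈ M := hV2M hbV2
  have hbb : b * b = 1 := by
    have h := hM2 b hbM
    rw [pow_two] at h
    exact h
  -- V1 ⊓ V2 = {1, m}
  have hK : ∀ x, x ∈ V1 → x ∈ V2 → x = 1 ∨ x = m := by
    intro x hx1 hx2
    by_contra hcon
    push Not at hcon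
    have hdvd : Nat.card ↥(V1 ⊓ V2) ∣ 4 := by
      rw [← hV2c]; exact Subgroup.card_dvd_of_le inf_le_right
    have hc := qmcoplanar_card_four (V1 ⊓ V2) hdvd m x hm ⟨hx1, hx2⟩ hm1 hcon.1
      (fun h => hcon.2 h.symm)
    have heq : V1 ⊓ V2 = V2 := Subgroup.eq_of_le_of_card_ge inf_le_right (by rw [hc, hV2c])
    apply hnle
    rw [← heq]
    exact inf_le_left
  -- the subgroup T = V1 ∪ b V1
  let T : Subgroup S :=
    { carrier := {x | x ∈ M ∧ (x ∈ V1 ∨ b * x ∈ V1)}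
      mul_mem' := by
        rintro x y ⟨hxM, hx⟩ ⟨hyM, hy⟩
        refine ⟨M.mul_mem hxM hyM, ?_⟩
        rcases hx with hx | hx
        · rcases hy with hy | hy
          · exact Or.inl (V1.mul_mem hx hy)
          · right
            have : b * (x * y) = x * (b * y) := by
              rw [← mul_assoc, hcomm b hbM x hxM, mul_assoc]
            rw [this]
            exact V1.mul_mem hx hy
        · rcases hy with hy | hy
          · right
            rw [← mul_assoc]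
            exact V1.mul_mem hx hy
          · left
            have : x * y = (b * x) * (b * y) := by
              rw [mul_assoc, ← mul_assoc x b y, hcomm x hxM b hbM, mul_assoc, ← mul_assoc, hbb,
                one_mul]
            rw [this]
            exact V1.mul_mem hx hy
      one_mem' := ⟨M.one_mem, Or.inl V1.one_mem⟩
      inv_mem' := by
        rintro x ⟨hxM, hx⟩
        rw [hinv x hxM]
        exact ⟨hxM, hx⟩ }
  have hTmem : ∀ x, x ∈ T ↔ x ∈ M ∧ (x ∈ V1 ∨ b * x ∈ V1) := fun x => Iff.rfl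
  have hV1T : V1 ≤ T := fun x hx => (hTmem x).mpr ⟨hV1M hx, Or.inl hx⟩
  have hbT : b ∈ T := (hTmem b).mpr ⟨hbM, Or.inr (by rw [hbb]; exact V1.one_mem)⟩
  have hTM : T ≤ M := fun x hx => ((hTmem x).mp hx).1
  have hmb : m ≠ b := fun h => hbV1 (h ▸ hmV1)
  have hb1 : b ≠ 1 := fun h => hbV1 (h ▸ V1.one_mem)
  have hV2T : V2 ≤ T :=
    qmcoplanar_le V2 T hV2c m b hmV2 hbV2 (hV1T hmV1) hbT hm1 hb1 hmb
  -- the order of T
  have hTle : Nat.card ↥T ≤ 8 := by
    have hsub : (T : Set S) ⊆ (V1 : Set S) ∪ (fun x => b * x) '' (V1 : Set S) := by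
      intro x hx
      rcases ((hTmem x).mp hx).2 with h | h
      · exact Or.inl h
      · right
        refine ⟨b * x, h, ?_⟩
        show b * (b * x) = x
        rw [← mul_assoc, hbb, one_mul]
    have h1 : Nat.card ↥T = (T : Set S).ncard := (Nat.card_coe_set_eq (T : Set S))
    have h2 : Nat.card ↥V1 = (V1 : Set S).ncard := (Nat.card_coe_set_eq (V1 : Set S))
    have h3 := Set.ncard_le_ncard hsub (Set.toFinite _)
    have h4' := Set.ncard_union_le (V1 : Set S) ((fun x => b * x) '' (V1 : Set S))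
    have h5 := Set.ncard_image_le (f := fun x => b * x) (Set.toFinite (V1 : Set S))
    omega
  have hTdvd : 4 ∣ Nat.card ↥T := by
    rw [← hV1c]; exact Subgroup.card_dvd_of_le hV1T
  have hTne : Nat.card ↥T ≠ 4 := by
    intro h
    have heq : V1 = T := Subgroup.eq_of_le_of_card_ge hV1T (by rw [h, hV1c])
    exact hbV1 (heq ▸ hbT)
  have hTpos : 0 < Nat.card ↥T := Nat.card_pos
  have hT8 : Nat.card ↥T = 8 := by
    obtain ⟨c, hc⟩ := hTdvd
    omega
  refine ⟨T, hTM, hT8, ?_⟩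
  -- members avoiding m
  have hcase1 : ∀ A ∈ O, m ∉ A → A ≤ T := by
    intro A hA hmA
    obtain ⟨-, hAc⟩ := h4 A hA
    obtain ⟨a1, ha1, ha11⟩ := qmcoplanar_exists_ne_one _ (hmeet A hA V1 hV1)
    obtain ⟨a2, ha2, ha21⟩ := qmcoplanar_exists_ne_one _ (hmeet A hA V2 hV2)
    have h12 : a1 ≠ a2 := by
      intro h
      rcases hK a1 ha1.2 (h ▸ ha2.2) with h' | h'
      · exact ha11 h'
      · exact hmA (h' ▸ ha1.1)
    exact qmcoplanar_le A T hAc a1 a2 ha1.1 ha2.1 (hV1T ha1.2) (hV2T ha2.2) ha11 ha21 h12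
  obtain ⟨V3, hV3, hmV3⟩ := hno m hm1
  have hV3T : V3 ≤ T := hcase1 V3 hV3 hmV3
  intro A hA
  by_cases hmA : m ∈ A
  · obtain ⟨-, hAc⟩ := h4 A hA
    obtain ⟨a3, ha3, ha31⟩ := qmcoplanar_exists_ne_one _ (hmeet A hA V3 hV3)
    have hm3 : m ≠ a3 := fun h => hmV3 (h ▸ ha3.2)
    exact qmcoplanar_le A T hAc m a3 hmA ha3.1 (hV1T hmV1) (hV3T ha3.2) hm1 ha31 hm3
  · exact hcase1 A hA hmA

end Cfsg.Agent.Lib.Helper73.QM
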