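import Mathlib
import Cfsg.Agent.Lib.Helper73.QMDefs

/-!
# Project QM (S4404, architect helper73): piece DATA

PLACEHOLDER: replace the body of the theorem(s) in THIS file by a full proof; keep the theorem
name(s) and statement(s) byte-identical; you may add imports of landed libs and auxiliary lemmas
(prefix `qmdata_`). Paper proof: note 2122 (select body from notes where id=2122).
-/

set_option autoImplicit false

open scoped commutatorElement

namespace Cfsg.Agent.Lib.Helper73.QM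

theorem qmdata_comm_mul {S : Type*} [Group S] (M : Subgroup S) [hMn : M.Normal]
    (hc : ∀ a ∈ M, ∀ b ∈ M, a * b = b * a) (y : S) (m m' : S) (hm : m ∈ M) (hm' : m' ∈ M) :
    ⁅y, m * m'⁆ = ⁅y, m⁆ * ⁅y, m'⁆ := by
  have h1 : ⁅y, m'⁆ ∈ M := by
    rw [commutatorElement_def]
    exact M.mul_mem (hMn.conj_mem m' hm' y) (M.inv_mem hm')
  have h2 : ⁅y, m'⁆ * m⁻¹ = m⁻¹ * ⁅y, m'⁆ := hc _ h1 _ (M.inv_mem hm)
  have e1 : ⁅y, m * m'⁆ = y * m * y⁻¹ * (⁅y, m'⁆ * m⁻¹) := by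
    simp only [commutatorElement_def]; group
  have e2 : ⁅y, m⁆ * ⁅y, m'⁆ = y * m * y⁻¹ * (m⁻¹ * ⁅y, m'⁆) := by
    simp only [commutatorElement_def]; group
  rw [e1, e2, h2]

/-- the set of commutators `⁅x, m⁆`, `m ∈ M`, as a subgroup -/
def qmdata_V {S : Type*} [Group S] (M : Subgroup S) [M.Normal]
    (hc : ∀ a ∈ M, ∀ b ∈ M, a * b = b * a) (x : S) : Subgroup S where
  carrier := {v | ∃ m ∈ M, v = ⁅x, m⁆}
  one_mem' := ⟨1, M.one_mem, (commutatorElement_one_right x).symm⟩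
  mul_mem' := by
    rintro _ _ ⟨m, hm, rfl⟩ ⟨m', hm', rfl⟩
    exact ⟨m * m', M.mul_mem hm hm', (qmdata_comm_mul M hc x m m' hm hm').symm⟩
  inv_mem' := by
    rintro _ ⟨m, hm, rfl⟩
    refine ⟨m⁻¹, M.inv_mem hm, ?_⟩
    have h := qmdata_comm_mul M hc x m m⁻¹ hm (M.inv_mem hm)
    rw [mul_inv_cancel, commutatorElement_one_right] at h
    exact inv_eq_of_mul_eq_one_right h.symm

theorem qmdata_V_le {S : Type*} [Group S] (M : Subgroup S) [hMn : M.Normal]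
    (hc : ∀ a ∈ M, ∀ b ∈ M, a * b = b * a) (x : S) : qmdata_V M hc x ≤ M := by
  rintro _ ⟨m, hm, rfl⟩
  rw [commutatorElement_def]
  exact M.mul_mem (hMn.conj_mem m hm x) (M.inv_mem hm)

/-- the elements `y` with `⁅y, M⁆ ⊆ {⁅x, m⁆}` form a subgroup -/
def qmdata_C {S : Type*} [Group S] (M : Subgroup S) [hMn : M.Normal]
    (hc : ∀ a ∈ M, ∀ b ∈ M, a * b = b * a) (x : S) : Subgroup S where
  carrier := {y | ∀ m ∈ M, ⁅y, m⁆ ∈ qmdata_V M hc x}
  one_mem' := fun m _ => by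
    rw [commutatorElement_one_left]; exact Subgroup.one_mem _
  mul_mem' := by
    intro y y' hy hy' m hm
    have e : ⁅y * y', m⁆ = (⁅y, ⁅y', m⁆⁆ * ⁅y', m⁆) * ⁅y, m⁆ := by
      simp only [commutatorElement_def]; group
    rw [e]
    have h1 := hy' m hm
    have h1M : ⁅y', m⁆ ∈ M := qmdata_V_le M hc x h1
    exact Subgroup.mul_mem _ (Subgroup.mul_mem _ (hy _ h1M) h1) (hy m hm)
  inv_mem' := by
    intro y hy m hm
    have e : ⁅y⁻¹, m⁆ = (⁅y, y⁻¹ * m * y⁆)⁻¹ := by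
      simp only [commutatorElement_def]; group
    rw [e]
    apply Subgroup.inv_mem
    apply hy
    have h3 := hMn.conj_mem m hm y⁻¹
    rw [inv_inv] at h3
    exact h3

/-- DATA: a generator `x` of `Q` with the data `QMData M x ⁅Q, M⁆`. -/
theorem qm_data {S : Type*} [Group S] [Finite S] (M : Subgroup S) [M.Normal]
    (hM : Cfsg.IsElementaryAbelian 2 M) (Q : Subgroup S) (hQc : IsCyclic ↥Q)
    (hQ1 : ∀ y ∈ Q, y ^ 3 ∈ Subgroup.centralizer (M : Set S))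
    (hQM : Nat.card ↥⁅Q, M⁆ = 4) :
    ∃ x ∈ Q, QMData M x ⁅Q, M⁆ := by
  have hMn : M.Normal := inferInstance
  have hc : ∀ a ∈ M, ∀ b ∈ M, a * b = b * a := fun a ha b hb =>
    congrArg Subtype.val (hM.1.is_comm.comm ⟨a, ha⟩ ⟨b, hb⟩)
  have h2 : ∀ a ∈ M, a * a = 1 := fun a ha => by rw [← pow_two]; exact hM.2 a ha
  obtain ⟨g, hg⟩ := hQc.exists_generator
  refine ⟨(g : S), g.2, ?_⟩
  generalize hxdef : (g : S) = x
  have hxQ : x ∈ Q := hxdef ▸ g.2
  have hQC : Q ≤ qmdata_C M hc x := by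
    intro y hy
    have h1 := hg ⟨y, hy⟩
    obtain ⟨k, hk⟩ := Subgroup.mem_zpowers_iff.mp h1
    have h3 : x ^ k = y := by
      have h4 := congrArg Subtype.val hk
      rw [Subgroup.coe_zpow, hxdef] at h4
      exact h4
    rw [← h3]
    exact Subgroup.zpow_mem _ (fun m hm => ⟨m, hm, rfl⟩) k
  have hle : ⁅Q, M⁆ ≤ qmdata_V M hc x := by
    rw [Subgroup.commutator_le]
    intro y hy m hm
    exact hQC hy m hm
  have hVM : ⁅Q, M⁆ ≤ M := Subgroup.commutator_le_right Q M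
  have hcube : ∀ m ∈ M, x ^ 3 * m * (x ^ 3)⁻¹ = m := by
    intro m hm
    have h4 := Subgroup.mem_centralizer_iff.mp (hQ1 x hxQ) m hm
    rw [← h4]; group
  refine ⟨hVM, hQM, hcube, ?_, ?_, ?_, ?_⟩
  · intro m hm
    exact Subgroup.commutator_mem_commutator hxQ hm
  · intro v hv
    exact hle hv
  · intro v hv
    have e : x * v * x⁻¹ = ⁅x, v⁆ * v := by
      rw [commutatorElement_def]; group
    rw [e]
    exact Subgroup.mul_mem _ (Subgroup.commutator_mem_commutator hxQ (hVM hv)) hv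
  · intro v hv hfix
    obtain ⟨m, hm, rfl⟩ := hle hv
    have hm1 : x * m * x⁻¹ ∈ M := hMn.conj_mem m hm x
    have hm2 : x * (x * m * x⁻¹) * x⁻¹ ∈ M := hMn.conj_mem _ hm1 x
    have hinv : ∀ a ∈ M, a⁻¹ = a := fun a ha => inv_eq_of_mul_eq_one_left (h2 a ha)
    have e1 : x * ⁅x, m⁆ * x⁻¹ = (x * (x * m * x⁻¹) * x⁻¹) * (x * m * x⁻¹)⁻¹ := by
      rw [commutatorElement_def]; group
    have e2 : ⁅x, m⁆ = (x * m * x⁻¹) * m⁻¹ := by rw [commutatorElement_def]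
    rw [e1, e2, hinv _ hm1, hinv _ hm, hc _ hm2 _ hm1] at hfix
    have h5 : x * (x * m * x⁻¹) * x⁻¹ = m := mul_left_cancel hfix
    have hx3 : x ^ 3 = x * x * x := by rw [pow_succ, pow_two]
    have h6 : x ^ 3 * m * (x ^ 3)⁻¹ = x * (x * (x * m * x⁻¹) * x⁻¹) * x⁻¹ := by
      rw [hx3]; group
    have h7 := hcube m hm
    rw [h6, h5] at h7
    rw [e2, h7]
    exact mul_inv_cancel m

end Cfsg.Agent.Lib.Helper73.QM
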