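import Mathlib
import Cfsg.Agent.Lib.Helper73.QMDefs

/-!
# Project QM (S4404, architect helper73): piece FPF

An element `e` whose cube centralizes the `e`-invariant subgroup `M₁ ≤ M` of the elementary
abelian 2-group `M`: `N = {⁅e, m⁆ : m ∈ M₁}` is a subgroup on which `e` acts without fixed points,
`M₁ = C_{M₁}(e) N`, and `N = 1` or `|N| ≥ 4`.
-/

set_option autoImplicit false

open scoped commutatorElement

namespace Cfsg.Agent.Lib.Helper73.QM

theorem qmfpf_comm {S : Type*} [Group S] {M : Subgroup S} (hM : Cfsg.IsElementaryAbelian 2 M)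
    {a b : S} (ha : a ∈ M) (hb : b ∈ M) : a * b = b * a := by
  have h := hM.1.is_comm.comm (⟨a, ha⟩ : ↥M) ⟨b, hb⟩
  exact congrArg Subtype.val h

theorem qmfpf_sq {S : Type*} [Group S] {M : Subgroup S} (hM : Cfsg.IsElementaryAbelian 2 M)
    {a : S} (ha : a ∈ M) : a * a = 1 := by
  have h := hM.2 a ha
  rwa [pow_two] at h

theorem qmfpf_inv {S : Type*} [Group S] {M : Subgroup S} (hM : Cfsg.IsElementaryAbelian 2 M)
    {a : S} (ha : a ∈ M) : a⁻¹ = a :=
  inv_eq_of_mul_eq_one_left (qmfpf_sq hM ha)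

/-- FPF: an element `e` whose cube centralizes the `e`-invariant subgroup `M₁ ≤ M`:
`N = {⁅e, m⁆ : m ∈ M₁}` is a subgroup on which `e` acts without fixed points,
`M₁ = C_{M₁}(e) N`, and `N = 1` or `|N| ≥ 4`. -/
theorem qm_fpf {S : Type*} [Group S] [Finite S] (M : Subgroup S) [M.Normal]
    (hM : Cfsg.IsElementaryAbelian 2 M) (e : S) (M₁ : Subgroup S) (hM₁ : M₁ ≤ M)
    (hn : ∀ m ∈ M₁, e * m * e⁻¹ ∈ M₁) (he : ∀ m ∈ M₁, e ^ 3 * m * (e ^ 3)⁻¹ = m) :
    ∃ N : Subgroup S, N ≤ M₁ ∧ (∀ m ∈ M₁, ⁅e, m⁆ ∈ N) ∧ (∀ n ∈ N, ∃ m ∈ M₁, n = ⁅e, m⁆) ∧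
      (∀ n ∈ N, e * n * e⁻¹ ∈ N) ∧ (∀ n ∈ N, e * n * e⁻¹ = n → n = 1) ∧
      (∀ m ∈ M₁, ∃ c ∈ M₁, ∃ n ∈ N, e * c * e⁻¹ = c ∧ m = c * n) ∧
      (N = ⊥ ∨ 4 ≤ Nat.card ↥N) := by
  classical
  have hc : ∀ {a b : S}, a ∈ M₁ → b ∈ M₁ → a * b = b * a :=
    fun ha hb => qmfpf_comm hM (hM₁ ha) (hM₁ hb)
  have hsq : ∀ {a : S}, a ∈ M₁ → a * a = 1 := fun ha => qmfpf_sq hM (hM₁ ha)
  have hinv : ∀ {a : S}, a ∈ M₁ → a⁻¹ = a := fun ha => qmfpf_inv hM (hM₁ ha)
  -- the cube relation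
  have h3 : ∀ m ∈ M₁, e * (e * (e * m * e⁻¹) * e⁻¹) * e⁻¹ = m := by
    intro m hm
    have := he m hm
    calc e * (e * (e * m * e⁻¹) * e⁻¹) * e⁻¹ = e ^ 3 * m * (e ^ 3)⁻¹ := by
          simp only [pow_succ, pow_zero, one_mul, mul_inv_rev, mul_assoc]
      _ = m := this
  -- the homomorphism m ↦ ⁅e, m⁆ on M₁
  let φ : ↥M₁ →* S :=
    { toFun := fun m => e * (m : S) * e⁻¹ * (m : S)⁻¹
      map_one' := by simp
      map_mul' := by
        intro a b
        have ha := a.2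
        have hb := b.2
        have hfa := hn _ ha
        have hfb := hn _ hb
        show e * ((a : S) * (b : S)) * e⁻¹ * ((a : S) * (b : S))⁻¹ =
          e * (a : S) * e⁻¹ * (a : S)⁻¹ * (e * (b : S) * e⁻¹ * (b : S)⁻¹)
        have h1 : e * ((a : S) * (b : S)) * e⁻¹ = (e * (a : S) * e⁻¹) * (e * (b : S) * e⁻¹) := by
          group
        have h2 : ((a : S) * (b : S))⁻¹ = (a : S)⁻¹ * (b : S)⁻¹ := by
          rw [mul_inv_rev]
          exact hc (M₁.inv_mem hb) (M₁.inv_mem ha)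
        rw [h1, h2]
        have h4 : (e * (b : S) * e⁻¹) * (a : S)⁻¹ = (a : S)⁻¹ * (e * (b : S) * e⁻¹) :=
          hc hfb (M₁.inv_mem ha)
        calc e * (a : S) * e⁻¹ * (e * (b : S) * e⁻¹) * ((a : S)⁻¹ * (b : S)⁻¹)
            = e * (a : S) * e⁻¹ * ((e * (b : S) * e⁻¹) * (a : S)⁻¹) * (b : S)⁻¹ := by
              simp only [mul_assoc]
          _ = e * (a : S) * e⁻¹ * ((a : S)⁻¹ * (e * (b : S) * e⁻¹)) * (b : S)⁻¹ := by rw [h4]
          _ = e * (a : S) * e⁻¹ * (a : S)⁻¹ * (e * (b : S) * e⁻¹ * (b : S)⁻¹) := by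
              simp only [mul_assoc] }
  have hφ : ∀ m : ↥M₁, φ m = e * (m : S) * e⁻¹ * (m : S)⁻¹ := fun _ => rfl
  have hNle : φ.range ≤ M₁ := by
    rintro _ ⟨m, rfl⟩
    rw [hφ]
    exact M₁.mul_mem (hn _ m.2) (M₁.inv_mem m.2)
  have hmemN : ∀ m ∈ M₁, ⁅e, m⁆ ∈ φ.range := by
    intro m hm
    exact ⟨⟨m, hm⟩, by rw [hφ, commutatorElement_def]⟩
  have hconj : ∀ n ∈ φ.range, e * n * e⁻¹ ∈ φ.range := by
    rintro _ ⟨m, rfl⟩
    refine ⟨⟨e * (m : S) * e⁻¹, hn _ m.2⟩, ?_⟩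
    rw [hφ, hφ]
    group
  have hfpf : ∀ n ∈ φ.range, e * n * e⁻¹ = n → n = 1 := by
    rintro _ ⟨m, rfl⟩ hfix
    rw [hφ] at hfix ⊢
    set a : S := (m : S) with ha_def
    have ha : a ∈ M₁ := m.2
    set b : S := e * a * e⁻¹ with hb_def
    have hb : b ∈ M₁ := hn _ ha
    set c : S := e * b * e⁻¹ with hc_def
    have hcm : c ∈ M₁ := hn _ hb
    have hfc : e * c * e⁻¹ = a := h3 a ha
    -- hfix : e * (b * a⁻¹) * e⁻¹ = b * a⁻¹
    have h1 : c * b⁻¹ = b * a⁻¹ := by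
      have : e * (b * a⁻¹) * e⁻¹ = c * b⁻¹ := by
        rw [hc_def, hb_def]; group
      rw [← this]; exact hfix
    rw [hinv hb, hinv ha] at h1
    -- c * b = b * a, hence c = a
    have h2 : c = a := by
      have : c * b = a * b := by rw [h1]; exact hc hb ha
      exact mul_right_cancel this
    -- then b = e c e⁻¹ ... : e * c * e⁻¹ = a and c = a give e * a * e⁻¹ = a, i.e. b = a
    have h4 : b = a := by
      rw [hb_def]
      rw [h2] at hfc
      exact hfc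
    rw [h4]
    exact mul_inv_cancel a
  have hdec : ∀ m ∈ M₁, ∃ c ∈ M₁, ∃ n ∈ φ.range, e * c * e⁻¹ = c ∧ m = c * n := by
    intro a ha
    obtain ⟨b, hb_def⟩ : ∃ b : S, b = e * a * e⁻¹ := ⟨_, rfl⟩
    have hb : b ∈ M₁ := hb_def ▸ hn _ ha
    obtain ⟨c, hc_def⟩ : ∃ c : S, c = e * b * e⁻¹ := ⟨_, rfl⟩
    have hcm : c ∈ M₁ := hc_def ▸ hn _ hb
    have hfc : e * c * e⁻¹ = a := by
      rw [hc_def, hb_def]; exact h3 a ha
    refine ⟨a * b * c, M₁.mul_mem (M₁.mul_mem ha hb) hcm, c * b⁻¹, ⟨⟨b, hb⟩, ?_⟩, ?_, ?_⟩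
    · rw [hφ, hc_def]
    · have h5 : e * (a * b * c) * e⁻¹ = (e * a * e⁻¹) * (e * b * e⁻¹) * (e * c * e⁻¹) := by
        simp only [mul_assoc, inv_mul_cancel_left]
      rw [h5, hfc, ← hb_def, ← hc_def]
      -- b * c * a = a * b * c
      calc b * c * a = a * (b * c) := hc (M₁.mul_mem hb hcm) ha
        _ = a * b * c := by rw [mul_assoc]
    · rw [hinv hb]
      have hcc : c * c = 1 := hsq hcm
      have hbb : b * b = 1 := hsq hb
      calc a = a * (b * b) := by rw [hbb, mul_one]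
        _ = a * b * (c * c) * b := by rw [hcc, mul_one, mul_assoc]
        _ = a * b * c * (c * b) := by simp only [mul_assoc]
  refine ⟨φ.range, hNle, hmemN, ?_, hconj, hfpf, hdec, ?_⟩
  · rintro _ ⟨m, rfl⟩
    exact ⟨m, m.2, by rw [hφ, commutatorElement_def]⟩
  · by_cases hbot : φ.range = ⊥
    · exact Or.inl hbot
    · right
      -- φ.range is a 2-group of order ≠ 1, 2
      have hp2 : IsPGroup 2 ↥φ.range := by
        intro g
        refine ⟨1, ?_⟩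
        apply Subtype.ext
        have := qmfpf_sq hM (hM₁ (hNle g.2))
        simp [pow_one, pow_two, this]
      obtain ⟨k, hk⟩ := IsPGroup.iff_card.mp hp2
      have hk0 : k ≠ 0 := by
        rintro rfl
        apply hbot
        exact Subgroup.eq_bot_of_card_eq _ (by simpa using hk)
      have hk1 : k ≠ 1 := by
        rintro rfl
        rw [pow_one] at hk
        obtain ⟨n, hnN, hn1⟩ := (Subgroup.ne_bot_iff_exists_ne_one).mp hbot |>.imp
          (fun n h => h) |> fun ⟨n, h⟩ => (⟨(n : S), n.2, fun h1 => h (Subtype.ext h1)⟩ :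
            ∃ n : S, n ∈ φ.range ∧ n ≠ 1)
        have hfn : e * n * e⁻¹ ∈ φ.range := hconj n hnN
        have hfn1 : e * n * e⁻¹ ≠ 1 := by
          intro h
          apply hn1
          have : n = e⁻¹ * (e * n * e⁻¹) * e := by group
          rw [this, h]; group
        -- a group of order 2 has a unique nonidentity element
        obtain ⟨y, hy1, hyu⟩ := (Nat.card_eq_two_iff' (1 : ↥φ.range)).mp hk
        have e1 : (⟨n, hnN⟩ : ↥φ.range) = y :=
          hyu _ (fun h => hn1 (congrArg Subtype.val h))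
        have e2 : (⟨e * n * e⁻¹, hfn⟩ : ↥φ.range) = y :=
          hyu _ (fun h => hfn1 (congrArg Subtype.val h))
        have : e * n * e⁻¹ = n := congrArg Subtype.val (e2.trans e1.symm)
        exact hn1 (hfpf n hnN this)
      have hk2 : 2 ≤ k := by omega
      rw [hk]
      calc 4 = 2 ^ 2 := by norm_num
        _ ≤ 2 ^ k := Nat.pow_le_pow_right (by norm_num) hk2

end Cfsg.Agent.Lib.Helper73.QM
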