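import Mathlib
import Cfsg.Agent.Lib.Helper73.QMDefs
import Cfsg.Agent.S3734

/-!
# Project QM (S4404, architect helper73): piece GEN

Filled in by helper20.  Proof: the landed S3734 (generation by the fixed points of the subgroups
`B ≤ E` with `E = ⟨B, a⟩`) for `E` acting on `M`; such a `B` has order at least 9 (`qmgen_card`),
hence contains a subgroup `K` of order 9, and `C_M(B) ≤ C_M(K)`.
-/

set_option autoImplicit false

open scoped commutatorElement

namespace Cfsg.Agent.Lib.Helper73.QM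

/-- if `E = ⟨B, a⟩` is elementary abelian of order 27 then `27 ≤ 3 |B|` -/
theorem qmgen_card {S : Type*} [Group S] [Finite S] (E : Subgroup S)
    (hE : Cfsg.IsElementaryAbelian 3 E) (hE27 : Nat.card ↥E = 27) (B : Subgroup S) (hBE : B ≤ E)
    (a : S) (haE : a ∈ E) (hBa : B ⊔ Subgroup.zpowers a = E) : 27 ≤ Nat.card ↥B * 3 := by
  have hcomm : ∀ x ∈ E, ∀ y ∈ E, x * y = y * x := by
    intro x hx y hy
    exact congrArg Subtype.val (hE.1.is_comm.comm ⟨x, hx⟩ ⟨y, hy⟩)
  have ha3 : a ^ 3 = 1 := hE.2 a haE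
  have hdecomp : ∀ x ∈ E, ∃ b ∈ B, ∃ k : ℤ, x = b * a ^ k := by
    let H' : Subgroup S :=
      { carrier := {x | ∃ b ∈ B, ∃ k : ℤ, x = b * a ^ k}
        one_mem' := ⟨1, B.one_mem, 0, by simp⟩
        mul_mem' := by
          rintro _ _ ⟨b, hb, k, rfl⟩ ⟨b', hb', k', rfl⟩
          refine ⟨b * b', B.mul_mem hb hb', k + k', ?_⟩
          have h1 : a ^ k * b' = b' * a ^ k := hcomm _ (E.zpow_mem haE k) _ (hBE hb')
          rw [zpow_add]
          calc b * a ^ k * (b' * a ^ k') = b * (a ^ k * b') * a ^ k' := by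
                simp only [mul_assoc]
            _ = b * (b' * a ^ k) * a ^ k' := by rw [h1]
            _ = b * b' * (a ^ k * a ^ k') := by simp only [mul_assoc]
        inv_mem' := by
          rintro _ ⟨b, hb, k, rfl⟩
          refine ⟨b⁻¹, B.inv_mem hb, -k, ?_⟩
          have h1 : a ^ k * b = b * a ^ k := hcomm _ (E.zpow_mem haE k) _ (hBE hb)
          rw [← h1, mul_inv_rev, zpow_neg] }
    have hB' : B ≤ H' := fun b hb => ⟨b, hb, 0, by simp⟩
    have hZ' : Subgroup.zpowers a ≤ H' := by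
      rw [Subgroup.zpowers_le]
      exact ⟨1, B.one_mem, 1, by simp⟩
    intro x hx
    have hx' : x ∈ B ⊔ Subgroup.zpowers a := by
      rw [hBa]
      exact hx
    exact (sup_le hB' hZ') hx'
  have hdecomp' : ∀ x : ↥E, ∃ b ∈ B, ∃ i : Fin 3, (x : S) = b * a ^ (i : ℕ) := by
    intro x
    obtain ⟨b, hb, k, hk⟩ := hdecomp x.1 x.2
    have h3 : a ^ (3 : ℤ) = 1 := by
      rw [show (3 : ℤ) = ((3 : ℕ) : ℤ) by norm_num, zpow_natCast]
      exact ha3
    have h0 : 0 ≤ k % 3 := Int.emod_nonneg k (by norm_num)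
    have h1 : k % 3 < 3 := Int.emod_lt_of_pos k (by norm_num)
    refine ⟨b, hb, ⟨(k % 3).toNat, by omega⟩, ?_⟩
    rw [hk, zpow_eq_zpow_emod k h3]
    show b * a ^ (k % 3) = b * a ^ (k % 3).toNat
    rw [← zpow_natCast, Int.toNat_of_nonneg h0]
  choose fb hfb fk hfk using hdecomp'
  have hinj : Function.Injective (fun x : ↥E => ((⟨fb x, hfb x⟩ : ↥B), fk x)) := by
    intro x y hxy
    simp only [Prod.mk.injEq, Subtype.mk.injEq] at hxy
    apply Subtype.ext
    rw [hfk x, hfk y, hxy.1, hxy.2]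
  have h := Nat.card_le_card_of_injective _ hinj
  rw [hE27, Nat.card_prod, Nat.card_fin] at h
  exact h

/-- GEN: `M` is generated by the centralizers in `M` of the subgroups of order 9 of an
elementary abelian group `E` of order 27. -/
theorem qm_gen {S : Type*} [Group S] [Finite S] (M : Subgroup S) [M.Normal]
    (hM : Cfsg.IsElementaryAbelian 2 M) (E : Subgroup S) (hE : Cfsg.IsElementaryAbelian 3 E)
    (hE27 : Nat.card ↥E = 27) :
    M ≤ ⨆ K : {K : Subgroup S // K ≤ E ∧ Nat.card ↥K = 9},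
      M ⊓ Subgroup.centralizer (((K : Subgroup S) : Subgroup S) : Set S) := by
  have hEab : IsMulCommutative ↥E := hE.1
  have hEM : E ≤ Subgroup.normalizer (M : Set S) := by
    intro x _
    rw [Subgroup.normalizer_eq_top]
    exact Subgroup.mem_top x
  have hMp : IsPGroup 2 ↥M := by
    intro m
    refine ⟨1, ?_⟩
    rw [pow_one]
    apply Subtype.ext
    rw [Subgroup.coe_pow]
    exact hM.2 m.1 m.2
  have hcop : (Nat.card ↥E).Coprime (Nat.card ↥M) := by
    obtain ⟨k, hk⟩ := IsPGroup.iff_card.1 hMp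
    rw [hE27, hk]
    exact Nat.Coprime.pow_right k (by norm_num)
  have key := (Cfsg.Agent.S3734.result E M hEab hEM hcop).1
  refine key.symm.le.trans ?_
  apply iSup₂_le
  rintro B ⟨hBE, a, haE, hBa⟩
  have h27 := qmgen_card E hE hE27 B hBE a haE hBa
  have hdvd : Nat.card ↥B ∣ 27 := by
    rw [← hE27]
    exact Subgroup.card_dvd_of_le hBE
  have h9 : 3 ^ 2 ∣ Nat.card ↥B := by
    obtain ⟨j, hj⟩ := hdvd
    have hj3 : j ≤ 3 := by
      by_contra hlt
      have h4 : 4 ≤ j := by omega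
      have h5 : Nat.card ↥B * 4 ≤ Nat.card ↥B * j := Nat.mul_le_mul_left _ h4
      omega
    interval_cases j
    · omega
    · exact ⟨3, by omega⟩
    · omega
    · exact ⟨1, by omega⟩
  haveI : Fact (Nat.Prime 3) := ⟨Nat.prime_three⟩
  obtain ⟨K₀, hK₀⟩ := Sylow.exists_subgroup_card_pow_prime 3 h9
  have hKB : K₀.map B.subtype ≤ B := Subgroup.map_subtype_le K₀
  have hK9 : Nat.card ↥(K₀.map B.subtype) = 9 := by
    rw [Subgroup.card_map_of_injective B.subtype_injective, hK₀]
    norm_num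
  have hle : M ⊓ Subgroup.centralizer (B : Set S) ≤
      M ⊓ Subgroup.centralizer ((K₀.map B.subtype : Subgroup S) : Set S) :=
    inf_le_inf_left M (Subgroup.centralizer_le hKB)
  exact hle.trans (le_iSup (fun K : {K : Subgroup S // K ≤ E ∧ Nat.card ↥K = 9} =>
    M ⊓ Subgroup.centralizer (((K : Subgroup S) : Subgroup S) : Set S))
    ⟨K₀.map B.subtype, hKB.trans hBE, hK9⟩)

end Cfsg.Agent.Lib.Helper73.QM
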