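import Mathlib
import Cfsg.Agent.Lib.Helper73.QMDefs
import Cfsg.Agent.S0018
import Cfsg.Agent.S0640
import Cfsg.Agent.Lib.Helper41.Cores

/-!
# Project QM (S4404, architect helper73): piece NOP

Filled by helper68. Paper proof: note 2122. Auxiliary lemmas carry the prefix `qmnop_`.
-/

set_option autoImplicit false

open scoped commutatorElement

namespace Cfsg.Agent.Lib.Helper73.QM

/-- Under the hypotheses of NOP the `3'`-core is trivial. -/
theorem qmnop_pPrimeCore_bot {K : Type*} [Group K] [Finite K] (p : ℕ) [Fact p.Prime]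
    (hK : ∀ q : ℕ, q.Prime → q ∣ Nat.card K → q = 3 ∨ q = p)
    (hcore : ∀ N : Subgroup K, N.Normal → IsPGroup p ↥N → N = ⊥) :
    Cfsg.pPrimeCore 3 K = ⊥ := by
  unfold Cfsg.pPrimeCore
  rw [sSup_eq_bot]
  rintro N ⟨hNn, hcop⟩
  apply hcore N hNn
  have key : ∀ q : ℕ, q.Prime → q ∣ Nat.card N → q = p := by
    intro q hq hqd
    rcases hK q hq (hqd.trans (Subgroup.card_subgroup_dvd_card N)) with h | h
    · subst h
      exfalso
      have := Nat.Coprime.eq_one_of_dvd hcop.symm hqd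
      omega
    · exact h
  have hcardN : Nat.card N = p ^ (Nat.card N).primeFactorsList.length :=
    Nat.eq_prime_pow_of_unique_prime_dvd Nat.card_pos.ne' (fun {d} hd hdd => key d hd hdd)
  exact IsPGroup.of_card hcardN

/-- A 3-subgroup of a group without elementary abelian subgroups of order 27 has rank ≤ 2. -/
theorem qmnop_rank {K : Type*} [Group K] [Finite K] (R : Subgroup K) (hR3 : IsPGroup 3 ↥R)
    (h3 : ∀ A : Subgroup K, Cfsg.IsElementaryAbelian 3 A → Nat.card ↥A ≠ 27) :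
    Cfsg.PRankLE 3 2 ↥R := by
  intro A hAc hA3
  by_contra hlt
  push Not at hlt
  have h3p : Fact (Nat.Prime 3) := ⟨Nat.prime_three⟩
  have hApg : IsPGroup 3 ↥A := hR3.to_subgroup A
  obtain ⟨k, hk⟩ := IsPGroup.iff_card.1 hApg
  have hk3 : 3 ≤ k := by
    by_contra hk'
    push Not at hk'
    have : 3 ^ k ≤ 3 ^ 2 := Nat.pow_le_pow_right (by norm_num) (by omega)
    omega
  have hdvd : 3 ^ 3 ∣ Nat.card ↥A := by
    rw [hk]; exact pow_dvd_pow 3 hk3
  obtain ⟨B, hB⟩ := Sylow.exists_subgroup_card_pow_prime 3 hdvd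
  have hCcard : Nat.card ↥((B.map A.subtype).map R.subtype) = 27 := by
    have h1 : Nat.card ↥((B.map A.subtype).map R.subtype) = Nat.card ↥(B.map A.subtype) :=
      Subgroup.card_map_of_injective R.subtype_injective
    have h2 : Nat.card ↥(B.map A.subtype) = Nat.card ↥B :=
      Subgroup.card_map_of_injective A.subtype_injective
    rw [h1, h2, hB]; norm_num
  refine h3 _ ⟨⟨⟨?_⟩⟩, ?_⟩ hCcard
  · rintro ⟨x, hx⟩ ⟨y, hy⟩
    obtain ⟨x', hx', rfl⟩ := hx
    obtain ⟨y', hy', rfl⟩ := hy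
    obtain ⟨x'', hx'', rfl⟩ := hx'
    obtain ⟨y'', hy'', rfl⟩ := hy'
    apply Subtype.ext
    have h1 := hAc.is_comm.comm x'' y''
    have h2 := congrArg (fun z : ↥A => ((z : ↥R) : K)) h1
    simpa using h2
  · rintro x ⟨x', ⟨x'', hx'', rfl⟩, rfl⟩
    have h1 := hA3 x''.1 x''.2
    have h2 := congrArg (fun z : ↥R => (z : K)) h1
    simpa using h2

/-- NOP: a solvable `{3, p}`-group (`p ≥ 5`) with no nontrivial normal `p`-subgroup and no
elementary abelian subgroup of order 27 is a 3-group. -/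
theorem qm_no_p {K : Type*} [Group K] [Finite K] [Group.IsSolvable K] (p : ℕ) [Fact p.Prime]
    (hp5 : 5 ≤ p) (hK : ∀ q : ℕ, q.Prime → q ∣ Nat.card K → q = 3 ∨ q = p)
    (hcore : ∀ N : Subgroup K, N.Normal → IsPGroup p ↥N → N = ⊥)
    (h3 : ∀ A : Subgroup K, Cfsg.IsElementaryAbelian 3 A → Nat.card ↥A ≠ 27) :
    ¬ p ∣ Nat.card K := by
  intro hpK
  have hp : p.Prime := Fact.out
  have h3p : Fact (Nat.Prime 3) := ⟨Nat.prime_three⟩
  have hO : Cfsg.pPrimeCore 3 K = ⊥ := qmnop_pPrimeCore_bot p hK hcore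
  have hcent := Cfsg.Agent.S0018.centralizer_pCore_le (G := K) 3 hO
  have hRn : (Cfsg.pCore 3 K).Normal := Subgroup.sSup_normal _ (fun _ h => h.1)
  have hR3 : IsPGroup 3 ↥(Cfsg.pCore 3 K) := Cfsg.Agent.Lib.Helper41.pCore_isPGroup 3
  have hrk : Cfsg.PRankLE 3 2 ↥(Cfsg.pCore 3 K) := qmnop_rank (Cfsg.pCore 3 K) hR3 h3
  obtain ⟨g, hg⟩ := exists_prime_orderOf_dvd_card' p hpK
  obtain ⟨R, hRdef⟩ : ∃ R : Subgroup K, R = Cfsg.pCore 3 K := ⟨_, rfl⟩
  rw [← hRdef] at hcent hRn hR3 hrk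
  by_cases hφ : (MulAut.conjNormal : K →* MulAut ↥R) g = 1
  · have hgc : g ∈ Subgroup.centralizer (R : Set K) := by
      rw [Subgroup.mem_centralizer_iff]
      intro r hr
      have h1 := congrArg (fun f : MulAut ↥R => ((f ⟨r, hr⟩ : ↥R) : K)) hφ
      simp only [MulAut.conjNormal_apply, MulAut.one_apply] at h1
      calc r * g = (g * r * g⁻¹) * g := by rw [h1]
        _ = g * r := by group
    have hgR : g ∈ R := hcent hgc
    obtain ⟨k, hk⟩ := hR3 ⟨g, hgR⟩
    have hk' : g ^ 3 ^ k = 1 := by simpa using congrArg Subtype.val hk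
    have hd : p ∣ 3 ^ k := hg ▸ orderOf_dvd_of_pow_eq_one hk'
    have := (Nat.prime_dvd_prime_iff_eq hp Nat.prime_three).1 (hp.dvd_of_dvd_pow hd)
    omega
  · have ho : orderOf ((MulAut.conjNormal : K →* MulAut ↥R) g) = p := by
      have hdv : orderOf ((MulAut.conjNormal : K →* MulAut ↥R) g) ∣ p := by
        rw [← hg]; exact orderOf_map_dvd _ g
      rcases (Nat.dvd_prime hp).1 hdv with h1 | h1
      · exact absurd (orderOf_eq_one_iff.1 h1) hφ
      · exact h1
    have hdvd : p ∣ Nat.card (MulAut ↥R) := ho ▸ orderOf_dvd_natCard _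
    have := (Cfsg.Agent.S0640.result (p := 3) (by norm_num) hR3 hrk p hp (by omega) hdvd).2
    omega

end Cfsg.Agent.Lib.Helper73.QM
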