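import Mathlib
import Cfsg.Agent.Lib.Helper73.QMDefs
import Cfsg.Agent.Lib.Helper73.QMNoP

/-!
# Project QM (S4404, architect helper73): piece SYLN

A solvable `{3, p}`-group (`p ≥ 5`) with no elementary abelian subgroup of order 27 has a normal
`p`-subgroup containing all `p`-elements: apply `qm_no_p` to the quotient by the largest normal
`p`-subgroup (an elementary abelian subgroup of order 27 of the quotient lifts to a Sylow
3-subgroup of its preimage).
-/

set_option autoImplicit false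

open scoped commutatorElement

namespace Cfsg.Agent.Lib.Helper73.QM

/-- lifting an elementary abelian 3-subgroup of order 27 from `H ⧸ P`, `P` a normal `p`-subgroup -/
theorem qmsyln_lift {H : Type*} [Group H] [Finite H] (p : ℕ) [Fact p.Prime] (hp5 : 5 ≤ p)
    (P : Subgroup H) [P.Normal] (hP : IsPGroup p ↥P) (A : Subgroup (H ⧸ P))
    (hA : Cfsg.IsElementaryAbelian 3 A) (hA27 : Nat.card ↥A = 27) :
    ∃ X : Subgroup H, Cfsg.IsElementaryAbelian 3 X ∧ Nat.card ↥X = 27 := by
  have : Fact (Nat.Prime 3) := ⟨Nat.prime_three⟩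
  have hpp : p.Prime := Fact.out
  have hπs : Function.Surjective (QuotientGroup.mk' P) := QuotientGroup.mk'_surjective P
  set B : Subgroup H := A.comap (QuotientGroup.mk' P) with hB
  have hcardB : Nat.card ↥B = Nat.card ↥P * 27 := by
    have h1 : Nat.card ↥B * B.index = Nat.card H := Subgroup.card_mul_index B
    have h2 : Nat.card ↥A * A.index = Nat.card (H ⧸ P) := Subgroup.card_mul_index A
    have h3 : Nat.card H = Nat.card (H ⧸ P) * Nat.card ↥P :=
      Subgroup.card_eq_card_quotient_mul_card_subgroup P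
    have h4 : B.index = A.index := Subgroup.index_comap_of_surjective A hπs
    have h5 : 0 < A.index := Nat.pos_of_ne_zero Subgroup.index_ne_zero_of_finite
    rw [h4, h3, ← h2, hA27] at h1
    have h6 : Nat.card ↥B * A.index = Nat.card ↥P * 27 * A.index := by
      rw [h1]; ring
    exact Nat.eq_of_mul_eq_mul_right h5 h6
  let X : Sylow 3 ↥B := Classical.arbitrary _
  obtain ⟨j, hj⟩ := IsPGroup.iff_card.mp X.isPGroup'
  have hidx : ¬ 3 ∣ (X : Subgroup ↥B).index := X.not_dvd_index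
  have hmul : Nat.card ↥(X : Subgroup ↥B) * (X : Subgroup ↥B).index = Nat.card ↥B :=
    Subgroup.card_mul_index _
  obtain ⟨m, hm⟩ := IsPGroup.iff_card.mp hP
  have hXcard : Nat.card ↥(X : Subgroup ↥B) = 27 := by
    rw [hj] at hmul ⊢
    rw [hcardB, hm] at hmul
    have h3p : Nat.Coprime 3 p := (Nat.coprime_primes Nat.prime_three hpp).2 (by omega)
    have hcop : Nat.Coprime (3 ^ j) (p ^ m) := Nat.Coprime.pow _ _ h3p
    have h1 : 3 ^ j ∣ 27 := by
      have h7 : 3 ^ j ∣ p ^ m * 27 := Dvd.intro _ hmul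
      exact hcop.dvd_of_dvd_mul_left h7
    have hcop2 : Nat.Coprime 27 (X : Subgroup ↥B).index := by
      have h8 : Nat.Coprime 3 (X : Subgroup ↥B).index :=
        (Nat.Prime.coprime_iff_not_dvd Nat.prime_three).2 hidx
      exact Nat.Coprime.pow_left 3 h8
    have h2 : 27 ∣ 3 ^ j := by
      have h9 : 27 ∣ 3 ^ j * (X : Subgroup ↥B).index := by
        rw [hmul]; exact Dvd.intro_left _ rfl
      exact hcop2.dvd_of_dvd_mul_right h9
    exact Nat.dvd_antisymm h1 h2
  set X' : Subgroup H := (X : Subgroup ↥B).map B.subtype with hX'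
  have hX'card : Nat.card ↥X' = 27 := by
    rw [hX', Subgroup.card_map_of_injective B.subtype_injective]
    exact hXcard
  have hX'B : X' ≤ B := Subgroup.map_subtype_le _
  have hX'3 : IsPGroup 3 ↥X' := X.isPGroup'.map _
  have hdisj : Disjoint X' P := IsPGroup.disjoint_of_ne 3 p (by omega) X' P hX'3 hP
  have hone : ∀ z : H, z ∈ X' → (QuotientGroup.mk' P z) = 1 → z = 1 := by
    intro z hz1 hz2
    have hz3 : z ∈ P := (QuotientGroup.eq_one_iff z).1 hz2
    exact Subgroup.disjoint_def.1 hdisj hz1 hz3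
  have hmemA : ∀ z : H, z ∈ X' → QuotientGroup.mk' P z ∈ A := fun z hz =>
    Subgroup.mem_comap.1 (hX'B hz)
  refine ⟨X', ⟨⟨⟨?_⟩⟩, ?_⟩, hX'card⟩
  · rintro ⟨a, ha⟩ ⟨b, hb⟩
    apply Subtype.ext
    show a * b = b * a
    have hcomm : (⟨QuotientGroup.mk' P a, hmemA a ha⟩ : ↥A) * ⟨QuotientGroup.mk' P b, hmemA b hb⟩ =
        ⟨QuotientGroup.mk' P b, hmemA b hb⟩ * ⟨QuotientGroup.mk' P a, hmemA a ha⟩ :=
      hA.1.is_comm.comm _ _
    have hcomm' : QuotientGroup.mk' P a * QuotientGroup.mk' P b =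
        QuotientGroup.mk' P b * QuotientGroup.mk' P a := congrArg Subtype.val hcomm
    have hc : a * b * (b * a)⁻¹ = 1 := by
      apply hone
      · exact X'.mul_mem (X'.mul_mem ha hb) (X'.inv_mem (X'.mul_mem hb ha))
      · rw [map_mul, map_mul, map_inv, map_mul, hcomm', mul_inv_cancel]
    exact mul_inv_eq_one.1 hc
  · intro a ha
    apply hone
    · exact X'.pow_mem ha 3
    · rw [map_pow]
      exact hA.2 _ (hmemA a ha)

/-- SYLN: a solvable `{3, p}`-group (`p ≥ 5`) with no elementary abelian subgroup of order 27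
has a normal `p`-subgroup containing all `p`-elements. -/
theorem qm_sylow_normal {H : Type*} [Group H] [Finite H] [Group.IsSolvable H] (p : ℕ)
    [Fact p.Prime] (hp5 : 5 ≤ p) (hH : ∀ q : ℕ, q.Prime → q ∣ Nat.card H → q = 3 ∨ q = p)
    (h3 : ∀ A : Subgroup H, Cfsg.IsElementaryAbelian 3 A → Nat.card ↥A ≠ 27) :
    ∃ P : Subgroup H, P.Normal ∧ IsPGroup p ↥P ∧
      ∀ g : H, (∃ k : ℕ, orderOf g = p ^ k) → g ∈ P := by
  have hpp : p.Prime := Fact.out
  set P : Subgroup H := sSup {N : Subgroup H | N.Normal ∧ IsPGroup p ↥N} with hPdef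
  have hPn : P.Normal := Subgroup.sSup_normal _ (fun _ hN => hN.1)
  have hPp : IsPGroup p ↥P := Sylow.sSup_of_normal _ (fun _ hN => hN.2) (fun _ hN => hN.1)
  have hK : ∀ q : ℕ, q.Prime → q ∣ Nat.card (H ⧸ P) → q = 3 ∨ q = p := by
    intro q hq hdvd
    apply hH q hq
    refine hdvd.trans ?_
    rw [Subgroup.card_eq_card_quotient_mul_card_subgroup P]
    exact Dvd.intro _ rfl
  have hcore : ∀ N : Subgroup (H ⧸ P), N.Normal → IsPGroup p ↥N → N = ⊥ := by
    intro N hN hNp
    have h1 : IsPGroup p ↥(N.comap (QuotientGroup.mk' P)) := by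
      apply hNp.comap_of_ker_isPGroup
      rw [QuotientGroup.ker_mk']
      exact hPp
    have h2 : (N.comap (QuotientGroup.mk' P)).Normal := hN.comap _
    have h4 : N.comap (QuotientGroup.mk' P) ≤ P := le_sSup ⟨h2, h1⟩
    rw [eq_bot_iff]
    intro x hx
    obtain ⟨y, rfl⟩ := QuotientGroup.mk'_surjective P x
    have h5 : y ∈ P := h4 (Subgroup.mem_comap.2 hx)
    rw [Subgroup.mem_bot]
    exact (QuotientGroup.eq_one_iff y).2 h5
  have h3' : ∀ A : Subgroup (H ⧸ P), Cfsg.IsElementaryAbelian 3 A → Nat.card ↥A ≠ 27 := by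
    intro A hA hA27
    obtain ⟨X, hX, hX27⟩ := qmsyln_lift p hp5 P hPp A hA hA27
    exact h3 X hX hX27
  have hnp := qm_no_p p hp5 hK hcore h3'
  refine ⟨P, hPn, hPp, ?_⟩
  rintro g ⟨k, hk⟩
  rw [← QuotientGroup.eq_one_iff]
  have h1 : orderOf (QuotientGroup.mk' P g) ∣ p ^ k := by
    rw [← hk]
    exact orderOf_map_dvd _ g
  obtain ⟨j, hj, hj2⟩ := (Nat.dvd_prime_pow hpp).1 h1
  have h2 : orderOf (QuotientGroup.mk' P g) ∣ Nat.card (H ⧸ P) := orderOf_dvd_natCard _
  rcases Nat.eq_zero_or_pos j with h0 | hpos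
  · rw [h0, pow_zero, orderOf_eq_one_iff] at hj2
    exact hj2
  · exfalso
    apply hnp
    rw [hj2] at h2
    exact (dvd_pow_self p hpos.ne').trans h2

end Cfsg.Agent.Lib.Helper73.QM
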