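import Mathlib
import Cfsg.Agent.Lib.Helper73.QMDefs
import Cfsg.Agent.Lib.Helper73.QMSylN
import Cfsg.Agent.Lib.Helper66.PiHall

/-!
# Project QM (S4404, architect helper73): piece HALL

PLACEHOLDER: replace the body of the theorem(s) in THIS file by a full proof; keep the theorem
name(s) and statement(s) byte-identical; you may add imports of landed libs and auxiliary lemmas
(prefix `qmhall_`). Paper proof: note 2122 (select body from notes where id=2122).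
-/

set_option autoImplicit false

open scoped commutatorElement

namespace Cfsg.Agent.Lib.Helper73.QM

theorem qmhall_ea_map {G G' : Type*} [Group G] [Group G'] (f : G →* G')
    (hf : Function.Injective f) (p : ℕ) (A : Subgroup G) (hA : Cfsg.IsElementaryAbelian p A) :
    Cfsg.IsElementaryAbelian p (A.map f) ∧ Nat.card ↥(A.map f) = Nat.card ↥A := by
  refine ⟨⟨⟨⟨fun a b => ?_⟩⟩, ?_⟩, Subgroup.card_map_of_injective hf⟩
  · obtain ⟨x, hx, hxa⟩ := a.2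
    obtain ⟨y, hy, hyb⟩ := b.2
    apply Subtype.ext
    show (a : G') * (b : G') = (b : G') * (a : G')
    rw [← hxa, ← hyb, ← map_mul, ← map_mul]
    have h := hA.1.is_comm.comm ⟨x, hx⟩ ⟨y, hy⟩
    exact congrArg f (congrArg Subtype.val h)
  · rintro a ⟨x, hx, rfl⟩
    rw [← map_pow, hA.2 x hx, map_one]


/-- HALL: `S` solvable without elementary abelian subgroups of order 27, `Q` a 3-subgroup,
`E` elementary abelian of order `p ^ 3`, `p ≥ 5`: some `p`-subgroup `P₀` normalized by `Q`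
contains an elementary abelian subgroup of order `p ^ 3`. -/
theorem qm_hall {S : Type*} [Group S] [Finite S] [Group.IsSolvable S] (p : ℕ) (hp : p.Prime)
    (hp5 : 5 ≤ p) (h3 : ∀ A : Subgroup S, Cfsg.IsElementaryAbelian 3 A → Nat.card ↥A ≠ 27)
    (Q : Subgroup S) (hQ3 : IsPGroup 3 ↥Q)
    (E : Subgroup S) (hE : Cfsg.IsElementaryAbelian p E) (hE3 : Nat.card ↥E = p ^ 3) :
    ∃ (P₀ F : Subgroup S), IsPGroup p ↥P₀ ∧
      (∀ y ∈ Q, ∀ g ∈ P₀, y * g * y⁻¹ ∈ P₀ ∧ y⁻¹ * g * y ∈ P₀) ∧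
      F ≤ P₀ ∧ Cfsg.IsElementaryAbelian p F ∧ Nat.card ↥F = p ^ 3 := by
  haveI : Fact p.Prime := ⟨hp⟩
  obtain ⟨-, hconj, hdom⟩ := Cfsg.Agent.Lib.Helper66.goodPi_of_solvable ({3, p} : Set ℕ) S
  -- Q is a π-group
  have hQπ : Cfsg.Agent.Lib.Helper66.PiNum ({3, p} : Set ℕ) (Nat.card ↥Q) := by
    haveI : Fact (Nat.Prime 3) := ⟨Nat.prime_three⟩
    obtain ⟨n, hn⟩ := IsPGroup.iff_card.mp hQ3
    rw [hn]
    exact Cfsg.Agent.Lib.Helper66.piNum_prime_pow (by simp) Nat.prime_three n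
  have hEπ : Cfsg.Agent.Lib.Helper66.PiNum ({3, p} : Set ℕ) (Nat.card ↥E) := by
    rw [hE3]
    exact Cfsg.Agent.Lib.Helper66.piNum_prime_pow (by simp) hp 3
  obtain ⟨H, hH, hQH⟩ := hdom Q hQπ
  obtain ⟨H', hH', hEH'⟩ := hdom E hEπ
  obtain ⟨g, hg⟩ := hconj H H' hH hH'
  -- F := g⁻¹ E g
  obtain ⟨hFea, hFcard⟩ := qmhall_ea_map (MulAut.conj g⁻¹).toMonoidHom
    (MulAut.conj g⁻¹).injective p E hE
  have hFH : E.map (MulAut.conj g⁻¹).toMonoidHom ≤ H := by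
    rintro _ ⟨e, he, rfl⟩
    have he' : e ∈ H' := hEH' he
    rw [hg] at he'
    obtain ⟨h, hh, rfl⟩ := he'
    have : (MulAut.conj g⁻¹).toMonoidHom ((MulAut.conj g).toMonoidHom h) = h := by
      simp [MulAut.conj_apply, mul_assoc]
    rw [this]
    exact hh
  -- apply SYLN to ↥H
  have hHcard : ∀ q : ℕ, q.Prime → q ∣ Nat.card ↥H → q = 3 ∨ q = p := by
    intro q hq hqd
    have := hH.1 q hq hqd
    simpa using this
  have hH3 : ∀ A : Subgroup ↥H, Cfsg.IsElementaryAbelian 3 A → Nat.card ↥A ≠ 27 := by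
    intro A hA hc
    obtain ⟨h1, h2⟩ := qmhall_ea_map H.subtype H.subtype_injective 3 A hA
    exact h3 _ h1 (h2.trans hc)
  obtain ⟨P, hPn, hPp, hPall⟩ := qm_sylow_normal (H := ↥H) p hp5 hHcard hH3
  refine ⟨P.map H.subtype, E.map (MulAut.conj g⁻¹).toMonoidHom, hPp.map H.subtype, ?_, ?_,
    hFea, hFcard.trans hE3⟩
  · rintro y hy _ ⟨g', hg', rfl⟩
    have hyH : y ∈ H := hQH hy
    refine ⟨⟨(⟨y, hyH⟩ : ↥H) * g' * (⟨y, hyH⟩ : ↥H)⁻¹, hPn.conj_mem g' hg' ⟨y, hyH⟩, rfl⟩,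
      ⟨(⟨y, hyH⟩ : ↥H)⁻¹ * g' * (⟨y, hyH⟩ : ↥H), ?_, rfl⟩⟩
    have := hPn.conj_mem g' hg' (⟨y, hyH⟩ : ↥H)⁻¹
    simpa using this
  · intro f hf
    have hfH : f ∈ H := hFH hf
    have hfp : f ^ p = 1 := hFea.2 f hf
    have hfp' : (⟨f, hfH⟩ : ↥H) ^ p = 1 := Subtype.ext (by simpa using hfp)
    have hord : orderOf (⟨f, hfH⟩ : ↥H) ∣ p := orderOf_dvd_of_pow_eq_one hfp'
    have hmem : (⟨f, hfH⟩ : ↥H) ∈ P := by
      apply hPall
      rcases (Nat.dvd_prime hp).mp hord with h1 | h1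
      · exact ⟨0, by rw [h1, pow_zero]⟩
      · exact ⟨1, by rw [h1, pow_one]⟩
    exact ⟨⟨f, hfH⟩, hmem, rfl⟩

end Cfsg.Agent.Lib.Helper73.QM
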