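import Mathlib
import Cfsg.Agent.Lib.Helper73.QMDefs
import Cfsg.Agent.Lib.Helper73.QMFpf

/-!
# Project QM (S4404, architect helper73): piece MOVE

Proved by helper91. Paper proof: note 2122 (select body from notes where id=2122).
-/

set_option autoImplicit false

open scoped commutatorElement

namespace Cfsg.Agent.Lib.Helper73.QM

/-- generation: a subgroup containing `K` (order 9) and some `e ∈ E ∖ K` contains `E`
(order 27). -/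
theorem qmmove_gen {S : Type*} [Group S] [Finite S] (E K H : Subgroup S)
    (hE27 : Nat.card ↥E = 27) (hKE : K ≤ E) (hK9 : Nat.card ↥K = 9) (hKH : K ≤ H) (e : S)
    (heE : e ∈ E) (heK : e ∉ K) (heH : e ∈ H) : E ≤ H := by
  have h1 : K ≤ E ⊓ H := le_inf hKE hKH
  have h2 : E ⊓ H ≤ E := inf_le_left
  have d1 : Nat.card ↥K ∣ Nat.card ↥(E ⊓ H) := Subgroup.card_dvd_of_le h1
  have d2 : Nat.card ↥(E ⊓ H) ∣ Nat.card ↥E := Subgroup.card_dvd_of_le h2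
  rw [hK9] at d1
  rw [hE27] at d2
  have hne : Nat.card ↥(E ⊓ H) ≠ 9 := by
    intro h9
    have hKeq : K = E ⊓ H := Subgroup.eq_of_le_of_card_ge h1 (by rw [h9, hK9])
    apply heK
    rw [hKeq]
    exact Subgroup.mem_inf.mpr ⟨heE, heH⟩
  have h27 : Nat.card ↥(E ⊓ H) = 27 := by
    generalize Nat.card ↥(E ⊓ H) = t at d1 d2 hne
    have hle : t ≤ 27 := Nat.le_of_dvd (by norm_num) d2
    interval_cases t <;> omega
  have hEq : E ⊓ H = E := Subgroup.eq_of_le_of_card_ge h2 (by rw [h27, hE27])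
  rw [← hEq]
  exact inf_le_right

/-- MOVE: if `x` moves the hyperplane `K` of `E` then `C_M(K) = C_M(E)`. -/
theorem qm_kl_move {S : Type*} [Group S] [Finite S] (M : Subgroup S) [M.Normal]
    (hM : Cfsg.IsElementaryAbelian 2 M) (x : S) (V : Subgroup S) (hD : QMData M x V)
    (E : Subgroup S) (hE : Cfsg.IsElementaryAbelian 3 E) (hE27 : Nat.card ↥E = 27)
    (hxE : ∀ e ∈ E, x * e * x⁻¹ ∈ E) (K : Subgroup S) (hKE : K ≤ E) (hK9 : Nat.card ↥K = 9)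
    (hmove : ∃ k ∈ K, x * k * x⁻¹ ∉ K) :
    M ⊓ Subgroup.centralizer (K : Set S) ≤ Subgroup.centralizer (E : Set S) := by
  classical
  obtain ⟨ka, hkaK, hka⟩ := hmove
  by_contra hcon
  rw [SetLike.not_le_iff_exists] at hcon
  obtain ⟨m₀, hm₀, hm₀E⟩ := hcon
  have hm₀M : m₀ ∈ M := (Subgroup.mem_inf.mp hm₀).1
  have hm₀K : ∀ k ∈ K, k * m₀ = m₀ * k := fun k hk =>
    Subgroup.mem_centralizer_iff.mp (Subgroup.mem_inf.mp hm₀).2 k hk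
  have hMc : ∀ a ∈ M, ∀ b ∈ M, a * b = b * a := by
    intro a ha b hb
    have := hM.1.is_comm.comm (⟨a, ha⟩ : M) ⟨b, hb⟩
    exact congrArg Subtype.val this
  have hEc : ∀ a ∈ E, ∀ b ∈ E, a * b = b * a := by
    intro a ha b hb
    have := hE.1.is_comm.comm (⟨a, ha⟩ : E) ⟨b, hb⟩
    exact congrArg Subtype.val this
  have hE3 : ∀ a ∈ E, a ^ 3 = 1 := hE.2
  -- an element of `E ∖ K`
  obtain ⟨e0, he0E, he0K⟩ : ∃ e0 ∈ E, e0 ∉ K := by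
    by_contra h
    push Not at h
    have hEK : E ≤ K := h
    have := Subgroup.card_le_of_le hEK
    omega
  -- powers of `x` normalize `E`
  have hxEpow : ∀ j : ℕ, ∀ e ∈ E, x ^ j * e * (x ^ j)⁻¹ ∈ E := by
    intro j
    induction j with
    | zero => intro e he; simpa using he
    | succ j ih =>
      intro e he
      have h1 := hxE _ (ih e he)
      have h2 : x ^ (j + 1) * e * (x ^ (j + 1))⁻¹ = x * (x ^ j * e * (x ^ j)⁻¹) * x⁻¹ := by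
        rw [pow_succ']; group
      rw [h2]; exact h1
  -- centralizing `K` and an element of `E ∖ K` means centralizing `E`
  have hcen : ∀ n : S, (∀ k ∈ K, k * n = n * k) → ∀ e ∈ E, e ∉ K → e * n = n * e →
      ∀ f ∈ E, f * n = n * f := by
    intro n hnK e heE heK hen f hf
    have hKH : K ≤ Subgroup.centralizer ({n} : Set S) := by
      intro k hk
      rw [Subgroup.mem_centralizer_iff]
      intro h hh
      rw [Set.mem_singleton_iff] at hh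
      subst hh
      exact (hnK k hk).symm
    have heH : e ∈ Subgroup.centralizer ({n} : Set S) := by
      rw [Subgroup.mem_centralizer_iff]
      intro h hh
      rw [Set.mem_singleton_iff] at hh
      subst hh
      exact hen.symm
    have := qmmove_gen E K (Subgroup.centralizer ({n} : Set S)) hE27 hKE hK9 hKH e heE heK heH hf
    exact (Subgroup.mem_centralizer_iff.mp this n rfl).symm
  -- (1) `x ^ 3` normalizes `K`
  have hx3 : ∀ k ∈ K, x ^ 3 * k * (x ^ 3)⁻¹ ∈ K := by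
    intro k hk
    by_contra hk3
    apply hm₀E
    rw [Subgroup.mem_centralizer_iff]
    intro f hf
    have hxE3 : x ^ 3 * k * (x ^ 3)⁻¹ ∈ E := hxEpow 3 k (hKE hk)
    refine hcen m₀ hm₀K _ hxE3 hk3 ?_ f hf
    have h1 := hD.cube m₀ hm₀M
    have h2 : k * m₀ = m₀ * k := hm₀K k hk
    calc x ^ 3 * k * (x ^ 3)⁻¹ * m₀
        = x ^ 3 * k * (x ^ 3)⁻¹ * (x ^ 3 * m₀ * (x ^ 3)⁻¹) := by rw [h1]
      _ = x ^ 3 * (k * m₀) * (x ^ 3)⁻¹ := by group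
      _ = x ^ 3 * (m₀ * k) * (x ^ 3)⁻¹ := by rw [h2]
      _ = (x ^ 3 * m₀ * (x ^ 3)⁻¹) * (x ^ 3 * k * (x ^ 3)⁻¹) := by group
      _ = m₀ * (x ^ 3 * k * (x ^ 3)⁻¹) := by rw [h1]
  -- `E` normalizes `M_K`
  have hEM : ∀ f ∈ E, ∀ m ∈ M ⊓ Subgroup.centralizer (K : Set S),
      f * m * f⁻¹ ∈ M ⊓ Subgroup.centralizer (K : Set S) := by
    intro f hf m hm
    refine Subgroup.mem_inf.mpr ⟨?_, ?_⟩
    · exact ‹M.Normal›.conj_mem m (Subgroup.mem_inf.mp hm).1 f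
    · rw [Subgroup.mem_centralizer_iff]
      intro k hk
      have hkf : Commute k f := hEc k (hKE hk) f hf
      have hkm : Commute k m := Subgroup.mem_centralizer_iff.mp (Subgroup.mem_inf.mp hm).2 k hk
      exact ((hkf.mul_right hkm).mul_right hkf.inv_right).eq
  -- the subgroup `N`
  obtain ⟨N, hN1, hN2, hN3, hN4, hN5, -, hN7⟩ :=
    qm_fpf M hM e0 (M ⊓ Subgroup.centralizer (K : Set S)) inf_le_left (hEM e0 he0E)
      (by intro m _; rw [hE3 e0 he0E]; simp)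
  have hNK : ∀ n ∈ N, ∀ k ∈ K, k * n = n * k := fun n hn k hk =>
    Subgroup.mem_centralizer_iff.mp (Subgroup.mem_inf.mp (hN1 hn)).2 k hk
  have hNM : ∀ n ∈ N, n ∈ M := fun n hn => (Subgroup.mem_inf.mp (hN1 hn)).1
  -- (F1) elements of `E ∖ K` act without fixed points on `N`
  have hF1 : ∀ k ∈ E, k ∉ K → ∀ n ∈ N, k * n * k⁻¹ = n → n = 1 := by
    intro k hkE hkK n hn hfix
    apply hN5 n hn
    have hkn : k * n = n * k := by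
      calc k * n = k * n * k⁻¹ * k := by group
        _ = n * k := by rw [hfix]
    have h := hcen n (hNK n hn) k hkE hkK hkn e0 he0E
    rw [h]; group
  -- (F2) `E` normalizes `N`
  have hF2 : ∀ k ∈ E, ∀ n ∈ N, k * n * k⁻¹ ∈ N := by
    intro k hk n hn
    obtain ⟨m, hm, rfl⟩ := hN3 n hn
    have hke : k * e0 = e0 * k := hEc k hk e0 he0E
    have h1 : k * e0 * k⁻¹ = e0 := by rw [hke]; group
    have h2 : k * ⁅e0, m⁆ * k⁻¹ = ⁅k * e0 * k⁻¹, k * m * k⁻¹⁆ := by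
      simp only [commutatorElement_def]; group
    rw [h2, h1]
    exact hN2 _ (hEM k hk m hm)
  -- (F3) `N ∩ x N x⁻¹ = 1`
  have hF3 : ∀ n ∈ N, ∀ n' ∈ N, n = x * n' * x⁻¹ → n = 1 := by
    intro n hn n' hn' hnn'
    apply hF1 (x * ka * x⁻¹) (hxE ka (hKE hkaK)) hka n hn
    have h := hNK n' hn' ka hkaK
    rw [hnn']
    calc x * ka * x⁻¹ * (x * n' * x⁻¹) * (x * ka * x⁻¹)⁻¹
        = x * (ka * n') * ka⁻¹ * x⁻¹ := by group
      _ = x * n' * x⁻¹ := by rw [h]; group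
  -- `N ≠ 1`
  have hn0N : ⁅e0, m₀⁆ ∈ N := hN2 m₀ hm₀
  have hn0 : ⁅e0, m₀⁆ ≠ 1 := by
    intro h
    rw [commutatorElement_eq_one_iff_mul_comm] at h
    apply hm₀E
    rw [Subgroup.mem_centralizer_iff]
    intro f hf
    exact hcen m₀ hm₀K e0 he0E he0K h f hf
  have hNne : N ≠ ⊥ := by
    intro h
    apply hn0
    have := hn0N
    rw [h] at this
    exact Subgroup.mem_bot.mp this
  have hN4' : 4 ≤ Nat.card ↥N := by
    rcases hN7 with h | h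
    · exact absurd h hNne
    · exact h
  -- (F5) `n ↦ ⁅x, n⁆` maps `N` onto `V`
  have hF5 : ∀ v ∈ V, ∃ n ∈ N, v = ⁅x, n⁆ := by
    let φ : ↥N → ↥V := fun n => ⟨⁅x, n.1⁆, hD.comm n.1 (hNM n.1 n.2)⟩
    have hinj : Function.Injective φ := by
      intro a b hab
      have h : x * a.1 * x⁻¹ * a.1⁻¹ = x * b.1 * x⁻¹ * b.1⁻¹ := by
        have := congrArg Subtype.val hab
        simpa only [φ, commutatorElement_def] using this
      have hd : b.1⁻¹ * a.1 ∈ N := N.mul_mem (N.inv_mem b.2) a.2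
      have hfix : b.1⁻¹ * a.1 = x * (b.1⁻¹ * a.1) * x⁻¹ := by
        symm
        calc x * (b.1⁻¹ * a.1) * x⁻¹
            = (x * b.1 * x⁻¹)⁻¹ * (x * a.1 * x⁻¹ * a.1⁻¹) * a.1 := by group
          _ = (x * b.1 * x⁻¹)⁻¹ * (x * b.1 * x⁻¹ * b.1⁻¹) * a.1 := by rw [h]
          _ = b.1⁻¹ * a.1 := by group
      have h1 := hF3 _ hd _ hd hfix
      apply Subtype.ext
      exact (inv_mul_eq_one.mp h1).symm
    have hbij : Function.Bijective φ :=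
      hinj.bijective_of_nat_card_le (by rw [hD.card]; exact hN4')
    intro v hv
    obtain ⟨n, hn⟩ := hbij.2 ⟨v, hv⟩
    exact ⟨n.1, n.2, (congrArg Subtype.val hn).symm⟩
  -- (F6) `x² N x⁻² ⊆ (x N x⁻¹) N`
  have hF6 : ∀ n ∈ N, ∃ n' ∈ N, ∃ n'' ∈ N, x ^ 2 * n * (x ^ 2)⁻¹ = (x * n' * x⁻¹) * n'' := by
    intro n hn
    have hv := hD.conj _ (hD.comm n (hNM n hn))
    obtain ⟨n₁, hn₁, h1⟩ := hF5 _ hv
    refine ⟨n₁ * n, N.mul_mem hn₁ hn, n₁⁻¹, N.inv_mem hn₁, ?_⟩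
    have hc : n₁⁻¹ * (x * n * x⁻¹) = (x * n * x⁻¹) * n₁⁻¹ :=
      hMc _ (M.inv_mem (hNM n₁ hn₁)) _ (‹M.Normal›.conj_mem n (hNM n hn) x)
    calc x ^ 2 * n * (x ^ 2)⁻¹ = x * ⁅x, n⁆ * x⁻¹ * (x * n * x⁻¹) := by
          rw [commutatorElement_def, pow_two]; group
      _ = x * n₁ * x⁻¹ * n₁⁻¹ * (x * n * x⁻¹) := by rw [h1, commutatorElement_def]
      _ = x * n₁ * x⁻¹ * ((x * n * x⁻¹) * n₁⁻¹) := by rw [mul_assoc (x * n₁ * x⁻¹), hc]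
      _ = x * (n₁ * n) * x⁻¹ * n₁⁻¹ := by group
  -- `x²` moves `K`
  obtain ⟨kb, hkbK, hkb⟩ : ∃ kb ∈ K, x ^ 2 * kb * (x ^ 2)⁻¹ ∉ K := by
    by_contra h
    push Not at h
    let f : ↥K → ↥K := fun k => ⟨x ^ 2 * k.1 * (x ^ 2)⁻¹, h k.1 k.2⟩
    have hinj : Function.Injective f := by
      intro a b hab
      have h1 : x ^ 2 * a.1 * (x ^ 2)⁻¹ = x ^ 2 * b.1 * (x ^ 2)⁻¹ := congrArg Subtype.val hab
      apply Subtype.ext
      exact mul_left_cancel (mul_right_cancel h1)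
    have hsurj : Function.Surjective f := Finite.injective_iff_surjective.mp hinj
    obtain ⟨k', hk'⟩ := hsurj ⟨ka, hkaK⟩
    have h1 : x ^ 2 * k'.1 * (x ^ 2)⁻¹ = ka := congrArg Subtype.val hk'
    apply hka
    have h2 : x * ka * x⁻¹ = x ^ 3 * k'.1 * (x ^ 3)⁻¹ := by rw [← h1]; group
    rw [h2]
    exact hx3 k'.1 k'.2
  obtain ⟨k0, hk0K, hk0a, hk0b⟩ :
      ∃ k0 ∈ K, x * k0 * x⁻¹ ∉ K ∧ x ^ 2 * k0 * (x ^ 2)⁻¹ ∉ K := by
    by_cases h1 : x ^ 2 * ka * (x ^ 2)⁻¹ ∈ K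
    · by_cases h2 : x * kb * x⁻¹ ∈ K
      · refine ⟨ka * kb, K.mul_mem hkaK hkbK, ?_, ?_⟩
        · intro h
          apply hka
          have h3 : x * ka * x⁻¹ = (x * (ka * kb) * x⁻¹) * (x * kb * x⁻¹)⁻¹ := by group
          rw [h3]
          exact K.mul_mem h (K.inv_mem h2)
        · intro h
          apply hkb
          have h3 : x ^ 2 * kb * (x ^ 2)⁻¹
              = (x ^ 2 * ka * (x ^ 2)⁻¹)⁻¹ * (x ^ 2 * (ka * kb) * (x ^ 2)⁻¹) := by group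
          rw [h3]
          exact K.mul_mem (K.inv_mem h1) h
      · exact ⟨kb, hkbK, h2, hkb⟩
    · exact ⟨ka, hkaK, hka, h1⟩
  -- the final contradiction
  obtain ⟨n', hn', n'', hn'', h6⟩ := hF6 _ hn0N
  have hkE : x ^ 2 * k0 * (x ^ 2)⁻¹ ∈ E := hxEpow 2 k0 (hKE hk0K)
  have hk'E : x * k0 * x⁻¹ ∈ E := hxE k0 (hKE hk0K)
  have hk0n : k0 * ⁅e0, m₀⁆ = ⁅e0, m₀⁆ * k0 := hNK _ hn0N k0 hk0K
  have hkfix : (x ^ 2 * k0 * (x ^ 2)⁻¹) * (x ^ 2 * ⁅e0, m₀⁆ * (x ^ 2)⁻¹) * (x ^ 2 * k0 * (x ^ 2)⁻¹)⁻¹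
      = x ^ 2 * ⁅e0, m₀⁆ * (x ^ 2)⁻¹ := by
    calc (x ^ 2 * k0 * (x ^ 2)⁻¹) * (x ^ 2 * ⁅e0, m₀⁆ * (x ^ 2)⁻¹) * (x ^ 2 * k0 * (x ^ 2)⁻¹)⁻¹
        = x ^ 2 * (k0 * ⁅e0, m₀⁆) * k0⁻¹ * (x ^ 2)⁻¹ := by group
      _ = x ^ 2 * ⁅e0, m₀⁆ * (x ^ 2)⁻¹ := by rw [hk0n]; group
  rw [h6] at hkfix
  have hd'N : n'⁻¹ * ((x * k0 * x⁻¹) * n' * (x * k0 * x⁻¹)⁻¹) ∈ N :=
    N.mul_mem (N.inv_mem hn') (hF2 _ hk'E n' hn')
  have hdN : n'' * ((x ^ 2 * k0 * (x ^ 2)⁻¹) * n'' * (x ^ 2 * k0 * (x ^ 2)⁻¹)⁻¹)⁻¹ ∈ N :=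
    N.mul_mem hn'' (N.inv_mem (hF2 _ hkE n'' hn''))
  have hd : n'' * ((x ^ 2 * k0 * (x ^ 2)⁻¹) * n'' * (x ^ 2 * k0 * (x ^ 2)⁻¹)⁻¹)⁻¹
      = x * (n'⁻¹ * ((x * k0 * x⁻¹) * n' * (x * k0 * x⁻¹)⁻¹)) * x⁻¹ := by
    calc n'' * ((x ^ 2 * k0 * (x ^ 2)⁻¹) * n'' * (x ^ 2 * k0 * (x ^ 2)⁻¹)⁻¹)⁻¹
        = (x * n' * x⁻¹)⁻¹ * (x * n' * x⁻¹ * n'')
            * ((x ^ 2 * k0 * (x ^ 2)⁻¹) * n'' * (x ^ 2 * k0 * (x ^ 2)⁻¹)⁻¹)⁻¹ := by group
      _ = (x * n' * x⁻¹)⁻¹ * ((x ^ 2 * k0 * (x ^ 2)⁻¹) * (x * n' * x⁻¹ * n'')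
            * (x ^ 2 * k0 * (x ^ 2)⁻¹)⁻¹)
            * ((x ^ 2 * k0 * (x ^ 2)⁻¹) * n'' * (x ^ 2 * k0 * (x ^ 2)⁻¹)⁻¹)⁻¹ := by rw [hkfix]
      _ = x * (n'⁻¹ * ((x * k0 * x⁻¹) * n' * (x * k0 * x⁻¹)⁻¹)) * x⁻¹ := by group
  have hd1 := hF3 _ hdN _ hd'N hd
  have hn''1 : n'' = 1 := by
    apply hF1 _ hkE hk0b n'' hn''
    exact (mul_inv_eq_one.mp hd1).symm
  have hd'1 : n'⁻¹ * ((x * k0 * x⁻¹) * n' * (x * k0 * x⁻¹)⁻¹) = 1 := by
    rw [hd1] at hd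
    exact conj_eq_one_iff.mp hd.symm
  have hn'1 : n' = 1 := by
    apply hF1 _ hk'E hk0a n' hn'
    exact (inv_mul_eq_one.mp hd'1).symm
  rw [hn'1, hn''1] at h6
  apply hn0
  have h7 : x ^ 2 * ⁅e0, m₀⁆ * (x ^ 2)⁻¹ = 1 := by rw [h6]; group
  exact conj_eq_one_iff.mp h7

end Cfsg.Agent.Lib.Helper73.QM
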