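import Mathlib
import Cfsg.Agent.Lib.Helper73.QMDefs
import Cfsg.Agent.Lib.Helper73.QMGen
import Cfsg.Agent.Lib.Helper73.QMMove

/-!
# Project QM (S4404, architect helper73): piece KL

PLACEHOLDER: replace the body of the theorem(s) in THIS file by a full proof; keep the theorem
name(s) and statement(s) byte-identical; you may add imports of landed libs and auxiliary lemmas
(prefix `qmkl_`). Paper proof: note 2122 (select body from notes where id=2122).
-/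

set_option autoImplicit false

open scoped commutatorElement

namespace Cfsg.Agent.Lib.Helper73.QM

theorem qmkl_four {S : Type*} [Group S] [Finite S] (V B : Subgroup S) (hV4 : Nat.card ↥V = 4)
    (u w : S) (hu : u ∈ V ⊓ B) (hw : w ∈ V ⊓ B) (hu1 : u ≠ 1) (hw1 : w ≠ 1) (hwu : w ≠ u) :
    V ≤ B := by
  have hdvd : Nat.card ↥(V ⊓ B) ∣ 4 := hV4 ▸ Subgroup.card_dvd_of_le inf_le_left
  have hne1 : Nat.card ↥(V ⊓ B) ≠ 1 := by
    intro h
    have hbot : V ⊓ B = ⊥ := Subgroup.card_eq_one.mp h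
    rw [hbot, Subgroup.mem_bot] at hu
    exact hu1 hu
  have hne2 : Nat.card ↥(V ⊓ B) ≠ 2 := by
    intro h
    obtain ⟨y, -, hy⟩ := (Nat.card_eq_two_iff' (1 : ↥(V ⊓ B))).mp h
    have h1 : (⟨u, hu⟩ : ↥(V ⊓ B)) = y := hy _ (fun h' => hu1 (congrArg Subtype.val h'))
    have h2 : (⟨w, hw⟩ : ↥(V ⊓ B)) = y := hy _ (fun h' => hw1 (congrArg Subtype.val h'))
    exact hwu (congrArg Subtype.val (h2.trans h1.symm))
  have hcard : Nat.card ↥(V ⊓ B) = 4 := by
    have hle : Nat.card ↥(V ⊓ B) ≤ 4 := Nat.le_of_dvd (by norm_num) hdvd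
    have hpos : 0 < Nat.card ↥(V ⊓ B) := Nat.card_pos
    have h3 : Nat.card ↥(V ⊓ B) ≠ 3 := by
      intro h
      rw [h] at hdvd
      norm_num at hdvd
    omega
  have heq : V ⊓ B = V := Subgroup.eq_of_le_of_card_ge inf_le_left (by rw [hcard, hV4])
  exact inf_eq_left.mp heq

theorem qmkl_core {S : Type*} [Group S] [Finite S] (M : Subgroup S) [hMn : M.Normal]
    (x : S) (V : Subgroup S) (hD : QMData M x V) (A : Subgroup S)
    (hxA : ∀ a ∈ A, x * a * x⁻¹ ∈ A) (m₀ : S)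
    (hm₀ : m₀ ∈ M ⊓ Subgroup.centralizer (A : Set S)) (hne : ⁅x, m₀⁆ ≠ 1) :
    A ≤ Subgroup.centralizer (V : Set S) := by
  have hxA' : ∀ a ∈ A, x⁻¹ * a * x ∈ A := by
    intro a ha
    have hinj : Function.Injective (fun b : ↥A => (⟨x * b * x⁻¹, hxA b b.2⟩ : ↥A)) := by
      intro b b' hbb
      have h1 : x * (b : S) * x⁻¹ = x * (b' : S) * x⁻¹ := congrArg Subtype.val hbb
      apply Subtype.ext
      have h2 : (b : S) = x⁻¹ * (x * (b : S) * x⁻¹) * x := by group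
      rw [h2, h1]; group
    obtain ⟨b, hb⟩ := (Finite.injective_iff_surjective.mp hinj) ⟨a, ha⟩
    have h1 : x * (b : S) * x⁻¹ = a := congrArg Subtype.val hb
    rw [← h1]
    have h2 : x⁻¹ * (x * (b : S) * x⁻¹) * x = (b : S) := by group
    rw [h2]; exact b.2
  have hinv : ∀ m ∈ M ⊓ Subgroup.centralizer (A : Set S),
      x * m * x⁻¹ ∈ M ⊓ Subgroup.centralizer (A : Set S) := by
    intro m hm
    refine ⟨hMn.conj_mem m hm.1 x, ?_⟩
    refine Subgroup.mem_centralizer_iff.mpr ?_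
    intro a ha
    have h1 := Subgroup.mem_centralizer_iff.mp hm.2 _ (hxA' a ha)
    calc a * (x * m * x⁻¹) = x * (x⁻¹ * a * x * m) * x⁻¹ := by group
      _ = x * (m * (x⁻¹ * a * x)) * x⁻¹ := by rw [h1]
      _ = x * m * x⁻¹ * a := by group
  have hv0 : ⁅x, m₀⁆ ∈ M ⊓ Subgroup.centralizer (A : Set S) := by
    rw [commutatorElement_def]
    exact Subgroup.mul_mem _ (hinv m₀ hm₀) (Subgroup.inv_mem _ hm₀)
  have hv0V : ⁅x, m₀⁆ ∈ V := hD.comm m₀ hm₀.1
  have hv1 : x * ⁅x, m₀⁆ * x⁻¹ ∈ M ⊓ Subgroup.centralizer (A : Set S) := hinv _ hv0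
  have hv1V : x * ⁅x, m₀⁆ * x⁻¹ ∈ V := hD.conj _ hv0V
  have hv1ne : x * ⁅x, m₀⁆ * x⁻¹ ≠ ⁅x, m₀⁆ := fun h => hne (hD.fpf _ hv0V h)
  have hv1ne1 : x * ⁅x, m₀⁆ * x⁻¹ ≠ 1 := by
    intro h
    apply hne
    have e : ⁅x, m₀⁆ = x⁻¹ * (x * ⁅x, m₀⁆ * x⁻¹) * x := by group
    rw [e, h]; group
  have hVle : V ≤ M ⊓ Subgroup.centralizer (A : Set S) :=
    qmkl_four V _ hD.card _ _ ⟨hv0V, hv0⟩ ⟨hv1V, hv1⟩ hne hv1ne1 hv1ne
  intro a ha
  rw [Subgroup.mem_centralizer_iff]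
  intro v hv
  exact (Subgroup.mem_centralizer_iff.mp (hVle hv).2 a ha).symm

/-- KL: an elementary abelian group of order 27 normalized by `x` meets `C(V)` in a
noncyclic subgroup. -/
theorem qm_kl {S : Type*} [Group S] [Finite S] (M : Subgroup S) [M.Normal]
    (hM : Cfsg.IsElementaryAbelian 2 M) (x : S) (V : Subgroup S) (hD : QMData M x V)
    (E : Subgroup S) (hE : Cfsg.IsElementaryAbelian 3 E) (hE27 : Nat.card ↥E = 27)
    (hxE : ∀ e ∈ E, x * e * x⁻¹ ∈ E) :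
    ¬ IsCyclic ↥(E ⊓ Subgroup.centralizer (V : Set S)) := by
  intro hcyc
  have hex : ∃ K : Subgroup S, K ≤ E ∧ Nat.card ↥K = 9 ∧
      ∃ m ∈ M ⊓ Subgroup.centralizer (K : Set S), ⁅x, m⁆ ≠ 1 := by
    by_contra hcon
    have hcon' : ∀ K : Subgroup S, K ≤ E → Nat.card ↥K = 9 →
        ∀ m ∈ M ⊓ Subgroup.centralizer (K : Set S), ⁅x, m⁆ = 1 := by
      intro K hKE hK9 m hm
      by_contra hne
      exact hcon ⟨K, hKE, hK9, m, hm, hne⟩
    have hle : M ≤ M ⊓ Subgroup.centralizer ({x} : Set S) := by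
      refine (qm_gen M hM E hE hE27).trans (iSup_le fun K => ?_)
      intro m hm
      refine ⟨hm.1, ?_⟩
      refine Subgroup.mem_centralizer_iff.mpr ?_
      intro y hy
      rw [Set.mem_singleton_iff] at hy
      subst hy
      have h1 := hcon' K.1 K.2.1 K.2.2 m hm
      rw [commutatorElement_eq_one_iff_mul_comm] at h1
      exact h1
    have hV1 : ∀ v ∈ V, v = 1 := by
      intro v hv
      obtain ⟨m, hm, rfl⟩ := hD.surj v hv
      have h1 := Subgroup.mem_centralizer_iff.mp (hle hm).2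
      rw [commutatorElement_eq_one_iff_mul_comm]
      exact h1 x rfl
    have hV : Nat.card ↥V = 1 := by
      rw [Subgroup.card_eq_one]
      exact (Subgroup.eq_bot_iff_forall V).mpr hV1
    rw [hD.card] at hV
    omega
  obtain ⟨K, hKE, hK9, m₀, hm₀, hne⟩ := hex
  have hA : ∃ A : Subgroup S, A ≤ E ∧ 9 ≤ Nat.card ↥A ∧
      A ≤ Subgroup.centralizer (V : Set S) := by
    by_cases hmove : ∃ k ∈ K, x * k * x⁻¹ ∉ K
    · have h1 := qm_kl_move M hM x V hD E hE hE27 hxE K hKE hK9 hmove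
      exact ⟨E, le_rfl, by rw [hE27]; norm_num,
        qmkl_core M x V hD E hxE m₀ ⟨hm₀.1, h1 hm₀⟩ hne⟩
    · have hstay : ∀ k ∈ K, x * k * x⁻¹ ∈ K := by
        intro k hk
        by_contra hnot
        exact hmove ⟨k, hk, hnot⟩
      exact ⟨K, hKE, by rw [hK9], qmkl_core M x V hD K hstay m₀ hm₀ hne⟩
  obtain ⟨A, hAE, hA9, hAV⟩ := hA
  have hAF : A ≤ E ⊓ Subgroup.centralizer (V : Set S) := le_inf hAE hAV
  obtain ⟨g, hg⟩ := hcyc.exists_generator
  have hcard : orderOf g = Nat.card ↥(E ⊓ Subgroup.centralizer (V : Set S)) :=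
    orderOf_eq_card_of_forall_mem_zpowers hg
  have hg3 : g ^ 3 = 1 := by
    apply Subtype.ext
    rw [Subgroup.coe_pow]
    exact hE.2 _ g.2.1
  have hdvd : orderOf g ∣ 3 := orderOf_dvd_of_pow_eq_one hg3
  have hle3 : orderOf g ≤ 3 := Nat.le_of_dvd (by norm_num) hdvd
  have h9 : Nat.card ↥A ≤ Nat.card ↥(E ⊓ Subgroup.centralizer (V : Set S)) :=
    Subgroup.card_le_of_le hAF
  omega

end Cfsg.Agent.Lib.Helper73.QM
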