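import Mathlib
import Cfsg.Agent.Lib.Helper73.QMDefs
import Cfsg.Agent.Lib.Helper73.QMAct48

/-!
# Project QM (S4404, architect helper73): piece PNORM

PLACEHOLDER: replace the body of the theorem(s) in THIS file by a full proof; keep the theorem
name(s) and statement(s) byte-identical; you may add imports of landed libs and auxiliary lemmas
(prefix `qmpnorm_`). Paper proof: note 2122 (select body from notes where id=2122).
-/

set_option autoImplicit false

open scoped commutatorElement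

namespace Cfsg.Agent.Lib.Helper73.QM

/-- The conjugation action of a subgroup `P₀` normalizing `V`, as a hom into `MulAut ↥V`. -/
noncomputable def qmpnorm_conj {S : Type*} [Group S] (V P₀ : Subgroup S)
    (hn : ∀ g ∈ P₀, ∀ v ∈ V, g * v * g⁻¹ ∈ V) : ↥P₀ →* MulAut ↥V where
  toFun g :=
    { toFun := fun v => ⟨(g : S) * v * (g : S)⁻¹, hn g g.2 v v.2⟩
      invFun := fun v => ⟨(g : S)⁻¹ * v * (g : S), by
        have := hn (g : S)⁻¹ (inv_mem g.2) v v.2
        simpa using this⟩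
      left_inv := fun v => by
        apply Subtype.ext
        simp [mul_assoc]
      right_inv := fun v => by
        apply Subtype.ext
        simp [mul_assoc]
      map_mul' := fun a b => by
        apply Subtype.ext
        simp [mul_assoc] }
  map_one' := by
    apply MulEquiv.ext
    intro v
    apply Subtype.ext
    simp
  map_mul' := fun a b => by
    apply MulEquiv.ext
    intro v
    apply Subtype.ext
    simp [mul_assoc]

theorem qmpnorm_conj_apply {S : Type*} [Group S] (V P₀ : Subgroup S)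
    (hn : ∀ g ∈ P₀, ∀ v ∈ V, g * v * g⁻¹ ∈ V) (g : ↥P₀) (v : ↥V) :
    ((qmpnorm_conj V P₀ hn g v : ↥V) : S) = (g : S) * v * (g : S)⁻¹ := rfl

theorem qmpnorm_mem_ker_iff {S : Type*} [Group S] (V P₀ : Subgroup S)
    (hn : ∀ g ∈ P₀, ∀ v ∈ V, g * v * g⁻¹ ∈ V) (g : ↥P₀) :
    g ∈ (qmpnorm_conj V P₀ hn).ker ↔ (g : S) ∈ Subgroup.centralizer (V : Set S) := by
  rw [MonoidHom.mem_ker, Subgroup.mem_centralizer_iff]
  constructor
  · intro h v hv
    have h1 := qmpnorm_conj_apply V P₀ hn g ⟨v, hv⟩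
    rw [h] at h1
    have h2 : v = (g : S) * v * (g : S)⁻¹ := h1
    calc v * (g : S) = ((g : S) * v * (g : S)⁻¹) * (g : S) := by rw [← h2]
      _ = (g : S) * v := by group
  · intro h
    apply MulEquiv.ext
    intro v
    apply Subtype.ext
    rw [qmpnorm_conj_apply]
    have h2 := h (v : S) v.2
    change (g : S) * (v : S) * (g : S)⁻¹ = (v : S)
    rw [← h2]
    group

theorem qmpnorm_range_pgroup {S : Type*} [Group S] (V P₀ : Subgroup S)
    (hn : ∀ g ∈ P₀, ∀ v ∈ V, g * v * g⁻¹ ∈ V) (p : ℕ) (hP₀ : IsPGroup p ↥P₀) :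
    IsPGroup p ↥(qmpnorm_conj V P₀ hn).range :=
  hP₀.of_surjective (qmpnorm_conj V P₀ hn).rangeRestrict
    (qmpnorm_conj V P₀ hn).rangeRestrict_surjective

/-- PNORM4: a `p`-group (`p ≥ 5`) normalizing a four-group centralizes it. -/
theorem qm_pnorm4 {S : Type*} [Group S] [Finite S] (V : Subgroup S)
    (hV2 : ∀ v ∈ V, v * v = 1) (hV4 : Nat.card ↥V = 4) (p : ℕ) (hp : p.Prime) (hp5 : 5 ≤ p)
    (P₀ : Subgroup S) (hP₀ : IsPGroup p ↥P₀) (hn : ∀ g ∈ P₀, ∀ v ∈ V, g * v * g⁻¹ ∈ V) :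
    P₀ ≤ Subgroup.centralizer (V : Set S) := by
  have hU : ∀ u : ↥V, u * u = 1 := fun u => Subtype.ext (hV2 u u.2)
  have hbot := qm_act4 hU hV4 p hp hp5 (qmpnorm_conj V P₀ hn).range
    (qmpnorm_range_pgroup V P₀ hn p hP₀)
  intro g hg
  have hker : (⟨g, hg⟩ : ↥P₀) ∈ (qmpnorm_conj V P₀ hn).ker := by
    rw [MonoidHom.mem_ker]
    have : qmpnorm_conj V P₀ hn ⟨g, hg⟩ ∈ (qmpnorm_conj V P₀ hn).range := ⟨_, rfl⟩
    rw [hbot, Subgroup.mem_bot] at this
    exact this
  exact (qmpnorm_mem_ker_iff V P₀ hn ⟨g, hg⟩).mp hker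

/-- PNORM8: if a `p`-group `P₀` (`p ≥ 5`) normalizes an elementary abelian group `W` of order 8,
then `C_F(W)` has index 1 or 7 in every subgroup `F ≤ P₀`. -/
theorem qm_pnorm8 {S : Type*} [Group S] [Finite S] (W : Subgroup S)
    (hW2 : ∀ w ∈ W, w * w = 1) (hW8 : Nat.card ↥W = 8) (p : ℕ) (hp : p.Prime) (hp5 : 5 ≤ p)
    (P₀ : Subgroup S) (hP₀ : IsPGroup p ↥P₀) (hn : ∀ g ∈ P₀, ∀ w ∈ W, g * w * g⁻¹ ∈ W)
    (F : Subgroup S) (hF : F ≤ P₀) :
    (F ⊓ Subgroup.centralizer (W : Set S)).relIndex F ∣ 7 := by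
  have hU : ∀ u : ↥W, u * u = 1 := fun u => Subtype.ext (hW2 u u.2)
  have hnF : ∀ g ∈ F, ∀ w ∈ W, g * w * g⁻¹ ∈ W := fun g hg w hw => hn g (hF hg) w hw
  have hFp : IsPGroup p ↥F := hP₀.to_le hF
  have h7 := qm_act8 hU hW8 p hp hp5 (qmpnorm_conj W F hnF).range
    (qmpnorm_range_pgroup W F hnF p hFp)
  have hker : (F ⊓ Subgroup.centralizer (W : Set S)).subgroupOf F = (qmpnorm_conj W F hnF).ker := by
    ext g
    rw [Subgroup.mem_subgroupOf, Subgroup.mem_inf, qmpnorm_mem_ker_iff]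
    exact ⟨fun h => h.2, fun h => ⟨g.2, h⟩⟩
  rw [Subgroup.relIndex, hker, Subgroup.index_ker]
  exact h7

end Cfsg.Agent.Lib.Helper73.QM
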