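import Mathlib
import Cfsg.Agent.Lib.Helper73.QMDefs
import Cfsg.Agent.Lib.Helper73.QMAut

/-!
# Project QM (S4404, architect helper73): piece PAIR

Proof by helper82 (paper proof: note 2122): if `V ⊓ g V g⁻¹ = ⊥` then `U := V ⊔ g V g⁻¹` has order
16, `x` and `g x g⁻¹` induce automorphisms of `U` differing by an element of the image of
`P₀ ⊓ N(U)`, contradicting `qm_aut`.
-/

set_option autoImplicit false

open scoped commutatorElement

namespace Cfsg.Agent.Lib.Helper73.QM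

/-- the join of two elementwise commuting subgroups with trivial intersection -/
theorem qmpair_card_sup {S : Type*} [Group S] (A B : Subgroup S)
    (hcomm : ∀ a ∈ A, ∀ b ∈ B, a * b = b * a) (hdisj : A ⊓ B = ⊥) :
    Nat.card ↥(A ⊔ B) = Nat.card A * Nat.card B := by
  have comm : ∀ (m : A) (n : B), Commute (A.subtype m) (B.subtype n) :=
    fun m n => hcomm m m.2 n n.2
  have hinj : Function.Injective (MonoidHom.noncommCoprod A.subtype B.subtype comm) := by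
    rw [MonoidHom.noncommCoprod_injective]
    refine ⟨A.subtype_injective, B.subtype_injective, ?_⟩
    rw [Subgroup.range_subtype, Subgroup.range_subtype, disjoint_iff, hdisj]
  have hrange := MonoidHom.noncommCoprod_range A.subtype B.subtype comm
  rw [Subgroup.range_subtype, Subgroup.range_subtype] at hrange
  rw [← hrange, ← Nat.card_prod]
  exact (Nat.card_congr (MonoidHom.ofInjective hinj).toEquiv).symm

theorem qmpair_mem_normalizer {S : Type*} [Group S] [Finite S] (U : Subgroup S) (y : S)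
    (h : ∀ u ∈ U, y * u * y⁻¹ ∈ U) : y ∈ Subgroup.normalizer (U : Set S) :=
  Subgroup.mem_normalizer_fintype h

theorem qmpair_cube {S : Type*} [Group S] (U : Subgroup S)
    (y : ↥(Subgroup.normalizer (U : Set S)))
    (h : ∀ u ∈ U, (y : S) ^ 3 * u * ((y : S) ^ 3)⁻¹ = u) : U.normalizerMonoidHom y ^ 3 = 1 := by
  have h1 : U.normalizerMonoidHom y ^ 3 = U.normalizerMonoidHom (y ^ 3) := (map_pow _ _ _).symm
  rw [h1]
  ext u
  show ((y ^ 3 : ↥(Subgroup.normalizer (U : Set S))) : S) * u *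
    ((y ^ 3 : ↥(Subgroup.normalizer (U : Set S))) : S)⁻¹ = u
  rw [Subgroup.coe_pow]
  exact h u u.2

theorem qmpair_main {S : Type*} [Group S] [Finite S] (M : Subgroup S) [hMn : M.Normal]
    (hMc : ∀ m ∈ M, ∀ n ∈ M, m * n = n * m) (hM2 : ∀ m ∈ M, m * m = 1)
    (x : S) (V : Subgroup S) (hD : QMData M x V)
    (p : ℕ) (hp : p.Prime) (hp5 : 5 ≤ p) (P₀ : Subgroup S) (hP₀ : IsPGroup p ↥P₀)
    (hxP : ∀ g ∈ P₀, x * g * x⁻¹ ∈ P₀ ∧ x⁻¹ * g * x ∈ P₀) (g : S) (hg : g ∈ P₀)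
    (Vg : Subgroup S) (hVg : Vg = V.map (MulAut.conj g).toMonoidHom)
    (U : Subgroup S) (hU : U = V ⊔ Vg) (hbot : V ⊓ Vg = ⊥) : False := by
  have hVgmem : ∀ w : S, w ∈ Vg ↔ ∃ v ∈ V, g * v * g⁻¹ = w := by
    intro w
    rw [hVg, Subgroup.mem_map]
    rfl
  have hVgM : Vg ≤ M := by
    intro w hw
    obtain ⟨v, hv, rfl⟩ := (hVgmem w).mp hw
    exact hMn.conj_mem v (hD.le hv) g
  have hVU : V ≤ U := hU ▸ le_sup_left
  have hVgU : Vg ≤ U := hU ▸ le_sup_right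
  have hUM : U ≤ M := hU ▸ sup_le hD.le hVgM
  have hcardVg : Nat.card Vg = 4 := by
    rw [hVg, ← hD.card]
    exact Subgroup.card_map_of_injective (MulAut.conj g).injective
  have h16 : Nat.card U = 16 := by
    rw [hU, qmpair_card_sup V Vg (fun a ha b hb => hMc a (hD.le ha) b (hVgM hb)) hbot, hD.card,
      hcardVg]
  have hU2 : ∀ u : U, u * u = 1 := by
    intro u
    exact Subtype.ext (hM2 u.1 (hUM u.2))
  -- the conjugate of `x`
  have hcommg : ∀ m ∈ M, (g * x * g⁻¹) * m * (g * x * g⁻¹)⁻¹ * m⁻¹ ∈ Vg := by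
    intro m hm
    rw [hVgmem]
    refine ⟨⁅x, g⁻¹ * m * g⁆, hD.comm _ (hMn.conj_mem' m hm g), ?_⟩
    rw [commutatorElement_def]
    group
  have hxN : x ∈ Subgroup.normalizer (U : Set S) := by
    apply qmpair_mem_normalizer
    intro u hu
    have h1 : x * u * x⁻¹ = ⁅x, u⁆ * u := by
      rw [commutatorElement_def]
      group
    rw [h1]
    exact U.mul_mem (hVU (hD.comm u (hUM hu))) hu
  have hyN : g * x * g⁻¹ ∈ Subgroup.normalizer (U : Set S) := by
    apply qmpair_mem_normalizer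
    intro u hu
    have h1 : (g * x * g⁻¹) * u * (g * x * g⁻¹)⁻¹
        = ((g * x * g⁻¹) * u * (g * x * g⁻¹)⁻¹ * u⁻¹) * u := by
      group
    rw [h1]
    exact U.mul_mem (hVgU (hcommg u (hUM hu))) hu
  have ha : U.normalizerMonoidHom ⟨x, hxN⟩ ^ 3 = 1 := by
    apply qmpair_cube
    intro u hu
    exact hD.cube u (hUM hu)
  have hb : U.normalizerMonoidHom ⟨g * x * g⁻¹, hyN⟩ ^ 3 = 1 := by
    apply qmpair_cube
    intro u hu
    have h1 := hD.cube (g⁻¹ * u * g) (hMn.conj_mem' u (hUM hu) g)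
    have h2 : (g * x * g⁻¹) ^ 3 = g * x ^ 3 * g⁻¹ := by
      rw [pow_succ, pow_succ, pow_one, pow_succ, pow_succ, pow_one]
      group
    show (g * x * g⁻¹) ^ 3 * u * ((g * x * g⁻¹) ^ 3)⁻¹ = u
    rw [h2]
    calc g * x ^ 3 * g⁻¹ * u * (g * x ^ 3 * g⁻¹)⁻¹
        = g * (x ^ 3 * (g⁻¹ * u * g) * (x ^ 3)⁻¹) * g⁻¹ := by group
      _ = g * (g⁻¹ * u * g) * g⁻¹ := by rw [h1]
      _ = u := by group
  have hVa : ∀ u : U, U.normalizerMonoidHom ⟨x, hxN⟩ u * u⁻¹ ∈ V.subgroupOf U := by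
    intro u
    rw [Subgroup.mem_subgroupOf]
    have h1 := hD.comm u.1 (hUM u.2)
    rw [commutatorElement_def] at h1
    simpa using h1
  have hVb : ∀ u : U, U.normalizerMonoidHom ⟨g * x * g⁻¹, hyN⟩ u * u⁻¹ ∈ Vg.subgroupOf U := by
    intro u
    rw [Subgroup.mem_subgroupOf]
    have h1 := hcommg u.1 (hUM u.2)
    simpa using h1
  have h4a : Nat.card ↥(V.subgroupOf U) = 4 := by
    rw [← hD.card]
    exact Nat.card_congr (Subgroup.subgroupOfEquivOfLe hVU).toEquiv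
  have h4b : Nat.card ↥(Vg.subgroupOf U) = 4 := by
    rw [← hcardVg]
    exact Nat.card_congr (Subgroup.subgroupOfEquivOfLe hVgU).toEquiv
  have hdisj : V.subgroupOf U ⊓ Vg.subgroupOf U = ⊥ := by
    rw [eq_bot_iff]
    intro u hu
    have h1 : (u : S) ∈ V ⊓ Vg := ⟨Subgroup.mem_subgroupOf.mp hu.1, Subgroup.mem_subgroupOf.mp hu.2⟩
    rw [hbot, Subgroup.mem_bot] at h1
    rw [Subgroup.mem_bot]
    exact Subtype.ext h1
  have hfa : ∀ v ∈ V.subgroupOf U, U.normalizerMonoidHom ⟨x, hxN⟩ v = v → v = 1 := by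
    intro v hv h
    have h1 : x * (v : S) * x⁻¹ = v := by
      have h2 := congrArg Subtype.val h
      simpa using h2
    exact Subtype.ext (hD.fpf v.1 (Subgroup.mem_subgroupOf.mp hv) h1)
  have hfb : ∀ v ∈ Vg.subgroupOf U, U.normalizerMonoidHom ⟨g * x * g⁻¹, hyN⟩ v = v → v = 1 := by
    intro v hv h
    have h1 : (g * x * g⁻¹) * (v : S) * (g * x * g⁻¹)⁻¹ = v := by
      have h2 := congrArg Subtype.val h
      simpa using h2
    obtain ⟨w, hw, hwv⟩ := (hVgmem v.1).mp (Subgroup.mem_subgroupOf.mp hv)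
    have h3 : x * w * x⁻¹ = w := by
      rw [← hwv] at h1
      have h4 : g * (x * w * x⁻¹) * g⁻¹ = g * w * g⁻¹ := by
        rw [← h1]
        group
      exact mul_left_cancel (mul_right_cancel h4)
    have h5 := hD.fpf w hw h3
    apply Subtype.ext
    rw [← hwv, h5]
    simp
  have hΛ : IsPGroup p ↥((P₀.subgroupOf (Subgroup.normalizer (U : Set S))).map
      U.normalizerMonoidHom) := (hP₀.comap_subtype).map _
  have hc : U.normalizerMonoidHom ⟨g * x * g⁻¹, hyN⟩ * (U.normalizerMonoidHom ⟨x, hxN⟩)⁻¹ ∈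
      (P₀.subgroupOf (Subgroup.normalizer (U : Set S))).map U.normalizerMonoidHom := by
    rw [← map_inv, ← map_mul]
    apply Subgroup.mem_map_of_mem
    rw [Subgroup.mem_subgroupOf]
    have h1 : g * x * g⁻¹ * x⁻¹ = g * (x * g⁻¹ * x⁻¹) := by group
    show g * x * g⁻¹ * x⁻¹ ∈ P₀
    rw [h1]
    exact P₀.mul_mem hg (hxP g⁻¹ (P₀.inv_mem hg)).1
  have hn : ∀ l ∈ (P₀.subgroupOf (Subgroup.normalizer (U : Set S))).map U.normalizerMonoidHom,
      U.normalizerMonoidHom ⟨x, hxN⟩ * l * (U.normalizerMonoidHom ⟨x, hxN⟩)⁻¹ ∈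
      (P₀.subgroupOf (Subgroup.normalizer (U : Set S))).map U.normalizerMonoidHom := by
    rintro _ ⟨h, hh, rfl⟩
    rw [← map_inv, ← map_mul, ← map_mul]
    apply Subgroup.mem_map_of_mem
    rw [Subgroup.mem_subgroupOf]
    exact (hxP _ (Subgroup.mem_subgroupOf.mp hh)).1
  exact qm_aut hU2 h16 _ _ ha hb _ _ hVa hVb h4a h4b hdisj hfa hfb p hp hp5 _ hΛ hc hn

/-- PAIR: for `g` in a `p`-group `P₀` (`p ≥ 5`) normalized by `x`, the conjugate `g V g⁻¹`
meets `V` nontrivially. -/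
theorem qm_pair {S : Type*} [Group S] [Finite S] (M : Subgroup S) [M.Normal]
    (hM : Cfsg.IsElementaryAbelian 2 M) (x : S) (V : Subgroup S) (hD : QMData M x V)
    (p : ℕ) (hp : p.Prime) (hp5 : 5 ≤ p) (P₀ : Subgroup S) (hP₀ : IsPGroup p ↥P₀)
    (hxP : ∀ g ∈ P₀, x * g * x⁻¹ ∈ P₀ ∧ x⁻¹ * g * x ∈ P₀) (g : S) (hg : g ∈ P₀) :
    V ⊓ V.map (MulAut.conj g).toMonoidHom ≠ ⊥ := by
  intro hbot
  obtain ⟨hMc, hM2⟩ := hM
  exact qmpair_main M
    (fun m hm n hn => congrArg Subtype.val (hMc.is_comm.comm ⟨m, hm⟩ ⟨n, hn⟩))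
    (fun m hm => by rw [← pow_two]; exact hM2 m hm)
    x V hD p hp hp5 P₀ hP₀ hxP g hg _ rfl _ rfl hbot

end Cfsg.Agent.Lib.Helper73.QM
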