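import Mathlib
import Cfsg.Agent.Lib.Helper73.QMDefs
import Cfsg.Agent.Lib.Helper73.QMPair
import Cfsg.Agent.Lib.Helper73.QMCoplanar

/-!
# Project QM (S4404, architect helper73): piece PLANE

PLACEHOLDER: replace the body of the theorem(s) in THIS file by a full proof; keep the theorem
name(s) and statement(s) byte-identical; you may add imports of landed libs and auxiliary lemmas
(prefix `qmplane_`). Paper proof: note 2122 (select body from notes where id=2122).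
-/

set_option autoImplicit false

open scoped commutatorElement

namespace Cfsg.Agent.Lib.Helper73.QM

theorem qmplane_mem {S : Type*} [Group S] (V : Subgroup S) (g y : S) :
    y ∈ V.map (MulAut.conj g).toMonoidHom ↔ g⁻¹ * y * g ∈ V := by
  constructor
  · rintro ⟨v, hv, rfl⟩
    have e : g⁻¹ * ((MulAut.conj g).toMonoidHom v) * g = v := by
      show g⁻¹ * (g * v * g⁻¹) * g = v
      group
    rw [e]; exact hv
  · intro h
    refine ⟨g⁻¹ * y * g, h, ?_⟩
    show g * (g⁻¹ * y * g) * g⁻¹ = y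
    group

/-- PLANE: if the `p`-group `P₀` (`p ≥ 5`, normalized by `x`) does not normalize `V`, then the
`P₀`-conjugates of `V` generate a `P₀`-invariant subgroup of `M` of order 8. -/
theorem qm_plane {S : Type*} [Group S] [Finite S] (M : Subgroup S) [M.Normal]
    (hM : Cfsg.IsElementaryAbelian 2 M) (x : S) (V : Subgroup S) (hD : QMData M x V)
    (p : ℕ) (hp : p.Prime) (hp5 : 5 ≤ p) (P₀ : Subgroup S) (hP₀ : IsPGroup p ↥P₀)
    (hxP : ∀ g ∈ P₀, x * g * x⁻¹ ∈ P₀ ∧ x⁻¹ * g * x ∈ P₀)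
    (hnot : ¬ ∀ g ∈ P₀, ∀ v ∈ V, g * v * g⁻¹ ∈ V) :
    ∃ W : Subgroup S, W ≤ M ∧ Nat.card ↥W = 8 ∧ V ≤ W ∧
      ∀ g ∈ P₀, ∀ w ∈ W, g * w * g⁻¹ ∈ W := by
  classical
  have hMn : M.Normal := inferInstance
  have hcard : ∀ g : S, Nat.card ↥(V.map (MulAut.conj g).toMonoidHom) = 4 := by
    intro g
    rw [← hD.card]
    exact (Nat.card_congr (V.equivMapOfInjective _ (MulAut.conj g).injective).toEquiv).symm
  have hVM : ∀ g : S, V.map (MulAut.conj g).toMonoidHom ≤ M := by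
    intro g y hy
    have h1 : g⁻¹ * y * g ∈ M := hD.le ((qmplane_mem V g y).mp hy)
    have h2 := hMn.conj_mem _ h1 g
    have e : g * (g⁻¹ * y * g) * g⁻¹ = y := by group
    rwa [e] at h2
  have hV1 : V.map (MulAut.conj (1 : S)).toMonoidHom = V := by
    ext y
    rw [qmplane_mem]
    simp
  obtain ⟨O, hOdef⟩ : ∃ O : Set (Subgroup S),
      O = {A | ∃ g ∈ P₀, A = V.map (MulAut.conj g).toMonoidHom} := ⟨_, rfl⟩
  have hO : ∀ A, A ∈ O ↔ ∃ g ∈ P₀, A = V.map (MulAut.conj g).toMonoidHom := by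
    intro A; rw [hOdef]; rfl
  have hVO : V ∈ O := (hO V).mpr ⟨1, P₀.one_mem, hV1.symm⟩
  have hne : O.Nonempty := ⟨V, hVO⟩
  have h4 : ∀ A ∈ O, A ≤ M ∧ Nat.card ↥A = 4 := by
    intro A hA
    obtain ⟨g, -, rfl⟩ := (hO A).mp hA
    exact ⟨hVM g, hcard g⟩
  have hmeet : ∀ A ∈ O, ∀ B ∈ O, A ⊓ B ≠ ⊥ := by
    intro A hA B hB
    obtain ⟨g, hg, rfl⟩ := (hO A).mp hA
    obtain ⟨h, hh, rfl⟩ := (hO B).mp hB
    have hpr := qm_pair M hM x V hD p hp hp5 P₀ hP₀ hxP (g⁻¹ * h)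
      (P₀.mul_mem (P₀.inv_mem hg) hh)
    obtain ⟨⟨v, hv1, hv2⟩, hvne⟩ := (Subgroup.ne_bot_iff_exists_ne_one).mp hpr
    have hv1' : v ≠ 1 := fun e => hvne (Subtype.ext e)
    have hv2' : (g⁻¹ * h)⁻¹ * v * (g⁻¹ * h) ∈ V := (qmplane_mem V (g⁻¹ * h) v).mp hv2
    intro hbot
    have hmem : g * v * g⁻¹ ∈ V.map (MulAut.conj g).toMonoidHom ⊓
        V.map (MulAut.conj h).toMonoidHom := by
      refine ⟨(qmplane_mem V g _).mpr ?_, (qmplane_mem V h _).mpr ?_⟩
      · have e : g⁻¹ * (g * v * g⁻¹) * g = v := by group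
        rw [e]; exact hv1
      · have e : h⁻¹ * (g * v * g⁻¹) * h = (g⁻¹ * h)⁻¹ * v * (g⁻¹ * h) := by group
        rw [e]; exact hv2'
    rw [hbot, Subgroup.mem_bot] at hmem
    apply hv1'
    calc v = g⁻¹ * (g * v * g⁻¹) * g := by group
      _ = 1 := by rw [hmem]; group
  have hno : ∀ m : S, m ≠ 1 → ∃ A ∈ O, m ∉ A := by
    intro m hm1
    by_contra hcon
    have hall : ∀ A ∈ O, m ∈ A := by
      intro A hA
      by_contra hmA
      exact hcon ⟨A, hA, hmA⟩
    have hDV : sInf O ≤ V := sInf_le hVO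
    have hmD : m ∈ sInf O := by
      rw [Subgroup.mem_sInf]; exact hall
    have hxD : ∀ d ∈ sInf O, x * d * x⁻¹ ∈ sInf O := by
      intro d hd
      rw [Subgroup.mem_sInf] at hd ⊢
      intro A hA
      obtain ⟨g, hg, rfl⟩ := (hO A).mp hA
      have hg' : x⁻¹ * g * x ∈ P₀ := (hxP g hg).2
      have h1 := (qmplane_mem V _ d).mp (hd _ ((hO _).mpr ⟨x⁻¹ * g * x, hg', rfl⟩))
      refine (qmplane_mem V g _).mpr ?_
      have h2 := hD.conj _ h1
      have e : x * ((x⁻¹ * g * x)⁻¹ * d * (x⁻¹ * g * x)) * x⁻¹ = g⁻¹ * (x * d * x⁻¹) * g := by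
        group
      rwa [e] at h2
    have hmV : m ∈ V := hDV hmD
    have hxm : x * m * x⁻¹ ≠ m := fun e => hm1 (hD.fpf m hmV e)
    have hdvd : Nat.card ↥(sInf O) ∣ 4 := hD.card ▸ Subgroup.card_dvd_of_le hDV
    have hcardD : Nat.card ↥(sInf O) = 4 := by
      have hle : Nat.card ↥(sInf O) ≤ 4 := Nat.le_of_dvd (by norm_num) hdvd
      have hpos : 0 < Nat.card ↥(sInf O) := Nat.card_pos
      have hne1 : Nat.card ↥(sInf O) ≠ 1 := by
        intro h1
        have hbot : sInf O = ⊥ := Subgroup.eq_bot_of_card_eq _ h1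
        rw [hbot, Subgroup.mem_bot] at hmD
        exact hm1 hmD
      have hne2 : Nat.card ↥(sInf O) ≠ 2 := by
        intro h2
        obtain ⟨y, -, hy⟩ := (Nat.card_eq_two_iff' (1 : ↥(sInf O))).mp h2
        have e1 := hy ⟨m, hmD⟩ (fun e => hm1 (congrArg Subtype.val e))
        have e2 := hy ⟨x * m * x⁻¹, hxD m hmD⟩ (fun e => hm1 (by
          have e' : x * m * x⁻¹ = 1 := congrArg Subtype.val e
          calc m = x⁻¹ * (x * m * x⁻¹) * x := by group
            _ = 1 := by rw [e']; group))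
        apply hxm
        exact congrArg Subtype.val (e2.trans e1.symm)
      have hne3 : Nat.card ↥(sInf O) ≠ 3 := by
        intro h3
        rw [h3] at hdvd
        norm_num at hdvd
      omega
    have hDeq : sInf O = V := Subgroup.eq_of_le_of_card_ge hDV (by rw [hD.card, hcardD])
    apply hnot
    intro g hg v hv
    have h2 : v ∈ sInf O := by rw [hDeq]; exact hv
    rw [Subgroup.mem_sInf] at h2
    have h1 := (qmplane_mem V g⁻¹ v).mp (h2 _ ((hO _).mpr ⟨g⁻¹, P₀.inv_mem hg, rfl⟩))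
    rw [inv_inv] at h1
    exact h1
  obtain ⟨U, hUM, hU8, hOU⟩ := qm_coplanar M hM O hne h4 hmeet hno
  have hWU : sSup O ≤ U := sSup_le hOU
  have hVW : V ≤ sSup O := le_sSup hVO
  have hWinv : ∀ g ∈ P₀, ∀ w ∈ sSup O, g * w * g⁻¹ ∈ sSup O := by
    intro g hg w hw
    have hle : sSup O ≤ (sSup O).comap (MulAut.conj g).toMonoidHom := by
      apply sSup_le
      intro A hA y hy
      obtain ⟨h, hh, rfl⟩ := (hO A).mp hA
      rw [Subgroup.mem_comap]
      have hy' : h⁻¹ * y * h ∈ V := (qmplane_mem V h y).mp hy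
      have hmem : (MulAut.conj g).toMonoidHom y ∈ V.map (MulAut.conj (g * h)).toMonoidHom := by
        refine (qmplane_mem V (g * h) _).mpr ?_
        have e : (g * h)⁻¹ * ((MulAut.conj g).toMonoidHom y) * (g * h) = h⁻¹ * y * h := by
          show (g * h)⁻¹ * (g * y * g⁻¹) * (g * h) = h⁻¹ * y * h
          group
        rw [e]; exact hy'
      exact (le_sSup ((hO _).mpr ⟨g * h, P₀.mul_mem hg hh, rfl⟩) : _ ≤ sSup O) hmem
    exact hle hw
  refine ⟨sSup O, hWU.trans hUM, ?_, hVW, hWinv⟩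
  have hdvd8 : Nat.card ↥(sSup O) ∣ 8 := hU8 ▸ Subgroup.card_dvd_of_le hWU
  have hdvd4 : 4 ∣ Nat.card ↥(sSup O) := hD.card ▸ Subgroup.card_dvd_of_le hVW
  have hne4 : Nat.card ↥(sSup O) ≠ 4 := by
    intro h4'
    have hEq : V = sSup O := Subgroup.eq_of_le_of_card_ge hVW (by rw [h4', hD.card])
    apply hnot
    intro g hg v hv
    have h1 : v ∈ sSup O := hVW hv
    have h2 := hWinv g hg v h1
    rw [← hEq] at h2
    exact h2
  have hle8 : Nat.card ↥(sSup O) ≤ 8 := Nat.le_of_dvd (by norm_num) hdvd8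
  have hpos : 0 < Nat.card ↥(sSup O) := Nat.card_pos
  obtain ⟨k, hk⟩ := hdvd4
  omega

end Cfsg.Agent.Lib.Helper73.QM
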