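import Mathlib
import Cfsg.Agent.Lib.Helper73.QMDefs
import Cfsg.Agent.Lib.Helper73.QMPNorm
import Cfsg.Agent.Lib.Helper73.QMPlane

/-!
# Project QM (S4404, architect helper73): piece PCASE

Proved by helper34 (job 3380).  If `P₀` normalizes `V` then `P₀` centralizes `V` (`qm_pnorm4`)
and `F ⊓ C(V) = F`; otherwise `qm_plane` gives `W ⊇ V` of order 8 normalized by `P₀`, and by
`qm_pnorm8` the index of `F ⊓ C(W)` in `F` divides 7, so `F ⊓ C(W) ≤ F ⊓ C(V)` has order more than
`p`.  A group of exponent `p` and order more than `p` is not cyclic.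
-/

set_option autoImplicit false

open scoped commutatorElement

namespace Cfsg.Agent.Lib.Helper73.QM

/-- a group of exponent `p` with more than `p` elements is not cyclic -/
theorem qmpcase_not_cyclic {S : Type*} [Group S] [Finite S] (p : ℕ) (hp : p.Prime)
    (A : Subgroup S) (hA : ∀ a ∈ A, a ^ p = 1) (hc : p < Nat.card ↥A) : ¬ IsCyclic ↥A := by
  intro hcyc
  obtain ⟨g, hg⟩ := IsCyclic.exists_generator (α := ↥A)
  have h1 : orderOf g = Nat.card ↥A := orderOf_eq_card_of_forall_mem_zpowers hg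
  have h2 : g ^ p = 1 := by
    apply Subtype.ext
    rw [Subgroup.coe_pow, Subgroup.coe_one]
    exact hA g.1 g.2
  have h3 : orderOf g ∣ p := orderOf_dvd_of_pow_eq_one h2
  have h4 : orderOf g ≤ p := Nat.le_of_dvd hp.pos h3
  omega

/-- PCASE: an elementary abelian subgroup `F` of order `p ^ 3` of a `p`-group `P₀` (`p ≥ 5`)
normalized by `x` meets `C(V)` in a noncyclic subgroup. -/
theorem qm_pcase {S : Type*} [Group S] [Finite S] (M : Subgroup S) [M.Normal]
    (hM : Cfsg.IsElementaryAbelian 2 M) (x : S) (V : Subgroup S) (hD : QMData M x V)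
    (p : ℕ) (hp : p.Prime) (hp5 : 5 ≤ p) (P₀ : Subgroup S) (hP₀ : IsPGroup p ↥P₀)
    (hxP : ∀ g ∈ P₀, x * g * x⁻¹ ∈ P₀ ∧ x⁻¹ * g * x ∈ P₀)
    (F : Subgroup S) (hF : Cfsg.IsElementaryAbelian p F) (hF3 : Nat.card ↥F = p ^ 3)
    (hFP : F ≤ P₀) :
    ¬ IsCyclic ↥(F ⊓ Subgroup.centralizer (V : Set S)) := by
  have hFp : ∀ a ∈ F ⊓ Subgroup.centralizer (V : Set S), a ^ p = 1 := fun a ha => hF.2 a ha.1
  have hp2 : 2 ≤ p := hp.two_le
  have hp13 : p < p ^ 3 := by
    calc p = p ^ 1 := (pow_one p).symm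
      _ < p ^ 3 := Nat.pow_lt_pow_right (by omega) (by norm_num)
  apply qmpcase_not_cyclic p hp _ hFp
  by_cases hn : ∀ g ∈ P₀, ∀ v ∈ V, g * v * g⁻¹ ∈ V
  · have hV2 : ∀ v ∈ V, v * v = 1 := by
      intro v hv
      have h := hM.2 v (hD.le hv)
      rwa [sq] at h
    have hcent := qm_pnorm4 V hV2 hD.card p hp hp5 P₀ hP₀ hn
    have hle : F ≤ Subgroup.centralizer (V : Set S) := hFP.trans hcent
    have heq : F ⊓ Subgroup.centralizer (V : Set S) = F := inf_eq_left.mpr hle
    rw [heq, hF3]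
    exact hp13
  · obtain ⟨W, hWM, hW8, hVW, hnW⟩ := qm_plane M hM x V hD p hp hp5 P₀ hP₀ hxP hn
    have hW2 : ∀ w ∈ W, w * w = 1 := by
      intro w hw
      have h := hM.2 w (hWM hw)
      rwa [sq] at h
    have h7 := qm_pnorm8 W hW2 hW8 p hp hp5 P₀ hP₀ hnW F hFP
    have hKF : F ⊓ Subgroup.centralizer (W : Set S) ≤ F := inf_le_left
    have hmul : Nat.card ↥(F ⊓ Subgroup.centralizer (W : Set S)) *
        (F ⊓ Subgroup.centralizer (W : Set S)).relIndex F = p ^ 3 := by
      have h := Subgroup.relIndex_mul_relIndex (⊥ : Subgroup S)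
        (F ⊓ Subgroup.centralizer (W : Set S)) F bot_le hKF
      rw [Subgroup.relIndex_bot_left, Subgroup.relIndex_bot_left, hF3] at h
      exact h
    have hKV : F ⊓ Subgroup.centralizer (W : Set S) ≤ F ⊓ Subgroup.centralizer (V : Set S) :=
      inf_le_inf_left F (Subgroup.centralizer_le (SetLike.coe_subset_coe.mpr hVW))
    have hcard : Nat.card ↥(F ⊓ Subgroup.centralizer (W : Set S)) ≤
        Nat.card ↥(F ⊓ Subgroup.centralizer (V : Set S)) := Subgroup.card_le_of_le hKV
    have hpK : p < Nat.card ↥(F ⊓ Subgroup.centralizer (W : Set S)) := by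
      rcases (Nat.dvd_prime (by norm_num : Nat.Prime 7)).mp h7 with h1 | h7'
      · rw [h1, mul_one] at hmul
        rw [hmul]
        exact hp13
      · rw [h7'] at hmul
        have h7p : 7 ∣ p ^ 3 := Dvd.intro_left _ hmul
        have h7p' : 7 ∣ p := (by norm_num : Nat.Prime 7).dvd_of_dvd_pow h7p
        have hp7 : p = 7 := ((Nat.prime_dvd_prime_iff_eq (by norm_num) hp).mp h7p').symm
        subst hp7
        omega
    omega

end Cfsg.Agent.Lib.Helper73.QM
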