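import Mathlib
import Cfsg.Agent.Lib.Helper73.QMDefs
import Cfsg.Agent.Lib.Helper73.QMKL
import Cfsg.Agent.S0100

/-!
# Project QM (S4404, architect helper73): piece THREE

Proved by helper77 (uses the KL piece and the landed S0100). Paper proof: note 2122.
-/

set_option autoImplicit false

open scoped commutatorElement

namespace Cfsg.Agent.Lib.Helper73.QM

open scoped Pointwise in
/-- two Sylow subgroups are conjugate (elementwise form) -/
theorem qmthree_sylow_conj {S : Type*} [Group S] [Finite S] (p : ℕ) [Fact p.Prime]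
    (T T' : Sylow p S) :
    ∃ g : S, ∀ t : S, t ∈ (T : Subgroup S) → g⁻¹ * t * g ∈ (T' : Subgroup S) := by
  obtain ⟨g, hg⟩ := MulAction.exists_smul_eq S T' T
  refine ⟨g, fun t ht => ?_⟩
  rw [← hg, Sylow.coe_subgroup_smul, Subgroup.mem_pointwise_smul_iff_inv_smul_mem,
    MulAut.smul_def, MulAut.conj_inv_apply] at ht
  exact ht

/-- THREE: if `S` has an elementary abelian subgroup of order 27 (and `x` lies in the
3-group `Q`), some elementary abelian subgroup of order 27 meets `C(V)` in a noncyclic subgroup. -/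
theorem qm_three {S : Type*} [Group S] [Finite S] (M : Subgroup S) [M.Normal]
    (hM : Cfsg.IsElementaryAbelian 2 M) (Q : Subgroup S) (hQ3 : IsPGroup 3 ↥Q) (x : S)
    (hxQ : x ∈ Q) (V : Subgroup S) (hD : QMData M x V)
    (E₀ : Subgroup S) (hE₀ : Cfsg.IsElementaryAbelian 3 E₀) (h27 : Nat.card ↥E₀ = 27) :
    ∃ F : Subgroup S, Cfsg.IsElementaryAbelian 3 F ∧ Nat.card ↥F = 27 ∧
      ¬ IsCyclic ↥(F ⊓ Subgroup.centralizer (V : Set S)) := by
  have h3 : Fact (Nat.Prime 3) := ⟨by norm_num⟩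
  obtain ⟨T, hQT⟩ := IsPGroup.exists_le_sylow hQ3
  have hE₀p : IsPGroup 3 ↥E₀ := by
    intro e
    refine ⟨1, ?_⟩
    apply Subtype.ext
    show (e : S) ^ 3 ^ 1 = 1
    rw [pow_one]
    exact hE₀.2 e e.2
  obtain ⟨T', hET'⟩ := IsPGroup.exists_le_sylow hE₀p
  obtain ⟨g, hg⟩ := qmthree_sylow_conj 3 T T'
  have hxT : x ∈ (T : Subgroup S) := hQT hxQ
  have hcardE : Nat.card ↥(E₀.subgroupOf (T' : Subgroup S)) = 27 := by
    rw [Nat.card_congr (Subgroup.subgroupOfEquivOfLe hET').toEquiv]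
    exact h27
  have hEc : IsMulCommutative ↥(E₀.subgroupOf (T' : Subgroup S)) := by
    refine ⟨⟨fun a b => ?_⟩⟩
    apply Subtype.ext
    apply Subtype.ext
    have ha : ((a : ↥(T' : Subgroup S)) : S) ∈ E₀ := Subgroup.mem_subgroupOf.1 a.2
    have hb : ((b : ↥(T' : Subgroup S)) : S) ∈ E₀ := Subgroup.mem_subgroupOf.1 b.2
    have hc := hE₀.1.is_comm.comm ⟨_, ha⟩ ⟨_, hb⟩
    have hc' : ((a : ↥(T' : Subgroup S)) : S) * ((b : ↥(T' : Subgroup S)) : S) =
        ((b : ↥(T' : Subgroup S)) : S) * ((a : ↥(T' : Subgroup S)) : S) :=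
      congrArg Subtype.val hc
    exact hc'
  have hEe : ∀ e ∈ E₀.subgroupOf (T' : Subgroup S), e ^ 3 = 1 := by
    intro e he
    apply Subtype.ext
    show ((e : ↥(T' : Subgroup S)) : S) ^ 3 = 1
    exact hE₀.2 _ (Subgroup.mem_subgroupOf.1 he)
  have hex : ∃ A : Subgroup ↥(T' : Subgroup S), A.Normal ∧ IsMulCommutative ↥A ∧
      (∀ a ∈ A, a ^ 3 = 1) ∧ Nat.card ↥A = 27 := by
    by_contra hno
    have h : ∀ A : Subgroup ↥(T' : Subgroup S), A.Normal → IsMulCommutative ↥A →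
        (∀ a ∈ A, a ^ 3 = 1) → Nat.card ↥A ≠ 3 ^ 3 := by
      intro A hA1 hA2 hA3 hA4
      exact hno ⟨A, hA1, hA2, hA3, by rw [hA4]; norm_num⟩
    have hle := Cfsg.Agent.S0100.result (p := 3) (by norm_num) T'.isPGroup' h
      (E₀.subgroupOf (T' : Subgroup S)) hEc hEe
    rw [hcardE] at hle
    norm_num at hle
  obtain ⟨A, hA1, hA2, hA3, hA4⟩ := hex
  obtain ⟨φ, hφ⟩ : ∃ φ : ↥(T' : Subgroup S) →* S, ∀ t, φ t = g * (t : S) * g⁻¹ :=
    ⟨(MulAut.conj g).toMonoidHom.comp (T' : Subgroup S).subtype, fun t => rfl⟩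
  have hφinj : Function.Injective φ := by
    intro a b hab
    rw [hφ, hφ] at hab
    apply Subtype.ext
    exact mul_left_cancel (mul_right_cancel hab)
  have hF : Cfsg.IsElementaryAbelian 3 (A.map φ) := by
    refine ⟨⟨⟨fun u v => ?_⟩⟩, ?_⟩
    · obtain ⟨a, ha, hau⟩ := Subgroup.mem_map.1 u.2
      obtain ⟨b, hb, hbv⟩ := Subgroup.mem_map.1 v.2
      apply Subtype.ext
      show (u : S) * (v : S) = (v : S) * (u : S)
      have hab : a * b = b * a := congrArg Subtype.val (hA2.is_comm.comm ⟨a, ha⟩ ⟨b, hb⟩)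
      rw [← hau, ← hbv, ← map_mul, ← map_mul, hab]
    · intro u hu
      obtain ⟨a, ha, rfl⟩ := Subgroup.mem_map.1 hu
      rw [← map_pow, hA3 a ha, map_one]
  have hF27 : Nat.card ↥(A.map φ) = 27 := by
    rw [Subgroup.card_map_of_injective hφinj]
    exact hA4
  have hxF : ∀ e ∈ A.map φ, x * e * x⁻¹ ∈ A.map φ := by
    intro e he
    obtain ⟨a, ha, rfl⟩ := Subgroup.mem_map.1 he
    have ht : g⁻¹ * x * g ∈ (T' : Subgroup S) := hg x hxT
    refine Subgroup.mem_map.2 ⟨⟨g⁻¹ * x * g, ht⟩ * a * ⟨g⁻¹ * x * g, ht⟩⁻¹,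
      hA1.conj_mem a ha _, ?_⟩
    rw [hφ, hφ]
    show g * ((g⁻¹ * x * g) * (a : S) * (g⁻¹ * x * g)⁻¹) * g⁻¹ = x * (g * (a : S) * g⁻¹) * x⁻¹
    group
  exact ⟨A.map φ, hF, hF27, qm_kl M hM x V hD (A.map φ) hF hF27 hxF⟩

end Cfsg.Agent.Lib.Helper73.QM
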