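import Mathlib
import Cfsg.Prelude.Def_Transfer
import Cfsg.Prelude.Def_Solvable

/-!
# Project QS (S4409, architect helper73): definitions

`Small Y`: the subgroup `Y` has no noncyclic abelian subgroup of order 8.
`IsV4 Y`: `Y` is a four-group (order 4, exponent 2).
`IsQ8 Y`: `Y` is a quaternion group of order 8 (order 8, and an element `z ≠ 1` such that every
element other than `1, z` squares to `z`).
-/

set_option autoImplicit false

namespace Cfsg.Agent.Lib.Helper73.QS

variable {G : Type*} [Group G]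

/-- `Y` has no noncyclic abelian subgroup of order 8. -/
def Small (Y : Subgroup G) : Prop :=
  ∀ A : Subgroup G, A ≤ Y → IsMulCommutative ↥A → Nat.card ↥A = 8 → IsCyclic ↥A

/-- `Y` is a four-group. -/
def IsV4 (Y : Subgroup G) : Prop :=
  Nat.card ↥Y = 4 ∧ ∀ y ∈ Y, y * y = 1

/-- `Y` is a quaternion group of order 8. -/
def IsQ8 (Y : Subgroup G) : Prop :=
  Nat.card ↥Y = 8 ∧ ∃ z ∈ Y, z ≠ 1 ∧ ∀ y ∈ Y, y ≠ 1 → y ≠ z → y * y = z

theorem Small.mono {Y Z : Subgroup G} (h : Small Y) (hZ : Z ≤ Y) : Small Z :=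
  fun A hA => h A (hA.trans hZ)

end Cfsg.Agent.Lib.Helper73.QS
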