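import Mathlib
import Cfsg.Agent.Lib.Helper73.QSDefs

/-!
# Project QS (S4409, architect helper73): basic commutator facts (proved, no placeholders)
-/

set_option autoImplicit false

namespace Cfsg.Agent.Lib.Helper73.QS

open scoped commutatorElement

variable {G : Type*} [Group G]

/-- conjugation by `g` maps `⁅Y, H⁆` into itself as soon as it does so on generators -/
theorem conj_comm_mem {Y H : Subgroup G} (g : G)
    (hg : ∀ y ∈ Y, ∀ h ∈ H, g * ⁅y, h⁆ * g⁻¹ ∈ ⁅Y, H⁆) :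
    ∀ d ∈ ⁅Y, H⁆, g * d * g⁻¹ ∈ ⁅Y, H⁆ := by
  intro d hd
  have hle : ⁅Y, H⁆ ≤ (⁅Y, H⁆ : Subgroup G).comap (MulAut.conj g).toMonoidHom := by
    rw [Subgroup.commutator_def, Subgroup.closure_le]
    rintro _ ⟨y, hy, h, hh, rfl⟩
    simp only [SetLike.mem_coe, Subgroup.mem_comap, MulEquiv.coe_toMonoidHom, MulAut.conj_apply]
    exact hg y hy h hh
  have := hle hd
  simpa [Subgroup.mem_comap, MulAut.conj_apply] using this

theorem conj_left_comm_mem {Y H : Subgroup G} {g : G} (hg : g ∈ Y) :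
    ∀ d ∈ ⁅Y, H⁆, g * d * g⁻¹ ∈ ⁅Y, H⁆ := by
  apply conj_comm_mem
  intro y hy h hh
  have e : g * ⁅y, h⁆ * g⁻¹ = ⁅g * y, h⁆ * ⁅g, h⁆⁻¹ := by
    simp only [commutatorElement_def]; group
  rw [e]
  exact Subgroup.mul_mem _ (Subgroup.commutator_mem_commutator (Y.mul_mem hg hy) hh)
    (Subgroup.inv_mem _ (Subgroup.commutator_mem_commutator hg hh))

theorem conj_right_comm_mem {Y H : Subgroup G} {g : G} (hg : g ∈ H) :
    ∀ d ∈ ⁅Y, H⁆, g * d * g⁻¹ ∈ ⁅Y, H⁆ := by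
  apply conj_comm_mem
  intro y hy h hh
  have e : g * ⁅y, h⁆ * g⁻¹ = ⁅y, g⁆⁻¹ * ⁅y, g * h⁆ := by
    simp only [commutatorElement_def]; group
  rw [e]
  exact Subgroup.mul_mem _ (Subgroup.inv_mem _ (Subgroup.commutator_mem_commutator hy hg))
    (Subgroup.commutator_mem_commutator hy (H.mul_mem hg hh))

/-- `Y` normalizes `⁅Y, H⁆` -/
theorem left_le_normalizer_comm (Y H : Subgroup G) :
    Y ≤ Subgroup.normalizer ((⁅Y, H⁆ : Subgroup G) : Set G) := by
  intro g hg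
  rw [Subgroup.mem_normalizer_iff]
  intro d
  refine ⟨conj_left_comm_mem hg d, fun hd => ?_⟩
  have := conj_left_comm_mem (H := H) (Y.inv_mem hg) _ hd
  have e : g⁻¹ * (g * d * g⁻¹) * g⁻¹⁻¹ = d := by group
  rwa [e] at this

/-- `H` normalizes `⁅Y, H⁆` -/
theorem right_le_normalizer_comm (Y H : Subgroup G) :
    H ≤ Subgroup.normalizer ((⁅Y, H⁆ : Subgroup G) : Set G) := by
  intro g hg
  rw [Subgroup.mem_normalizer_iff]
  intro d
  refine ⟨conj_right_comm_mem hg d, fun hd => ?_⟩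
  have := conj_right_comm_mem (Y := Y) (H.inv_mem hg) _ hd
  have e : g⁻¹ * (g * d * g⁻¹) * g⁻¹⁻¹ = d := by group
  rwa [e] at this

/-- if `H` normalizes `Y` then `⁅Y, H⁆ ≤ Y` -/
theorem comm_le {Y H : Subgroup G} (hN : H ≤ Subgroup.normalizer (Y : Set G)) : ⁅Y, H⁆ ≤ Y := by
  rw [Subgroup.commutator_le]
  intro y hy h hh
  have h1 := (Subgroup.mem_normalizer_iff.mp (hN hh) y⁻¹).mp (Y.inv_mem hy)
  have e : ⁅y, h⁆ = y * (h * y⁻¹ * h⁻¹) := by rw [commutatorElement_def]; group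
  rw [e]
  exact Y.mul_mem hy h1

end Cfsg.Agent.Lib.Helper73.QS
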