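import Mathlib
import Cfsg.Agent.Lib.Helper73.QSDefs

/-!
# Project QS (S4409, architect helper73): piece QB (proof by helper63)

A group `H` of odd order normalizing but not centralizing a quaternion group `D` of order 8 fixes
only the elements `d` with `d * d = 1`, and every 2-element normalizing `D` and commuting with `H`
centralizes `D`.
-/

set_option autoImplicit false

namespace Cfsg.Agent.Lib.Helper73.QS

variable {G : Type*} [Group G]

/-- the data of a quaternion group of order 8 with central involution `z` -/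
structure qsqb_Q (D : Subgroup G) (z : G) : Prop where
  card : Nat.card D = 8
  hz : z ∈ D
  hz1 : z ≠ 1
  sq : ∀ y ∈ D, y ≠ 1 → y ≠ z → y * y = z

namespace qsqb_Q

variable {D : Subgroup G} {z : G}

theorem exists_ne (Q : qsqb_Q D z) : ∃ y ∈ D, y ≠ 1 ∧ y ≠ z := by
  by_contra hcon
  have hsub : (D : Set G) ⊆ {1, z} := by
    intro y hy
    by_cases h1 : y = 1
    · left; exact h1
    · right
      by_contra h2
      exact hcon ⟨y, hy, h1, h2⟩
  have h2 : Nat.card D ≤ 2 := by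
    have e : Nat.card D = (D : Set G).ncard := by
      rw [← _root_.Nat.card_coe_set_eq]; rfl
    rw [e]
    refine (Set.ncard_le_ncard hsub ((Set.finite_singleton z).insert 1)).trans ?_
    exact (Set.ncard_insert_le 1 {z}).trans (by rw [Set.ncard_singleton])
  rw [Q.card] at h2
  omega

theorem zz (Q : qsqb_Q D z) : z * z = 1 := by
  obtain ⟨y, hy, hy1, hyz⟩ := Q.exists_ne
  have hyy := Q.sq y hy hy1 hyz
  have hinv1 : y⁻¹ ≠ 1 := fun h => hy1 (inv_eq_one.1 h)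
  have hinvz : y⁻¹ ≠ z := by
    intro h
    have h3 : z ^ 3 = 1 := by
      have e : y = z⁻¹ := by rw [← h, inv_inv]
      rw [e] at hyy
      calc z ^ 3 = z * z * z := by simp only [pow_succ, pow_zero, one_mul]
        _ = z * z * (z⁻¹ * z⁻¹) := by rw [hyy]
        _ = 1 := by group
    have h8 : z ^ 8 = 1 := by
      have h := pow_card_eq_one' (G := D) (x := ⟨z, Q.hz⟩)
      rw [Q.card] at h
      exact congrArg Subtype.val h
    apply Q.hz1
    have h9 : z ^ 9 = 1 := by rw [show 9 = 3 * 3 from rfl, pow_mul, h3, one_pow]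
    rw [show 9 = 8 + 1 from rfl, pow_succ, h8, one_mul] at h9
    exact h9
  have h := Q.sq y⁻¹ (D.inv_mem hy) hinv1 hinvz
  calc z * z = (y * y) * (y⁻¹ * y⁻¹) := by rw [hyy, h]
    _ = 1 := by group

theorem sq_eq_one (Q : qsqb_Q D z) {y : G} (hy : y ∈ D) (h : y * y = 1) : y = 1 ∨ y = z := by
  by_contra hcon
  rcases not_or.mp hcon with ⟨a, b⟩
  have h' := Q.sq y hy a b
  rw [h] at h'
  exact Q.hz1 h'.symm

theorem z_comm (Q : qsqb_Q D z) {y : G} (hy : y ∈ D) : z * y = y * z := by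
  by_cases h1 : y = 1
  · rw [h1, mul_one, one_mul]
  by_cases h2 : y = z
  · rw [h2]
  rw [← Q.sq y hy h1 h2, mul_assoc]

theorem inv_eq (Q : qsqb_Q D z) {y : G} (hy : y ∈ D) (h1 : y ≠ 1) (h2 : y ≠ z) :
    y⁻¹ = y * z := by
  apply inv_eq_of_mul_eq_one_right
  rw [← mul_assoc, Q.sq y hy h1 h2, Q.zz]

theorem inv_ne (Q : qsqb_Q D z) {y : G} (hy : y ∈ D) (h1 : y ≠ 1) (h2 : y ≠ z) : y⁻¹ ≠ y := by
  intro h
  have h' : y * y = 1 := by
    calc y * y = y⁻¹ * y := by rw [h]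
      _ = 1 := inv_mul_cancel y
  rw [Q.sq y hy h1 h2] at h'
  exact Q.hz1 h'

theorem conj_z (Q : qsqb_Q D z) {g : G} (hg : g ∈ Subgroup.normalizer (D : Set G)) :
    g * z * g⁻¹ = z := by
  have hmem : g * z * g⁻¹ ∈ D := (Subgroup.mem_normalizer_iff.1 hg z).1 Q.hz
  have hsq : g * z * g⁻¹ * (g * z * g⁻¹) = 1 := by
    calc g * z * g⁻¹ * (g * z * g⁻¹) = g * (z * z) * g⁻¹ := by group
      _ = 1 := by rw [Q.zz]; group
  rcases Q.sq_eq_one hmem hsq with h | h
  · exfalso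
    apply Q.hz1
    have e : z = g⁻¹ * (g * z * g⁻¹) * g := by group
    rw [e, h]; group
  · exact h

theorem pow_four (Q : qsqb_Q D z) {y : G} (hy : y ∈ D) (h1 : y ≠ 1) (h2 : y ≠ z) :
    y ^ 4 = 1 := by
  calc y ^ 4 = (y * y) * (y * y) := by simp only [pow_succ, pow_zero, one_mul, mul_assoc]
    _ = 1 := by rw [Q.sq y hy h1 h2, Q.zz]

theorem mem_zpowers (Q : qsqb_Q D z) {y : G} (hy : y ∈ D) (h1 : y ≠ 1) (h2 : y ≠ z) {x : G}
    (hx : x ∈ Subgroup.zpowers y) : x = 1 ∨ x = y ∨ x = z ∨ x = y⁻¹ := by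
  obtain ⟨n, rfl⟩ := Subgroup.mem_zpowers_iff.1 hx
  have h4 : y ^ (4 : ℤ) = 1 := by exact_mod_cast Q.pow_four hy h1 h2
  have hn : y ^ n = y ^ (n % 4) := by
    conv_lhs => rw [← Int.emod_add_mul_ediv n 4]
    rw [zpow_add, zpow_mul, h4, one_zpow, mul_one]
  have hn0 : 0 ≤ n % 4 := Int.emod_nonneg n (by norm_num)
  have hn4 : n % 4 < 4 := Int.emod_lt_of_pos n (by norm_num)
  obtain ⟨m, hm⟩ : ∃ m : ℕ, n % 4 = m := ⟨(n % 4).toNat, (Int.toNat_of_nonneg hn0).symm⟩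
  rw [hn, hm, zpow_natCast]
  have hm4 : m < 4 := by omega
  interval_cases m
  · left; exact pow_zero y
  · right; left; exact pow_one y
  · right; right; left; rw [pow_two]; exact Q.sq y hy h1 h2
  · right; right; right
    rw [Q.inv_eq hy h1 h2, ← Q.sq y hy h1 h2]
    simp only [pow_succ, pow_zero, one_mul, mul_assoc]

theorem card_zpowers (Q : qsqb_Q D z) {y : G} (hy : y ∈ D) (h1 : y ≠ 1) (h2 : y ≠ z) :
    Nat.card (Subgroup.zpowers y) = 4 := by
  rw [Nat.card_zpowers]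
  have hnot : ¬ y ^ 2 ^ 1 = 1 := by
    rw [pow_one, pow_two, Q.sq y hy h1 h2]; exact Q.hz1
  have hfin : y ^ 2 ^ (1 + 1) = 1 := Q.pow_four hy h1 h2
  exact orderOf_eq_prime_pow hnot hfin

theorem mul_mem_zpowers (Q : qsqb_Q D z) {y : G} (hy : y ∈ D) (h1 : y ≠ 1) (h2 : y ≠ z)
    {a b : G} (ha : a ∈ D) (hb : b ∈ D) (ha' : a ∉ Subgroup.zpowers y)
    (hb' : b ∉ Subgroup.zpowers y) : a⁻¹ * b ∈ Subgroup.zpowers y := by
  have hle : Subgroup.zpowers y ≤ D := (Subgroup.zpowers_le).2 hy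
  have hidx : ((Subgroup.zpowers y).subgroupOf D).index = 2 := by
    have h := Subgroup.card_mul_index ((Subgroup.zpowers y).subgroupOf D)
    rw [Nat.card_congr (Subgroup.subgroupOfEquivOfLe hle).toEquiv, Q.card_zpowers hy h1 h2,
      Q.card] at h
    omega
  have h := (Subgroup.mul_mem_iff_of_index_two hidx (a := (⟨a, ha⟩ : D)⁻¹) (b := ⟨b, hb⟩)).2 (by
    rw [inv_mem_iff]
    constructor
    · intro h; exact absurd (Subgroup.mem_subgroupOf.1 h) ha'
    · intro h; exact absurd (Subgroup.mem_subgroupOf.1 h) hb')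
  exact Subgroup.mem_subgroupOf.1 h

theorem anti (Q : qsqb_Q D z) {u v : G} (hu : u ∈ D) (hu1 : u ≠ 1) (hu2 : u ≠ z) (hv : v ∈ D)
    (hv1 : v ≠ 1) (hv2 : v ≠ z) : v * u = (u * v)⁻¹ := by
  symm
  apply inv_eq_of_mul_eq_one_right
  calc u * v * (v * u) = u * (v * v) * u := by group
    _ = u * z * u := by rw [Q.sq v hv hv1 hv2]
    _ = u * (z * u) := by group
    _ = u * (u * z) := by rw [Q.z_comm hu]
    _ = (u * u) * z := by group
    _ = 1 := by rw [Q.sq u hu hu1 hu2, Q.zz]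

theorem mul_ne (Q : qsqb_Q D z) {u v : G} (hu : u ∈ D) (hu1 : u ≠ 1) (hu2 : u ≠ z)
    (hvu : v ≠ u) (hvu' : v ≠ u⁻¹) : u * v ≠ 1 ∧ u * v ≠ z := by
  constructor
  · intro h
    exact hvu' (inv_eq_of_mul_eq_one_right h).symm
  · intro h
    apply hvu
    calc v = u⁻¹ * (u * v) := by group
      _ = u⁻¹ * z := by rw [h]
      _ = u * z * z := by rw [Q.inv_eq hu hu1 hu2]
      _ = u := by rw [mul_assoc, Q.zz, mul_one]

end qsqb_Q

/-- an element of odd order cannot invert an element that is not an involution -/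
theorem qsqb_odd_inv {g x : G} {m : ℕ} (hm : Odd m) (hg : g ^ m = 1) (h : g * x * g⁻¹ = x⁻¹) :
    x⁻¹ = x := by
  obtain ⟨n, rfl⟩ := hm
  have e : g * x = x⁻¹ * g := by rw [← h]; group
  have e' : g * x⁻¹ = x * g := by
    have e2 : g * x⁻¹ * g⁻¹ = x := by
      calc g * x⁻¹ * g⁻¹ = (g * x * g⁻¹)⁻¹ := by group
        _ = x := by rw [h, inv_inv]
    calc g * x⁻¹ = (g * x⁻¹ * g⁻¹) * g := by group
      _ = x * g := by rw [e2]
  have h2 : Commute (g ^ 2) x := by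
    show g ^ 2 * x = x * g ^ 2
    rw [pow_two, mul_assoc, e, ← mul_assoc, e', mul_assoc]
  have h3 : Commute ((g ^ 2) ^ n) x := h2.pow_left n
  have h4 : g = ((g ^ 2) ^ n)⁻¹ := by
    apply eq_inv_of_mul_eq_one_right
    rw [← pow_mul, ← pow_succ]; exact hg
  have h5 : Commute g x := by rw [h4]; exact h3.inv_left
  calc x⁻¹ = g * x * g⁻¹ := h.symm
    _ = x * g * g⁻¹ := by rw [h5.eq]
    _ = x := by group

namespace qsqb_Q

variable {D : Subgroup G} {z : G}

/-- an element of odd order normalizing `D` and fixing an element of order 4 centralizes `D` -/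
theorem fix_all (Q : qsqb_Q D z) {h : G} (hh : h ∈ Subgroup.normalizer (D : Set G)) {m : ℕ}
    (hm : Odd m) (hhm : h ^ m = 1) {d : G} (hd : d ∈ D) (hd1 : d ≠ 1) (hd2 : d ≠ z)
    (hcomm : h * d = d * h) : ∀ y ∈ D, h * y = y * h := by
  intro y hy
  have hcz : ∀ t ∈ Subgroup.zpowers d, h * t = t * h := by
    intro t ht
    obtain ⟨n, rfl⟩ := Subgroup.mem_zpowers_iff.1 ht
    exact ((show Commute h d from hcomm).zpow_right n).eq
  by_cases hyA : y ∈ Subgroup.zpowers d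
  · exact hcz y hyA
  · have hy' : h * y * h⁻¹ ∈ D := (Subgroup.mem_normalizer_iff.1 hh y).1 hy
    have hy'A : h * y * h⁻¹ ∉ Subgroup.zpowers d := by
      intro hcon
      apply hyA
      have h1 := hcz _ hcon
      have e : h * y * h⁻¹ = y := by
        have e1 : h * (h * y * h⁻¹) = h * y := by rw [h1]; group
        exact mul_left_cancel e1
      rw [e] at hcon
      exact hcon
    have ht := Q.mul_mem_zpowers hd hd1 hd2 hy hy' hyA hy'A
    obtain ⟨t, htdef⟩ : ∃ t, t = y⁻¹ * (h * y * h⁻¹) := ⟨_, rfl⟩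
    rw [← htdef] at ht
    have hyt : h * y * h⁻¹ = y * t := by rw [htdef]; group
    have htc := hcz t ht
    have hpow : ∀ n : ℕ, h ^ n * y * (h ^ n)⁻¹ = y * t ^ n := by
      intro n
      induction n with
      | zero => simp
      | succ n ih =>
        have e1 : h * t ^ n * h⁻¹ = t ^ n := by
          have e2 := ((show Commute h t from htc).pow_right n).eq
          rw [e2]; group
        calc h ^ (n + 1) * y * (h ^ (n + 1))⁻¹ = h * (h ^ n * y * (h ^ n)⁻¹) * h⁻¹ := by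
              rw [pow_succ']; group
          _ = h * (y * t ^ n) * h⁻¹ := by rw [ih]
          _ = (h * y * h⁻¹) * (h * t ^ n * h⁻¹) := by group
          _ = y * t * t ^ n := by rw [hyt, e1]
          _ = y * t ^ (n + 1) := by rw [pow_succ', mul_assoc]
    have htm : t ^ m = 1 := by
      have h1 := hpow m
      rw [hhm] at h1
      have e : y = y * t ^ m := by simpa using h1
      exact (left_eq_mul.1 e)
    have ht4 : t ^ 4 = 1 := by
      rcases Q.mem_zpowers hd hd1 hd2 ht with h | h | h | h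
      · rw [h]; exact one_pow 4
      · rw [h]; exact Q.pow_four hd hd1 hd2
      · rw [h]
        calc z ^ 4 = (z * z) * (z * z) := by simp only [pow_succ, pow_zero, one_mul, mul_assoc]
          _ = 1 := by rw [Q.zz, one_mul]
      · rw [h, inv_pow, Q.pow_four hd hd1 hd2, inv_one]
    have ht1 : t = 1 := by
      have h1 : orderOf t ∣ m := orderOf_dvd_of_pow_eq_one htm
      have h2 : orderOf t ∣ 2 ^ 2 := orderOf_dvd_of_pow_eq_one ht4
      have h3 : orderOf t ∣ Nat.gcd m (2 ^ 2) := Nat.dvd_gcd h1 h2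
      have h4 : Nat.gcd m (2 ^ 2) = 1 := Nat.Coprime.pow_right 2 hm.coprime_two_right
      rw [h4, Nat.dvd_one] at h3
      exact orderOf_eq_one_iff.1 h3
    rw [ht1, mul_one] at hyt
    calc h * y = (h * y * h⁻¹) * h := by group
      _ = y * h := by rw [hyt]

/-- an element commuting with two generators commutes with `D` -/
theorem comm_of_gen (Q : qsqb_Q D z) {c u u' : G} (hu : u ∈ D) (hu1 : u ≠ 1) (hu2 : u ≠ z)
    (hu' : u' ∈ D) (hu'A : u' ∉ Subgroup.zpowers u) (hc : c * u = u * c)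
    (hc' : c * u' = u' * c) : ∀ y ∈ D, c * y = y * c := by
  intro y hy
  have hcz : ∀ t ∈ Subgroup.zpowers u, c * t = t * c := by
    intro t ht
    obtain ⟨n, rfl⟩ := Subgroup.mem_zpowers_iff.1 ht
    exact ((show Commute c u from hc).zpow_right n).eq
  by_cases hyA : y ∈ Subgroup.zpowers u
  · exact hcz y hyA
  · have ht := Q.mul_mem_zpowers hu hu1 hu2 hu' hy hu'A hyA
    calc c * y = (c * u') * (u'⁻¹ * y) := by group
      _ = u' * (c * (u'⁻¹ * y)) := by rw [hc', mul_assoc]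
      _ = u' * ((u'⁻¹ * y) * c) := by rw [hcz _ ht]
      _ = y * c := by group

/-- conjugates under an odd-order element not centralizing `D` -/
theorem conj_facts (Q : qsqb_Q D z) {h₀ : G} (hh : h₀ ∈ Subgroup.normalizer (D : Set G)) {m : ℕ}
    (hm : Odd m) (hhm : h₀ ^ m = 1) (hnc : ∃ y ∈ D, h₀ * y ≠ y * h₀) {x : G} (hx : x ∈ D)
    (hx1 : x ≠ 1) (hx2 : x ≠ z) :
    h₀ * x * h₀⁻¹ ∈ D ∧ h₀ * x * h₀⁻¹ ≠ 1 ∧ h₀ * x * h₀⁻¹ ≠ z ∧
      h₀ * x * h₀⁻¹ ∉ Subgroup.zpowers x := by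
  obtain ⟨y₀, hy₀, hy₀'⟩ := hnc
  have a1 : h₀ * x * h₀⁻¹ ≠ 1 := by
    intro h
    apply hx1
    have e : x = h₀⁻¹ * (h₀ * x * h₀⁻¹) * h₀ := by group
    rw [e, h]; group
  have a2 : h₀ * x * h₀⁻¹ ≠ z := by
    intro h
    apply hx2
    have e : h₀ * x * h₀⁻¹ = h₀ * z * h₀⁻¹ := by rw [h, Q.conj_z hh]
    exact mul_left_cancel (mul_right_cancel e)
  have a3 : h₀ * x * h₀⁻¹ ≠ x := by
    intro h
    have hc : h₀ * x = x * h₀ := by
      calc h₀ * x = (h₀ * x * h₀⁻¹) * h₀ := by group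
        _ = x * h₀ := by rw [h]
    exact hy₀' (Q.fix_all hh hm hhm hx hx1 hx2 hc y₀ hy₀)
  have a4 : h₀ * x * h₀⁻¹ ≠ x⁻¹ := by
    intro h
    exact Q.inv_ne hx hx1 hx2 (qsqb_odd_inv hm hhm h)
  refine ⟨(Subgroup.mem_normalizer_iff.1 hh x).1 hx, a1, a2, ?_⟩
  intro hmem
  rcases Q.mem_zpowers hx hx1 hx2 hmem with h | h | h | h
  · exact a1 h
  · exact a3 h
  · exact a2 h
  · exact a4 h

/-- an element normalizing `D` and commuting with `h₀` inverts no element of order 4 -/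
theorem no_invert (Q : qsqb_Q D z) {h₀ c : G} (hh : h₀ ∈ Subgroup.normalizer (D : Set G)) {m : ℕ}
    (hm : Odd m) (hhm : h₀ ^ m = 1) (hnc : ∃ y ∈ D, h₀ * y ≠ y * h₀) (hch : c * h₀ = h₀ * c)
    {w : G} (hw : w ∈ D) (hw1 : w ≠ 1) (hw2 : w ≠ z) (hinv : c * w * c⁻¹ = w⁻¹) : False := by
  have hconj : ∀ x, c * (h₀ * x * h₀⁻¹) * c⁻¹ = h₀ * (c * x * c⁻¹) * h₀⁻¹ := by
    intro x
    calc c * (h₀ * x * h₀⁻¹) * c⁻¹ = (c * h₀) * x * (c * h₀)⁻¹ := by group
      _ = (h₀ * c) * x * (h₀ * c)⁻¹ := by rw [hch]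
      _ = h₀ * (c * x * c⁻¹) * h₀⁻¹ := by group
  obtain ⟨hw'D, hw'1, hw'2, hw'A⟩ := Q.conj_facts hh hm hhm hnc hw hw1 hw2
  obtain ⟨w', hw'def⟩ : ∃ w', w' = h₀ * w * h₀⁻¹ := ⟨_, rfl⟩
  rw [← hw'def] at hw'D hw'1 hw'2 hw'A
  have hw'w : w' ≠ w := fun h => hw'A (h ▸ Subgroup.mem_zpowers w)
  have hw'i : w' ≠ w⁻¹ := fun h => hw'A (h ▸ Subgroup.inv_mem _ (Subgroup.mem_zpowers w))
  have hinv' : c * w' * c⁻¹ = w'⁻¹ := by
    rw [hw'def, hconj, hinv]; group
  have hu_ne := Q.mul_ne hw hw1 hw2 hw'w hw'i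
  have huD : w * w' ∈ D := D.mul_mem hw hw'D
  have hcu : c * (w * w') * c⁻¹ = w * w' := by
    calc c * (w * w') * c⁻¹ = (c * w * c⁻¹) * (c * w' * c⁻¹) := by group
      _ = w⁻¹ * w'⁻¹ := by rw [hinv, hinv']
      _ = (w' * w)⁻¹ := by group
      _ = ((w * w')⁻¹)⁻¹ := by rw [Q.anti hw hw1 hw2 hw'D hw'1 hw'2]
      _ = w * w' := inv_inv _
  obtain ⟨u, hudef⟩ : ∃ u, u = w * w' := ⟨_, rfl⟩
  rw [← hudef] at hu_ne huD hcu
  obtain ⟨hu'D, hu'1, hu'2, hu'A⟩ := Q.conj_facts hh hm hhm hnc huD hu_ne.1 hu_ne.2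
  have hcu' : c * (h₀ * u * h₀⁻¹) * c⁻¹ = h₀ * u * h₀⁻¹ := by rw [hconj, hcu]
  have hcomm1 : c * u = u * c := by
    calc c * u = (c * u * c⁻¹) * c := by group
      _ = u * c := by rw [hcu]
  have hcomm2 : c * (h₀ * u * h₀⁻¹) = (h₀ * u * h₀⁻¹) * c := by
    calc c * (h₀ * u * h₀⁻¹) = (c * (h₀ * u * h₀⁻¹) * c⁻¹) * c := by group
      _ = (h₀ * u * h₀⁻¹) * c := by rw [hcu']
  have hcw := Q.comm_of_gen huD hu_ne.1 hu_ne.2 hu'D hu'A hcomm1 hcomm2 w hw
  apply Q.inv_ne hw hw1 hw2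
  calc w⁻¹ = c * w * c⁻¹ := hinv.symm
    _ = w * c * c⁻¹ := by rw [hcw]
    _ = w := by group

end qsqb_Q

/-- QB: a group `H` of odd order normalizing but not centralizing a quaternion group `D` of
order 8 fixes only the elements `d` with `d * d = 1` (i.e. `1` and the central involution), and
every 2-element normalizing `D` and commuting with `H` centralizes `D`. -/
theorem q8_odd_act [Finite G] {D H : Subgroup G} (hD : IsQ8 D) (hH : Odd (Nat.card H))
    (hN : H ≤ Subgroup.normalizer (D : Set G)) (hnc : ¬ H ≤ Subgroup.centralizer (D : Set G)) :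
    (∀ d ∈ D, (∀ h ∈ H, h * d = d * h) → d * d = 1) ∧
    (∀ c : G, c ∈ Subgroup.normalizer (D : Set G) → (∃ k : ℕ, c ^ (2 ^ k) = 1) →
      (∀ h ∈ H, c * h = h * c) → c ∈ Subgroup.centralizer (D : Set G)) := by
  obtain ⟨hcard, z, hz, hz1, hsq⟩ := hD
  have Q : qsqb_Q D z := ⟨hcard, hz, hz1, hsq⟩
  have hHm : ∀ h ∈ H, h ^ Nat.card H = 1 := by
    intro h hh
    have h1 := pow_card_eq_one' (G := H) (x := ⟨h, hh⟩)
    exact congrArg Subtype.val h1
  have hex : ∃ h₀ ∈ H, ∃ y ∈ D, h₀ * y ≠ y * h₀ := by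
    by_contra hcon
    apply hnc
    intro h hh
    rw [Subgroup.mem_centralizer_iff]
    intro y hy
    by_contra hne
    exact hcon ⟨h, hh, y, hy, fun e => hne e.symm⟩
  obtain ⟨h₀, hh₀, y₀, hy₀, hne₀⟩ := hex
  have hh₀N := hN hh₀
  have hh₀m := hHm h₀ hh₀
  have hnc₀ : ∃ y ∈ D, h₀ * y ≠ y * h₀ := ⟨y₀, hy₀, hne₀⟩
  refine ⟨?_, ?_⟩
  · intro d hd hfix
    by_contra hdd
    have hd1 : d ≠ 1 := by
      intro h; rw [h] at hdd; exact hdd (one_mul 1)
    have hd2 : d ≠ z := by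
      intro h; rw [h] at hdd; exact hdd Q.zz
    exact hne₀ (Q.fix_all hh₀N hH hh₀m hd hd1 hd2 (hfix h₀ hh₀) y₀ hy₀)
  · intro c hcN hk hcH
    obtain ⟨k, hk⟩ := hk
    induction k generalizing c with
    | zero =>
      rw [pow_zero, pow_one] at hk
      rw [hk]; exact Subgroup.one_mem _
    | succ k ih =>
      have hc2 : c * c ∈ Subgroup.centralizer (D : Set G) := by
        apply ih (c * c) (Subgroup.mul_mem _ hcN hcN)
        · intro h hh
          rw [mul_assoc, hcH h hh, ← mul_assoc, hcH h hh, mul_assoc]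
        · rw [← pow_two, ← pow_mul, ← pow_succ']; exact hk
      have hy₀1 : y₀ ≠ 1 := by
        intro h; rw [h] at hne₀; exact hne₀ (by rw [mul_one, one_mul])
      have hy₀z : y₀ ≠ z := by
        intro h
        rw [h] at hne₀
        apply hne₀
        calc h₀ * z = (h₀ * z * h₀⁻¹) * h₀ := by group
          _ = z * h₀ := by rw [Q.conj_z hh₀N]
      obtain ⟨i', hi'def⟩ : ∃ i', i' = c * y₀ * c⁻¹ := ⟨_, rfl⟩
      have hi'D : i' ∈ D := by
        rw [hi'def]; exact (Subgroup.mem_normalizer_iff.1 hcN y₀).1 hy₀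
      have hi'1 : i' ≠ 1 := by
        intro h
        apply hy₀1
        have e : y₀ = c⁻¹ * (c * y₀ * c⁻¹) * c := by group
        rw [e, ← hi'def, h]; group
      have hi'z : i' ≠ z := by
        intro h
        apply hy₀z
        have e : c * y₀ * c⁻¹ = c * z * c⁻¹ := by rw [← hi'def, h, Q.conj_z hcN]
        exact mul_left_cancel (mul_right_cancel e)
      have hnoinv : ∀ w ∈ D, w ≠ 1 → w ≠ z → c * w * c⁻¹ ≠ w⁻¹ :=
        fun w hw hw1 hw2 hinv =>
          Q.no_invert hh₀N hH hh₀m hnc₀ (hcH h₀ hh₀) hw hw1 hw2 hinv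
      by_cases hfixi : i' = y₀
      · obtain ⟨hjD, hj1, hj2, hjA⟩ := Q.conj_facts hh₀N hH hh₀m hnc₀ hy₀ hy₀1 hy₀z
        have hcomm1 : c * y₀ = y₀ * c := by
          calc c * y₀ = (c * y₀ * c⁻¹) * c := by group
            _ = y₀ * c := by rw [← hi'def, hfixi]
        have hcomm2 : c * (h₀ * y₀ * h₀⁻¹) = (h₀ * y₀ * h₀⁻¹) * c := by
          have e := hcH h₀ hh₀
          calc c * (h₀ * y₀ * h₀⁻¹) = (c * h₀) * y₀ * h₀⁻¹ := by group
            _ = h₀ * (c * y₀) * h₀⁻¹ := by rw [e]; group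
            _ = h₀ * y₀ * (c * h₀⁻¹) := by rw [hcomm1]; group
            _ = h₀ * y₀ * (h₀⁻¹ * (h₀ * c) * h₀⁻¹) := by group
            _ = h₀ * y₀ * (h₀⁻¹ * (c * h₀) * h₀⁻¹) := by rw [e]
            _ = (h₀ * y₀ * h₀⁻¹) * c := by group
        have hall := Q.comm_of_gen hy₀ hy₀1 hy₀z hjD hjA hcomm1 hcomm2
        rw [Subgroup.mem_centralizer_iff]
        intro y hy
        exact (hall y hy).symm
      · exfalso
        by_cases hinvi : i' = y₀⁻¹
        · exact hnoinv y₀ hy₀ hy₀1 hy₀z (hi'def ▸ hinvi)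
        · have hw_ne := Q.mul_ne hy₀ hy₀1 hy₀z hfixi hinvi
          apply hnoinv (y₀ * i') (D.mul_mem hy₀ hi'D) hw_ne.1 hw_ne.2
          have hci' : c * i' * c⁻¹ = y₀ := by
            have e := Subgroup.mem_centralizer_iff.1 hc2 y₀ hy₀
            calc c * i' * c⁻¹ = (c * c) * y₀ * (c * c)⁻¹ := by rw [hi'def]; group
              _ = y₀ * (c * c) * (c * c)⁻¹ := by rw [e]
              _ = y₀ := by group
          calc c * (y₀ * i') * c⁻¹ = (c * y₀ * c⁻¹) * (c * i' * c⁻¹) := by group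
            _ = i' * y₀ := by rw [hci', ← hi'def]
            _ = (y₀ * i')⁻¹ := Q.anti hy₀ hy₀1 hy₀z hi'D hi'1 hi'z

end Cfsg.Agent.Lib.Helper73.QS
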