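import Mathlib
import Cfsg.Agent.Lib.Helper73.QSDefs
import Cfsg.Agent.Lib.Helper73.QSQB
import Cfsg.Agent.Lib.Helper73.QSBasic
import Cfsg.Agent.Lib.Helper18.TLCop
import Cfsg.Agent.Lib.Helper72.ZGNf

/-!
# Project QS (S4409, architect helper73): piece CQ8

Proved by helper77 (uses the QB piece, `cop_comm_eq`, `le_cent_mul_commutator`, `QSBasic`).
Paper proof: note 1946.
-/

set_option autoImplicit false

namespace Cfsg.Agent.Lib.Helper73.QS

variable {G : Type*} [Group G]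

/-- CQ8: if `[Y, H]` is a quaternion group of order 8 then `Y = [Y, H] ∘ C_Y(H)` (central
product over the centre of `[Y, H]`). -/
theorem comm_q8 [Finite G] {Y H : Subgroup G} (hY : IsPGroup 2 Y) (hH : Odd (Nat.card H))
    (hN : H ≤ Subgroup.normalizer (Y : Set G)) (hD : IsQ8 ⁅Y, H⁆) :
    Y ⊓ Subgroup.centralizer (H : Set G) ≤
        Subgroup.centralizer ((⁅Y, H⁆ : Subgroup G) : Set G) ∧
    (∀ d ∈ (Y ⊓ Subgroup.centralizer (H : Set G)) ⊓ ⁅Y, H⁆, d * d = 1) ∧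
    ⁅Y, H⁆ ⊔ (Y ⊓ Subgroup.centralizer (H : Set G)) = Y := by
  have hDY : ⁅Y, H⁆ ≤ Y := comm_le hN
  have hDD : ⁅⁅Y, H⁆, H⁆ = ⁅Y, H⁆ := Cfsg.Agent.Lib.Helper18.TL.cop_comm_eq hY hH hN
  have hHD : H ≤ Subgroup.normalizer ((⁅Y, H⁆ : Subgroup G) : Set G) :=
    right_le_normalizer_comm Y H
  have hnc : ¬ H ≤ Subgroup.centralizer ((⁅Y, H⁆ : Subgroup G) : Set G) := by
    intro hc
    have h1 := Cfsg.Agent.Lib.Helper18.TL.cop_comm_bot_of_le_centralizer hc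
    rw [hDD] at h1
    have h2 := hD.1
    rw [h1, Subgroup.card_bot] at h2
    omega
  obtain ⟨hq1, hq2⟩ := q8_odd_act hD hH hHD hnc
  refine ⟨?_, ?_, ?_⟩
  · intro c hc
    have hcY : c ∈ Y := hc.1
    have hcH := Subgroup.mem_centralizer_iff.1 hc.2
    obtain ⟨k, hk⟩ := hY ⟨c, hcY⟩
    have hk' : c ^ 2 ^ k = 1 := congrArg Subtype.val hk
    exact hq2 c (left_le_normalizer_comm Y H hcY) ⟨k, hk'⟩ (fun h hh => (hcH h hh).symm)
  · intro d hd
    have hdH := Subgroup.mem_centralizer_iff.1 hd.1.2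
    exact hq1 d hd.2 (fun h hh => hdH h hh)
  · apply le_antisymm (sup_le hDY inf_le_left)
    intro x hx
    obtain ⟨c, hc, d, hd, rfl⟩ := Cfsg.Agent.Lib.Helper72.ZG.le_cent_mul_commutator hN
      (Cfsg.Agent.Lib.Helper18.TL.cop_coprime hY hH)
      (Or.inr (Cfsg.Agent.Lib.Helper18.TL.cop_solvable hY)) x hx
    exact Subgroup.mul_mem _ (Subgroup.mem_sup_right hc) (Subgroup.mem_sup_left hd)

end Cfsg.Agent.Lib.Helper73.QS
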