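import Mathlib
import Cfsg.Agent.Lib.Helper73.QSDefs

/-!
# Project QS (S4409, architect helper73): piece VB

Proved by helper74. Paper proof: note 1946.
-/

set_option autoImplicit false

namespace Cfsg.Agent.Lib.Helper73.QS

variable {G : Type*} [Group G]

/-- Auxiliary: four distinct elements of a subgroup of order 4 exhaust it. -/
theorem qsvb_four (M : Subgroup G) (hcard : Nat.card M = 4) (a b c d : G)
    (ha : a ∈ M) (hb : b ∈ M) (hc : c ∈ M) (hd : d ∈ M)
    (hab : a ≠ b) (hac : a ≠ c) (had : a ≠ d) (hbc : b ≠ c) (hbd : b ≠ d) (hcd : c ≠ d) :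
    ∀ y ∈ M, y = a ∨ y = b ∨ y = c ∨ y = d := by
  classical
  intro y hy
  by_contra hcon
  push Not at hcon
  obtain ⟨hya, hyb, hyc, hyd⟩ := hcon
  haveI : Finite M := Nat.finite_of_card_ne_zero (by rw [hcard]; norm_num)
  letI : Fintype M := Fintype.ofFinite M
  have hS : ({⟨y, hy⟩, ⟨a, ha⟩, ⟨b, hb⟩, ⟨c, hc⟩, ⟨d, hd⟩} : Finset M).card = 5 := by
    rw [Finset.card_insert_of_notMem, Finset.card_insert_of_notMem, Finset.card_insert_of_notMem,
      Finset.card_insert_of_notMem, Finset.card_singleton]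
    · simp only [Finset.mem_singleton, Subtype.mk.injEq]
      exact hcd
    · simp only [Finset.mem_insert, Finset.mem_singleton, Subtype.mk.injEq]
      push Not
      exact ⟨hbc, hbd⟩
    · simp only [Finset.mem_insert, Finset.mem_singleton, Subtype.mk.injEq]
      push Not
      exact ⟨hab, hac, had⟩
    · simp only [Finset.mem_insert, Finset.mem_singleton, Subtype.mk.injEq]
      push Not
      exact ⟨hya, hyb, hyc, hyd⟩
  have h5 := Finset.card_le_univ ({⟨y, hy⟩, ⟨a, ha⟩, ⟨b, hb⟩, ⟨c, hc⟩, ⟨d, hd⟩} : Finset M)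
  rw [hS, ← Nat.card_eq_fintype_card, hcard] at h5
  omega

/-- VB: a group `H` of odd order normalizing but not centralizing a four-group `M` fixes no
nontrivial element of `M`, and every 2-element normalizing `M` and commuting with `H`
centralizes `M`. -/
theorem v4_odd_act [Finite G] {M H : Subgroup G} (hM : IsV4 M) (hH : Odd (Nat.card H))
    (hN : H ≤ Subgroup.normalizer (M : Set G)) (hnc : ¬ H ≤ Subgroup.centralizer (M : Set G)) :
    (∀ t ∈ M, (∀ h ∈ H, h * t = t * h) → t = 1) ∧
    (∀ c : G, c ∈ Subgroup.normalizer (M : Set G) → (∃ k : ℕ, c ^ (2 ^ k) = 1) →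
      (∀ h ∈ H, c * h = h * c) → c ∈ Subgroup.centralizer (M : Set G)) := by
  classical
  obtain ⟨hcard, hexp⟩ := hM
  have hex : ∃ h ∈ H, ∃ m ∈ M, h * m ≠ m * h := by
    by_contra hcon
    push Not at hcon
    apply hnc
    intro h hh
    rw [Subgroup.mem_centralizer_iff]
    intro m hm
    exact (hcon h hh m hm).symm
  obtain ⟨h, hh, m, hm, hhm⟩ := hex
  have hodd : Odd (orderOf h) := by
    have hd : orderOf h ∣ Nat.card H := by
      have := orderOf_dvd_natCard (⟨h, hh⟩ : H)
      rwa [Subgroup.orderOf_mk] at this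
    exact Odd.of_dvd_nat hH hd
  have hB : ∀ (j : ℕ) (x : G), Nat.Coprime j (orderOf h) → h ^ j * x = x * h ^ j →
      h * x = x * h := by
    intro j x hj hc
    obtain ⟨k, hk⟩ := exists_pow_eq_self_of_coprime hj
    have h1 : Commute ((h ^ j) ^ k) x := (show Commute (h ^ j) x from hc).pow_left k
    rw [hk] at h1
    exact h1
  have hcop2 : ∀ k : ℕ, Nat.Coprime (2 ^ k) (orderOf h) := fun k =>
    Nat.Coprime.pow_left k (Nat.coprime_two_left.2 hodd)
  have hφM : ∀ x ∈ M, h * x * h⁻¹ ∈ M := by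
    intro x hx
    exact (Subgroup.mem_normalizer_iff.1 (hN hh) x).1 hx
  have hφ1 : ∀ x : G, h * x * h⁻¹ = 1 → x = 1 := by
    intro x hx
    have : x = h⁻¹ * (h * x * h⁻¹) * h := by group
    rw [this, hx]
    group
  have hφc : ∀ x : G, h * x * h⁻¹ = x → h * x = x * h := by
    intro x hx
    calc h * x = h * x * h⁻¹ * h := by group
      _ = x * h := by rw [hx]
  have hA : ∀ x ∈ M, x ≠ 1 → h * x ≠ x * h := by
    intro x hx hx1 hxc
    have hm1 : m ≠ 1 := by
      rintro rfl
      exact hhm (by rw [mul_one, one_mul])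
    have hmx : m ≠ x := by
      rintro rfl
      exact hhm hxc
    have hxm : x * m ∈ M := M.mul_mem hx hm
    have hxx := hexp x hx
    have e1 : (1 : G) ≠ x := fun e => hx1 e.symm
    have e2 : (1 : G) ≠ m := fun e => hm1 e.symm
    have e3 : (1 : G) ≠ x * m := by
      intro e
      apply hmx
      calc m = x * x * m := by rw [hxx, one_mul]
        _ = x * (x * m) := by group
        _ = x := by rw [← e, mul_one]
    have e4 : x ≠ m := fun e => hmx e.symm
    have e5 : x ≠ x * m := by
      intro e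
      apply hm1
      have : x * 1 = x * m := by rw [mul_one]; exact e
      exact (mul_left_cancel this).symm
    have e6 : m ≠ x * m := by
      intro e
      apply hx1
      have : 1 * m = x * m := by rw [one_mul]; exact e
      exact (mul_right_cancel this).symm
    have h4 := qsvb_four M hcard 1 x m (x * m) M.one_mem hx hm hxm e1 e2 e3 e4 e5 e6
    rcases h4 (h * m * h⁻¹) (hφM m hm) with h' | h' | h' | h'
    · exact hm1 (hφ1 m h')
    · apply hmx
      have hx' : h * x * h⁻¹ = x := by rw [hxc]; group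
      have : h * m * h⁻¹ = h * x * h⁻¹ := by rw [h', hx']
      exact mul_left_cancel (mul_right_cancel this)
    · exact hhm (hφc m h')
    · have hx' : h * x * h⁻¹ = x := by rw [hxc]; group
      have h2 : h ^ 2 * m = m * h ^ 2 := by
        have : h ^ 2 * m * (h ^ 2)⁻¹ = m := by
          calc h ^ 2 * m * (h ^ 2)⁻¹ = h * (h * m * h⁻¹) * h⁻¹ := by rw [pow_two]; group
            _ = h * (x * m) * h⁻¹ := by rw [h']
            _ = h * x * h⁻¹ * (h * m * h⁻¹) := by group
            _ = x * (x * m) := by rw [hx', h']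
            _ = x * x * m := by group
            _ = m := by rw [hxx, one_mul]
        calc h ^ 2 * m = h ^ 2 * m * (h ^ 2)⁻¹ * h ^ 2 := by rw [inv_mul_cancel_right]
          _ = m * h ^ 2 := by rw [this]
      exact hhm (hB 2 m (by simpa using hcop2 1) h2)
  refine ⟨?_, ?_⟩
  · intro t ht hcomm
    by_contra ht1
    exact hA t ht ht1 (hcomm h hh)
  · intro c hc ⟨k, hk⟩ hcH
    have hne : ∃ x ∈ M, x ≠ 1 := by
      by_contra hcon
      push Not at hcon
      have : M = ⊥ := (Subgroup.eq_bot_iff_forall M).2 hcon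
      rw [this] at hcard
      simp at hcard
    obtain ⟨x, hx, hx1⟩ := hne
    have hy := hφM x hx
    have hz := hφM _ hy
    have hy1 : h * x * h⁻¹ ≠ 1 := fun e => hx1 (hφ1 x e)
    have hz1 : h * (h * x * h⁻¹) * h⁻¹ ≠ 1 := fun e => hy1 (hφ1 _ e)
    have hyx : x ≠ h * x * h⁻¹ := fun e => hA x hx hx1 (hφc x e.symm)
    have hzy : h * x * h⁻¹ ≠ h * (h * x * h⁻¹) * h⁻¹ := fun e => hA _ hy hy1 (hφc _ e.symm)
    have hzx : x ≠ h * (h * x * h⁻¹) * h⁻¹ := by
      intro e
      apply hA x hx hx1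
      apply hB 2 x (by simpa using hcop2 1)
      calc h ^ 2 * x = h * (h * x * h⁻¹) * h⁻¹ * h ^ 2 := by rw [pow_two]; group
        _ = x * h ^ 2 := by rw [← e]
    have h4 := qsvb_four M hcard 1 x (h * x * h⁻¹) (h * (h * x * h⁻¹) * h⁻¹) M.one_mem hx hy hz
      (fun e => hx1 e.symm) (fun e => hy1 e.symm) (fun e => hz1 e.symm) hyx hzx hzy
    have hcM : c * x * c⁻¹ ∈ M := (Subgroup.mem_normalizer_iff.1 hc x).1 hx
    have hch : c * h = h * c := hcH h hh
    have hch' : c * h⁻¹ = h⁻¹ * c := by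
      calc c * h⁻¹ = h⁻¹ * (h * c) * h⁻¹ := by group
        _ = h⁻¹ * (c * h) * h⁻¹ := by rw [hch]
        _ = h⁻¹ * c := by group
    rcases h4 (c * x * c⁻¹) hcM with h' | h' | h' | h'
    · exfalso
      apply hx1
      have : x = c⁻¹ * (c * x * c⁻¹) * c := by group
      rw [this, h']
      group
    · -- c commutes with x, hence with y, z
      have hcx : c * x = x * c := by
        calc c * x = c * x * c⁻¹ * c := by group
          _ = x * c := by rw [h']
      have hcy : c * (h * x * h⁻¹) = h * x * h⁻¹ * c := by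
        calc c * (h * x * h⁻¹) = (c * h) * x * h⁻¹ := by group
          _ = h * (c * x) * h⁻¹ := by rw [hch]; group
          _ = h * x * (c * h⁻¹) := by rw [hcx]; group
          _ = h * x * h⁻¹ * c := by rw [hch']; group
      have hcz : c * (h * (h * x * h⁻¹) * h⁻¹) = h * (h * x * h⁻¹) * h⁻¹ * c := by
        calc c * (h * (h * x * h⁻¹) * h⁻¹) = (c * h) * (h * x * h⁻¹) * h⁻¹ := by group
          _ = h * (c * (h * x * h⁻¹)) * h⁻¹ := by rw [hch]; group
          _ = h * (h * x * h⁻¹) * (c * h⁻¹) := by rw [hcy]; group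
          _ = h * (h * x * h⁻¹) * h⁻¹ * c := by rw [hch']; group
      rw [Subgroup.mem_centralizer_iff]
      intro t ht
      rcases h4 t ht with rfl | rfl | rfl | rfl
      · rw [one_mul, mul_one]
      · exact hcx.symm
      · exact hcy.symm
      · exact hcz.symm
    · -- c x c⁻¹ = h x h⁻¹
      exfalso
      apply hA x hx hx1
      apply hB (2 ^ k) x (hcop2 k)
      have hg : Commute (h⁻¹ * c) x := by
        show h⁻¹ * c * x = x * (h⁻¹ * c)
        calc h⁻¹ * c * x = h⁻¹ * (c * x * c⁻¹) * c := by group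
          _ = x * (h⁻¹ * c) := by rw [h']; group
      have hgk : (h⁻¹ * c) ^ (2 ^ k) = (h ^ (2 ^ k))⁻¹ := by
        have hcm : Commute h⁻¹ c := hch'.symm
        rw [hcm.mul_pow, hk, mul_one, inv_pow]
      have h1 : Commute ((h ^ (2 ^ k))⁻¹) x := by
        rw [← hgk]
        exact hg.pow_left _
      exact (Commute.inv_left_iff.1 h1)
    · -- c x c⁻¹ = h (h x h⁻¹) h⁻¹
      exfalso
      apply hA x hx hx1
      apply hB (2 ^ (k + 1)) x (hcop2 (k + 1))
      have hcm : Commute (h ^ 2)⁻¹ c := by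
        have h1 : Commute h c := hch.symm
        exact (h1.pow_left 2).inv_left
      have hg : Commute ((h ^ 2)⁻¹ * c) x := by
        show (h ^ 2)⁻¹ * c * x = x * ((h ^ 2)⁻¹ * c)
        calc (h ^ 2)⁻¹ * c * x = (h ^ 2)⁻¹ * (c * x * c⁻¹) * c := by group
          _ = x * ((h ^ 2)⁻¹ * c) := by rw [h']; group
      have hgk : ((h ^ 2)⁻¹ * c) ^ (2 ^ k) = (h ^ (2 ^ (k + 1)))⁻¹ := by
        rw [hcm.mul_pow, hk, mul_one, inv_pow, ← pow_mul, pow_succ, mul_comm]
      have h1 : Commute ((h ^ (2 ^ (k + 1)))⁻¹) x := by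
        rw [← hgk]
        exact hg.pow_left _
      exact (Commute.inv_left_iff.1 h1)

end Cfsg.Agent.Lib.Helper73.QS
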