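import Mathlib
import Cfsg.Agent.Lib.Helper73.QSDefs
import Cfsg.Agent.Lib.Helper73.QSVB
import Cfsg.Agent.Lib.Helper73.QSBasic
import Cfsg.Agent.Lib.Helper18.TLCop

/-!
# Project QS (S4409, architect helper73): piece CV4

Proved by helper33 (paper proof: note 1946).
-/

set_option autoImplicit false

namespace Cfsg.Agent.Lib.Helper73.QS

variable {G : Type*} [Group G]

/-- CV4: if `[Y, H]` is a four-group then `Y = [Y, H] × C_Y(H)`. -/
theorem comm_v4 [Finite G] {Y H : Subgroup G} (hY : IsPGroup 2 Y) (hH : Odd (Nat.card H))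
    (hN : H ≤ Subgroup.normalizer (Y : Set G)) (hD : IsV4 ⁅Y, H⁆) :
    Y ⊓ Subgroup.centralizer (H : Set G) ≤
        Subgroup.centralizer ((⁅Y, H⁆ : Subgroup G) : Set G) ∧
    (Y ⊓ Subgroup.centralizer (H : Set G)) ⊓ ⁅Y, H⁆ = ⊥ ∧
    ⁅Y, H⁆ ⊔ (Y ⊓ Subgroup.centralizer (H : Set G)) = Y := by
  have hDY : ⁅Y, H⁆ ≤ Y := comm_le hN
  have hND : H ≤ Subgroup.normalizer ((⁅Y, H⁆ : Subgroup G) : Set G) :=
    right_le_normalizer_comm Y H
  have hnc : ¬ H ≤ Subgroup.centralizer ((⁅Y, H⁆ : Subgroup G) : Set G) := by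
    intro hcen
    have h1 : ⁅⁅Y, H⁆, H⁆ = ⊥ :=
      Cfsg.Agent.Lib.Helper18.TL.cop_comm_bot_of_le_centralizer hcen
    rw [Cfsg.Agent.Lib.Helper18.TL.cop_comm_eq hY hH hN] at h1
    have h2 := hD.1
    rw [h1, Subgroup.card_bot] at h2
    omega
  obtain ⟨hfix, hcent⟩ := v4_odd_act hD hH hND hnc
  refine ⟨?_, ?_, ?_⟩
  · intro c hc
    obtain ⟨hcY, hcH⟩ := Subgroup.mem_inf.mp hc
    rw [Subgroup.mem_centralizer_iff] at hcH
    refine hcent c (left_le_normalizer_comm Y H hcY) ?_ (fun h hh => (hcH h hh).symm)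
    obtain ⟨k, hk⟩ := hY ⟨c, hcY⟩
    exact ⟨k, by simpa using congrArg Subtype.val hk⟩
  · rw [eq_bot_iff]
    intro d hd
    obtain ⟨hdC, hdD⟩ := Subgroup.mem_inf.mp hd
    obtain ⟨-, hdH⟩ := Subgroup.mem_inf.mp hdC
    rw [Subgroup.mem_centralizer_iff] at hdH
    rw [Subgroup.mem_bot]
    exact hfix d hdD hdH
  · apply le_antisymm
    · exact sup_le hDY inf_le_left
    · intro x hx
      obtain ⟨c, hc, d, hd, rfl⟩ := Cfsg.Agent.Lib.Helper72.ZG.le_cent_mul_commutator hN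
        (Cfsg.Agent.Lib.Helper18.TL.cop_coprime hY hH)
        (Or.inr (Cfsg.Agent.Lib.Helper18.TL.cop_solvable hY)) x hx
      exact Subgroup.mul_mem _ ((le_sup_right : Y ⊓ Subgroup.centralizer (H : Set G) ≤ _) hc)
        ((le_sup_left : ⁅Y, H⁆ ≤ _) hd)

end Cfsg.Agent.Lib.Helper73.QS
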