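import Mathlib
import Cfsg.Agent.Lib.Helper73.QSDefs
import Cfsg.Agent.Lib.Helper73.QSCV4
import Cfsg.Agent.Lib.Helper73.QSCQ8

/-!
# Project QS (S4409, architect helper73): piece EQC

Proved by helper87 (paper proof: note 1946).
-/

set_option autoImplicit false

namespace Cfsg.Agent.Lib.Helper73.QS

variable {G : Type*} [Group G]

/-- between a subgroup `I` of order 4 and a strictly larger abelian subgroup `A` of the small
2-group `Y` there is a cyclic subgroup of order 8 -/
theorem qseqc_exists_card8 [Finite G] {Y : Subgroup G} (hY : IsPGroup 2 Y) (hs : Small Y)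
    {I A : Subgroup G} (hI : Nat.card I = 4) (hIA : I ≤ A) (hne : I ≠ A) (hAY : A ≤ Y)
    (hAc : ∀ a ∈ A, ∀ b ∈ A, a * b = b * a) :
    ∃ B : Subgroup G, I ≤ B ∧ B ≤ A ∧ Nat.card B = 8 ∧ IsCyclic B := by
  have h2 : Fact (Nat.Prime 2) := ⟨Nat.prime_two⟩
  have hAp : IsPGroup 2 ↥A := hY.to_le hAY
  obtain ⟨m, hm⟩ := IsPGroup.iff_card.mp hAp
  have hlt : Nat.card I < Nat.card A := by
    by_contra hcon
    push Not at hcon
    exact hne (Subgroup.eq_of_le_of_card_ge hIA hcon)
  have hm3 : 3 ≤ m := by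
    by_contra hcon
    push Not at hcon
    have : 2 ^ m ≤ 2 ^ 2 := Nat.pow_le_pow_right (by norm_num) (by omega)
    rw [hI, hm] at hlt
    omega
  have hdvd : 2 ^ 3 ∣ Nat.card ↥A := by
    rw [hm]; exact pow_dvd_pow 2 hm3
  have hI' : Nat.card ↥(I.subgroupOf A) = 2 ^ 2 := by
    rw [Nat.card_congr (Subgroup.subgroupOfEquivOfLe hIA).toEquiv, hI]; norm_num
  obtain ⟨K, hK, hIK⟩ := Sylow.exists_subgroup_card_pow_prime_le 2 hdvd (I.subgroupOf A) hI'
    (by norm_num)
  have hBA : K.map A.subtype ≤ A := Subgroup.map_subtype_le K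
  have hB8 : Nat.card ↥(K.map A.subtype) = 8 := by
    rw [Subgroup.card_subtype, hK]; norm_num
  have hBc : IsMulCommutative ↥(K.map A.subtype) :=
    ⟨⟨fun a b => Subtype.ext (hAc _ (hBA a.2) _ (hBA b.2))⟩⟩
  refine ⟨K.map A.subtype, ?_, hBA, hB8, hs _ (hBA.trans hAY) hBc hB8⟩
  intro x hx
  exact ⟨⟨x, hIA hx⟩, hIK (by rw [Subgroup.mem_subgroupOf]; exact hx), rfl⟩

/-- a four-group is not contained in a cyclic subgroup -/
theorem qseqc_v4_not_le_cyclic {D B : Subgroup G} (hD : IsV4 D) (hDB : D ≤ B)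
    (hB : IsCyclic B) : False := by
  have hcyc : IsCyclic ↥(D.subgroupOf B) := inferInstance
  obtain ⟨g, hg⟩ := hcyc.exists_generator
  have hcard : Nat.card ↥(D.subgroupOf B) = 4 := by
    rw [Nat.card_congr (Subgroup.subgroupOfEquivOfLe hDB).toEquiv, hD.1]
  have hord := orderOf_eq_card_of_forall_mem_zpowers hg
  rw [hcard] at hord
  have hg2 : g ^ 2 = 1 := by
    apply Subtype.ext
    apply Subtype.ext
    have h := hD.2 (g : ↥B) (Subgroup.mem_subgroupOf.mp g.2)
    rw [pow_two]
    exact h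
  have hdvd := orderOf_dvd_of_pow_eq_one hg2
  rw [hord] at hdvd
  omega

/-- elements of exponent 2 commute -/
theorem qseqc_v4_comm {D : Subgroup G} (hD : IsV4 D) {x y : G} (hx : x ∈ D) (hy : y ∈ D) :
    x * y = y * x := by
  have hx2 := hD.2 x hx
  have hy2 := hD.2 y hy
  have hxy2 := hD.2 (x * y) (mul_mem hx hy)
  have hxi : x⁻¹ = x := inv_eq_of_mul_eq_one_right hx2
  have hyi : y⁻¹ = y := inv_eq_of_mul_eq_one_right hy2
  have hxyi : (x * y)⁻¹ = x * y := inv_eq_of_mul_eq_one_right hxy2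
  calc x * y = (x * y)⁻¹ := hxyi.symm
    _ = y⁻¹ * x⁻¹ := mul_inv_rev x y
    _ = y * x := by rw [hxi, hyi]

/-- a quaternion group has an element other than `1, z` -/
theorem qseqc_q8_exists {D : Subgroup G} (hD8 : Nat.card D = 8) (z : G) :
    ∃ i ∈ D, i ≠ 1 ∧ i ≠ z := by
  by_contra hcon
  push Not at hcon
  have hsub : (D : Set G) ⊆ ({1, z} : Set G) := by
    intro y hy
    by_cases h1 : y = 1
    · exact Or.inl h1
    · exact Or.inr (hcon y hy h1)
  have hle : Nat.card ↥D ≤ Nat.card ↥({1, z} : Set G) :=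
    Nat.card_mono (Set.toFinite _) hsub
  have hle2 : Nat.card ↥({1, z} : Set G) ≤ 2 := by
    rw [Nat.card_coe_set_eq]
    exact (Set.ncard_insert_le 1 {z}).trans (by rw [Set.ncard_singleton])
  omega

/-- the special element of a quaternion group is an involution -/
theorem qseqc_q8_zsq {D : Subgroup G} (hD8 : Nat.card D = 8) {z : G} (hzD : z ∈ D)
    (hz1 : z ≠ 1) (hsq : ∀ y ∈ D, y ≠ 1 → y ≠ z → y * y = z) : z * z = 1 := by
  obtain ⟨y, hyD, hy1, hyz⟩ := qseqc_q8_exists hD8 z
  have hy2 := hsq y hyD hy1 hyz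
  have hz8 : z ^ 8 = 1 := by
    have h := pow_card_eq_one' (G := ↥D) (x := ⟨z, hzD⟩)
    rw [hD8] at h
    exact congrArg Subtype.val h
  by_cases hw1 : y * z = 1
  · exfalso
    -- y = z⁻¹, so z⁻¹ * z⁻¹ = z, z ^ 3 = 1
    have hyz' : y = z⁻¹ := eq_inv_of_mul_eq_one_left hw1
    rw [hyz'] at hy2
    have hz3 : z ^ 3 = 1 := by
      have : z * z * z = z * z * (z⁻¹ * z⁻¹) := by rw [hy2]
      rw [pow_succ, pow_two, this]
      group
    apply hz1
    have hz9 : z ^ 9 = 1 := by
      rw [show (9 : ℕ) = 3 * 3 from rfl, pow_mul, hz3, one_pow]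
    have : z ^ 9 = z ^ 8 * z := pow_succ z 8
    rw [hz9, hz8, one_mul] at this
    exact this.symm
  · by_cases hwz : y * z = z
    · exfalso
      apply hy1
      have : y * z = 1 * z := by rw [one_mul]; exact hwz
      exact mul_right_cancel this
    · have hw2 := hsq (y * z) (mul_mem hyD hzD) hw1 hwz
      rw [← hy2] at hw2 ⊢
      -- hw2 : y * (y * y) * (y * (y * y)) = y * y
      have h4 : y * y * (y * y * (y * y)) = y * y * 1 := by
        rw [mul_one]
        calc y * y * (y * y * (y * y)) = y * (y * y) * (y * (y * y)) := by group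
          _ = y * y := hw2
      have h5 := mul_left_cancel h4
      exact h5

/-- reduction: an element of `C` outside `D` can be chosen with its square in `D` -/
theorem qseqc_normalize {C D : Subgroup G} :
    ∀ k : ℕ, ∀ c ∈ C, c ∉ D → c ^ 2 ^ k = 1 → ∃ c' ∈ C, c' ∉ D ∧ c' * c' ∈ D := by
  intro k
  induction k with
  | zero =>
    intro c hc hcD h
    rw [pow_zero, pow_one] at h
    rw [h] at hcD
    exact absurd (one_mem D) hcD
  | succ k ih =>
    intro c hc hcD h
    by_cases h2 : c * c ∈ D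
    · exact ⟨c, hc, hcD, h2⟩
    · apply ih (c * c) (mul_mem hc hc) h2
      rw [← pow_two, ← pow_mul, ← pow_succ']
      exact h

/-- the subgroup generated by two commuting elements of exponent 4 has exponent 4 -/
theorem qseqc_pow_four {i c : G} (hi : i ^ 4 = 1) (hc : c ^ 4 = 1) (hic : i * c = c * i) :
    (∀ a ∈ Subgroup.closure ({i, c} : Set G), ∀ b ∈ Subgroup.closure ({i, c} : Set G),
      a * b = b * a) ∧ ∀ g ∈ Subgroup.closure ({i, c} : Set G), g ^ 4 = 1 := by
  have hcomm : IsMulCommutative (Subgroup.closure ({i, c} : Set G)) :=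
    Subgroup.isMulCommutative_closure (by
      rintro x (rfl | rfl) y (rfl | rfl)
      · rfl
      · exact hic
      · exact hic.symm
      · rfl)
  have hab : ∀ a ∈ Subgroup.closure ({i, c} : Set G), ∀ b ∈ Subgroup.closure ({i, c} : Set G),
      a * b = b * a := fun a ha b hb => setLike_mul_comm ha hb
  refine ⟨hab, ?_⟩
  intro g hg
  induction hg using Subgroup.closure_induction with
  | mem x hx =>
    rcases hx with rfl | rfl
    · exact hi
    · exact hc
  | one => exact one_pow 4
  | mul x y hx hy hx4 hy4 =>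
    have hxy : Commute x y := hab x hx y hy
    rw [hxy.mul_pow, hx4, hy4, one_mul]
  | inv x hx hx4 => rw [inv_pow, hx4, inv_one]

/-- EQC: a small 2-group `Y` with `[Y, H]` a four-group or quaternion of order 8 equals
`[Y, H]`. -/
theorem small_eq_comm [Finite G] {Y H : Subgroup G} (hY : IsPGroup 2 Y) (hH : Odd (Nat.card H))
    (hN : H ≤ Subgroup.normalizer (Y : Set G)) (hs : Small Y)
    (hD : IsV4 ⁅Y, H⁆ ∨ IsQ8 ⁅Y, H⁆) : ⁅Y, H⁆ = Y := by
  have hDY : ⁅Y, H⁆ ≤ Y := comm_le hN
  rcases hD with hV | hQ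
  · obtain ⟨hCD, hCDbot, hsup⟩ := comm_v4 hY hH hN hV
    have hC : Y ⊓ Subgroup.centralizer (H : Set G) = ⊥ := by
      by_contra hne
      rw [Subgroup.eq_bot_iff_forall] at hne
      push Not at hne
      obtain ⟨c, hc, hc1⟩ := hne
      have hcD : c ∉ ⁅Y, H⁆ := by
        intro hcD
        have : c ∈ (Y ⊓ Subgroup.centralizer (H : Set G)) ⊓ ⁅Y, H⁆ := ⟨hc, hcD⟩
        rw [hCDbot, Subgroup.mem_bot] at this
        exact hc1 this
      have hcc := Subgroup.mem_centralizer_iff.mp (hCD hc)
      have hAc : ∀ a ∈ Subgroup.closure (((⁅Y, H⁆ : Subgroup G) : Set G) ∪ {c}),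
          ∀ b ∈ Subgroup.closure (((⁅Y, H⁆ : Subgroup G) : Set G) ∪ {c}), a * b = b * a := by
        have hcomm : IsMulCommutative
            (Subgroup.closure (((⁅Y, H⁆ : Subgroup G) : Set G) ∪ {c})) :=
          Subgroup.isMulCommutative_closure (by
            rintro x (hx | hx) y (hy | hy)
            · exact qseqc_v4_comm hV hx hy
            · rw [Set.mem_singleton_iff] at hy
              rw [hy]
              exact hcc x hx
            · rw [Set.mem_singleton_iff] at hx
              rw [hx]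
              exact (hcc y hy).symm
            · rw [Set.mem_singleton_iff] at hx hy
              rw [hx, hy])
        exact fun a ha b hb => setLike_mul_comm ha hb
      have hDA : ⁅Y, H⁆ ≤ Subgroup.closure (((⁅Y, H⁆ : Subgroup G) : Set G) ∪ {c}) :=
        fun x hx => Subgroup.subset_closure (Or.inl hx)
      have hcA : c ∈ Subgroup.closure (((⁅Y, H⁆ : Subgroup G) : Set G) ∪ {c}) :=
        Subgroup.subset_closure (Or.inr rfl)
      have hne' : ⁅Y, H⁆ ≠ Subgroup.closure (((⁅Y, H⁆ : Subgroup G) : Set G) ∪ {c}) := by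
        intro h
        apply hcD
        rw [h]
        exact hcA
      have hAY : Subgroup.closure (((⁅Y, H⁆ : Subgroup G) : Set G) ∪ {c}) ≤ Y := by
        rw [Subgroup.closure_le]
        rintro x (hx | hx)
        · exact hDY hx
        · rw [Set.mem_singleton_iff] at hx
          rw [hx]
          exact hc.1
      obtain ⟨B, hDB, -, -, hBcyc⟩ := qseqc_exists_card8 hY hs hV.1 hDA hne' hAY hAc
      exact qseqc_v4_not_le_cyclic hV hDB hBcyc
    rw [hC, sup_bot_eq] at hsup
    exact hsup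
  · obtain ⟨hCD, hCDsq, hsup⟩ := comm_q8 hY hH hN hQ
    obtain ⟨hD8, z, hzD, hz1, hsq⟩ := hQ
    have hCle : Y ⊓ Subgroup.centralizer (H : Set G) ≤ ⁅Y, H⁆ := by
      by_contra hnot
      obtain ⟨c0, hc0, hc0D⟩ := SetLike.not_le_iff_exists.mp hnot
      obtain ⟨k, hk⟩ := hY ⟨c0, hc0.1⟩
      have hk' : c0 ^ 2 ^ k = 1 := congrArg Subtype.val hk
      obtain ⟨c, hc, hcD, hccD⟩ := qseqc_normalize k c0 hc0 hc0D hk'
      have hc4 : c ^ 4 = 1 := by
        have h := hCDsq (c * c) ⟨mul_mem hc hc, hccD⟩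
        rw [show (4 : ℕ) = 2 * 2 from rfl, pow_mul, pow_two, pow_two]
        exact h
      obtain ⟨i, hiD, hi1, hiz⟩ := qseqc_q8_exists hD8 z
      have hi2 : i * i = z := hsq i hiD hi1 hiz
      have hzz : z * z = 1 := qseqc_q8_zsq hD8 hzD hz1 hsq
      have hi4 : i ^ 4 = 1 := by
        rw [show (4 : ℕ) = 2 * 2 from rfl, pow_mul, pow_two, pow_two, hi2]
        exact hzz
      have hord : orderOf i = 2 ^ (1 + 1) := by
        apply orderOf_eq_prime_pow
        · rw [pow_one, pow_two, hi2]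
          exact hz1
        · exact hi4
      have hic : i * c = c * i := Subgroup.mem_centralizer_iff.mp (hCD hc) i hiD
      obtain ⟨hAc, hA4⟩ := qseqc_pow_four hi4 hc4 hic
      have hIcard : Nat.card ↥(Subgroup.zpowers i) = 4 := by
        rw [Nat.card_zpowers, hord]; norm_num
      have hIA : Subgroup.zpowers i ≤ Subgroup.closure ({i, c} : Set G) :=
        (Subgroup.zpowers_le).mpr (Subgroup.subset_closure (Or.inl rfl))
      have hcA : c ∈ Subgroup.closure ({i, c} : Set G) :=
        Subgroup.subset_closure (Or.inr rfl)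
      have hne' : Subgroup.zpowers i ≠ Subgroup.closure ({i, c} : Set G) := by
        intro h
        apply hcD
        have hcI : c ∈ Subgroup.zpowers i := by rw [h]; exact hcA
        exact ((Subgroup.zpowers_le).mpr hiD) hcI
      have hAY : Subgroup.closure ({i, c} : Set G) ≤ Y := by
        rw [Subgroup.closure_le]
        rintro x (hx | hx)
        · rw [hx]; exact hDY hiD
        · rw [Set.mem_singleton_iff] at hx
          rw [hx]; exact hc.1
      obtain ⟨B, -, hBA, hB8, hBcyc⟩ := qseqc_exists_card8 hY hs hIcard hIA hne' hAY hAc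
      obtain ⟨g, hg⟩ := hBcyc.exists_generator
      have hgord := orderOf_eq_card_of_forall_mem_zpowers hg
      rw [hB8] at hgord
      have hg4 : g ^ 4 = 1 := by
        apply Subtype.ext
        rw [Subgroup.coe_pow]
        exact hA4 _ (hBA g.2)
      have hdvd := orderOf_dvd_of_pow_eq_one hg4
      rw [hgord] at hdvd
      omega
    rw [sup_eq_left.mpr hCle] at hsup
    exact hsup

end Cfsg.Agent.Lib.Helper73.QS
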