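import Mathlib
import Cfsg.Agent.Lib.Helper73.QSDefs

/-!
# Project QS (S4409, architect helper73): piece ODDCYC

PLACEHOLDER: replace the body of the theorem in THIS file by a full proof; keep the theorem name
and statement byte-identical; you may add imports of landed libs and auxiliary lemmas (prefix
`qsoddcyc_`). Paper proof: note 1946 (select body from notes where id=1946).
-/

set_option autoImplicit false

namespace Cfsg.Agent.Lib.Helper73.QS

variable {G : Type*} [Group G]

/-- ODDCYC: a group of odd order normalizing a cyclic 2-group centralizes it. -/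
theorem odd_centralizes_cyclic [Finite G] {B H : Subgroup G} (hB : IsPGroup 2 B)
    (hcyc : IsCyclic ↥B) (hH : Odd (Nat.card H))
    (hN : H ≤ Subgroup.normalizer (B : Set G)) : H ≤ Subgroup.centralizer (B : Set G) := by
  haveI := hcyc
  intro h hh
  have h1 : orderOf (B.normalizerMonoidHom ⟨h, hN hh⟩) ∣ Nat.card (MulAut ↥B) :=
    orderOf_dvd_natCard _
  have h2 : orderOf (B.normalizerMonoidHom ⟨h, hN hh⟩) ∣ Nat.card H := by
    have h3 : orderOf (B.normalizerMonoidHom ⟨h, hN hh⟩) ∣
        orderOf (⟨h, hN hh⟩ : ↥(Subgroup.normalizer (B : Set G))) :=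
      orderOf_map_dvd B.normalizerMonoidHom _
    have h4 : orderOf (⟨h, hN hh⟩ : ↥(Subgroup.normalizer (B : Set G))) = orderOf h :=
      (Subgroup.orderOf_coe (⟨h, hN hh⟩ : ↥(Subgroup.normalizer (B : Set G)))).symm
    rw [h4] at h3
    exact h3.trans (Subgroup.orderOf_dvd_natCard H hh)
  obtain ⟨k, hk⟩ := IsPGroup.iff_card.mp hB
  have h4 : Nat.card (MulAut ↥B) ∣ 2 ^ k := by
    rw [IsCyclic.card_mulAut, hk]
    rcases Nat.eq_zero_or_pos k with rfl | hkpos
    · simp
    · rw [Nat.totient_prime_pow Nat.prime_two hkpos]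
      simp only [Nat.add_one_sub_one, mul_one]
      exact pow_dvd_pow 2 (Nat.sub_le k 1)
  have h5 : orderOf (B.normalizerMonoidHom ⟨h, hN hh⟩) = 1 := by
    have hc : (Nat.card H).Coprime (2 ^ k) :=
      Nat.Coprime.pow_right k (Nat.coprime_two_right.mpr hH)
    exact Nat.eq_one_of_dvd_coprimes hc h2 (h1.trans h4)
  have h6 : B.normalizerMonoidHom ⟨h, hN hh⟩ = 1 := orderOf_eq_one_iff.mp h5
  have h7 : (⟨h, hN hh⟩ : ↥(Subgroup.normalizer (B : Set G))) ∈ B.normalizerMonoidHom.ker := h6
  rw [Subgroup.normalizerMonoidHom_ker] at h7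
  exact Subgroup.mem_subgroupOf.mp h7

end Cfsg.Agent.Lib.Helper73.QS
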