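import Mathlib
import Cfsg.Agent.Lib.Helper73.QSDefs
import Cfsg.Agent.Lib.Helper58.BGCYC

/-!
# Project QS (S4409, architect helper73): piece SM1

An abelian small 2-group is cyclic or has order at most 4 (filled by helper85).
Paper proof: note 1946.
-/

set_option autoImplicit false

namespace Cfsg.Agent.Lib.Helper73.QS

variable {G : Type*} [Group G]

/-- the elements of square one in a commutative group -/
def qssm1_V {H : Type*} [Group H] (hc : ∀ a b : H, a * b = b * a) : Subgroup H where
  carrier := {y | y * y = 1}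
  one_mem' := by simp
  mul_mem' := by
    intro x y (hx : x * x = 1) (hy : y * y = 1)
    show x * y * (x * y) = 1
    calc x * y * (x * y) = x * (y * x) * y := by group
      _ = x * (x * y) * y := by rw [hc y x]
      _ = (x * x) * (y * y) := by group
      _ = 1 := by rw [hx, hy, one_mul]
  inv_mem' := by
    intro x (hx : x * x = 1)
    show x⁻¹ * x⁻¹ = 1
    rw [← mul_inv_rev, hx, inv_one]

/-- SM1: an abelian small 2-group is cyclic or has order at most 4. -/
theorem small_abelian [Finite G] {Y : Subgroup G} (hY : IsPGroup 2 Y) (hs : Small Y)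
    (hc : ∀ a ∈ Y, ∀ b ∈ Y, a * b = b * a) : IsCyclic ↥Y ∨ Nat.card ↥Y ≤ 4 := by
  classical
  have hcY : ∀ a b : Y, a * b = b * a := fun a b => Subtype.ext (hc a a.2 b b.2)
  by_cases huniq : ∀ a b : Y, orderOf a = 2 → orderOf b = 2 → a = b
  · left
    refine Cfsg.Agent.Lib.Helper58.BG.isCyclic_of_comm_of_prime hcY ?_
    intro a b ha hb
    have ha2 : orderOf a = 2 := by
      obtain ⟨k, hk⟩ := hY a
      have hdvd : orderOf a ∣ 2 ^ k := orderOf_dvd_of_pow_eq_one hk
      exact (Nat.prime_dvd_prime_iff_eq ha Nat.prime_two).1 (ha.dvd_of_dvd_pow hdvd)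
    rw [huniq b a (hb.trans ha2) ha2]
    exact Subgroup.mem_zpowers a
  · right
    by_contra hcard
    have huniq' : ∃ a b : Y, orderOf a = 2 ∧ orderOf b = 2 ∧ a ≠ b := by
      by_contra h
      apply huniq
      intro a b ha hb
      by_contra hab
      exact h ⟨a, b, ha, hb, hab⟩
    obtain ⟨a, b, ha, hb, hab⟩ := huniq'
    obtain ⟨n, hn⟩ := IsPGroup.iff_card.1 hY
    have hn3 : 3 ≤ n := by
      by_contra h
      apply hcard
      rw [hn]
      have h2 : n ≤ 2 := by omega
      calc 2 ^ n ≤ 2 ^ 2 := Nat.pow_le_pow_right (by norm_num) h2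
        _ = 4 := by norm_num
    obtain ⟨V, hVdef⟩ : ∃ V : Subgroup Y, V = qssm1_V hcY := ⟨_, rfl⟩
    have hVmem : ∀ y : Y, y ∈ V ↔ y * y = 1 := by
      intro y
      rw [hVdef]
      exact Iff.rfl
    have haV : a ∈ V := by rw [hVmem, ← pow_two, ← ha, pow_orderOf_eq_one]
    have hbV : b ∈ V := by rw [hVmem, ← pow_two, ← hb, pow_orderOf_eq_one]
    have ha1 : a ≠ 1 := by
      rintro rfl
      rw [orderOf_one] at ha
      omega
    have hb1 : b ≠ 1 := by
      rintro rfl
      rw [orderOf_one] at hb
      omega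
    obtain ⟨k, hk⟩ := IsPGroup.iff_card.1 (hY.to_subgroup V)
    have hV3 : 3 ≤ Nat.card V := by
      have hfV : Fintype V := Fintype.ofFinite V
      rw [Nat.card_eq_fintype_card]
      have h3 : ({(1 : V), ⟨a, haV⟩, ⟨b, hbV⟩} : Finset V).card = 3 := by
        rw [Finset.card_insert_of_notMem, Finset.card_insert_of_notMem, Finset.card_singleton]
        · rw [Finset.mem_singleton]
          intro h
          exact hab (congrArg Subtype.val h)
        · rw [Finset.mem_insert, Finset.mem_singleton]
          rintro (h | h)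
          · exact ha1 (congrArg Subtype.val h).symm
          · exact hb1 (congrArg Subtype.val h).symm
      rw [← h3]
      exact Finset.card_le_univ _
    have hV4 : 2 ^ 2 ≤ Nat.card V := by
      rw [hk] at hV3 ⊢
      have hk2 : 2 ≤ k := by
        by_contra h
        have h1 : k ≤ 1 := by omega
        have h2 : 2 ^ k ≤ 2 ^ 1 := Nat.pow_le_pow_right (by norm_num) h1
        omega
      exact Nat.pow_le_pow_right (by norm_num) hk2
    obtain ⟨V₀, hV₀V, hV₀card⟩ :=
      Sylow.exists_subgroup_le_card_pow_prime_of_le_card Nat.prime_two hY hV4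
    have hdvd8 : 2 ^ 3 ∣ Nat.card ↥Y := by
      rw [hn]
      exact pow_dvd_pow 2 hn3
    obtain ⟨B, hBcard, hV₀B⟩ := Sylow.exists_subgroup_card_pow_prime_le 2 (n := 2) (m := 3)
      hdvd8 V₀ hV₀card (by norm_num)
    have hA8 : Nat.card (B.map Y.subtype) = 8 := by
      rw [Subgroup.card_map_of_injective Y.subtype_injective, hBcard]
      norm_num
    have hAY : B.map Y.subtype ≤ Y := by
      rintro _ ⟨y, -, rfl⟩
      exact y.2
    have hAc : IsMulCommutative ↥(B.map Y.subtype) :=
      ⟨⟨fun x y => Subtype.ext (hc x (hAY x.2) y (hAY y.2))⟩⟩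
    have hAcyc : IsCyclic ↥(B.map Y.subtype) := hs _ hAY hAc hA8
    have hBcyc : IsCyclic ↥B :=
      (MulEquiv.isCyclic (B.equivMapOfInjective Y.subtype Y.subtype_injective)).2 hAcyc
    have hfB : Fintype B := Fintype.ofFinite B
    have hfV₀ : Fintype V₀ := Fintype.ofFinite V₀
    have hle := IsCyclic.card_pow_eq_one_le (α := ↥B) (n := 2) (by norm_num)
    have hge : 4 ≤ (Finset.univ.filter (fun x : ↥B => x ^ 2 = 1)).card := by
      have h4 : Fintype.card V₀ = 4 := by
        rw [← Nat.card_eq_fintype_card, hV₀card]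
        norm_num
      rw [← h4, ← Finset.card_univ]
      refine Finset.card_le_card_of_injOn (fun v => (⟨v.1, hV₀B v.2⟩ : ↥B)) ?_ ?_
      · intro v _
        rw [Finset.mem_coe, Finset.mem_filter]
        refine ⟨Finset.mem_univ _, ?_⟩
        apply Subtype.ext
        have h5 := (hVmem v.1).1 (hV₀V v.2)
        rw [pow_two]
        exact h5
      · intro v _ w _ h
        have h' : (v : ↥Y) = (w : ↥Y) := congrArg (fun x : ↥B => (x : ↥Y)) h
        exact Subtype.ext h'
    omega

end Cfsg.Agent.Lib.Helper73.QS
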