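import Mathlib
import Cfsg.Agent.Lib.Helper73.QSDefs
import Cfsg.Agent.Lib.Helper73.QSSm1

/-!
# Project QS (S4409, architect helper73): piece SM2A

PLACEHOLDER: replace the body of the theorem in THIS file by a full proof; keep the theorem name
and statement byte-identical; you may add imports of landed libs and auxiliary lemmas (prefix
`qssm2a_`). Paper proof: note 1946 (select body from notes where id=1946).
-/

set_option autoImplicit false

namespace Cfsg.Agent.Lib.Helper73.QS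

variable {G : Type*} [Group G]

/-- the centre of `Y`, as a subgroup of the ambient group -/
def qssm2a_Z (Y : Subgroup G) : Subgroup G where
  carrier := {y | y ∈ Y ∧ ∀ x ∈ Y, x * y = y * x}
  mul_mem' := by
    rintro a b ⟨ha, ha'⟩ ⟨hb, hb'⟩
    refine ⟨Y.mul_mem ha hb, fun x hx => ?_⟩
    rw [← mul_assoc, ha' x hx, mul_assoc, hb' x hx, mul_assoc]
  one_mem' := ⟨Y.one_mem, fun x _ => by simp⟩
  inv_mem' := by
    rintro a ⟨ha, ha'⟩
    refine ⟨Y.inv_mem ha, fun x hx => ?_⟩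
    have h := ha' x hx
    calc x * a⁻¹ = a⁻¹ * (a * x) * a⁻¹ := by group
      _ = a⁻¹ * (x * a) * a⁻¹ := by rw [h]
      _ = a⁻¹ * x := by group

theorem qssm2a_Z_le (Y : Subgroup G) : qssm2a_Z Y ≤ Y := fun _ h => h.1

/-- in a cyclic group of order divisible by 4 every involution is a square -/
theorem qssm2a_sq_mem (A : Subgroup G) (hA : IsCyclic ↥A) (h4 : 4 ∣ Nat.card ↥A) (w : G)
    (hwA : w ∈ A) (hw : w * w = 1) : ∃ v ∈ A, w = v * v := by
  obtain ⟨g, hg⟩ := IsCyclic.exists_generator (α := ↥A)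
  obtain ⟨k, hk⟩ := Subgroup.mem_zpowers_iff.mp (hg ⟨w, hwA⟩)
  have hord : orderOf g = Nat.card ↥A := orderOf_eq_card_of_forall_mem_zpowers hg
  have h1 : g ^ (k + k) = 1 := by
    rw [zpow_add, hk]
    exact Subtype.ext hw
  have h2 : ((orderOf g : ℕ) : ℤ) ∣ k + k := orderOf_dvd_iff_zpow_eq_one.mpr h1
  have h3 : (4 : ℤ) ∣ k + k := by
    rw [hord] at h2
    have h5 : ((4 : ℕ) : ℤ) ∣ ((Nat.card ↥A : ℕ) : ℤ) := Int.natCast_dvd_natCast.mpr h4
    exact h5.trans h2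
  obtain ⟨j, hj⟩ : ∃ j, k = j + j := by
    obtain ⟨m, hm⟩ := h3
    exact ⟨m, by omega⟩
  refine ⟨((g ^ j : ↥A) : G), (g ^ j).2, ?_⟩
  have h6 : (⟨w, hwA⟩ : ↥A) = g ^ j * g ^ j := by rw [← zpow_add, ← hj, hk]
  exact congrArg Subtype.val h6

/-- if the centre of the small 2-group `Y` has order at least 4, every noncentral element lies in
a cyclic subgroup of order divisible by 4 containing the centre -/
theorem qssm2a_big_cyclic [Finite G] {Y : Subgroup G} (hY : IsPGroup 2 Y) (hs : Small Y)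
    (h4 : 4 ≤ Nat.card ↥(qssm2a_Z Y)) (t : G) (htY : t ∈ Y) (htZ : t ∉ qssm2a_Z Y) :
    ∃ A : Subgroup G, A ≤ Y ∧ qssm2a_Z Y ≤ A ∧ t ∈ A ∧ IsCyclic ↥A ∧ 4 ∣ Nat.card ↥A := by
  have hKY : Y ⊓ Subgroup.centralizer {t} ≤ Y := inf_le_left
  have hAK : qssm2a_Z (Y ⊓ Subgroup.centralizer {t}) ≤ Y ⊓ Subgroup.centralizer {t} :=
    qssm2a_Z_le _
  have hAY : qssm2a_Z (Y ⊓ Subgroup.centralizer {t}) ≤ Y := hAK.trans hKY
  have hZA : qssm2a_Z Y ≤ qssm2a_Z (Y ⊓ Subgroup.centralizer {t}) := by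
    intro z hz
    refine ⟨Subgroup.mem_inf.mpr ⟨hz.1, ?_⟩, fun k hk => hz.2 k (hKY hk)⟩
    rw [Subgroup.mem_centralizer_iff]
    intro h hh
    rw [Set.mem_singleton_iff] at hh
    rw [hh]
    exact hz.2 t htY
  have htA : t ∈ qssm2a_Z (Y ⊓ Subgroup.centralizer {t}) := by
    refine ⟨Subgroup.mem_inf.mpr ⟨htY, ?_⟩, fun k hk => ?_⟩
    · rw [Subgroup.mem_centralizer_iff]
      intro h hh
      rw [Set.mem_singleton_iff] at hh
      rw [hh]
    · have h1 := (Subgroup.mem_inf.mp hk).2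
      rw [Subgroup.mem_centralizer_iff] at h1
      exact (h1 t (Set.mem_singleton t)).symm
  have habel : ∀ a ∈ qssm2a_Z (Y ⊓ Subgroup.centralizer {t}),
      ∀ b ∈ qssm2a_Z (Y ⊓ Subgroup.centralizer {t}), a * b = b * a :=
    fun a ha b hb => hb.2 a (hAK ha)
  have hlt : Nat.card ↥(qssm2a_Z Y) < Nat.card ↥(qssm2a_Z (Y ⊓ Subgroup.centralizer {t})) := by
    by_contra hle
    push Not at hle
    have heq := Subgroup.eq_of_le_of_card_ge hZA hle
    exact htZ (heq ▸ htA)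
  refine ⟨qssm2a_Z (Y ⊓ Subgroup.centralizer {t}), hAY, hZA, htA, ?_⟩
  rcases small_abelian (hY.to_le hAY) (hs.mono hAY) habel with hcyc | hle
  · refine ⟨hcyc, ?_⟩
    obtain ⟨k, hk⟩ := IsPGroup.iff_card.mp (hY.to_le hAY)
    rw [hk] at hlt ⊢
    have hk3 : 2 ≤ k := by
      by_contra hk2
      push Not at hk2
      have : 2 ^ k ≤ 2 ^ 1 := Nat.pow_le_pow_right (by norm_num) (by omega)
      omega
    exact pow_dvd_pow 2 hk3
  · omega

/-- an element whose square is an even power of a central element can be corrected to an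
involution -/
theorem qssm2a_corr {Y : Subgroup G} (t ζ : G) (ht : t ∈ Y) (hζ : ζ ∈ qssm2a_Z Y) (i : ℤ)
    (h : t * t = ζ ^ (i + i)) :
    ∃ w ∈ Y, w * w = 1 ∧ (w ∈ qssm2a_Z Y → t ∈ qssm2a_Z Y) := by
  have hcomm : t * ζ ^ (-i) = ζ ^ (-i) * t := ((qssm2a_Z Y).zpow_mem hζ (-i)).2 t ht
  refine ⟨t * ζ ^ (-i), Y.mul_mem ht (Y.zpow_mem hζ.1 (-i)), ?_, ?_⟩
  · calc t * ζ ^ (-i) * (t * ζ ^ (-i)) = t * (ζ ^ (-i) * t) * ζ ^ (-i) := by group
      _ = t * (t * ζ ^ (-i)) * ζ ^ (-i) := by rw [← hcomm]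
      _ = (t * t) * (ζ ^ (-i) * ζ ^ (-i)) := by group
      _ = ζ ^ (i + i) * (ζ ^ (-i) * ζ ^ (-i)) := by rw [h]
      _ = 1 := by group
  · intro hw
    have h1 := (qssm2a_Z Y).mul_mem hw ((qssm2a_Z Y).zpow_mem hζ i)
    have h2 : t * ζ ^ (-i) * ζ ^ i = t := by group
    rw [h2] at h1
    exact h1

/-- SM2a: a nonabelian small 2-group whose squares are central has centre of order 2. -/
theorem small_class2_center [Finite G] {Y : Subgroup G} (hY : IsPGroup 2 Y) (hs : Small Y)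
    (hna : ¬ ∀ a ∈ Y, ∀ b ∈ Y, a * b = b * a)
    (hsq : ∀ y ∈ Y, ∀ x ∈ Y, x * (y * y) = (y * y) * x) :
    ∃ z ∈ Y, z ≠ 1 ∧ z * z = 1 ∧ (∀ x ∈ Y, x * z = z * x) ∧
      ∀ y ∈ Y, (∀ x ∈ Y, x * y = y * x) → y = 1 ∨ y = z := by
  classical
  -- squares are central
  have sqZ : ∀ v ∈ Y, v * v ∈ qssm2a_Z Y := fun v hv => ⟨Y.mul_mem hv hv, fun u hu => hsq v hv u hu⟩
  have hZY : qssm2a_Z Y ≤ Y := qssm2a_Z_le Y
  -- a non-commuting pair
  have hex : ∃ x ∈ Y, ∃ y ∈ Y, x * y ≠ y * x := by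
    by_contra hno
    apply hna
    intro a ha b hb
    by_contra hab
    exact hno ⟨a, ha, b, hb, hab⟩
  obtain ⟨x, hx, y, hy, hxy⟩ := hex
  have hxZ : x ∉ qssm2a_Z Y := fun h => hxy (h.2 y hy).symm
  have hyZ : y ∉ qssm2a_Z Y := fun h => hxy (h.2 x hx)
  have hxyZ : x * y ∉ qssm2a_Z Y := by
    intro h
    have h1 := h.2 x hx
    rw [mul_assoc] at h1
    exact hxy (mul_left_cancel h1)
  -- the centre is a nontrivial 2-group
  have hZpg : IsPGroup 2 ↥(qssm2a_Z Y) := hY.to_le hZY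
  obtain ⟨k, hk⟩ := IsPGroup.iff_card.mp hZpg
  have hnt : ∃ z ∈ qssm2a_Z Y, z ≠ 1 := by
    have : Nontrivial ↥Y := by
      refine ⟨⟨⟨x, hx⟩, 1, ?_⟩⟩
      intro h
      have h1 : x = 1 := congrArg Subtype.val h
      apply hxy
      rw [h1, one_mul, mul_one]
    have hcn : Nontrivial ↥(Subgroup.center ↥Y) := hY.center_nontrivial
    obtain ⟨c, hc⟩ := exists_ne (1 : ↥(Subgroup.center ↥Y))
    refine ⟨((c : ↥Y) : G), ⟨(c : ↥Y).2, fun u hu => ?_⟩, ?_⟩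
    · have h1 := Subgroup.mem_center_iff.mp c.2 ⟨u, hu⟩
      exact congrArg Subtype.val h1
    · intro h
      apply hc
      apply Subtype.ext
      apply Subtype.ext
      exact h
  obtain ⟨z, hzZ, hz1⟩ := hnt
  -- the centre has order 2
  have hcard : Nat.card ↥(qssm2a_Z Y) = 2 := by
    have hk0 : k ≠ 0 := by
      rintro rfl
      rw [pow_zero, Subgroup.card_eq_one] at hk
      rw [hk, Subgroup.mem_bot] at hzZ
      exact hz1 hzZ
    by_contra hne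
    have hk2 : 2 ≤ k := by
      by_contra hlt
      push Not at hlt
      have hk1 : k = 1 := by omega
      rw [hk1, pow_one] at hk
      exact hne hk
    have h4 : 4 ≤ Nat.card ↥(qssm2a_Z Y) := by
      rw [hk]
      calc 4 = 2 ^ 2 := by norm_num
        _ ≤ 2 ^ k := Nat.pow_le_pow_right (by norm_num) hk2
    have h4d : 4 ∣ Nat.card ↥(qssm2a_Z Y) := by
      rw [hk]
      exact pow_dvd_pow 2 hk2
    -- the centre is cyclic
    obtain ⟨A, hAY, hZA, hxA, hAcyc, hA4⟩ := qssm2a_big_cyclic hY hs h4 x hx hxZ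
    have : IsCyclic ↥A := hAcyc
    have hZcyc : IsCyclic ↥(qssm2a_Z Y) :=
      isCyclic_of_surjective (Subgroup.subgroupOfEquivOfLe hZA) (MulEquiv.surjective _)
    obtain ⟨g, hg⟩ := IsCyclic.exists_generator (α := ↥(qssm2a_Z Y))
    have hgen : ∀ v ∈ qssm2a_Z Y, ∃ n : ℤ, v = (g : G) ^ n := by
      intro v hv
      obtain ⟨n, hn⟩ := Subgroup.mem_zpowers_iff.mp (hg ⟨v, hv⟩)
      refine ⟨n, ?_⟩
      have h1 := congrArg Subtype.val hn
      rw [Subgroup.coe_zpow] at h1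
      exact h1.symm
    have hord : orderOf (g : G) = Nat.card ↥(qssm2a_Z Y) := by
      rw [Subgroup.orderOf_coe]
      exact orderOf_eq_card_of_forall_mem_zpowers hg
    -- the commutator
    have hyx : y * x = x * y * (y⁻¹ * x⁻¹ * y * x) := by group
    have hcZ : y⁻¹ * x⁻¹ * y * x ∈ qssm2a_Z Y := by
      have h1 : x * (y * y) = (y * y) * x := hsq y hy x hx
      have h2 : y⁻¹ * x⁻¹ * y * x = (y⁻¹ * x⁻¹) * (y⁻¹ * x⁻¹) * (x * x) * (y * y) := by
        calc y⁻¹ * x⁻¹ * y * x = y⁻¹ * x⁻¹ * y⁻¹ * ((y * y) * x) := by group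
          _ = y⁻¹ * x⁻¹ * y⁻¹ * (x * (y * y)) := by rw [h1]
          _ = (y⁻¹ * x⁻¹) * (y⁻¹ * x⁻¹) * (x * x) * (y * y) := by group
      rw [h2]
      exact (qssm2a_Z Y).mul_mem ((qssm2a_Z Y).mul_mem
        (sqZ _ (Y.mul_mem (Y.inv_mem hy) (Y.inv_mem hx))) (sqZ x hx)) (sqZ y hy)
    have hcy : y * (y⁻¹ * x⁻¹ * y * x) = (y⁻¹ * x⁻¹ * y * x) * y := hcZ.2 y hy
    have hcc : (y⁻¹ * x⁻¹ * y * x) * (y⁻¹ * x⁻¹ * y * x) = 1 := by
      have h2 : (y * (y⁻¹ * x⁻¹ * y * x)) * (y * (y⁻¹ * x⁻¹ * y * x)) = y * y := by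
        calc (y * (y⁻¹ * x⁻¹ * y * x)) * (y * (y⁻¹ * x⁻¹ * y * x))
            = x⁻¹ * ((y * y) * x) := by group
          _ = x⁻¹ * (x * (y * y)) := by rw [hsq y hy x hx]
          _ = y * y := by group
      have h3 : (y * (y⁻¹ * x⁻¹ * y * x)) * (y * (y⁻¹ * x⁻¹ * y * x)) =
          (y * y) * ((y⁻¹ * x⁻¹ * y * x) * (y⁻¹ * x⁻¹ * y * x)) := by
        calc (y * (y⁻¹ * x⁻¹ * y * x)) * (y * (y⁻¹ * x⁻¹ * y * x))
            = y * ((y⁻¹ * x⁻¹ * y * x) * y) * (y⁻¹ * x⁻¹ * y * x) := by group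
          _ = y * (y * (y⁻¹ * x⁻¹ * y * x)) * (y⁻¹ * x⁻¹ * y * x) := by rw [← hcy]
          _ = (y * y) * ((y⁻¹ * x⁻¹ * y * x) * (y⁻¹ * x⁻¹ * y * x)) := by group
      have h4' := h3.symm.trans h2
      exact mul_left_cancel (h4'.trans (mul_one _).symm)
    have hprod : (x * y) * (x * y) = (x * x) * (y * y) * (y⁻¹ * x⁻¹ * y * x) := by
      calc (x * y) * (x * y) = x * (y * x) * y := by group
        _ = x * (x * y * (y⁻¹ * x⁻¹ * y * x)) * y := by rw [← hyx]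
        _ = x * x * y * ((y⁻¹ * x⁻¹ * y * x) * y) := by group
        _ = x * x * y * (y * (y⁻¹ * x⁻¹ * y * x)) := by rw [← hcy]
        _ = (x * x) * (y * y) * (y⁻¹ * x⁻¹ * y * x) := by group
    obtain ⟨a, ha⟩ := hgen _ (sqZ x hx)
    obtain ⟨b, hb⟩ := hgen _ (sqZ y hy)
    obtain ⟨e, he⟩ := hgen _ hcZ
    have he2 : (2 : ℤ) ∣ e := by
      have h1 : (g : G) ^ (e + e) = 1 := by
        rw [zpow_add, ← he]
        exact hcc
      have h2 : ((orderOf (g : G) : ℕ) : ℤ) ∣ e + e := orderOf_dvd_iff_zpow_eq_one.mpr h1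
      rw [hord] at h2
      have h5 : ((4 : ℕ) : ℤ) ∣ ((Nat.card ↥(qssm2a_Z Y) : ℕ) : ℤ) :=
        Int.natCast_dvd_natCast.mpr h4d
      obtain ⟨m, hm⟩ := h5.trans h2
      exact ⟨m, by omega⟩
    -- an involution outside the centre
    have hw : ∃ w ∈ Y, w * w = 1 ∧ w ∉ qssm2a_Z Y := by
      by_cases hae : (2 : ℤ) ∣ a
      · obtain ⟨i, hi⟩ := hae
        obtain ⟨w, hwY, hww, hwZ⟩ := qssm2a_corr x (g : G) hx g.2 i (by rw [ha, hi]; congr 1; ring)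
        exact ⟨w, hwY, hww, fun h => hxZ (hwZ h)⟩
      · by_cases hbe : (2 : ℤ) ∣ b
        · obtain ⟨i, hi⟩ := hbe
          obtain ⟨w, hwY, hww, hwZ⟩ :=
            qssm2a_corr y (g : G) hy g.2 i (by rw [hb, hi]; congr 1; ring)
          exact ⟨w, hwY, hww, fun h => hyZ (hwZ h)⟩
        · have habe : (2 : ℤ) ∣ a + b + e := by omega
          obtain ⟨i, hi⟩ := habe
          obtain ⟨w, hwY, hww, hwZ⟩ := qssm2a_corr (x * y) (g : G) (Y.mul_mem hx hy) g.2 i (by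
            rw [hprod, ha, hb, he, ← zpow_add, ← zpow_add, hi]
            congr 1
            ring)
          exact ⟨w, hwY, hww, fun h => hxyZ (hwZ h)⟩
    obtain ⟨w, hwY, hww, hwZ⟩ := hw
    obtain ⟨B, hBY, hZB, hwB, hBcyc, hB4⟩ := qssm2a_big_cyclic hY hs h4 w hwY hwZ
    obtain ⟨v, hvB, hv⟩ := qssm2a_sq_mem B hBcyc hB4 w hwB hww
    apply hwZ
    rw [hv]
    exact sqZ v (hBY hvB)
  -- conclusion
  have huniq : ∀ v ∈ qssm2a_Z Y, v = 1 ∨ v = z := by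
    intro v hv
    by_contra hne
    push Not at hne
    obtain ⟨u, -, hu⟩ := (Nat.card_eq_two_iff' (1 : ↥(qssm2a_Z Y))).mp hcard
    have h1 : (⟨v, hv⟩ : ↥(qssm2a_Z Y)) = u := hu _ (fun h => hne.1 (congrArg Subtype.val h))
    have h2 : (⟨z, hzZ⟩ : ↥(qssm2a_Z Y)) = u := hu _ (fun h => hz1 (congrArg Subtype.val h))
    exact hne.2 (congrArg Subtype.val (h1.trans h2.symm))
  refine ⟨z, hzZ.1, hz1, ?_, hzZ.2, fun v hv hvc => huniq v ⟨hv, hvc⟩⟩
  rcases huniq (z * z) (sqZ z hzZ.1) with h | h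
  · exact h
  · exfalso
    apply hz1
    have h1 : z * z = z * 1 := by rw [h, mul_one]
    exact mul_left_cancel h1

end Cfsg.Agent.Lib.Helper73.QS
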