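import Mathlib
import Cfsg.Agent.Lib.Helper73.QSDefs

/-!
# Project QS (S4409, architect helper73): piece SM2B

A nonabelian small 2-group whose squares are central and whose centre is `{1, z}` has order 8.
Auxiliary lemmas are prefixed `qssm2b_`.
-/

set_option autoImplicit false

namespace Cfsg.Agent.Lib.Helper73.QS

variable {G : Type*} [Group G]

/-- a finset of elements of a subgroup has at most as many elements as the subgroup -/
theorem qssm2b_card_le [Finite G] (Y : Subgroup G) (s : Finset G) (hs : ∀ g ∈ s, g ∈ Y) :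
    s.card ≤ Nat.card ↥Y := by
  have h1 : Nat.card ↥Y = (Y : Set G).ncard := Nat.card_coe_set_eq (Y : Set G)
  rw [h1, ← Set.ncard_coe_finset]
  exact Set.ncard_le_ncard (fun g hg => hs g (by simpa using hg)) (Set.toFinite _)

/-- a subgroup all of whose elements lie in a finset has at most as many elements as it -/
theorem qssm2b_le_card [Finite G] (Y : Subgroup G) (s : Finset G) (hs : ∀ g ∈ Y, g ∈ s) :
    Nat.card ↥Y ≤ s.card := by
  have h1 : Nat.card ↥Y = (Y : Set G).ncard := Nat.card_coe_set_eq (Y : Set G)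
  rw [h1, ← Set.ncard_coe_finset]
  exact Set.ncard_le_ncard (fun g hg => by simpa using hs g hg) (Set.toFinite _)

/-- five distinct elements -/
theorem qssm2b_five [Finite G] (Y : Subgroup G) (g₁ g₂ g₃ g₄ g₅ : G)
    (m₁ : g₁ ∈ Y) (m₂ : g₂ ∈ Y) (m₃ : g₃ ∈ Y) (m₄ : g₄ ∈ Y) (m₅ : g₅ ∈ Y)
    (h12 : g₁ ≠ g₂) (h13 : g₁ ≠ g₃) (h14 : g₁ ≠ g₄) (h15 : g₁ ≠ g₅) (h23 : g₂ ≠ g₃)
    (h24 : g₂ ≠ g₄) (h25 : g₂ ≠ g₅) (h34 : g₃ ≠ g₄) (h35 : g₃ ≠ g₅) (h45 : g₄ ≠ g₅) :
    5 ≤ Nat.card ↥Y := by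
  classical
  have hd : [g₁, g₂, g₃, g₄, g₅].Nodup := by
    simp [h12, h13, h14, h15, h23, h24, h25, h34, h35, h45]
  have h := qssm2b_card_le Y [g₁, g₂, g₃, g₄, g₅].toFinset (by
    intro g hg
    simp only [List.mem_toFinset, List.mem_cons, List.not_mem_nil, or_false] at hg
    rcases hg with rfl | rfl | rfl | rfl | rfl <;> assumption)
  rwa [List.toFinset_card_of_nodup hd] at h

/-- squares lie in `{1, z}` -/
theorem qssm2b_sq {Y : Subgroup G}
    (hsq : ∀ y ∈ Y, ∀ x ∈ Y, x * (y * y) = (y * y) * x) (z : G)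
    (hZ : ∀ y ∈ Y, (∀ x ∈ Y, x * y = y * x) → y = 1 ∨ y = z) (y : G) (hy : y ∈ Y) :
    y * y = 1 ∨ y * y = z :=
  hZ (y * y) (Y.mul_mem hy hy) (fun x hx => hsq y hy x hx)

/-- conjugates: `a b a⁻¹ ∈ {b, z b}` -/
theorem qssm2b_conj {Y : Subgroup G}
    (hsq : ∀ y ∈ Y, ∀ x ∈ Y, x * (y * y) = (y * y) * x) (z : G)
    (hZ : ∀ y ∈ Y, (∀ x ∈ Y, x * y = y * x) → y = 1 ∨ y = z) (a b : G) (ha : a ∈ Y)
    (hb : b ∈ Y) : a * b * a⁻¹ = b ∨ a * b * a⁻¹ = z * b := by
  have h₁ : Commute b (a * a) := hsq a ha b hb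
  have h₂ : b * (a * a)⁻¹ = (a * a)⁻¹ * b := h₁.inv_right.eq
  have hc : a * b * a⁻¹ * b⁻¹ = ((a * b) * (a * b)) * (a * a)⁻¹ * (b * b)⁻¹ := by
    symm
    calc ((a * b) * (a * b)) * (a * a)⁻¹ * (b * b)⁻¹
        = a * b * a * (b * (a * a)⁻¹) * (b * b)⁻¹ := by group
      _ = a * b * a * ((a * a)⁻¹ * b) * (b * b)⁻¹ := by rw [h₂]
      _ = a * b * a⁻¹ * b⁻¹ := by group
  have hcY : a * b * a⁻¹ * b⁻¹ ∈ Y :=
    Y.mul_mem (Y.mul_mem (Y.mul_mem ha hb) (Y.inv_mem ha)) (Y.inv_mem hb)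
  have hcent : ∀ x ∈ Y, x * (a * b * a⁻¹ * b⁻¹) = (a * b * a⁻¹ * b⁻¹) * x := by
    intro x hx
    have m1 : (a * b) * (a * b) ∈ Subgroup.centralizer ({x} : Set G) :=
      Subgroup.mem_centralizer_singleton_iff.mpr (hsq (a * b) (Y.mul_mem ha hb) x hx).symm
    have m2 : a * a ∈ Subgroup.centralizer ({x} : Set G) :=
      Subgroup.mem_centralizer_singleton_iff.mpr (hsq a ha x hx).symm
    have m3 : b * b ∈ Subgroup.centralizer ({x} : Set G) :=
      Subgroup.mem_centralizer_singleton_iff.mpr (hsq b hb x hx).symm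
    have m : a * b * a⁻¹ * b⁻¹ ∈ Subgroup.centralizer ({x} : Set G) := by
      rw [hc]
      exact Subgroup.mul_mem _ (Subgroup.mul_mem _ m1 (Subgroup.inv_mem _ m2))
        (Subgroup.inv_mem _ m3)
    exact (Subgroup.mem_centralizer_singleton_iff.mp m).symm
  rcases hZ _ hcY hcent with h | h
  · left
    have : a * b * a⁻¹ = (a * b * a⁻¹ * b⁻¹) * b := by group
    rw [this, h, one_mul]
  · right
    have : a * b * a⁻¹ = (a * b * a⁻¹ * b⁻¹) * b := by group
    rw [this, h]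

/-- the centralizer of an element has index at most 2 -/
theorem qssm2b_index [Finite G] {Y : Subgroup G}
    (hsq : ∀ y ∈ Y, ∀ x ∈ Y, x * (y * y) = (y * y) * x) (z : G)
    (hZ : ∀ y ∈ Y, (∀ x ∈ Y, x * y = y * x) → y = 1 ∨ y = z) (x : G) (hx : x ∈ Y) :
    Nat.card ↥Y ≤ 2 * Nat.card ↥(Y ⊓ Subgroup.centralizer ({x} : Set G)) := by
  obtain ⟨C, hC⟩ : ∃ C : Subgroup G, C = Y ⊓ Subgroup.centralizer ({x} : Set G) := ⟨_, rfl⟩
  rw [← hC]
  have hmemC : ∀ y ∈ Y, y * x * y⁻¹ = x → y ∈ C := by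
    intro y hy h
    rw [hC]
    exact ⟨hy, Subgroup.mem_centralizer_singleton_iff.mpr (mul_inv_eq_iff_eq_mul.mp h)⟩
  by_cases hall : ∀ y ∈ Y, y * x * y⁻¹ = x
  · have hle : Y ≤ C := fun y hy => hmemC y hy (hall y hy)
    have := Subgroup.card_le_of_le hle
    omega
  · push Not at hall
    obtain ⟨y₀, hy₀, hy₀x⟩ := hall
    have h0 : y₀ * x * y₀⁻¹ = z * x := (qssm2b_conj hsq z hZ y₀ x hy₀ hx).resolve_left hy₀x
    have hsub : (Y : Set G) ⊆ (C : Set G) ∪ (fun c => y₀ * c) '' (C : Set G) := by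
      intro y hy
      rcases qssm2b_conj hsq z hZ y x hy hx with h | h
      · exact Or.inl (hmemC y hy h)
      · refine Or.inr ⟨y₀⁻¹ * y, ?_, by group⟩
        refine hmemC _ (Y.mul_mem (Y.inv_mem hy₀) hy) ?_
        calc y₀⁻¹ * y * x * (y₀⁻¹ * y)⁻¹ = y₀⁻¹ * (y * x * y⁻¹) * y₀ := by group
          _ = y₀⁻¹ * (y₀ * x * y₀⁻¹) * y₀ := by rw [h, h0]
          _ = x := by group
    have h1 : Nat.card ↥Y = (Y : Set G).ncard := Nat.card_coe_set_eq (Y : Set G)
    have h2 : Nat.card ↥C = (C : Set G).ncard := Nat.card_coe_set_eq (C : Set G)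
    have h3 := Set.ncard_le_ncard hsub (Set.toFinite _)
    have h4 := Set.ncard_union_le (C : Set G) ((fun c => y₀ * c) '' (C : Set G))
    have h5 := Set.ncard_image_le (f := fun c => y₀ * c) (Set.toFinite (C : Set G))
    omega

/-- the main contradiction: `|Y| ≥ 16` is impossible -/
theorem qssm2b_absurd [Finite G] {Y : Subgroup G} (hY : IsPGroup 2 Y) (hs : Small Y)
    (hna : ¬ ∀ a ∈ Y, ∀ b ∈ Y, a * b = b * a)
    (hsq : ∀ y ∈ Y, ∀ x ∈ Y, x * (y * y) = (y * y) * x)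
    (z : G) (hz : z ∈ Y) (hz1 : z ≠ 1) (hzz : z * z = 1) (hzc : ∀ x ∈ Y, x * z = z * x)
    (hZ : ∀ y ∈ Y, (∀ x ∈ Y, x * y = y * x) → y = 1 ∨ y = z)
    (h16 : 16 ≤ Nat.card ↥Y) : False := by
  classical
  have : Fact (Nat.Prime 2) := ⟨Nat.prime_two⟩
  push Not at hna
  obtain ⟨x, hx, b, hb, hxb⟩ := hna
  have hx1 : x ≠ 1 := by
    rintro rfl
    exact hxb (by rw [one_mul, mul_one])
  have hxz : x ≠ z := by
    rintro rfl
    exact hxb (hzc b hb).symm
  have hzi : z⁻¹ = z := inv_eq_of_mul_eq_one_right hzz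
  obtain ⟨C, hC⟩ : ∃ C : Subgroup G, C = Y ⊓ Subgroup.centralizer ({x} : Set G) := ⟨_, rfl⟩
  have hCcard : 8 ≤ Nat.card ↥C := by
    have := qssm2b_index hsq z hZ x hx
    rw [← hC] at this
    omega
  -- an element of `C` outside `{1, z, x, x z}`
  have hy : ∃ y ∈ C, y ∉ ({1, z, x, x * z} : Finset G) := by
    by_contra hcon
    push Not at hcon
    have h1 := qssm2b_le_card C _ hcon
    have h2 : ({1, z, x, x * z} : Finset G).card ≤ 4 := Finset.card_le_four
    omega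
  obtain ⟨y, hyC, hy4⟩ := hy
  rw [hC] at hyC
  have hyY : y ∈ Y := hyC.1
  have hyx : y * x = x * y := Subgroup.mem_centralizer_singleton_iff.mp hyC.2
  simp only [Finset.mem_insert, Finset.mem_singleton, not_or] at hy4
  obtain ⟨hy1, hyz, hyx', hyxz⟩ := hy4
  -- the abelian subgroup generated by x, z, y
  obtain ⟨A, hA⟩ : ∃ A : Subgroup G, A = Subgroup.closure ({x, z, y} : Set G) := ⟨_, rfl⟩
  have hAY : A ≤ Y := by
    rw [hA, Subgroup.closure_le]
    intro g hg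
    simp only [Set.mem_insert_iff, Set.mem_singleton_iff] at hg
    rcases hg with rfl | rfl | rfl <;> assumption
  have hAcomm : IsMulCommutative ↥A := by
    rw [hA]
    apply Subgroup.isMulCommutative_closure
    intro u hu v hv
    simp only [Set.mem_insert_iff, Set.mem_singleton_iff] at hu hv
    rcases hu with rfl | rfl | rfl <;> rcases hv with rfl | rfl | rfl
    · rfl
    · exact hzc _ hx
    · exact hyx.symm
    · exact (hzc _ hx).symm
    · rfl
    · exact (hzc _ hyY).symm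
    · exact hyx
    · exact hzc _ hyY
    · rfl
  have hxA : x ∈ A := by rw [hA]; exact Subgroup.subset_closure (by simp)
  have hzA : z ∈ A := by rw [hA]; exact Subgroup.subset_closure (by simp)
  have hyA : y ∈ A := by rw [hA]; exact Subgroup.subset_closure (by simp)
  have hA5 : 5 ≤ Nat.card ↥A := by
    refine qssm2b_five A 1 z x (x * z) y A.one_mem hzA hxA (A.mul_mem hxA hzA) hyA
      (Ne.symm hz1) (Ne.symm hx1) ?_ (Ne.symm hy1) (Ne.symm hxz) ?_ (Ne.symm hyz) ?_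
      (Ne.symm hyx') (Ne.symm hyxz)
    · intro h
      apply hxz
      have := eq_inv_of_mul_eq_one_left h.symm
      rw [this, hzi]
    · intro h
      exact hx1 (right_eq_mul.mp h)
    · intro h
      exact hz1 (left_eq_mul.mp h)
  obtain ⟨m, hm⟩ := IsPGroup.iff_card.mp (hY.to_le hAY)
  have hm3 : 3 ≤ m := by
    by_contra hlt
    have : 2 ^ m ≤ 2 ^ 2 := Nat.pow_le_pow_right (by norm_num) (by omega)
    omega
  have hdvd : 2 ^ 3 ∣ Nat.card ↥A := by
    rw [hm]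
    exact pow_dvd_pow 2 hm3
  obtain ⟨K, hK⟩ := Sylow.exists_subgroup_card_pow_prime 2 hdvd
  obtain ⟨B, hB⟩ : ∃ B : Subgroup G, B = K.map A.subtype := ⟨_, rfl⟩
  have hBA : B ≤ A := by
    rw [hB]
    rintro g ⟨k, -, rfl⟩
    exact k.2
  have hBcard : Nat.card ↥B = 8 := by
    rw [hB, Subgroup.card_map_of_injective A.subtype_injective, hK]
    norm_num
  have hBcomm : IsMulCommutative ↥B := by
    refine ⟨⟨fun u v => Subtype.ext ?_⟩⟩
    have h' := congrArg Subtype.val (mul_comm' (⟨u.1, hBA u.2⟩ : ↥A) ⟨v.1, hBA v.2⟩)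
    exact h'
  have hcyc : IsCyclic ↥B := hs B (hBA.trans hAY) hBcomm hBcard
  obtain ⟨g, hg⟩ := IsCyclic.exists_ofOrder_eq_natCard (α := ↥B)
  have hgY : (g : G) ∈ Y := hAY (hBA g.2)
  have hg4 : (g : G) ^ 4 = 1 := by
    have e : (g : G) ^ 4 = ((g : G) * g) * ((g : G) * g) := by
      simp only [pow_succ, pow_zero, one_mul, mul_assoc]
    rw [e]
    rcases qssm2b_sq hsq z hZ g hgY with h | h
    · rw [h, one_mul]
    · rw [h, hzz]
  have h8 : orderOf (g : G) = 8 := by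
    rw [Subgroup.orderOf_coe, hg, hBcard]
  have := orderOf_dvd_of_pow_eq_one hg4
  rw [h8] at this
  omega

/-- SM2b: a nonabelian small 2-group whose squares are central and whose centre is `{1, z}`
has order 8. -/
theorem small_class2_card [Finite G] {Y : Subgroup G} (hY : IsPGroup 2 Y) (hs : Small Y)
    (hna : ¬ ∀ a ∈ Y, ∀ b ∈ Y, a * b = b * a)
    (hsq : ∀ y ∈ Y, ∀ x ∈ Y, x * (y * y) = (y * y) * x)
    (z : G) (hz : z ∈ Y) (hz1 : z ≠ 1) (hzz : z * z = 1) (hzc : ∀ x ∈ Y, x * z = z * x)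
    (hZ : ∀ y ∈ Y, (∀ x ∈ Y, x * y = y * x) → y = 1 ∨ y = z) : Nat.card ↥Y = 8 := by
  have : Fact (Nat.Prime 2) := ⟨Nat.prime_two⟩
  obtain ⟨k, hk⟩ := IsPGroup.iff_card.mp hY
  have hcomm_of : (∀ u v : ↥Y, u * v = v * u) → False := fun h =>
    hna (fun a ha b hb => congrArg Subtype.val (h ⟨a, ha⟩ ⟨b, hb⟩))
  have hk3 : 3 ≤ k := by
    by_contra hlt
    have h012 : k = 0 ∨ k = 1 ∨ k = 2 := by omega
    rcases h012 with rfl | rfl | rfl
    · have h1 : Nat.card ↥Y = 1 := by simpa using hk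
      have : Subsingleton ↥Y := (Nat.card_eq_one_iff_unique.mp h1).1
      exact hcomm_of (fun u v => by rw [Subsingleton.elim u v])
    · have h2 : Nat.card ↥Y = 2 := by simpa using hk
      have : IsCyclic ↥Y := isCyclic_of_prime_card h2
      exact hcomm_of (fun u v => mul_comm' u v)
    · have : IsMulCommutative ↥Y := IsPGroup.isMulCommutative_of_card_eq_prime_sq hk
      exact hcomm_of (fun u v => mul_comm' u v)
  have hlt : Nat.card ↥Y < 16 := by
    by_contra hge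
    push Not at hge
    exact qssm2b_absurd hY hs hna hsq z hz hz1 hzz hzc hZ hge
  have hk4 : k < 4 := by
    by_contra h
    have : 2 ^ 4 ≤ 2 ^ k := Nat.pow_le_pow_right (by norm_num) (by omega)
    omega
  have hk' : k = 3 := by omega
  rw [hk, hk']
  norm_num

end Cfsg.Agent.Lib.Helper73.QS
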