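import Mathlib
import Cfsg.Agent.Lib.Helper73.QSDefs

/-!
# Project QS (S4409, architect helper73): piece QA

PROVED by helper13 (was a placeholder); the theorem name
and statement byte-identical; you may add imports of landed libs and auxiliary lemmas (prefix
`qsqa_`). Paper proof: note 1946 (select body from notes where id=1946).
-/

set_option autoImplicit false

namespace Cfsg.Agent.Lib.Helper73.QS

variable {G : Type*} [Group G]

theorem qsqa_exists_not_mem [Finite G] (D : Subgroup G) (s : Finset G)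
    (h : s.card < Nat.card D) : ∃ y ∈ D, y ∉ s := by
  by_contra hc
  push Not at hc
  have h1 : (D : Set G) ⊆ (s : Set G) := fun y hy => hc y hy
  have h2 := Set.ncard_le_ncard h1 (Set.toFinite _)
  rw [Set.ncard_coe_finset] at h2
  have h3 : Nat.card D = (D : Set G).ncard := Nat.card_coe_set_eq (D : Set G)
  omega

theorem qsqa_zz [Finite G] {D : Subgroup G} {z : G} (hcard : Nat.card D = 8)
    (hsq : ∀ y ∈ D, y ≠ 1 → y ≠ z → y * y = z) : z * z = 1 := by
  classical
  obtain ⟨y, hy, hys⟩ := qsqa_exists_not_mem D {1, z} (by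
    rw [hcard]; exact lt_of_le_of_lt Finset.card_le_two (by norm_num))
  rw [Finset.mem_insert, Finset.mem_singleton, not_or] at hys
  have h2 := hsq y hy hys.1 hys.2
  have h8 : y ^ 8 = 1 := by
    have := pow_card_eq_one' (G := D) (x := ⟨y, hy⟩)
    rw [hcard] at this
    exact congrArg Subtype.val this
  have hy3 : y * y * y ∈ D := D.mul_mem (D.mul_mem hy hy) hy
  have h31 : y * y * y ≠ 1 := by
    intro h
    apply hys.1
    have : y = (y * y * y) * (y * y * y) * (y * y * y) * (y ^ 8)⁻¹ := by group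
    rw [this, h, h8]; simp
  have h3z : y * y * y ≠ z := by
    intro h
    apply hys.1
    rw [← h2] at h
    exact mul_left_cancel (a := y * y) (by rw [h, mul_one])
  have h6 := hsq _ hy3 h31 h3z
  have e : (y * y) * (y * y) * (y * y) = z := by rw [← h6]; group
  rw [h2] at e
  exact mul_right_cancel (b := z) (by rw [e, one_mul])

theorem qsqa_inv {D : Subgroup G} {z : G} (hzz : z * z = 1)
    (hsq : ∀ y ∈ D, y ≠ 1 → y ≠ z → y * y = z) {y : G} (hy : y ∈ D) (h1 : y ≠ 1) (hz : y ≠ z) :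
    y⁻¹ = y * z :=
  inv_eq_of_mul_eq_one_right (by rw [← mul_assoc, hsq y hy h1 hz, hzz])

theorem qsqa_order {D : Subgroup G} {z : G} (hz1 : z ≠ 1) (hzz : z * z = 1)
    (hsq : ∀ y ∈ D, y ≠ 1 → y ≠ z → y * y = z) {y : G} (hy : y ∈ D) (h1 : y ≠ 1) (hz : y ≠ z) :
    orderOf y = 4 := by
  have h2 := hsq y hy h1 hz
  have := orderOf_eq_prime_pow (p := 2) (n := 1) (x := y)
    (by rw [pow_one, pow_two, h2]; exact hz1)
    (by rw [show (2 : ℕ) ^ (1 + 1) = 2 * 2 by norm_num, pow_mul, pow_two (y ^ 2), pow_two y,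
      h2, hzz])
  simpa using this

theorem qsqa_conj {D : Subgroup G} {z : G} (hzz : z * z = 1)
    (hsq : ∀ y ∈ D, y ≠ 1 → y ≠ z → y * y = z) {a b : G} (ha : a ∈ D) (ha1 : a ≠ 1)
    (haz : a ≠ z) (hb : b ∈ D) (hb1 : b ≠ 1) (hbz : b ≠ z) (hba : b ≠ a) (hba' : b ≠ a⁻¹) :
    b * a * b⁻¹ = a⁻¹ := by
  have hab1 : a * b ≠ 1 := fun h => hba' (eq_inv_of_mul_eq_one_right h)
  have ha2 := hsq a ha ha1 haz
  have hb2 := hsq b hb hb1 hbz
  have habz : a * b ≠ z := by
    intro h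
    rw [← ha2] at h
    exact hba (mul_left_cancel h)
  have h := hsq (a * b) (D.mul_mem ha hb) hab1 habz
  have h1 : b * a * b = a := by
    apply mul_left_cancel (a := a)
    rw [ha2, ← h]; group
  rw [qsqa_inv hzz hsq ha ha1 haz]
  have hzinv : z⁻¹ = z := inv_eq_of_mul_eq_one_right hzz
  calc b * a * b⁻¹ = (b * a * b) * (b * b)⁻¹ := by group
    _ = a * z := by rw [h1, hb2, hzinv]

/-- commuting elements of order 4 are equal or inverse -/
theorem qsqa_comm {D : Subgroup G} {z : G} (hz1 : z ≠ 1) (hzz : z * z = 1)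
    (hsq : ∀ y ∈ D, y ≠ 1 → y ≠ z → y * y = z) {a b : G} (ha : a ∈ D) (ha1 : a ≠ 1)
    (haz : a ≠ z) (hb : b ∈ D) (hb1 : b ≠ 1) (hbz : b ≠ z) (hc : b * a * b⁻¹ = a) :
    b = a ∨ b = a⁻¹ := by
  by_contra h
  push Not at h
  have h2 := qsqa_conj hzz hsq ha ha1 haz hb hb1 hbz h.1 h.2
  rw [hc] at h2
  apply hz1
  rw [← hsq a ha ha1 haz]
  nth_rewrite 1 [h2]
  group

theorem qsqa_fix_z {D : Subgroup G} {z : G} (hz : z ∈ D) (hz1 : z ≠ 1) (hzz : z * z = 1)
    (hsq : ∀ y ∈ D, y ≠ 1 → y ≠ z → y * y = z) {x : G}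
    (hx : x ∈ Subgroup.normalizer (D : Set G)) : x * z * x⁻¹ = z := by
  by_contra hne
  have hm : x * z * x⁻¹ ∈ D := (Subgroup.mem_normalizer_iff.1 hx z).1 hz
  have h1 : x * z * x⁻¹ ≠ 1 := by
    intro h
    apply hz1
    have : z = x⁻¹ * (x * z * x⁻¹) * x := by group
    rw [this, h]; group
  have h3 := hsq _ hm h1 hne
  have h2 : x * z * x⁻¹ * (x * z * x⁻¹) = 1 := by
    have : x * z * x⁻¹ * (x * z * x⁻¹) = x * (z * z) * x⁻¹ := by group
    rw [this, hzz]; group
  exact hz1 (h3.symm.trans h2)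

theorem qsqa_conj_mem {D : Subgroup G} {z : G} (hz : z ∈ D) (hz1 : z ≠ 1) (hzz : z * z = 1)
    (hsq : ∀ y ∈ D, y ≠ 1 → y ≠ z → y * y = z) {x : G}
    (hx : x ∈ Subgroup.normalizer (D : Set G)) {y : G} (hy : y ∈ D) (hy1 : y ≠ 1) (hyz : y ≠ z) :
    x * y * x⁻¹ ∈ D ∧ x * y * x⁻¹ ≠ 1 ∧ x * y * x⁻¹ ≠ z := by
  refine ⟨(Subgroup.mem_normalizer_iff.1 hx y).1 hy, ?_, ?_⟩
  · intro h
    apply hy1
    have : y = x⁻¹ * (x * y * x⁻¹) * x := by group
    rw [this, h]; group
  · intro h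
    apply hyz
    have h2 := qsqa_fix_z hz hz1 hzz hsq hx
    rw [← h2] at h
    have : y = x⁻¹ * (x * y * x⁻¹) * x := by group
    rw [this, h]; group

theorem qsqa_three {D : Subgroup G} {z : G} (hz1 : z ≠ 1) (hzz : z * z = 1)
    (hsq : ∀ y ∈ D, y ≠ 1 → y ≠ z → y * y = z) {i j y : G} (hi : i ∈ D) (hi1 : i ≠ 1)
    (hiz : i ≠ z) (hj : j ∈ D) (hj1 : j ≠ 1) (hjz : j ≠ z) (hji : j ≠ i) (hji' : j ≠ i⁻¹)
    (hy : y ∈ D) (hy1 : y ≠ 1) (hyz : y ≠ z) :
    y = i ∨ y = i⁻¹ ∨ y = j ∨ y = j⁻¹ ∨ y = i * j ∨ y = (i * j)⁻¹ := by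
  by_contra hc
  push Not at hc
  obtain ⟨n1, n2, n3, n4, n5, n6⟩ := hc
  have hij : i ≠ j := fun h => hji h.symm
  have hij' : i ≠ j⁻¹ := fun h => hji' (by rw [h, inv_inv])
  have c1 : j * i * j⁻¹ = i⁻¹ := qsqa_conj hzz hsq hi hi1 hiz hj hj1 hjz hji hji'
  have c2 : i * j * i⁻¹ = j⁻¹ := qsqa_conj hzz hsq hj hj1 hjz hi hi1 hiz hij hij'
  have cy1 : y * i * y⁻¹ = i⁻¹ := qsqa_conj hzz hsq hi hi1 hiz hy hy1 hyz n1 n2
  have cy2 : y * j * y⁻¹ = j⁻¹ := qsqa_conj hzz hsq hj hj1 hjz hy hy1 hyz n3 n4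
  have hk : i * j ∈ D := D.mul_mem hi hj
  have hk1 : i * j ≠ 1 := fun h => hji' (eq_inv_of_mul_eq_one_right h)
  have hkz : i * j ≠ z := by
    intro h
    rw [← hsq i hi hi1 hiz] at h
    exact hji (mul_left_cancel h)
  have hu : (i * j)⁻¹ * y ∈ D := D.mul_mem (D.inv_mem hk) hy
  have hu1 : (i * j)⁻¹ * y ≠ 1 := by
    intro h
    apply n5
    have : y = (i * j) * ((i * j)⁻¹ * y) := by group
    rw [this, h, mul_one]
  have huz : (i * j)⁻¹ * y ≠ z := by
    intro h
    apply n6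
    have : y = (i * j) * ((i * j)⁻¹ * y) := by group
    rw [this, h, ← qsqa_inv hzz hsq hk hk1 hkz]
  have e1 : j⁻¹ * i⁻¹ * j = i := by
    have : j⁻¹ * (j * i * j⁻¹) * j = i := by group
    rw [c1] at this
    exact this
  have e2 : i⁻¹ * j⁻¹ * i = j := by
    have : i⁻¹ * (i * j * i⁻¹) * i = j := by group
    rw [c2] at this
    exact this
  have ui : (i * j)⁻¹ * y * i * ((i * j)⁻¹ * y)⁻¹ = i := by
    calc (i * j)⁻¹ * y * i * ((i * j)⁻¹ * y)⁻¹ = (i * j)⁻¹ * (y * i * y⁻¹) * (i * j) := by group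
      _ = j⁻¹ * i⁻¹ * j := by rw [cy1]; group
      _ = i := e1
  have uj : (i * j)⁻¹ * y * j * ((i * j)⁻¹ * y)⁻¹ = j := by
    calc (i * j)⁻¹ * y * j * ((i * j)⁻¹ * y)⁻¹ = (i * j)⁻¹ * (y * j * y⁻¹) * (i * j) := by group
      _ = j⁻¹ * (i⁻¹ * j⁻¹ * i) * j := by rw [cy2]; group
      _ = j := by rw [e2]; group
  rcases qsqa_comm hz1 hzz hsq hi hi1 hiz hu hu1 huz ui with h1 | h1 <;>
    rcases qsqa_comm hz1 hzz hsq hj hj1 hjz hu hu1 huz uj with h2 | h2
  · exact hij (h1.symm.trans h2)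
  · exact hij' (h1.symm.trans h2)
  · exact hji' (h2.symm.trans h1)
  · exact hij (inv_injective (h1.symm.trans h2))

/-- the subgroups of order 4 of `D` -/
abbrev qsqa_α (D : Subgroup G) : Type _ := {C : Subgroup G // C ≤ D ∧ Nat.card C = 4}

/-- conjugation action on the subgroups of order 4 of `D` -/
def qsqa_smul (D X : Subgroup G) (hN : X ≤ Subgroup.normalizer (D : Set G)) (x : X)
    (C : qsqa_α D) : qsqa_α D :=
  ⟨C.1.map (MulAut.conj (x : G)).toMonoidHom, by
    rintro _ ⟨c, hc, rfl⟩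
    exact (Subgroup.mem_normalizer_iff.1 (hN x.2) c).1 (C.2.1 hc), by
    rw [Subgroup.card_map_of_injective (MulAut.conj (x : G)).injective]; exact C.2.2⟩

/-- conjugation action on the subgroups of order 4 of `D` -/
def qsqa_act (D X : Subgroup G) (hN : X ≤ Subgroup.normalizer (D : Set G)) :
    MulAction X (qsqa_α D) where
  smul := qsqa_smul D X hN
  one_smul := by
    intro C
    apply Subtype.ext
    show C.1.map (MulAut.conj ((1 : X) : G)).toMonoidHom = C.1
    ext g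
    simp [Subgroup.mem_map]
  mul_smul := by
    intro x y C
    apply Subtype.ext
    show C.1.map (MulAut.conj ((x * y : X) : G)).toMonoidHom
      = (C.1.map (MulAut.conj (y : G)).toMonoidHom).map (MulAut.conj (x : G)).toMonoidHom
    rw [Subgroup.map_map]
    congr 1
    ext g
    simp [mul_assoc]

/-- QA: a 2-group `X ≥ D` normalizing a quaternion group `D` of order 8 induces inner
automorphisms on it up to index 2: `|X : D C_X(D)| ≤ 2`. -/
theorem q8_two_group_index [Finite G] {D X : Subgroup G} (hD : IsQ8 D) (hX : IsPGroup 2 X)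
    (hDX : D ≤ X) (hN : X ≤ Subgroup.normalizer (D : Set G)) :
    (D ⊔ (X ⊓ Subgroup.centralizer (D : Set G))).relIndex X ≤ 2 := by
  classical
  obtain ⟨hcard, z, hz, hz1, hsq⟩ := hD
  have hzz := qsqa_zz hcard hsq
  obtain ⟨i, hi, his⟩ := qsqa_exists_not_mem D {1, z} (by
    rw [hcard]; exact lt_of_le_of_lt Finset.card_le_two (by norm_num))
  rw [Finset.mem_insert, Finset.mem_singleton, not_or] at his
  obtain ⟨hi1, hiz⟩ := his
  have hi4 : orderOf i = 4 := qsqa_order hz1 hzz hsq hi hi1 hiz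
  have hci : Nat.card (Subgroup.zpowers i) = 4 := by rw [Nat.card_zpowers, hi4]
  have hiD : Subgroup.zpowers i ≤ D := (Subgroup.zpowers_le).2 hi
  obtain ⟨j, hj, hjn⟩ : ∃ j ∈ D, j ∉ Subgroup.zpowers i := by
    by_contra hc
    push Not at hc
    have h1 : D ≤ Subgroup.zpowers i := hc
    have h2 := Subgroup.card_le_of_le h1
    omega
  have hj1 : j ≠ 1 := fun h => hjn (h ▸ (Subgroup.zpowers i).one_mem)
  have hjz : j ≠ z := fun h => hjn (by
    rw [h, ← hsq i hi hi1 hiz]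
    exact (Subgroup.zpowers i).mul_mem (Subgroup.mem_zpowers i) (Subgroup.mem_zpowers i))
  have hji : j ≠ i := fun h => hjn (h ▸ Subgroup.mem_zpowers i)
  have hji' : j ≠ i⁻¹ := fun h =>
    hjn (h ▸ (Subgroup.zpowers i).inv_mem (Subgroup.mem_zpowers i))
  have hij : i ≠ j := fun h => hji h.symm
  have hij' : i ≠ j⁻¹ := fun h => hji' (by rw [h, inv_inv])
  have hj4 : orderOf j = 4 := qsqa_order hz1 hzz hsq hj hj1 hjz
  have hcj : Nat.card (Subgroup.zpowers j) = 4 := by rw [Nat.card_zpowers, hj4]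
  have hjD : Subgroup.zpowers j ≤ D := (Subgroup.zpowers_le).2 hj
  have c1 : j * i * j⁻¹ = i⁻¹ := qsqa_conj hzz hsq hi hi1 hiz hj hj1 hjz hji hji'
  have c2 : i * j * i⁻¹ = j⁻¹ := qsqa_conj hzz hsq hj hj1 hjz hi hi1 hiz hij hij'
  have hk : i * j ∈ D := D.mul_mem hi hj
  have hk1 : i * j ≠ 1 := fun h => hji' (eq_inv_of_mul_eq_one_right h)
  have hkz : i * j ≠ z := by
    intro h
    rw [← hsq i hi hi1 hiz] at h
    exact hji (mul_left_cancel h)
  have hk4 := qsqa_order hz1 hzz hsq hk hk1 hkz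
  have hck : Nat.card (Subgroup.zpowers (i * j)) = 4 := by rw [Nat.card_zpowers, hk4]
  let _ := qsqa_act D X hN
  have hsmul : ∀ (x : X) (C : qsqa_α D),
      (x • C).1 = C.1.map (MulAut.conj (x : G)).toMonoidHom := fun _ _ => rfl
  have step2 : (MulAction.toPermHom X (qsqa_α D)).ker
      ≤ (D ⊔ (X ⊓ Subgroup.centralizer (D : Set G))).subgroupOf X := by
    intro x hx
    rw [Subgroup.mem_subgroupOf]
    have hfix : ∀ C : qsqa_α D, x • C = C := by
      intro C
      have h1 := MonoidHom.mem_ker.1 hx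
      exact congrArg (fun σ : Equiv.Perm (qsqa_α D) => σ C) h1
    have key : ∀ y ∈ D, y ≠ 1 → y ≠ z →
        ((x : G) * y * (x : G)⁻¹ = y ∨ (x : G) * y * (x : G)⁻¹ = y⁻¹) := by
      intro y hy hy1 hyz
      have hy4 := qsqa_order hz1 hzz hsq hy hy1 hyz
      have hcy : Nat.card (Subgroup.zpowers y) = 4 := by rw [Nat.card_zpowers, hy4]
      have h := hfix ⟨Subgroup.zpowers y, (Subgroup.zpowers_le).2 hy, hcy⟩
      have h' : (Subgroup.zpowers y).map (MulAut.conj (x : G)).toMonoidHom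
          = Subgroup.zpowers y := by
        have := congrArg Subtype.val h
        rw [hsmul] at this
        exact this
      have hm : (x : G) * y * (x : G)⁻¹ ∈ Subgroup.zpowers y := by
        rw [← h']
        exact ⟨y, Subgroup.mem_zpowers y, rfl⟩
      obtain ⟨hm1, hm2, hm3⟩ := qsqa_conj_mem hz hz1 hzz hsq (hN x.2) hy hy1 hyz
      obtain ⟨k, hk⟩ := Subgroup.mem_zpowers_iff.1 hm
      have hcomm : (x : G) * y * (x : G)⁻¹ * y * ((x : G) * y * (x : G)⁻¹)⁻¹ = y := by
        rw [← hk]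
        have := (Commute.refl y).zpow_left k
        rw [this.eq]
        group
      exact qsqa_comm hz1 hzz hsq hy hy1 hyz hm1 hm2 hm3 hcomm
    obtain ⟨d, hd, hdi, hdj⟩ : ∃ d ∈ D, d * i * d⁻¹ = (x : G) * i * (x : G)⁻¹ ∧
        d * j * d⁻¹ = (x : G) * j * (x : G)⁻¹ := by
      rcases key i hi hi1 hiz with h1 | h1 <;> rcases key j hj hj1 hjz with h2 | h2
      · exact ⟨1, D.one_mem, by rw [h1]; group, by rw [h2]; group⟩
      · exact ⟨i, hi, by rw [h1]; group, by rw [h2]; exact c2⟩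
      · exact ⟨j, hj, by rw [h1]; exact c1, by rw [h2]; group⟩
      · refine ⟨i * j, D.mul_mem hi hj, ?_, ?_⟩
        · rw [h1]
          calc i * j * i * (i * j)⁻¹ = i * (j * i * j⁻¹) * i⁻¹ := by group
            _ = i⁻¹ := by rw [c1]; group
        · rw [h2]
          calc i * j * j * (i * j)⁻¹ = i * j * i⁻¹ := by group
            _ = j⁻¹ := c2
    have hwi : d⁻¹ * (x : G) * i = i * (d⁻¹ * (x : G)) := by
      have h1 : d⁻¹ * (x : G) * i * (d⁻¹ * (x : G))⁻¹ = i := by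
        calc d⁻¹ * (x : G) * i * (d⁻¹ * (x : G))⁻¹
            = d⁻¹ * ((x : G) * i * (x : G)⁻¹) * d := by group
          _ = i := by rw [← hdi]; group
      calc d⁻¹ * (x : G) * i
          = (d⁻¹ * (x : G) * i * (d⁻¹ * (x : G))⁻¹) * (d⁻¹ * (x : G)) := by group
        _ = i * (d⁻¹ * (x : G)) := by rw [h1]
    have hwj : d⁻¹ * (x : G) * j = j * (d⁻¹ * (x : G)) := by
      have h1 : d⁻¹ * (x : G) * j * (d⁻¹ * (x : G))⁻¹ = j := by
        calc d⁻¹ * (x : G) * j * (d⁻¹ * (x : G))⁻¹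
            = d⁻¹ * ((x : G) * j * (x : G)⁻¹) * d := by group
          _ = j := by rw [← hdj]; group
      calc d⁻¹ * (x : G) * j
          = (d⁻¹ * (x : G) * j * (d⁻¹ * (x : G))⁻¹) * (d⁻¹ * (x : G)) := by group
        _ = j * (d⁻¹ * (x : G)) := by rw [h1]
    have hwC : d⁻¹ * (x : G) ∈ Subgroup.centralizer (D : Set G) := by
      have hE : D ⊓ Subgroup.centralizer {d⁻¹ * (x : G)} = D := by
        have hle : D ⊓ Subgroup.centralizer {d⁻¹ * (x : G)} ≤ D := inf_le_left
        have hiE : i ∈ D ⊓ Subgroup.centralizer {d⁻¹ * (x : G)} := by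
          refine Subgroup.mem_inf.2 ⟨hi, Subgroup.mem_centralizer_iff.2 ?_⟩
          intro h hh
          rw [Set.mem_singleton_iff] at hh
          rw [hh]
          exact hwi
        have hjE : j ∈ D ⊓ Subgroup.centralizer {d⁻¹ * (x : G)} := by
          refine Subgroup.mem_inf.2 ⟨hj, Subgroup.mem_centralizer_iff.2 ?_⟩
          intro h hh
          rw [Set.mem_singleton_iff] at hh
          rw [hh]
          exact hwj
        have hzi : Subgroup.zpowers i ≤ D ⊓ Subgroup.centralizer {d⁻¹ * (x : G)} :=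
          (Subgroup.zpowers_le).2 hiE
        have d1 := Subgroup.card_dvd_of_le hzi
        have d2 := Subgroup.card_dvd_of_le hle
        rw [hci] at d1
        rw [hcard] at d2
        have hne : Nat.card ↥(D ⊓ Subgroup.centralizer {d⁻¹ * (x : G)}) ≠ 4 := by
          intro h4
          have := Subgroup.eq_of_le_of_card_ge hzi (by rw [hci, h4])
          exact hjn (this ▸ hjE)
        have h8 : Nat.card ↥(D ⊓ Subgroup.centralizer {d⁻¹ * (x : G)}) = 8 := by
          have hle8 := Nat.le_of_dvd (by norm_num) d2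
          have hpos : 0 < Nat.card ↥(D ⊓ Subgroup.centralizer {d⁻¹ * (x : G)}) := Nat.card_pos
          generalize Nat.card ↥(D ⊓ Subgroup.centralizer {d⁻¹ * (x : G)}) = n at *
          interval_cases n <;> omega
        exact Subgroup.eq_of_le_of_card_ge hle (by rw [h8, hcard])
      rw [Subgroup.mem_centralizer_iff]
      intro y hy
      have hyE : y ∈ D ⊓ Subgroup.centralizer {d⁻¹ * (x : G)} := by rw [hE]; exact hy
      exact ((Subgroup.mem_centralizer_iff.1 (Subgroup.mem_inf.1 hyE).2) _ rfl).symm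
    have hwX : d⁻¹ * (x : G) ∈ X := X.mul_mem (X.inv_mem (hDX hd)) x.2
    have hx' : (x : G) = d * (d⁻¹ * (x : G)) := by group
    rw [hx']
    exact Subgroup.mul_mem_sup hd ⟨hwX, hwC⟩
  have hα : Nat.card (qsqa_α D) ≤ 3 := by
    let f : Fin 3 → qsqa_α D := fun t =>
      if t = 0 then ⟨Subgroup.zpowers i, hiD, hci⟩
      else if t = 1 then ⟨Subgroup.zpowers j, hjD, hcj⟩
      else ⟨Subgroup.zpowers (i * j), (Subgroup.zpowers_le).2 hk, hck⟩
    have hf : Function.Surjective f := by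
      rintro ⟨C, hCD, hC4⟩
      obtain ⟨y, hyC, hys⟩ := qsqa_exists_not_mem C {1, z} (by
        rw [hC4]; exact lt_of_le_of_lt Finset.card_le_two (by norm_num))
      rw [Finset.mem_insert, Finset.mem_singleton, not_or] at hys
      have hy := hCD hyC
      have hy4 := qsqa_order hz1 hzz hsq hy hys.1 hys.2
      have hcy : Nat.card (Subgroup.zpowers y) = 4 := by rw [Nat.card_zpowers, hy4]
      have hCy : Subgroup.zpowers y = C :=
        Subgroup.eq_of_le_of_card_ge ((Subgroup.zpowers_le).2 hyC) (by rw [hcy, hC4])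
      have hgen : ∀ a : G, Nat.card (Subgroup.zpowers a) = 4 → y ∈ Subgroup.zpowers a →
          Subgroup.zpowers a = C := by
        intro a ha hya
        rw [← hCy]
        exact (Subgroup.eq_of_le_of_card_ge ((Subgroup.zpowers_le).2 hya)
          (by rw [hcy, ha])).symm
      rcases qsqa_three hz1 hzz hsq hi hi1 hiz hj hj1 hjz hji hji' hy hys.1 hys.2
        with h | h | h | h | h | h
      · exact ⟨0, Subtype.ext (hgen i hci (h ▸ Subgroup.mem_zpowers i))⟩
      · exact ⟨0, Subtype.ext (hgen i hci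
          (h ▸ (Subgroup.zpowers i).inv_mem (Subgroup.mem_zpowers i)))⟩
      · exact ⟨1, Subtype.ext (hgen j hcj (h ▸ Subgroup.mem_zpowers j))⟩
      · exact ⟨1, Subtype.ext (hgen j hcj
          (h ▸ (Subgroup.zpowers j).inv_mem (Subgroup.mem_zpowers j)))⟩
      · exact ⟨2, Subtype.ext (hgen (i * j) hck (h ▸ Subgroup.mem_zpowers (i * j)))⟩
      · exact ⟨2, Subtype.ext (hgen (i * j) hck
          (h ▸ (Subgroup.zpowers (i * j)).inv_mem (Subgroup.mem_zpowers (i * j))))⟩
    have := Nat.card_le_card_of_surjective f hf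
    simpa using this
  have hidx : (MulAction.toPermHom X (qsqa_α D)).ker.index ≤ 2 := by
    have h1 : Nat.card (MulAction.toPermHom X (qsqa_α D)).range ∣ 6 := by
      have h2 := Subgroup.card_subgroup_dvd_card (MulAction.toPermHom X (qsqa_α D)).range
      rw [Nat.card_perm] at h2
      have h6 : (Nat.card (qsqa_α D)).factorial ∣ 6 := by
        generalize Nat.card (qsqa_α D) = n at hα
        interval_cases n <;> decide
      exact h2.trans h6
    obtain ⟨n, hn⟩ := hX.index (MulAction.toPermHom X (qsqa_α D)).ker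
    rw [Subgroup.index_ker] at hn ⊢
    rw [hn] at h1 ⊢
    rcases n with _ | _ | n
    · norm_num
    · norm_num
    · exfalso
      have h4 : 2 ^ 2 ∣ 6 := (pow_dvd_pow 2 (by omega : 2 ≤ n + 1 + 1)).trans h1
      omega
  have hfin : (MulAction.toPermHom X (qsqa_α D)).ker.index ≠ 0 :=
    Subgroup.index_ne_zero_of_finite
  have hdvd := Subgroup.index_dvd_of_le step2
  exact (Nat.le_of_dvd (Nat.pos_of_ne_zero hfin) hdvd).trans hidx

end Cfsg.Agent.Lib.Helper73.QS
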