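import Mathlib
import Cfsg.Agent.Lib.Helper73.QSDefs

/-!
# Project QS (S4409, architect helper73): piece VA

PLACEHOLDER: replace the body of the theorem in THIS file by a full proof; keep the theorem name
and statement byte-identical; you may add imports of landed libs and auxiliary lemmas (prefix
`qsva_`). Paper proof: note 1946 (select body from notes where id=1946).
-/

set_option autoImplicit false

namespace Cfsg.Agent.Lib.Helper73.QS

variable {G : Type*} [Group G]

/-- the automorphism group of a group of order 4 has order dividing 6. -/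
theorem qsva_card_mulAut_dvd {M : Type*} [Group M] [Finite M] (hM : Nat.card M = 4) :
    Nat.card (MulAut M) ∣ 6 := by
  classical
  have hinj : Function.Injective (MulAut.toPerm M) := by
    intro a b hab
    ext x
    have := congrArg (fun σ : Equiv.Perm M => σ x) hab
    exact this
  have hle : (MulAut.toPerm M).range ≤ MulAction.stabilizer (Equiv.Perm M) (1 : M) := by
    rintro _ ⟨a, rfl⟩
    rw [MulAction.mem_stabilizer_iff]
    show a 1 = 1
    exact map_one a
  have hstab : Nat.card (MulAction.stabilizer (Equiv.Perm M) (1 : M)) = 6 := by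
    have h1 := Subgroup.card_mul_index (MulAction.stabilizer (Equiv.Perm M) (1 : M))
    rw [MulAction.index_stabilizer, MulAction.orbit_eq_univ, Set.ncard_univ, hM,
      Nat.card_perm, hM] at h1
    have h24 : Nat.factorial 4 = 24 := by decide
    omega
  have h2 : Nat.card (MulAut M) = Nat.card (MulAut.toPerm M).range :=
    Nat.card_congr (Equiv.ofInjective _ hinj)
  rw [h2, ← hstab]
  exact Subgroup.card_dvd_of_le hle

/-- VA: a 2-group normalizing a four-group `M` induces at most 2 automorphisms of it. -/
theorem v4_two_group_index [Finite G] {M D : Subgroup G} (hM : IsV4 M) (hD : IsPGroup 2 D)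
    (hN : D ≤ Subgroup.normalizer (M : Set G)) :
    (D ⊓ Subgroup.centralizer (M : Set G)).relIndex D ≤ 2 := by
  have hker : (M.normalizerMonoidHom.comp (Subgroup.inclusion hN)).ker =
      (D ⊓ Subgroup.centralizer (M : Set G)).subgroupOf D := by
    ext d
    rw [MonoidHom.mem_ker, Subgroup.mem_subgroupOf, MonoidHom.comp_apply]
    have h1 : M.normalizerMonoidHom (Subgroup.inclusion hN d) = 1 ↔
        Subgroup.inclusion hN d ∈ M.normalizerMonoidHom.ker := Iff.rfl
    rw [h1, Subgroup.normalizerMonoidHom_ker, Subgroup.mem_subgroupOf, Subgroup.mem_inf]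
    constructor
    · intro h
      exact ⟨d.2, h⟩
    · intro h
      exact h.2
  have hidx : (D ⊓ Subgroup.centralizer (M : Set G)).relIndex D =
      Nat.card (M.normalizerMonoidHom.comp (Subgroup.inclusion hN)).range := by
    rw [Subgroup.relIndex, ← hker, Subgroup.index_ker]
  rw [hidx]
  have h6 : Nat.card (M.normalizerMonoidHom.comp (Subgroup.inclusion hN)).range ∣ 6 :=
    (Subgroup.card_subgroup_dvd_card _).trans (qsva_card_mulAut_dvd hM.1)
  obtain ⟨k, hk⟩ := IsPGroup.iff_card.mp hD
  have h2 : Nat.card (M.normalizerMonoidHom.comp (Subgroup.inclusion hN)).range ∣ 2 ^ k := by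
    rw [← hk]
    exact Subgroup.card_range_dvd _
  have h3 : Nat.card (M.normalizerMonoidHom.comp (Subgroup.inclusion hN)).range ∣ 2 := by
    have hc3 : (Nat.card (M.normalizerMonoidHom.comp (Subgroup.inclusion hN)).range).Coprime 3 :=
      Nat.Coprime.coprime_dvd_left h2 (Nat.Coprime.pow_left k (by decide : Nat.Coprime 2 3))
    exact hc3.dvd_of_dvd_mul_right (show _ ∣ 2 * 3 from h6)
  exact Nat.le_of_dvd (by norm_num) h3

end Cfsg.Agent.Lib.Helper73.QS
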