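import Mathlib
import Cfsg.Agent.Lib.Helper73.QSDefs
import Cfsg.Agent.Lib.Helper73.QSBasic
import Cfsg.Agent.Lib.Helper73.QSVA
import Cfsg.Agent.Lib.Helper73.QSQA

/-!
# Project QS (S4409, architect helper73): piece SQC (filled by helper64)

If `D = [D, H]` and every proper `H`-invariant subgroup of `D` not centralized by `H` is a
four-group or a quaternion group, then the squares of `D` are central in `D`.
-/

set_option autoImplicit false

namespace Cfsg.Agent.Lib.Helper73.QS

open scoped commutatorElement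

variable {G : Type*} [Group G]

/-- a subgroup has an element outside any finset of smaller cardinality -/
theorem qssqc_exists_not_mem [Finite G] (M : Subgroup G) (s : Finset G)
    (h : s.card < Nat.card M) : ∃ x ∈ M, x ∉ s := by
  by_contra hcon
  have hcon' : ∀ x ∈ M, x ∈ s := by
    intro x hx
    by_contra hxs
    exact hcon ⟨x, hx, hxs⟩
  have h1 : (M : Set G) ⊆ (s : Set G) := fun x hx => hcon' x hx
  have h2 : Set.ncard (M : Set G) ≤ Set.ncard (s : Set G) :=
    Set.ncard_le_ncard h1 (Finset.finite_toSet s)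
  rw [Set.ncard_coe_finset] at h2
  have h3 : Nat.card M = Set.ncard (M : Set G) := Nat.card_coe_set_eq (M : Set G)
  omega

theorem qssqc_q8_zz [Finite G] {M : Subgroup G} {z : G} (hz : z ∈ M) (hz1 : z ≠ 1)
    (hcard : Nat.card M = 8) (hq : ∀ y ∈ M, y ≠ 1 → y ≠ z → y * y = z) : z * z = 1 := by
  by_contra hne
  have hzz : z * z ≠ z := fun h => hz1 (mul_left_cancel (h.trans (mul_one z).symm))
  have h1 : (z * z) * (z * z) = z := hq (z * z) (M.mul_mem hz hz) hne hzz
  have h8 : z ^ 8 = 1 := by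
    have h := pow_card_eq_one' (G := M) (x := ⟨z, hz⟩)
    rw [hcard] at h
    have h' := congrArg Subtype.val h
    simpa using h'
  have h4 : z ^ 4 = z := by
    calc z ^ 4 = (z * z) * (z * z) := by
          rw [show (4 : ℕ) = 2 + 2 from rfl, pow_add, pow_two]
      _ = z := h1
  apply hne
  calc z * z = z ^ 4 * z ^ 4 := by rw [h4]
    _ = z ^ 8 := by rw [← pow_add]
    _ = 1 := h8

theorem qssqc_q8_central {M : Subgroup G} {z : G}
    (hq : ∀ y ∈ M, y ≠ 1 → y ≠ z → y * y = z) : ∀ y ∈ M, y * z = z * y := by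
  intro y hy
  by_cases h1 : y = 1
  · subst h1; simp
  by_cases h2 : y = z
  · subst h2; rfl
  have := hq y hy h1 h2
  rw [← this, mul_assoc]

theorem qssqc_q8_nonabelian [Finite G] {M : Subgroup G} (hM : IsQ8 M) :
    ¬ ∀ a ∈ M, ∀ b ∈ M, a * b = b * a := by
  classical
  obtain ⟨hcard, z, hz, hz1, hq⟩ := hM
  intro hab
  have hzz := qssqc_q8_zz hz hz1 hcard hq
  obtain ⟨y, hy, hys⟩ := qssqc_exists_not_mem M {1, z}
    (by rw [hcard]; exact lt_of_le_of_lt Finset.card_le_two (by norm_num))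
  have hy1 : y ≠ 1 := fun h => hys (by simp [h])
  have hyz : y ≠ z := fun h => hys (by simp [h])
  have hyy := hq y hy hy1 hyz
  obtain ⟨x, hx, hxs⟩ := qssqc_exists_not_mem M {1, z, y, y * z}
    (by rw [hcard]; exact lt_of_le_of_lt Finset.card_le_four (by norm_num))
  have hx1 : x ≠ 1 := fun h => hxs (by simp [h])
  have hxz : x ≠ z := fun h => hxs (by simp [h])
  have hxy : x ≠ y := fun h => hxs (by simp [h])
  have hxyz : x ≠ y * z := fun h => hxs (by simp [h])
  have hxx := hq x hx hx1 hxz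
  have h5 : (x * y) * (x * y) = 1 := by
    have hc := hab x hx y hy
    calc (x * y) * (x * y) = x * (y * x) * y := by group
      _ = x * (x * y) * y := by rw [hc]
      _ = (x * x) * (y * y) := by group
      _ = 1 := by rw [hxx, hyy, hzz]
  by_cases h6 : x * y = 1
  · apply hxyz
    have h7 : x = y⁻¹ := eq_inv_of_mul_eq_one_left h6
    have h8 : y * (y * z) = 1 := by rw [← mul_assoc, hyy, hzz]
    rw [h7]
    exact (eq_inv_of_mul_eq_one_right h8).symm
  by_cases h7 : x * y = z
  · exact hxy (mul_right_cancel (h7.trans hyy.symm))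
  · have := hq (x * y) (M.mul_mem hx hy) h6 h7
    rw [h5] at this
    exact hz1 this.symm

theorem qssqc_le_normalizer {H C : Subgroup G} (h : ∀ g ∈ H, ∀ c ∈ C, g * c * g⁻¹ ∈ C) :
    H ≤ Subgroup.normalizer (C : Set G) := by
  intro g hg
  rw [Subgroup.mem_normalizer_iff]
  intro c
  refine ⟨h g hg c, fun hc => ?_⟩
  have := h g⁻¹ (H.inv_mem hg) _ hc
  have e : g⁻¹ * (g * c * g⁻¹) * g⁻¹⁻¹ = c := by group
  rwa [e] at this

theorem qssqc_conj_mem {H C : Subgroup G} (h : H ≤ Subgroup.normalizer (C : Set G)) {g c : G}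
    (hg : g ∈ H) (hc : c ∈ C) : g * c * g⁻¹ ∈ C :=
  (Subgroup.mem_normalizer_iff.1 (h hg) c).1 hc

theorem qssqc_conj_centralizer {M : Subgroup G} {g c : G}
    (hg : g ∈ Subgroup.normalizer (M : Set G)) (hc : c ∈ Subgroup.centralizer (M : Set G)) :
    g * c * g⁻¹ ∈ Subgroup.centralizer (M : Set G) := by
  rw [Subgroup.mem_centralizer_iff] at hc ⊢
  intro m hm
  have hm' : g⁻¹ * m * g ∈ M := by
    have := (Subgroup.mem_normalizer_iff.1 (Subgroup.inv_mem _ hg) m).1 hm
    simpa using this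
  have h1 := hc _ hm'
  calc m * (g * c * g⁻¹) = g * ((g⁻¹ * m * g) * c) * g⁻¹ := by group
    _ = g * (c * (g⁻¹ * m * g)) * g⁻¹ := by rw [h1]
    _ = g * c * g⁻¹ * m := by group

theorem qssqc_sup_normalizer {H A B : Subgroup G} (hA : H ≤ Subgroup.normalizer (A : Set G))
    (hB : H ≤ Subgroup.normalizer (B : Set G)) :
    H ≤ Subgroup.normalizer ((A ⊔ B : Subgroup G) : Set G) := by
  apply qssqc_le_normalizer
  intro g hg c hc
  have hle : A ⊔ B ≤ (A ⊔ B).comap (MulAut.conj g).toMonoidHom := by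
    refine sup_le ?_ ?_
    · intro a ha
      simp only [Subgroup.mem_comap, MulEquiv.coe_toMonoidHom, MulAut.conj_apply]
      exact (le_sup_left : A ≤ A ⊔ B) (qssqc_conj_mem hA hg ha)
    · intro b hb
      simp only [Subgroup.mem_comap, MulEquiv.coe_toMonoidHom, MulAut.conj_apply]
      exact (le_sup_right : B ≤ A ⊔ B) (qssqc_conj_mem hB hg hb)
  have := hle hc
  simpa [Subgroup.mem_comap, MulAut.conj_apply] using this

/-- the set of products `a * b` (for elementwise commuting subgroups) as a subgroup -/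
def qssqc_prod (S₁ S₂ : Subgroup G) (hc : ∀ a ∈ S₁, ∀ b ∈ S₂, a * b = b * a) : Subgroup G where
  carrier := {g | ∃ a ∈ S₁, ∃ b ∈ S₂, g = a * b}
  mul_mem' := by
    rintro _ _ ⟨a, ha, b, hb, rfl⟩ ⟨a', ha', b', hb', rfl⟩
    refine ⟨a * a', S₁.mul_mem ha ha', b * b', S₂.mul_mem hb hb', ?_⟩
    have h := hc a' ha' b hb
    calc a * b * (a' * b') = a * (b * a') * b' := by group
      _ = a * (a' * b) * b' := by rw [h]
      _ = a * a' * (b * b') := by group
  one_mem' := ⟨1, S₁.one_mem, 1, S₂.one_mem, by simp⟩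
  inv_mem' := by
    rintro _ ⟨a, ha, b, hb, rfl⟩
    refine ⟨a⁻¹, S₁.inv_mem ha, b⁻¹, S₂.inv_mem hb, ?_⟩
    have h := hc a⁻¹ (S₁.inv_mem ha) b⁻¹ (S₂.inv_mem hb)
    rw [mul_inv_rev, h]

theorem qssqc_mem_sup {A B : Subgroup G} (hc : ∀ a ∈ A, ∀ b ∈ B, a * b = b * a) {g : G}
    (hg : g ∈ A ⊔ B) : ∃ a ∈ A, ∃ b ∈ B, g = a * b := by
  have h1 : A ≤ qssqc_prod A B hc := fun a ha => ⟨a, ha, 1, B.one_mem, by simp⟩
  have h2 : B ≤ qssqc_prod A B hc := fun b hb => ⟨1, A.one_mem, b, hb, by simp⟩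
  exact (sup_le h1 h2) hg

/-- an `H`-invariant subgroup `C` of index at most 2 in `D` contains `[D, H]` -/
theorem qssqc_comm_le [Finite G] {D H C : Subgroup G}
    (hND : H ≤ Subgroup.normalizer (D : Set G)) (hNC : H ≤ Subgroup.normalizer (C : Set G))
    (hidx : C.relIndex D ≤ 2) : ⁅D, H⁆ ≤ C := by
  have h0 : C.relIndex D ≠ 0 := Subgroup.index_ne_zero_of_finite (H := C.subgroupOf D)
  have h12 : C.relIndex D = 1 ∨ C.relIndex D = 2 := by omega
  rcases h12 with h1 | h2
  · exact (comm_le hND).trans (Subgroup.relIndex_eq_one.1 h1)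
  · rw [Subgroup.commutator_le]
    intro x hx h hh
    have hx' : h * x⁻¹ * h⁻¹ ∈ D := qssqc_conj_mem hND hh (D.inv_mem hx)
    have key := Subgroup.mul_mem_iff_of_index_two (H := C.subgroupOf D) h2
      (a := (⟨x, hx⟩ : D)) (b := (⟨h * x⁻¹ * h⁻¹, hx'⟩ : D))
    simp only [Subgroup.mem_subgroupOf, Subgroup.coe_mul] at key
    have e : ⁅x, h⁆ = x * (h * x⁻¹ * h⁻¹) := by rw [commutatorElement_def]; group
    rw [e]
    apply key.2
    constructor
    · intro hxC; exact qssqc_conj_mem hNC hh (C.inv_mem hxC)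
    · intro hc
      have := qssqc_conj_mem hNC (H.inv_mem hh) hc
      have e2 : h⁻¹ * (h * x⁻¹ * h⁻¹) * h⁻¹⁻¹ = x⁻¹ := by group
      rw [e2] at this
      simpa using C.inv_mem this

/-- the subgroup generated by the squares of `D` -/
def qssqc_sq (D : Subgroup G) : Subgroup G := Subgroup.closure {g | ∃ y ∈ D, g = y * y}

theorem qssqc_sq_mem {D : Subgroup G} {y : G} (hy : y ∈ D) : y * y ∈ qssqc_sq D :=
  Subgroup.subset_closure ⟨y, hy, rfl⟩

theorem qssqc_sq_le_of {D K : Subgroup G} (h : ∀ y ∈ D, y * y ∈ K) : qssqc_sq D ≤ K := by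
  unfold qssqc_sq
  rw [Subgroup.closure_le]
  rintro _ ⟨y, hy, rfl⟩
  exact h y hy

theorem qssqc_sq_conj {D : Subgroup G} {g m : G} (hg : g ∈ Subgroup.normalizer (D : Set G))
    (hm : m ∈ qssqc_sq D) : g * m * g⁻¹ ∈ qssqc_sq D := by
  have hle : qssqc_sq D ≤ (qssqc_sq D).comap (MulAut.conj g).toMonoidHom := by
    apply qssqc_sq_le_of
    intro y hy
    simp only [Subgroup.mem_comap, MulEquiv.coe_toMonoidHom, MulAut.conj_apply]
    have : g * (y * y) * g⁻¹ = (g * y * g⁻¹) * (g * y * g⁻¹) := by group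
    rw [this]
    exact qssqc_sq_mem ((Subgroup.mem_normalizer_iff.1 hg y).1 hy)
  have := hle hm
  simpa [Subgroup.mem_comap, MulAut.conj_apply] using this

/-- SQC: if `D = [D, H]` (`H` of odd order acting on the 2-group `D`) and every proper
`H`-invariant subgroup of `D` not centralized by `H` is a four-group or a quaternion group, then
the squares of `D` are central in `D`. -/
theorem comm_self_sq_central [Finite G] {D H : Subgroup G} (hD : IsPGroup 2 D)
    (hH : Odd (Nat.card H)) (hN : H ≤ Subgroup.normalizer (D : Set G)) (hDH : ⁅D, H⁆ = D)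
    (hIH : ∀ M : Subgroup G, M < D → H ≤ Subgroup.normalizer (M : Set G) →
      ¬ H ≤ Subgroup.centralizer (M : Set G) → IsV4 M ∨ IsQ8 M) :
    ∀ y ∈ D, ∀ x ∈ D, x * (y * y) = (y * y) * x := by
  classical
  have hMD : qssqc_sq D ≤ D := qssqc_sq_le_of (fun y hy => D.mul_mem hy hy)
  have hDnM : D ≤ Subgroup.normalizer ((qssqc_sq D : Subgroup G) : Set G) :=
    qssqc_le_normalizer (fun g hg m hm => qssqc_sq_conj (Subgroup.le_normalizer hg) hm)
  have hHnM : H ≤ Subgroup.normalizer ((qssqc_sq D : Subgroup G) : Set G) :=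
    qssqc_le_normalizer (fun g hg m hm => qssqc_sq_conj (hN hg) hm)
  suffices hcent : D ≤ Subgroup.centralizer ((qssqc_sq D : Subgroup G) : Set G) by
    intro y hy x hx
    exact (Subgroup.mem_centralizer_iff.1 (hcent hx) (y * y) (qssqc_sq_mem hy)).symm
  by_cases hD1 : D = ⊥
  · rw [hD1]; exact bot_le
  have hMlt : qssqc_sq D < D := by
    refine lt_of_le_of_ne hMD ?_
    intro hMeq
    obtain ⟨n, hn⟩ := hD.exists_card_eq
    have hn0 : n ≠ 0 := by
      rintro rfl
      exact hD1 (Subgroup.card_eq_one.1 (by simpa using hn))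
    obtain ⟨K, hK⟩ := Sylow.exists_subgroup_card_pow_prime 2 (G := D) (n := n - 1)
      (by rw [hn]; exact pow_dvd_pow 2 (Nat.sub_le n 1))
    have hKidx : K.index = 2 := by
      have h1 := K.card_mul_index
      rw [hK, hn] at h1
      have h2 : 2 ^ n = 2 ^ (n - 1) * 2 := by
        rw [← pow_succ]; congr 1; omega
      rw [h2] at h1
      exact Nat.eq_of_mul_eq_mul_left (by positivity) h1
    have hsqK : ∀ y ∈ D, y * y ∈ K.map D.subtype := by
      intro y hy
      have := Subgroup.sq_mem_of_index_two hKidx (⟨y, hy⟩ : D)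
      refine ⟨⟨y, hy⟩ ^ 2, this, ?_⟩
      simp [pow_two]
    have hMK : qssqc_sq D ≤ K.map D.subtype := qssqc_sq_le_of hsqK
    have hc1 : Nat.card (K.map D.subtype) = 2 ^ (n - 1) := by
      rw [Subgroup.card_map_of_injective D.subtype_injective]
      exact hK
    have hc2 : Nat.card (qssqc_sq D) ≤ Nat.card (K.map D.subtype) := Subgroup.card_le_of_le hMK
    rw [hMeq, hn, hc1] at hc2
    have : 2 ^ (n - 1) < 2 ^ n := Nat.pow_lt_pow_right (by norm_num) (by omega)
    omega
  by_cases hHc : H ≤ Subgroup.centralizer ((qssqc_sq D : Subgroup G) : Set G)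
  · have hHM : ⁅H, qssqc_sq D⁆ = ⊥ := Subgroup.commutator_eq_bot_iff_le_centralizer.2 hHc
    have h1 : ⁅⁅H, qssqc_sq D⁆, D⁆ = ⊥ := by
      rw [hHM]; exact Subgroup.commutator_bot_left D
    have h2 : ⁅⁅qssqc_sq D, D⁆, H⁆ = ⊥ := by
      have hle : ⁅qssqc_sq D, D⁆ ≤ qssqc_sq D := comm_le hDnM
      have hMH : ⁅qssqc_sq D, H⁆ = ⊥ := by
        rw [Subgroup.commutator_comm]; exact hHM
      exact le_bot_iff.1 (hMH ▸ Subgroup.commutator_mono hle le_rfl)
    have h3 : ⁅⁅D, H⁆, qssqc_sq D⁆ = ⊥ := Subgroup.commutator_commutator_eq_bot_of_rotate h1 h2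
    rw [hDH] at h3
    exact Subgroup.commutator_eq_bot_iff_le_centralizer.1 h3
  · have hHnC : H ≤ Subgroup.normalizer
        ((D ⊓ Subgroup.centralizer ((qssqc_sq D : Subgroup G) : Set G) : Subgroup G) : Set G) :=
      qssqc_le_normalizer (fun g hg c hc =>
        ⟨qssqc_conj_mem hN hg hc.1, qssqc_conj_centralizer (hHnM hg) hc.2⟩)
    rcases hIH (qssqc_sq D) hMlt hHnM hHc with hV | hQ
    · have hidx := v4_two_group_index hV hD hDnM
      have hC := qssqc_comm_le hN hHnC hidx
      rw [hDH] at hC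
      exact hC.trans inf_le_right
    · exfalso
      have hidx := q8_two_group_index hQ hD hMD hDnM
      have hC := qssqc_comm_le hN (qssqc_sup_normalizer hHnM hHnC) hidx
      rw [hDH] at hC
      have hcomm : ∀ a ∈ qssqc_sq D,
          ∀ b ∈ D ⊓ Subgroup.centralizer ((qssqc_sq D : Subgroup G) : Set G), a * b = b * a :=
        fun a ha b hb => Subgroup.mem_centralizer_iff.1 hb.2 a ha
      obtain ⟨hcard, z, hz, hz1, hq⟩ := hQ
      have hzc := qssqc_q8_central hq
      have hsqc : ∀ d ∈ D, d * d ∈ Subgroup.centralizer ((qssqc_sq D : Subgroup G) : Set G) := by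
        intro d hd
        obtain ⟨m, hm, c, hc, rfl⟩ := qssqc_mem_sup hcomm (hC hd)
        have e : (m * c) * (m * c) = (m * m) * (c * c) := by
          have := hcomm m hm c hc
          calc (m * c) * (m * c) = m * (c * m) * c := by group
            _ = m * (m * c) * c := by rw [this]
            _ = (m * m) * (c * c) := by group
        rw [e]
        refine Subgroup.mul_mem _ ?_ (Subgroup.mul_mem _ hc.2 hc.2)
        rw [Subgroup.mem_centralizer_iff]
        intro w hw
        have hwz := hzc w hw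
        by_cases h1 : m = 1
        · rw [h1]; simp
        by_cases h2 : m = z
        · rw [h2]
          calc w * (z * z) = (w * z) * z := by group
            _ = (z * w) * z := by rw [hwz]
            _ = z * (w * z) := by group
            _ = z * (z * w) := by rw [hwz]
            _ = (z * z) * w := by group
        · rw [hq m hm h1 h2]; exact hwz
      have hMM : qssqc_sq D ≤ Subgroup.centralizer ((qssqc_sq D : Subgroup G) : Set G) :=
        qssqc_sq_le_of hsqc
      exact qssqc_q8_nonabelian ⟨hcard, z, hz, hz1, hq⟩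
        (fun a ha b hb => Subgroup.mem_centralizer_iff.1 (hMM hb) a ha)

end Cfsg.Agent.Lib.Helper73.QS
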