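import Mathlib
import Cfsg.Agent.Lib.Helper73.QSDefs
import Cfsg.Agent.Lib.Helper73.QSSm1
import Cfsg.Agent.Lib.Helper73.QSSm2a
import Cfsg.Agent.Lib.Helper73.QSSm2b
import Cfsg.Agent.Lib.Helper73.QSOddCyc
import Cfsg.Agent.Lib.Helper73.QSSqc

/-!
# Project QS (S4409, architect helper73): piece FIN (filled by helper64)

A small nontrivial 2-group `D = [D, H]` with central squares is a four-group or a quaternion
group of order 8.
-/

set_option autoImplicit false

namespace Cfsg.Agent.Lib.Helper73.QS

open scoped commutatorElement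

variable {G : Type*} [Group G]

theorem qsfin_mem_zpowers_four {s w : G} (h4 : s ^ 4 = 1) (hw : w ∈ Subgroup.zpowers s) :
    w = 1 ∨ w = s ∨ w = s * s ∨ w = s⁻¹ := by
  obtain ⟨k, rfl⟩ := Subgroup.mem_zpowers_iff.1 hw
  have h4' : s ^ (4 : ℤ) = 1 := by
    have : s ^ ((4 : ℕ) : ℤ) = 1 := by rw [zpow_natCast]; exact h4
    exact this
  have hk : s ^ k = s ^ (k % 4) := by
    conv_lhs => rw [← Int.mul_ediv_add_emod k 4]
    rw [zpow_add, zpow_mul, h4', one_zpow, one_mul]
  have h0 : 0 ≤ k % 4 := Int.emod_nonneg k (by norm_num)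
  have h3 : k % 4 < 4 := Int.emod_lt_of_pos k (by norm_num)
  rw [hk]
  generalize k % 4 = r at h0 h3
  interval_cases r
  · left; simp
  · right; left; simp
  · right; right; left
    exact zpow_two s
  · right; right; right
    apply eq_inv_of_mul_eq_one_left
    have : s ^ (3 : ℤ) * s = s ^ (4 : ℤ) := by
      rw [show (4 : ℤ) = 3 + 1 from rfl, zpow_add, zpow_one]
    rw [this, h4']

/-- FIN: a small nontrivial 2-group `D = [D, H]` with central squares is a four-group or a
quaternion group of order 8. -/
theorem comm_self_small [Finite G] {D H : Subgroup G} (hD : IsPGroup 2 D)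
    (hH : Odd (Nat.card H)) (hN : H ≤ Subgroup.normalizer (D : Set G)) (hDH : ⁅D, H⁆ = D)
    (hD1 : D ≠ ⊥) (hs : Small D)
    (hsq : ∀ y ∈ D, ∀ x ∈ D, x * (y * y) = (y * y) * x) : IsV4 D ∨ IsQ8 D := by
  classical
  have hncent : ¬ H ≤ Subgroup.centralizer (D : Set G) := by
    intro hc
    have h1 : ⁅D, H⁆ = ⊥ := by
      rw [Subgroup.commutator_comm]
      exact Subgroup.commutator_eq_bot_iff_le_centralizer.2 hc
    rw [hDH] at h1
    exact hD1 h1
  have hncyc : ¬ IsCyclic D := fun hcyc => hncent (odd_centralizes_cyclic hD hcyc hH hN)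
  by_cases hab : ∀ a ∈ D, ∀ b ∈ D, a * b = b * a
  · left
    rcases small_abelian hD hs hab with hcyc | hle
    · exact absurd hcyc hncyc
    · obtain ⟨n, hn⟩ := hD.exists_card_eq
      have hn2 : n ≤ 2 := by
        by_contra hcon
        have : 2 ^ 3 ≤ 2 ^ n := Nat.pow_le_pow_right (by norm_num) (by omega)
        omega
      have hcard : Nat.card D = 4 := by
        interval_cases n
        · exfalso; exact hD1 (Subgroup.card_eq_one.1 (by simpa using hn))
        · exfalso
          have : Fact (Nat.Prime 2) := ⟨Nat.prime_two⟩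
          exact hncyc (isCyclic_of_prime_card (p := 2) (by simpa using hn))
        · simpa using hn
      refine ⟨hcard, fun y hy => ?_⟩
      by_contra hyy
      apply hncyc
      have h4 : (⟨y, hy⟩ : D) ^ 4 = 1 := by rw [← hcard]; exact pow_card_eq_one'
      have h2 : ¬ (⟨y, hy⟩ : D) ^ 2 = 1 := by
        intro h
        apply hyy
        have := congrArg Subtype.val h
        simpa [pow_two] using this
      have hord : orderOf (⟨y, hy⟩ : D) = 4 :=
        orderOf_eq_prime_pow (p := 2) (n := 1) (by simpa using h2) (by simpa using h4)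
      exact isCyclic_of_orderOf_eq_card _ (by rw [hord, hcard])
  · right
    obtain ⟨z, hz, hz1, hzz, hzc, hZ⟩ := small_class2_center hD hs hab hsq
    have hcard : Nat.card D = 8 := small_class2_card hD hs hab hsq z hz hz1 hzz hzc hZ
    have hsq2 : ∀ y ∈ D, y * y = 1 ∨ y * y = z := fun y hy =>
      hZ (y * y) (D.mul_mem hy hy) (fun x hx => hsq y hy x hx)
    refine ⟨hcard, z, hz, hz1, ?_⟩
    by_contra hcon
    have hex_t : ∃ t ∈ D, t ≠ 1 ∧ t ≠ z ∧ t * t = 1 := by
      by_contra hno
      apply hcon
      intro y hy hy1 hyz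
      rcases hsq2 y hy with h | h
      · exact absurd ⟨y, hy, hy1, hyz, h⟩ hno
      · exact h
    obtain ⟨t, ht, ht1, htz, htt⟩ := hex_t
    have hex_s : ∃ s ∈ D, s * s = z := by
      by_contra hno
      apply hab
      have hexp : ∀ y ∈ D, y * y = 1 := fun y hy => by
        rcases hsq2 y hy with h | h
        · exact h
        · exact absurd ⟨y, hy, h⟩ hno
      intro a ha b hb
      have h1 := hexp (a * b) (D.mul_mem ha hb)
      have h2 := hexp a ha
      have h3 := hexp b hb
      symm
      calc b * a = (a * a) * (b * a) * (b * b) := by rw [h2, h3]; group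
        _ = a * ((a * b) * (a * b)) * b := by group
        _ = a * b := by rw [h1]; group
    obtain ⟨s, hs', hss⟩ := hex_s
    have hs4 : s ^ 4 = 1 := by
      calc s ^ 4 = (s * s) * (s * s) := by
            rw [show (4 : ℕ) = 2 + 2 from rfl, pow_add, pow_two]
        _ = 1 := by rw [hss, hzz]
    have hs2 : ¬ s ^ 2 = 1 := by rw [pow_two, hss]; exact hz1
    have hord : orderOf s = 4 :=
      orderOf_eq_prime_pow (p := 2) (n := 1) (by simpa using hs2) (by simpa using hs4)
    have hSD : Subgroup.zpowers s ≤ D := Subgroup.zpowers_le.2 hs'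
    have hScard : Nat.card (Subgroup.zpowers s) = 4 := by rw [← hord]; exact Nat.card_zpowers s
    have hidx : (Subgroup.zpowers s).relIndex D = 2 := by
      have h1 : Nat.card ((Subgroup.zpowers s).subgroupOf D) *
          ((Subgroup.zpowers s).subgroupOf D).index = Nat.card D := Subgroup.card_mul_index _
      have h2 : Nat.card ((Subgroup.zpowers s).subgroupOf D) = Nat.card (Subgroup.zpowers s) :=
        Nat.card_congr (Subgroup.subgroupOfEquivOfLe hSD).toEquiv
      rw [h2, hScard, hcard] at h1
      show ((Subgroup.zpowers s).subgroupOf D).index = 2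
      omega
    have hSelts : ∀ w ∈ Subgroup.zpowers s, w = 1 ∨ w = s ∨ w = z ∨ w = s⁻¹ := fun w hw => by
      have := qsfin_mem_zpowers_four hs4 hw
      rwa [hss] at this
    have hsS : s ∈ Subgroup.zpowers s := Subgroup.mem_zpowers s
    have htS : t ∉ Subgroup.zpowers s := by
      intro h
      rcases hSelts t h with h | h | h | h
      · exact ht1 h
      · rw [h, hss] at htt; exact hz1 htt
      · exact htz h
      · rw [h] at htt
        have h1 : (s * s)⁻¹ = 1 := by rw [mul_inv_rev]; exact htt
        rw [hss, inv_eq_one] at h1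
        exact hz1 h1
    have hrule : ∀ a ∈ D, ∀ b ∈ D,
        (a * b ∈ Subgroup.zpowers s ↔ (a ∈ Subgroup.zpowers s ↔ b ∈ Subgroup.zpowers s)) := by
      intro a ha b hb
      have key := Subgroup.mul_mem_iff_of_index_two (H := (Subgroup.zpowers s).subgroupOf D) hidx
        (a := (⟨a, ha⟩ : D)) (b := (⟨b, hb⟩ : D))
      simpa only [Subgroup.mem_subgroupOf, Subgroup.coe_mul] using key
    have htinv : t⁻¹ = t := inv_eq_of_mul_eq_one_left htt
    have hconjS : t * s * t⁻¹ ∈ Subgroup.zpowers s := by
      rw [hrule (t * s) (D.mul_mem ht hs') t⁻¹ (D.inv_mem ht), hrule t ht s hs']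
      constructor
      · intro h; exact absurd (h.2 hsS) htS
      · intro h; rw [htinv] at h; exact absurd h htS
    have hsnc : t * s * t⁻¹ ≠ s := by
      intro hcomm
      have hts : t * s = s * t := by
        calc t * s = (t * s * t⁻¹) * t := by group
          _ = s * t := by rw [hcomm]
      have hscent : ∀ x ∈ D, x * s = s * x := by
        intro x hx
        by_cases hxS : x ∈ Subgroup.zpowers s
        · obtain ⟨k, rfl⟩ := Subgroup.mem_zpowers_iff.1 hxS
          exact (Commute.zpow_left (Commute.refl s) k).eq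
        · have h1 : t * x ∈ Subgroup.zpowers s :=
            (hrule t ht x hx).2 ⟨fun h => absurd h htS, fun h => absurd h hxS⟩
          obtain ⟨k, hk⟩ := Subgroup.mem_zpowers_iff.1 h1
          have h2 : (t * x) * s = s * (t * x) := by
            rw [← hk]; exact (Commute.zpow_left (Commute.refl s) k).eq
          calc x * s = t⁻¹ * ((t * x) * s) := by group
            _ = t⁻¹ * (s * (t * x)) := by rw [h2]
            _ = t⁻¹ * (s * t) * x := by group
            _ = t⁻¹ * (t * s) * x := by rw [hts]
            _ = s * x := by group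
      rcases hZ s hs' hscent with h | h
      · rw [h, one_mul] at hss; exact hz1 hss.symm
      · rw [h, hzz] at hss; exact hz1 hss.symm
    have hconj : t * s * t⁻¹ = s⁻¹ := by
      rcases hSelts _ hconjS with h | h | h | h
      · exfalso
        have h1 : s = 1 := by
          calc s = t⁻¹ * (t * s * t⁻¹) * t := by group
            _ = 1 := by rw [h]; group
        rw [h1, one_mul] at hss
        exact hz1 hss.symm
      · exact absurd h hsnc
      · exfalso
        have h1 : (t * s * t⁻¹) * (t * s * t⁻¹) = t * (s * s) * t⁻¹ := by group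
        rw [h, hzz, hss] at h1
        have h2 : z = 1 := by
          calc z = t⁻¹ * (t * z * t⁻¹) * t := by group
            _ = 1 := by rw [← h1]; group
        exact hz1 h2
      · exact h
    have hinvol : ∀ y ∈ D, y ∉ Subgroup.zpowers s → y * y = 1 := by
      intro y hy hyS
      have h1 : t * y ∈ Subgroup.zpowers s :=
        (hrule t ht y hy).2 ⟨fun h => absurd h htS, fun h => absurd h hyS⟩
      obtain ⟨k, hk⟩ := Subgroup.mem_zpowers_iff.1 h1
      have h2 : t * (s ^ k) * t⁻¹ = (s ^ k)⁻¹ := by
        rw [← conj_zpow, hconj, inv_zpow]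
      have hy' : y = t * s ^ k := by
        rw [hk, ← mul_assoc, htt, one_mul]
      calc y * y = (t * s ^ k * t⁻¹) * (t * t) * s ^ k := by rw [hy']; group
        _ = 1 := by rw [h2, htt]; group
    have hHz : ∀ h ∈ H, h * z * h⁻¹ = z := by
      intro h hh
      have hzD : h * z * h⁻¹ ∈ D := qssqc_conj_mem hN hh hz
      have hcen : ∀ x ∈ D, x * (h * z * h⁻¹) = (h * z * h⁻¹) * x := by
        intro x hx
        have hx' : h⁻¹ * x * h ∈ D := by
          have := qssqc_conj_mem hN (H.inv_mem hh) hx
          simpa using this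
        have h1 := hzc _ hx'
        calc x * (h * z * h⁻¹) = h * ((h⁻¹ * x * h) * z) * h⁻¹ := by group
          _ = h * (z * (h⁻¹ * x * h)) * h⁻¹ := by rw [h1]
          _ = (h * z * h⁻¹) * x := by group
      rcases hZ _ hzD hcen with h1 | h1
      · exfalso
        apply hz1
        calc z = h⁻¹ * (h * z * h⁻¹) * h := by group
          _ = 1 := by rw [h1]; group
      · exact h1
    have hHS : H ≤ Subgroup.normalizer ((Subgroup.zpowers s : Subgroup G) : Set G) := by
      apply qssqc_le_normalizer
      intro h hh w hw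
      obtain ⟨k, rfl⟩ := Subgroup.mem_zpowers_iff.1 hw
      have h1 : h * s * h⁻¹ ∈ Subgroup.zpowers s := by
        by_contra hnot
        have hD' : h * s * h⁻¹ ∈ D := qssqc_conj_mem hN hh hs'
        have h2 := hinvol _ hD' hnot
        have h3 : (h * s * h⁻¹) * (h * s * h⁻¹) = h * (s * s) * h⁻¹ := by group
        rw [h3, hss, hHz h hh] at h2
        exact hz1 h2
      rw [← conj_zpow]
      exact Subgroup.zpow_mem _ h1 k
    have hle : ⁅D, H⁆ ≤ Subgroup.zpowers s := qssqc_comm_le hN hHS (le_of_eq hidx)
    rw [hDH] at hle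
    have := Subgroup.card_le_of_le hle
    omega

end Cfsg.Agent.Lib.Helper73.QS
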