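import Mathlib
import Cfsg.Agent.Lib.Helper73.QSDefs
import Cfsg.Agent.Lib.Helper73.QSBasic
import Cfsg.Agent.Lib.Helper73.QSSqc
import Cfsg.Agent.Lib.Helper73.QSFin
import Cfsg.Agent.Lib.Helper73.QSEqc
import Cfsg.Agent.Lib.Helper18.TLCop

/-!
# Project QS (S4409, architect helper73): piece ACT

Filled by helper23: strong induction on the order of `Y`, from the pieces SQC, FIN, EQC.
Paper proof: note 1946.
-/

set_option autoImplicit false

namespace Cfsg.Agent.Lib.Helper73.QS

variable {G : Type*} [Group G]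

/-- ACT (key lemma): a small 2-group admitting a nontrivial action of a group of odd order
is a four-group or a quaternion group of order 8. -/
theorem small_act [Finite G] {Y H : Subgroup G} (hY : IsPGroup 2 Y) (hH : Odd (Nat.card H))
    (hN : H ≤ Subgroup.normalizer (Y : Set G)) (hs : Small Y)
    (hnc : ¬ H ≤ Subgroup.centralizer (Y : Set G)) : IsV4 Y ∨ IsQ8 Y := by
  have key : ∀ n : ℕ, ∀ Y : Subgroup G, Nat.card Y = n → IsPGroup 2 Y →
      H ≤ Subgroup.normalizer (Y : Set G) → Small Y →
      ¬ H ≤ Subgroup.centralizer (Y : Set G) → IsV4 Y ∨ IsQ8 Y := by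
    intro n
    induction n using Nat.strong_induction_on with
    | _ n ih =>
      intro Y hn hY hN hs hnc
      have hDY : ⁅Y, H⁆ ≤ Y := comm_le hN
      have hD1 : ⁅Y, H⁆ ≠ ⊥ := fun h =>
        hnc (Cfsg.Agent.Lib.Helper18.TL.cop_le_centralizer_of_comm_bot h)
      have hDH : ⁅⁅Y, H⁆, H⁆ = ⁅Y, H⁆ := Cfsg.Agent.Lib.Helper18.TL.cop_comm_eq hY hH hN
      have hND : H ≤ Subgroup.normalizer ((⁅Y, H⁆ : Subgroup G) : Set G) :=
        right_le_normalizer_comm Y H
      have hD : IsPGroup 2 ↥⁅Y, H⁆ := hY.to_le hDY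
      have hsD : Small ⁅Y, H⁆ := hs.mono hDY
      have hIH : ∀ M : Subgroup G, M < ⁅Y, H⁆ → H ≤ Subgroup.normalizer (M : Set G) →
          ¬ H ≤ Subgroup.centralizer (M : Set G) → IsV4 M ∨ IsQ8 M := by
        intro M hM hNM hcM
        have hlt : Nat.card M < n := by
          rw [← hn]
          refine lt_of_lt_of_le ?_ (Subgroup.card_le_of_le hDY)
          by_contra hge
          rw [not_lt] at hge
          exact (ne_of_lt hM) (Subgroup.eq_of_le_of_card_ge hM.le hge)
        exact ih (Nat.card M) hlt M rfl (hD.to_le hM.le) hNM (hsD.mono hM.le) hcM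
      have hsq := comm_self_sq_central hD hH hND hDH hIH
      have hfin := comm_self_small hD hH hND hDH hD1 hsD hsq
      have heq := small_eq_comm hY hH hN hs hfin
      rw [heq] at hfin
      exact hfin
  exact key _ Y rfl hY hN hs hnc

end Cfsg.Agent.Lib.Helper73.QS
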