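import Mathlib
import Cfsg.Agent.Lib.Helper73.QSDefs

/-!
# Project QS (S4409, architect helper73): piece NORM (proof by helper52)

Paper proof: note 1946.
-/

set_option autoImplicit false

namespace Cfsg.Agent.Lib.Helper73.QS

open scoped commutatorElement

variable {G : Type*} [Group G]

/-- conjugation by an element of `H` on the `H`-invariant subgroup `X` -/
def qsnorm_conj {X H : Subgroup G} (hN : H ≤ Subgroup.normalizer (X : Set G)) (h : H) :
    ↥X →* ↥X where
  toFun x := ⟨(h : G) * x * (h : G)⁻¹, (Subgroup.mem_normalizer_iff.1 (hN h.2) x).1 x.2⟩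
  map_one' := Subtype.ext (by simp)
  map_mul' a b := Subtype.ext (by
    show (h : G) * ((a : G) * (b : G)) * (h : G)⁻¹ =
      (h : G) * (a : G) * (h : G)⁻¹ * ((h : G) * (b : G) * (h : G)⁻¹)
    group)

theorem qsnorm_conj_coe {X H : Subgroup G} (hN : H ≤ Subgroup.normalizer (X : Set G)) (h : H)
    (x : X) : ((qsnorm_conj hN h x : X) : G) = (h : G) * x * (h : G)⁻¹ := rfl

theorem qsnorm_conj_mul {X H : Subgroup G} (hN : H ≤ Subgroup.normalizer (X : Set G)) (h k : H)
    (x : X) : qsnorm_conj hN h (qsnorm_conj hN k x) = qsnorm_conj hN (h * k) x := by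
  apply Subtype.ext
  rw [qsnorm_conj_coe, qsnorm_conj_coe, qsnorm_conj_coe]
  show (h : G) * ((k : G) * (x : G) * (k : G)⁻¹) * (h : G)⁻¹ =
    ((h : G) * (k : G)) * (x : G) * ((h : G) * (k : G))⁻¹
  group

/-- `N` is normal in `X` when it contains the derived subgroup -/
theorem qsnorm_normal {X N : Subgroup G} (hXN : ⁅X, X⁆ ≤ N) : (N.subgroupOf X).Normal := by
  constructor
  intro n hn x
  rw [Subgroup.mem_subgroupOf] at hn ⊢
  have h1 : ((x * n * x⁻¹ : X) : G) = ⁅(x : G), (n : G)⁆ * (n : G) := by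
    rw [commutatorElement_def]
    show (x : G) * (n : G) * (x : G)⁻¹ = (x : G) * (n : G) * (x : G)⁻¹ * (n : G)⁻¹ * (n : G)
    group
  rw [h1]
  exact N.mul_mem (hXN (Subgroup.commutator_mem_commutator x.2 n.2)) hn

/-- the quotient by a subgroup containing the derived subgroup is commutative -/
theorem qsnorm_comm {X N : Subgroup G} (hXN : ⁅X, X⁆ ≤ N) [(N.subgroupOf X).Normal]
    (a b : ↥X ⧸ N.subgroupOf X) : a * b = b * a := by
  induction a using QuotientGroup.induction_on with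
  | _ a =>
    induction b using QuotientGroup.induction_on with
    | _ b =>
      rw [← QuotientGroup.mk_mul, ← QuotientGroup.mk_mul, QuotientGroup.eq,
        Subgroup.mem_subgroupOf]
      have h1 : (((a * b)⁻¹ * (b * a) : X) : G) = ⁅(b : G)⁻¹, (a : G)⁻¹⁆ := by
        rw [commutatorElement_def]
        show ((a : G) * (b : G))⁻¹ * ((b : G) * (a : G)) =
          (b : G)⁻¹ * (a : G)⁻¹ * (b : G)⁻¹⁻¹ * (a : G)⁻¹⁻¹
        group
      rw [h1]
      exact hXN (Subgroup.commutator_mem_commutator (inv_mem b.2) (inv_mem a.2))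

/-- NORM: coprime action, norm map: if `X = [X, H]`, `N ≥ [X, X]` is `H`-invariant and
`z ∈ X` is fixed by `H` modulo `N`, then `z ∈ N`. -/
theorem norm_map_lemma [Finite G] {X H N : Subgroup G} (hX : IsPGroup 2 X)
    (hH : Odd (Nat.card H)) (hN : H ≤ Subgroup.normalizer (X : Set G)) (hfull : ⁅X, H⁆ = X)
    (hNX : N ≤ X) (hNH : H ≤ Subgroup.normalizer (N : Set G)) (hXN : ⁅X, X⁆ ≤ N)
    (z : G) (hz : z ∈ X) (hzH : ∀ h ∈ H, h * z * h⁻¹ * z⁻¹ ∈ N) : z ∈ N := by
  classical
  haveI : Fintype H := Fintype.ofFinite H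
  haveI hNn : (N.subgroupOf X).Normal := qsnorm_normal hXN
  letI : CommGroup (↥X ⧸ N.subgroupOf X) :=
    { (inferInstance : Group (↥X ⧸ N.subgroupOf X)) with mul_comm := qsnorm_comm hXN }
  -- the norm map
  let T : ↥X →* ↥X ⧸ N.subgroupOf X := MonoidHom.mk'
    (fun x => ∏ h : H, (QuotientGroup.mk (qsnorm_conj hN h x) : ↥X ⧸ N.subgroupOf X))
    (by
      intro a b
      rw [← Finset.prod_mul_distrib]
      apply Finset.prod_congr rfl
      intro h _
      rw [map_mul, QuotientGroup.mk_mul])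
  have hT : ∀ x : X, T x = ∏ h : H, (QuotientGroup.mk (qsnorm_conj hN h x) : ↥X ⧸ N.subgroupOf X) :=
    fun x => rfl
  -- invariance
  have hinv : ∀ (k : H) (x : X), T (qsnorm_conj hN k x) = T x := by
    intro k x
    rw [hT, hT]
    apply Fintype.prod_equiv (Equiv.mulRight k)
    intro h
    rw [qsnorm_conj_mul]
    rfl
  -- T kills commutators
  have hker : ⁅X, H⁆ ≤ T.ker.map X.subtype := by
    rw [Subgroup.commutator_le]
    intro x hx k hk
    rw [Subgroup.mem_map]
    refine ⟨⟨x, hx⟩ * (qsnorm_conj hN ⟨k, hk⟩ ⟨x, hx⟩)⁻¹, ?_, ?_⟩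
    · rw [MonoidHom.mem_ker, map_mul, map_inv, hinv, mul_inv_cancel]
    · rw [commutatorElement_def]
      show x * (k * x * k⁻¹)⁻¹ = x * k * x⁻¹ * k⁻¹
      group
  have hzker : T ⟨z, hz⟩ = 1 := by
    have h1 : z ∈ T.ker.map X.subtype := hker (by rw [hfull]; exact hz)
    rw [Subgroup.mem_map] at h1
    obtain ⟨y, hy, hyz⟩ := h1
    have : y = ⟨z, hz⟩ := Subtype.ext hyz
    rw [← this]
    exact hy
  -- T z = z ^ |H|
  have hTz : T ⟨z, hz⟩ = (QuotientGroup.mk (⟨z, hz⟩ ^ Fintype.card H : X) : ↥X ⧸ N.subgroupOf X) := by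
    rw [hT, QuotientGroup.mk_pow, ← Finset.card_univ, ← Finset.prod_const]
    apply Finset.prod_congr rfl
    intro h _
    rw [QuotientGroup.eq_iff_div_mem, Subgroup.mem_subgroupOf]
    show (h : G) * z * (h : G)⁻¹ / z ∈ N
    rw [div_eq_mul_inv]
    exact hzH h h.2
  rw [hTz, QuotientGroup.eq_one_iff, Subgroup.mem_subgroupOf] at hzker
  have hzpow : z ^ Fintype.card H ∈ N := hzker
  -- orders
  obtain ⟨k, hk⟩ := hX ⟨z, hz⟩
  have hk' : z ^ 2 ^ k = 1 := by
    have := congrArg Subtype.val hk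
    exact this
  have hcop : (Fintype.card H).Coprime (orderOf z) := by
    have hd : orderOf z ∣ 2 ^ k := orderOf_dvd_of_pow_eq_one hk'
    have hodd : Odd (Fintype.card H) := by rw [← Nat.card_eq_fintype_card]; exact hH
    have h2 : (Fintype.card H).Coprime (2 ^ k) :=
      Nat.Coprime.pow_right k (Nat.coprime_comm.1 (Nat.coprime_two_left.2 hodd))
    exact Nat.Coprime.coprime_dvd_right hd h2
  obtain ⟨m, hm⟩ := exists_pow_eq_self_of_coprime hcop
  rw [← hm]
  exact N.pow_mem hzpow m
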