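import Mathlib
import Cfsg.Agent.Lib.Helper73.QSDefs
import Cfsg.Agent.Lib.Helper73.QSBasic
import Cfsg.Agent.Lib.Helper73.QSSm1
import Cfsg.Agent.Lib.Helper73.QSOddCyc
import Cfsg.Agent.Lib.Helper73.QSVB
import Cfsg.Agent.Lib.Helper73.QSNorm

/-!
# Project QS (S4409, architect helper73): piece CENT

Proof of `full_center` (filled in by helper75; paper proof: note 1946, section CENT).
-/

set_option autoImplicit false

namespace Cfsg.Agent.Lib.Helper73.QS

open scoped commutatorElement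

variable {G : Type*} [Group G]

theorem qscent_le_normalizer {H N : Subgroup G} (h : ∀ g ∈ H, ∀ n ∈ N, g * n * g⁻¹ ∈ N) :
    H ≤ Subgroup.normalizer (N : Set G) := by
  intro g hg
  rw [Subgroup.mem_normalizer_iff]
  intro n
  refine ⟨h g hg n, fun hn => ?_⟩
  have := h g⁻¹ (H.inv_mem hg) _ hn
  have e : g⁻¹ * (g * n * g⁻¹) * g⁻¹⁻¹ = n := by group
  rwa [e] at this

/-- CENT: `X = [X, H]` nonabelian with central squares, all proper `H`-invariant subgroups
small: then `[X, X] = Z(X)` and `|Z(X)|` is 2 or 4. -/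
theorem full_center [Finite G] {X H : Subgroup G} (hX : IsPGroup 2 X) (hH : Odd (Nat.card H))
    (hN : H ≤ Subgroup.normalizer (X : Set G))
    (hmin : ∀ R : Subgroup G, R < X → H ≤ Subgroup.normalizer (R : Set G) → Small R)
    (hfull : ⁅X, H⁆ = X) (hna : ¬ ∀ a ∈ X, ∀ b ∈ X, a * b = b * a)
    (hsq : ∀ y ∈ X, ∀ x ∈ X, x * (y * y) = (y * y) * x) :
    ⁅X, X⁆ = X ⊓ Subgroup.centralizer (X : Set G) ∧
    (Nat.card ↥(X ⊓ Subgroup.centralizer (X : Set G)) = 2 ∨
      Nat.card ↥(X ⊓ Subgroup.centralizer (X : Set G)) = 4) := by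
  classical
  obtain ⟨Z, hZdef⟩ : ∃ Z : Subgroup G, Z = X ⊓ Subgroup.centralizer (X : Set G) := ⟨_, rfl⟩
  rw [← hZdef]
  have hZX : Z ≤ X := by rw [hZdef]; exact inf_le_left
  have hZcent : ∀ z ∈ Z, ∀ x ∈ X, x * z = z * x := by
    intro z hz x hx
    rw [hZdef] at hz
    exact Subgroup.mem_centralizer_iff.mp hz.2 x hx
  have hmemZ : ∀ z, z ∈ X → (∀ x ∈ X, x * z = z * x) → z ∈ Z := by
    intro z hz hc
    rw [hZdef]
    exact ⟨hz, Subgroup.mem_centralizer_iff.mpr hc⟩
  have hZlt : Z < X := by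
    refine lt_of_le_of_ne hZX ?_
    intro h
    apply hna
    intro a ha b hb
    have hb' : b ∈ Z := by rw [h]; exact hb
    exact hZcent b hb' a ha
  have hconjX : ∀ h ∈ H, ∀ x ∈ X, h * x * h⁻¹ ∈ X := by
    intro h hh x hx
    exact (Subgroup.mem_normalizer_iff.mp (hN hh) x).mp hx
  have hHZ : H ≤ Subgroup.normalizer (Z : Set G) := by
    apply qscent_le_normalizer
    intro h hh z hz
    refine hmemZ _ (hconjX h hh z (hZX hz)) ?_
    intro x hx
    have hx' : h⁻¹ * x * h ∈ X := by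
      have := hconjX h⁻¹ (H.inv_mem hh) x hx
      rwa [inv_inv] at this
    have hc := hZcent z hz _ hx'
    calc x * (h * z * h⁻¹) = h * ((h⁻¹ * x * h) * z) * h⁻¹ := by group
      _ = h * (z * (h⁻¹ * x * h)) * h⁻¹ := by rw [hc]
      _ = h * z * h⁻¹ * x := by group
  have hZsmall : Small Z := hmin Z hZlt hHZ
  have hsqZ : ∀ y ∈ X, y * y ∈ Z := fun y hy =>
    hmemZ _ (X.mul_mem hy hy) (fun x hx => hsq y hy x hx)
  have hcommZ : ⁅X, X⁆ ≤ Z := by
    rw [Subgroup.commutator_le]
    intro x hx y hy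
    have e : ⁅x, y⁆ = (x * y) * (x * y) * (y⁻¹ * y⁻¹) * (x⁻¹ * x⁻¹) := by
      have h1 := hsq x⁻¹ (X.inv_mem hx) y⁻¹ (X.inv_mem hy)
      rw [commutatorElement_def]
      calc x * y * x⁻¹ * y⁻¹ = x * y * x * ((x⁻¹ * x⁻¹) * y⁻¹) := by group
        _ = x * y * x * (y⁻¹ * (x⁻¹ * x⁻¹)) := by rw [h1]
        _ = _ := by group
    rw [e]
    exact Z.mul_mem (Z.mul_mem (hsqZ _ (X.mul_mem hx hy)) (hsqZ _ (X.inv_mem hy)))
      (hsqZ _ (X.inv_mem hx))
  have hcomm_ne : (⁅X, X⁆ : Subgroup G) ≠ ⊥ := by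
    intro h
    apply hna
    intro a ha b hb
    have h1 : ⁅a, b⁆ ∈ (⊥ : Subgroup G) := h ▸ Subgroup.commutator_mem_commutator ha hb
    rw [Subgroup.mem_bot, commutatorElement_eq_one_iff_mul_comm] at h1
    exact h1
  have hZne : Z ≠ ⊥ := fun h => hcomm_ne (le_bot_iff.mp (h ▸ hcommZ))
  have hZ2 : IsPGroup 2 ↥Z := hX.to_le hZX
  have hZc : ∀ a ∈ Z, ∀ b ∈ Z, a * b = b * a := fun a ha b hb => hZcent b hb a (hZX ha)
  have hSM := small_abelian hZ2 hZsmall hZc
  have hHC : ∀ h ∈ H, ∀ d ∈ (⁅X, X⁆ : Subgroup G), h * d * h⁻¹ ∈ (⁅X, X⁆ : Subgroup G) := by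
    intro h hh
    apply conj_comm_mem
    intro y hy x hx
    have e : h * ⁅y, x⁆ * h⁻¹ = ⁅h * y * h⁻¹, h * x * h⁻¹⁆ := by
      simp only [commutatorElement_def]; group
    rw [e]
    exact Subgroup.commutator_mem_commutator (hconjX h hh y hy) (hconjX h hh x hx)
  obtain ⟨n, hn⟩ := IsPGroup.iff_card.mp hZ2
  have hn0 : n ≠ 0 := by
    rintro rfl
    rw [pow_zero] at hn
    exact hZne (Subgroup.card_eq_one.mp hn)
  by_cases hcz : H ≤ Subgroup.centralizer (Z : Set G)
  · have hZle : Z ≤ ⁅X, X⁆ := by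
      intro z hz
      refine norm_map_lemma hX hH hN hfull (hcommZ.trans hZX) (qscent_le_normalizer hHC) le_rfl z
        (hZX hz) ?_
      intro h hh
      have h1 : z * h = h * z := Subgroup.mem_centralizer_iff.mp (hcz hh) z hz
      have e : h * z * h⁻¹ * z⁻¹ = 1 := by
        rw [← h1]; group
      rw [e]; exact Subgroup.one_mem _
    have hEq : ⁅X, X⁆ = Z := le_antisymm hcommZ hZle
    refine ⟨hEq, ?_⟩
    have hexp : ∀ z ∈ Z, z * z = 1 := by
      let K : Subgroup G :=
        { carrier := {z | z ∈ Z ∧ z * z = 1}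
          mul_mem' := by
            rintro a b ⟨ha, ha2⟩ ⟨hb, hb2⟩
            refine ⟨Z.mul_mem ha hb, ?_⟩
            have hc := hZc a ha b hb
            calc a * b * (a * b) = a * (b * a) * b := by group
              _ = a * (a * b) * b := by rw [hc]
              _ = (a * a) * (b * b) := by group
              _ = 1 := by rw [ha2, hb2, one_mul]
          one_mem' := ⟨Z.one_mem, by simp⟩
          inv_mem' := by
            rintro a ⟨ha, ha2⟩
            refine ⟨Z.inv_mem ha, ?_⟩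
            have : a⁻¹ * a⁻¹ = (a * a)⁻¹ := by group
            rw [this, ha2, inv_one] }
      have hK : ⁅X, X⁆ ≤ K := by
        rw [Subgroup.commutator_le]
        intro x hx y hy
        have hcZ : ⁅x, y⁆ ∈ Z := hcommZ (Subgroup.commutator_mem_commutator hx hy)
        refine ⟨hcZ, ?_⟩
        have h1 : x * ⁅x, y⁆ = ⁅x, y⁆ * x := hZcent _ hcZ x hx
        have h2 : y * (x * x) = (x * x) * y := hsq x hx y hy
        obtain ⟨c, hc⟩ : ∃ c, c = ⁅x, y⁆ := ⟨_, rfl⟩
        rw [← hc] at h1 ⊢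
        have hc' : c = x * y * x⁻¹ * y⁻¹ := by rw [hc, commutatorElement_def]
        calc c * c = c * (x * y * x⁻¹ * y⁻¹) := by rw [← hc']
          _ = (c * x) * y * x⁻¹ * y⁻¹ := by group
          _ = (x * c) * y * x⁻¹ * y⁻¹ := by rw [h1]
          _ = x * (x * y * x⁻¹ * y⁻¹) * y * x⁻¹ * y⁻¹ := by rw [← hc']
          _ = ((x * x) * y) * (x⁻¹ * x⁻¹) * y⁻¹ := by group
          _ = (y * (x * x)) * (x⁻¹ * x⁻¹) * y⁻¹ := by rw [h2]
          _ = 1 := by group
      intro z hz
      have hz' : z ∈ (⁅X, X⁆ : Subgroup G) := by rw [hEq]; exact hz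
      exact (hK hz').2
    have hle4 : Nat.card ↥Z ≤ 4 := by
      rcases hSM with hcyc | h4
      · obtain ⟨g, hg⟩ := hcyc.exists_generator
        have h1 : Nat.card ↥Z = orderOf g := (orderOf_eq_card_of_forall_mem_zpowers hg).symm
        have h2 : g ^ 2 = 1 := by
          rw [pow_two]
          apply Subtype.ext
          have := hexp g g.2
          simpa using this
        have h3 : orderOf g ∣ 2 := orderOf_dvd_of_pow_eq_one h2
        have := Nat.le_of_dvd (by norm_num) h3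
        omega
      · exact h4
    have hn2 : n ≤ 2 := by
      by_contra hlt
      push Not at hlt
      have : 2 ^ 3 ≤ 2 ^ n := Nat.pow_le_pow_right (by norm_num) hlt
      omega
    have hn1 : 1 ≤ n := Nat.pos_of_ne_zero hn0
    interval_cases n
    · left; simpa using hn
    · right; simpa using hn
  · have hncyc : ¬ IsCyclic ↥Z := fun hcyc => hcz (odd_centralizes_cyclic hZ2 hcyc hH hHZ)
    have hle4 : Nat.card ↥Z ≤ 4 := by
      rcases hSM with hcyc | h4
      · exact absurd hcyc hncyc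
      · exact h4
    have hn1 : n ≠ 1 := by
      rintro rfl
      apply hncyc
      have : Fact (Nat.Prime 2) := ⟨Nat.prime_two⟩
      exact isCyclic_of_prime_card (p := 2) (by simpa using hn)
    have hn2 : n ≤ 2 := by
      by_contra hlt
      push Not at hlt
      have : 2 ^ 3 ≤ 2 ^ n := Nat.pow_le_pow_right (by norm_num) hlt
      omega
    have hn2' : n = 2 := by omega
    have hcard4 : Nat.card ↥Z = 4 := by rw [hn, hn2']; norm_num
    have hexpZ : ∀ y ∈ Z, y * y = 1 := by
      intro y hy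
      by_contra hne
      apply hncyc
      have ho : orderOf (⟨y, hy⟩ : ↥Z) ∣ 2 ^ 2 := by
        have := orderOf_dvd_natCard (⟨y, hy⟩ : ↥Z)
        rw [hcard4] at this
        simpa using this
      have ho2 : ¬ orderOf (⟨y, hy⟩ : ↥Z) ∣ 2 := by
        intro h2
        apply hne
        have := orderOf_dvd_iff_pow_eq_one.mp h2
        have h3 := congrArg Subtype.val this
        simpa [pow_two] using h3
      obtain ⟨m, hm, hom⟩ := (Nat.dvd_prime_pow Nat.prime_two).mp ho
      have ho4 : orderOf (⟨y, hy⟩ : ↥Z) = 4 := by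
        interval_cases m
        · exact absurd (by rw [hom]; norm_num) ho2
        · exact absurd (by rw [hom]; norm_num) ho2
        · rw [hom]; norm_num
      exact isCyclic_of_orderOf_eq_card _ (by rw [ho4, hcard4])
    have hV4 : IsV4 Z := ⟨hcard4, hexpZ⟩
    obtain ⟨hfix, -⟩ := v4_odd_act hV4 hH hHZ hcz
    have hdvd : Nat.card ↥(⁅X, X⁆ : Subgroup G) ∣ 2 ^ 2 := by
      have := Subgroup.card_dvd_of_le hcommZ
      rw [hcard4] at this
      simpa using this
    have hC1 : Nat.card ↥(⁅X, X⁆ : Subgroup G) ≠ 1 := fun h =>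
      hcomm_ne (Subgroup.card_eq_one.mp h)
    have hC2 : Nat.card ↥(⁅X, X⁆ : Subgroup G) ≠ 2 := by
      intro h2
      obtain ⟨t, htC, ht1⟩ : ∃ t ∈ (⁅X, X⁆ : Subgroup G), t ≠ 1 := by
        by_contra hno
        push Not at hno
        exact hcomm_ne ((Subgroup.eq_bot_iff_forall _).mpr hno)
      apply ht1
      apply hfix t (hcommZ htC)
      intro h hh
      have hmem : h * t * h⁻¹ ∈ (⁅X, X⁆ : Subgroup G) := hHC h hh t htC
      have hne : h * t * h⁻¹ ≠ 1 := by
        intro h1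
        apply ht1
        have : t = h⁻¹ * (h * t * h⁻¹) * h := by group
        rw [this, h1]; group
      obtain ⟨w, -, huniq⟩ := (Nat.card_eq_two_iff' (1 : ↥(⁅X, X⁆ : Subgroup G))).mp h2
      have e1 := huniq ⟨t, htC⟩ (fun h => ht1 (congrArg Subtype.val h))
      have e2 := huniq ⟨h * t * h⁻¹, hmem⟩ (fun h' => hne (congrArg Subtype.val h'))
      have e3 : h * t * h⁻¹ = t := congrArg Subtype.val (e2.trans e1.symm)
      calc h * t = (h * t * h⁻¹) * h := by group
        _ = t * h := by rw [e3]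
    obtain ⟨m, hm, hcm⟩ := (Nat.dvd_prime_pow Nat.prime_two).mp hdvd
    have hC4 : Nat.card ↥(⁅X, X⁆ : Subgroup G) = 4 := by
      interval_cases m
      · exact absurd (by simpa using hcm) hC1
      · exact absurd (by simpa using hcm) hC2
      · simpa using hcm
    exact ⟨Subgroup.eq_of_le_of_card_ge hcommZ (by rw [hC4, hcard4]), Or.inr hcard4⟩

end Cfsg.Agent.Lib.Helper73.QS
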