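import Mathlib
import Cfsg.Agent.Lib.Helper73.QSDefs

/-!
# Project QS (S4409, architect helper73): piece EXTRA (helper3)
-/

set_option autoImplicit false

namespace Cfsg.Agent.Lib.Helper73.QS

variable {G : Type*} [Group G]

/-- EXTRA: a 2-group of class at most 2 with centre of order 2 containing a noncyclic abelian
subgroup of order 8 has order at least 32. -/
theorem extraspecial_card [Finite G] {X : Subgroup G} (hX : IsPGroup 2 X) (hbig : ¬ Small X)
    (hZ : Nat.card ↥(X ⊓ Subgroup.centralizer (X : Set G)) = 2)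
    (hcomm : ⁅X, X⁆ ≤ Subgroup.centralizer (X : Set G)) : 32 ≤ Nat.card ↥X := by
  unfold Small at hbig
  push Not at hbig
  obtain ⟨A, hAX, hAc, hA8, hAnc⟩ := hbig
  obtain ⟨n, hn⟩ := IsPGroup.iff_card.mp hX
  have hdvd : 8 ∣ 2 ^ n := by rw [← hn, ← hA8]; exact Subgroup.card_dvd_of_le hAX
  have hn3 : 3 ≤ n := by
    by_contra h
    push Not at h
    have h1 : 2 ^ n ≤ 2 ^ 2 := Nat.pow_le_pow_right (by norm_num) (by omega)
    have h2 := Nat.le_of_dvd (by positivity) hdvd
    omega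
  have hAcomm : ∀ a ∈ A, ∀ b ∈ A, a * b = b * a := fun a ha b hb =>
    congrArg Subtype.val (hAc.is_comm.comm ⟨a, ha⟩ ⟨b, hb⟩)
  have hn3' : n ≠ 3 := by
    rintro rfl
    have hAeq : A = X := Subgroup.eq_of_le_of_card_ge hAX (by rw [hn, hA8]; norm_num)
    have hXZ : X ≤ X ⊓ Subgroup.centralizer (X : Set G) := by
      intro x hx
      refine ⟨hx, Subgroup.mem_centralizer_iff.mpr ?_⟩
      intro g hg
      have hg' : g ∈ A := by rw [hAeq]; exact hg
      have hx' : x ∈ A := by rw [hAeq]; exact hx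
      exact hAcomm g hg' x hx'
    have h1 := Subgroup.card_le_of_le hXZ
    rw [hZ, hn] at h1
    norm_num at h1
  have hn4 : n ≠ 4 := by
    rintro rfl
    obtain ⟨x, hxX, hxA⟩ : ∃ x ∈ X, x ∉ A := by
      by_contra hcon
      push Not at hcon
      have h1 := Subgroup.card_le_of_le (show X ≤ A from hcon)
      rw [hn, hA8] at h1
      norm_num at h1
    have hcZ : ∀ a ∈ A, a * x * a⁻¹ * x⁻¹ ∈ X ⊓ Subgroup.centralizer (X : Set G) := by
      intro a ha
      have h1 : a * x * a⁻¹ * x⁻¹ ∈ ⁅X, X⁆ := by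
        have h0 := Subgroup.commutator_mem_commutator (hAX ha) hxX
        rwa [commutatorElement_def] at h0
      exact ⟨X.mul_mem (X.mul_mem (X.mul_mem (hAX ha) hxX) (X.inv_mem (hAX ha)))
        (X.inv_mem hxX), hcomm h1⟩
    let φ : ↥A →* ↥(X ⊓ Subgroup.centralizer (X : Set G)) :=
      MonoidHom.mk' (fun a => ⟨(a : G) * x * (a : G)⁻¹ * x⁻¹, hcZ a a.2⟩) (by
        intro a b
        apply Subtype.ext
        show ((a * b : ↥A) : G) * x * ((a * b : ↥A) : G)⁻¹ * x⁻¹
          = ((a : G) * x * (a : G)⁻¹ * x⁻¹) * ((b : G) * x * (b : G)⁻¹ * x⁻¹)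
        have hc := (hcZ b b.2).2
        have hca : (a : G) * ((b : G) * x * (b : G)⁻¹ * x⁻¹)
            = ((b : G) * x * (b : G)⁻¹ * x⁻¹) * (a : G) :=
          (Subgroup.mem_centralizer_iff.mp hc) a (hAX a.2)
        have hcc : ((a : G) * x * (a : G)⁻¹ * x⁻¹) * ((b : G) * x * (b : G)⁻¹ * x⁻¹)
            = ((b : G) * x * (b : G)⁻¹ * x⁻¹) * ((a : G) * x * (a : G)⁻¹ * x⁻¹) :=
          (Subgroup.mem_centralizer_iff.mp hc) _ (hcZ a a.2).1
        rw [Subgroup.coe_mul]
        calc (a : G) * b * x * ((a : G) * b)⁻¹ * x⁻¹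
            = ((a : G) * ((b : G) * x * (b : G)⁻¹ * x⁻¹)) * x * (a : G)⁻¹ * x⁻¹ := by group
          _ = (((b : G) * x * (b : G)⁻¹ * x⁻¹) * (a : G)) * x * (a : G)⁻¹ * x⁻¹ := by rw [hca]
          _ = ((b : G) * x * (b : G)⁻¹ * x⁻¹) * ((a : G) * x * (a : G)⁻¹ * x⁻¹) := by group
          _ = ((a : G) * x * (a : G)⁻¹ * x⁻¹) * ((b : G) * x * (b : G)⁻¹ * x⁻¹) := hcc.symm)
    have hkerZ : ∀ a : ↥φ.ker, ((a : ↥A) : G) ∈ X ⊓ Subgroup.centralizer (X : Set G) := by
      intro a
      have ha1 : φ (a : ↥A) = 1 := a.2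
      have ha2 : ((a : ↥A) : G) * x * ((a : ↥A) : G)⁻¹ * x⁻¹ = 1 := congrArg Subtype.val ha1
      have hax : ((a : ↥A) : G) * x = x * ((a : ↥A) : G) := by
        calc ((a : ↥A) : G) * x
            = (((a : ↥A) : G) * x * ((a : ↥A) : G)⁻¹ * x⁻¹) * (x * ((a : ↥A) : G)) := by group
          _ = x * ((a : ↥A) : G) := by rw [ha2, one_mul]
      set K : Subgroup G := X ⊓ Subgroup.centralizer ({((a : ↥A) : G)} : Set G) with hK
      have hAK : A ≤ K := by
        intro b hb
        refine ⟨hAX hb, Subgroup.mem_centralizer_iff.mpr ?_⟩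
        intro h hh
        rw [Set.mem_singleton_iff] at hh
        rw [hh]
        exact hAcomm _ (a : ↥A).2 b hb
      have hxK : x ∈ K := by
        refine ⟨hxX, Subgroup.mem_centralizer_iff.mpr ?_⟩
        intro h hh
        rw [Set.mem_singleton_iff] at hh
        rw [hh]
        exact hax
      have hKcard : 8 < Nat.card K := by
        by_contra h
        push Not at h
        have hAKeq : A = K := Subgroup.eq_of_le_of_card_ge hAK (by rw [hA8]; exact h)
        exact hxA (hAKeq ▸ hxK)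
      have hKdvd : Nat.card K ∣ 2 ^ 4 := hn ▸ Subgroup.card_dvd_of_le (inf_le_left : K ≤ X)
      obtain ⟨m, hm, hmc⟩ := (Nat.dvd_prime_pow Nat.prime_two).mp hKdvd
      have hm4 : m = 4 := by
        rw [hmc] at hKcard
        interval_cases m <;> simp_all
      have hKX : K = X := Subgroup.eq_of_le_of_card_ge inf_le_left (by rw [hmc, hm4, hn])
      refine ⟨hAX (a : ↥A).2, Subgroup.mem_centralizer_iff.mpr ?_⟩
      intro g hg
      have hgK : g ∈ K := by rw [hKX]; exact hg
      exact ((Subgroup.mem_centralizer_iff.mp hgK.2) _ rfl).symm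
    have hker_le : Nat.card ↥φ.ker ≤ 2 := by
      rw [← hZ]
      apply Nat.card_le_card_of_injective (fun a : ↥φ.ker => (⟨((a : ↥A) : G), hkerZ a⟩ :
        ↥(X ⊓ Subgroup.centralizer (X : Set G))))
      intro a b hab
      have h1 : ((a : ↥A) : G) = ((b : ↥A) : G) :=
        congrArg (fun t : ↥(X ⊓ Subgroup.centralizer (X : Set G)) => (t : G)) hab
      exact Subtype.ext (Subtype.ext h1)
    have hrange_le : φ.ker.index ≤ 2 := by
      rw [Subgroup.index_ker, ← hZ]
      exact Subgroup.card_le_card_group _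
    have hmul := Subgroup.card_mul_index φ.ker
    rw [hA8] at hmul
    have h4 : Nat.card ↥φ.ker * φ.ker.index ≤ 2 * 2 := Nat.mul_le_mul hker_le hrange_le
    omega
  have hn5 : 5 ≤ n := by omega
  rw [hn]
  calc 32 = 2 ^ 5 := by norm_num
    _ ≤ 2 ^ n := Nat.pow_le_pow_right (by norm_num) hn5

end Cfsg.Agent.Lib.Helper73.QS
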