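import Mathlib
import Cfsg.Agent.Lib.Helper73.QSDefs
import Cfsg.Agent.Lib.Helper66.PiHall

/-!
# Project QS (S4409, architect helper73): piece HALL

PLACEHOLDER: replace the body of the theorem in THIS file by a full proof; keep the theorem name
and statement byte-identical; you may add imports of landed libs and auxiliary lemmas (prefix
`qshall_`). Paper proof: note 1946 (select body from notes where id=1946).
-/

set_option autoImplicit false

namespace Cfsg.Agent.Lib.Helper73.QS

variable {G : Type*} [Group G]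

/-- HALL: if `O_2(S)` is not small, minimality forces `O_2(S)` to be a Sylow 2-subgroup. -/
theorem sylow_eq_pcore {S : Type*} [Group S] [Finite S] [Group.IsSolvable S]
    (hns : ¬ Small (Cfsg.pCore 2 S))
    (hmin : ∀ R : Subgroup S, R ≠ ⊤ → (∃ k : ℕ, R.index = 2 ^ k) →
      ¬ ∃ A : Subgroup S, A ≤ R ∧ IsMulCommutative ↥A ∧ ¬ IsCyclic ↥A ∧ Nat.card ↥A = 8)
    (X : Sylow 2 S) : (X : Subgroup S) = Cfsg.pCore 2 S := by
  classical
  set Q : Subgroup S := Cfsg.pCore 2 S with hQ
  have hQn : Q.Normal := Subgroup.sSup_normal _ (fun _ hK => hK.1)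
  have hQp : IsPGroup 2 Q := Sylow.sSup_of_normal _ (fun _ hK => hK.2) (fun _ hK => hK.1)
  have hQX : Q ≤ (X : Subgroup S) := hQp.le_sylow_of_normal X
  -- a Hall 2'-subgroup
  obtain ⟨⟨H, hH1, hH2⟩, -, -⟩ := Cfsg.Agent.Lib.Helper66.goodPi_of_solvable {q : ℕ | q ≠ 2} S
  have hHodd : ¬ 2 ∣ Nat.card H := fun h => hH1 2 Nat.prime_two h rfl
  have hHidx : ∃ k : ℕ, H.index = 2 ^ k := by
    refine ⟨_, Nat.eq_prime_pow_of_unique_prime_dvd ?_ ?_⟩
    · exact Subgroup.index_ne_zero_of_finite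
    · intro d hd hdvd
      by_contra hne
      exact hH2 d hd hdvd hne
  obtain ⟨k, hk⟩ := hHidx
  -- the subgroup `R = Q ⊔ H`
  have hRidx : ∃ j : ℕ, (Q ⊔ H).index = 2 ^ j := by
    have h1 : (Q ⊔ H).index ∣ H.index := Subgroup.index_dvd_of_le le_sup_right
    rw [hk] at h1
    obtain ⟨j, -, hj⟩ := (Nat.dvd_prime_pow Nat.prime_two).1 h1
    exact ⟨j, hj⟩
  have hRtop : Q ⊔ H = ⊤ := by
    by_contra hne
    apply hmin (Q ⊔ H) hne hRidx
    unfold Small at hns
    push Not at hns
    obtain ⟨A, hAQ, hAc, hA8, hAnc⟩ := hns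
    exact ⟨A, hAQ.trans le_sup_left, hAc, hAnc, hA8⟩
  -- the index of `Q` is odd
  have hQodd : ¬ 2 ∣ Q.index := by
    have h1 : H.map (QuotientGroup.mk' Q) = ⊤ := by
      have h2 : (Q ⊔ H).map (QuotientGroup.mk' Q) = ⊤ := by
        rw [hRtop]
        exact Subgroup.map_top_of_surjective _ (QuotientGroup.mk'_surjective Q)
      rw [Subgroup.map_sup, QuotientGroup.map_mk'_self, bot_sup_eq] at h2
      exact h2
    have h3 : Q.index ∣ Nat.card H := by
      rw [Subgroup.index_eq_card, ← Subgroup.card_top (G := S ⧸ Q), ← h1]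
      exact Subgroup.card_map_dvd H (QuotientGroup.mk' Q)
    exact fun h => hHodd (dvd_trans h h3)
  -- conclusion
  have hrel : Q.relIndex (X : Subgroup S) = 1 := by
    have h1 : Q.relIndex (X : Subgroup S) ∣ Q.index :=
      Dvd.intro _ (Subgroup.relIndex_mul_index hQX)
    have h2 : Q.relIndex (X : Subgroup S) ∣ Nat.card (X : Subgroup S) :=
      Subgroup.relIndex_dvd_card _ _
    obtain ⟨n, hn⟩ := (IsPGroup.iff_card).1 X.isPGroup'
    rw [hn] at h2
    obtain ⟨b, -, hb⟩ := (Nat.dvd_prime_pow Nat.prime_two).1 h2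
    rcases Nat.eq_zero_or_pos b with h0 | hpos
    · rw [hb, h0, pow_zero]
    · exfalso
      apply hQodd
      refine dvd_trans ?_ h1
      rw [hb]
      exact dvd_pow_self 2 (by omega)
  exact le_antisymm (Subgroup.relIndex_eq_one.1 hrel) hQX

end Cfsg.Agent.Lib.Helper73.QS
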