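import Mathlib
import Cfsg.Agent.Lib.Helper73.QSDefs

/-!
# Project QS (S4409, architect helper73): piece SPBOT

Proved by helper74. Paper proof: note 1946.
-/

set_option autoImplicit false

namespace Cfsg.Agent.Lib.Helper73.QS

variable {G : Type*} [Group G]

/-- SPBOT: if `H` centralizes `X`, `X` is not small and all proper (`H`-invariant) subgroups
are small, then `X` is abelian. -/
theorem step_proper_bot [Finite G] {X H : Subgroup G} (hbig : ¬ Small X)
    (hmin : ∀ R : Subgroup G, R < X → H ≤ Subgroup.normalizer (R : Set G) → Small R)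
    (hD : ⁅X, H⁆ = ⊥) : ∀ a ∈ X, ∀ b ∈ X, a * b = b * a := by
  have hc : X ≤ Subgroup.centralizer (H : Set G) :=
    Subgroup.commutator_eq_bot_iff_le_centralizer.1 hD
  have hcomm : ∀ r ∈ X, ∀ h ∈ H, h * r = r * h := by
    intro r hr h hh
    exact Subgroup.mem_centralizer_iff.1 (hc hr) h hh
  have hnorm : ∀ R : Subgroup G, R ≤ X → H ≤ Subgroup.normalizer (R : Set G) := by
    intro R hR h hh
    rw [Subgroup.mem_normalizer_iff]
    intro n
    constructor
    · intro hn
      have : h * n * h⁻¹ = n := by rw [hcomm n (hR hn) h hh]; group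
      rw [this]
      exact hn
    · intro hn
      have h1 := hcomm _ (hR hn) h hh
      have : n = h * n * h⁻¹ := by
        calc n = h⁻¹ * (h * n * h⁻¹ * h) := by group
          _ = h⁻¹ * (h * (h * n * h⁻¹)) := by rw [← h1]
          _ = h * n * h⁻¹ := by group
      rw [this]
      exact hn
  unfold Small at hbig
  push Not at hbig
  obtain ⟨A, hAX, hAc, hA8, hAnc⟩ := hbig
  have hAeq : A = X := by
    by_contra hne
    have hlt : A < X := lt_of_le_of_ne hAX hne
    exact hAnc (hmin A hlt (hnorm A hAX) A le_rfl hAc hA8)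
  subst hAeq
  intro a ha b hb
  have := hAc.is_comm.comm ⟨a, ha⟩ ⟨b, hb⟩
  exact congrArg Subtype.val this

end Cfsg.Agent.Lib.Helper73.QS
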