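import Mathlib
import Cfsg.Agent.Lib.Helper73.QSDefs
import Cfsg.Agent.Lib.Helper73.QSCQ8
import Cfsg.Agent.Lib.Helper73.QSBasic

/-!
# Project QS (S4409, architect helper73): piece SPQ8 (proved by helper16)

`D = [X, H]` quaternion with special element `z`, `C = C_X(H)`.  By CQ8: `C` centralizes `D`,
the elements of `C ∩ D` are involutions or `1`, and `X = D C`.  As `D < X` there is `c ∈ C ∖ D`;
replacing `c` by a power, `c * c ∈ D`, so `c * c ∈ {1, z}`.  Put `R = D ⊔ ⟨c⟩ = D ∪ D c`
(`qsspq8_two_cosets`), an `H`-invariant subgroup.  If `R < X` then `R` is small; but with `i ∈ D`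
of order 4 and `t = c` (if `c * c = 1`) or `t = i * c` (if `c * c = z`), the subgroup `⟨i⟩ ⊔ ⟨t⟩`
of `R` is abelian, of order 8 and exponent 4, hence noncyclic: a contradiction.  So `R = X`,
and `D` has index 2 in `X = D ∪ D c`.
-/

set_option autoImplicit false

namespace Cfsg.Agent.Lib.Helper73.QS

variable {G : Type*} [Group G]

/-- `D ⊔ ⟨c⟩ = D ∪ D c⁻¹` when `c` centralizes `D` and `c * c ∈ D` -/
theorem qsspq8_two_cosets {D : Subgroup G} {c : G} (hc2 : c * c ∈ D)
    (hcomm : ∀ d ∈ D, c * d = d * c) :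
    ∀ g ∈ D ⊔ Subgroup.zpowers c, g ∈ D ∨ g * c ∈ D := by
  have hcc : ∀ a : G, a * c ∈ D → c * a = a * c := by
    intro a ha
    have h1 := hcomm (a * c) ha
    have h2 : c * a * c = a * c * c := by rw [mul_assoc]; exact h1
    exact mul_right_cancel h2
  let T : Subgroup G :=
    { carrier := {g | g ∈ D ∨ g * c ∈ D}
      one_mem' := Or.inl D.one_mem
      mul_mem' := by
        rintro a b (ha | ha) (hb | hb)
        · exact Or.inl (D.mul_mem ha hb)
        · right
          have e : a * b * c = a * (b * c) := by group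
          rw [e]
          exact D.mul_mem ha hb
        · right
          have e : a * b * c = a * c * b := by
            calc a * b * c = a * (b * c) := by group
              _ = a * (c * b) := by rw [hcomm b hb]
              _ = a * c * b := by group
          rw [e]
          exact D.mul_mem ha hb
        · left
          have hcb := hcc b hb
          have e : a * b = (a * c) * (b * c) * (c * c)⁻¹ := by
            calc a * b = a * (b * c) * c⁻¹ := by group
              _ = a * (c * b) * c⁻¹ := by rw [hcb]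
              _ = (a * c) * (b * c) * (c * c)⁻¹ := by group
          rw [e]
          exact D.mul_mem (D.mul_mem ha hb) (D.inv_mem hc2)
      inv_mem' := by
        rintro a (ha | ha)
        · exact Or.inl (D.inv_mem ha)
        · right
          have hca := hcc a ha
          have e2 : c * a⁻¹ = a⁻¹ * c := by
            calc c * a⁻¹ = a⁻¹ * (a * c) * a⁻¹ := by group
              _ = a⁻¹ * (c * a) * a⁻¹ := by rw [hca]
              _ = a⁻¹ * c := by group
          have e : a⁻¹ * c = (a * c)⁻¹ * (c * c) := by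
            symm
            calc (a * c)⁻¹ * (c * c) = c⁻¹ * (a⁻¹ * c) * c := by group
              _ = c⁻¹ * (c * a⁻¹) * c := by rw [← e2]
              _ = a⁻¹ * c := by group
          rw [e]
          exact D.mul_mem (D.inv_mem ha) hc2 }
  have hD : D ≤ T := fun d hd => Or.inl hd
  have hc : Subgroup.zpowers c ≤ T := Subgroup.zpowers_le.mpr (Or.inr hc2)
  exact fun g hg => (sup_le hD hc) hg

/-- `D` has index 2 in `D ⊔ ⟨c⟩` when `c ∉ D` centralizes `D` and `c * c ∈ D` -/
theorem qsspq8_relIndex_two {D : Subgroup G} {c : G} (hc2 : c * c ∈ D)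
    (hcomm : ∀ d ∈ D, c * d = d * c) (hcD : c ∉ D) :
    D.relIndex (D ⊔ Subgroup.zpowers c) = 2 := by
  rw [Subgroup.relIndex_eq_two_iff_exists_notMem_and]
  refine ⟨c, (le_sup_right : Subgroup.zpowers c ≤ D ⊔ Subgroup.zpowers c)
    (Subgroup.mem_zpowers c), hcD, ?_⟩
  intro b hb
  exact (qsspq8_two_cosets hc2 hcomm b hb).symm

/-- SPQ8: if `[X, H] < X` is a quaternion group of order 8 and all proper `H`-invariant
subgroups of `X` are small, then `[X, H]` has index 2 in `X` and `X = [X, H] C_X([X, H])`. -/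
theorem step_proper_q8 [Finite G] {X H : Subgroup G} (hX : IsPGroup 2 X)
    (hH : Odd (Nat.card H)) (hN : H ≤ Subgroup.normalizer (X : Set G))
    (hmin : ∀ R : Subgroup G, R < X → H ≤ Subgroup.normalizer (R : Set G) → Small R)
    (hlt : ⁅X, H⁆ < X) (hQ : IsQ8 ⁅X, H⁆) :
    (⁅X, H⁆).relIndex X = 2 ∧
      ⁅X, H⁆ ⊔ (X ⊓ Subgroup.centralizer ((⁅X, H⁆ : Subgroup G) : Set G)) = X := by
  classical
  have hDX : ⁅X, H⁆ ≤ X := comm_le hN
  have hHD : H ≤ Subgroup.normalizer ((⁅X, H⁆ : Subgroup G) : Set G) :=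
    right_le_normalizer_comm X H
  obtain ⟨hCcent, hCD, hsup⟩ := comm_q8 hX hH hN hQ
  obtain ⟨hD8, z, hzD, hz1, hsq⟩ := hQ
  generalize ⁅X, H⁆ = D at hDX hHD hCcent hCD hsup hD8 hzD hsq hlt ⊢
  obtain ⟨C, hCdef⟩ : ∃ C, C = X ⊓ Subgroup.centralizer (H : Set G) := ⟨_, rfl⟩
  rw [← hCdef] at hCcent hCD hsup
  have hCX : C ≤ X := by rw [hCdef]; exact inf_le_left
  have hCH : C ≤ Subgroup.centralizer (H : Set G) := by rw [hCdef]; exact inf_le_right
  -- an element `i` of `D` outside `{1, z}`
  have hex : ∃ i ∈ D, i ≠ 1 ∧ i ≠ z := by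
    by_contra hcon
    push Not at hcon
    have hsub : (D : Set G) ⊆ {1, z} := by
      intro y hy
      by_cases h1 : y = 1
      · simp [h1]
      · have := hcon y hy h1
        simp [this]
    have h2 : Nat.card D ≤ 2 := by
      calc Nat.card D = (D : Set G).ncard := (Nat.card_coe_set_eq (D : Set G))
        _ ≤ ({1, z} : Set G).ncard := Set.ncard_le_ncard hsub (Set.toFinite _)
        _ ≤ ({z} : Set G).ncard + 1 := Set.ncard_insert_le 1 {z}
        _ = 2 := by rw [Set.ncard_singleton]
    omega
  obtain ⟨i, hiD, hi1, hiz⟩ := hex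
  have hii : i * i = z := hsq i hiD hi1 hiz
  -- `z * z = 1`
  have hzz : z * z = 1 := by
    have hw : i * z ∈ D := D.mul_mem hiD hzD
    by_cases hw1 : i * z = 1
    · exfalso
      have h3 : z * z * z = 1 := by
        calc z * z * z = (i * z) * (i * z) := by rw [← hii]; group
          _ = 1 := by rw [hw1, one_mul]
      have h8 : z ^ 8 = 1 := by
        have h := pow_card_eq_one' (G := D) (x := ⟨z, hzD⟩)
        rw [hD8] at h
        simpa using congrArg Subtype.val h
      have h3' : z ^ 3 = 1 := by rw [← h3]; simp only [pow_succ, pow_zero, one_mul]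
      have ho : orderOf z ∣ Nat.gcd 3 8 :=
        Nat.dvd_gcd (orderOf_dvd_of_pow_eq_one h3') (orderOf_dvd_of_pow_eq_one h8)
      have hg : Nat.gcd 3 8 = 1 := by norm_num
      rw [hg, Nat.dvd_one, orderOf_eq_one_iff] at ho
      exact hz1 ho
    · have hwz : i * z ≠ z := by
        intro h
        apply hi1
        have e : i = (i * z) * z⁻¹ := by group
        rw [e, h, mul_inv_cancel]
      have h6 := hsq (i * z) hw hw1 hwz
      have h7 : z * z * z = 1 * z := by
        calc z * z * z = (i * z) * (i * z) := by rw [← hii]; group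
          _ = z := h6
          _ = 1 * z := (one_mul z).symm
      exact mul_right_cancel h7
  have hF2 : ∀ d ∈ D, d * d = 1 → d = 1 ∨ d = z := by
    intro d hd hdd
    by_contra hcon
    push Not at hcon
    exact hz1 ((hsq d hd hcon.1 hcon.2).symm.trans hdd)
  have hi4 : orderOf i = 4 := by
    have h := orderOf_eq_prime_pow (p := 2) (n := 1) (x := i) (by
      rw [pow_one, pow_two, hii]
      exact hz1) (by
      have e : i ^ 2 ^ (1 + 1) = (i * i) * (i * i) := by
        show i ^ 4 = _
        simp only [pow_succ, pow_zero, one_mul, mul_assoc]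
      rw [e, hii, hzz])
    simpa using h
  -- an element of `C` outside `D`
  have hex2 : ∃ c₀ ∈ C, c₀ ∉ D := by
    by_contra hcon
    push Not at hcon
    have hCle : C ≤ D := hcon
    rw [sup_eq_left.mpr hCle] at hsup
    exact absurd hsup (ne_of_lt hlt)
  obtain ⟨c₀, hc₀, hc₀D⟩ := hex2
  obtain ⟨m, hm⟩ := hX ⟨c₀, hCX hc₀⟩
  have hm' : c₀ ^ 2 ^ m = 1 := by simpa using congrArg Subtype.val hm
  have hP : ∃ k, c₀ ^ 2 ^ k ∈ D := ⟨m, by rw [hm']; exact D.one_mem⟩
  have hk0 : Nat.find hP ≠ 0 := by
    intro h0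
    have h1 := Nat.find_spec hP
    rw [h0, pow_zero, pow_one] at h1
    exact hc₀D h1
  obtain ⟨j, hj⟩ := Nat.exists_eq_succ_of_ne_zero hk0
  obtain ⟨c, hcdef⟩ : ∃ c, c = c₀ ^ 2 ^ j := ⟨_, rfl⟩
  have hcD : c ∉ D := by
    rw [hcdef]
    exact Nat.find_min hP (by omega)
  have hc2 : c * c ∈ D := by
    have e : c * c = c₀ ^ 2 ^ Nat.find hP := by
      rw [hcdef, hj, ← pow_add, ← two_mul, Nat.succ_eq_add_one, pow_succ']
    rw [e]
    exact Nat.find_spec hP
  have hcC : c ∈ C := by
    rw [hcdef]
    exact C.pow_mem hc₀ _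
  have hcc : c * c = 1 ∨ c * c = z :=
    hF2 (c * c) hc2 (hCD (c * c) ⟨C.mul_mem hcC hcC, hc2⟩)
  have hcomm : ∀ d ∈ D, c * d = d * c := fun d hd =>
    ((Subgroup.mem_centralizer_iff.mp (hCcent hcC)) d hd).symm
  have hcR : c ∈ D ⊔ Subgroup.zpowers c :=
    (le_sup_right : Subgroup.zpowers c ≤ D ⊔ Subgroup.zpowers c) (Subgroup.mem_zpowers c)
  have hDR : D ≤ D ⊔ Subgroup.zpowers c := le_sup_left
  -- an involution `t ∉ D` commuting with `i`
  have ht : ∃ t, t ∉ D ∧ t * t = 1 ∧ t * i = i * t ∧ t ∈ D ⊔ Subgroup.zpowers c := by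
    rcases hcc with h1 | h1
    · exact ⟨c, hcD, h1, hcomm i hiD, hcR⟩
    · refine ⟨i * c, ?_, ?_, ?_, ?_⟩
      · intro h
        apply hcD
        have e : c = i⁻¹ * (i * c) := by group
        rw [e]
        exact D.mul_mem (D.inv_mem hiD) h
      · calc i * c * (i * c) = i * (c * i) * c := by group
          _ = i * (i * c) * c := by rw [hcomm i hiD]
          _ = (i * i) * (c * c) := by group
          _ = 1 := by rw [hii, h1, hzz]
      · calc i * c * i = i * (c * i) := by group
          _ = i * (i * c) := by rw [hcomm i hiD]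
      · exact Subgroup.mul_mem _ (hDR hiD) hcR
  have hRX : D ⊔ Subgroup.zpowers c ≤ X := sup_le hDX (Subgroup.zpowers_le.mpr (hCX hcC))
  -- `D ⊔ ⟨c⟩ = X`
  have hReq : D ⊔ Subgroup.zpowers c = X := by
    by_contra hne
    have hRlt : D ⊔ Subgroup.zpowers c < X := lt_of_le_of_ne hRX hne
    have hHR : H ≤ Subgroup.normalizer ((D ⊔ Subgroup.zpowers c : Subgroup G) : Set G) := by
      intro h hh
      have hfin : Finite ((D ⊔ Subgroup.zpowers c : Subgroup G) : Set G) := Set.toFinite _
      apply Subgroup.mem_normalizer_fintype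
      intro n hn
      have hhc : h * c = c * h := (Subgroup.mem_centralizer_iff.mp (hCH hcC)) h hh
      have hch' : c * h⁻¹ = h⁻¹ * c := by
        calc c * h⁻¹ = h⁻¹ * (h * c) * h⁻¹ := by group
          _ = h⁻¹ * (c * h) * h⁻¹ := by rw [hhc]
          _ = h⁻¹ * c := by group
      rcases qsspq8_two_cosets hc2 hcomm n hn with h1 | h1
      · exact hDR ((Subgroup.mem_normalizer_iff.mp (hHD hh) n).mp h1)
      · have e : h * n * h⁻¹ = (h * (n * c) * h⁻¹) * c⁻¹ := by
          calc h * n * h⁻¹ = h * n * (h⁻¹ * c) * c⁻¹ := by group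
            _ = h * n * (c * h⁻¹) * c⁻¹ := by rw [hch']
            _ = (h * (n * c) * h⁻¹) * c⁻¹ := by group
        rw [e]
        exact Subgroup.mul_mem _
          (hDR ((Subgroup.mem_normalizer_iff.mp (hHD hh) (n * c)).mp h1))
          (Subgroup.inv_mem _ hcR)
    have hsmall := hmin _ hRlt hHR
    obtain ⟨t, htD, htt, hti, htR⟩ := ht
    have hti' : ∀ d ∈ Subgroup.zpowers i, t * d = d * t := by
      intro d hd
      obtain ⟨n, rfl⟩ := Subgroup.mem_zpowers_iff.mp hd
      exact ((show Commute t i from hti).zpow_right n).eq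
    have htzi : t ∉ Subgroup.zpowers i := fun h => htD ((Subgroup.zpowers_le.mpr hiD) h)
    have htt' : t * t ∈ Subgroup.zpowers i := by
      rw [htt]
      exact Subgroup.one_mem _
    have hBidx := qsspq8_relIndex_two htt' hti' htzi
    have hBcard : Nat.card ↥(Subgroup.zpowers i ⊔ Subgroup.zpowers t) = 8 := by
      have h1 := Subgroup.relIndex_mul_relIndex (⊥ : Subgroup G) (Subgroup.zpowers i)
        (Subgroup.zpowers i ⊔ Subgroup.zpowers t) bot_le le_sup_left
      rw [Subgroup.relIndex_bot_left, Subgroup.relIndex_bot_left, hBidx, Nat.card_zpowers,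
        hi4] at h1
      omega
    have hBle : Subgroup.zpowers i ⊔ Subgroup.zpowers t ≤ D ⊔ Subgroup.zpowers c :=
      sup_le (le_trans (Subgroup.zpowers_le.mpr hiD) hDR) (Subgroup.zpowers_le.mpr htR)
    have hB1 : ∀ b ∈ Subgroup.zpowers i ⊔ Subgroup.zpowers t, b * i = i * b ∧ b * t = t * b := by
      intro b hb
      have hle : Subgroup.zpowers i ⊔ Subgroup.zpowers t ≤
          Subgroup.centralizer ({i, t} : Set G) := by
        refine sup_le (Subgroup.zpowers_le.mpr ?_) (Subgroup.zpowers_le.mpr ?_)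
        · rw [Subgroup.mem_centralizer_iff]
          intro x hx
          rcases hx with rfl | rfl
          · rfl
          · exact hti
        · rw [Subgroup.mem_centralizer_iff]
          intro x hx
          rcases hx with rfl | rfl
          · exact hti.symm
          · rfl
      have hb' := Subgroup.mem_centralizer_iff.mp (hle hb)
      exact ⟨(hb' i (by simp)).symm, (hb' t (by simp)).symm⟩
    have hBcomm : ∀ a ∈ Subgroup.zpowers i ⊔ Subgroup.zpowers t,
        ∀ b ∈ Subgroup.zpowers i ⊔ Subgroup.zpowers t, a * b = b * a := by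
      intro a ha b hb
      have hle : Subgroup.zpowers i ⊔ Subgroup.zpowers t ≤
          Subgroup.centralizer ({b} : Set G) := by
        refine sup_le (Subgroup.zpowers_le.mpr ?_) (Subgroup.zpowers_le.mpr ?_)
        · rw [Subgroup.mem_centralizer_iff]
          intro x hx
          rw [Set.mem_singleton_iff] at hx
          rw [hx]
          exact (hB1 b hb).1
        · rw [Subgroup.mem_centralizer_iff]
          intro x hx
          rw [Set.mem_singleton_iff] at hx
          rw [hx]
          exact (hB1 b hb).2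
      exact ((Subgroup.mem_centralizer_iff.mp (hle ha)) b rfl).symm
    have hBc : IsMulCommutative ↥(Subgroup.zpowers i ⊔ Subgroup.zpowers t) :=
      ⟨⟨fun a b => Subtype.ext (hBcomm a.1 a.2 b.1 b.2)⟩⟩
    have hcyc := hsmall _ hBle hBc hBcard
    have hi4' : i ^ 4 = 1 := by
      rw [← hi4]
      exact pow_orderOf_eq_one i
    have ht4 : t ^ 4 = 1 := by
      calc t ^ 4 = (t * t) * (t * t) := by simp only [pow_succ, pow_zero, one_mul, mul_assoc]
        _ = 1 := by rw [htt, one_mul]
    have hB4 : ∀ b ∈ Subgroup.zpowers i ⊔ Subgroup.zpowers t, b ^ 4 = 1 := by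
      intro b hb
      have key : ∀ d ∈ Subgroup.zpowers i, d ^ 4 = 1 := by
        intro d hd
        obtain ⟨n, rfl⟩ := Subgroup.mem_zpowers_iff.mp hd
        rw [← zpow_natCast, ← zpow_mul, mul_comm, zpow_mul, zpow_natCast, hi4', one_zpow]
      rcases qsspq8_two_cosets htt' hti' b hb with h1 | h1
      · exact key b h1
      · have h2 := key _ h1
        have hbt : Commute b t := (hB1 b hb).2
        rw [hbt.mul_pow, ht4, mul_one] at h2
        exact h2
    obtain ⟨g, hg⟩ := hcyc.exists_generator
    have ho : orderOf g = 8 := by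
      rw [orderOf_eq_card_of_forall_mem_zpowers hg, hBcard]
    have hg4 : g ^ 4 = 1 := Subtype.ext (by simpa using hB4 g.1 g.2)
    have hdvd := orderOf_dvd_of_pow_eq_one hg4
    rw [ho] at hdvd
    omega
  constructor
  · have h2 := qsspq8_relIndex_two hc2 hcomm hcD
    rw [hReq] at h2
    exact h2
  · apply le_antisymm
    · exact sup_le hDX inf_le_left
    · calc X = D ⊔ C := hsup.symm
        _ ≤ D ⊔ (X ⊓ Subgroup.centralizer (D : Set G)) :=
          sup_le_sup_left (le_inf hCX hCcent) D

end Cfsg.Agent.Lib.Helper73.QS
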