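import Mathlib
import Cfsg.Agent.Lib.Helper73.QSDefs
import Cfsg.Agent.Lib.Helper73.QSBasic
import Cfsg.Agent.Lib.Helper73.QSCV4

/-!
# Project QS (S4409, architect helper73): piece SPV4 (proof by helper21)

Auxiliary lemmas are prefixed `qsspv4_`. Paper proof: note 1946.
-/

set_option autoImplicit false

namespace Cfsg.Agent.Lib.Helper73.QS

variable {G : Type*} [Group G]

/-- two commutative subgroups commuting elementwise generate a commutative subgroup -/
theorem qsspv4_sup_comm (A B : Subgroup G) (hA : ∀ a ∈ A, ∀ a' ∈ A, a * a' = a' * a)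
    (hB : ∀ b ∈ B, ∀ b' ∈ B, b * b' = b' * b) (hAB : ∀ a ∈ A, ∀ b ∈ B, a * b = b * a) :
    ∀ x ∈ A ⊔ B, ∀ y ∈ A ⊔ B, x * y = y * x := by
  have hS : ((A : Set G) ∪ B) ⊆ Subgroup.centralizer ((A : Set G) ∪ B) := by
    intro s hs
    rw [SetLike.mem_coe, Subgroup.mem_centralizer_iff]
    intro t ht
    rcases hs with hs | hs <;> rcases ht with ht | ht
    · exact hA t ht s hs
    · exact (hAB s hs t ht).symm
    · exact hAB t ht s hs
    · exact hB t ht s hs
  have h1 : A ⊔ B ≤ Subgroup.centralizer ((A : Set G) ∪ B) := by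
    rw [Subgroup.sup_eq_closure]
    exact (Subgroup.closure_le _).2 hS
  intro x hx y hy
  have h2 : x ∈ Subgroup.centralizer
      ((Subgroup.centralizer ((A : Set G) ∪ B) : Subgroup G) : Set G) := by
    have h3 := Subgroup.closure_le_centralizer_centralizer ((A : Set G) ∪ B)
    rw [Subgroup.sup_eq_closure] at hx
    exact h3 hx
  exact (Subgroup.mem_centralizer_iff.1 h2 y (h1 hy)).symm

/-- in a commutative join of two subgroups of exponent 2 every element squares to 1 -/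
theorem qsspv4_sq (A B : Subgroup G) (hcomm : ∀ x ∈ A ⊔ B, ∀ y ∈ A ⊔ B, x * y = y * x)
    (hA : ∀ a ∈ A, a * a = 1) (hB : ∀ b ∈ B, b * b = 1) : ∀ r ∈ A ⊔ B, r * r = 1 := by
  intro r hr
  obtain ⟨T, hT⟩ : ∃ T : Subgroup G, ∀ g, g ∈ T ↔ g ∈ A ⊔ B ∧ g * g = 1 :=
    ⟨{ carrier := {g | g ∈ A ⊔ B ∧ g * g = 1}
       one_mem' := ⟨one_mem _, one_mul 1⟩
       mul_mem' := by
         rintro x y ⟨hx, hx2⟩ ⟨hy, hy2⟩
         refine ⟨mul_mem hx hy, ?_⟩
         calc x * y * (x * y) = x * (y * x) * y := by group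
           _ = x * (x * y) * y := by rw [hcomm y hy x hx]
           _ = (x * x) * (y * y) := by group
           _ = 1 := by rw [hx2, hy2, one_mul]
       inv_mem' := by
         rintro x ⟨hx, hx2⟩
         refine ⟨inv_mem hx, ?_⟩
         rw [← mul_inv_rev, hx2, inv_one] }, fun g => Iff.rfl⟩
  have hle : A ⊔ B ≤ T :=
    sup_le (fun a ha => (hT a).2 ⟨Subgroup.mem_sup_left ha, hA a ha⟩)
      (fun b hb => (hT b).2 ⟨Subgroup.mem_sup_right hb, hB b hb⟩)
  exact ((hT r).1 (hle hr)).2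

/-- an element normalizing two subgroups maps their join into itself -/
theorem qsspv4_norm (A B : Subgroup G) (h : G) (hA : ∀ a ∈ A, h * a * h⁻¹ ∈ A)
    (hB : ∀ b ∈ B, h * b * h⁻¹ ∈ B) : ∀ n ∈ A ⊔ B, h * n * h⁻¹ ∈ A ⊔ B := by
  intro n hn
  have hle : A ⊔ B ≤ (A ⊔ B).comap (MulAut.conj h).toMonoidHom := by
    apply sup_le
    · intro a ha
      rw [Subgroup.mem_comap]
      exact Subgroup.mem_sup_left (hA a ha)
    · intro b hb
      rw [Subgroup.mem_comap]
      exact Subgroup.mem_sup_right (hB b hb)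
  have h1 := hle hn
  rw [Subgroup.mem_comap] at h1
  exact h1

/-- SPV4: if `[X, H]` is a four-group and all proper `H`-invariant subgroups of `X` are
small, then `X` is abelian. -/
theorem step_proper_v4 [Finite G] {X H : Subgroup G} (hX : IsPGroup 2 X)
    (hH : Odd (Nat.card H)) (hN : H ≤ Subgroup.normalizer (X : Set G))
    (hmin : ∀ R : Subgroup G, R < X → H ≤ Subgroup.normalizer (R : Set G) → Small R)
    (hV : IsV4 ⁅X, H⁆) : ∀ a ∈ X, ∀ b ∈ X, a * b = b * a := by
  classical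
  obtain ⟨hcent, hinf, hsup⟩ := comm_v4 hX hH hN hV
  have hDX : ⁅X, H⁆ ≤ X := comm_le hN
  have hDcomm : ∀ d ∈ ⁅X, H⁆, ∀ d' ∈ ⁅X, H⁆, d * d' = d' * d := by
    intro d hd d' hd'
    have h1 := hV.2 d hd
    have h2 := hV.2 d' hd'
    have h3 := hV.2 (d * d') (Subgroup.mul_mem _ hd hd')
    have h4 : d⁻¹ = d := inv_eq_of_mul_eq_one_left h1
    have h5 : d'⁻¹ = d' := inv_eq_of_mul_eq_one_left h2
    have h6 : (d * d')⁻¹ = d * d' := inv_eq_of_mul_eq_one_left h3
    rw [mul_inv_rev, h4, h5] at h6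
    exact h6.symm
  by_cases hC : X ⊓ Subgroup.centralizer (H : Set G) = ⊥
  · rw [hC, sup_bot_eq] at hsup
    intro a ha b hb
    rw [← hsup] at ha hb
    exact hDcomm a ha b hb
  · have hCp : IsPGroup 2 ↥(X ⊓ Subgroup.centralizer (H : Set G)) := hX.to_le inf_le_left
    obtain ⟨n, hn⟩ := IsPGroup.iff_card.1 hCp
    have hn0 : n ≠ 0 := by
      rintro rfl
      rw [pow_zero] at hn
      exact hC (Subgroup.eq_bot_of_card_eq _ hn)
    have h2dvd : 2 ∣ Nat.card ↥(X ⊓ Subgroup.centralizer (H : Set G)) := by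
      rw [hn]
      exact dvd_pow_self 2 hn0
    obtain ⟨c, hc⟩ := exists_prime_orderOf_dvd_card' 2 h2dvd
    have hcC : (c : G) ∈ X ⊓ Subgroup.centralizer (H : Set G) := c.2
    have hcG : orderOf (c : G) = 2 := by rw [Subgroup.orderOf_coe, hc]
    have hc2 : (c : G) * (c : G) = 1 := by
      have h1 := pow_orderOf_eq_one (c : G)
      rw [hcG, pow_two] at h1
      exact h1
    have hc1 : (c : G) ≠ 1 := by
      intro h
      rw [h, orderOf_one] at hcG
      norm_num at hcG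
    have hKC : Subgroup.zpowers (c : G) ≤ X ⊓ Subgroup.centralizer (H : Set G) :=
      (Subgroup.zpowers_le).2 hcC
    have hKcent : ∀ d ∈ ⁅X, H⁆, ∀ k ∈ Subgroup.zpowers (c : G), d * k = k * d := by
      intro d hd k hk
      exact Subgroup.mem_centralizer_iff.1 (hcent (hKC hk)) d hd
    have hKcomm : ∀ k ∈ Subgroup.zpowers (c : G), ∀ k' ∈ Subgroup.zpowers (c : G),
        k * k' = k' * k := by
      intro k hk k' hk'
      obtain ⟨i, rfl⟩ := Subgroup.mem_zpowers_iff.1 hk
      obtain ⟨j, rfl⟩ := Subgroup.mem_zpowers_iff.1 hk'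
      rw [← zpow_add, ← zpow_add, add_comm]
    have hK2 : ∀ k ∈ Subgroup.zpowers (c : G), k * k = 1 := by
      intro k hk
      obtain ⟨i, rfl⟩ := Subgroup.mem_zpowers_iff.1 hk
      rw [← zpow_add, ← two_mul, zpow_mul, zpow_two, hc2, one_zpow]
    have hRcomm := qsspv4_sup_comm ⁅X, H⁆ (Subgroup.zpowers (c : G)) hDcomm hKcomm hKcent
    have hRX : ⁅X, H⁆ ⊔ Subgroup.zpowers (c : G) ≤ X := sup_le hDX (hKC.trans inf_le_left)
    have hR2 := qsspv4_sq ⁅X, H⁆ (Subgroup.zpowers (c : G)) hRcomm hV.2 hK2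
    have hRcard : Nat.card ↥(⁅X, H⁆ ⊔ Subgroup.zpowers (c : G)) = 8 := by
      have hcomm : ∀ (m : ↥⁅X, H⁆) (n : ↥(Subgroup.zpowers (c : G))),
          Commute ((⁅X, H⁆).subtype m) ((Subgroup.zpowers (c : G)).subtype n) :=
        fun m n => hKcent m m.2 n n.2
      have hinj : Function.Injective (MonoidHom.noncommCoprod (⁅X, H⁆).subtype
          (Subgroup.zpowers (c : G)).subtype hcomm) := by
        rw [MonoidHom.noncommCoprod_injective]
        refine ⟨Subgroup.subtype_injective _, Subgroup.subtype_injective _, ?_⟩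
        rw [Subgroup.range_subtype, Subgroup.range_subtype, disjoint_iff, eq_bot_iff]
        intro g hg
        have h1 : g ∈ (X ⊓ Subgroup.centralizer (H : Set G)) ⊓ ⁅X, H⁆ := ⟨hKC hg.2, hg.1⟩
        rw [hinf] at h1
        exact h1
      have hrange : (MonoidHom.noncommCoprod (⁅X, H⁆).subtype
          (Subgroup.zpowers (c : G)).subtype hcomm).range =
          ⁅X, H⁆ ⊔ Subgroup.zpowers (c : G) := by
        rw [MonoidHom.noncommCoprod_range, Subgroup.range_subtype, Subgroup.range_subtype]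
      rw [← hrange, ← Nat.card_congr (MonoidHom.ofInjective hinj).toEquiv, Nat.card_prod, hV.1,
        Nat.card_zpowers, hcG]
    have hRnot : ¬ Small (⁅X, H⁆ ⊔ Subgroup.zpowers (c : G)) := by
      intro hS
      have hcm : IsMulCommutative ↥(⁅X, H⁆ ⊔ Subgroup.zpowers (c : G)) :=
        ⟨⟨fun a b => Subtype.ext (hRcomm a a.2 b b.2)⟩⟩
      have hcyc := hS (⁅X, H⁆ ⊔ Subgroup.zpowers (c : G)) le_rfl hcm hRcard
      obtain ⟨g, hg⟩ := hcyc.exists_generator
      have ho : orderOf g = 8 := by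
        rw [orderOf_eq_card_of_forall_mem_zpowers hg, hRcard]
      have hg2 : g ^ 2 = 1 := by
        apply Subtype.ext
        rw [pow_two]
        exact hR2 g g.2
      have h1 := orderOf_dvd_of_pow_eq_one hg2
      rw [ho] at h1
      omega
    have hDnorm : ∀ h ∈ H, ∀ d ∈ ⁅X, H⁆, h * d * h⁻¹ ∈ ⁅X, H⁆ := fun h hh d hd =>
      ((Subgroup.mem_normalizer_iff.1 (right_le_normalizer_comm X H hh)) d).1 hd
    have hKnorm : ∀ h ∈ H, ∀ k ∈ Subgroup.zpowers (c : G),
        h * k * h⁻¹ ∈ Subgroup.zpowers (c : G) := by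
      intro h hh k hk
      have h1 : h * k = k * h := Subgroup.mem_centralizer_iff.1 (hKC hk).2 h hh
      rw [h1, mul_inv_cancel_right]
      exact hk
    have hHR : H ≤ Subgroup.normalizer
        ((⁅X, H⁆ ⊔ Subgroup.zpowers (c : G) : Subgroup G) : Set G) := by
      intro h hh
      rw [Subgroup.mem_normalizer_iff]
      intro n
      constructor
      · exact qsspv4_norm _ _ h (hDnorm h hh) (hKnorm h hh) n
      · intro hn
        have h1 := qsspv4_norm _ _ h⁻¹ (hDnorm h⁻¹ (inv_mem hh)) (hKnorm h⁻¹ (inv_mem hh)) _ hn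
        have e : h⁻¹ * (h * n * h⁻¹) * h⁻¹⁻¹ = n := by group
        rwa [e] at h1
    have hReq : ⁅X, H⁆ ⊔ Subgroup.zpowers (c : G) = X := by
      by_contra hne
      exact hRnot (hmin _ (lt_of_le_of_ne hRX hne) hHR)
    intro a ha b hb
    rw [← hReq] at ha hb
    exact hRcomm a ha b hb

end Cfsg.Agent.Lib.Helper73.QS
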