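import Mathlib
import Cfsg.Agent.Lib.Helper73.QSDefs
import Cfsg.Agent.Lib.Helper73.QSBasic
import Cfsg.Agent.Lib.Helper73.QSAct
import Cfsg.Agent.Lib.Helper73.QSSqc
import Cfsg.Agent.Lib.Helper73.QSSpBot
import Cfsg.Agent.Lib.Helper73.QSSpV4
import Cfsg.Agent.Lib.Helper73.QSSpQ8
import Cfsg.Agent.Lib.Helper73.QSCent
import Cfsg.Agent.Lib.Helper73.QSExtra
import Cfsg.Agent.Lib.Helper18.TLCop

/-!
# Project QS (S4409, architect helper73): the structure theorem in ambient form (assembly)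
-/

set_option autoImplicit false

namespace Cfsg.Agent.Lib.Helper73.QS

variable {G : Type*} [Group G]

/-- A 2-group `X` acted on by a group `H` of odd order, not small, all of whose proper
`H`-invariant subgroups are small: `X` is abelian, or `Q₈`-by-2 of central type, or special
with centre of order 2 (and order at least 32) or 4. -/
theorem structure_main [Finite G] {X H : Subgroup G} (hX : IsPGroup 2 X)
    (hH : Odd (Nat.card H)) (hN : H ≤ Subgroup.normalizer (X : Set G)) (hbig : ¬ Small X)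
    (hmin : ∀ R : Subgroup G, R < X → H ≤ Subgroup.normalizer (R : Set G) → Small R) :
    (∀ a ∈ X, ∀ b ∈ X, a * b = b * a) ∨
    (∃ X₀ : Subgroup G, X₀ ≤ X ∧ X₀.relIndex X = 2 ∧ IsQ8 X₀ ∧
      X₀ ⊔ (X ⊓ Subgroup.centralizer (X₀ : Set G)) = X) ∨
    (⁅X, X⁆ = X ⊓ Subgroup.centralizer (X : Set G) ∧
      (∀ x ∈ X, x * x ∈ Subgroup.centralizer (X : Set G)) ∧
      ((Nat.card ↥(X ⊓ Subgroup.centralizer (X : Set G)) = 2 ∧ 32 ≤ Nat.card ↥X) ∨
        Nat.card ↥(X ⊓ Subgroup.centralizer (X : Set G)) = 4)) := by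
  have hDX : ⁅X, H⁆ ≤ X := comm_le hN
  have hND : H ≤ Subgroup.normalizer ((⁅X, H⁆ : Subgroup G) : Set G) :=
    right_le_normalizer_comm X H
  have hIH : ∀ M : Subgroup G, M < X → H ≤ Subgroup.normalizer (M : Set G) →
      ¬ H ≤ Subgroup.centralizer (M : Set G) → IsV4 M ∨ IsQ8 M := by
    intro M hM hMN hMc
    exact small_act (hX.to_le hM.le) hH hMN (hmin M hM hMN) hMc
  by_cases hfull : ⁅X, H⁆ = X
  · by_cases hab : ∀ a ∈ X, ∀ b ∈ X, a * b = b * a
    · exact Or.inl hab
    · right; right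
      have hsq := comm_self_sq_central hX hH hN hfull hIH
      obtain ⟨h1, h2⟩ := full_center hX hH hN hmin hfull hab hsq
      have h3 : ∀ x ∈ X, x * x ∈ Subgroup.centralizer (X : Set G) := by
        intro x hx
        rw [Subgroup.mem_centralizer_iff]
        intro y hy
        exact hsq x hx y hy
      refine ⟨h1, h3, ?_⟩
      rcases h2 with h2 | h2
      · left
        refine ⟨h2, extraspecial_card hX hbig h2 ?_⟩
        rw [h1]; exact inf_le_right
      · right; exact h2
  · have hlt : ⁅X, H⁆ < X := lt_of_le_of_ne hDX hfull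
    by_cases hbot : ⁅X, H⁆ = ⊥
    · exact Or.inl (step_proper_bot hbig hmin hbot)
    · have hDp : IsPGroup 2 (⁅X, H⁆ : Subgroup G) := hX.to_le hDX
      have hDD : ⁅⁅X, H⁆, H⁆ = ⁅X, H⁆ := Cfsg.Agent.Lib.Helper18.TL.cop_comm_eq hX hH hN
      have hnc : ¬ H ≤ Subgroup.centralizer ((⁅X, H⁆ : Subgroup G) : Set G) := by
        intro hc
        have := Cfsg.Agent.Lib.Helper18.TL.cop_comm_bot_of_le_centralizer hc
        rw [hDD] at this
        exact hbot this
      rcases small_act hDp hH hND (hmin _ hlt hND) hnc with hV | hQ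
      · exact Or.inl (step_proper_v4 hX hH hN hmin hV)
      · right; left
        obtain ⟨h1, h2⟩ := step_proper_q8 hX hH hN hmin hlt hQ
        exact ⟨⁅X, H⁆, hDX, h1, hQ, h2⟩

end Cfsg.Agent.Lib.Helper73.QS
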