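import Mathlib
import Cfsg.Agent.Lib.Helper73.QSDefs

/-!
# Project QS (S4409, architect helper73): piece MIN

PLACEHOLDER: replace the body of the theorem in THIS file by a full proof; keep the theorem name
and statement byte-identical; you may add imports of landed libs and auxiliary lemmas (prefix
`qsmin_`). Paper proof: note 1946 (select body from notes where id=1946).
-/

set_option autoImplicit false

namespace Cfsg.Agent.Lib.Helper73.QS

open scoped Pointwise

variable {G : Type*} [Group G]

/-- MIN: minimality in `S = X H` (normal Sylow 2-subgroup `X`, complement `H` of odd order)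
makes every proper `H`-invariant subgroup of `X` small. -/
theorem small_of_min {S : Type*} [Group S] [Finite S] (X H : Subgroup S) [X.Normal]
    (hX : IsPGroup 2 X) (hH : Odd (Nat.card H)) (hXH : X ⊔ H = ⊤)
    (hmin : ∀ R : Subgroup S, R ≠ ⊤ → (∃ k : ℕ, R.index = 2 ^ k) →
      ¬ ∃ A : Subgroup S, A ≤ R ∧ IsMulCommutative ↥A ∧ ¬ IsCyclic ↥A ∧ Nat.card ↥A = 8)
    (R : Subgroup S) (hRX : R < X) (hRH : H ≤ Subgroup.normalizer (R : Set S)) : Small R := by
  classical
  intro A hAR hAc hA8
  by_contra hAcyc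
  have hXindex : X.index ∣ Nat.card H := by
    have h1 : X.relIndex (X ⊔ H) = X.relIndex H := Subgroup.relIndex_sup_left H X
    rw [hXH, Subgroup.relIndex_top_right] at h1
    rw [h1]
    exact Subgroup.relIndex_dvd_card X H
  obtain ⟨a, ha⟩ : ∃ a, Nat.card X = 2 ^ a := IsPGroup.iff_card.mp hX
  have hS : Nat.card S = Nat.card X * X.index := (Subgroup.card_mul_index X).symm
  have hcop : Nat.Coprime (2 ^ a) (Nat.card H) :=
    Nat.Coprime.pow_left a (Nat.coprime_two_left.mpr hH)
  have hHdvd : Nat.card H ∣ X.index := by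
    have h1 : Nat.card H ∣ Nat.card S := Subgroup.card_subgroup_dvd_card H
    rw [hS, ha] at h1
    exact hcop.symm.dvd_of_dvd_mul_left h1
  have hXi : X.index = Nat.card H := Nat.dvd_antisymm hXindex hHdvd
  have hHi : H.index = 2 ^ a := by
    have h1 := Subgroup.card_mul_index H
    rw [hS, hXi, ha] at h1
    have hpos : 0 < Nat.card H := Nat.card_pos
    exact Nat.eq_of_mul_eq_mul_left hpos (by rw [h1, mul_comm])
  have hTi : (R ⊔ H).index ∣ H.index := Subgroup.index_dvd_of_le le_sup_right
  rw [hHi] at hTi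
  obtain ⟨k, -, hTk⟩ := (Nat.dvd_prime_pow Nat.prime_two).mp hTi
  have hTne : R ⊔ H ≠ ⊤ := by
    intro htop
    apply hRX.not_ge
    intro x hx
    have hxT : x ∈ R ⊔ H := htop ▸ Subgroup.mem_top x
    have hcoe : (↑(R ⊔ H) : Set S) = (R : Set S) * (H : Set S) :=
      Subgroup.coe_mul_of_right_le_normalizer_left R H hRH
    have hx' : x ∈ (R : Set S) * (H : Set S) := hcoe ▸ hxT
    obtain ⟨r, hr, h, hh, rfl⟩ := Set.mem_mul.mp hx'
    have hhX : h ∈ X := by
      have := X.mul_mem (X.inv_mem (hRX.le hr)) hx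
      simpa using this
    have ho1 : orderOf h ∣ 2 ^ a := ha ▸ Subgroup.orderOf_dvd_natCard X hhX
    have ho2 : orderOf h ∣ Nat.card H := Subgroup.orderOf_dvd_natCard H hh
    have ho : orderOf h = 1 := by
      have := Nat.dvd_gcd ho1 ho2
      rw [hcop.gcd_eq_one] at this
      exact Nat.dvd_one.mp this
    have hh1 : h = 1 := orderOf_eq_one_iff.mp ho
    rw [hh1, mul_one]
    exact hr
  exact hmin (R ⊔ H) hTne ⟨k, hTk⟩ ⟨A, hAR.trans le_sup_left, hAc, hAcyc, hA8⟩

end Cfsg.Agent.Lib.Helper73.QS
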