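import Mathlib
import Cfsg.Agent.Lib.Helper73.QSDefs
import Cfsg.Agent.Lib.Helper73.QSQA

/-!
# Project QS (S4409, architect helper73): piece P1Q8

A self-centralizing quaternion group `Q` of order 8 normalized by a 2-group `X ≥ Q`: `X` has no
noncyclic abelian subgroup of order 8.  (Proof: helper66, following note 1946.)
-/

set_option autoImplicit false

namespace Cfsg.Agent.Lib.Helper73.QS

variable {G : Type*} [Group G]

/-- A subgroup contained in a set of at most four elements has at most four elements. -/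
theorem qsp1q8_card_le_four [Finite G] (H : Subgroup G) (a b c d : G)
    (h : ∀ x ∈ H, x = a ∨ x = b ∨ x = c ∨ x = d) : Nat.card ↥H ≤ 4 := by
  classical
  have hsub : (H : Set G) ⊆ (({a, b, c, d} : Finset G) : Set G) := by
    intro x hx
    rcases h x hx with h1 | h1 | h1 | h1 <;> simp [h1]
  have h1 : Nat.card ↥H = (H : Set G).ncard := Nat.card_coe_set_eq (H : Set G)
  rw [h1]
  calc (H : Set G).ncard ≤ (({a, b, c, d} : Finset G) : Set G).ncard :=
        Set.ncard_le_ncard hsub (Finset.finite_toSet _)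
    _ = ({a, b, c, d} : Finset G).card := Set.ncard_coe_finset _
    _ ≤ 4 := Finset.card_le_four

theorem qsp1q8_conj_inv {x y : G} (h : x * y * x⁻¹ = y⁻¹) : x⁻¹ * y * x = y⁻¹ := by
  have h' : y = (x * y * x⁻¹)⁻¹ := by rw [h, inv_inv]
  calc x⁻¹ * y * x = x⁻¹ * (x * y * x⁻¹)⁻¹ * x := by rw [← h']
    _ = y⁻¹ := by group

/-- P1Q8: a self-centralizing quaternion group `Q` of order 8 normalized by a 2-group
`X ≥ Q`: `X` has no noncyclic abelian subgroup of order 8. -/
theorem pcore_q8_absurd [Finite G] {Q X A : Subgroup G} (hQ : IsQ8 Q)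
    (hC : Subgroup.centralizer (Q : Set G) ≤ Q) (hX : IsPGroup 2 X) (hQX : Q ≤ X)
    (hXN : X ≤ Subgroup.normalizer (Q : Set G)) (hAX : A ≤ X)
    (hA : ∀ a ∈ A, ∀ b ∈ A, a * b = b * a) (hAc : ¬ IsCyclic ↥A) (hA8 : Nat.card ↥A = 8) :
    False := by
  classical
  have h2 := q8_two_group_index (G := G) hQ hX hQX hXN
  obtain ⟨hQ8, z, hz, hz1, hsq⟩ := hQ
  -- basic facts on the quaternion group
  have hex2 : ∃ y ∈ Q, y ≠ 1 ∧ y ≠ z := by
    by_contra hcon
    push Not at hcon
    have h4 : Nat.card ↥Q ≤ 4 := qsp1q8_card_le_four Q 1 z 1 z (by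
      intro x hx
      by_cases h1 : x = 1
      · exact Or.inl h1
      · exact Or.inr (Or.inl (hcon x hx h1)))
    omega
  have hzz : z * z = 1 := by
    obtain ⟨y, hy, hy1, hyz⟩ := hex2
    have hyy := hsq y hy hy1 hyz
    by_cases hinv : y⁻¹ = z
    · exfalso
      have hy' : y = z⁻¹ := by rw [← hinv, inv_inv]
      rw [hy'] at hyy
      have h3 : z ^ 3 = 1 := by
        calc z ^ 3 = z * z * z := by rw [pow_succ, pow_two]
          _ = z * z * (z⁻¹ * z⁻¹) := by rw [hyy]
          _ = 1 := by group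
      have h8 : z ^ 8 = 1 := by
        have h := pow_card_eq_one' (G := ↥Q) (x := ⟨z, hz⟩)
        rw [hQ8] at h
        simpa using congrArg Subtype.val h
      have h9 : z ^ 9 = 1 := by
        rw [show (9 : ℕ) = 3 * 3 from rfl, pow_mul, h3, one_pow]
      have hz' : z = z ^ 9 * (z ^ 8)⁻¹ := by group
      apply hz1
      rw [hz', h9, h8, inv_one, mul_one]
    · have hy1' : y⁻¹ ≠ 1 := by simpa using hy1
      have hyy' := hsq y⁻¹ (Q.inv_mem hy) hy1' hinv
      calc z * z = (y * y) * (y⁻¹ * y⁻¹) := by rw [hyy, hyy']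
        _ = 1 := by group
  have hzc : ∀ y ∈ Q, z * y = y * z := by
    intro y hy
    by_cases h1 : y = 1
    · rw [h1, mul_one, one_mul]
    by_cases h2 : y = z
    · rw [h2]
    · have := hsq y hy h1 h2
      rw [← this, mul_assoc]
  have hinv : ∀ y ∈ Q, y ≠ 1 → y ≠ z → y⁻¹ = y * z := by
    intro y hy h1 h2
    have := hsq y hy h1 h2
    symm
    apply eq_inv_of_mul_eq_one_right
    rw [← mul_assoc, this, hzz]
  have hne_inv : ∀ y ∈ Q, y ≠ 1 → y ≠ z → y ≠ y⁻¹ := by
    intro y hy h1 h2 h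
    have h3 := hsq y hy h1 h2
    apply hz1
    have h4 : y * y = y * y⁻¹ := congrArg (fun t => y * t) h
    rw [← h3, h4, mul_inv_cancel]
  have hconj : ∀ x ∈ Q, ∀ y ∈ Q, x ≠ 1 → x ≠ z → y ≠ 1 → y ≠ z → x ≠ y → x ≠ y⁻¹ →
      x * y * x⁻¹ = y⁻¹ := by
    intro x hx y hy hx1 hxz hy1 hyz hxy hxy'
    have hxy1 : x * y ≠ 1 := fun h => hxy' (eq_inv_of_mul_eq_one_left h)
    have hxyz : x * y ≠ z := by
      intro h
      apply hxy
      have h1 : x = z * y⁻¹ := by rw [← h]; group
      rw [h1, hinv y hy hy1 hyz, ← mul_assoc, hzc y hy, mul_assoc, hzz, mul_one]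
    have h2' := hsq (x * y) (Q.mul_mem hx hy) hxy1 hxyz
    have h3 := hsq x hx hx1 hxz
    have h4 : y * x * y = x := by
      have : x * (y * x * y) = x * x := by
        rw [h3, ← h2']; group
      exact mul_left_cancel this
    have h5 : x * y = y⁻¹ * x := by
      rw [eq_inv_mul_iff_mul_eq, ← mul_assoc, h4]
    rw [h5, mul_assoc, mul_inv_cancel, mul_one]
  have hcent : ∀ i ∈ Q, i ≠ 1 → i ≠ z → ∀ c ∈ Q, c * i = i * c →
      c = 1 ∨ c = z ∨ c = i ∨ c = i⁻¹ := by
    intro i hi hi1 hiz c hc hci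
    by_contra hcon
    push Not at hcon
    obtain ⟨c1, cz, ci, ci'⟩ := hcon
    have h := hconj c hc i hi c1 cz hi1 hiz ci ci'
    rw [hci, mul_assoc, mul_inv_cancel, mul_one] at h
    exact hne_inv i hi hi1 hiz h
  have hdec : ∀ i ∈ Q, i ≠ 1 → i ≠ z → ∀ j ∈ Q, j ≠ 1 → j ≠ z → j ≠ i → j ≠ i⁻¹ →
      ∀ y ∈ Q, ∃ e, (e = 1 ∨ e = z ∨ e = i ∨ e = i⁻¹) ∧ (y = e ∨ y = e * j) := by
    intro i hi hi1 hiz j hj hj1 hjz hji hji' y hy
    by_cases hcase : y = 1 ∨ y = z ∨ y = i ∨ y = i⁻¹
    · exact ⟨y, hcase, Or.inl rfl⟩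
    · push Not at hcase
      obtain ⟨y1, yz, yi, yi'⟩ := hcase
      have h1 := hconj y hy i hi y1 yz hi1 hiz yi yi'
      have h2' := hconj j hj i hi hj1 hjz hi1 hiz hji hji'
      have h3 := qsp1q8_conj_inv h2'
      have hc : (y * j⁻¹) * i = i * (y * j⁻¹) := by
        calc y * j⁻¹ * i = y * (j⁻¹ * i * j) * j⁻¹ := by group
          _ = y * i⁻¹ * j⁻¹ := by rw [h3]
          _ = (y * i * y⁻¹)⁻¹ * y * j⁻¹ := by group
          _ = i * (y * j⁻¹) := by rw [h1, inv_inv, mul_assoc]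
      have hcm := hcent i hi hi1 hiz (y * j⁻¹) (Q.mul_mem hy (Q.inv_mem hj)) hc
      exact ⟨y * j⁻¹, hcm, Or.inr (by group)⟩
  have hcentQ : ∀ i ∈ Q, i ≠ 1 → i ≠ z → ∀ j ∈ Q, j ≠ 1 → j ≠ z → j ≠ i → j ≠ i⁻¹ →
      ∀ g : G, g * i = i * g → g * j = j * g → g ∈ Q := by
    intro i hi hi1 hiz j hj hj1 hjz hji hji' g hgi hgj
    apply hC
    rw [Subgroup.mem_centralizer_iff]
    intro y hy
    have hii := hsq i hi hi1 hiz
    have hgz : g * z = z * g := by
      calc g * z = g * (i * i) := by rw [hii]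
        _ = g * i * i := by group
        _ = i * g * i := by rw [hgi]
        _ = i * (g * i) := by group
        _ = i * (i * g) := by rw [hgi]
        _ = i * i * g := by group
        _ = z * g := by rw [hii]
    have hgi' : g * i⁻¹ = i⁻¹ * g := by
      calc g * i⁻¹ = i⁻¹ * (i * g) * i⁻¹ := by group
        _ = i⁻¹ * (g * i) * i⁻¹ := by rw [hgi]
        _ = i⁻¹ * g := by group
    have he : ∀ e, (e = 1 ∨ e = z ∨ e = i ∨ e = i⁻¹) → g * e = e * g := by
      rintro e (rfl | rfl | rfl | rfl)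
      · rw [mul_one, one_mul]
      · exact hgz
      · exact hgi
      · exact hgi'
    obtain ⟨e, hemem, hye | hye⟩ := hdec i hi hi1 hiz j hj hj1 hjz hji hji' y hy
    · rw [hye]; exact (he e hemem).symm
    · rw [hye]
      calc e * j * g = e * (j * g) := by group
        _ = e * (g * j) := by rw [hgj]
        _ = e * g * j := by group
        _ = g * e * j := by rw [he e hemem]
        _ = g * (e * j) := by group
  -- the index of `Q` in `X` is at most 2
  have e : Q ⊔ (X ⊓ Subgroup.centralizer (Q : Set G)) = Q :=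
    sup_eq_left.2 (inf_le_right.trans hC)
  rw [e] at h2
  have hmul : ∀ x ∈ X, ∀ y ∈ X, x ∉ Q → y ∉ Q → x * y ∈ Q := by
    intro x hx y hy hxQ hyQ
    have h0 : (Q.subgroupOf X).index ≠ 0 := Subgroup.index_ne_zero_of_finite
    have hle : (Q.subgroupOf X).index ≤ 2 := h2
    have h12 : (Q.subgroupOf X).index = 1 ∨ (Q.subgroupOf X).index = 2 := by omega
    rcases h12 with h1 | h2'
    · rw [Subgroup.index_eq_one, Subgroup.subgroupOf_eq_top] at h1
      exact absurd (h1 hx) hxQ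
    · have := Subgroup.mul_mem_iff_of_index_two h2' (a := (⟨x, hx⟩ : ↥X)) (b := ⟨y, hy⟩)
      rw [Subgroup.mem_subgroupOf, Subgroup.mem_subgroupOf, Subgroup.mem_subgroupOf] at this
      exact this.2 (iff_of_false hxQ hyQ)
  -- elements of order 4
  obtain ⟨i0, hi0, hi01, hi0z⟩ := hex2
  have hexj : ∀ i ∈ Q, ∃ j ∈ Q, j ≠ 1 ∧ j ≠ z ∧ j ≠ i ∧ j ≠ i⁻¹ := by
    intro i hi
    by_contra hcon
    push Not at hcon
    have h4 : Nat.card ↥Q ≤ 4 := qsp1q8_card_le_four Q 1 z i i⁻¹ (by
      intro x hx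
      by_cases h1 : x = 1
      · exact Or.inl h1
      by_cases h2' : x = z
      · exact Or.inr (Or.inl h2')
      by_cases h3 : x = i
      · exact Or.inr (Or.inr (Or.inl h3))
      · exact Or.inr (Or.inr (Or.inr (hcon x hx h1 h2' h3))))
    omega
  -- `A` is not contained in `Q`
  have hAQ : ∃ a ∈ A, a ∉ Q := by
    by_contra hcon
    push Not at hcon
    have hle : A ≤ Q := hcon
    have heq : A = Q := Subgroup.eq_of_le_of_card_ge hle (by rw [hQ8, hA8])
    obtain ⟨j, hj, hj1, hjz, hji, hji'⟩ := hexj i0 hi0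
    have h := hconj j hj i0 hi0 hj1 hjz hi01 hi0z hji hji'
    have hcomm : j * i0 = i0 * j := hA j (heq ▸ hj) i0 (heq ▸ hi0)
    rw [hcomm, mul_assoc, mul_inv_cancel, mul_one] at h
    exact hne_inv i0 hi0 hi01 hi0z h
  obtain ⟨a, haA, haQ⟩ := hAQ
  have haX : a ∈ X := hAX haA
  -- an element of order 4 in `A ⊓ Q`
  have hexi : ∃ i ∈ A, i ∈ Q ∧ i ≠ 1 ∧ i ≠ z := by
    by_contra hcon
    push Not at hcon
    have h4 : Nat.card ↥A ≤ 4 := qsp1q8_card_le_four A 1 z a⁻¹ (a⁻¹ * z) (by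
      intro x hx
      by_cases hxQ : x ∈ Q
      · by_cases h1 : x = 1
        · exact Or.inl h1
        · exact Or.inr (Or.inl (hcon x hx hxQ h1))
      · have hax : a * x ∈ Q := hmul a haX x (hAX hx) haQ hxQ
        by_cases h1 : a * x = 1
        · exact Or.inr (Or.inr (Or.inl (eq_inv_of_mul_eq_one_right h1)))
        · have h3 := hcon (a * x) (A.mul_mem haA hx) hax h1
          refine Or.inr (Or.inr (Or.inr ?_))
          rw [← h3]; group)
    omega
  obtain ⟨i, hiA, hi, hi1, hiz⟩ := hexi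
  have hai : a * i = i * a := hA a haA i hiA
  have hii := hsq i hi hi1 hiz
  -- `a * a ∈ {1, z}`
  have haa : a * a ∈ Q := hmul a haX a haX haQ haQ
  have haa' : a * a = 1 ∨ a * a = z := by
    by_contra hcon
    push Not at hcon
    have h4 := hsq (a * a) haa hcon.1 hcon.2
    have ho : orderOf a = 2 ^ (2 + 1) := by
      apply orderOf_eq_prime_pow
      · intro h
        apply hz1
        have h4' : a ^ 2 ^ 2 = a * a * (a * a) := by
          show a ^ 4 = a * a * (a * a)
          simp only [pow_succ, pow_zero, one_mul, mul_assoc]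
        rw [← h4, ← h4', h]
      · have h8 : a ^ 2 ^ (2 + 1) = (a * a * (a * a)) * (a * a * (a * a)) := by
          show a ^ 8 = (a * a * (a * a)) * (a * a * (a * a))
          simp only [pow_succ, pow_zero, one_mul, mul_assoc]
        rw [h8, h4, hzz]
    apply hAc
    apply isCyclic_of_orderOf_eq_card (⟨a, haA⟩ : ↥A)
    rw [Subgroup.orderOf_mk, ho, hA8]
    norm_num
  have haaQ : ∀ y ∈ Q, (a * a) * y = y * (a * a) := by
    intro y hy
    rcases haa' with h | h
    · rw [h, one_mul, mul_one]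
    · rw [h]; exact hzc y hy
  obtain ⟨j, hj, hj1, hjz, hji, hji'⟩ := hexj i hi
  have hbQ : a * j * a⁻¹ ∈ Q := ((Subgroup.mem_set_normalizer_iff.1 (hXN haX)) j).1 hj
  have haz : a * z = z * a := by
    calc a * z = a * (i * i) := by rw [hii]
      _ = a * i * i := by group
      _ = i * a * i := by rw [hai]
      _ = i * (a * i) := by group
      _ = i * (i * a) := by rw [hai]
      _ = i * i * a := by group
      _ = z * a := by rw [hii]
  have hai' : a * i⁻¹ = i⁻¹ * a := by
    calc a * i⁻¹ = i⁻¹ * (i * a) * i⁻¹ := by group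
      _ = i⁻¹ * (a * i) * i⁻¹ := by rw [hai]
      _ = i⁻¹ * a := by group
  have hfix : ∀ e : G, a * e = e * a → a * j * a⁻¹ = e → j = e := by
    intro e he h
    calc j = a⁻¹ * (a * j * a⁻¹) * a := by group
      _ = a⁻¹ * e * a := by rw [h]
      _ = a⁻¹ * (e * a) := by group
      _ = a⁻¹ * (a * e) := by rw [he]
      _ = e := by group
  have hb1 : a * j * a⁻¹ ≠ 1 := fun h => hj1 (hfix 1 (by rw [mul_one, one_mul]) h)
  have hbz : a * j * a⁻¹ ≠ z := fun h => hjz (hfix z haz h)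
  have hbi : a * j * a⁻¹ ≠ i := fun h => hji (hfix i hai h)
  have hbi' : a * j * a⁻¹ ≠ i⁻¹ := fun h => hji' (hfix i⁻¹ hai' h)
  have hbconj := hconj (a * j * a⁻¹) hbQ i hi hb1 hbz hi1 hiz hbi hbi'
  have hjconj := hconj j hj i hi hj1 hjz hi1 hiz hji hji'
  have hjconj' := qsp1q8_conj_inv hjconj
  have hcQ : a * j * a⁻¹ * j⁻¹ ∈ Q := Q.mul_mem hbQ (Q.inv_mem hj)
  have hci : (a * j * a⁻¹ * j⁻¹) * i = i * (a * j * a⁻¹ * j⁻¹) := by
    calc a * j * a⁻¹ * j⁻¹ * i = a * j * a⁻¹ * (j⁻¹ * i * j) * j⁻¹ := by group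
      _ = a * j * a⁻¹ * i⁻¹ * j⁻¹ := by rw [hjconj']
      _ = (a * j * a⁻¹ * i * (a * j * a⁻¹)⁻¹)⁻¹ * (a * j * a⁻¹) * j⁻¹ := by group
      _ = i * (a * j * a⁻¹) * j⁻¹ := by rw [hbconj, inv_inv]
      _ = i * (a * j * a⁻¹ * j⁻¹) := by group
  have hc4 := hcent i hi hi1 hiz _ hcQ hci
  have hb : a * j * a⁻¹ = (a * j * a⁻¹ * j⁻¹) * j := by group
  have haaj := haaQ j hj
  -- if `a j a⁻¹ = c j` with `c` commuting with `a` then `c * c = 1`
  have hcc : ∀ c : G, a * c = c * a → a * j * a⁻¹ = c * j → c * c = 1 := by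
    intro c hac hbj
    have haj : a * j = c * j * a := by
      calc a * j = a * j * a⁻¹ * a := by group
        _ = c * j * a := by rw [hbj]
    have hcalc : a * a * j = c * c * j * (a * a) := by
      calc a * a * j = a * (a * j) := by group
        _ = a * (c * j * a) := by rw [haj]
        _ = (a * c) * j * a := by group
        _ = c * a * j * a := by rw [hac]
        _ = c * (a * j) * a := by group
        _ = c * (c * j * a) * a := by rw [haj]
        _ = c * c * j * (a * a) := by group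
    rw [haaj] at hcalc
    have h1 : 1 * (j * (a * a)) = c * c * (j * (a * a)) := by
      calc 1 * (j * (a * a)) = j * (a * a) := one_mul _
        _ = c * c * j * (a * a) := hcalc
        _ = c * c * (j * (a * a)) := by rw [mul_assoc (c * c)]
    exact (mul_right_cancel h1).symm
  rcases hc4 with h | h | h | h
  · -- `a` centralizes `j`
    have hbj : a * j * a⁻¹ = j := by rw [hb, h, one_mul]
    have haj : a * j = j * a := by
      calc a * j = a * j * a⁻¹ * a := by group
        _ = j * a := by rw [hbj]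
    exact haQ (hcentQ i hi hi1 hiz j hj hj1 hjz hji hji' a hai haj)
  · -- `a` inverts `j`: then `a * i` centralizes `Q`
    have hzj : z * j = j⁻¹ := by rw [hinv j hj hj1 hjz, hzc j hj]
    have hbj : a * j * a⁻¹ = j⁻¹ := by rw [hb, h, hzj]
    have haj' : a * j⁻¹ = j * a := by
      calc a * j⁻¹ = (a * j * a⁻¹)⁻¹ * a := by group
        _ = j * a := by rw [hbj, inv_inv]
    have hiji := hconj i hi j hj hi1 hiz hj1 hjz (Ne.symm hji)
      (fun h' => hji' (by rw [h', inv_inv]))
    have hij : i * j = j⁻¹ * i := by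
      calc i * j = i * j * i⁻¹ * i := by group
        _ = j⁻¹ * i := by rw [hiji]
    have h1 : (a * i) * i = i * (a * i) := by rw [← mul_assoc, hai]
    have h2' : (a * i) * j = j * (a * i) := by
      calc a * i * j = a * (i * j) := by group
        _ = a * (j⁻¹ * i) := by rw [hij]
        _ = a * j⁻¹ * i := by group
        _ = j * (a * i) := by rw [haj', mul_assoc]
    have hmem := hcentQ i hi hi1 hiz j hj hj1 hjz hji hji' (a * i) h1 h2'
    apply haQ
    have ha' : a = a * i * i⁻¹ := by group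
    rw [ha']
    exact Q.mul_mem hmem (Q.inv_mem hi)
  · -- impossible: `i * i = 1`
    have hbj : a * j * a⁻¹ = i * j := by rw [hb, h]
    have h1 := hcc i hai hbj
    exact hz1 (by rw [← hii, h1])
  · -- impossible: `i⁻¹ * i⁻¹ = 1`
    have hbj : a * j * a⁻¹ = i⁻¹ * j := by rw [hb, h]
    have h1 := hcc i⁻¹ hai' hbj
    have h3 : i * i = (i⁻¹ * i⁻¹)⁻¹ := by rw [mul_inv_rev, inv_inv]
    exact hz1 (by rw [← hii, h3, h1, inv_one])

end Cfsg.Agent.Lib.Helper73.QS
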