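import Mathlib
import Cfsg.Agent.Lib.Helper73.QSDefs
import Cfsg.Agent.Lib.Helper73.QSVA

/-!
# Project QS (S4409, architect helper73): piece P1V4

PLACEHOLDER: replace the body of the theorem in THIS file by a full proof; keep the theorem name
and statement byte-identical; you may add imports of landed libs and auxiliary lemmas (prefix
`qsp1v4_`). Paper proof: note 1946 (select body from notes where id=1946).
-/

set_option autoImplicit false

namespace Cfsg.Agent.Lib.Helper73.QS

variable {G : Type*} [Group G]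

/-- P1V4: a self-centralizing four-group `Q` normalized by a 2-group `X ≥ Q`: `X` has no
abelian subgroup of order 8. -/
theorem pcore_v4_absurd [Finite G] {Q X A : Subgroup G} (hQ : IsV4 Q)
    (hC : Subgroup.centralizer (Q : Set G) ≤ Q) (hX : IsPGroup 2 X) (hQX : Q ≤ X)
    (hXN : X ≤ Subgroup.normalizer (Q : Set G)) (hAX : A ≤ X)
    (hA : ∀ a ∈ A, ∀ b ∈ A, a * b = b * a) (hA8 : Nat.card ↥A = 8) : False := by
  set K : Subgroup G := X ⊓ Subgroup.centralizer (Q : Set G) with hK
  have h2 : K.relIndex X ≤ 2 := v4_two_group_index hQ hX hXN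
  have hKX : K ≤ X := inf_le_left
  have hKQ : K ≤ Q := inf_le_right.trans hC
  have hcK : Nat.card ↥K ≤ 4 := by
    have h1 := Nat.le_of_dvd (by rw [hQ.1]; norm_num) (Subgroup.card_dvd_of_le hKQ)
    rw [hQ.1] at h1
    exact h1
  have hmul : Nat.card ↥K * K.relIndex X = Nat.card ↥X := by
    have h1 := Subgroup.relIndex_mul_relIndex (⊥ : Subgroup G) K X bot_le hKX
    rw [Subgroup.relIndex_bot_left, Subgroup.relIndex_bot_left] at h1
    exact h1
  have hcX : Nat.card ↥X ≤ 8 := by
    rw [← hmul]
    calc Nat.card ↥K * K.relIndex X ≤ 4 * 2 := Nat.mul_le_mul hcK h2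
      _ = 8 := by norm_num
  have hAeq : A = X := Subgroup.eq_of_le_of_card_ge hAX (by rw [hA8]; exact hcX)
  have hQA : Q ≤ A := by rw [hAeq]; exact hQX
  have hAC : A ≤ Subgroup.centralizer (Q : Set G) := by
    intro a ha
    rw [Subgroup.mem_centralizer_iff]
    intro q hq
    exact hA q (hQA hq) a ha
  have h8 := Nat.le_of_dvd (by rw [hQ.1]; norm_num) (Subgroup.card_dvd_of_le (hAC.trans hC))
  rw [hA8, hQ.1] at h8
  omega

end Cfsg.Agent.Lib.Helper73.QS
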