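import Mathlib
import Cfsg.Agent.Lib.Helper73.QSDefs
import Cfsg.Agent.Lib.Helper73.QSAct
import Cfsg.Agent.Lib.Helper73.QSP1V4
import Cfsg.Agent.Lib.Helper73.QSP1Q8
import Cfsg.Agent.Lib.Helper12.CharTwo

/-!
# Project QS (S4409, architect helper73): piece P1S

PLACEHOLDER: replace the body of the theorem in THIS file by a full proof; keep the theorem name
and statement byte-identical; you may add imports of landed libs and auxiliary lemmas (prefix
`qsp1s_`). Paper proof: note 1946 (select body from notes where id=1946).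
-/

set_option autoImplicit false

namespace Cfsg.Agent.Lib.Helper73.QS

variable {G : Type*} [Group G]

/-- P1S: in a solvable group with `O_{2'}(S) = 1` containing a noncyclic abelian subgroup of
order 8, `O_2(S)` is not small. -/
theorem pcore_not_small {S : Type*} [Group S] [Finite S] [Group.IsSolvable S]
    (hO : Cfsg.pPrimeCore 2 S = ⊥)
    (h8 : ∃ A : Subgroup S, IsMulCommutative ↥A ∧ ¬ IsCyclic ↥A ∧ Nat.card ↥A = 8) :
    ¬ Small (Cfsg.pCore 2 S) := by
  intro hs
  obtain ⟨A, hAc, hAnc, hA8⟩ := h8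
  have : Fact (Nat.Prime 2) := ⟨Nat.prime_two⟩
  have hQp : IsPGroup 2 ↥(Cfsg.pCore 2 S) := Cfsg.Agent.Lib.Helper31.pCore_isPGroup 2
  have hCQ : Subgroup.centralizer ((Cfsg.pCore 2 S : Subgroup S) : Set S) ≤ Cfsg.pCore 2 S :=
    Cfsg.Agent.Lib.Helper12.centralizer_pCore_two_le hO
  have hAp : IsPGroup 2 ↥A := IsPGroup.of_card (n := 3) (by rw [hA8]; norm_num)
  obtain ⟨X₁, hAX⟩ := hAp.exists_le_sylow
  have hQX : Cfsg.pCore 2 S ≤ X₁ := hQp.le_sylow_of_normal X₁
  have hXN : (X₁ : Subgroup S) ≤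
      Subgroup.normalizer ((Cfsg.pCore 2 S : Subgroup S) : Set S) := by
    rw [Subgroup.normalizer_eq_top]
    exact le_top
  have hAcomm : ∀ a ∈ A, ∀ b ∈ A, a * b = b * a := fun a ha b hb =>
    congrArg Subtype.val (hAc.is_comm.comm ⟨a, ha⟩ ⟨b, hb⟩)
  have hVQ : IsV4 (Cfsg.pCore 2 S) ∨ IsQ8 (Cfsg.pCore 2 S) := by
    by_cases h2 : IsPGroup 2 S
    · exfalso
      have htop : Cfsg.pCore 2 S = ⊤ := by
        rw [eq_top_iff]
        exact Cfsg.Agent.Lib.Helper31.le_pCore inferInstance (h2.to_subgroup ⊤)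
      exact hAnc (hs A (by rw [htop]; exact le_top) hAc hA8)
    · obtain ⟨r, hr, hrS, hr2⟩ : ∃ r : ℕ, r.Prime ∧ r ∣ Nat.card S ∧ r ≠ 2 := by
        by_contra hcon
        push Not at hcon
        apply h2
        exact IsPGroup.of_card (Nat.eq_prime_pow_of_unique_prime_dvd Nat.card_pos.ne'
          (fun {d} hd hdvd => hcon d hd hdvd))
      have : Fact r.Prime := ⟨hr⟩
      obtain ⟨h, hh⟩ := exists_prime_orderOf_dvd_card' r hrS
      have hHodd : Odd (Nat.card (Subgroup.zpowers h)) := by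
        rw [Nat.card_zpowers, hh]
        exact hr.odd_of_ne_two hr2
      have hHN : Subgroup.zpowers h ≤
          Subgroup.normalizer ((Cfsg.pCore 2 S : Subgroup S) : Set S) := by
        rw [Subgroup.normalizer_eq_top]
        exact le_top
      have hnc : ¬ Subgroup.zpowers h ≤
          Subgroup.centralizer ((Cfsg.pCore 2 S : Subgroup S) : Set S) := by
        intro hle
        have hhQ : h ∈ Cfsg.pCore 2 S := hCQ (hle (Subgroup.mem_zpowers h))
        obtain ⟨k, hk⟩ := (IsPGroup.iff_orderOf.mp hQp) ⟨h, hhQ⟩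
        rw [Subgroup.orderOf_mk, hh] at hk
        have h2r : (2 : ℕ) ∣ r := by
          rcases Nat.eq_zero_or_pos k with rfl | hkpos
          · rw [pow_zero] at hk
            exact absurd hk hr.one_lt.ne'
          · rw [hk]
            exact dvd_pow_self 2 hkpos.ne'
        exact hr2 ((Nat.prime_dvd_prime_iff_eq Nat.prime_two hr).mp h2r).symm
      exact small_act hQp hHodd hHN hs hnc
  rcases hVQ with hV | hQ8
  · exact pcore_v4_absurd hV hCQ X₁.isPGroup' hQX hXN hAX hAcomm hA8
  · exact pcore_q8_absurd hQ8 hCQ X₁.isPGroup' hQX hXN hAX hAcomm hAnc hA8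

end Cfsg.Agent.Lib.Helper73.QS
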