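import Mathlib
import Cfsg.Agent.Lib.Helper73.QSDefs
import Cfsg.Agent.Lib.Helper12.NormAbCyc2

/-!
# Project QS (S4409, architect helper73): piece Q8REC

PLACEHOLDER: replace the body of the theorem in THIS file by a full proof; keep the theorem name
and statement byte-identical; you may add imports of landed libs and auxiliary lemmas (prefix
`qsq8rec_`). Paper proof: note 1946 (select body from notes where id=1946).
-/

set_option autoImplicit false
set_option linter.style.haveILetI false

namespace Cfsg.Agent.Lib.Helper73.QS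

variable {G : Type*} [Group G]

/-- abstract form: a group of order 8 with an element `z ≠ 1` such that every element other
than `1, z` squares to `z` is quaternion. -/
theorem qsq8rec_abstract {Q : Type*} [Group Q] [Finite Q] (hcard : Nat.card Q = 8) (z : Q)
    (hz1 : z ≠ 1) (hsq : ∀ y : Q, y ≠ 1 → y ≠ z → y * y = z) :
    Nonempty (Q ≃* QuaternionGroup 2) := by
  classical
  letI : Fintype Q := Fintype.ofFinite Q
  have hc8 : (Finset.univ : Finset Q).card = 8 := by
    rw [Finset.card_univ, ← Nat.card_eq_fintype_card, hcard]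
  -- pick i
  obtain ⟨i, hi⟩ : ∃ i : Q, i ∉ ({1, z} : Finset Q) := by
    by_contra hcon
    push Not at hcon
    have hsub : (Finset.univ : Finset Q) ⊆ {1, z} := fun y _ => hcon y
    have := Finset.card_le_card hsub
    have h2 := Finset.card_le_two (a := (1 : Q)) (b := z)
    omega
  have hi1 : i ≠ 1 := fun h => hi (by rw [h]; simp)
  have hiz : i ≠ z := fun h => hi (by rw [h]; simp)
  have hii : i * i = z := hsq i hi1 hiz
  -- i^4 = 1
  have hi3 : i * z ≠ 1 := by
    intro h
    -- i^3 = 1 and i ≠ 1: order 3 does not divide 8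
    have h3 : i ^ 3 = 1 := by
      have h3' : i ^ 3 = i * (i * i) := by
        rw [pow_succ, pow_two, mul_assoc]
      rw [h3', hii]
      exact h
    have ho : orderOf i = 3 := orderOf_eq_prime h3 hi1
    have hd : orderOf i ∣ Nat.card Q := orderOf_dvd_natCard i
    rw [ho, hcard] at hd
    omega
  have hi3z : i * z ≠ z := by
    intro h
    exact hi1 (mul_eq_right.mp h)
  have hzz : z * z = 1 := by
    have h6 := hsq (i * z) hi3 hi3z
    -- (i z)(i z) = z, with z = i i: i^6 = i^2
    rw [← hii] at h6
    have h7 : i * (i * i) * (i * (i * i)) = i * i * (i * i * (i * i)) := by group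
    rw [h7] at h6
    have h8 : i * i * (i * i) = 1 := mul_eq_left.mp h6
    rw [← hii]
    exact h8
  have hi4 : i ^ 4 = 1 := by
    have : i ^ 4 = (i ^ 2) ^ 2 := by rw [← pow_mul]
    rw [this, pow_two i, hii, pow_two, hzz]
  have hi2 : i ^ 2 = z := by rw [pow_two, hii]
  have hord : orderOf i = 2 * 2 := by
    have := orderOf_eq_prime_pow (p := 2) (n := 1) (x := i) (by rw [pow_one, hi2]; exact hz1)
      (by norm_num; exact hi4)
    rw [this]
    norm_num
  -- pick j
  obtain ⟨j, hj⟩ : ∃ j : Q, j ∉ ({1, z, i, i⁻¹} : Finset Q) := by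
    by_contra hcon
    push Not at hcon
    have hsub : (Finset.univ : Finset Q) ⊆ {1, z, i, i⁻¹} := fun y _ => hcon y
    have := Finset.card_le_card hsub
    have h2 := Finset.card_le_four (a := (1 : Q)) (b := z) (c := i) (d := i⁻¹)
    omega
  simp only [Finset.mem_insert, Finset.mem_singleton, not_or] at hj
  obtain ⟨hj1, hjz, hji, hjinv⟩ := hj
  have hjj : j * j = z := hsq j hj1 hjz
  have hji1 : j * i ≠ 1 := by
    intro h
    exact hjinv (eq_inv_of_mul_eq_one_left h)
  have hjiz : j * i ≠ z := by
    intro h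
    rw [← hii] at h
    exact hji (mul_right_cancel h)
  have hjiji : j * i * (j * i) = z := hsq (j * i) hji1 hjiz
  have hconj : j * i * j⁻¹ = i⁻¹ := by
    -- j i j i = j j  =>  i j i = j  =>  j i j⁻¹ = i⁻¹
    have h1 : i * j * i = j := by
      have h2 : j * (i * j * i) = j * j := by
        rw [hjj, ← hjiji]; group
      exact mul_left_cancel h2
    have h3 : j * i = i⁻¹ * j := by
      rw [eq_inv_mul_iff_mul_eq, ← mul_assoc, h1]
    rw [h3, mul_inv_cancel_right]
  exact Cfsg.Agent.Lib.Helper12.nonempty_mulEquiv_quaternion (le_refl 2) i j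
    (by rw [hcard]) hord (by rw [pow_two, hjj, hi2]) hconj

/-- Q8REC: the elementary description `IsQ8` gives Mathlib's `QuaternionGroup 2`. -/
theorem q8_iso [Finite G] {Y : Subgroup G} (h : IsQ8 Y) :
    Nonempty (↥Y ≃* QuaternionGroup 2) := by
  obtain ⟨hcard, z, hz, hz1, hsq⟩ := h
  refine qsq8rec_abstract hcard ⟨z, hz⟩ (fun h => hz1 (congrArg Subtype.val h)) ?_
  intro y hy1 hyz
  apply Subtype.ext
  exact hsq y.1 y.2 (fun h => hy1 (Subtype.ext h)) (fun h => hyz (Subtype.ext h))

end Cfsg.Agent.Lib.Helper73.QS
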