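import Mathlib
import Cfsg.Agent.Lib.Helper73.QSDefs
import Cfsg.Agent.Lib.Helper72.Frattini

/-!
# Project QS (S4409, architect helper73): piece SPEC (helper3)
-/

set_option autoImplicit false

namespace Cfsg.Agent.Lib.Helper73.QS

variable {G : Type*} [Group G]

/-- SPEC: translation to the Prelude predicate `IsSpecial` on the subtype `↥X`. -/
theorem to_special [Finite G] (X : Subgroup G) (hX : IsPGroup 2 X)
    (h1 : ⁅X, X⁆ = X ⊓ Subgroup.centralizer (X : Set G))
    (h2 : ∀ x ∈ X, x * x ∈ Subgroup.centralizer (X : Set G)) :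
    Cfsg.IsSpecial 2 ↥X ∧
      Nat.card ↥(Subgroup.center ↥X) = Nat.card ↥(X ⊓ Subgroup.centralizer (X : Set G)) := by
  have hp2 : Fact (Nat.Prime 2) := ⟨Nat.prime_two⟩
  have hcen : ∀ c : ↥X, c ∈ Subgroup.center ↥X ↔ (c : G) ∈ Subgroup.centralizer (X : Set G) := by
    intro c
    rw [Subgroup.mem_center_iff, Subgroup.mem_centralizer_iff]
    constructor
    · intro h g hg
      exact congrArg Subtype.val (h ⟨g, hg⟩)
    · intro h g
      exact Subtype.ext (h g g.2)
  have hmapc : (commutator ↥X).map X.subtype = ⁅X, X⁆ := by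
    rw [commutator_def, Subgroup.map_commutator, ← MonoidHom.range_eq_map, Subgroup.range_subtype]
  have hcomm : ∀ c : ↥X, c ∈ commutator ↥X ↔ (c : G) ∈ ⁅X, X⁆ := by
    intro c
    rw [← hmapc]
    exact (Subgroup.mem_map_iff_mem X.subtype_injective).symm
  have hcc : commutator ↥X = Subgroup.center ↥X := by
    ext c
    rw [hcomm, hcen, h1]
    exact ⟨fun h => h.2, fun h => ⟨c.2, h⟩⟩
  have hfc : frattini ↥X = Subgroup.center ↥X := by
    apply le_antisymm
    · refine Cfsg.Agent.Lib.Helper72.frattini_le_of_forall_pow_mem Nat.prime_two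
        (Subgroup.center ↥X) ?_ ?_
      · intro x
        rw [hcen, pow_two]
        exact h2 x x.2
      · intro x y
        rw [← hcc, commutator_def]
        have := Subgroup.commutator_mem_commutator (Subgroup.mem_top x) (Subgroup.mem_top y)
        rwa [commutatorElement_def] at this
    · rw [← hcc, commutator_def, Subgroup.commutator_le]
      intro x _ y _
      rw [commutatorElement_def]
      exact Cfsg.Agent.Lib.Helper72.comm_mem_frattini hX x y
  refine ⟨⟨hX, hfc, hcc⟩, ?_⟩
  have hmap : (Subgroup.center ↥X).map X.subtype = X ⊓ Subgroup.centralizer (X : Set G) := by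
    ext x
    constructor
    · rintro ⟨c, hc, rfl⟩
      exact ⟨c.2, (hcen c).mp hc⟩
    · rintro ⟨hx, hxc⟩
      exact ⟨⟨x, hx⟩, (hcen ⟨x, hx⟩).mpr hxc, rfl⟩
  rw [← hmap]
  exact (Subgroup.card_map_of_injective X.subtype_injective).symm

end Cfsg.Agent.Lib.Helper73.QS
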