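import Mathlib
import Cfsg.Agent.Lib.Helper93.SUPair

/-!
Piece S2 of S2283 (poster helper93): a torus element and one non-swapping transvection on a
hyperbolic line give the full root groups at `E`, `Fv` and `E + γ • Fv`.
-/

set_option autoImplicit false
set_option linter.unusedSectionVars false
set_option linter.unusedVariables false

namespace Cfsg.Agent.Lib.Helper73.RU3

open Matrix Cfsg.Agent.Lib.Helper7 Cfsg.Agent.Lib.Helper18 Cfsg.Agent.Lib.Helper93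

variable {F : Type*} [Field F] [Fintype F] {q : ℕ}

theorem MIn_pow {n : ℕ} {M : Subgroup (GL (Fin n) F)} {A : Matrix (Fin n) (Fin n) F}
    (hA : MIn M A) (k : ℕ) : MIn M (A ^ k) := by
  induction k with
  | zero => rw [pow_zero]; exact MIn.one M
  | succ k ih => rw [pow_succ]; exact ih.mul hA

theorem pow_mulVec_eigen {n : ℕ} (S : Matrix (Fin n) (Fin n) F) (v : Fin n → F) (a : F)
    (h : S *ᵥ v = a • v) (k : ℕ) : (S ^ k) *ᵥ v = a ^ k • v := by
  induction k with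
  | zero => simp
  | succ k ih =>
    rw [pow_succ, ← Matrix.mulVec_mulVec, h, Matrix.mulVec_smul, ih, smul_smul, pow_succ,
      mul_comm]

theorem transvection_mul_neg {n : ℕ} (e : Fin n → F)
    (hee : Cfsg.hermForm n F q e e = 0) (c : F) :
    Cfsg.unitaryTransvection n q e c * Cfsg.unitaryTransvection n q e (-c) = 1 := by
  apply Matrix.mulVec_injective
  funext x
  rw [← Matrix.mulVec_mulVec, unitaryTransvection_mulVec, unitaryTransvection_mulVec,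
    Matrix.one_mulVec, hf_add_left, hf_smul_left, hee]
  module

theorem step2 (hF : Fintype.card F = q ^ 2) {M : Subgroup (GL (Fin 3) F)}
    (hM : M ≤ Cfsg.GU 3 F q ⊓ Cfsg.Geo.specialLinear (Fin 3) F)
    {E Fv : Fin 3 → F} (hEE : Cfsg.hermForm 3 F q E E = 0) (hFF : Cfsg.hermForm 3 F q Fv Fv = 0)
    (hEF : Cfsg.hermForm 3 F q E Fv = 1)
    {t : F} (ht : t ≠ 0) {S : Matrix (Fin 3) (Fin 3) F} (hS : MIn M S)
    (hSE : S *ᵥ E = t • E) (hSF : S *ᵥ Fv = (t ^ q)⁻¹ • Fv)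
    (hρ : ∀ r : F, r ≠ 0 → r ^ q = r → ∃ k : ℕ, (t * t ^ q) ^ k = r)
    {γ κ : F} (hγ0 : γ ≠ 0) (hγ : γ + γ ^ q = 0) (hκ0 : κ ≠ 0) (hκ : κ + κ ^ q = 0)
    (hns : κ * γ ≠ 1)
    (hX : MIn M (Cfsg.unitaryTransvection 3 q (E + γ • Fv) κ)) :
    Cen q M E ∧ Cen q M Fv ∧ Cen q M (E + γ • Fv) := by
  classical
  have hFE : Cfsg.hermForm 3 F q Fv E = 1 := by rw [hf_conj hF 3 E Fv, hEF, one_pow]
  have hγq : γ ^ q = -γ := by linear_combination hγ
  have hκq : κ ^ q = -κ := by linear_combination hκ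
  obtain ⟨e, he⟩ : ∃ e : Fin 3 → F, e = E + γ • Fv := ⟨_, rfl⟩
  rw [← he] at hX ⊢
  have hEe : Cfsg.hermForm 3 F q E e = -γ := by
    rw [he, hf_add_right hF, hf_smul_right, hEE, hEF, hγq]; ring
  have hFe : Cfsg.hermForm 3 F q Fv e = 1 := by
    rw [he, hf_add_right hF, hf_smul_right, hFE, hFF]; ring
  have hee : Cfsg.hermForm 3 F q e e = 0 := by
    have h1 : Cfsg.hermForm 3 F q (E + γ • Fv) e = 0 := by
      rw [hf_add_left, hf_smul_left, hEe, hFe]; ring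
    rw [← he] at h1
    exact h1
  obtain ⟨c1, hc1def⟩ : ∃ c1 : F, c1 = 1 - κ * γ := ⟨_, rfl⟩
  have hc1 : c1 ≠ 0 := by
    rw [hc1def]
    intro h
    apply hns
    linear_combination -h
  have hc1q : c1 ^ q = c1 := by
    rw [hc1def, herm_sub_pow hF, one_pow, mul_pow, hκq, hγq]; ring
  have hκγ0 : κ * γ ≠ 0 := mul_ne_zero hκ0 hγ0
  have hκγq : (κ * γ) ^ q = κ * γ := by rw [mul_pow, hκq, hγq]; ring
  have hρq : (t * t ^ q) ^ q = t * t ^ q := by rw [mul_pow, herm_pow_pow hF]; ring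
  obtain ⟨k, hk⟩ := hρ (-c1 / (κ * γ)) (div_ne_zero (neg_ne_zero.mpr hc1) hκγ0)
    (by rw [div_pow, herm_neg_pow hF, hc1q, hκγq])
  have hXE : Cfsg.unitaryTransvection 3 q e κ *ᵥ E = c1 • E - (κ * γ ^ 2) • Fv := by
    rw [unitaryTransvection_mulVec, hEe, he, hc1def]
    module
  have hSk : MIn M (S ^ k) := MIn_pow hS k
  have hSkE : S ^ k *ᵥ E = t ^ k • E := pow_mulVec_eigen S E t hSE k
  have hSkF : S ^ k *ᵥ Fv = ((t ^ q)⁻¹) ^ k • Fv := pow_mulVec_eigen S Fv _ hSF k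
  have hSke : S ^ k *ᵥ e = t ^ k • E + (γ * ((t ^ q)⁻¹) ^ k) • Fv := by
    rw [he, Matrix.mulVec_add, Matrix.mulVec_smul, hSkE, hSkF, smul_smul]
  have htk : t ^ k ≠ 0 := pow_ne_zero _ ht
  have htqk : (t ^ q) ^ k ≠ 0 := pow_ne_zero _ (pow_ne_zero _ ht)
  have hk3 : t ^ k * (t ^ q) ^ k * (κ * γ) = -c1 := by
    rw [← mul_pow, hk]
    field_simp
  have hsc : -(κ * γ ^ 2) = c1 / t ^ k * (γ * ((t ^ q)⁻¹) ^ k) := by
    rw [inv_pow]
    field_simp
    linear_combination (-1 : F) * hk3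
  have hkey : Cfsg.unitaryTransvection 3 q e κ *ᵥ E = (c1 / t ^ k) • (S ^ k *ᵥ e) := by
    rw [hXE, hSke, smul_add, smul_smul, smul_smul, div_mul_cancel₀ _ htk, sub_eq_add_neg,
      ← neg_smul, hsc]
  have hZ : MIn M (Cfsg.unitaryTransvection 3 q (S ^ k *ᵥ e) κ) :=
    MIn.conj hSk hX (conj_transvection (S ^ k) (hSk.pres hM) e κ)
  have hP : MIn M (Cfsg.unitaryTransvection 3 q e (-κ)) :=
    MIn.of_mul_eq_one hX (transvection_mul_neg e hee κ)
  have hPZ : MIn M (Cfsg.unitaryTransvection 3 q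
      (Cfsg.unitaryTransvection 3 q e (-κ) *ᵥ (S ^ k *ᵥ e)) κ) :=
    MIn.conj hP hZ (conj_transvection _ (hP.pres hM) _ κ)
  have hPS : Cfsg.unitaryTransvection 3 q e (-κ) *ᵥ (S ^ k *ᵥ e) = (t ^ k / c1) • E := by
    have h1 : S ^ k *ᵥ e = (t ^ k / c1) • (Cfsg.unitaryTransvection 3 q e κ *ᵥ E) := by
      rw [hkey, smul_smul]
      have h2 : t ^ k / c1 * (c1 / t ^ k) = 1 := by field_simp
      rw [h2, one_smul]
    have h3 : Cfsg.unitaryTransvection 3 q e (-κ) * Cfsg.unitaryTransvection 3 q e κ = 1 := by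
      have h4 := transvection_mul_neg (q := q) e hee (-κ)
      rwa [neg_neg] at h4
    rw [h1, Matrix.mulVec_smul, Matrix.mulVec_mulVec, h3, Matrix.one_mulVec]
  rw [hPS, transvection_smul hF] at hPZ
  obtain ⟨κE, hκEdef⟩ : ∃ κE : F, κE = t ^ k / c1 * (t ^ k / c1) ^ q * κ := ⟨_, rfl⟩
  rw [← hκEdef] at hPZ
  have hκE0 : κE ≠ 0 := by
    rw [hκEdef]
    exact mul_ne_zero (mul_ne_zero (div_ne_zero htk hc1)
      (pow_ne_zero _ (div_ne_zero htk hc1))) hκ0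
  have hκEq : κE ^ q = -κE := by
    rw [hκEdef, mul_pow, mul_pow, herm_pow_pow hF, hκq]; ring
  have hTj : ∀ j : ℕ, MIn M (Cfsg.unitaryTransvection 3 q E ((t * t ^ q) ^ j * κE)) := by
    intro j
    have hSj : MIn M (S ^ j) := MIn_pow hS j
    have h1 := MIn.conj hSj hPZ (conj_transvection (S ^ j) (hSj.pres hM) E κE)
    rw [pow_mulVec_eigen S E t hSE j, transvection_smul hF] at h1
    have h2 : (t * t ^ q) ^ j * κE = t ^ j * (t ^ j) ^ q * κE := by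
      rw [mul_pow, ← pow_mul, ← pow_mul, mul_comm q j]
    rw [h2]
    exact h1
  have hCenE : Cen q M E := by
    refine ⟨hEE, fun c hc => ?_⟩
    by_cases hc0 : c = 0
    · rw [hc0, Cfsg.Agent.Lib.Helper7.transvection_zero]
      exact MIn.one M
    · have hcq : c ^ q = -c := by linear_combination hc
      obtain ⟨j, hj⟩ := hρ (c / κE) (div_ne_zero hc0 hκE0)
        (by rw [div_pow, hcq, hκEq, neg_div_neg_eq])
      have h1 := hTj j
      rw [hj, div_mul_cancel₀ _ hκE0] at h1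
      exact h1
  have hCenXE : Cen q M (Cfsg.unitaryTransvection 3 q e κ *ᵥ E) := hCenE.map hM hX
  rw [hXE] at hCenXE
  have hXEE : Cfsg.hermForm 3 F q (c1 • E - (κ * γ ^ 2) • Fv) E = -(κ * γ ^ 2) := by
    rw [hf_sub_left, hf_smul_left, hf_smul_left, hEE, hFE]; ring
  obtain ⟨c2, hc2def⟩ : ∃ c2 : F, c2 = -(κ * γ ^ 2) := ⟨_, rfl⟩
  have hc20 : c2 ≠ 0 := by
    rw [hc2def]
    exact neg_ne_zero.mpr (mul_ne_zero hκ0 (pow_ne_zero _ hγ0))
  have hc2q : c2 ^ q = -c2 := by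
    rw [hc2def, herm_neg_pow hF, mul_pow, ← pow_mul, mul_comm 2 q, pow_mul, hκq, hγq]; ring
  have hcK : (-c1 / c2) + (-c1 / c2) ^ q = 0 := by
    rw [div_pow, herm_neg_pow hF, hc1q, hc2q]
    field_simp
    ring
  have h3 := Cen.hyp hM hCenE hCenXE (-c1 / c2) hcK
  rw [hXEE, ← hc2def] at h3
  have h4 : c1 • E - (κ * γ ^ 2) • Fv + (-c1 / c2 * c2) • E = c2 • Fv := by
    rw [div_mul_cancel₀ _ hc20, hc2def]
    module
  rw [h4] at h3
  have hCenF : Cen q M Fv := by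
    have h5 := h3.smul hF c2⁻¹
    rwa [smul_smul, inv_mul_cancel₀ hc20, one_smul] at h5
  have hγinvK : γ⁻¹ + (γ⁻¹) ^ q = 0 := by
    rw [inv_pow, hγq]
    field_simp
    ring
  have h5 := Cen.hyp hM hCenE hCenF γ⁻¹ hγinvK
  rw [hFE, mul_one] at h5
  have h6 := h5.smul hF γ
  have h7 : γ • (Fv + γ⁻¹ • E) = e := by
    rw [he, smul_add, smul_smul, mul_inv_cancel₀ hγ0, one_smul, add_comm]
  rw [h7] at h6
  exact ⟨hCenE, hCenF, h6⟩

end Cfsg.Agent.Lib.Helper73.RU3
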