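import Mathlib
import Cfsg.Agent.Lib.Helper93.Sl3Defs

/-!
# S2287, piece STEIN: `x₁₃` commutes with `x₁₂` and `x₂₃`
-/

set_option autoImplicit false

namespace Cfsg.Agent.Lib.Helper93.Sl3

open Polynomial Matrix

variable {F : Type*} [Field F] {P : Type*} [Group P] {ζ : F} {x : F → P} {h t c : P}

/-- STEIN -/
theorem stein_comm (hadd : ∀ a b, x (a + b) = x a * x b)
    (hst : ∀ a b : F, x a * (c * x b * c⁻¹) * (x a)⁻¹ * (c * x b * c⁻¹)⁻¹ =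
      t * c * x (a * b) * c⁻¹ * t⁻¹) :
    (∀ a d : F, Commute (x a) (t * c * x d * c⁻¹ * t⁻¹)) ∧
    (∀ b d : F, Commute (c * x b * c⁻¹) (t * c * x d * c⁻¹ * t⁻¹)) := by
  have hX : ∀ d1 d2 : F, t * c * x (d1 + d2) * c⁻¹ * t⁻¹ =
      (t * c * x d1 * c⁻¹ * t⁻¹) * (t * c * x d2 * c⁻¹ * t⁻¹) := by
    intro d1 d2
    rw [hadd]
    group
  have hW : ∀ b1 b2 : F, c * x (b1 + b2) * c⁻¹ = (c * x b1 * c⁻¹) * (c * x b2 * c⁻¹) := by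
    intro b1 b2
    rw [hadd]
    group
  have key1 : ∀ a : F, x a * (c * x 1 * c⁻¹) * (x a)⁻¹ * (c * x 1 * c⁻¹)⁻¹ =
      t * c * x a * c⁻¹ * t⁻¹ := by
    intro a
    have := hst a 1
    rwa [mul_one] at this
  have key2 : ∀ b : F, x 1 * (c * x b * c⁻¹) * (x 1)⁻¹ * (c * x b * c⁻¹)⁻¹ =
      t * c * x b * c⁻¹ * t⁻¹ := by
    intro b
    have := hst 1 b
    rwa [one_mul] at this
  constructor
  · intro a d
    have e1 : t * c * x (a + d) * c⁻¹ * t⁻¹ =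
        x a * (t * c * x d * c⁻¹ * t⁻¹) * (x a)⁻¹ * (t * c * x a * c⁻¹ * t⁻¹) := by
      calc t * c * x (a + d) * c⁻¹ * t⁻¹
          = x (a + d) * (c * x 1 * c⁻¹) * (x (a + d))⁻¹ * (c * x 1 * c⁻¹)⁻¹ := (key1 (a + d)).symm
        _ = (x a * x d) * (c * x 1 * c⁻¹) * (x a * x d)⁻¹ * (c * x 1 * c⁻¹)⁻¹ := by rw [hadd]
        _ = x a * (x d * (c * x 1 * c⁻¹) * (x d)⁻¹ * (c * x 1 * c⁻¹)⁻¹) * (x a)⁻¹ *
              (x a * (c * x 1 * c⁻¹) * (x a)⁻¹ * (c * x 1 * c⁻¹)⁻¹) := by group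
        _ = x a * (t * c * x d * c⁻¹ * t⁻¹) * (x a)⁻¹ * (t * c * x a * c⁻¹ * t⁻¹) := by
            rw [key1 d, key1 a]
    have e2 : t * c * x (a + d) * c⁻¹ * t⁻¹ =
        (t * c * x d * c⁻¹ * t⁻¹) * (t * c * x a * c⁻¹ * t⁻¹) := by
      rw [add_comm, hX]
    have e3 : x a * (t * c * x d * c⁻¹ * t⁻¹) * (x a)⁻¹ = t * c * x d * c⁻¹ * t⁻¹ :=
      mul_right_cancel (e1.symm.trans e2)
    show x a * (t * c * x d * c⁻¹ * t⁻¹) = (t * c * x d * c⁻¹ * t⁻¹) * x a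
    exact mul_inv_eq_iff_eq_mul.1 e3
  · intro b d
    have e1 : t * c * x (b + d) * c⁻¹ * t⁻¹ =
        (t * c * x b * c⁻¹ * t⁻¹) *
          ((c * x b * c⁻¹) * (t * c * x d * c⁻¹ * t⁻¹) * (c * x b * c⁻¹)⁻¹) := by
      calc t * c * x (b + d) * c⁻¹ * t⁻¹
          = x 1 * (c * x (b + d) * c⁻¹) * (x 1)⁻¹ * (c * x (b + d) * c⁻¹)⁻¹ := (key2 (b + d)).symm
        _ = x 1 * ((c * x b * c⁻¹) * (c * x d * c⁻¹)) * (x 1)⁻¹ *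
              ((c * x b * c⁻¹) * (c * x d * c⁻¹))⁻¹ := by rw [hW]
        _ = (x 1 * (c * x b * c⁻¹) * (x 1)⁻¹ * (c * x b * c⁻¹)⁻¹) *
              ((c * x b * c⁻¹) * (x 1 * (c * x d * c⁻¹) * (x 1)⁻¹ * (c * x d * c⁻¹)⁻¹) *
                (c * x b * c⁻¹)⁻¹) := by group
        _ = (t * c * x b * c⁻¹ * t⁻¹) *
              ((c * x b * c⁻¹) * (t * c * x d * c⁻¹ * t⁻¹) * (c * x b * c⁻¹)⁻¹) := by
            rw [key2 b, key2 d]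
    have e2 := hX b d
    have e3 : (c * x b * c⁻¹) * (t * c * x d * c⁻¹ * t⁻¹) * (c * x b * c⁻¹)⁻¹ =
        t * c * x d * c⁻¹ * t⁻¹ :=
      mul_left_cancel (e1.symm.trans e2)
    show (c * x b * c⁻¹) * (t * c * x d * c⁻¹ * t⁻¹) = (t * c * x d * c⁻¹ * t⁻¹) * (c * x b * c⁻¹)
    exact mul_inv_eq_iff_eq_mul.1 e3

end Cfsg.Agent.Lib.Helper93.Sl3
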