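import Mathlib
import Cfsg.Agent.Lib.Helper93.Sl3Defs

/-!
# S2287, piece TORREL: relations in the torus and the Weyl group
-/

set_option autoImplicit false

namespace Cfsg.Agent.Lib.Helper93.Sl3

open Polynomial Matrix

variable {F : Type*} [Field F] {P : Type*} [Group P] {ζ : F} {x : F → P} {h t c : P}

/-- TORREL -/
theorem torRel (D : RootData ζ x h t c) : TorRel h t c := by
  have cc : c * c = c⁻¹ := by
    have h3 : c * c * c = 1 := by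
      have := D.c3
      rw [pow_succ, pow_two] at this
      exact this
    exact eq_inv_of_mul_eq_one_left h3
  have ct1 : c * t⁻¹ = t * c⁻¹ := by
    have h2 : (c * t⁻¹) * (c * t⁻¹) = 1 := by
      have := D.ct
      rw [pow_two] at this
      exact this
    have := eq_inv_of_mul_eq_one_left h2
    rw [_root_.mul_inv_rev, inv_inv] at this
    exact this
  have th' : t⁻¹ * h * t = h⁻¹ := by
    calc t⁻¹ * h * t = (t⁻¹ * h⁻¹ * t)⁻¹ := by group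
      _ = (t⁻¹ * (t * h * t⁻¹) * t)⁻¹ := by rw [D.th]
      _ = h⁻¹ := by group
  have th3 : t * (c⁻¹ * h * c) * t⁻¹ = gC h c := by
    unfold gC
    calc t * (c⁻¹ * h * c) * t⁻¹ = (t * c⁻¹) * h * (t * c⁻¹)⁻¹ := by group
      _ = (c * t⁻¹) * h * (c * t⁻¹)⁻¹ := by rw [ct1]
      _ = c * (t⁻¹ * h * t) * c⁻¹ := by group
      _ = c * h⁻¹ * c⁻¹ := by rw [th']
  have e2 : c * h * c⁻¹ = h⁻¹ * (c⁻¹ * h * c)⁻¹ := by
    calc c * h * c⁻¹ = h⁻¹ * (h * (c * h * c⁻¹) * (c⁻¹ * h * c)) * (c⁻¹ * h * c)⁻¹ := by group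
      _ = h⁻¹ * (c⁻¹ * h * c)⁻¹ := by rw [D.hprod, mul_one]
  have th2 : t * (c * h * c⁻¹) * t⁻¹ = h * (c * h * c⁻¹) := by
    calc t * (c * h * c⁻¹) * t⁻¹ = t * (h⁻¹ * (c⁻¹ * h * c)⁻¹) * t⁻¹ := by rw [← e2]
      _ = (t * h * t⁻¹)⁻¹ * (t * (c⁻¹ * h * c) * t⁻¹)⁻¹ := by group
      _ = (h⁻¹)⁻¹ * (gC h c)⁻¹ := by rw [D.th, th3]
      _ = h * (c * h * c⁻¹) := by unfold gC; group
  refine ⟨?_, ?_, ?_, ct1, th', th3, th2, ?_⟩
  · calc c * h * c⁻¹ * (c⁻¹ * h * c) = c * h * c⁻¹ * ((c * c) * h * (c * c)⁻¹) := by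
          rw [cc, inv_inv]
      _ = c * (h * (c * h * c⁻¹)) * c⁻¹ := by group
      _ = c * (c * h * c⁻¹ * h) * c⁻¹ := by rw [D.hh]
      _ = ((c * c) * h * (c * c)⁻¹) * (c * h * c⁻¹) := by group
      _ = c⁻¹ * h * c * (c * h * c⁻¹) := by rw [cc, inv_inv]
  · calc h * (c⁻¹ * h * c) = c⁻¹ * ((c * h * c⁻¹) * h) * c := by group
      _ = c⁻¹ * (h * (c * h * c⁻¹)) * c := by rw [D.hh]
      _ = c⁻¹ * h * c * h := by group
  · exact eq_inv_of_mul_eq_one_right D.hprod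
  · calc (gC h c)⁻¹ * t * gC h c = (c * h * c⁻¹) * t * (c * h * c⁻¹)⁻¹ := by unfold gC; group
      _ = h⁻¹ * (h * (c * h * c⁻¹)) * t * (c * h * c⁻¹)⁻¹ := by group
      _ = h⁻¹ * (t * (c * h * c⁻¹) * t⁻¹) * t * (c * h * c⁻¹)⁻¹ := by rw [th2]
      _ = h⁻¹ * t := by group

end Cfsg.Agent.Lib.Helper93.Sl3
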