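import Mathlib
import Cfsg.Agent.Lib.Helper73.Count

set_option autoImplicit false
universe u

namespace Cfsg.Agent.Lib.Helper73.TIHall

/-- the part of `X` lying in the conjugate `y H y⁻¹` -/
def conjPart {G : Type*} [Group G] (H X : Subgroup G) (y : G) : Subgroup X where
  carrier := {x : X | y⁻¹ * (x : G) * y ∈ H}
  one_mem' := by
    show y⁻¹ * ((1 : X) : G) * y ∈ H
    simp
  mul_mem' := by
    intro a b ha hb
    show y⁻¹ * ((a * b : X) : G) * y ∈ H
    have h : y⁻¹ * ((a * b : X) : G) * y = (y⁻¹ * (a : G) * y) * (y⁻¹ * (b : G) * y) := by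
      push_cast; group
    rw [h]; exact H.mul_mem ha hb
  inv_mem' := by
    intro a ha
    show y⁻¹ * ((a⁻¹ : X) : G) * y ∈ H
    have h : y⁻¹ * ((a⁻¹ : X) : G) * y = (y⁻¹ * (a : G) * y)⁻¹ := by
      push_cast; group
    rw [h]; exact H.inv_mem ha

theorem mem_conjPart {G : Type*} [Group G] (H X : Subgroup G) (y : G) (x : X) :
    x ∈ conjPart H X y ↔ y⁻¹ * (x : G) * y ∈ H := Iff.rfl

/-- two conjugate parts sharing a nontrivial element coincide -/
theorem conjPart_eq {G : Type*} [Group G] (H M X : Subgroup G)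
    (hTI : ∀ g : G, ∀ u ∈ H, u ≠ 1 → g * u * g⁻¹ ∈ H → g ∈ M)
    (hMn : ∀ g ∈ M, ∀ h ∈ H, g * h * g⁻¹ ∈ H)
    (y z : G) (x : X) (hx1 : x ≠ 1) (hy : x ∈ conjPart H X y) (hz : x ∈ conjPart H X z) :
    conjPart H X y = conjPart H X z := by
  rw [mem_conjPart] at hy hz
  have hu1 : z⁻¹ * (x : G) * z ≠ 1 := by
    intro h
    apply hx1
    have : (x : G) = 1 := by
      calc (x : G) = z * (z⁻¹ * (x : G) * z) * z⁻¹ := by group
        _ = 1 := by rw [h]; group
    exact Subtype.ext this
  have hg : y⁻¹ * z ∈ M := by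
    apply hTI (y⁻¹ * z) _ hz hu1
    have : y⁻¹ * z * (z⁻¹ * (x : G) * z) * (y⁻¹ * z)⁻¹ = y⁻¹ * (x : G) * y := by group
    rw [this]; exact hy
  have hg' : (y⁻¹ * z)⁻¹ ∈ M := M.inv_mem hg
  ext w
  rw [mem_conjPart, mem_conjPart]
  constructor
  · intro hw
    have := hMn _ hg' _ hw
    have e : (y⁻¹ * z)⁻¹ * (y⁻¹ * (w : G) * y) * (y⁻¹ * z)⁻¹⁻¹ = z⁻¹ * (w : G) * z := by group
    rw [e] at this; exact this
  · intro hw
    have := hMn _ hg _ hw
    have e : (y⁻¹ * z) * (z⁻¹ * (w : G) * z) * (y⁻¹ * z)⁻¹ = y⁻¹ * (w : G) * y := by group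
    rw [e] at this; exact this

/-- a conjugate part is self-normalizing in the TI sense -/
theorem conjPart_self_norm {G : Type*} [Group G] [Finite G] (H M X : Subgroup G)
    (hTI : ∀ g : G, ∀ u ∈ H, u ≠ 1 → g * u * g⁻¹ ∈ H → g ∈ M)
    (hMH : ∀ g ∈ M, (orderOf g).Coprime H.index → g ∈ H)
    (hX : (Nat.card X).Coprime H.index)
    (y : G) (w x : X) (hx1 : x ≠ 1) (hx : x ∈ conjPart H X y)
    (hwx : w * x * w⁻¹ ∈ conjPart H X y) : w ∈ conjPart H X y := by
  rw [mem_conjPart] at hx hwx ⊢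
  have hu1 : y⁻¹ * (x : G) * y ≠ 1 := by
    intro h
    apply hx1
    have : (x : G) = 1 := by
      calc (x : G) = y * (y⁻¹ * (x : G) * y) * y⁻¹ := by group
        _ = 1 := by rw [h]; group
    exact Subtype.ext this
  have hg : y⁻¹ * (w : G) * y ∈ M := by
    apply hTI _ _ hx hu1
    have : y⁻¹ * (w : G) * y * (y⁻¹ * (x : G) * y) * (y⁻¹ * (w : G) * y)⁻¹
        = y⁻¹ * ((w * x * w⁻¹ : X) : G) * y := by
      push_cast; group
    rw [this]; exact hwx
  apply hMH _ hg
  have ho : orderOf (y⁻¹ * (w : G) * y) = orderOf w := by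
    have h1 := (MulAut.conj y⁻¹).orderOf_eq (w : G)
    have h2 : (MulAut.conj y⁻¹) (w : G) = y⁻¹ * (w : G) * y := by simp
    rw [h2] at h1
    rw [h1, Subgroup.orderOf_coe]
  rw [ho]
  exact Nat.Coprime.coprime_dvd_left (orderOf_dvd_natCard w) hX

/-- every Sylow subgroup of `X` lies in one conjugate part -/
theorem sylow_le_conjPart {G : Type*} [Group G] [Finite G] (H X : Subgroup G)
    (hX : (Nat.card X).Coprime H.index) (p : ℕ) [Fact p.Prime] (P : Sylow p X) :
    ∃ y : G, (P : Subgroup X) ≤ conjPart H X y := by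
  classical
  have hp : p.Prime := Fact.out
  by_cases hpX : p ∣ Nat.card X
  · have hpi : ¬ p ∣ H.index := by
      intro h
      have := Nat.dvd_gcd hpX h
      rw [hX] at this
      exact hp.one_lt.ne' (Nat.dvd_one.mp this)
    obtain PH : Sylow p H := default
    have hPH : IsPGroup p ((PH : Subgroup H).map H.subtype) :=
      PH.isPGroup'.map H.subtype
    have hidx : ¬ p ∣ ((PH : Subgroup H).map H.subtype).index := by
      rw [Subgroup.index_map_subtype]
      intro h
      rcases (Nat.Prime.dvd_mul hp).mp h with h | h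
      · exact PH.not_dvd_index h
      · exact hpi h
    let PG : Sylow p G := hPH.toSylow hidx
    have hP1 : IsPGroup p ((P : Subgroup X).map X.subtype) := P.isPGroup'.map X.subtype
    obtain ⟨Q, hQ⟩ := hP1.exists_le_sylow
    obtain ⟨g, hg⟩ := MulAction.exists_smul_eq G PG Q
    refine ⟨g, ?_⟩
    intro x hx
    rw [mem_conjPart]
    have hxQ : (x : G) ∈ (Q : Subgroup G) := hQ ⟨x, hx, rfl⟩
    rw [← hg, Sylow.coe_subgroup_smul, Subgroup.mem_pointwise_smul_iff_inv_smul_mem] at hxQ
    have hmem : (MulAut.conj g)⁻¹ • (x : G) ∈ (PH : Subgroup H).map H.subtype := hxQ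
    obtain ⟨h, -, hh⟩ := hmem
    have e : (MulAut.conj g)⁻¹ • (x : G) = g⁻¹ * (x : G) * g := by
      simp [MulAut.smul_def]
    rw [← e, ← hh]
    exact h.2
  · refine ⟨1, ?_⟩
    intro x hx
    have hc : Nat.card (P : Subgroup X) = 1 := by
      have h1 := P.card_eq_multiplicity
      rw [Nat.factorization_eq_zero_of_not_dvd hpX, pow_zero] at h1
      exact h1
    have hbot : (P : Subgroup X) = ⊥ := Subgroup.eq_bot_of_card_eq _ hc
    rw [hbot, Subgroup.mem_bot] at hx
    rw [hx]
    exact Subgroup.one_mem _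

/-- conjugating by an element of `X` does not change the size of a conjugate part -/
theorem card_conjPart_mul {G : Type*} [Group G] (H X : Subgroup G) (w : X) (y : G) :
    Nat.card (conjPart H X ((w : G) * y)) = Nat.card (conjPart H X y) := by
  apply Nat.card_congr
  exact
    { toFun := fun x => ⟨w⁻¹ * x.1 * w, by
        have h := x.2
        rw [mem_conjPart] at h ⊢
        have e : y⁻¹ * ((w⁻¹ * x.1 * w : X) : G) * y
            = ((w : G) * y)⁻¹ * (x.1 : G) * ((w : G) * y) := by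
          push_cast; group
        rw [e]; exact h⟩
      invFun := fun x => ⟨w * x.1 * w⁻¹, by
        have h := x.2
        rw [mem_conjPart] at h ⊢
        have e : ((w : G) * y)⁻¹ * ((w * x.1 * w⁻¹ : X) : G) * ((w : G) * y)
            = y⁻¹ * (x.1 : G) * y := by
          push_cast; group
        rw [e]; exact h⟩
      left_inv := fun x => by
        apply Subtype.ext
        show w * (w⁻¹ * x.1 * w) * w⁻¹ = x.1
        group
      right_inv := fun x => by
        apply Subtype.ext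
        show w⁻¹ * (w * x.1 * w⁻¹) * w = x.1
        group }

/-- counting the nonidentity elements of the conjugates of a conjugate part -/
theorem card_conj_union {G : Type*} [Group G] [Finite G] (H M X : Subgroup G)
    (hTI : ∀ g : G, ∀ u ∈ H, u ≠ 1 → g * u * g⁻¹ ∈ H → g ∈ M)
    (hMH : ∀ g ∈ M, (orderOf g).Coprime H.index → g ∈ H)
    (hX : (Nat.card X).Coprime H.index) (y : G) (hb : 2 ≤ Nat.card (conjPart H X y)) :
    Nat.card X ≤ 2 * Nat.card {z : X // ∃ g : X, ∃ s ∈ {s : X | s ∈ conjPart H X y ∧ s ≠ 1},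
      z = g * s * g⁻¹} := by
  classical
  set S := conjPart H X y with hS
  set T : Set X := {s : X | s ∈ S ∧ s ≠ 1} with hT
  have hcount := Cfsg.Agent.Lib.Helper73.ti_count (G := X) S T
    (by
      intro h hh s hs
      refine ⟨S.mul_mem (S.mul_mem hh hs.1) (S.inv_mem hh), ?_⟩
      intro h1
      apply hs.2
      calc s = h⁻¹ * (h * s * h⁻¹) * h := by group
        _ = 1 := by rw [h1]; group)
    (by
      intro g hg s hs hgs
      exact hg (conjPart_self_norm H M X hTI hMH hX y g s hs.2 hs.1 hgs.1))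
  have hTc : Nat.card T + 1 = Nat.card S := by
    have h1 : T = (S : Set X) \ {1} := by
      ext s
      simp [hT]
    rw [Nat.card_coe_set_eq, h1, Set.ncard_diff_singleton_add_one (Subgroup.one_mem S)]
    exact (Nat.card_coe_set_eq (S : Set X)).symm
  set u := Nat.card {z : X // ∃ g : X, ∃ s ∈ T, z = g * s * g⁻¹} with hu
  set b := Nat.card S with hbdef
  set n := Nat.card X with hn
  set t := Nat.card T with ht
  have h1 : n * b ≤ 2 * u * b := by
    have : 2 * u * b = 2 * (n * t) := by rw [← hcount]; ring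
    rw [this]
    have : b = t + 1 := hTc.symm
    rw [this]
    have ht1 : 1 ≤ t := by omega
    nlinarith
  exact Nat.le_of_mul_le_mul_right h1 (by omega)

/-- `D_π`-type lemma for a TI Hall subgroup: every subgroup of order coprime to the index of
`H` is conjugate into `H`. -/
theorem exists_conj_le {G : Type*} [Group G] [Finite G] (H M : Subgroup G)
    (hTI : ∀ g : G, ∀ u ∈ H, u ≠ 1 → g * u * g⁻¹ ∈ H → g ∈ M)
    (hMn : ∀ g ∈ M, ∀ h ∈ H, g * h * g⁻¹ ∈ H)
    (hMH : ∀ g ∈ M, (orderOf g).Coprime H.index → g ∈ H)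
    (X : Subgroup G) (hX : (Nat.card X).Coprime H.index) :
    ∃ y : G, ∀ x ∈ X, y⁻¹ * x * y ∈ H := by
  classical
  by_contra hne
  push_neg at hne
  have hne' : ∀ y : G, conjPart H X y ≠ ⊤ := by
    intro y h
    obtain ⟨x, hx, hxn⟩ := hne y
    apply hxn
    have : (⟨x, hx⟩ : X) ∈ conjPart H X y := by rw [h]; trivial
    exact this
  have hX1 : Nat.card X ≠ 1 := by
    intro h
    obtain ⟨x, hx, hxn⟩ := hne 1
    have : X = ⊥ := Subgroup.eq_bot_of_card_eq _ h
    rw [this, Subgroup.mem_bot] at hx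
    apply hxn; rw [hx]; simp
  obtain ⟨p, hp, hpX⟩ := Nat.exists_prime_and_dvd hX1
  haveI : Fact p.Prime := ⟨hp⟩
  obtain P : Sylow p X := default
  obtain ⟨y₁, hy₁⟩ := sylow_le_conjPart H X hX p P
  have hidx1 : (conjPart H X y₁).index ≠ 1 := by
    intro h; exact hne' y₁ (Subgroup.index_eq_one.mp h)
  obtain ⟨q, hq, hqS⟩ := Nat.exists_prime_and_dvd hidx1
  haveI : Fact q.Prime := ⟨hq⟩
  obtain Q : Sylow q X := default
  obtain ⟨y₂, hy₂⟩ := sylow_le_conjPart H X hX q Q
  have hqX : q ∣ Nat.card X := dvd_trans hqS (Subgroup.index_dvd_card _)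
  have hb1 : 2 ≤ Nat.card (conjPart H X y₁) := by
    have h1 : p ∣ Nat.card (conjPart H X y₁) :=
      dvd_trans (P.dvd_card_of_dvd_card hpX) (Subgroup.card_dvd_of_le hy₁)
    exact le_trans hp.two_le (Nat.le_of_dvd Nat.card_pos h1)
  have hb2 : 2 ≤ Nat.card (conjPart H X y₂) := by
    have h1 : q ∣ Nat.card (conjPart H X y₂) :=
      dvd_trans (Q.dvd_card_of_dvd_card hqX) (Subgroup.card_dvd_of_le hy₂)
    exact le_trans hq.two_le (Nat.le_of_dvd Nat.card_pos h1)
  have hq2 : ¬ q ∣ (conjPart H X y₂).index := fun h =>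
    Q.not_dvd_index (dvd_trans h (Subgroup.index_dvd_of_le hy₂))
  have hc1 := card_conj_union H M X hTI hMH hX y₁ hb1
  have hc2 := card_conj_union H M X hTI hMH hX y₂ hb2
  set U₁ := {z : X // ∃ g : X, ∃ s ∈ {s : X | s ∈ conjPart H X y₁ ∧ s ≠ 1}, z = g * s * g⁻¹}
    with hU₁
  set U₂ := {z : X // ∃ g : X, ∃ s ∈ {s : X | s ∈ conjPart H X y₂ ∧ s ≠ 1}, z = g * s * g⁻¹}
    with hU₂
  let f : (U₁ ⊕ U₂) ⊕ Unit → X := Sum.elim (Sum.elim (fun z => z.1) (fun z => z.1)) (fun _ => 1)
  have hne1 : ∀ (y : G) (z : X), (∃ g : X, ∃ s ∈ {s : X | s ∈ conjPart H X y ∧ s ≠ 1},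
      z = g * s * g⁻¹) → z ≠ 1 := by
    rintro y z ⟨g, s, hs, rfl⟩ h1
    apply hs.2
    calc s = g⁻¹ * (g * s * g⁻¹) * g := by group
      _ = 1 := by rw [h1]; group
  have hmemc : ∀ (y : G) (z : X), (∃ g : X, ∃ s ∈ {s : X | s ∈ conjPart H X y ∧ s ≠ 1},
      z = g * s * g⁻¹) → ∃ g : X, z ∈ conjPart H X ((g : G) * y) := by
    rintro y z ⟨g, s, hs, rfl⟩
    refine ⟨g, ?_⟩
    rw [mem_conjPart]
    have e : ((g : G) * y)⁻¹ * ((g * s * g⁻¹ : X) : G) * ((g : G) * y) = y⁻¹ * (s : G) * y := by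
      push_cast; group
    rw [e]; exact hs.1
  have hdisj : ∀ (a : U₁) (b : U₂), a.1 ≠ b.1 := by
    intro a b hab
    obtain ⟨g₁, h₁⟩ := hmemc y₁ a.1 a.2
    obtain ⟨g₂, h₂⟩ := hmemc y₂ b.1 b.2
    rw [← hab] at h₂
    have heq := conjPart_eq H M X hTI hMn _ _ a.1 (hne1 y₁ a.1 a.2) h₁ h₂
    have hcard : Nat.card (conjPart H X y₁) = Nat.card (conjPart H X y₂) := by
      rw [← card_conjPart_mul H X g₁ y₁, ← card_conjPart_mul H X g₂ y₂, heq]
    have hi : (conjPart H X y₁).index = (conjPart H X y₂).index := by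
      have e1 := Subgroup.card_mul_index (conjPart H X y₁)
      have e2 := Subgroup.card_mul_index (conjPart H X y₂)
      rw [hcard] at e1
      have hpos : 0 < Nat.card (conjPart H X y₂) := Nat.card_pos
      exact Nat.eq_of_mul_eq_mul_left hpos (e1.trans e2.symm)
    exact hq2 (hi ▸ hqS)
  have hf : Function.Injective f := by
    rintro ((a | a) | a) ((b | b) | b) hab
    · have : a = b := Subtype.ext hab
      rw [this]
    · exact absurd hab (hdisj a b)
    · exact absurd hab (hne1 y₁ a.1 a.2)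
    · exact absurd hab.symm (hdisj b a)
    · have : a = b := Subtype.ext hab
      rw [this]
    · exact absurd hab (hne1 y₂ a.1 a.2)
    · exact absurd hab.symm (hne1 y₁ b.1 b.2)
    · exact absurd hab.symm (hne1 y₂ b.1 b.2)
    · rfl
  have hle := Nat.card_le_card_of_injective f hf
  rw [Nat.card_sum, Nat.card_sum] at hle
  have hunit : Nat.card Unit = 1 := by simp
  rw [hunit] at hle
  omega

/-- a `p`-subgroup is conjugate into `H` when `p` does not divide the index of `H` -/
theorem exists_conj_le_of_pgroup {G : Type*} [Group G] [Finite G] (H : Subgroup G) (p : ℕ)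
    [Fact p.Prime] (hpi : ¬ p ∣ H.index) (P : Subgroup G) (hP : IsPGroup p P) :
    ∃ y : G, ∀ x ∈ P, y⁻¹ * x * y ∈ H := by
  classical
  have hp : p.Prime := Fact.out
  obtain PH : Sylow p H := default
  have hPH : IsPGroup p ((PH : Subgroup H).map H.subtype) := PH.isPGroup'.map H.subtype
  have hidx : ¬ p ∣ ((PH : Subgroup H).map H.subtype).index := by
    rw [Subgroup.index_map_subtype]
    intro h
    rcases (Nat.Prime.dvd_mul hp).mp h with h | h
    · exact PH.not_dvd_index h
    · exact hpi h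
  let PG : Sylow p G := hPH.toSylow hidx
  obtain ⟨Q, hQ⟩ := hP.exists_le_sylow
  obtain ⟨g, hg⟩ := MulAction.exists_smul_eq G PG Q
  refine ⟨g, ?_⟩
  intro x hx
  have hxQ : x ∈ (Q : Subgroup G) := hQ hx
  rw [← hg, Sylow.coe_subgroup_smul, Subgroup.mem_pointwise_smul_iff_inv_smul_mem] at hxQ
  have hmem : (MulAut.conj g)⁻¹ • x ∈ (PH : Subgroup H).map H.subtype := hxQ
  obtain ⟨h, -, hh⟩ := hmem
  have e : (MulAut.conj g)⁻¹ • x = g⁻¹ * x * g := by simp [MulAut.smul_def]
  rw [← e, ← hh]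
  exact h.2

/-- an element killed by two coprime powers is trivial -/
theorem eq_one_of_pow_of_coprime {G : Type*} [Group G] {g : G} {m n : ℕ} (h1 : g ^ m = 1)
    (h2 : g ^ n = 1) (hc : m.Coprime n) : g = 1 := by
  have d1 := orderOf_dvd_of_pow_eq_one h1
  have d2 := orderOf_dvd_of_pow_eq_one h2
  have : orderOf g ∣ 1 := by
    have := Nat.dvd_gcd d1 d2
    rwa [hc] at this
  exact orderOf_eq_one_iff.mp (Nat.dvd_one.mp this)

/-- an element commuting with `H` normalizes `H` -/
theorem mem_normalizer_of_commute {G : Type*} [Group G] (H : Subgroup G) (n : G)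
    (h : ∀ x ∈ H, n * x = x * n) : n ∈ Subgroup.normalizer (H : Set G) := by
  apply Subgroup.centralizer_le_normalizer
  rw [Subgroup.mem_centralizer_iff]
  intro x hx
  exact (h x hx).symm

/-- elements of the normalizer of order coprime to the index lie in `H` -/
theorem mem_of_mem_normalizer_of_coprime {G : Type*} [Group G] [Finite G] (H : Subgroup G) (g : G)
    (hg : g ∈ Subgroup.normalizer (H : Set G)) (hc : (orderOf g).Coprime H.index) : g ∈ H := by
  haveI : (H.subgroupOf (Subgroup.normalizer (H : Set G))).Normal := Subgroup.normal_in_normalizer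
  have h1 := Subgroup.pow_index_mem (H.subgroupOf (Subgroup.normalizer (H : Set G)))
    (⟨g, hg⟩ : Subgroup.normalizer (H : Set G))
  have h2 : g ^ (H.subgroupOf (Subgroup.normalizer (H : Set G))).index ∈ H := by
    rw [Subgroup.mem_subgroupOf] at h1
    simpa using h1
  have hd : (H.subgroupOf (Subgroup.normalizer (H : Set G))).index ∣ H.index :=
    Subgroup.relIndex_dvd_index_of_le Subgroup.le_normalizer
  have hc' : ((H.subgroupOf (Subgroup.normalizer (H : Set G))).index).Coprime (orderOf g) :=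
    (Nat.Coprime.coprime_dvd_right hd hc).symm
  obtain ⟨m, hm⟩ := exists_pow_eq_self_of_coprime hc'
  rw [← hm]
  exact H.pow_mem h2 m

/-- `D_π` for a TI subgroup: every subgroup of order coprime to the index of `H` is conjugate
into `H`. -/
theorem exists_conj_le_ti {G : Type*} [Group G] [Finite G] (H : Subgroup G)
    (hTI : ∀ g : G, ∀ u ∈ H, u ≠ 1 → g * u * g⁻¹ ∈ H → g ∈ Subgroup.normalizer (H : Set G))
    (X : Subgroup G) (hX : (Nat.card X).Coprime H.index) :
    ∃ y : G, ∀ x ∈ X, y⁻¹ * x * y ∈ H :=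
  exists_conj_le H (Subgroup.normalizer (H : Set G)) hTI
    (fun g hg h hh => (Subgroup.mem_normalizer_iff.mp hg h).mp hh)
    (fun g hg hc => mem_of_mem_normalizer_of_coprime H g hg hc) X hX

/-- a TI subgroup that is a Hall subgroup of its normalizer is a Hall subgroup -/
theorem coprime_index_of_ti {G : Type*} [Group G] [Finite G] (H : Subgroup G)
    (hTI : ∀ g : G, ∀ u ∈ H, u ≠ 1 → g * u * g⁻¹ ∈ H → g ∈ Subgroup.normalizer (H : Set G))
    (hHall : (Nat.card H).Coprime (H.subgroupOf (Subgroup.normalizer (H : Set G))).index) :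
    (Nat.card H).Coprime H.index := by
  classical
  apply Nat.coprime_of_dvd
  intro p hp hpH hpi
  haveI : Fact p.Prime := ⟨hp⟩
  obtain P : Sylow p H := default
  set P' := (P : Subgroup H).map H.subtype with hP'
  set n := (Nat.card H).factorization p with hn
  have hcP : Nat.card P' = p ^ n := by
    rw [hP', Subgroup.card_map_of_injective H.subtype_injective]
    exact P.card_eq_multiplicity
  have hdvd : p ^ (n + 1) ∣ Nat.card G := by
    rw [← Subgroup.card_mul_index H, pow_succ]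
    exact Nat.mul_dvd_mul (Nat.ordProj_dvd _ _) hpi
  have h1 := Sylow.prime_dvd_card_quotient_normalizer hdvd hcP
  set T := Subgroup.normalizer (P' : Set G) with hT
  set M := Subgroup.normalizer (H : Set G) with hM
  have hP'T : P' ≤ T := Subgroup.le_normalizer
  have hcT : Nat.card T = p ^ n * Nat.card (T ⧸ Subgroup.comap T.subtype P') := by
    rw [← Subgroup.index_eq_card, ← hcP]
    have e1 := Subgroup.card_mul_index (Subgroup.comap T.subtype P')
    have e2 : Nat.card (Subgroup.comap T.subtype P') = Nat.card P' :=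
      Nat.card_congr (Subgroup.subgroupOfEquivOfLe hP'T).toEquiv
    rw [e2] at e1
    exact e1.symm
  have hn1 : n ≠ 0 := by
    rw [hn]
    have : 0 < (Nat.card H).factorization p :=
      hp.factorization_pos_of_dvd Nat.card_pos.ne' hpH
    omega
  have hP'1 : ∃ u ∈ P', u ≠ 1 := by
    by_contra hcon
    push_neg at hcon
    have : P' = ⊥ := (Subgroup.eq_bot_iff_forall _).mpr hcon
    rw [this, Subgroup.card_bot] at hcP
    have h2 : 1 < p ^ n := Nat.one_lt_pow hn1 hp.one_lt
    omega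
  obtain ⟨u, hu, hu1⟩ := hP'1
  have hP'H : P' ≤ H := Subgroup.map_subtype_le _
  have hTM : T ≤ M := by
    intro t ht
    apply hTI t u (hP'H hu) hu1
    exact hP'H ((Subgroup.mem_normalizer_iff.mp ht u).mp hu)
  have hdT : p ^ (n + 1) ∣ Nat.card T := by
    rw [hcT, pow_succ]
    exact Nat.mul_dvd_mul_left _ h1
  have hdM : p ^ (n + 1) ∣ Nat.card M := dvd_trans hdT (Subgroup.card_dvd_of_le hTM)
  have hcM : Nat.card M = Nat.card H * (H.subgroupOf M).index := by
    have e1 := Subgroup.card_mul_index (H.subgroupOf M)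
    have e2 : Nat.card (H.subgroupOf M) = Nat.card H :=
      Nat.card_congr (Subgroup.subgroupOfEquivOfLe Subgroup.le_normalizer).toEquiv
    rw [e2] at e1
    exact e1.symm
  rw [hcM] at hdM
  have hcop : (p ^ (n + 1)).Coprime (H.subgroupOf M).index := by
    apply Nat.Coprime.pow_left
    exact Nat.Coprime.coprime_dvd_left hpH hHall
  have := hcop.dvd_of_dvd_mul_right hdM
  exact Nat.pow_succ_factorization_not_dvd Nat.card_pos.ne' hp this

/-- An `r`-group `R` normalized by a group `A` of order prime to `r`, all of whose nonidentity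
elements have the same proper centralizer `S` in `R`, yields a Frobenius-type group
`N_R(S)/S ⋊ A` in which `A` acts without fixed points. -/
theorem frobenius_of_action {G : Type u} [Group G] [Finite G] (r : ℕ) [Fact r.Prime]
    (R A S : Subgroup G) (hR : IsPGroup r R) (hAr : (Nat.card A).Coprime r) (hA1 : A ≠ ⊥)
    (hAR : ∀ a ∈ A, ∀ x ∈ R, a * x * a⁻¹ ∈ R)
    (hSR : S ≤ R) (hSne : S ≠ R)
    (hcent : ∀ a ∈ A, a ≠ 1 → ∀ x ∈ R, (x * a = a * x ↔ x ∈ S)) :
    ∃ (F : Type u) (_ : Group F) (_ : Finite F) (Kf Cf : Subgroup F), Kf.Normal ∧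
      Kf.IsComplement' Cf ∧ Kf ≠ ⊥ ∧
      (∀ c ∈ Cf, c ≠ 1 → Kf ⊓ Subgroup.centralizer {c} = ⊥) ∧ Nonempty (A ≃* Cf) := by
  classical
  -- `r`-elements of `A` are trivial
  have hRA : ∀ a ∈ A, a ∈ R → a = 1 := by
    intro a haA haR
    obtain ⟨k, hk⟩ := hR ⟨a, haR⟩
    have h1 : a ^ r ^ k = 1 := by
      have := congrArg Subtype.val hk
      simpa using this
    have h2 : a ^ Nat.card A = 1 := by
      have h : (⟨a, haA⟩ : A) ^ Nat.card A = 1 := pow_card_eq_one'
      have h' := congrArg (fun z : A => (z : G)) h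
      simpa only [Subgroup.coe_pow, Subgroup.coe_one] using h'
    exact eq_one_of_pow_of_coprime h2 h1 (Nat.Coprime.pow_right k hAr)
  -- `A` centralizes `S`
  have hAS : ∀ a ∈ A, ∀ s ∈ S, s * a = a * s := by
    intro a ha s hs
    by_cases ha1 : a = 1
    · rw [ha1]; simp
    · exact (hcent a ha ha1 s (hSR hs)).mpr hs
  have hAnS : A ≤ Subgroup.normalizer (S : Set G) := by
    intro a ha
    exact mem_normalizer_of_commute S a (fun x hx => (hAS a ha x hx).symm)
  set R₁ : Subgroup G := R ⊓ Subgroup.normalizer (S : Set G) with hR₁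
  have hSR₁ : S ≤ R₁ := le_inf hSR Subgroup.le_normalizer
  -- normalizer condition
  have hex : ∃ x ∈ R₁, x ∉ S := by
    haveI : Group.IsNilpotent R := hR.isNilpotent
    have hnc : NormalizerCondition R := Group.normalizerCondition_of_isNilpotent
    have hlt : S.subgroupOf R < ⊤ := by
      rw [lt_top_iff_ne_top]
      intro h
      apply hSne
      apply le_antisymm hSR
      intro x hx
      have : (⟨x, hx⟩ : R) ∈ S.subgroupOf R := by rw [h]; trivial
      exact this
    have h2 := hnc _ hlt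
    obtain ⟨x, hxn, hxS⟩ := SetLike.exists_of_lt h2
    refine ⟨(x : G), Subgroup.mem_inf.mpr ⟨x.2, ?_⟩, fun h => hxS h⟩
    rw [Subgroup.mem_normalizer_iff]
    intro h
    have hx' := Subgroup.mem_normalizer_iff.mp hxn
    constructor
    · intro hh
      have := (hx' ⟨h, hSR hh⟩).mp hh
      exact this
    · intro hh
      have hhR : h ∈ R := by
        have e : h = (x : G)⁻¹ * ((x : G) * h * (x : G)⁻¹) * (x : G) := by group
        rw [e]
        exact R.mul_mem (R.mul_mem (R.inv_mem x.2) (hSR hh)) x.2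
      exact (hx' ⟨h, hhR⟩).mpr hh
  obtain ⟨x₀, hx₀R₁, hx₀S⟩ := hex
  -- `A` normalizes `R₁`
  have hAR₁ : ∀ a ∈ A, ∀ x ∈ R₁, a * x * a⁻¹ ∈ R₁ := by
    intro a ha x hx
    refine ⟨hAR a ha x hx.1, ?_⟩
    exact Subgroup.mul_mem _ (Subgroup.mul_mem _ (hAnS ha) hx.2) (Subgroup.inv_mem _ (hAnS ha))
  have hAnR₁ : A ≤ Subgroup.normalizer (R₁ : Set G) := by
    intro a ha
    rw [Subgroup.mem_normalizer_iff]
    intro h
    constructor
    · intro hh
      exact hAR₁ a ha h hh
    · intro hh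
      have := hAR₁ a⁻¹ (A.inv_mem ha) _ hh
      have e : a⁻¹ * (a * h * a⁻¹) * a⁻¹⁻¹ = h := by group
      rw [e] at this
      exact this
  set T : Subgroup G := R₁ ⊔ A with hT
  have hTmem : ∀ t ∈ T, ∃ x ∈ R₁, ∃ a ∈ A, x * a = t := by
    intro t ht
    have : t ∈ ((R₁ ⊔ A : Subgroup G) : Set G) := ht
    rw [Subgroup.coe_mul_of_right_le_normalizer_left R₁ A hAnR₁] at this
    exact Set.mem_mul.mp this
  have hTnS : T ≤ Subgroup.normalizer (S : Set G) := sup_le inf_le_right hAnS
  have hTnR₁ : T ≤ Subgroup.normalizer (R₁ : Set G) := sup_le Subgroup.le_normalizer hAnR₁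
  haveI hSn : (S.subgroupOf T).Normal := Subgroup.normal_subgroupOf_of_le_normalizer hTnS
  let π : T →* (T ⧸ S.subgroupOf T) := QuotientGroup.mk' (S.subgroupOf T)
  have hπ1 : ∀ t : T, π t = 1 ↔ (t : G) ∈ S := by
    intro t
    show ((t : T ⧸ S.subgroupOf T)) = 1 ↔ _
    rw [QuotientGroup.eq_one_iff, Subgroup.mem_subgroupOf]
  let fK : R₁ →* (T ⧸ S.subgroupOf T) := π.comp (Subgroup.inclusion (le_sup_left : R₁ ≤ T))
  let fC : A →* (T ⧸ S.subgroupOf T) := π.comp (Subgroup.inclusion (le_sup_right : A ≤ T))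
  have hfK : ∀ x : R₁, fK x = π ⟨(x : G), (le_sup_left : R₁ ≤ T) x.2⟩ := fun x => rfl
  have hfC : ∀ a : A, fC a = π ⟨(a : G), (le_sup_right : A ≤ T) a.2⟩ := fun a => rfl
  have hfCinj : Function.Injective fC := by
    rw [injective_iff_map_eq_one]
    intro a ha
    rw [hfC, hπ1] at ha
    exact Subtype.ext (hRA a a.2 (hSR ha))
  refine ⟨T ⧸ S.subgroupOf T, inferInstance, inferInstance, fK.range, fC.range, ?_, ?_, ?_, ?_, ?_⟩
  · -- normality
    constructor
    intro y hy f
    obtain ⟨x, rfl⟩ := hy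
    obtain ⟨t, rfl⟩ := QuotientGroup.mk_surjective f
    have hmem : (t : G) * (x : G) * (t : G)⁻¹ ∈ R₁ :=
      (Subgroup.mem_normalizer_iff.mp (hTnR₁ t.2) x).mp x.2
    refine ⟨⟨(t : G) * (x : G) * (t : G)⁻¹, hmem⟩, ?_⟩
    rw [hfK, hfK]
    show π _ = π t * π _ * (π t)⁻¹
    rw [← map_inv, ← map_mul, ← map_mul]
    rfl
  · -- complement
    apply Subgroup.isComplement'_of_disjoint_and_mul_eq_univ
    · rw [Subgroup.disjoint_def]
      intro y hy1 hy2
      obtain ⟨x, rfl⟩ := hy1
      obtain ⟨a, ha⟩ := hy2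
      rw [hfK, hfC] at ha
      have h3 : (π ⟨(a : G), (le_sup_right : A ≤ T) a.2⟩)⁻¹ * π ⟨(x : G), (le_sup_left : R₁ ≤ T) x.2⟩
          = 1 := by rw [ha]; simp
      rw [← map_inv, ← map_mul, hπ1] at h3
      have h4 : (a : G)⁻¹ * (x : G) ∈ S := h3
      have h5 : (a : G) ∈ R := by
        have e : (a : G) = (x : G) * ((a : G)⁻¹ * (x : G))⁻¹ := by group
        rw [e]
        exact R.mul_mem x.2.1 (R.inv_mem (hSR h4))
      have h6 : (a : G) = 1 := hRA a a.2 h5
      have h7 : a = 1 := Subtype.ext h6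
      rw [hfK, ← ha, h7]
      exact map_one π
    · rw [Set.eq_univ_iff_forall]
      intro f
      obtain ⟨t, rfl⟩ := QuotientGroup.mk_surjective f
      obtain ⟨x, hx, a, ha, hxa⟩ := hTmem t t.2
      rw [Set.mem_mul]
      refine ⟨fK ⟨x, hx⟩, ⟨⟨x, hx⟩, rfl⟩, fC ⟨a, ha⟩, ⟨⟨a, ha⟩, rfl⟩, ?_⟩
      rw [hfK, hfC]
      show π _ * π _ = π t
      rw [← map_mul]
      congr 1
      exact Subtype.ext hxa
  · -- nontrivial kernel
    intro hbot
    have h1 : fK ⟨x₀, hx₀R₁⟩ ∈ fK.range := ⟨_, rfl⟩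
    rw [hbot, Subgroup.mem_bot, hfK, hπ1] at h1
    exact hx₀S h1
  · -- fixed point free
    intro c hc hc1
    rw [Subgroup.eq_bot_iff_forall]
    intro y hy
    obtain ⟨hyK, hyc⟩ := Subgroup.mem_inf.mp hy
    obtain ⟨x, rfl⟩ := hyK
    obtain ⟨a, rfl⟩ := hc
    have ha1 : (a : G) ≠ 1 := by
      intro h
      apply hc1
      have : a = 1 := Subtype.ext h
      rw [this]
      exact map_one fC
    rw [Subgroup.mem_centralizer_iff] at hyc
    have hcomm := hyc (fC a) rfl
    rw [hfK, hfC] at hcomm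
    have h3 : (π ⟨(a : G), (le_sup_right : A ≤ T) a.2⟩ * π ⟨(x : G), (le_sup_left : R₁ ≤ T) x.2⟩)⁻¹
        * (π ⟨(x : G), (le_sup_left : R₁ ≤ T) x.2⟩ * π ⟨(a : G), (le_sup_right : A ≤ T) a.2⟩)
        = 1 := by rw [hcomm]; simp
    rw [← map_mul, ← map_mul, ← map_inv, ← map_mul, hπ1] at h3
    have hs : ((a : G) * (x : G))⁻¹ * ((x : G) * (a : G)) ∈ S := h3
    set s : G := ((a : G) * (x : G))⁻¹ * ((x : G) * (a : G)) with hsdef
    have hsa : Commute s (a : G) := hAS a a.2 s hs
    have hconj : (a : G)⁻¹ * (x : G) * (a : G) = (x : G) * s := by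
      rw [hsdef]; group
    have hind : ∀ k : ℕ, ((a : G)⁻¹) ^ k * (x : G) * (a : G) ^ k = (x : G) * s ^ k := by
      intro k
      induction k with
      | zero => simp
      | succ k ih =>
        have e1 : ((a : G)⁻¹) ^ (k + 1) * (x : G) * (a : G) ^ (k + 1)
            = (a : G)⁻¹ * (((a : G)⁻¹) ^ k * (x : G) * (a : G) ^ k) * (a : G) := by
          rw [pow_succ' ((a : G)⁻¹) k, pow_succ (a : G) k]
          group
        rw [e1, ih]
        have e2 : (a : G)⁻¹ * ((x : G) * s ^ k) * (a : G)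
            = ((a : G)⁻¹ * (x : G) * (a : G)) * s ^ k := by
          have := (hsa.pow_left k).eq
          calc (a : G)⁻¹ * ((x : G) * s ^ k) * (a : G)
              = (a : G)⁻¹ * (x : G) * (s ^ k * (a : G)) := by group
            _ = (a : G)⁻¹ * (x : G) * ((a : G) * s ^ k) := by rw [this]
            _ = ((a : G)⁻¹ * (x : G) * (a : G)) * s ^ k := by group
        rw [e2, hconj, pow_succ' s k]
        group
    have hsk : s ^ Nat.card A = 1 := by
      have h1 := hind (Nat.card A)
      have h2 : (a : G) ^ Nat.card A = 1 := by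
        have h : (a : A) ^ Nat.card A = 1 := pow_card_eq_one'
        have h' := congrArg (fun z : A => (z : G)) h
        simpa only [Subgroup.coe_pow, Subgroup.coe_one] using h'
      rw [inv_pow, h2] at h1
      simpa using h1.symm
    obtain ⟨k, hk⟩ := hR ⟨s, hSR hs⟩
    have hsr : s ^ r ^ k = 1 := by
      have := congrArg Subtype.val hk
      simpa using this
    have hs1 : s = 1 := eq_one_of_pow_of_coprime hsk hsr (Nat.Coprime.pow_right k hAr)
    rw [hs1, mul_one] at hconj
    have hxa : (x : G) * (a : G) = (a : G) * (x : G) := by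
      calc (x : G) * (a : G) = (a : G) * ((a : G)⁻¹ * (x : G) * (a : G)) := by group
        _ = (a : G) * (x : G) := by rw [hconj]
    have hxS : (x : G) ∈ S := (hcent a a.2 ha1 x x.2.1).mp hxa
    rw [hfK, hπ1]
    exact hxS
  · exact ⟨MonoidHom.ofInjective hfCinj⟩

/-- If `H` complements the normal subgroup `N`, with coprime orders, and every nonidentity element
of `H` has the same proper centralizer `K` in `N`, then `H` is isomorphic to a complement acting
without fixed points on a nontrivial normal subgroup of some finite group. -/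
theorem frobenius_of_complement {G : Type u} [Group G] [Finite G] (N H K : Subgroup G) [N.Normal]
    (hc : N.IsComplement' H) (hcop : (Nat.card N).Coprime (Nat.card H)) (hKN : K ≤ N)
    (hKne : K ≠ N) (hH1 : H ≠ ⊥)
    (hcent : ∀ h ∈ H, h ≠ 1 → ∀ n ∈ N, (n * h = h * n ↔ n ∈ K)) :
    ∃ (F : Type u) (_ : Group F) (_ : Finite F) (Kf Cf : Subgroup F), Kf.Normal ∧
      Kf.IsComplement' Cf ∧ Kf ≠ ⊥ ∧
      (∀ c ∈ Cf, c ≠ 1 → Kf ⊓ Subgroup.centralizer {c} = ⊥) ∧ Nonempty (H ≃* Cf) := by
  classical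
  have hr : ∃ r : ℕ, r.Prime ∧ (Nat.card K).factorization r < (Nat.card N).factorization r := by
    by_contra hcon
    push_neg at hcon
    have hle : (Nat.card N).factorization ≤ (Nat.card K).factorization := by
      intro r
      by_cases hr : r.Prime
      · exact hcon r hr
      · rw [Nat.factorization_eq_zero_of_not_prime _ hr]; exact Nat.zero_le _
    have hdvd := (Nat.factorization_le_iff_dvd Nat.card_pos.ne' Nat.card_pos.ne').mp hle
    exact hKne (Subgroup.eq_of_le_of_card_ge hKN (Nat.le_of_dvd Nat.card_pos hdvd))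
  obtain ⟨r, hrp, hrlt⟩ := hr
  haveI : Fact r.Prime := ⟨hrp⟩
  have hKH : ∀ k ∈ K, ∀ h ∈ H, k * h = h * k := by
    intro k hk h hh
    by_cases h1 : h = 1
    · rw [h1]; simp
    · exact (hcent h hh h1 k (hKN hk)).mpr hk
  have hdisj : ∀ x, x ∈ N → x ∈ H → x = 1 :=
    fun x hxN hxH => Subgroup.disjoint_def.mp hc.disjoint hxN hxH
  have hdecomp : ∀ g : G, ∃ n ∈ N, ∃ h ∈ H, n * h = g := by
    intro g
    have : g ∈ ((N ⊔ H : Subgroup G) : Set G) := by rw [hc.sup_eq_top]; trivial
    rw [Subgroup.normal_mul] at this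
    exact Set.mem_mul.mp this
  have hTI : ∀ g : G, ∀ u ∈ H, u ≠ 1 → g * u * g⁻¹ ∈ H →
      g ∈ Subgroup.normalizer (H : Set G) := by
    intro g u hu hu1 hgu
    obtain ⟨n, hn, h', hh', rfl⟩ := hdecomp g
    set v := h' * u * h'⁻¹ with hv
    have hvH : v ∈ H := H.mul_mem (H.mul_mem hh' hu) (H.inv_mem hh')
    have hv1 : v ≠ 1 := by
      intro h
      apply hu1
      calc u = h'⁻¹ * v * h' := by rw [hv]; group
        _ = 1 := by rw [h]; group
    have hnv : n * v * n⁻¹ ∈ H := by
      have e : n * v * n⁻¹ = n * h' * u * (n * h')⁻¹ := by rw [hv]; group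
      rw [e]; exact hgu
    have hcomm : n * v * n⁻¹ * v⁻¹ = 1 := by
      apply hdisj
      · have e : n * v * n⁻¹ * v⁻¹ = n * (v * n⁻¹ * v⁻¹) := by group
        rw [e]
        exact N.mul_mem hn (Subgroup.Normal.conj_mem inferInstance _ (N.inv_mem hn) v)
      · exact H.mul_mem hnv (H.inv_mem hvH)
    have hnv' : n * v = v * n := by
      calc n * v = (n * v * n⁻¹ * v⁻¹) * v * n := by group
        _ = v * n := by rw [hcomm]; group
    have hnK : n ∈ K := (hcent v hvH hv1 n hn).mp hnv'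
    have hnN : n ∈ Subgroup.normalizer (H : Set G) :=
      mem_normalizer_of_commute H n (fun x hx => hKH n hnK x hx)
    exact Subgroup.mul_mem _ hnN (Subgroup.le_normalizer hh')
  obtain R₀ : Sylow r N := default
  set R₀' : Subgroup G := (R₀ : Subgroup N).map N.subtype with hR₀'
  set T : Subgroup G := Subgroup.normalizer (R₀' : Set G) with hT
  have hFr : T ⊔ N = ⊤ := Sylow.normalizer_sup_eq_top R₀
  have hidx : (N.subgroupOf T).index = Nat.card H := by
    have h1 : N.relIndex (T ⊔ N) = N.relIndex T := Subgroup.relIndex_sup_right T N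
    rw [hFr, Subgroup.relIndex_top_right] at h1
    have h2 : N.index = Nat.card H := hc.symm.index_eq_card
    show N.relIndex T = _
    rw [← h1, h2]
  have hcard : Nat.card (N.subgroupOf T) ∣ Nat.card N := by
    have e : Nat.card (N.subgroupOf T) = Nat.card ((N.subgroupOf T).map T.subtype) :=
      (Subgroup.card_map_of_injective T.subtype_injective).symm
    rw [e, Subgroup.subgroupOf_map_subtype]
    exact Subgroup.card_dvd_of_le inf_le_left
  have hcop' : (Nat.card (N.subgroupOf T)).Coprime (N.subgroupOf T).index := by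
    rw [hidx]
    exact Nat.Coprime.coprime_dvd_left hcard hcop
  obtain ⟨H₁', hH₁'⟩ := Subgroup.exists_right_complement'_of_coprime hcop'
  have hcH₁' : Nat.card H₁' = Nat.card H := by
    rw [← hidx]
    exact hH₁'.symm.index_eq_card.symm
  set H₁ : Subgroup G := H₁'.map T.subtype with hH₁
  have hcH₁ : Nat.card H₁ = Nat.card H := by
    rw [hH₁, Subgroup.card_map_of_injective T.subtype_injective, hcH₁']
  have hH₁T : H₁ ≤ T := Subgroup.map_subtype_le _
  have hHidx : H.index = Nat.card N := hc.index_eq_card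
  obtain ⟨y, hy⟩ := exists_conj_le_ti H hTI H₁ (by rw [hcH₁, hHidx]; exact hcop.symm)
  have hsurj : ∀ h ∈ H, ∃ t ∈ H₁, y⁻¹ * t * y = h := by
    let φ : H₁ → H := fun t => ⟨y⁻¹ * (t : G) * y, hy t t.2⟩
    have hinj : Function.Injective φ := by
      intro t₁ t₂ h
      have h' : y⁻¹ * (t₁ : G) * y = y⁻¹ * (t₂ : G) * y := congrArg Subtype.val h
      apply Subtype.ext
      calc (t₁ : G) = y * (y⁻¹ * (t₁ : G) * y) * y⁻¹ := by group
        _ = y * (y⁻¹ * (t₂ : G) * y) * y⁻¹ := by rw [h']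
        _ = (t₂ : G) := by group
    have hbij := hinj.bijective_of_nat_card_le (le_of_eq hcH₁.symm)
    intro h hh
    obtain ⟨t, ht⟩ := hbij.2 ⟨h, hh⟩
    exact ⟨t, t.2, congrArg Subtype.val ht⟩
  set R : Subgroup G := R₀'.map (MulAut.conj y⁻¹).toMonoidHom with hRdef
  have hRmem : ∀ x, x ∈ R ↔ ∃ x₀ ∈ R₀', y⁻¹ * x₀ * y = x := by
    intro x
    rw [hRdef, Subgroup.mem_map]
    constructor <;> rintro ⟨x₀, hx₀, rfl⟩ <;> exact ⟨x₀, hx₀, by simp [MulAut.conj_apply]⟩
  have hRp : IsPGroup r R := (R₀.isPGroup'.map N.subtype).map _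
  have hR₀'N : R₀' ≤ N := Subgroup.map_subtype_le _
  have hRN : R ≤ N := by
    intro x hx
    obtain ⟨x₀, hx₀, rfl⟩ := (hRmem x).mp hx
    have := Subgroup.Normal.conj_mem (inferInstance : N.Normal) x₀ (hR₀'N hx₀) y⁻¹
    simpa using this
  have hcR : Nat.card R = r ^ (Nat.card N).factorization r := by
    rw [hRdef, Subgroup.card_map_of_injective (MulAut.conj y⁻¹).injective, hR₀',
      Subgroup.card_map_of_injective N.subtype_injective]
    exact R₀.card_eq_multiplicity
  have hRK : ¬ R ≤ K := by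
    intro h
    have h1 := Subgroup.card_dvd_of_le h
    rw [hcR] at h1
    have h2 := (hrp.pow_dvd_iff_le_factorization Nat.card_pos.ne').mp h1
    omega
  have hHR : ∀ a ∈ H, ∀ x ∈ R, a * x * a⁻¹ ∈ R := by
    intro a ha x hx
    obtain ⟨t, ht, rfl⟩ := hsurj a ha
    obtain ⟨x₀, hx₀, rfl⟩ := (hRmem x).mp hx
    rw [hRmem]
    refine ⟨t * x₀ * t⁻¹, (Subgroup.mem_normalizer_iff.mp (hH₁T ht) x₀).mp hx₀, ?_⟩
    group
  have hAr : (Nat.card H).Coprime r := by
    have hrN : r ∣ Nat.card N := Nat.dvd_of_factorization_pos (by omega)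
    exact Nat.Coprime.coprime_dvd_right hrN hcop.symm
  exact frobenius_of_action r R H (R ⊓ K) hRp hAr hH1 hHR inf_le_left
    (fun h => hRK (by rw [← h]; exact inf_le_right))
    (fun a ha ha1 x hx => by
      rw [hcent a ha ha1 x (hRN hx), Subgroup.mem_inf]
      exact ⟨fun h => ⟨hx, h⟩, fun h => h.2⟩)

end Cfsg.Agent.Lib.Helper73.TIHall
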